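import Mathlib.RingTheory.SimpleModule.Isotypic
import Cfsg.Agent.Lib.SmallDim.Basic

/-!
# The module of a matrix group and the action of its normaliser

For `N ≤ GL ι F` the space `ι → F` is a module over the algebra of endomorphisms generated by `N`.
An element normalising `N` acts on the submodules of this module, preserving isomorphism of
submodules; if a subgroup normalising `N` is irreducible, the module is semisimple.
-/

set_option autoImplicit false

namespace CfsgLib.SmallDim

open scoped MatrixGroups Matrix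
open Cfsg.Geo

variable {ι : Type} [Fintype ι] [DecidableEq ι] {F : Type*} [Field F]

/-- The action of an invertible matrix as a linear automorphism. -/
def actEquiv (g : GL ι F) : (ι → F) ≃ₗ[F] (ι → F) where
  toFun := act g
  invFun := act g⁻¹
  left_inv := act_inv_act g
  right_inv := act_act_inv g
  map_add' := Matrix.mulVec_add _
  map_smul' := fun c v => Matrix.mulVec_smul _ c v

lemma actEquiv_apply (g : GL ι F) (v : ι → F) : actEquiv g v = act g v := rfl

/-- The algebra of endomorphisms generated by the elements of `N`. -/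
def adjN (N : Subgroup (GL ι F)) : Subalgebra F (Module.End F (ι → F)) :=
  Algebra.adjoin F ((fun g : GL ι F => (actEquiv g).toLinearMap) '' (N : Set (GL ι F)))

/-- `adjN N` as a ring of its own, acting on `ι → F`. -/
def AdjN (N : Subgroup (GL ι F)) : Type _ := adjN N

instance instRingAdjN (N : Subgroup (GL ι F)) : Ring (AdjN N) :=
  inferInstanceAs (Ring (adjN N))

instance instAlgebraAdjN (N : Subgroup (GL ι F)) : Algebra F (AdjN N) :=
  inferInstanceAs (Algebra F (adjN N))

/-- The inclusion of `AdjN N` into the endomorphisms. -/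
def AdjN.val {N : Subgroup (GL ι F)} : AdjN N →ₐ[F] Module.End F (ι → F) := (adjN N).val

instance instModuleAdjN (N : Subgroup (GL ι F)) : Module (AdjN N) (ι → F) :=
  Module.compHom (ι → F) (AdjN.val (N := N)).toRingHom

lemma AdjN.smul_def {N : Subgroup (GL ι F)} (x : AdjN N) (v : ι → F) : x • v = AdjN.val x v := rfl

instance instTowerAdjN (N : Subgroup (GL ι F)) : IsScalarTower F (AdjN N) (ι → F) :=
  ⟨fun c x v => by simp [AdjN.smul_def, map_smul]⟩

/-- The element of the algebra `adjN N` given by `g ∈ N`. -/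
def genN {N : Subgroup (GL ι F)} {g : GL ι F} (hg : g ∈ N) : AdjN N :=
  ⟨(actEquiv g).toLinearMap, Algebra.subset_adjoin ⟨g, hg, rfl⟩⟩

lemma genN_smul {N : Subgroup (GL ι F)} {g : GL ι F} (hg : g ∈ N) (v : ι → F) :
    genN hg • v = act g v := rfl

lemma adjN_induction {N : Subgroup (GL ι F)} {p : Module.End F (ι → F) → Prop}
    (hgen : ∀ g ∈ N, p (actEquiv g).toLinearMap) (hscal : ∀ c : F, p (algebraMap F _ c))
    (hadd : ∀ a b, p a → p b → p (a + b)) (hmul : ∀ a b, p a → p b → p (a * b))
    (x : AdjN N) : p (AdjN.val x) := by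
  obtain ⟨x, hx⟩ := x
  change p x
  induction hx using Algebra.adjoin_induction with
  | mem x hx => obtain ⟨g, hg, rfl⟩ := hx; exact hgen g hg
  | algebraMap c => exact hscal c
  | add a b _ _ ha hb => exact hadd a b ha hb
  | mul a b _ _ ha hb => exact hmul a b ha hb

/-- An `N`-invariant subspace as a submodule. -/
def ofInvariant (N : Subgroup (GL ι F)) (W : Submodule F (ι → F))
    (h : ∀ g ∈ N, ∀ v ∈ W, act g v ∈ W) : Submodule (AdjN N) (ι → F) where
  carrier := W
  add_mem' := W.add_mem
  zero_mem' := W.zero_mem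
  smul_mem' := fun x v hv => by
    refine adjN_induction (p := fun f => ∀ v ∈ W, f v ∈ W) (fun g hg v hv => h g hg v hv)
      (fun c v hv => ?_) (fun a b ha hb v hv => ?_) (fun a b ha hb v hv => ha _ (hb v hv)) x v hv
    · rw [Module.algebraMap_end_apply]; exact W.smul_mem c hv
    · rw [LinearMap.add_apply]; exact W.add_mem (ha v hv) (hb v hv)

lemma act_mem_of_mem {N : Subgroup (GL ι F)} (S : Submodule (AdjN N) (ι → F)) {g : GL ι F}
    (hg : g ∈ N) {v : ι → F} (hv : v ∈ S) : act g v ∈ S :=
  genN_smul hg v ▸ S.smul_mem _ hv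

/-- A linear map commuting with `N` as a module endomorphism. -/
def ofCommute (N : Subgroup (GL ι F)) (f : (ι → F) →ₗ[F] (ι → F))
    (h : ∀ g ∈ N, ∀ v, f (act g v) = act g (f v)) : Module.End (AdjN N) (ι → F) where
  toFun := f
  map_add' := f.map_add
  map_smul' := fun x v => by
    refine adjN_induction (p := fun a => ∀ v, f (a v) = a (f v)) h
      (fun c v => ?_) (fun a b ha hb v => ?_) (fun a b ha hb v => ?_) x v
    · simp [Module.algebraMap_end_apply]
    · simp [ha, hb]
    · change f (a (b v)) = a (b (f v)); rw [ha, hb]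

lemma end_commute {N : Subgroup (GL ι F)} (f : Module.End (AdjN N) (ι → F)) {g : GL ι F}
    (hg : g ∈ N) (v : ι → F) : f (act g v) = act g (f v) := by
  rw [← genN_smul hg, map_smul, genN_smul]

/-- `g` normalises `N`. -/
def Normalises (g : GL ι F) (N : Subgroup (GL ι F)) : Prop :=
  (∀ x ∈ N, g * x * g⁻¹ ∈ N) ∧ ∀ x ∈ N, g⁻¹ * x * g ∈ N

lemma Normalises.inv {g : GL ι F} {N : Subgroup (GL ι F)} (h : Normalises g N) :
    Normalises g⁻¹ N := ⟨fun x hx => by simpa using h.2 x hx, fun x hx => by simpa using h.1 x hx⟩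

lemma NormalIn.normalises {N H : Subgroup (GL ι F)} (h : NormalIn N H) {g : GL ι F} (hg : g ∈ H) :
    Normalises g N := ⟨fun _ hx => h.conj g hg _ hx, fun _ hx => h.conj' hg hx⟩

lemma Normalises.conj_mem_adjN {g : GL ι F} {N : Subgroup (GL ι F)} (h : Normalises g N)
    (x : AdjN N) : ∃ y : AdjN N, ∀ v, y • act g v = act g (x • v) := by
  refine adjN_induction (p := fun a => ∃ y : AdjN N, ∀ v, y • act g v = act g (a v))
    (fun k hk => ⟨genN (h.1 k hk), fun v => ?_⟩) (fun c => ⟨algebraMap F _ c, fun v => ?_⟩)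
    (fun a b ⟨y, hy⟩ ⟨z, hz⟩ => ⟨y + z, fun v => ?_⟩)
    (fun a b ⟨y, hy⟩ ⟨z, hz⟩ => ⟨y * z, fun v => ?_⟩) x
  · rw [genN_smul, actEquiv_apply' k, ← act_mul, ← act_mul]; group
  · rw [algebraMap_smul, Module.algebraMap_end_apply]
    exact (Matrix.mulVec_smul _ c v).symm
  · rw [add_smul, hy, hz]
    exact (Matrix.mulVec_add _ _ _).symm
  · rw [mul_smul, hz, hy]; rfl
where
  actEquiv_apply' (k : GL ι F) {v : ι → F} : (actEquiv k).toLinearMap v = act k v := rfl

/-- The translate of a submodule by an element normalising `N`. -/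
def translate {g : GL ι F} {N : Subgroup (GL ι F)} (h : Normalises g N)
    (S : Submodule (AdjN N) (ι → F)) : Submodule (AdjN N) (ι → F) where
  carrier := {v | act g⁻¹ v ∈ S}
  add_mem' := fun {a b} ha hb => by
    show act g⁻¹ (a + b) ∈ S
    rw [act, Matrix.mulVec_add]; exact S.add_mem ha hb
  zero_mem' := by show act g⁻¹ 0 ∈ S; simp [act]
  smul_mem' := fun x v hv => by
    show act g⁻¹ (x • v) ∈ S
    obtain ⟨y, hy⟩ := h.inv.conj_mem_adjN x
    rw [← hy v]; exact S.smul_mem y hv

lemma mem_translate {g : GL ι F} {N : Subgroup (GL ι F)} {h : Normalises g N}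
    {S : Submodule (AdjN N) (ι → F)} {v : ι → F} : v ∈ translate h S ↔ act g⁻¹ v ∈ S := Iff.rfl

lemma act_mem_translate {g : GL ι F} {N : Subgroup (GL ι F)} {h : Normalises g N}
    {S : Submodule (AdjN N) (ι → F)} {v : ι → F} : act g v ∈ translate h S ↔ v ∈ S := by
  rw [mem_translate, act_inv_act]

/-- Translation by an element normalising `N` is an automorphism of the lattice of submodules. -/
def translateIso {g : GL ι F} {N : Subgroup (GL ι F)} (h : Normalises g N) :
    Submodule (AdjN N) (ι → F) ≃o Submodule (AdjN N) (ι → F) where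
  toFun := translate h
  invFun := translate h.inv
  left_inv S := by ext v; simp [mem_translate]
  right_inv S := by ext v; simp [mem_translate]
  map_rel_iff' {S T} := by
    refine ⟨fun hle v hv => ?_, fun hle v hv => hle hv⟩
    exact (act_mem_translate (h := h)).1 (hle ((act_mem_translate (h := h)).2 hv))

lemma finrank_translate {g : GL ι F} {N : Subgroup (GL ι F)} (h : Normalises g N)
    (S : Submodule (AdjN N) (ι → F)) :
    Module.finrank F ((translate h S).restrictScalars F) = Module.finrank F (S.restrictScalars F) := by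
  have : (translate h S).restrictScalars F =
      (S.restrictScalars F).map (actEquiv g : (ι → F) →ₗ[F] (ι → F)) := by
    ext v
    simp only [Submodule.restrictScalars_mem, Submodule.mem_map, LinearEquiv.coe_coe,
      actEquiv_apply, mem_translate]
    exact ⟨fun hv => ⟨_, hv, act_act_inv g v⟩, fun ⟨w, hw, hwv⟩ => hwv ▸ by rwa [act_inv_act]⟩
  rw [this, LinearEquiv.finrank_map_eq]

/-- Isomorphic submodules have isomorphic translates. -/
lemma translate_equiv {g : GL ι F} {N : Subgroup (GL ι F)} (h : Normalises g N)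
    {S T : Submodule (AdjN N) (ι → F)} (e : S ≃ₗ[AdjN N] T) :
    Nonempty (translate h S ≃ₗ[AdjN N] translate h T) := by
  let φ : translate h S → translate h T := fun v =>
    ⟨act g (e ⟨act g⁻¹ v, v.2⟩ : ι → F), act_mem_translate.2 (e ⟨act g⁻¹ v, v.2⟩).2⟩
  let ψ : translate h T → translate h S := fun v =>
    ⟨act g (e.symm ⟨act g⁻¹ v, v.2⟩ : ι → F), act_mem_translate.2 (e.symm ⟨act g⁻¹ v, v.2⟩).2⟩
  refine ⟨{ toFun := φ, invFun := ψ, map_add' := fun a b => ?_, map_smul' := fun x a => ?_,
            left_inv := fun a => ?_, right_inv := fun a => ?_ }⟩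
  · apply Subtype.ext
    show act g (e ⟨act g⁻¹ (a + b : ι → F), _⟩ : ι → F) =
      act g (e ⟨act g⁻¹ a, a.2⟩ : ι → F) + act g (e ⟨act g⁻¹ b, b.2⟩ : ι → F)
    have : (⟨act g⁻¹ (a + b : ι → F), (a + b).2⟩ : S) = ⟨act g⁻¹ a, a.2⟩ + ⟨act g⁻¹ b, b.2⟩ :=
      Subtype.ext (Matrix.mulVec_add _ _ _)
    rw [this, map_add, Submodule.coe_add, act, Matrix.mulVec_add]
  · apply Subtype.ext
    obtain ⟨y, hy⟩ := h.inv.conj_mem_adjN x
    show act g (e ⟨act g⁻¹ (x • (a : ι → F)), _⟩ : ι → F) =
      x • act g (e ⟨act g⁻¹ a, a.2⟩ : ι → F)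
    have : (⟨act g⁻¹ (x • (a : ι → F)), (x • a).2⟩ : S) = y • ⟨act g⁻¹ a, a.2⟩ :=
      Subtype.ext (hy a).symm
    rw [this, map_smul, Submodule.coe_smul]
    have h1 := hy (act g (e ⟨act g⁻¹ a, a.2⟩ : ι → F))
    rw [act_inv_act] at h1
    rw [h1, act_act_inv]
  · apply Subtype.ext
    show act g (e.symm ⟨act g⁻¹ (act g (e ⟨act g⁻¹ a, a.2⟩ : ι → F)), _⟩ : ι → F) = a
    simp
  · apply Subtype.ext
    show act g (e ⟨act g⁻¹ (act g (e.symm ⟨act g⁻¹ a, a.2⟩ : ι → F)), _⟩ : ι → F) = a
    simp

lemma translate_isotypicComponent {g : GL ι F} {N : Subgroup (GL ι F)} (h : Normalises g N)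
    (S : Submodule (AdjN N) (ι → F)) :
    translate h (isotypicComponent (AdjN N) (ι → F) S) =
      isotypicComponent (AdjN N) (ι → F) (translate h S) := by
  show translateIso h _ = _
  unfold isotypicComponent
  rw [(translateIso h).map_sSup, ← sSup_image]
  congr 1
  ext T
  constructor
  · rintro ⟨m, ⟨e⟩, rfl⟩
    exact translate_equiv h e
  · rintro ⟨e⟩
    refine ⟨translate h.inv T, ?_, (translateIso h).right_inv T⟩
    obtain ⟨e'⟩ := translate_equiv h.inv e
    exact ⟨e'.trans (LinearEquiv.ofEq _ _ ((translateIso h).left_inv S))⟩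

lemma isSimpleModule_translate {g : GL ι F} {N : Subgroup (GL ι F)} (h : Normalises g N)
    (S : Submodule (AdjN N) (ι → F)) [IsSimpleModule (AdjN N) S] :
    IsSimpleModule (AdjN N) (translate h S) := by
  rw [isSimpleModule_iff_isAtom]
  exact ((translateIso h).isAtom_iff S).2 (isSimpleModule_iff_isAtom.1 inferInstance)

/-- A non-zero family of submodules closed under translation by an irreducible `H` spans. -/
lemma sSup_eq_top_of_translate {H N : Subgroup (GL ι F)} (hH : ActsIrreducibly (matrixSet H))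
    (hN : NormalIn N H) {s : Set (Submodule (AdjN N) (ι → F))} (hne : sSup s ≠ ⊥)
    (hs : ∀ g (hg : g ∈ H), ∀ S ∈ s, translate (hN.normalises hg) S ∈ s) : sSup s = ⊤ := by
  have hinv : ∀ g ∈ H, ∀ v ∈ (sSup s).restrictScalars F, act g v ∈ (sSup s).restrictScalars F := by
    intro g hg v hv
    rw [Submodule.restrictScalars_mem] at hv ⊢
    have hle : translate (hN.normalises hg) (sSup s) ≤ sSup s := by
      show translateIso (hN.normalises hg) _ ≤ _
      rw [(translateIso (hN.normalises hg)).map_sSup]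
      exact iSup₂_le fun S hS => le_sSup (hs g hg S hS)
    exact hle (act_mem_translate.2 hv)
  rcases actsIrreducibly_iff.1 hH _ hinv with h | h
  · exact absurd ((Submodule.restrictScalars_eq_bot_iff F _ _).1 h) hne
  · exact (Submodule.restrictScalars_eq_top_iff F _ _).1 h

/-- Clifford: the module of a normal subgroup of an irreducible group is semisimple. -/
lemma isSemisimpleModule_adjN {H N : Subgroup (GL ι F)} (hH : ActsIrreducibly (matrixSet H))
    (hN : NormalIn N H) : IsSemisimpleModule (AdjN N) (ι → F) := by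
  rcases subsingleton_or_nontrivial (ι → F) with _ | _
  · exact IsSemisimpleModule.of_sSup_simples_eq_top (Subsingleton.elim _ _)
  have : IsArtinian (AdjN N) (ι → F) := isArtinian_of_tower F inferInstance
  obtain ⟨S, hS⟩ := IsAtomic.exists_atom (Submodule (AdjN N) (ι → F))
  refine IsSemisimpleModule.of_sSup_simples_eq_top (sSup_eq_top_of_translate hH hN ?_ ?_)
  · intro h0
    have : S ≤ sSup {m : Submodule (AdjN N) (ι → F) | IsSimpleModule (AdjN N) m} :=
      le_sSup (isSimpleModule_iff_isAtom.2 hS)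
    rw [h0, le_bot_iff] at this
    exact hS.1 this
  · intro g hg T hT
    have : IsSimpleModule (AdjN N) T := hT
    exact isSimpleModule_translate _ T

end CfsgLib.SmallDim
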