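import Mathlib.LinearAlgebra.GeneralLinearGroup.AlgEquiv
import Cfsg.Agent.Lib.SmallDim.Basic

/-!
# Systems of matrix units

A system of matrix units whose only commutants are scalars is a change of basis of the standard one.
-/

set_option autoImplicit false

namespace CfsgLib.SmallDim

open scoped MatrixGroups Matrix

variable {ι : Type} [Fintype ι] [DecidableEq ι] {F : Type*} [Field F]
variable {κ : Type} [Fintype κ] [DecidableEq κ]

/-- A full system of matrix units with scalar commutant is standard in some basis. -/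
theorem exists_conj_of_matrixUnits [Nonempty ι] [Nonempty κ] {E : κ → κ → Matrix ι ι F}
    (hmul : ∀ a b c d, E a b * E c d = if b = c then E a d else 0) (hsum : ∑ a, E a a = 1)
    (hcomm : ∀ M : Matrix ι ι F, (∀ a b, M * E a b = E a b * M) → ∃ c : F, M = c • 1) :
    ∃ (e : ι ≃ κ) (P : GL ι F), ∀ a b, E a b * (P : Matrix ι ι F) =
      (P : Matrix ι ι F) * Matrix.reindex e.symm e.symm (Matrix.single a b 1) := by
  classical
  obtain ⟨a₀, ha₀⟩ : ∃ a, E a a ≠ 0 := by
    by_contra h
    push Not at h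
    rw [Finset.sum_eq_zero fun a _ => h a] at hsum
    exact zero_ne_one hsum
  obtain ⟨v, hv⟩ : ∃ v, E a₀ a₀ *ᵥ v ≠ 0 := by
    by_contra h
    push Not at h
    exact ha₀ (Matrix.ext_of_mulVec_single fun i => (h _).trans (Matrix.zero_mulVec _).symm)
  set v₀ := E a₀ a₀ *ᵥ v
  have hv₀ : E a₀ a₀ *ᵥ v₀ = v₀ := by
    show E a₀ a₀ *ᵥ (E a₀ a₀ *ᵥ v) = _
    rw [Matrix.mulVec_mulVec, hmul, if_pos rfl]
  let w : κ → (ι → F) := fun a => E a a₀ *ᵥ v₀
  have hEw : ∀ a b c, E a b *ᵥ w c = if b = c then w a else 0 := by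
    intro a b c
    simp only [w, Matrix.mulVec_mulVec, hmul]
    split <;> simp
  have hli : LinearIndependent F w := by
    rw [Fintype.linearIndependent_iff]
    intro g hg b
    have := congrArg (E a₀ b *ᵥ ·) hg
    simp only [Matrix.mulVec_sum, Matrix.mulVec_smul, hEw, Matrix.mulVec_zero, smul_ite, smul_zero,
      Finset.sum_ite_eq, Finset.mem_univ, if_true] at this
    have hw0 : w a₀ = v₀ := hv₀
    rw [hw0] at this
    exact (smul_eq_zero.1 this).resolve_right hv
  obtain ⟨i₀, hi₀⟩ := Function.ne_iff.1 hv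
  have hi₀' : v₀ i₀ ≠ 0 := hi₀
  -- the projection onto the span of `w` commutes with all units
  let f : (ι → F) →ₗ[F] (ι → F) :=
    { toFun := fun x => ∑ a, ((E a₀ a *ᵥ x) i₀ / v₀ i₀) • w a
      map_add' := fun x y => by
        simp only [Matrix.mulVec_add, Pi.add_apply, add_div, add_smul, Finset.sum_add_distrib]
      map_smul' := fun c x => by
        simp only [Matrix.mulVec_smul, Pi.smul_apply, smul_eq_mul, RingHom.id_apply, Finset.smul_sum,
          smul_smul, mul_div_assoc] }
  have hf : ∀ a b x, f (E a b *ᵥ x) = E a b *ᵥ f x := by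
    intro a b x
    show ∑ d, ((E a₀ d *ᵥ (E a b *ᵥ x)) i₀ / v₀ i₀) • w d =
      E a b *ᵥ ∑ d, ((E a₀ d *ᵥ x) i₀ / v₀ i₀) • w d
    simp only [Matrix.mulVec_sum, Matrix.mulVec_smul, hEw, smul_ite, smul_zero, Finset.sum_ite_eq,
      Finset.mem_univ, if_true, Matrix.mulVec_mulVec, hmul]
    rw [Finset.sum_eq_single a]
    · rw [if_pos rfl]
    · intro d _ hd; rw [if_neg hd, Matrix.zero_mulVec]; simp
    · exact fun h => absurd (Finset.mem_univ a) h
  obtain ⟨c, hc⟩ := hcomm (LinearMap.toMatrix' f) fun a b => by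
    apply Matrix.ext_of_mulVec_single
    intro i
    rw [← Matrix.mulVec_mulVec, ← Matrix.mulVec_mulVec, ← Matrix.toLin'_apply, Matrix.toLin'_toMatrix',
      ← Matrix.toLin'_apply (LinearMap.toMatrix' f), Matrix.toLin'_toMatrix', hf]
  have hfc : ∀ x, f x = c • x := fun x => by
    have := congrArg (· *ᵥ x) hc
    simp only [← Matrix.toLin'_apply (LinearMap.toMatrix' f), Matrix.toLin'_toMatrix',
      Matrix.smul_mulVec, Matrix.one_mulVec] at this
    exact this
  have hc1 : c = 1 := by
    have h1 : f v₀ = v₀ := by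
      show ∑ d, ((E a₀ d *ᵥ v₀) i₀ / v₀ i₀) • w d = v₀
      rw [Finset.sum_eq_single a₀]
      · rw [hv₀, div_self hi₀', one_smul]; exact hv₀
      · intro d _ hd
        have : E a₀ d *ᵥ v₀ = 0 := by
          rw [← hv₀, Matrix.mulVec_mulVec, hmul, if_neg hd, Matrix.zero_mulVec]
        simp [this]
      · exact fun h => absurd (Finset.mem_univ a₀) h
    rw [hfc] at h1
    have := congrFun h1 i₀
    simp only [Pi.smul_apply, smul_eq_mul] at this
    exact mul_right_cancel₀ hi₀' (this.trans (one_mul _).symm)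
  have hspan : ⊤ ≤ Submodule.span F (Set.range w) := by
    intro x _
    rw [show x = f x by rw [hfc, hc1, one_smul]]
    exact Submodule.sum_mem _ fun a _ =>
      Submodule.smul_mem _ _ (Submodule.subset_span (Set.mem_range_self a))
  let B := Module.Basis.mk hli hspan
  let e : ι ≃ κ := (Pi.basisFun F ι).indexEquiv B
  let B' := B.reindex e.symm
  let P : GL ι F := @unitOfInvertible _ _ _ ((Pi.basisFun F ι).invertibleToMatrix B')
  have hP : ∀ i c, (P : Matrix ι ι F) i c = w (e c) i := fun i c => by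
    simp [P, B', B, Module.Basis.toMatrix_apply]
  refine ⟨e, P, fun a b => ?_⟩
  ext i c
  have hl : (E a b * (P : Matrix ι ι F)) i c = (E a b *ᵥ w (e c)) i := by
    simp [Matrix.mul_apply, Matrix.mulVec, dotProduct, hP]
  rw [hl, hEw, Matrix.mul_apply, Finset.sum_eq_single (e.symm a)]
  · by_cases h : b = e c <;> simp [h, hP]
  · intro j _ hj
    have : a ≠ e j := fun h => hj (by rw [h, Equiv.symm_apply_apply])
    simp [this]
  · exact fun h => absurd (Finset.mem_univ _) h

/-- Automorphisms of a matrix algebra are inner. -/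
theorem exists_inner (φ : Matrix ι ι F ≃ₐ[F] Matrix ι ι F) :
    ∃ a : GL ι F, ∀ x, φ x * (a : Matrix ι ι F) = (a : Matrix ι ι F) * x := by
  obtain ⟨T, hT⟩ := AlgEquiv.eq_linearEquivConjAlgEquiv
    ((Matrix.toLinAlgEquiv'.symm.trans φ).trans Matrix.toLinAlgEquiv')
  let a : GL ι F :=
    { val := LinearMap.toMatrix' (T : (ι → F) →ₗ[F] (ι → F))
      inv := LinearMap.toMatrix' (T.symm : (ι → F) →ₗ[F] (ι → F))
      val_inv := by rw [← LinearMap.toMatrix'_comp, LinearEquiv.comp_coe, LinearEquiv.symm_trans_self]; simp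
      inv_val := by rw [← LinearMap.toMatrix'_comp, LinearEquiv.comp_coe, LinearEquiv.self_trans_symm]; simp }
  refine ⟨a, fun x => Matrix.toLin'.injective (LinearMap.ext fun v => ?_)⟩
  have h := congrArg (fun f => f (Matrix.toLinAlgEquiv' x)) hT
  simp only [AlgEquiv.trans_apply, AlgEquiv.symm_apply_apply] at h
  have h' := LinearMap.congr_fun h (T v)
  simp only [Matrix.toLinAlgEquiv'_apply, LinearEquiv.conjAlgEquiv_apply, LinearMap.coe_comp,
    LinearEquiv.coe_coe, Function.comp_apply, LinearEquiv.symm_apply_apply] at h'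
  simp only [Matrix.toLin'_mul, LinearMap.coe_comp, Function.comp_apply, a, Matrix.toLin'_toMatrix',
    LinearEquiv.coe_coe, Matrix.toLin'_apply]
  exact h'

end CfsgLib.SmallDim
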