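import Mathlib.RingTheory.SimpleModule.WedderburnArtin
import Mathlib.RingTheory.SimpleRing.Matrix
import Mathlib.RingTheory.LittleWedderburn
import Cfsg.Agent.Lib.SmallDim.CliffordModule
import Cfsg.Agent.Lib.SmallDim.MatrixUnits

/-!
# Burnside's theorem and realisation over the field of traces
-/

set_option autoImplicit false
set_option linter.style.haveILetI false

namespace CfsgLib.SmallDim

open scoped MatrixGroups Matrix
open Cfsg.Geo

variable {ι : Type} [Fintype ι] [DecidableEq ι] {F : Type*} [Field F]

/-- Burnside: an absolutely irreducible group spans the matrix algebra. -/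
theorem span_eq_top_of_absIrred [Nonempty ι] {N : Subgroup (GL ι F)}
    (h : ActsAbsolutelyIrreducibly (matrixSet N)) :
    Submodule.span F (matrixSet N) = ⊤ := by
  classical
  have : IsSimpleModule (AdjN N) (ι → F) := by
    have hnt : Nontrivial (ι → F) := inferInstance
    refine @IsSimpleModule.mk _ _ _ _ _ { exists_pair_ne := ⟨⊥, ⊤, ?_⟩, eq_bot_or_eq_top := fun S => ?_ }
    · exact bot_ne_top
    · rcases actsIrreducibly_iff.1 h.1 (S.restrictScalars F) (fun g hg v hv => act_mem_of_mem S hg hv)
        with h' | h'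
      · exact Or.inl ((Submodule.restrictScalars_eq_bot_iff F _ _).1 h')
      · exact Or.inr ((Submodule.restrictScalars_eq_top_iff F _ _).1 h')
  have hend : ∀ f : Module.End (AdjN N) (ι → F), ∃ c : F, ∀ v, f v = c • v := by
    intro f
    obtain ⟨c, hc⟩ := h.2 (LinearMap.toMatrix' (f.restrictScalars F)) (by
      rintro _ ⟨g, hg, rfl⟩
      apply Matrix.ext_of_mulVec_single
      intro i
      rw [← Matrix.mulVec_mulVec, ← Matrix.mulVec_mulVec, ← Matrix.toLin'_apply,
        Matrix.toLin'_toMatrix', ← Matrix.toLin'_apply (LinearMap.toMatrix' _), Matrix.toLin'_toMatrix']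
      exact end_commute f hg _)
    refine ⟨c, fun v => ?_⟩
    have := congrArg (· *ᵥ v) hc
    simp only [← Matrix.toLin'_apply (LinearMap.toMatrix' _), Matrix.toLin'_toMatrix',
      Matrix.smul_mulVec, Matrix.one_mulVec] at this
    exact this
  have : Module.Finite F (ι → F) := inferInstance
  have : Module.Finite (Module.End (AdjN N) (ι → F)) (ι → F) :=
    Module.Finite.of_restrictScalars_finite F _ _
  rw [eq_top_iff]
  intro M _
  let φ : Module.End (Module.End (AdjN N) (ι → F)) (ι → F) :=
    { toFun := fun v => M *ᵥ v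
      map_add' := Matrix.mulVec_add M
      map_smul' := fun f v => by
        obtain ⟨c, hc⟩ := hend f
        simp only [RingHom.id_apply, Module.End.smul_def, hc, Matrix.mulVec_smul] }
  obtain ⟨r, hr⟩ := Module.Finite.toModuleEnd_moduleEnd_surjective (R := AdjN N) (M := ι → F) φ
  have hspan : ∀ x : AdjN N,
      LinearMap.toMatrix' (AdjN.val x) ∈ Submodule.span F (matrixSet N) := by
    refine adjN_induction (p := fun a => LinearMap.toMatrix' a ∈ Submodule.span F (matrixSet N))
      (fun g hg => ?_) (fun c => ?_) (fun a b ha hb => ?_) (fun a b ha hb => ?_)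
    · refine Submodule.subset_span ⟨g, hg, ?_⟩
      apply Matrix.ext_of_mulVec_single
      intro i
      rw [← Matrix.toLin'_apply (LinearMap.toMatrix' _), Matrix.toLin'_toMatrix']
      rfl
    · have h1 : (1 : Matrix ι ι F) ∈ Submodule.span F (matrixSet N) :=
        Submodule.subset_span ⟨1, N.one_mem, Units.val_one⟩
      rw [Algebra.algebraMap_eq_smul_one, map_smul, LinearMap.toMatrix'_one]
      exact Submodule.smul_mem _ c h1
    · rw [map_add]; exact Submodule.add_mem _ ha hb
    · rw [LinearMap.toMatrix'_mul]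
      have := Submodule.mul_mem_mul ha hb
      rw [Submodule.span_mul_span] at this
      refine Submodule.span_mono ?_ this
      rintro _ ⟨_, ⟨g, hg, rfl⟩, _, ⟨g', hg', rfl⟩, rfl⟩
      exact ⟨g * g', N.mul_mem hg hg', Units.val_mul g g'⟩
  have hM : LinearMap.toMatrix' (AdjN.val r) = M := by
    apply Matrix.ext_of_mulVec_single
    intro i
    rw [← Matrix.toLin'_apply, Matrix.toLin'_toMatrix']
    exact congrArg (fun ψ : Module.End (Module.End (AdjN N) (ι → F)) (ι → F) => ψ (Pi.single i 1)) hr
  exact hM ▸ hspan r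

/-- A matrix orthogonal to a spanning set for the trace form is zero. -/
lemma eq_zero_of_trace_mul {s : Set (Matrix ι ι F)} (hs : Submodule.span F s = ⊤) {M : Matrix ι ι F}
    (h : ∀ x ∈ s, Matrix.trace (M * x) = 0) : M = 0 := by
  have hall : ∀ X, Matrix.trace (M * X) = 0 := by
    intro X
    induction (hs ▸ Submodule.mem_top : X ∈ Submodule.span F s) using Submodule.span_induction with
    | mem x hx => exact h x hx
    | zero => simp
    | add a b _ _ ha hb => rw [mul_add, Matrix.trace_add, ha, hb, add_zero]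
    | smul c a _ ha => rw [Matrix.mul_smul, Matrix.trace_smul, ha, smul_zero]
  ext i j
  simpa [Matrix.trace_mul_single] using hall (Matrix.single j i 1)

/-- An absolutely irreducible group over a finite field is realised over any subfield containing
its traces. -/
theorem realisableOver_of_trace [Finite F] [Nonempty ι] {N : Subgroup (GL ι F)}
    (h : ActsAbsolutelyIrreducibly (matrixSet N)) {F₀ : Subfield F}
    (htr : ∀ g ∈ N, Matrix.trace (g : Matrix ι ι F) ∈ F₀) : RealisableOver F₀ (matrixSet N) := by
  classical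
  have hspan := span_eq_top_of_absIrred h
  obtain ⟨s, hsN, hss, hli⟩ := exists_linearIndependent F (matrixSet N)
  have hs : Submodule.span F s = ⊤ := hss.trans hspan
  have : Finite (Matrix ι ι F) := inferInstance
  have : Fintype s := Fintype.ofFinite s
  let b : Module.Basis s F (Matrix ι ι F) := Module.Basis.mk hli (by rw [Subtype.range_coe, hs])
  have hb : ∀ i, b i = (i : Matrix ι ι F) := fun i => by simp [b]
  -- `A` is the algebra over `F₀` generated by `N`
  let A : Subalgebra F₀ (Matrix ι ι F) := Algebra.adjoin F₀ (matrixSet N)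
  have hclosed : Subalgebra.toSubmodule (Algebra.adjoin F₀ (matrixSet N)) =
      Submodule.span F₀ (matrixSet N) := by
    rw [Algebra.adjoin_eq_span]
    congr 1
    exact (congrArg SetLike.coe (Submonoid.closure_eq
      (N.toSubmonoid.map (Units.coeHom (Matrix ι ι F))))).trans rfl
  have htrA : ∀ M ∈ A, ∀ g ∈ N, Matrix.trace (M * (g : Matrix ι ι F)) ∈ F₀ := by
    intro M hM g hg
    have hM' : M ∈ Submodule.span F₀ (matrixSet N) := hclosed ▸ hM
    clear hM
    induction hM' using Submodule.span_induction with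
    | mem x hx =>
      obtain ⟨y, hy, rfl⟩ := hx
      rw [← Units.val_mul]; exact htr _ (N.mul_mem hy hg)
    | zero => simp
    | add x y hx hy hx' hy' =>
      rw [add_mul, Matrix.trace_add]
      exact F₀.add_mem hx' hy'
    | smul c x hx hx' =>
      rw [Matrix.smul_mul, Matrix.trace_smul]
      exact F₀.mul_mem c.2 hx'
  -- coordinates of elements of `A` lie in `F₀`
  let G : Matrix s s F := fun i j => Matrix.trace ((i : Matrix ι ι F) * (j : Matrix ι ι F))
  have hcoef : ∀ M ∈ A, ∀ i, b.repr M i ∈ F₀ := by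
    intro M hM
    have hG : ∀ i j, G i j ∈ F₀ := by
      intro i j
      obtain ⟨g, hg, hgi⟩ := hsN i.2
      obtain ⟨g', hg', hgj⟩ := hsN j.2
      show Matrix.trace _ ∈ F₀
      rw [← hgi, ← hgj, ← Units.val_mul]; exact htr _ (N.mul_mem hg hg')
    let G₀ : Matrix s s F₀ := fun i j => ⟨G i j, hG i j⟩
    have hGmap : G₀.map F₀.subtype = G := rfl
    have hinj : Function.Injective (fun c => Matrix.vecMul c G) := by
      intro c c' hcc
      have hz : ∑ i, (c - c') i • (i : Matrix ι ι F) = 0 := by
        refine eq_zero_of_trace_mul hs fun x hx => ?_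
        have := congrFun hcc ⟨x, hx⟩
        simp only [Matrix.vecMul, dotProduct, G] at this
        rw [Finset.sum_mul, Matrix.trace_sum]
        simp only [Matrix.smul_mul, Matrix.trace_smul, Pi.sub_apply, smul_eq_mul, sub_mul,
          Finset.sum_sub_distrib, this, sub_self]
      funext i
      exact sub_eq_zero.1 (Fintype.linearIndependent_iff.1 hli (c - c') hz i)
    have hu : IsUnit G := Matrix.vecMul_injective_iff_isUnit.1 hinj
    have hu₀ : IsUnit G₀.det := by
      rw [Matrix.isUnit_iff_isUnit_det, ← hGmap, ← RingHom.mapMatrix_apply, ← RingHom.map_det] at hu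
      exact isUnit_iff_ne_zero.2 fun h0 => hu.ne_zero (by rw [h0, map_zero])
    let t : s → F₀ := fun j => ⟨Matrix.trace (M * (j : Matrix ι ι F)), by
      obtain ⟨g, hg, hgj⟩ := hsN j.2
      rw [← hgj]; exact htrA M hM g hg⟩
    have hsol : Matrix.vecMul (fun i => b.repr M i) G = fun j => (t j : F) := by
      funext j
      conv_rhs => rw [show (t j : F) = Matrix.trace (M * (j : Matrix ι ι F)) from rfl, ← b.sum_repr M]
      rw [Finset.sum_mul, Matrix.trace_sum]
      simp [Matrix.vecMul, dotProduct, G, hb]
    have hsol₀ : (fun i => b.repr M i) = fun i => ((Matrix.vecMul t G₀⁻¹) i : F) := by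
      apply hinj
      show Matrix.vecMul _ G = Matrix.vecMul _ G
      rw [hsol]
      funext j
      have h1 : Matrix.vecMul (Matrix.vecMul t G₀⁻¹) G₀ j = t j := by
        rw [Matrix.vecMul_vecMul, Matrix.nonsing_inv_mul _ hu₀, Matrix.vecMul_one]
      have h2 := congrArg F₀.subtype h1
      rw [RingHom.map_vecMul] at h2
      exact h2.symm
    intro i
    rw [congrFun hsol₀ i]
    exact Subtype.coe_prop _
  have hsA : ∀ i : s, (i : Matrix ι ι F) ∈ A := fun i => Algebra.subset_adjoin (hsN i.2)
  have hli₀ : LinearIndependent F₀ (fun i : s => (⟨i, hsA i⟩ : A)) :=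
    LinearIndependent.of_comp A.val.toLinearMap
      (hli.restrict_scalars (fun a b hab => by
        simpa [Subfield.smul_def] using hab))
  have hspanA : ⊤ ≤ Submodule.span F₀ (Set.range fun i : s => (⟨i, hsA i⟩ : A)) := by
    rintro ⟨M, hM⟩ -
    have : (⟨M, hM⟩ : A) = ∑ i, (⟨b.repr M i, hcoef M hM i⟩ : F₀) • (⟨i, hsA i⟩ : A) := by
      apply Subtype.ext
      conv_lhs => rw [show ((⟨M, hM⟩ : A) : Matrix ι ι F) = M from rfl, ← b.sum_repr M]
      simp [hb, Subfield.smul_def]
    rw [this]
    exact Submodule.sum_mem _ fun i _ =>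
      Submodule.smul_mem _ _ (Submodule.subset_span (Set.mem_range_self i))
  have hdim : Module.finrank F₀ A = Fintype.card ι * Fintype.card ι := by
    rw [Module.finrank_eq_card_basis (Module.Basis.mk hli₀ hspanA), ← Module.finrank_eq_card_basis b,
      Module.finrank_matrix, Module.finrank_self, mul_one]
  -- simplicity
  have hsimple : IsSimpleRing A := by
    refine IsSimpleRing.of_eq_bot_or_eq_top fun I => ?_
    by_cases hI : I = ⊥
    · exact Or.inl hI
    right
    let W : Submodule F (Matrix ι ι F) := Submodule.span F ((fun a : A => (a : Matrix ι ι F)) '' (I : Set A))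
    have hWl : ∀ X, ∀ Y ∈ W, X * Y ∈ W ∧ Y * X ∈ W := by
      intro X Y hY
      induction (hspan ▸ Submodule.mem_top : X ∈ Submodule.span F (matrixSet N)) using
          Submodule.span_induction with
      | mem x hx =>
        have hxA : x ∈ A := Algebra.subset_adjoin hx
        induction hY using Submodule.span_induction with
        | mem y hy =>
          obtain ⟨a, ha, rfl⟩ := hy
          exact ⟨Submodule.subset_span ⟨⟨x, hxA⟩ * a, I.mul_mem_left _ _ ha, rfl⟩,
            Submodule.subset_span ⟨a * ⟨x, hxA⟩, I.mul_mem_right _ _ ha, rfl⟩⟩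
        | zero => simp
        | add a b _ _ ha hb => exact ⟨by rw [mul_add]; exact W.add_mem ha.1 hb.1,
            by rw [add_mul]; exact W.add_mem ha.2 hb.2⟩
        | smul c a _ ha => exact ⟨by rw [Matrix.mul_smul]; exact W.smul_mem c ha.1,
            by rw [Matrix.smul_mul]; exact W.smul_mem c ha.2⟩
      | zero => simp
      | add a b _ _ ha hb => exact ⟨by rw [add_mul]; exact W.add_mem ha.1 hb.1,
          by rw [mul_add]; exact W.add_mem ha.2 hb.2⟩
      | smul c a _ ha => exact ⟨by rw [Matrix.smul_mul]; exact W.smul_mem c ha.1,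
          by rw [Matrix.mul_smul]; exact W.smul_mem c ha.2⟩
    let J : TwoSidedIdeal (Matrix ι ι F) := TwoSidedIdeal.mk' (W : Set (Matrix ι ι F)) W.zero_mem
      W.add_mem W.neg_mem (fun {x y} hy => (hWl x y hy).1) (fun {x y} hx => (hWl y x hx).2)
    have hJ : ∀ x, x ∈ J ↔ x ∈ W := fun x => TwoSidedIdeal.mem_mk' _ _ _ _ _ _ x
    obtain ⟨a, haI, ha0⟩ : ∃ a ∈ I, a ≠ 0 := by
      by_contra hall
      push Not at hall
      apply hI
      ext x
      exact ⟨fun hx => (TwoSidedIdeal.mem_bot _).2 (hall x hx),
        fun hx => (TwoSidedIdeal.mem_bot _).1 hx ▸ I.zero_mem⟩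
    have hWtop : W = ⊤ := by
      rcases (IsSimpleRing.simple (R := Matrix ι ι F)).eq_bot_or_eq_top J with hb' | ht'
      · exfalso
        apply ha0
        have : (a : Matrix ι ι F) ∈ J := (hJ _).2 (Submodule.subset_span ⟨a, haI, rfl⟩)
        rw [hb', TwoSidedIdeal.mem_bot] at this
        exact Subtype.ext this
      · rw [eq_top_iff]; exact fun x _ => (hJ x).1 (ht' ▸ trivial)
    let I₀ : Submodule F₀ A :=
      { carrier := I
        add_mem' := I.add_mem
        zero_mem' := I.zero_mem
        smul_mem' := fun c x hx => by rw [Algebra.smul_def]; exact I.mul_mem_left _ _ hx }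
    obtain ⟨u, huI, hus, huli⟩ := exists_linearIndependent F ((fun a : A => (a : Matrix ι ι F)) '' (I : Set A))
    have : Fintype u := Fintype.ofFinite u
    have hucard : Fintype.card u = Fintype.card ι * Fintype.card ι := by
      rw [← Module.finrank_eq_card_basis (Module.Basis.mk huli (by
        rw [Subtype.range_coe]; exact (hus.trans hWtop).ge)), Module.finrank_matrix, Module.finrank_self,
        mul_one]
    choose g hgI hg using fun i : u => huI i.2
    have hgli : LinearIndependent F₀ (fun i : u => (⟨g i, hgI i⟩ : I₀)) := by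
      apply LinearIndependent.of_comp (A.val.toLinearMap.comp I₀.subtype)
      have : ((A.val.toLinearMap.comp I₀.subtype) ∘ fun i : u => (⟨g i, hgI i⟩ : I₀)) =
          ((↑) : u → Matrix ι ι F) := funext hg
      rw [this]
      exact huli.restrict_scalars (fun a b hab => by simpa [Subfield.smul_def] using hab)
    have hle := hgli.fintype_card_le_finrank
    rw [hucard, ← hdim] at hle
    have htop : I₀ = ⊤ := Submodule.eq_top_of_finrank_eq (le_antisymm (Submodule.finrank_le _) hle)
    exact TwoSidedIdeal.ext fun x =>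
      ⟨fun _ => trivial, fun _ => (htop.symm ▸ Submodule.mem_top : x ∈ I₀)⟩
  have : Finite A := Subtype.finite
  have : Module.Finite F₀ A := Module.Finite.of_finite
  obtain ⟨k, hk, D, _, _, _, ⟨φ⟩⟩ := IsSimpleRing.exists_algEquiv_matrix_divisionRing_finite F₀ A
  have : Finite D := Module.finite_of_finite F₀
  have hDcomm : ∀ x y : D, x * y = y * x := (Finite.isDomain_to_isField D).mul_comm
  obtain ⟨g₀, hg₀, hg₀0⟩ : ∃ g ∈ N, Matrix.trace (g : Matrix ι ι F) ≠ 0 := by
    by_contra hall
    push Not at hall
    have h1 : (1 : Matrix ι ι F) = 0 := eq_zero_of_trace_mul hspan (by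
      rintro _ ⟨g, hg, rfl⟩
      rw [one_mul]; exact hall g hg)
    exact one_ne_zero h1
  have hcommA : ∀ M : Matrix ι ι F, (∀ x ∈ A, M * x = x * M) → ∃ c : F, M = c • 1 := fun M hM =>
    h.2 M fun s hs => hM s (Algebra.subset_adjoin hs)
  have hD : ∀ d : D, ∃ c : F₀, d = algebraMap F₀ D c := by
    intro d
    obtain ⟨c, hc⟩ := hcommA (φ.symm (Matrix.scalar (Fin k) d)).1 fun x hx => by
      refine congrArg Subtype.val ((?_ : φ.symm (Matrix.scalar (Fin k) d) * ⟨x, hx⟩ =
        ⟨x, hx⟩ * φ.symm (Matrix.scalar (Fin k) d)))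
      apply φ.injective
      rw [map_mul, map_mul, φ.apply_symm_apply]
      exact Matrix.scalar_commute d (fun y => hDcomm d y) _
    have hcF : c ∈ F₀ := by
      have h1 := htrA _ (φ.symm (Matrix.scalar (Fin k) d)).2 g₀ hg₀
      rw [hc, Matrix.smul_mul, one_mul, Matrix.trace_smul, smul_eq_mul] at h1
      have h2 := F₀.mul_mem h1 (F₀.inv_mem (htr g₀ hg₀))
      rwa [mul_assoc, mul_inv_cancel₀ hg₀0, mul_one] at h2
    refine ⟨⟨c, hcF⟩, ?_⟩
    have h3 : φ.symm (Matrix.scalar (Fin k) d) = algebraMap F₀ A ⟨c, hcF⟩ :=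
      Subtype.ext (hc.trans (Algebra.algebraMap_eq_smul_one c).symm)
    have h4 := congrArg φ h3
    rw [φ.apply_symm_apply, AlgEquiv.commutes, Matrix.algebraMap_eq_diagonal] at h4
    have h5 := congrFun (congrFun h4 0) 0
    simpa using h5
  -- matrix units
  let E : Fin k → Fin k → Matrix ι ι F := fun a b => (φ.symm (Matrix.single a b 1)).1
  have hmul : ∀ a b c d, E a b * E c d = if b = c then E a d else 0 := by
    intro a b c d
    show (φ.symm (Matrix.single a b 1) * φ.symm (Matrix.single c d 1)).1 = _
    rw [← map_mul]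
    split
    · next hbc => subst hbc; rw [Matrix.single_mul_single_same, mul_one]
    · next hbc => rw [Matrix.single_mul_single_of_ne _ _ _ _ hbc, map_zero]; rfl
  have hdecomp : ∀ x : A, (x : Matrix ι ι F) ∈ Submodule.span F₀ (Set.range fun q : Fin k × Fin k => E q.1 q.2) := by
    intro x
    rw [← φ.symm_apply_apply x, Matrix.matrix_eq_sum_single (φ x), map_sum, AddSubmonoidClass.coe_finsetSum]
    refine Submodule.sum_mem _ fun a _ => ?_
    rw [map_sum, AddSubmonoidClass.coe_finsetSum]
    refine Submodule.sum_mem _ fun b _ => ?_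
    obtain ⟨c, hc⟩ := hD (φ x a b)
    rw [hc, show Matrix.single a b (algebraMap F₀ D c) = c • Matrix.single a b (1 : D) by
      rw [Matrix.smul_single, Algebra.algebraMap_eq_smul_one], map_smul]
    exact Submodule.smul_mem _ c (Submodule.subset_span ⟨(a, b), rfl⟩)
  have hsum : ∑ a, E a a = 1 := by
    show ∑ a, (φ.symm (Matrix.single a a 1)).1 = 1
    rw [← AddSubmonoidClass.coe_finsetSum, ← map_sum, Matrix.sum_single_eq_diagonal, Matrix.diagonal_one,
      map_one]
    rfl
  obtain ⟨e, P, hP⟩ := exists_conj_of_matrixUnits hmul hsum fun M hM => hcommA M fun x hx => by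
    have hx' : x ∈ Submodule.span F₀ (Set.range fun q : Fin k × Fin k => E q.1 q.2) := hdecomp ⟨x, hx⟩
    clear hx
    induction hx' using Submodule.span_induction with
    | mem y hy => obtain ⟨q, rfl⟩ := hy; exact hM _ _
    | zero => simp
    | add y z _ _ hy hz => rw [mul_add, add_mul, hy, hz]
    | smul c y _ hy => rw [Matrix.mul_smul, Matrix.smul_mul, hy]
  refine ⟨P⁻¹, ?_⟩
  rintro _ ⟨g, hg, rfl⟩ i j
  rw [inv_inv]
  obtain ⟨y, hy⟩ : ∃ y, y = (g : Matrix ι ι F) := ⟨_, rfl⟩
  have hx : y ∈ Submodule.span F₀ (Set.range fun q : Fin k × Fin k => E q.1 q.2) :=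
    hy ▸ hdecomp ⟨g, Algebra.subset_adjoin (coe_mem_matrixSet hg)⟩
  simp only [← hy]
  clear hy
  induction hx using Submodule.span_induction with
  | mem y hy =>
    obtain ⟨q, rfl⟩ := hy
    rw [Matrix.mul_assoc, hP, ← Matrix.mul_assoc, ← Units.val_mul, inv_mul_cancel, Units.val_one,
      one_mul, Matrix.reindex_apply, Matrix.submatrix_apply, Matrix.single_apply]
    split
    · exact F₀.one_mem
    · exact F₀.zero_mem
  | zero => simp
  | add y z _ _ hy hz => rw [mul_add, add_mul, Matrix.add_apply]; exact F₀.add_mem hy hz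
  | smul c y _ hy =>
    rw [Matrix.mul_smul, Matrix.smul_mul, Matrix.smul_apply]
    exact F₀.mul_mem c.2 hy

end CfsgLib.SmallDim
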