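import Cfsg.Agent.Lib.SmallDim.Transvection

/-!
Sesquilinear forms given as functions: Gram matrices, forms fixed by a normal absolutely irreducible subgroup,
odd dimension, and `SL` not contained in similarity groups.
-/

set_option autoImplicit false
set_option linter.style.haveILetI false

namespace CfsgLib.SmallDim

open scoped MatrixGroups Matrix
open Cfsg.Geo

variable {ι : Type} [Fintype ι] [DecidableEq ι] {F : Type*} [Field F]

/-- `f` is additive in both arguments, linear in the first and `σ`-semilinear in the second. -/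
structure IsSesqui (σ : F →+* F) (f : (ι → F) → (ι → F) → F) : Prop where
  add_left : ∀ x y v, f (x + y) v = f x v + f y v
  smul_left : ∀ (c : F) (x v : ι → F), f (c • x) v = c * f x v
  add_right : ∀ v x y, f v (x + y) = f v x + f v y
  smul_right : ∀ (c : F) (v x : ι → F), f v (c • x) = σ c * f v x

lemma IsSesqui.of_bilinear {f : (ι → F) → (ι → F) → F} (h : IsBilinearForm f) : IsSesqui (RingHom.id F) f :=
  ⟨h.add_left, h.smul_left, h.add_right, h.smul_right⟩

lemma IsSesqui.of_unitary {σ : F ≃+* F} {f : (ι → F) → (ι → F) → F} (h : IsUnitaryForm σ f) :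
    IsSesqui (σ : F →+* F) f :=
  ⟨h.add_left, h.smul_left,
    fun v x y => by rw [h.herm v (x + y), h.add_left, map_add, ← h.herm, ← h.herm],
    fun c v x => by rw [h.herm v (c • x), h.smul_left, map_mul, ← h.herm]; rfl⟩

lemma IsSesqui.apply_eq {σ : F →+* F} {f : (ι → F) → (ι → F) → F} (h : IsSesqui σ f) (u v : ι → F) :
    f u v = u ⬝ᵥ (gramMatrix f *ᵥ (σ ∘ v)) := by
  classical
  let L : ∀ y : ι → F, (ι → F) →ₗ[F] F := fun y =>
    { toFun := fun x => f x y, map_add' := fun a b => h.add_left a b y, map_smul' := fun c a => h.smul_left c a y }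
  let R : ∀ x : ι → F, (ι → F) →+ F := fun x => AddMonoidHom.mk' (f x) (h.add_right x)
  have h1 : ∀ y, f u y = ∑ a, u a * f (Pi.single a 1) y := fun y => by
    conv_lhs => rw [pi_eq_sum_univ' u]
    show L y _ = _
    simp [map_sum, L, map_smul, h.smul_left]
  have h2 : ∀ x, f x v = ∑ b, σ (v b) * f x (Pi.single b 1) := fun x => by
    conv_lhs => rw [pi_eq_sum_univ' v]
    show R x _ = _
    simp [map_sum, R, h.smul_right]
  rw [h1]
  refine Finset.sum_congr rfl fun a _ => ?_
  rw [h2]
  congr 1
  refine Finset.sum_congr rfl fun b _ => ?_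
  simp [gramMatrix, mul_comm]

lemma map_mulVec_comp (σ : F →+* F) (A : Matrix ι ι F) (v : ι → F) : σ ∘ (A *ᵥ v) = A.map σ *ᵥ (σ ∘ v) :=
  funext fun i => RingHom.map_mulVec σ A v i

lemma IsSesqui.gram_transform {σ : F →+* F} {f : (ι → F) → (ι → F) → F} (h : IsSesqui σ f) (A : Matrix ι ι F) :
    gramMatrix (fun u v => f (A *ᵥ u) (A *ᵥ v)) = Aᵀ * gramMatrix f * A.map σ := by
  ext a b
  show f (A *ᵥ Pi.single a 1) (A *ᵥ Pi.single b 1) = _
  rw [h.apply_eq, map_mulVec_comp, Matrix.mulVec_mulVec]
  have : σ ∘ (Pi.single b 1 : ι → F) = Pi.single b 1 := by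
    ext i; by_cases hi : i = b <;> simp [hi]
  rw [this, Matrix.mulVec_single_one, Matrix.mulVec_single_one, mul_assoc]
  rfl

lemma IsSesqui.transform {σ : F →+* F} {f : (ι → F) → (ι → F) → F} (h : IsSesqui σ f) (A : Matrix ι ι F) :
    IsSesqui σ (fun u v => f (A *ᵥ u) (A *ᵥ v)) where
  add_left x y v := by simp [Matrix.mulVec_add, h.add_left]
  smul_left c x v := by simp [Matrix.mulVec_smul, h.smul_left]
  add_right v x y := by simp [Matrix.mulVec_add, h.add_right]
  smul_right c v x := by simp [Matrix.mulVec_smul, h.smul_right]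

lemma IsSesqui.isUnit_det_gram {σ : F →+* F} (hσ : Function.Surjective σ) {f : (ι → F) → (ι → F) → F}
    (h : IsSesqui σ f) (hnd : IsNondegenerateForm f) : IsUnit (gramMatrix f).det := by
  rw [isUnit_iff_ne_zero]
  intro hdet
  obtain ⟨w, hw0, hw⟩ := Matrix.exists_mulVec_eq_zero_iff.mpr hdet
  have hex : ∀ i, ∃ c, σ c = w i := fun i => hσ (w i)
  choose v hv using hex
  have hv' : σ ∘ v = w := funext hv
  have hv0 : v ≠ 0 := fun h0 => hw0 (by rw [← hv', h0]; funext i; simp)
  obtain ⟨x, hx⟩ := (hnd v hv0).1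
  exact hx (by rw [h.apply_eq, hv', hw, dotProduct_zero])

/-- A subgroup normalising an absolutely irreducible group which fixes a non-degenerate form consists of
similarities. -/
theorem le_similarityGroup {σ : F →+* F} (hσ : Function.Surjective σ) {f : (ι → F) → (ι → F) → F}
    (hf : IsSesqui σ f) (hnd : IsNondegenerateForm f) {H N : Subgroup (GL ι F)} (hN : NormalIn N H)
    (hirr : ActsAbsolutelyIrreducibly (matrixSet N)) (hfix : FixesForm (matrixSet N) f) :
    H ≤ similarityGroup f := by
  rcases isEmpty_or_nonempty ι with hι | hι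
  · intro g _
    refine ⟨1, fun u v => ?_⟩
    rw [hf.apply_eq, hf.apply_eq u v]
    simp [dotProduct]
  intro h hh
  set G := gramMatrix f
  set f' : (ι → F) → (ι → F) → F := fun u v => f ((h : Matrix ι ι F) *ᵥ u) ((h : Matrix ι ι F) *ᵥ v)
  set G' := gramMatrix f'
  have hG : IsUnit G.det := hf.isUnit_det_gram hσ hnd
  have hinvG : ∀ s ∈ matrixSet N, sᵀ * G * s.map σ = G := fun s hs => by
    rw [← hf.gram_transform]; exact congrArg gramMatrix (funext₂ (hfix s hs))
  have hinvG' : ∀ s ∈ matrixSet N, sᵀ * G' * s.map σ = G' := by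
    rintro _ ⟨x, hx, rfl⟩
    rw [← (hf.transform _).gram_transform]
    refine congrArg gramMatrix (funext₂ fun u v => ?_)
    show f (act h (act x u)) (act h (act x v)) = f (act h u) (act h v)
    have e : ∀ w, act h (act x w) = act (h * x * h⁻¹) (act h w) := fun w => by
      rw [← act_mul, ← act_mul]; congr 1; group
    rw [e, e]
    exact hfix _ (coe_mem_matrixSet (hN.conj h hh x hx)) _ _
  have hcomm : ∀ s ∈ matrixSet N, (G' * G⁻¹)ᵀ * s = s * (G' * G⁻¹)ᵀ := by
    intro s hs
    have key : sᵀ * (G' * G⁻¹) = (G' * G⁻¹) * sᵀ := by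
      have h2 := hinvG s hs
      have hsdet : IsUnit (s.map σ).det := by
        have : IsUnit ((sᵀ * G * s.map σ).det) := by rw [h2]; exact hG
        rw [Matrix.det_mul] at this
        exact isUnit_of_mul_isUnit_right this
      have e1 : G' * (s.map σ)⁻¹ = sᵀ * G' := by
        conv_lhs => rw [← hinvG' s hs]
        rw [Matrix.mul_assoc, Matrix.mul_nonsing_inv _ hsdet, Matrix.mul_one]
      have e2 : G * (s.map σ)⁻¹ = sᵀ * G := by
        conv_lhs => rw [← h2]
        rw [Matrix.mul_assoc, Matrix.mul_nonsing_inv _ hsdet, Matrix.mul_one]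
      have e3 : G⁻¹ * sᵀ = (s.map σ)⁻¹ * G⁻¹ := by
        calc G⁻¹ * sᵀ = G⁻¹ * (sᵀ * G) * G⁻¹ := by
              rw [Matrix.mul_assoc, Matrix.mul_assoc, Matrix.mul_nonsing_inv _ hG, Matrix.mul_one]
          _ = _ := by rw [← e2, ← Matrix.mul_assoc G⁻¹, Matrix.nonsing_inv_mul _ hG, Matrix.one_mul]
      rw [Matrix.mul_assoc, e3, ← Matrix.mul_assoc G', e1, Matrix.mul_assoc]
    have := congrArg Matrix.transpose key
    rwa [Matrix.transpose_mul sᵀ (G' * G⁻¹), Matrix.transpose_mul (G' * G⁻¹) sᵀ, Matrix.transpose_transpose] at this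
  obtain ⟨c, hc⟩ := hirr.2 _ hcomm
  have hG' : G' = c • G := by
    have := congrArg Matrix.transpose hc
    rw [Matrix.transpose_transpose, Matrix.transpose_smul, Matrix.transpose_one] at this
    calc G' = G' * G⁻¹ * G := by rw [Matrix.mul_assoc, Matrix.nonsing_inv_mul _ hG, Matrix.mul_one]
      _ = _ := by rw [this, Matrix.smul_mul, Matrix.one_mul]
  have heq : ∀ u v, f' u v = c * f u v := fun u v => by
    rw [(show IsSesqui σ f' from hf.transform _).apply_eq, hf.apply_eq u v, show gramMatrix f' = c • G from hG', Matrix.smul_mulVec,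
      dotProduct_smul, smul_eq_mul]
  have hc0 : c ≠ 0 := by
    intro h0
    obtain ⟨i⟩ := hι
    obtain ⟨x, hx⟩ := (hnd (act h (Pi.single i 1)) (act_ne_zero h (by simp))).1
    apply hx
    have := heq (act h⁻¹ x) (Pi.single i 1)
    rw [h0, zero_mul] at this
    simpa [f', act_act_inv] using this
  exact ⟨Units.mk0 c hc0, fun u v => by simpa [f'] using heq u v⟩

section Quad

variable {Q : (ι → F) → F}

lemma polar_self_eq (hQ : IsNondegenerateQuadraticForm Q) (v : ι → F) : QuadraticMap.polar Q v v = 2 * Q v := by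
  rw [QuadraticMap.polar, ← two_smul F v, hQ.smul]
  ring

lemma fixesForm_polar {S : Set (Matrix ι ι F)} (h : FixesQuadForm S Q) :
    FixesForm S (QuadraticMap.polar Q) := by
  intro s hs u v
  rw [QuadraticMap.polar, ← Matrix.mulVec_add, h s hs, h s hs, h s hs]
  rfl

lemma similarityGroup_polar_le (hQ : IsNondegenerateQuadraticForm Q) (h2 : (2 : F) ≠ 0) :
    similarityGroup (QuadraticMap.polar Q) ≤ quadSimilarityGroup Q := by
  rintro g ⟨c, hc⟩
  refine ⟨c, fun v => ?_⟩
  have := hc v v
  rw [polar_self_eq hQ, polar_self_eq hQ] at this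
  exact mul_left_cancel₀ h2 (by rw [this]; ring)

lemma quadSimilarityGroup_le_polar : quadSimilarityGroup Q ≤ similarityGroup (QuadraticMap.polar Q) := by
  rintro g ⟨c, hc⟩
  refine ⟨c, fun u v => ?_⟩
  rw [QuadraticMap.polar, ← Matrix.mulVec_add, hc, hc, hc, QuadraticMap.polar]
  ring

end Quad

/-- In odd dimension there is no non-degenerate alternating bilinear form. -/
theorem no_alternating_odd (hodd : Odd (Fintype.card ι)) {f : (ι → F) → (ι → F) → F} (hf : IsBilinearForm f)
    (halt : ∀ v, f v v = 0) (hnd : IsNondegenerateForm f) : False := by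
  classical
  have hdet := (IsSesqui.of_bilinear hf).isUnit_det_gram Function.surjective_id hnd
  set G := gramMatrix f
  have hskew : ∀ a b, G b a = - G a b := by
    intro a b
    have := halt (Pi.single a 1 + Pi.single b 1)
    rw [hf.add_left, hf.add_right, hf.add_right, halt, halt, zero_add, add_zero] at this
    exact eq_neg_of_add_eq_zero_right this
  have hdiag : ∀ a, G a a = 0 := fun a => halt _
  apply hdet.ne_zero
  rw [Matrix.det_apply']
  refine Finset.sum_involution (fun σ _ => σ⁻¹) (fun σ _ => ?_) (fun σ _ hne heq => ?_)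
    (fun σ _ => Finset.mem_univ _) (fun σ _ => inv_inv σ)
  · have hprod : ∏ i, G ((σ⁻¹ : Equiv.Perm ι) i) i = -∏ i, G (σ i) i := by
      calc ∏ i, G ((σ⁻¹ : Equiv.Perm ι) i) i = ∏ i, G i (σ i) :=
            (Equiv.prod_comp σ (fun i => G ((σ⁻¹ : Equiv.Perm ι) i) i)).symm.trans (by simp)
        _ = ∏ i, -G (σ i) i := Finset.prod_congr rfl fun i _ => hskew (σ i) i
        _ = _ := by rw [Finset.prod_neg, Finset.card_univ, hodd.neg_one_pow, neg_one_mul]
    rw [hprod, Equiv.Perm.sign_inv]
    ring
  · obtain ⟨a, ha⟩ : ∃ a, σ a = a := by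
      by_contra hall
      push Not at hall
      have h2 : ∀ a, σ (σ a) = a := fun a => by
        nth_rewrite 1 [← heq]; simp
      have hs : σ.support = Finset.univ := Finset.eq_univ_of_forall fun a => Equiv.Perm.mem_support.mpr (hall a)
      have hord : σ ^ 2 = 1 := Equiv.ext fun a => by simp [pow_two, h2]
      have hdvd := Equiv.Perm.two_dvd_card_support hord
      rw [hs, Finset.card_univ] at hdvd
      obtain ⟨k, hk⟩ := hdvd
      obtain ⟨l, hl⟩ := hodd
      omega
    exact hne (by rw [Finset.prod_eq_zero (Finset.mem_univ a) (by rw [ha, hdiag]), mul_zero])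

/-- `SL` is not contained in the similarity group of a non-degenerate form, in dimension at least three. -/
theorem not_sl_le_similarityGroup (hn : 3 ≤ Fintype.card ι) {σ : F →+* F} {f : (ι → F) → (ι → F) → F}
    (hf : IsSesqui σ f) (hnd : IsNondegenerateForm f) : ¬ specialLinear ι F ≤ similarityGroup f := by
  intro hle
  obtain ⟨i⟩ : Nonempty ι := Fintype.card_pos_iff.mp (by omega)
  -- `φ` is the `i`-th coordinate, `W` its kernel
  set φ : ι → F := Pi.single i 1
  set x : ι → F := Pi.single i 1
  set W := LinearMap.ker (LinearMap.proj i : (ι → F) →ₗ[F] F)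
  have hφ : ∀ v ∈ W, φ ⬝ᵥ v = 0 := fun v hv => by
    rw [LinearMap.mem_ker, LinearMap.proj_apply] at hv
    simp [φ, hv]
  have hdimW : 2 ≤ Module.finrank F W := by
    have := LinearMap.finrank_range_add_finrank_ker (LinearMap.proj i : (ι → F) →ₗ[F] F)
    have h3 := Submodule.finrank_le (LinearMap.range (LinearMap.proj i : (ι → F) →ₗ[F] F))
    rw [Module.finrank_fintype_fun_eq_card] at this
    rw [Module.finrank_self] at h3
    show 2 ≤ Module.finrank F (LinearMap.ker _)
    omega
  have hx : φ ⬝ᵥ x = 1 := by simp [φ, x]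
  -- a totally isotropic hyperplane contradicts non-degeneracy
  suffices hiso : ∀ w ∈ W, ∀ y ∈ W, f w y = 0 by
    let L : W →ₗ[F] F :=
      { toFun := fun w => f w x
        map_add' := fun a b => hf.add_left a b x
        map_smul' := fun c a => hf.smul_left c a x }
    have hLi : Function.Injective L := by
      rw [← LinearMap.ker_eq_bot, Submodule.eq_bot_iff]
      intro w hw
      by_contra h0
      obtain ⟨y, hy⟩ := (hnd w (fun h => h0 (Subtype.ext h))).2
      apply hy
      have hdec : y = (y - y i • x) + y i • x := by abel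
      have hmem : y - y i • x ∈ W := by simp [W, x]
      rw [hdec, hf.add_right, hiso w w.2 _ hmem, hf.smul_right, show f w x = 0 from hw, mul_zero, add_zero]
    have := LinearMap.finrank_le_finrank_of_injective hLi
    rw [Module.finrank_self] at this
    omega
  intro w hw y hy
  obtain ⟨c, hc⟩ := hle (transvec_mem_specialLinear φ w (hφ w hw))
  have hfix : ∀ a ∈ W, act (transvec φ w (hφ w hw)) a = a := fun a ha => by
    rw [act_transvec, hφ a ha, zero_smul, add_zero]
  rcases eq_or_ne (f w y) 0 with h | h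
  · exact h
  have hc1 : (c : F) = 1 := by
    have h' := hc w y
    change f (act _ w) (act _ y) = _ at h'
    rw [hfix w hw, hfix y hy] at h'
    exact mul_right_cancel₀ h (by rw [one_mul]; exact h'.symm)
  have h' := hc x y
  change f (act _ x) (act _ y) = _ at h'
  rw [hfix y hy, act_transvec, hx, one_smul, hf.add_left, hc1, one_mul] at h'
  simpa using h'

end CfsgLib.SmallDim
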