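import Cfsg.Agent.Lib.SmallDim.Subfield
import Cfsg.Agent.Lib.SmallDim.Forms
import Cfsg.Agent.Lib.Forms.FiniteField

/-!
An absolutely irreducible group fixing a bilinear and a unitary form is realisable over the fixed field.
-/

set_option autoImplicit false
set_option linter.style.haveILetI false

namespace CfsgLib.SmallDim

open scoped MatrixGroups Matrix
open Cfsg.Geo

variable {ι : Type} [Fintype ι] [DecidableEq ι] {F : Type*} [Field F] [Finite F]

/-- Descent along a semilinear intertwiner `T`: `σ x * T = T * x` on the group. -/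
theorem realisable_of_intertwiner {σ : F ≃+* F} (hne : σ ≠ RingEquiv.refl F) (hinvol : ∀ a, σ (σ a) = a)
    (hodd : Odd (Fintype.card ι)) {P : Subgroup (GL ι F)} (habs : ActsAbsolutelyIrreducibly (matrixSet P))
    {M : Matrix ι ι F} (hMdet : IsUnit M.det)
    (hMs : ∀ x ∈ P, (x : Matrix ι ι F).map σ * M = M * (x : Matrix ι ι F)) :
    RealisableOver ((σ : F →+* F).eqLocusField (RingHom.id F)) (matrixSet P) := by
  classical
  haveI : Nonempty ι := Fintype.card_pos_iff.mp hodd.pos
  obtain ⟨i₁⟩ := ‹Nonempty ι›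
  have hK : ∀ x : F, x ∈ (σ : F →+* F).eqLocusField (RingHom.id F) ↔ σ x = x := fun x => Iff.rfl
  have hσσ : ∀ A : Matrix (ι) (ι) F, (A.map σ).map σ = A := fun A => Matrix.ext fun _ _ => hinvol _
  obtain ⟨d, hd⟩ : ∃ d : F, M.map σ * M = d • 1 := by
    refine habs.2 _ ?_
    rintro _ ⟨x, hx, rfl⟩
    have h1 := congrArg (fun m : Matrix (ι) (ι) F => m.map σ) (hMs x hx)
    simp only [Matrix.map_mul, hσσ] at h1
    rw [Matrix.mul_assoc, ← hMs x hx, ← Matrix.mul_assoc, ← h1, Matrix.mul_assoc]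
  have hd0 : d ≠ 0 := by
    intro h0
    have := congrArg Matrix.det hd
    rw [h0, zero_smul, Matrix.det_zero, Matrix.det_mul,
      show (M.map σ).det = σ M.det from (RingEquiv.map_det σ M).symm] at this
    simp at this
    exact hMdet.ne_zero this
  have hdσ : σ d = d := by
    have h1 := congrArg (fun m : Matrix (ι) (ι) F => m.map σ) hd
    simp only [Matrix.map_mul, hσσ] at h1
    have h2 : M * M.map σ = d • 1 := by
      have h3 : d⁻¹ • (M.map σ * M) = 1 := by rw [hd, smul_smul, inv_mul_cancel₀ hd0, one_smul]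
      rw [← Matrix.smul_mul] at h3
      have h4 := mul_eq_one_comm.mp h3
      rw [Matrix.mul_smul] at h4
      calc M * M.map σ = d • (d⁻¹ • (M * M.map σ)) := by rw [smul_smul, mul_inv_cancel₀ hd0, one_smul]
        _ = _ := by rw [h4]
    have h5 := congrFun (congrFun (h1.symm.trans h2) i₁) i₁
    simpa using h5
  -- `d` is the norm of `lam`
  obtain ⟨m, hm⟩ := hodd
  set lam := M.det / d ^ m
  have hlam : lam * σ lam = d := by
    have h1 := congrArg Matrix.det hd
    rw [Matrix.det_mul, show (M.map σ).det = σ M.det from (RingEquiv.map_det σ M).symm, Matrix.det_smul, Matrix.det_one, mul_one, 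
      congrArg (fun k => d ^ k) hm] at h1
    simp only [lam, map_div₀, map_pow, hdσ]
    field_simp
    linear_combination h1
  have hlam0 : lam ≠ 0 := fun h => hd0 (by rw [← hlam, h, zero_mul])
  set N := lam⁻¹ • M
  have hN1 : N.map σ * N = 1 := by
    have h1 : N.map σ = (σ lam)⁻¹ • M.map σ := Matrix.ext fun i j => by simp [N, map_inv₀]
    rw [h1, Matrix.smul_mul, Matrix.mul_smul, hd, smul_smul, smul_smul, ← mul_inv, mul_comm (σ lam), hlam,
      inv_mul_cancel₀ hd0, one_smul]
  have hNs : ∀ x ∈ P, (x : Matrix (ι) (ι) F).map σ * N = N * (x : Matrix (ι) (ι) F) := fun x hx => by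
    rw [Matrix.mul_smul, Matrix.smul_mul, hMs x hx]
  -- vectors fixed by the semilinear involution span
  let S : Set (ι → F) := {v | σ ∘ v = N *ᵥ v}
  have hspan : ⊤ ≤ Submodule.span F S := by
    intro v _
    obtain ⟨a, ha⟩ : ∃ a, σ a ≠ a := by
      by_contra h
      push Not at h
      exact hne (RingEquiv.ext h)
    set w := N.map σ *ᵥ (σ ∘ v)
    have hmem : ∀ t : F, t • v + σ t • w ∈ S := by
      intro t
      show σ ∘ (t • v + σ t • w) = N *ᵥ (t • v + σ t • w)
      have hw : σ ∘ w = N *ᵥ v := by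
        have h := map_mulVec_comp (σ : F →+* F) (N.map σ) (σ ∘ v)
        simp only [RingEquiv.coe_toRingHom] at h
        rw [h, hσσ]
        congr 1
        funext i; exact hinvol _
      have hw' : N *ᵥ w = σ ∘ v := by
        rw [Matrix.mulVec_mulVec, mul_eq_one_comm.mp hN1, Matrix.one_mulVec]
      rw [Matrix.mulVec_add, Matrix.mulVec_smul, Matrix.mulVec_smul, hw', ← hw]
      funext i
      simp [hinvol, add_comm]
    have h1 := Submodule.sub_mem _ (Submodule.smul_mem _ (σ a) (Submodule.subset_span (hmem 1)))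
      (Submodule.subset_span (hmem a))
    rw [map_one, one_smul, one_smul, show σ a • (v + w) - (a • v + σ a • w) = (σ a - a) • v by
      rw [smul_add, sub_smul]; abel] at h1
    have h2 := Submodule.smul_mem _ (σ a - a)⁻¹ h1
    rwa [smul_smul, inv_mul_cancel₀ (sub_ne_zero.mpr ha), one_smul] at h2
  let bs := Module.Basis.ofSpan hspan
  let bs' := bs.reindex (bs.indexEquiv (Pi.basisFun F (ι)))
  have hcol : ∀ j, σ ∘ (bs' j) = N *ᵥ bs' j := fun j => by
    rw [Module.Basis.reindex_apply]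
    exact Module.Basis.ofSpan_subset hspan ⟨_, rfl⟩
  let Bm : Matrix (ι) (ι) F := Matrix.of fun i j => bs' j i
  have hBli : Function.Injective fun v => Bm *ᵥ v :=
    Matrix.mulVec_injective_iff.mpr bs'.linearIndependent
  obtain ⟨Bu, hBu⟩ := Matrix.mulVec_injective_iff_isUnit.mp hBli
  refine ⟨Bu⁻¹, ?_⟩
  rintro _ ⟨x, hx, rfl⟩ i j
  rw [hK, inv_inv, hBu]
  set X : Matrix (ι) (ι) F := ↑x
  set Y := ((Bu⁻¹ : GL (ι) F) : Matrix (ι) (ι) F) * X * Bm
  suffices h : Y.map σ = Y from congrFun (congrFun h i) j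
  have hBN : Bm.map σ = N * Bm := Matrix.ext fun a c => by
    have := congrFun (hcol c) a
    simpa [Matrix.mul_apply, Matrix.mulVec, dotProduct, Bm] using this
  have hY : Bm * Y = X * Bm := by
    simp only [Y, ← hBu, ← Matrix.mul_assoc, ← Units.val_mul, mul_inv_cancel, Units.val_one, Matrix.one_mul]
  have h1 : Bm.map σ * Y.map σ = Bm.map σ * Y := by
    rw [← Matrix.map_mul, hY, Matrix.map_mul, hBN, ← Matrix.mul_assoc, hNs x hx, Matrix.mul_assoc,
      ← hY, Matrix.mul_assoc]
  have hBdet : (Bm.map σ).det ≠ 0 := by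
    rw [show (Bm.map σ).det = σ Bm.det from (RingEquiv.map_det σ Bm).symm]
    exact (map_ne_zero σ).mpr ((Matrix.isUnit_iff_isUnit_det _).mp (hBu ▸ Bu.isUnit)).ne_zero
  calc Y.map σ = (Bm.map σ)⁻¹ * (Bm.map σ * Y.map σ) := by
        rw [← Matrix.mul_assoc, Matrix.nonsing_inv_mul _ (isUnit_iff_ne_zero.mpr hBdet), Matrix.one_mul]
    _ = Y := by
        rw [h1, ← Matrix.mul_assoc, Matrix.nonsing_inv_mul _ (isUnit_iff_ne_zero.mpr hBdet), Matrix.one_mul]

/-- An absolutely irreducible group fixing both a bilinear and a unitary form is realisable over a proper subfield. -/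
theorem realisable_of_bilinear_unitary {σ : F ≃+* F} {f b : (ι → F) → (ι → F) → F} (hf : IsUnitaryForm σ f)
    (hodd : Odd (Fintype.card ι)) {P : Subgroup (GL ι F)} (habs : ActsAbsolutelyIrreducibly (matrixSet P))
    (hb : IsBilinearForm b) (hnd : IsNondegenerateForm b) (hfixf : FixesForm (matrixSet P) f)
    (hfixb : FixesForm (matrixSet P) b) : ∃ K : Subfield F, K ≠ ⊤ ∧ RealisableOver K (matrixSet P) := by
  classical
  refine ⟨_, fun h => hf.ne_refl (RingEquiv.ext fun x => ?_), realisable_of_intertwiner hf.ne_refl hf.involutive hodd habs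
    (M := (gramMatrix f)⁻¹ * gramMatrix b) ?_ ?_⟩
  · have hx : x ∈ (σ : F →+* F).eqLocusField (RingHom.id F) := h ▸ Subfield.mem_top x
    exact hx
  · rw [Matrix.det_mul]
    exact (Matrix.isUnit_nonsing_inv_det _ ((IsSesqui.of_unitary hf).isUnit_det_gram σ.surjective hf.nondegenerate)).mul
      ((IsSesqui.of_bilinear hb).isUnit_det_gram Function.surjective_id hnd)
  intro x hx
  set X : Matrix ι ι F := ↑x
  set G := gramMatrix f
  set M := gramMatrix b
  have hG : IsUnit G.det := (IsSesqui.of_unitary hf).isUnit_det_gram σ.surjective hf.nondegenerate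
  have h1 : Xᵀ * M * X = M := by
    have := (IsSesqui.of_bilinear hb).gram_transform X
    rw [show (fun u v => b (X *ᵥ u) (X *ᵥ v)) = b from funext₂ (hfixb _ (coe_mem_matrixSet hx)),
      show X.map (RingHom.id F) = X from Matrix.ext fun _ _ => rfl] at this
    exact this.symm
  have h2 : Xᵀ * G * X.map σ = G := by
    have := (IsSesqui.of_unitary hf).gram_transform X
    rw [show (fun u v => f (X *ᵥ u) (X *ᵥ v)) = f from funext₂ (hfixf _ (coe_mem_matrixSet hx))] at this
    exact this.symm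
  have hXt : IsUnit Xᵀ.det := by
    rw [Matrix.det_transpose]; exact (Matrix.isUnit_iff_isUnit_det _).mp x.isUnit
  have e1 : G * X.map σ = (Xᵀ)⁻¹ * G := by
    conv_rhs => rw [← h2]
    rw [Matrix.mul_assoc Xᵀ, ← Matrix.mul_assoc, Matrix.nonsing_inv_mul _ hXt, Matrix.one_mul]
  have e2 : M * X = (Xᵀ)⁻¹ * M := by
    conv_rhs => rw [← h1]
    rw [Matrix.mul_assoc Xᵀ, ← Matrix.mul_assoc, Matrix.nonsing_inv_mul _ hXt, Matrix.one_mul]
  calc X.map σ * (G⁻¹ * M) = G⁻¹ * (G * X.map σ) * (G⁻¹ * M) := by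
        rw [← Matrix.mul_assoc G⁻¹ G, Matrix.nonsing_inv_mul _ hG, Matrix.one_mul]
    _ = G⁻¹ * (Xᵀ)⁻¹ * M := by
        rw [e1]
        simp only [Matrix.mul_assoc]
        rw [← Matrix.mul_assoc G G⁻¹ M, Matrix.mul_nonsing_inv _ hG, Matrix.one_mul]
    _ = G⁻¹ * M * X := by rw [Matrix.mul_assoc, ← e2, Matrix.mul_assoc]

end CfsgLib.SmallDim
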