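import Mathlib.FieldTheory.Finite.Basic
import Mathlib.FieldTheory.Galois.Basic
import Mathlib.RingTheory.LittleWedderburn
import Cfsg.Agent.Lib.SmallDim.CliffordModule

/-!
# Clifford's theorem for matrix groups over finite fields, any dimension

A normal non-scalar subgroup `N` of an irreducible `H ≤ GL ι F` is absolutely irreducible, or `H`
permutes a direct decomposition, normalises a field of matrices of prime degree, or preserves a
tensor decomposition in which `N` acts on the second factor only.
-/

set_option autoImplicit false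
set_option linter.style.haveILetI false

namespace CfsgLib.SmallDim

open scoped MatrixGroups Matrix Kronecker
open Cfsg.Geo

variable {ι : Type} [Fintype ι] [DecidableEq ι] {F : Type*} [Field F]

/-- `H` preserves a tensor decomposition with `N` inside the second factor. -/
structure TensorCase (H N : Subgroup (GL ι F)) (n₁ n₂ : ℕ) (e : ι ≃ Fin n₁ × Fin n₂) (P : GL ι F) :
    Prop where
  two_le_left : 2 ≤ n₁
  two_le_right : 2 ≤ n₂
  le : H ≤ tensorProductSubgroup n₁ n₂ e P
  inner : ∀ x ∈ N, ∃ b : Matrix (Fin n₂) (Fin n₂) F,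
    (x : Matrix ι ι F) * (P : Matrix ι ι F) =
      (P : Matrix ι ι F) * Matrix.reindex e.symm e.symm ((1 : Matrix (Fin n₁) (Fin n₁) F) ⊗ₖ b)
  commutant : ∀ M ∈ Subalgebra.centralizer F (matrixSet N), ∃ C : Matrix (Fin n₁) (Fin n₁) F,
    M * (P : Matrix ι ι F) =
      (P : Matrix ι ι F) * Matrix.reindex e.symm e.symm (C ⊗ₖ (1 : Matrix (Fin n₂) (Fin n₂) F))

lemma translate_translate {g h : GL ι F} {N : Subgroup (GL ι F)} (hg : Normalises g N)
    (hh : Normalises h N) (hgh : Normalises (g * h) N) (S : Submodule (AdjN N) (ι → F)) :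
    translate hg (translate hh S) = translate hgh S := by
  ext v
  simp only [mem_translate, mul_inv_rev, act_mul]

lemma map_toLin'_eq_translate {g : GL ι F} {N : Subgroup (GL ι F)} (h : Normalises g N)
    (S : Submodule (AdjN N) (ι → F)) :
    (S.restrictScalars F).map (Matrix.toLin' (g : Matrix ι ι F)) =
      (translate h S).restrictScalars F := by
  ext v
  simp only [Submodule.mem_map, Submodule.restrictScalars_mem, Matrix.toLin'_apply, mem_translate]
  exact ⟨fun ⟨w, hw, hwv⟩ => hwv ▸ by rwa [show act g⁻¹ (act g w) = w from act_inv_act g w],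
    fun hv => ⟨_, hv, act_act_inv g v⟩⟩

/-- Several isotypic components give a decomposition permuted by `H`. -/
lemma exists_decomposition {H N : Subgroup (GL ι F)} (hH : ActsIrreducibly (matrixSet H))
    (hN : NormalIn N H) (hiso : ¬ IsIsotypic (AdjN N) (ι → F)) :
    ∃ (t m : ℕ) (D : Fin t → Submodule F (ι → F)),
      IsMDecomposition m D ∧ H ≤ decompositionStabilizer D := by
  classical
  have := isSemisimpleModule_adjN hH hN
  have : IsNoetherian (AdjN N) (ι → F) := isNoetherian_of_tower F inferInstance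
  set C := isotypicComponents (AdjN N) (ι → F)
  have hfin : Finite C := inferInstance
  have : Fintype C := Fintype.ofFinite C
  have htrans : ∀ g (hg : g ∈ H), ∀ c ∈ C, translate (hN.normalises hg) c ∈ C := by
    rintro g hg c ⟨S, hS, rfl⟩
    exact ⟨_, isSimpleModule_translate (hN.normalises hg) S, translate_isotypicComponent _ S⟩
  have htop : sSup C = ⊤ := sSup_isotypicComponents _ _
  have hcard : 2 ≤ Fintype.card C := by
    by_contra hlt
    have hsub : Subsingleton C := Fintype.card_le_one_iff_subsingleton.1 (by omega)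
    rcases isEmpty_or_nonempty C with he | ⟨⟨c, hc⟩⟩
    · have : C = ∅ := Set.isEmpty_coe_sort.1 he
      rw [this, sSup_empty] at htop
      refine hiso fun m hm => ?_
      have := IsSimpleModule.nontrivial (AdjN N) m
      exact absurd (le_bot_iff.1 (htop ▸ le_top : m ≤ ⊥)) ((Submodule.nontrivial_iff_ne_bot).1 this)
    · have hC : C = {c} := Set.eq_singleton_iff_unique_mem.2 ⟨hc, fun d hd =>
        congrArg Subtype.val (hsub.elim ⟨d, hd⟩ ⟨c, hc⟩)⟩
      rw [hC, sSup_singleton] at htop
      subst htop
      exact hiso ((Submodule.topEquiv.isIsotypic_iff).1 (IsIsotypic.isotypicComponents hc))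
  obtain ⟨⟨c₀, hc₀⟩⟩ : Nonempty C := Fintype.card_pos_iff.1 (by omega)
  -- all components are translates of one of them
  have horbit : ∀ c ∈ C, ∃ g, ∃ hg : g ∈ H, c = translate (hN.normalises hg) c₀ := by
    intro c hc
    by_contra hnot
    push Not at hnot
    set O := {d | ∃ g, ∃ hg : g ∈ H, d = translate (hN.normalises hg) c₀}
    have hO : sSup O = ⊤ := by
      refine sSup_eq_top_of_translate hH hN ?_ ?_
      · intro h0
        have : translate (hN.normalises H.one_mem) c₀ ≤ sSup O := le_sSup ⟨1, H.one_mem, rfl⟩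
        rw [h0, le_bot_iff] at this
        exact (bot_lt_isotypicComponents hc₀).ne'
          ((translateIso (hN.normalises H.one_mem)).injective
            (this.trans (translateIso (hN.normalises H.one_mem)).map_bot.symm))
      · rintro g hg _ ⟨h, hh, rfl⟩
        exact ⟨g * h, H.mul_mem hg hh, translate_translate _ _ _ _⟩
    have hle : O ⊆ C \ {c} := by
      rintro d ⟨g, hg, rfl⟩
      exact ⟨htrans g hg c₀ hc₀, fun h => hnot g hg (Set.mem_singleton_iff.1 h).symm⟩
    have hd : Disjoint c (sSup (C \ {c})) := sSupIndep_isotypicComponents _ _ hc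
    rw [eq_top_iff.2 (hO.ge.trans (sSup_le_sSup hle)), disjoint_top] at hd
    exact (bot_lt_isotypicComponents hc).ne' hd
  let e : Fin (Fintype.card C) ≃ C := (Fintype.equivFin C).symm
  let D : Fin (Fintype.card C) → Submodule F (ι → F) := fun i =>
    ((e i : Submodule (AdjN N) (ι → F))).restrictScalars F
  refine ⟨Fintype.card C, Module.finrank F (c₀.restrictScalars F), D, ⟨hcard, ?_, ?_, ?_, ?_⟩, ?_⟩
  · exact Nat.pos_of_ne_zero fun h => (bot_lt_isotypicComponents hc₀).ne'
      ((Submodule.restrictScalars_eq_bot_iff F _ _).1 (Submodule.finrank_eq_zero.1 h))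
  · intro i
    obtain ⟨g, hg, h⟩ := horbit _ (e i).2
    show Module.finrank F ((e i).1.restrictScalars F) = _
    rw [h, finrank_translate]
  · have hind : iSupIndep fun c : C => (c : Submodule (AdjN N) (ι → F)) :=
      (sSupIndep_iff C).1 (sSupIndep_isotypicComponents _ _)
    intro i
    have h := (hind.comp e.injective) i
    rw [disjoint_iff] at h ⊢
    simp only [D, Function.comp_apply] at h ⊢
    rw [← Submodule.restrictScalars_eq_bot_iff F (AdjN N) (ι → F)] at h
    simp only [Submodule.restrictScalars_inf, Submodule.restrictScalars_iSup] at h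
    exact h
  · simp only [D, ← Submodule.restrictScalars_iSup]
    rw [Submodule.restrictScalars_eq_top_iff, e.iSup_comp (g := fun c : C =>
      (c : Submodule (AdjN N) (ι → F))), ← sSup_eq_iSup', htop]
  · intro g hg
    let π : C → C := fun c => ⟨translate (hN.normalises hg) c.1, htrans g hg c.1 c.2⟩
    have hπ : Function.Injective π := fun a b hab =>
      Subtype.ext ((translateIso (hN.normalises hg)).injective (congrArg Subtype.val hab))
    refine ⟨(e.trans (Equiv.ofBijective π (Finite.injective_iff_bijective.1 hπ))).trans e.symm,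
      fun i => ?_⟩
    simp only [D, Equiv.trans_apply, Equiv.ofBijective_apply, Equiv.apply_symm_apply, π]
    exact map_toLin'_eq_translate (hN.normalises hg) _

lemma mem_centralizer_iff_commute {N : Subgroup (GL ι F)} {M : Matrix ι ι F} :
    M ∈ Subalgebra.centralizer F (matrixSet N) ↔ ∀ g ∈ N, ∀ v, M *ᵥ act g v = act g (M *ᵥ v) := by
  rw [Subalgebra.mem_centralizer_iff]
  refine ⟨fun h g hg v => ?_, ?_⟩
  · rw [act, Matrix.mulVec_mulVec, ← h _ (coe_mem_matrixSet hg), ← Matrix.mulVec_mulVec]
  · rintro h _ ⟨g, hg, rfl⟩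
    apply Matrix.ext_of_mulVec_single
    intro i
    rw [← Matrix.mulVec_mulVec, ← Matrix.mulVec_mulVec]
    exact (h g hg _).symm

/-- The centre of the centraliser algebra of `N`. -/
def centreN (N : Subgroup (GL ι F)) : Subalgebra F (Matrix ι ι F) :=
  Subalgebra.centralizer F (matrixSet N) ⊓
    Subalgebra.centralizer F (Subalgebra.centralizer F (matrixSet N) : Set (Matrix ι ι F))

lemma centreN_comm (N : Subgroup (GL ι F)) : ∀ x ∈ centreN N, ∀ y ∈ centreN N, x * y = y * x :=
  fun x hx _ hy => (Subalgebra.mem_centralizer_iff F).1 hy.2 x hx.1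

lemma conj_centralizer {N : Subgroup (GL ι F)} {g : GL ι F} (hg : Normalises g N)
    {M : Matrix ι ι F} (hM : M ∈ Subalgebra.centralizer F (matrixSet N)) :
    (g : Matrix ι ι F) * M * ((g⁻¹ : GL ι F) : Matrix ι ι F) ∈
      Subalgebra.centralizer F (matrixSet N) := by
  rw [mem_centralizer_iff_commute] at hM ⊢
  intro x hx v
  simp only [act, ← Matrix.mulVec_mulVec]
  have h := hM _ (hg.2 x hx) (act g⁻¹ v)
  simp only [act, ← Matrix.mulVec_mulVec, Units.val_mul] at h
  have h1 : (x : Matrix ι ι F) *ᵥ v = act g (act (g⁻¹ * x * g) (act g⁻¹ v)) := by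
    rw [← act_mul, ← act_mul]; congr 1; group
  change act g (M *ᵥ act g⁻¹ (act x v)) = act x (act g (M *ᵥ act g⁻¹ v))
  rw [← act_mul g⁻¹ x, show g⁻¹ * x = g⁻¹ * x * g * g⁻¹ by group, act_mul]
  rw [show M *ᵥ act (g⁻¹ * x * g) (act g⁻¹ v) = act (g⁻¹ * x * g) (M *ᵥ act g⁻¹ v) from
    (mem_centralizer_iff_commute.1 (mem_centralizer_iff_commute.2 hM)) _ (hg.2 x hx) _,
    ← act_mul, ← act_mul x g]
  congr 1; group

lemma conj_centreN {N : Subgroup (GL ι F)} {g : GL ι F} (hg : Normalises g N)
    {M : Matrix ι ι F} (hM : M ∈ centreN N) :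
    (g : Matrix ι ι F) * M * ((g⁻¹ : GL ι F) : Matrix ι ι F) ∈ centreN N := by
  refine ⟨conj_centralizer hg hM.1, (Subalgebra.mem_centralizer_iff F).2 fun X hX => ?_⟩
  have h := (Subalgebra.mem_centralizer_iff F).1 hM.2 _ (conj_centralizer hg.inv hX)
  rw [inv_inv] at h
  calc X * ((g : Matrix ι ι F) * M * ((g⁻¹ : GL ι F) : Matrix ι ι F))
      = (g : Matrix ι ι F) * (((g⁻¹ : GL ι F) : Matrix ι ι F) * X * g * M) *
          ((g⁻¹ : GL ι F) : Matrix ι ι F) := by simp [mul_assoc]
    _ = _ := by rw [h]; simp [mul_assoc]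

lemma le_subalgebraNormalizer_centreN {H N : Subgroup (GL ι F)} (hN : NormalIn N H) :
    H ≤ subalgebraNormalizer (centreN N) := by
  intro g hg M
  refine ⟨conj_centreN (hN.normalises hg), fun h => ?_⟩
  have := conj_centreN (hN.normalises (H.inv_mem hg)) h
  simpa [mul_assoc] using this

/-- A field of matrices larger than the scalars contains one of prime degree which is normalised
by the normaliser of the first. -/
lemma exists_prime_subfieldAlgebra [Finite F] [Nonempty ι] {K : Subalgebra F (Matrix ι ι F)}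
    (hcomm : ∀ x ∈ K, ∀ y ∈ K, x * y = y * x) (hinv : ∀ x ∈ K, x ≠ 0 → ∃ y ∈ K, x * y = 1)
    (hne : ∃ x ∈ K, ∀ c : F, x ≠ c • 1) :
    ∃ (r : ℕ) (K' : Subalgebra F (Matrix ι ι F)), r.Prime ∧ IsFieldSubalgebra r K' ∧
      subalgebraNormalizer K ≤ subalgebraNormalizer K' := by
  classical
  have := Fintype.ofFinite F
  have hfield : IsField K :=
    { exists_pair_ne := ⟨0, 1, zero_ne_one⟩
      mul_comm := fun x y => Subtype.ext (hcomm x x.2 y y.2)
      mul_inv_cancel := fun {x} hx => by
        obtain ⟨y, hy, hxy⟩ := hinv x x.2 (fun h => hx (Subtype.ext h))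
        exact ⟨⟨y, hy⟩, Subtype.ext hxy⟩ }
  letI : Field K := hfield.toField
  have hfin : Finite K := Subtype.finite
  have : Module.Finite F K := Module.Finite.of_finite
  have he : 1 < Module.finrank F K := by
    refine lt_of_le_of_ne Module.finrank_pos fun h => ?_
    obtain ⟨x, hx, hxc⟩ := hne
    obtain ⟨c, hc⟩ := (finrank_eq_one_iff_of_nonzero' (1 : K) one_ne_zero).1 h.symm ⟨x, hx⟩
    exact hxc c (congrArg Subtype.val hc).symm
  obtain ⟨r, hr, hre⟩ := Nat.exists_prime_and_dvd he.ne'
  let σ : Gal(K/F) := FiniteField.frobeniusAlgEquivOfAlgebraic F K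
  let G : Subgroup Gal(K/F) := Subgroup.zpowers (σ ^ r)
  let L : IntermediateField F K := IntermediateField.fixedField G
  have hσ : orderOf σ = Module.finrank F K :=
    FiniteField.orderOf_frobeniusAlgEquivOfAlgebraic F K
  have hL : Module.finrank F L = r := by
    have h1 : Module.finrank L K = Module.finrank F K / r := by
      rw [IntermediateField.finrank_fixedField_eq_card G, Nat.card_zpowers,
        orderOf_pow_of_dvd hr.ne_zero (hσ.symm ▸ hre), hσ]
    have h2 := Module.finrank_mul_finrank F L K
    rw [h1] at h2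
    have h3 : r * (Module.finrank F K / r) = Module.finrank F K := Nat.mul_div_cancel' hre
    exact Nat.eq_of_mul_eq_mul_right (Nat.div_pos (Nat.le_of_dvd (by omega) hre) hr.pos)
      (h2.trans h3.symm)
  have hσr : ∀ x : K, (σ ^ r) x = x ^ Fintype.card F ^ r := by
    intro x
    rw [AlgEquiv.coe_pow, FiniteField.coe_frobeniusAlgEquivOfAlgebraic_iterate]
  have hmem : ∀ x : K, x ∈ L ↔ x ^ Fintype.card F ^ r = x := by
    intro x
    rw [← hσr]
    refine ⟨fun h => ?_, fun h => ?_⟩
    · exact (IntermediateField.mem_fixedField_iff G x).1 h _ (Subgroup.mem_zpowers _)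
    · refine (IntermediateField.mem_fixedField_iff G x).2 fun f hf => ?_
      have : G ≤ MulAction.stabilizer Gal(K/F) x := Subgroup.zpowers_le.2 h
      exact this hf
  let K' : Subalgebra F (Matrix ι ι F) := L.toSubalgebra.map K.val
  have hK' : ∀ M, M ∈ K' ↔ M ∈ K ∧ M ^ Fintype.card F ^ r = M := by
    intro M
    constructor
    · rintro ⟨x, hx, rfl⟩
      exact ⟨x.2, congrArg Subtype.val ((hmem x).1 hx)⟩
    · rintro ⟨hM, hpow⟩
      exact ⟨⟨M, hM⟩, (hmem _).2 (Subtype.ext hpow), rfl⟩
  refine ⟨r, K', hr, ⟨fun x hx y hy => hcomm x ((hK' x).1 hx).1 y ((hK' y).1 hy).1,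
    fun x hx hx0 => ?_, ?_⟩, fun g hg => ?_⟩
  · obtain ⟨z, hz, rfl⟩ := hx
    have hz0 : z ≠ 0 := fun h => hx0 (by rw [h]; rfl)
    refine ⟨(z⁻¹ : K).1, ⟨z⁻¹, L.inv_mem hz, rfl⟩, ?_⟩
    exact congrArg Subtype.val (mul_inv_cancel₀ hz0 : z * z⁻¹ = 1)
  · rw [← hL]
    exact ((L.toSubalgebra.equivMapOfInjective K.val Subtype.val_injective).toLinearEquiv.finrank_eq).symm
  · intro M
    rw [hK', hK', ← hg M]
    refine and_congr_right fun _ => ?_
    rw [Units.conj_pow]
    refine ⟨fun h => by rw [h], fun h => ?_⟩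
    have := congrArg (fun X => ((g⁻¹ : GL ι F) : Matrix ι ι F) * X * (g : Matrix ι ι F)) h
    simpa [mul_assoc] using this

section Homogeneous

variable {H N : Subgroup (GL ι F)} {t : ℕ} {S : Submodule (AdjN N) (ι → F)}

/-- The component maps of an endomorphism. -/
private noncomputable def compMap (E : (ι → F) ≃ₗ[AdjN N] (Fin t → S))
    (f : Module.End (AdjN N) (ι → F)) (i j : Fin t) : Module.End (AdjN N) S :=
  (LinearMap.proj i).comp (E.toLinearMap.comp (f.comp (E.symm.toLinearMap.comp
    (LinearMap.single (AdjN N) (fun _ => S) j))))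

private lemma apply_eq_sum (E : (ι → F) ≃ₗ[AdjN N] (Fin t → S))
    (f : Module.End (AdjN N) (ι → F)) (w : Fin t → S) (i : Fin t) :
    E (f (E.symm w)) i = ∑ j, compMap E f i j (w j) := by
  conv_lhs => rw [show w = ∑ j, Pi.single j (w j) from (Finset.univ_sum_single w).symm]
  simp only [map_sum, Finset.sum_apply]
  rfl

/-- The endomorphism of `ι → F` acting as `d` on each factor. -/
private noncomputable def diagMap (E : (ι → F) ≃ₗ[AdjN N] (Fin t → S))
    (d : Module.End (AdjN N) S) : Module.End (AdjN N) (ι → F) :=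
  E.symm.toLinearMap.comp ((LinearMap.pi fun i => d.comp (LinearMap.proj i)).comp E.toLinearMap)

private lemma diagMap_apply (E : (ι → F) ≃ₗ[AdjN N] (Fin t → S)) (d : Module.End (AdjN N) S)
    (v : ι → F) (i : Fin t) : E (diagMap E d v) i = d (E v i) := by
  simp [diagMap]

private lemma toLin_end_mem_centralizer (f : Module.End (AdjN N) (ι → F)) :
    LinearMap.toMatrix' (f.restrictScalars F) ∈ Subalgebra.centralizer F (matrixSet N) := by
  rw [mem_centralizer_iff_commute]
  intro g hg v
  rw [← Matrix.toLin'_apply, Matrix.toLin'_toMatrix', ← Matrix.toLin'_apply,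
    Matrix.toLin'_toMatrix']
  exact end_commute f hg v

private lemma exists_end_of_mem {M : Matrix ι ι F}
    (hM : M ∈ Subalgebra.centralizer F (matrixSet N)) :
    ∃ f : Module.End (AdjN N) (ι → F), ∀ v, f v = M *ᵥ v :=
  ⟨ofCommute N (Matrix.toLin' M) fun g hg v => by
    simpa using mem_centralizer_iff_commute.1 hM g hg v, fun v => Matrix.toLin'_apply M v⟩

variable [Finite F] [IsSimpleModule (AdjN N) S]

private lemma end_comm : ∀ a b : Module.End (AdjN N) S, a * b = b * a := by
  have : Finite S := Finite.of_injective _ Subtype.val_injective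
  have : Finite (Module.End (AdjN N) S) := DFunLike.finite _
  have : Nontrivial S := IsSimpleModule.nontrivial (AdjN N) S
  have : NoZeroDivisors (Module.End (AdjN N) S) := ⟨fun {a b} hab => by
    rcases LinearMap.injective_or_eq_zero a with ha | ha
    · exact Or.inr (LinearMap.ext fun x => ha ((LinearMap.congr_fun hab x).trans (map_zero a).symm))
    · exact Or.inl ha⟩
  have : IsDomain (Module.End (AdjN N) S) := NoZeroDivisors.to_isDomain (Module.End (AdjN N) S)
  exact (Finite.isDomain_to_isField (Module.End (AdjN N) S)).mul_comm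

/-- A non-scalar endomorphism of the simple constituent gives a non-scalar central element. -/
private lemma exists_mem_centreN (E : (ι → F) ≃ₗ[AdjN N] (Fin t → S)) [NeZero t]
    {d : Module.End (AdjN N) S} (hd : ∀ c : F, ∃ s, (d s : ι → F) ≠ c • (s : ι → F)) :
    ∃ x ∈ centreN N, ∀ c : F, x ≠ c • 1 := by
  classical
  set M₀ := LinearMap.toMatrix' ((diagMap E d).restrictScalars F)
  have hM₀ : ∀ v, M₀ *ᵥ v = diagMap E d v := fun v => by
    rw [← Matrix.toLin'_apply, Matrix.toLin'_toMatrix']; rfl
  have hM₀mem : M₀ ∈ centreN N := by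
    refine ⟨toLin_end_mem_centralizer _, (Subalgebra.mem_centralizer_iff F).2 fun X hX => ?_⟩
    obtain ⟨f, hf⟩ := exists_end_of_mem hX
    apply Matrix.ext_of_mulVec_single
    intro k
    rw [← Matrix.mulVec_mulVec, ← Matrix.mulVec_mulVec, hM₀, hM₀, ← hf, ← hf]
    apply E.injective
    funext i
    rw [diagMap_apply]
    obtain ⟨w, hw⟩ := E.symm.surjective (Pi.single k 1)
    rw [← hw, apply_eq_sum]
    obtain ⟨u, hu⟩ := E.symm.surjective (diagMap E d (E.symm w))
    rw [← hu, apply_eq_sum, map_sum]
    refine Finset.sum_congr rfl fun j _ => ?_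
    have hj : u j = d (w j) := by
      have := congrArg (fun z => E z j) hu
      simp only [LinearEquiv.apply_symm_apply, diagMap_apply] at this
      exact this
    rw [hj]
    exact LinearMap.congr_fun (end_comm (compMap E f i j) d) (w j)
  refine ⟨M₀, hM₀mem, fun c hc => ?_⟩
  obtain ⟨s, hs⟩ := hd c
  apply hs
  have := diagMap_apply E d (E.symm (Pi.single 0 s)) 0
  rw [← hM₀, hc, Matrix.smul_mulVec, Matrix.one_mulVec, LinearEquiv.apply_symm_apply,
    Pi.single_eq_same, ← algebraMap_smul (AdjN N) c, map_smul, LinearEquiv.apply_symm_apply,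
    Pi.smul_apply, Pi.single_eq_same, algebraMap_smul] at this
  exact (congrArg Subtype.val this).symm

/-- A non-scalar endomorphism of the simple constituent gives the field case. -/
private lemma field_case (hN : NormalIn N H) (E : (ι → F) ≃ₗ[AdjN N] (Fin t → S)) [NeZero t]
    [Nonempty ι] {d : Module.End (AdjN N) S} (hd : ∀ c : F, ∃ s, (d s : ι → F) ≠ c • (s : ι → F)) :
    ∃ (r : ℕ) (K : Subalgebra F (Matrix ι ι F)), r.Prime ∧ IsFieldSubalgebra r K ∧
      H ≤ subalgebraNormalizer K := by
  classical
  have hinv : ∀ X ∈ centreN N, X ≠ 0 → ∃ Y ∈ centreN N, X * Y = 1 := by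
    intro X hX hX0
    obtain ⟨f, hf⟩ := exists_end_of_mem hX.1
    have hdiag : ∀ w i, E (f (E.symm w)) i = compMap E f 0 0 (w i) := by
      intro w i
      -- `f` commutes with the elementary maps
      have key : ∀ a b : Fin t, ∀ w : Fin t → S,
          E (f (E.symm (Pi.single a (w b)))) = Pi.single a (E (f (E.symm w)) b) := by
        intro a b w
        let u : Module.End (AdjN N) (ι → F) := E.symm.toLinearMap.comp
          ((LinearMap.single (AdjN N) (fun _ => S) a).comp
            ((LinearMap.proj b).comp E.toLinearMap))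
        have hu : ∀ v, u v = E.symm (Pi.single a (E v b)) := fun v => rfl
        have hcomm := (Subalgebra.mem_centralizer_iff F).1 hX.2 _ (toLin_end_mem_centralizer u)
        have := congrArg (fun Z => Z *ᵥ (E.symm w)) hcomm
        simp only [← Matrix.mulVec_mulVec] at this
        rw [← Matrix.toLin'_apply, Matrix.toLin'_toMatrix', ← Matrix.toLin'_apply (LinearMap.toMatrix' _),
          Matrix.toLin'_toMatrix', LinearMap.coe_restrictScalars, ← hf, ← hf, hu, hu] at this
        rw [LinearEquiv.apply_symm_apply] at this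
        rw [← this, LinearEquiv.apply_symm_apply]
      have h1 := congrFun (key 0 i w) 0
      rw [Pi.single_eq_same] at h1
      rw [← h1]; rfl
    have hd0 : compMap E f 0 0 ≠ 0 := by
      intro h0
      apply hX0
      apply Matrix.ext_of_mulVec_single
      intro k
      rw [← hf, Matrix.zero_mulVec]
      apply E.injective
      funext i
      obtain ⟨w, hw⟩ := E.symm.surjective (Pi.single k 1)
      rw [← hw, hdiag, h0, map_zero]
      rfl
    have hinj : Function.Injective (X *ᵥ ·) := by
      intro v v' h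
      simp only [← hf] at h
      apply E.injective
      funext i
      apply (LinearMap.injective_or_eq_zero (compMap E f 0 0)).resolve_right hd0
      rw [← hdiag (E v) i, ← hdiag (E v') i, E.symm_apply_apply, E.symm_apply_apply, h]
    have hunit : IsUnit X := Matrix.mulVec_injective_iff_isUnit.1 hinj
    obtain ⟨u, rfl⟩ := hunit
    refine ⟨(↑u⁻¹ : Matrix ι ι F), ?_, u.mul_inv⟩
    refine ⟨(Subalgebra.mem_centralizer_iff F).2 fun Z hZ => ?_,
      (Subalgebra.mem_centralizer_iff F).2 fun Z hZ => ?_⟩
    · exact ((show Commute Z (u : Matrix ι ι F) from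
        (Subalgebra.mem_centralizer_iff F).1 hX.1 Z hZ)).units_inv_right
    · exact ((show Commute Z (u : Matrix ι ι F) from
        (Subalgebra.mem_centralizer_iff F).1 hX.2 Z hZ)).units_inv_right
  have hne : ∃ x ∈ centreN N, ∀ c : F, x ≠ c • 1 := exists_mem_centreN E hd
  obtain ⟨r, K, hr, hK, hle⟩ := exists_prime_subfieldAlgebra (centreN_comm N) hinv hne
  exact ⟨r, K, hr, hK, (le_subalgebraNormalizer_centreN hN).trans hle⟩

omit [Finite F] in
/-- With scalar endomorphism ring and a single constituent, `N` is absolutely irreducible. -/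
private lemma absIrred_case (E : (ι → F) ≃ₗ[AdjN N] (Fin 1 → S))
    (hd : ∀ d : Module.End (AdjN N) S, ∃ c : F, ∀ s : S, (d s : ι → F) = c • (s : ι → F)) :
    ActsAbsolutelyIrreducibly (matrixSet N) := by
  have hsimple : IsSimpleModule (AdjN N) (ι → F) :=
    IsSimpleModule.congr (E.trans (LinearEquiv.funUnique (Fin 1) (AdjN N) S))
  refine ⟨actsIrreducibly_iff.2 fun W hW => ?_, fun M hM => ?_⟩
  · rcases eq_bot_or_eq_top (ofInvariant N W hW) with h | h
    · exact Or.inl ((Submodule.eq_bot_iff _).2 fun v hv => by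
        have : v ∈ ofInvariant N W hW := hv
        rwa [h, Submodule.mem_bot] at this)
    · exact Or.inr (Submodule.eq_top_iff'.2 fun v =>
        (h ▸ Submodule.mem_top : v ∈ ofInvariant N W hW))
  · obtain ⟨f, hf⟩ := exists_end_of_mem (N := N) (M := M)
      ((Subalgebra.mem_centralizer_iff F).2 fun s hs => (hM s hs).symm)
    obtain ⟨c, hc⟩ := hd (compMap E f 0 0)
    refine ⟨c, Matrix.ext_of_mulVec_single fun k => ?_⟩
    rw [← hf, Matrix.smul_mulVec, Matrix.one_mulVec]
    apply E.injective
    funext i
    obtain ⟨w, hw⟩ := E.symm.surjective (Pi.single k 1)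
    rw [← hw, apply_eq_sum, Fin.sum_univ_one, ← algebraMap_smul (AdjN N) c, map_smul,
      LinearEquiv.apply_symm_apply, Pi.smul_apply, algebraMap_smul]
    apply Subtype.ext
    rw [Fin.fin_one_eq_zero i]
    exact hc _

/-- With scalar endomorphism ring and several constituents, `H` preserves a tensor product. -/
private lemma tensor_case (hN : NormalIn N H)
    (hiso : IsIsotypic (AdjN N) (ι → F)) (hns : ¬ N ≤ scalars ι F) (ht : 2 ≤ t)
    (E : (ι → F) ≃ₗ[AdjN N] (Fin t → S))
    (hd : ∀ d : Module.End (AdjN N) S, ∃ c : F, ∀ s : S, (d s : ι → F) = c • (s : ι → F)) :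
    ∃ (n₁ n₂ : ℕ) (e : ι ≃ Fin n₁ × Fin n₂) (P : GL ι F), TensorCase H N n₁ n₂ e P := by
  classical
  set m := Module.finrank F S
  let b : Module.Basis (Fin m) F S := Module.finBasis F S
  let u : Fin t → (S →ₗ[AdjN N] (ι → F)) := fun j =>
    E.symm.toLinearMap.comp (LinearMap.single (AdjN N) (fun _ => S) j)
  let B : Module.Basis (Fin t × Fin m) F (ι → F) :=
    ((Pi.basis fun _ : Fin t => b).map (E.restrictScalars F).symm).reindex
      (Equiv.sigmaEquivProd (Fin t) (Fin m))
  have hB : ∀ j k, B (j, k) = u j (b k) := by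
    intro j k
    simp [B, u]
  have hm : 2 ≤ m := by
    by_contra hlt
    have hm1 : m = 1 := by
      have : Nontrivial S := IsSimpleModule.nontrivial (AdjN N) S
      have : 0 < Module.finrank F S := Module.finrank_pos
      omega
    obtain ⟨v, hv, hspan⟩ := finrank_eq_one_iff'.1 hm1
    apply hns
    intro g hg
    obtain ⟨c, hc⟩ := hspan (genN hg • v)
    have hall : ∀ s : S, genN hg • s = c • s := by
      intro s
      obtain ⟨a, rfl⟩ := hspan s
      rw [smul_comm, ← hc, smul_comm]
    have : Nonempty ι := by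
      by_contra he
      rw [not_nonempty_iff] at he
      exact hv (Subtype.ext (funext fun i => isEmptyElim i))
    refine mem_scalars_of_act c fun w => ?_
    apply E.injective
    rw [← genN_smul hg, map_smul, ← algebraMap_smul (AdjN N) c w, map_smul]
    funext i
    rw [Pi.smul_apply, Pi.smul_apply, algebraMap_smul, hall]
  let eι : ι ≃ Fin t × Fin m := (Pi.basisFun F ι).indexEquiv B
  let B' : Module.Basis ι F (ι → F) := B.reindex eι.symm
  let P : GL ι F := @unitOfInvertible _ _ _ ((Pi.basisFun F ι).invertibleToMatrix B')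
  have hPcol : ∀ c i, (P : Matrix ι ι F) i c = B' c i := fun c i => by
    simp [P, Module.Basis.toMatrix_apply]
  -- turning a Kronecker relation on basis vectors into a matrix identity
  have key : ∀ (g : Matrix ι ι F) (C : Matrix (Fin t) (Fin t) F) (A : Matrix (Fin m) (Fin m) F),
      (∀ j k, g *ᵥ (B (j, k)) = ∑ x : Fin t × Fin m, (C x.1 j * A x.2 k) • B x) →
      g * (P : Matrix ι ι F) =
        (P : Matrix ι ι F) * Matrix.reindex eι.symm eι.symm (C ⊗ₖ A) := by
    intro g C A h
    ext i c
    have h1 := congrFun (h (eι c).1 (eι c).2) i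
    simp only [Matrix.mulVec, dotProduct, Finset.sum_apply, Pi.smul_apply, smul_eq_mul] at h1
    simp only [Matrix.mul_apply, hPcol, B', Module.Basis.reindex_apply, Equiv.symm_symm,
      Matrix.reindex_apply, Matrix.submatrix_apply, Matrix.kroneckerMap_apply]
    rw [h1, ← Equiv.sum_comp eι]
    exact Finset.sum_congr rfl fun x _ => by ring
  have hinner : ∀ x ∈ N, ∃ A : Matrix (Fin m) (Fin m) F,
      ∀ j k, act x (B (j, k)) =
        ∑ y : Fin t × Fin m, ((1 : Matrix (Fin t) (Fin t) F) y.1 j * A y.2 k) • B y := by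
    intro x hx
    refine ⟨fun l k => b.repr (genN hx • b k) l, fun j k => ?_⟩
    rw [hB, ← genN_smul hx, ← map_smul (u j)]
    conv_lhs => rw [← b.sum_repr (genN hx • b k)]
    rw [Fintype.sum_prod_type, map_sum, Finset.sum_eq_single j]
    · refine Finset.sum_congr rfl fun l _ => ?_
      rw [Matrix.one_apply_eq, one_mul, hB, ← algebraMap_smul (AdjN N) _ (b l), map_smul,
        algebraMap_smul]
    · intro i _ hij
      exact Finset.sum_eq_zero fun l _ => by rw [Matrix.one_apply_ne hij, zero_mul, zero_smul]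
    · exact fun h => absurd (Finset.mem_univ j) h
  refine ⟨t, m, eι, P, ht, hm, fun g hg => ?_, fun x hx => ?_, fun M hM => ?_⟩
  · have hg' := hN.normalises hg
    have := isSimpleModule_translate hg' S
    obtain ⟨φ⟩ := hiso S (translate hg' S)
    let a : S →ₗ[F] S :=
      { toFun := fun s => φ ⟨act g s, act_mem_translate.2 s.2⟩
        map_add' := fun s s' => by
          rw [← map_add]; congr 1; exact Subtype.ext (Matrix.mulVec_add _ _ _)
        map_smul' := fun c s => by
          refine Eq.trans (congrArg φ ?_) ((φ.map_smul (algebraMap F (AdjN N) c)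
            ⟨act g s, act_mem_translate.2 s.2⟩).trans (algebraMap_smul (AdjN N) c _))
          apply Subtype.ext
          show act g (c • (s : ι → F)) = algebraMap F (AdjN N) c • act g s
          rw [algebraMap_smul]
          exact Matrix.mulVec_smul _ c _ }
    let ainv : S → S := fun s => ⟨act g⁻¹ (φ.symm s : ι → F), mem_translate.1 (φ.symm s).2⟩
    have ha : ∀ s, a (ainv s) = s := by
      intro s
      show φ _ = s
      rw [← LinearEquiv.eq_symm_apply]
      exact Subtype.ext (act_act_inv g _)
    have ha' : ∀ s, ainv (a s) = s := by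
      intro s
      apply Subtype.ext
      show act g⁻¹ (φ.symm (φ _) : ι → F) = s
      rw [LinearEquiv.symm_apply_apply]
      exact act_inv_act g _
    let ψ : Fin t → (S →ₗ[AdjN N] (ι → F)) := fun j =>
      { toFun := fun s => act g (u j (ainv s))
        map_add' := fun s s' => by
          rw [show ainv (s + s') = ainv s + ainv s' from Subtype.ext (by
            simp [ainv, act, Matrix.mulVec_add]), map_add, act, Matrix.mulVec_add]
        map_smul' := fun x s => by
          obtain ⟨y, hy⟩ := hg'.inv.conj_mem_adjN x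
          rw [show ainv (x • s) = y • ainv s from Subtype.ext (by
            show act g⁻¹ (φ.symm (x • s) : ι → F) = y • act g⁻¹ (φ.symm s : ι → F)
            rw [map_smul, Submodule.coe_smul, hy]), map_smul, RingHom.id_apply]
          have h1 := hy (act g (u j (ainv s)))
          rw [act_inv_act] at h1
          rw [h1, act_act_inv] }
    choose C hC using fun i j => hd ((LinearMap.proj i).comp (E.toLinearMap.comp (ψ j)))
    have hgu : ∀ j s, act g (u j s) = ∑ i, C i j • u i (a s) := by
      intro j s
      apply E.injective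
      have h1 : act g (u j s) = ψ j (a s) := by
        show _ = act g (u j (ainv (a s)))
        rw [ha']
      rw [h1, map_sum]
      funext i
      rw [Finset.sum_apply, Finset.sum_eq_single i]
      · apply Subtype.ext
        rw [← algebraMap_smul (AdjN N) (C i j) (u i (a s)), map_smul]
        simp only [u, LinearMap.coe_comp, LinearEquiv.coe_coe, Function.comp_apply,
          LinearEquiv.apply_symm_apply, LinearMap.coe_single, Pi.smul_apply, Pi.single_eq_same,
          algebraMap_smul, Submodule.coe_smul_of_tower]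
        exact hC i j (a s)
      · intro k _ hki
        rw [← algebraMap_smul (AdjN N) (C k j) (u k (a s)), map_smul]
        simp [u, Pi.single_eq_of_ne (Ne.symm hki)]
      · exact fun h => absurd (Finset.mem_univ i) h
    let Cm : Matrix (Fin t) (Fin t) F := Matrix.of C
    let Am : Matrix (Fin m) (Fin m) F := LinearMap.toMatrix b b a
    have hrel : ∀ j k, act g (B (j, k)) = ∑ x : Fin t × Fin m, (Cm x.1 j * Am x.2 k) • B x := by
      intro j k
      rw [hB, hgu, Fintype.sum_prod_type]
      refine Finset.sum_congr rfl fun i _ => ?_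
      conv_lhs => rw [← b.sum_repr (a (b k))]
      rw [map_sum, Finset.smul_sum]
      refine Finset.sum_congr rfl fun l _ => ?_
      rw [hB, ← algebraMap_smul (AdjN N) _ (b l), map_smul, algebraMap_smul, smul_smul]
      simp [Cm, Am, LinearMap.toMatrix_apply]
    have hmat := key g Cm Am hrel
    have hK : IsUnit (Cm ⊗ₖ Am) := by
      have h2 : IsUnit (Matrix.reindex eι.symm eι.symm (Cm ⊗ₖ Am)) := by
        refine (Units.isUnit_units_mul P _).1 ?_
        rw [← hmat]
        exact (g * P).isUnit
      rwa [Matrix.isUnit_iff_isUnit_det, Matrix.det_reindex_self, ← Matrix.isUnit_iff_isUnit_det]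
        at h2
    rw [Matrix.isUnit_iff_isUnit_det, Matrix.det_kronecker, IsUnit.mul_iff, Fintype.card_fin,
      Fintype.card_fin] at hK
    have hCu : IsUnit Cm :=
      (Matrix.isUnit_iff_isUnit_det _).2 ((isUnit_pow_iff (by omega)).1 hK.1)
    have hAu : IsUnit Am :=
      (Matrix.isUnit_iff_isUnit_det _).2 ((isUnit_pow_iff (by omega)).1 hK.2)
    let X : GL (Fin t × Fin m) F :=
      ((Matrix.isUnit_iff_isUnit_det (Cm ⊗ₖ Am)).2 (by
        rw [Matrix.det_kronecker]; exact IsUnit.mul (IsUnit.pow _ ((Matrix.isUnit_iff_isUnit_det _).1 hCu))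
          (IsUnit.pow _ ((Matrix.isUnit_iff_isUnit_det _).1 hAu)))).unit
    refine ⟨glReindex eι.symm X, ⟨X, ⟨hCu.unit, hAu.unit, rfl⟩, rfl⟩, ?_⟩
    show P * glReindex eι.symm X * P⁻¹ = g
    rw [mul_inv_eq_iff_eq_mul]
    exact Units.ext hmat.symm
  · obtain ⟨A, hA⟩ := hinner x hx
    exact ⟨A, key x 1 A hA⟩
  · obtain ⟨f, hf⟩ := exists_end_of_mem hM
    choose C hC using fun i j => hd (compMap E f i j)
    refine ⟨Matrix.of C, key M _ 1 fun j k => ?_⟩
    rw [hB, ← hf, Fintype.sum_prod_type]
    apply E.injective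
    rw [map_sum]
    funext i
    rw [Finset.sum_apply, Finset.sum_eq_single i]
    · rw [map_sum, Finset.sum_apply, Finset.sum_eq_single k]
      · apply Subtype.ext
        rw [← algebraMap_smul (AdjN N) (Matrix.of C (i, k).1 j * (1 : Matrix (Fin m) (Fin m) F) (i, k).2 k),
          map_smul, hB]
        simp only [u, LinearMap.coe_comp, LinearEquiv.coe_coe, Function.comp_apply,
          LinearEquiv.apply_symm_apply, LinearMap.coe_single, Pi.smul_apply, Pi.single_eq_same,
          algebraMap_smul, Submodule.coe_smul_of_tower, Matrix.one_apply_eq, mul_one, Matrix.of_apply]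
        exact hC i j (b k)
      · intro l _ hlk
        rw [← algebraMap_smul (AdjN N) (Matrix.of C (i, l).1 j * (1 : Matrix (Fin m) (Fin m) F) (i, l).2 k),
          map_smul]
        simp [Matrix.one_apply_ne hlk]
      · exact fun h => absurd (Finset.mem_univ k) h
    · intro l _ hli
      rw [map_sum, Finset.sum_apply]
      refine Finset.sum_eq_zero fun q _ => ?_
      rw [← algebraMap_smul (AdjN N) (Matrix.of C (l, q).1 j * (1 : Matrix (Fin m) (Fin m) F) (l, q).2 k),
        map_smul, hB]
      simp [u, Pi.single_eq_of_ne (Ne.symm hli)]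
    · exact fun h => absurd (Finset.mem_univ i) h

end Homogeneous

/-- **Clifford's theorem**: the four cases for a non-scalar normal subgroup of an irreducible
group. -/
theorem clifford_cases [Finite F] {H N : Subgroup (GL ι F)} (hH : ActsIrreducibly (matrixSet H))
    (hN : NormalIn N H) (hns : ¬ N ≤ scalars ι F) :
    ActsAbsolutelyIrreducibly (matrixSet N) ∨
    (∃ (t m : ℕ) (D : Fin t → Submodule F (ι → F)),
      IsMDecomposition m D ∧ H ≤ decompositionStabilizer D) ∨
    (∃ (r : ℕ) (K : Subalgebra F (Matrix ι ι F)), r.Prime ∧ IsFieldSubalgebra r K ∧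
      H ≤ subalgebraNormalizer K) ∨
    ∃ (n₁ n₂ : ℕ) (e : ι ≃ Fin n₁ × Fin n₂) (P : GL ι F), TensorCase H N n₁ n₂ e P := by
  classical
  have : Nonempty ι := by
    by_contra he
    rw [not_nonempty_iff] at he
    exact hns fun g _ => (Subsingleton.elim g 1 : g = 1) ▸ one_mem _
  by_cases hiso : IsIsotypic (AdjN N) (ι → F)
  · have := isSemisimpleModule_adjN hH hN
    have : Module.Finite (AdjN N) (ι → F) := Module.Finite.of_restrictScalars_finite F _ _
    obtain ⟨t, ht, S, hS, ⟨E⟩⟩ := hiso.linearEquiv_fun
    by_cases hd : ∀ d : Module.End (AdjN N) S, ∃ c : F, ∀ s : S, (d s : ι → F) = c • (s : ι → F)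
    · rcases (Nat.one_le_iff_ne_zero.2 ht.out).eq_or_lt with rfl | ht2
      · exact Or.inl (absIrred_case E hd)
      · exact Or.inr (Or.inr (Or.inr (tensor_case hN hiso hns ht2 E hd)))
    · push Not at hd
      obtain ⟨d, hd⟩ := hd
      exact Or.inr (Or.inr (Or.inl (field_case hN E hd)))
  · exact Or.inr (Or.inl (exists_decomposition hH hN hiso))

/-- A homogeneous normal subgroup with scalar centre of its centraliser preserves a tensor product,
unless it is absolutely irreducible. -/
theorem tensorCase_of_isotypic [Finite F] [Nonempty ι] {H N : Subgroup (GL ι F)}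
    (hH : ActsIrreducibly (matrixSet H)) (hN : NormalIn N H) (hns : ¬ N ≤ scalars ι F)
    (hiso : IsIsotypic (AdjN N) (ι → F))
    (hcentre : ∀ x ∈ centreN N, ∃ c : F, x = c • 1)
    (hnot : ¬ ActsAbsolutelyIrreducibly (matrixSet N)) :
    ∃ (n₁ n₂ : ℕ) (e : ι ≃ Fin n₁ × Fin n₂) (P : GL ι F), TensorCase H N n₁ n₂ e P := by
  classical
  have := isSemisimpleModule_adjN hH hN
  have : Module.Finite (AdjN N) (ι → F) := Module.Finite.of_restrictScalars_finite F _ _
  obtain ⟨t, ht, S, hS, ⟨E⟩⟩ := hiso.linearEquiv_fun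
  have hd : ∀ d : Module.End (AdjN N) S, ∃ c : F, ∀ s : S, (d s : ι → F) = c • (s : ι → F) := by
    by_contra hd
    push Not at hd
    obtain ⟨d, hd⟩ := hd
    obtain ⟨x, hx, hxc⟩ := exists_mem_centreN E hd
    obtain ⟨c, hc⟩ := hcentre x hx
    exact hxc c hc
  rcases (Nat.one_le_iff_ne_zero.2 ht.out).eq_or_lt with rfl | ht2
  · exact absurd (absIrred_case E hd) hnot
  · exact tensor_case hN hiso hns ht2 E hd

end CfsgLib.SmallDim
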