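import Mathlib.GroupTheory.NoncommPiCoprod
import Mathlib.LinearAlgebra.Multilinear.Basic
import Cfsg.Agent.Lib.SmallDim.GeneralClifford
import Cfsg.Agent.Lib.SmallDim.MatrixUnits

/-!
# The tensor-induced case

A group permuting transitively `k ≥ 2` pairwise commuting subgroups which generate an absolutely
irreducible group preserves a decomposition into `k` equal tensor factors.
-/

set_option autoImplicit false
set_option linter.style.haveILetI false

namespace CfsgLib.SmallDim

open scoped MatrixGroups Matrix Kronecker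
open Cfsg.Geo

variable {ι : Type} [Fintype ι] [DecidableEq ι] {F : Type*} [Field F]

/-- Conjugation by an invertible matrix as an algebra automorphism. -/
def conjAlg (g : GL ι F) : Matrix ι ι F ≃ₐ[F] Matrix ι ι F where
  toFun X := (g : Matrix ι ι F) * X * ((g⁻¹ : GL ι F) : Matrix ι ι F)
  invFun X := ((g⁻¹ : GL ι F) : Matrix ι ι F) * X * (g : Matrix ι ι F)
  left_inv X := by simp [mul_assoc]
  right_inv X := by simp [mul_assoc]
  map_mul' X Y := by simp [mul_assoc]
  map_add' X Y := by rw [mul_add, add_mul]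
  commutes' c := by
    rw [Algebra.algebraMap_eq_smul_one, Matrix.mul_smul, Matrix.mul_one, Matrix.smul_mul,
      Units.mul_inv]

lemma conjAlg_apply (g : GL ι F) (X : Matrix ι ι F) :
    conjAlg g X = (g : Matrix ι ι F) * X * ((g⁻¹ : GL ι F) : Matrix ι ι F) := rfl

lemma conjAlg_mul (g h : GL ι F) (X : Matrix ι ι F) :
    conjAlg (g * h) X = conjAlg g (conjAlg h X) := by
  simp [conjAlg_apply, mul_assoc, mul_inv_rev]

lemma conjAlg_inv_self (g : GL ι F) (X : Matrix ι ι F) : conjAlg g⁻¹ (conjAlg g X) = X := by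
  rw [← conjAlg_mul, inv_mul_cancel]; simp [conjAlg_apply]

lemma conjAlg_coe (g x : GL ι F) :
    conjAlg g (x : Matrix ι ι F) = ((g * x * g⁻¹ : GL ι F) : Matrix ι ι F) := by
  simp [conjAlg_apply]

/-- The double centraliser of a matrix group. -/
def biCent (L : Subgroup (GL ι F)) : Subalgebra F (Matrix ι ι F) :=
  Subalgebra.centralizer F (Subalgebra.centralizer F (matrixSet L) : Set (Matrix ι ι F))

lemma coe_mem_biCent {L : Subgroup (GL ι F)} {x : GL ι F} (hx : x ∈ L) :
    (x : Matrix ι ι F) ∈ biCent L :=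
  (Subalgebra.mem_centralizer_iff F).2 fun M hM =>
    ((Subalgebra.mem_centralizer_iff F).1 hM _ (coe_mem_matrixSet hx)).symm

lemma biCent_commute {L L' : Subgroup (GL ι F)} (h : ∀ a ∈ L, ∀ b ∈ L', a * b = b * a)
    {X Y : Matrix ι ι F} (hX : X ∈ biCent L) (hY : Y ∈ biCent L') : X * Y = Y * X := by
  refine (Subalgebra.mem_centralizer_iff F).1 hY X ((Subalgebra.mem_centralizer_iff F).2 ?_)
  rintro _ ⟨b, hb, rfl⟩
  refine (Subalgebra.mem_centralizer_iff F).1 hX _ ((Subalgebra.mem_centralizer_iff F).2 ?_)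
  rintro _ ⟨a, ha, rfl⟩
  exact congrArg Units.val (h a ha b hb)

lemma conjAlg_mem_centralizer {L : Subgroup (GL ι F)} (g : GL ι F) {X : Matrix ι ι F}
    (hX : X ∈ Subalgebra.centralizer F (matrixSet L)) :
    conjAlg g X ∈ Subalgebra.centralizer F (matrixSet (L.map (MulAut.conj g).toMonoidHom)) := by
  rw [Subalgebra.mem_centralizer_iff] at hX ⊢
  rintro _ ⟨_, ⟨a, ha, rfl⟩, rfl⟩
  show ((g * a * g⁻¹ : GL ι F) : Matrix ι ι F) * _ = _ * ((g * a * g⁻¹ : GL ι F) : Matrix ι ι F)
  rw [← conjAlg_coe, ← map_mul, ← map_mul, hX _ (coe_mem_matrixSet ha)]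

lemma map_conj_inv (L : Subgroup (GL ι F)) (g : GL ι F) :
    (L.map (MulAut.conj g).toMonoidHom).map (MulAut.conj g⁻¹).toMonoidHom = L := by
  ext x
  simp only [Subgroup.mem_map, MulEquiv.coe_toMonoidHom, MulAut.conj_apply]
  refine ⟨?_, fun hx => ⟨g * x * g⁻¹, ⟨x, hx, rfl⟩, by group⟩⟩
  rintro ⟨_, ⟨y, hy, rfl⟩, rfl⟩
  convert hy using 1
  group

lemma conjAlg_mem_biCent {L : Subgroup (GL ι F)} (g : GL ι F) {X : Matrix ι ι F}
    (hX : X ∈ biCent L) : conjAlg g X ∈ biCent (L.map (MulAut.conj g).toMonoidHom) := by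
  refine (Subalgebra.mem_centralizer_iff F).2 fun M hM => ?_
  have hM' := conjAlg_mem_centralizer g⁻¹ hM
  rw [map_conj_inv] at hM'
  have h := congrArg (conjAlg g) ((Subalgebra.mem_centralizer_iff F).1 hX _ hM')
  rw [map_mul, map_mul, ← conjAlg_mul, mul_inv_cancel] at h
  simpa [conjAlg_apply] using h

lemma commute_iSup {k : ℕ} {L : Fin k → Subgroup (GL ι F)} {M : Matrix ι ι F}
    (h : ∀ j, ∀ a ∈ L j, M * (a : Matrix ι ι F) = (a : Matrix ι ι F) * M) :
    ∀ a ∈ ⨆ j, L j, M * (a : Matrix ι ι F) = (a : Matrix ι ι F) * M := by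
  intro a ha
  refine Subgroup.iSup_induction L (C := fun a => M * (a : Matrix ι ι F) = (a : Matrix ι ι F) * M)
    ha h ?_ ?_
  · rw [Units.val_one, mul_one, one_mul]
  · intro a b ha hb
    rw [Units.val_mul, ← mul_assoc, ha, mul_assoc, hb, mul_assoc]

/-- In an irreducible group generated by commuting subgroups, each of them has an algebra of matrices
as double centraliser. -/
theorem exists_biCent_algHom [Finite F] [Nonempty ι] {k : ℕ} {L : Fin k → Subgroup (GL ι F)}
    (hcomm : ∀ i j, i ≠ j → ∀ a ∈ L i, ∀ b ∈ L j, a * b = b * a)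
    (hN : ActsAbsolutelyIrreducibly (matrixSet (⨆ i, L i))) {i₀ : Fin k}
    (hns : ¬ L i₀ ≤ scalars ι F) (hnot : ¬ ActsAbsolutelyIrreducibly (matrixSet (L i₀))) :
    ∃ (m : ℕ) (Φ : Matrix (Fin m) (Fin m) F →ₐ[F] Matrix ι ι F),
      2 ≤ m ∧ Function.Injective Φ ∧ Φ.range = biCent (L i₀) := by
  classical
  have hnorm : NormalIn (L i₀) (⨆ i, L i) := by
    refine ⟨le_iSup L i₀, fun g hg => ?_⟩
    have : g ∈ Subgroup.normalizer (L i₀ : Set (GL ι F)) := by
      refine (iSup_le fun j => ?_ : (⨆ i, L i) ≤ _) hg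
      intro a ha
      refine Subgroup.mem_normalizer_iff.2 fun x => ?_
      by_cases hj : j = i₀
      · subst hj
        refine ⟨fun hx => mul_mem (mul_mem ha hx) (inv_mem ha), fun hx => ?_⟩
        have := mul_mem (mul_mem (inv_mem ha) hx) ha
        simpa [mul_assoc] using this
      · have hc : ∀ y ∈ L i₀, a * y * a⁻¹ = y := fun y hy => by
          rw [hcomm j i₀ hj a ha y hy, mul_inv_cancel_right]
        refine ⟨fun hx => by rwa [hc x hx], fun hx => ?_⟩
        have h1 := hc _ hx
        have h2 : a * x * a⁻¹ = x := mul_left_cancel (mul_right_cancel (b := a⁻¹) h1)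
        rwa [h2] at hx
    exact fun x hx => (Subgroup.mem_normalizer_iff.1 this x).1 hx
  have hiso : IsIsotypic (AdjN (L i₀)) (ι → F) := by
    have := isSemisimpleModule_adjN hN.1 hnorm
    rw [isIsotypic_iff_isFullyInvariant_imp_bot_or_top]
    intro c hc
    have hle : (⨆ j, L j) ≤ subspaceStabilizer (c.restrictScalars F) := by
      refine iSup_le fun j => le_subspaceStabilizer fun a ha v hv => ?_
      by_cases hj : j = i₀
      · exact act_mem_of_mem c (hj ▸ ha) hv
      · exact hc (ofCommute (L i₀) (Matrix.toLin' (a : Matrix ι ι F)) fun x hx w => by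
          simp only [Matrix.toLin'_apply]
          show act a (act x w) = act x (act a w)
          rw [← act_mul, ← act_mul, hcomm j i₀ hj a ha x hx]) hv
    rcases actsIrreducibly_iff.1 hN.1 (c.restrictScalars F)
      (fun g hg v hv => ((mem_subspaceStabilizer.1 (hle hg)) v).1 hv) with h | h
    · exact Or.inl ((Submodule.restrictScalars_eq_bot_iff F _ _).1 h)
    · exact Or.inr ((Submodule.restrictScalars_eq_top_iff F _ _).1 h)
  have hcentre : ∀ x ∈ centreN (L i₀), ∃ c : F, x = c • 1 := by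
    intro x hx
    refine hN.2 x ?_
    rintro _ ⟨a, ha, rfl⟩
    refine commute_iSup (fun j b hb => ?_) a ha
    by_cases hj : j = i₀
    · exact ((Subalgebra.mem_centralizer_iff F).1 hx.1 _ (coe_mem_matrixSet (hj ▸ hb))).symm
    · refine ((Subalgebra.mem_centralizer_iff F).1 hx.2 _ ((Subalgebra.mem_centralizer_iff F).2 ?_)).symm
      rintro _ ⟨y, hy, rfl⟩
      exact congrArg Units.val (hcomm j i₀ hj b hb y hy).symm
  obtain ⟨t, m, e, P, hT⟩ := tensorCase_of_isotypic hN.1 hnorm hns hiso hcentre hnot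
  let Φ : Matrix (Fin m) (Fin m) F →ₐ[F] Matrix ι ι F := (conjAlg P).toAlgHom.comp
    (AlgHom.ofLinearMap
      { toFun := fun b => Matrix.reindex e.symm e.symm ((1 : Matrix (Fin t) (Fin t) F) ⊗ₖ b)
        map_add' := fun a b => by simp [Matrix.kronecker_add, Matrix.submatrix_add]
        map_smul' := fun c a => by simp [Matrix.kronecker_smul, Matrix.submatrix_smul] }
      (by simp) (fun a b => by
        simp [Matrix.submatrix_mul_equiv, ← Matrix.mul_kronecker_mul]))
  have hΦ : ∀ b, Φ b = conjAlg P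
      (Matrix.reindex e.symm e.symm ((1 : Matrix (Fin t) (Fin t) F) ⊗ₖ b)) := fun b => rfl
  have ht : 0 < t := by have := hT.two_le_left; omega
  refine ⟨m, Φ, hT.two_le_right, fun a b hab => ?_, ?_⟩
  · rw [hΦ, hΦ] at hab
    have h := (conjAlg P).injective hab
    ext i j
    have := congrFun (congrFun h (e.symm (⟨0, ht⟩, i))) (e.symm (⟨0, ht⟩, j))
    simpa using this
  · have hPC : ∀ C, conjAlg P (Matrix.reindex e.symm e.symm
        (C ⊗ₖ (1 : Matrix (Fin m) (Fin m) F))) ∈ Subalgebra.centralizer F (matrixSet (L i₀)) := by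
      intro C
      rw [Subalgebra.mem_centralizer_iff]
      rintro _ ⟨x, hx, rfl⟩
      obtain ⟨b, hb⟩ := hT.inner x hx
      have hxP : (x : Matrix ι ι F) = conjAlg P
          (Matrix.reindex e.symm e.symm ((1 : Matrix (Fin t) (Fin t) F) ⊗ₖ b)) := by
        rw [conjAlg_apply, ← hb, mul_assoc, Units.mul_inv, mul_one]
      show (x : Matrix ι ι F) * _ = _ * (x : Matrix ι ι F)
      rw [hxP, ← map_mul (conjAlg P), ← map_mul (conjAlg P)]
      simp [Matrix.submatrix_mul_equiv, ← Matrix.mul_kronecker_mul]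
    apply le_antisymm
    · rintro _ ⟨b, rfl⟩
      refine (Subalgebra.mem_centralizer_iff F).2 fun M hM => ?_
      obtain ⟨C, hC⟩ := hT.commutant M hM
      have hM' : M = conjAlg P
          (Matrix.reindex e.symm e.symm (C ⊗ₖ (1 : Matrix (Fin m) (Fin m) F))) := by
        rw [conjAlg_apply, ← hC, mul_assoc, Units.mul_inv, mul_one]
      show M * Φ b = Φ b * M
      rw [hΦ, hM', ← map_mul (conjAlg P), ← map_mul (conjAlg P)]
      simp [Matrix.submatrix_mul_equiv, ← Matrix.mul_kronecker_mul]
    · intro X hX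
      let Y := Matrix.reindex e e (conjAlg P⁻¹ X)
      have hY : ∀ C : Matrix (Fin t) (Fin t) F,
          (C ⊗ₖ (1 : Matrix (Fin m) (Fin m) F)) * Y = Y * (C ⊗ₖ (1 : Matrix (Fin m) (Fin m) F)) := by
        intro C
        have h := congrArg (fun Z => Matrix.reindex e e (conjAlg P⁻¹ Z))
          ((Subalgebra.mem_centralizer_iff F).1 hX _ (hPC C))
        simp only [map_mul, conjAlg_inv_self] at h
        simpa [Y, ← Matrix.submatrix_mul_equiv _ _ _ e.symm] using h
      let i₁ : Fin t := ⟨0, ht⟩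
      refine ⟨Matrix.of fun p q => Y (i₁, p) (i₁, q), ?_⟩
      have hsplit : Y = (1 : Matrix (Fin t) (Fin t) F) ⊗ₖ
          Matrix.of (fun p q => Y (i₁, p) (i₁, q)) := by
        ext ⟨i, p⟩ ⟨j, q⟩
        by_cases hij : i = j
        · subst hij
          have := congrFun (congrFun (hY (Matrix.single i i₁ 1)) (i, p)) (i₁, q)
          simp [Matrix.mul_apply, Fintype.sum_prod_type, Matrix.single_apply, Matrix.one_apply] at this
          show Y (i, p) (i, q) = (1 : Matrix (Fin t) (Fin t) F) i i * Y (i₁, p) (i₁, q)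
          rw [Matrix.one_apply_eq, one_mul, this]
        · have := congrFun (congrFun (hY (Matrix.single i i 1)) (i, p)) (j, q)
          simp [Matrix.mul_apply, Fintype.sum_prod_type, Matrix.single_apply, Matrix.one_apply, hij]
            at this
          show Y (i, p) (j, q) = (1 : Matrix (Fin t) (Fin t) F) i j * Y (i₁, p) (i₁, q)
          rw [Matrix.one_apply_ne hij, zero_mul, this]
      show Φ _ = X
      rw [hΦ, ← hsplit]
      simp [Y, conjAlg_apply, mul_assoc]

/-- A tensor product of matrices indexed by functions. -/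
def pureMat {k m : ℕ} (f : Fin k → Matrix (Fin m) (Fin m) F) :
    Matrix (Fin k → Fin m) (Fin k → Fin m) F :=
  Matrix.of fun x y => ∏ i, f i (x i) (y i)

lemma pureMat_mul {k m : ℕ} (f g : Fin k → Matrix (Fin m) (Fin m) F) :
    pureMat (f * g) = pureMat f * pureMat g := by
  ext x y
  simp only [pureMat, Matrix.of_apply, Pi.mul_apply, Matrix.mul_apply, Fintype.prod_sum,
    ← Finset.prod_mul_distrib]

lemma pureMat_one {k m : ℕ} : pureMat (1 : Fin k → Matrix (Fin m) (Fin m) F) = 1 := by
  ext x y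
  by_cases h : x = y
  · subst h; simp [pureMat]
  · obtain ⟨i, hi⟩ := Function.ne_iff.1 h
    rw [Matrix.one_apply_ne h]
    simp only [pureMat, Matrix.of_apply]
    exact Finset.prod_eq_zero (Finset.mem_univ i) (Matrix.one_apply_ne hi)

/-- Invertible tensor products of matrices. -/
def pureGL {k m : ℕ} (f : Fin k → GL (Fin m) F) : GL (Fin k → Fin m) F where
  val := pureMat fun i => (f i : Matrix (Fin m) (Fin m) F)
  inv := pureMat fun i => ((f i)⁻¹ : GL (Fin m) F)
  val_inv := by
    rw [← pureMat_mul, ← pureMat_one]; exact congrArg pureMat (funext fun i => Units.mul_inv _)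
  inv_val := by
    rw [← pureMat_mul, ← pureMat_one]; exact congrArg pureMat (funext fun i => Units.inv_mul _)

/-- The permutation of tensor factors. -/
def factorPerm {k m : ℕ} (σ : Equiv.Perm (Fin k)) : GL (Fin k → Fin m) F where
  val := Matrix.of fun x y => if y = x ∘ σ then 1 else 0
  inv := Matrix.of fun x y => if y = x ∘ σ.symm then 1 else 0
  val_inv := by
    ext x y
    rw [Matrix.mul_apply, Finset.sum_eq_single (x ∘ σ)]
    · simp [Matrix.one_apply, Function.comp_assoc, eq_comm]
    · intro z _ hz; simp [hz]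
    · exact fun h => absurd (Finset.mem_univ _) h
  inv_val := by
    ext x y
    rw [Matrix.mul_apply, Finset.sum_eq_single (x ∘ σ.symm)]
    · simp [Matrix.one_apply, Function.comp_assoc, eq_comm]
    · intro z _ hz; simp [hz]
    · exact fun h => absurd (Finset.mem_univ _) h

lemma factorPerm_mul_pureMat {k m : ℕ} (σ : Equiv.Perm (Fin k))
    (f : Fin k → Matrix (Fin m) (Fin m) F) :
    (factorPerm σ : GL (Fin k → Fin m) F).val * pureMat f =
      pureMat (f ∘ σ.symm) * (factorPerm σ : GL (Fin k → Fin m) F).val := by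
  ext x y
  simp only [factorPerm, Matrix.mul_apply, Matrix.of_apply, pureMat, ite_mul, one_mul, zero_mul,
    Finset.sum_ite_eq', Finset.mem_univ, if_true, mul_ite, mul_one, mul_zero]
  rw [Finset.sum_eq_single (y ∘ σ.symm)]
  · rw [if_pos (by funext i; simp)]
    refine Fintype.prod_equiv σ _ _ fun i => by simp
  · intro z _ hz
    rw [if_neg]
    rintro rfl
    exact hz (by funext i; simp)
  · exact fun h => absurd (Finset.mem_univ _) h

lemma matrix_algHom_apply {m : ℕ} {A : Type*} [Semiring A] [Algebra F A]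
    (φ : Matrix (Fin m) (Fin m) F →ₐ[F] A) (X : Matrix (Fin m) (Fin m) F) :
    φ X = ∑ q : Fin m × Fin m, X q.1 q.2 • φ (Matrix.single q.1 q.2 1) := by
  conv_lhs => rw [Matrix.matrix_eq_sum_single X]
  rw [map_sum, Fintype.sum_prod_type]
  refine Finset.sum_congr rfl fun a _ => ?_
  rw [map_sum]
  refine Finset.sum_congr rfl fun b _ => ?_
  rw [← map_smul, Matrix.smul_single, smul_eq_mul, mul_one]

set_option maxHeartbeats 1600000 in
/-- **The tensor-induced case.** -/
theorem le_tensorWreathSubgroup [Finite F] [Nonempty ι] {H : Subgroup (GL ι F)} {k : ℕ}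
    (hk : 2 ≤ k) {L : Fin k → Subgroup (GL ι F)}
    (hcomm : ∀ i j, i ≠ j → ∀ a ∈ L i, ∀ b ∈ L j, a * b = b * a)
    (hN : ActsAbsolutelyIrreducibly (matrixSet (⨆ i, L i)))
    (hns : ∀ i, ¬ L i ≤ scalars ι F)
    (hperm : ∀ g ∈ H, ∃ σ : Equiv.Perm (Fin k),
      ∀ i, (L i).map (MulAut.conj g).toMonoidHom = L (σ i))
    (htrans : ∀ i, ∃ h : GL ι F, (L ⟨0, by omega⟩).map (MulAut.conj h).toMonoidHom = L i) :
    ∃ (m : ℕ) (e : ι ≃ (Fin k → Fin m)) (P : GL ι F),
      2 ≤ m ∧ H ≤ tensorWreathSubgroup m k e P := by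
  classical
  let i₀ : Fin k := ⟨0, by omega⟩
  have hnot : ¬ ActsAbsolutelyIrreducibly (matrixSet (L i₀)) := by
    intro h
    refine hns ⟨1, by omega⟩ fun b hb => ?_
    obtain ⟨c, hc⟩ := h.2 _ (by
      rintro _ ⟨a, ha, rfl⟩
      exact congrArg Units.val (hcomm ⟨1, by omega⟩ i₀ (by simp [i₀, Fin.ext_iff]) b hb a ha))
    exact mem_scalars_of_act c fun v => act_scalar hc v
  obtain ⟨m, Φ₀, hm, hinj₀, hrange₀⟩ := exists_biCent_algHom hcomm hN (hns i₀) hnot
  choose h hh using htrans
  let Φ : Fin k → Matrix (Fin m) (Fin m) F →ₐ[F] Matrix ι ι F := fun i =>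
    (conjAlg (h i)).toAlgHom.comp Φ₀
  have hΦinj : ∀ i, Function.Injective (Φ i) := fun i => (conjAlg (h i)).injective.comp hinj₀
  have hΦrange : ∀ i, (Φ i).range = biCent (L i) := by
    intro i
    apply le_antisymm
    · rintro _ ⟨b, rfl⟩
      have := conjAlg_mem_biCent (h i) (hrange₀.le ⟨b, rfl⟩)
      rwa [hh] at this
    · intro X hX
      have := conjAlg_mem_biCent (h i)⁻¹ hX
      rw [← hh, map_conj_inv] at this
      obtain ⟨b, hb⟩ := hrange₀.ge this
      refine ⟨b, ?_⟩
      show conjAlg (h i) (Φ₀ b) = X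
      rw [show Φ₀ b = conjAlg (h i)⁻¹ X from hb, ← conjAlg_mul, mul_inv_cancel]
      simp [conjAlg_apply]
  have hΦmem : ∀ i b, Φ i b ∈ biCent (L i) := fun i b => (hΦrange i).le ⟨b, rfl⟩
  have hΦcomm : ∀ i j, i ≠ j → ∀ a b, Φ i a * Φ j b = Φ j b * Φ i a := fun i j hij a b =>
    biCent_commute (hcomm i j hij) (hΦmem i a) (hΦmem j b)
  let Ψ : (Fin k → Matrix (Fin m) (Fin m) F) →* Matrix ι ι F :=
    MonoidHom.noncommPiCoprod (fun i => (Φ i : Matrix (Fin m) (Fin m) F →* Matrix ι ι F))
      fun i j hij a b => hΦcomm i j hij a b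
  have hΨs : ∀ i b, Ψ (Pi.mulSingle i b) = Φ i b := fun i b =>
    MonoidHom.noncommPiCoprod_mulSingle (ϕ := fun i => (Φ i : Matrix (Fin m) (Fin m) F →* Matrix ι ι F))
      (hcomm := fun i j hij a b => hΦcomm i j hij a b) i b
  have hupd : ∀ (f : Fin k → Matrix (Fin m) (Fin m) F) i b,
      Ψ (Function.update f i b) = Φ i b * Ψ (Function.update f i 1) := by
    intro f i b
    rw [← hΨs, ← map_mul]
    congr 1
    funext j
    by_cases hj : j = i
    · subst hj; simp
    · simp [hj]
  let Ψl : MultilinearMap F (fun _ : Fin k => Matrix (Fin m) (Fin m) F) (Matrix ι ι F) :=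
    { toFun := Ψ
      map_update_add' := by
        intro inst f i a b
        obtain rfl : inst = instDecidableEqFin k := Subsingleton.elim _ _
        rw [hupd f i (a + b), hupd f i a, hupd f i b, map_add, add_mul]
      map_update_smul' := by
        intro inst f i c a
        obtain rfl : inst = instDecidableEqFin k := Subsingleton.elim _ _
        rw [hupd f i (c • a), hupd f i a, map_smul, Matrix.smul_mul] }
  have hΨl : ∀ f, Ψl f = Ψ f := fun f => rfl
  let E : (Fin k → Fin m) → (Fin k → Fin m) → Matrix ι ι F := fun x y =>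
    Ψ fun i => Matrix.single (x i) (y i) 1
  -- expansion in matrix units
  have hexp : ∀ f, Ψ f = ∑ r : Fin k → Fin m × Fin m,
      (∏ i, f i (r i).1 (r i).2) • E (fun i => (r i).1) (fun i => (r i).2) := by
    intro f
    have hf : f = fun i => ∑ q : Fin m × Fin m, f i q.1 q.2 • Matrix.single q.1 q.2 (1 : F) := by
      funext i
      have := matrix_algHom_apply (AlgHom.id F (Matrix (Fin m) (Fin m) F)) (f i)
      simpa using this
    conv_lhs => rw [← hΨl, hf, Ψl.map_sum]
    refine Finset.sum_congr rfl fun r _ => ?_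
    rw [Ψl.map_smul_univ]
    rfl
  have hmul : ∀ a b c d, E a b * E c d = if b = c then E a d else 0 := by
    intro a b c d
    show Ψ _ * Ψ _ = _
    rw [← map_mul]
    split
    · next hbc => subst hbc; simp [E, Pi.mul_def]
    · next hbc =>
      obtain ⟨i, hi⟩ := Function.ne_iff.1 hbc
      rw [← hΨl]
      exact Ψl.map_coord_zero i (Matrix.single_mul_single_of_ne _ _ _ _ hi _)
  have hsum : ∑ a, E a a = 1 := by
    show ∑ a : Fin k → Fin m, Ψl (fun i => Matrix.single (a i) (a i) 1) = 1
    rw [← Ψl.map_sum (fun _ (q : Fin m) => Matrix.single q q (1 : F))]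
    simp only [Matrix.sum_single_eq_diagonal, Matrix.diagonal_one]
    exact map_one Ψ
  have hcommutant : ∀ M : Matrix ι ι F, (∀ a b, M * E a b = E a b * M) →
      ∃ c : F, M = c • 1 := by
    intro M hM
    refine hN.2 M ?_
    rintro _ ⟨a, ha, rfl⟩
    refine commute_iSup (fun j b hb => ?_) a ha
    obtain ⟨B, hB⟩ := (hΦrange j).ge (coe_mem_biCent hb)
    rw [← hB]
    show M * Φ j B = Φ j B * M
    rw [← hΨs, hexp, Finset.mul_sum, Finset.sum_mul]
    refine Finset.sum_congr rfl fun r _ => ?_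
    rw [Matrix.mul_smul, Matrix.smul_mul, hM]
  have : Nonempty (Fin k → Fin m) := ⟨fun _ => ⟨0, by omega⟩⟩
  obtain ⟨e, P, hP⟩ := exists_conj_of_matrixUnits hmul hsum hcommutant
  refine ⟨m, e, P, hm, ?_⟩
  have hΨP : ∀ f, Ψ f * (P : Matrix ι ι F) =
      (P : Matrix ι ι F) * Matrix.reindex e.symm e.symm (pureMat f) := by
    intro f
    rw [hexp, Finset.sum_mul]
    simp only [Matrix.smul_mul, hP, ← Matrix.mul_smul, ← Finset.mul_sum]
    congr 1
    ext i j
    simp only [Matrix.sum_apply, Matrix.smul_apply, Matrix.reindex_apply, Matrix.submatrix_apply,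
      Equiv.symm_symm, Matrix.single_apply, smul_eq_mul, pureMat, Matrix.of_apply]
    rw [Finset.sum_eq_single (fun l => (e i l, e j l))]
    · simp
    · intro r _ hr
      rw [if_neg, mul_zero]
      rintro ⟨h1, h2⟩
      exact hr (funext fun l => Prod.ext (congrFun h1 l) (congrFun h2 l))
    · exact fun h => absurd (Finset.mem_univ _) h
  intro g hg
  obtain ⟨σ, hσ⟩ := hperm g hg
  -- `g` induces inner automorphisms between the factors
  have hφ : ∀ i, ∃ φ : Matrix (Fin m) (Fin m) F ≃ₐ[F] Matrix (Fin m) (Fin m) F,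
      ∀ X, Φ (σ i) (φ X) = conjAlg g (Φ i X) := by
    intro i
    have hmemr : ∀ X, conjAlg g (Φ i X) ∈ (Φ (σ i)).range := fun X => by
      rw [hΦrange, ← hσ]; exact conjAlg_mem_biCent g (hΦmem i X)
    let ψ : Matrix (Fin m) (Fin m) F →ₐ[F] (Φ (σ i)).range :=
      ((conjAlg g).toAlgHom.comp (Φ i)).codRestrict _ hmemr
    let inv := (AlgEquiv.ofInjective (Φ (σ i)) (hΦinj _)).symm
    let φ := inv.toAlgHom.comp ψ
    have hφinj : Function.Injective φ := fun a b hab =>
      hΦinj i ((conjAlg g).injective (congrArg Subtype.val (inv.injective hab)))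
    refine ⟨AlgEquiv.ofBijective φ ⟨hφinj,
      (LinearMap.injective_iff_surjective (f := φ.toLinearMap)).1 hφinj⟩, fun X => ?_⟩
    show Φ (σ i) (inv (ψ X)) = _
    exact congrArg Subtype.val ((AlgEquiv.ofInjective (Φ (σ i)) (hΦinj _)).apply_symm_apply (ψ X))
  choose φ hφ using hφ
  choose a ha using fun i => exists_inner (φ i)
  -- the standard element with the same effect
  let b : Fin k → GL (Fin m) F := fun j => a (σ.symm j)
  let Y : GL (Fin k → Fin m) F := pureGL b * factorPerm σ
  have hYconj : ∀ f, (Y : Matrix (Fin k → Fin m) (Fin k → Fin m) F) * pureMat f =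
      pureMat (fun j => φ (σ.symm j) (f (σ.symm j))) * (Y : Matrix (Fin k → Fin m) (Fin k → Fin m) F) := by
    intro f
    simp only [Y, Units.val_mul, mul_assoc, factorPerm_mul_pureMat]
    rw [← mul_assoc, ← mul_assoc]
    congr 1
    show pureMat (fun i => (b i : Matrix (Fin m) (Fin m) F)) * _ = _
    rw [← pureMat_mul, show (pureGL b : GL (Fin k → Fin m) F).val =
      pureMat (fun i => (b i : Matrix (Fin m) (Fin m) F)) from rfl, ← pureMat_mul]
    congr 1
    funext j
    exact (ha (σ.symm j) (f (σ.symm j))).symm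
  let G' : GL ι F := P⁻¹ * g * P
  let Y' : GL ι F := glReindex e.symm Y
  have hgΨ : ∀ f, conjAlg g (Ψ f) = Ψ fun j => φ (σ.symm j) (f (σ.symm j)) := by
    let A : (Fin k → Matrix (Fin m) (Fin m) F) →* Matrix ι ι F :=
      (conjAlg g : Matrix ι ι F →* Matrix ι ι F).comp Ψ
    let B : (Fin k → Matrix (Fin m) (Fin m) F) →* Matrix ι ι F := Ψ.comp
      { toFun := fun f j => φ (σ.symm j) (f (σ.symm j))
        map_one' := funext fun j => map_one _
        map_mul' := fun f f' => funext fun j => map_mul _ _ _ }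
    suffices A = B from fun f => congrArg (fun q : _ →* _ => q f) this
    refine MonoidHom.pi_ext fun i X => ?_
    simp only [A, B, MonoidHom.comp_apply, MonoidHom.coe_coe]
    rw [hΨs, ← hφ, ← hΨs]
    congr 1
    funext j
    by_cases hj : j = σ i
    · subst hj
      simp only [MonoidHom.coe_mk, OneHom.coe_mk, Equiv.symm_apply_apply, Pi.mulSingle_eq_same]
    · have : σ.symm j ≠ i := fun h' => hj (by rw [← h', Equiv.apply_symm_apply])
      simp [hj, this]
  -- they differ by a matrix commuting with all tensor products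
  have hdiff : ∀ f, ((Y'⁻¹ * G' : GL ι F) : Matrix ι ι F) * Matrix.reindex e.symm e.symm (pureMat f) =
      Matrix.reindex e.symm e.symm (pureMat f) * ((Y'⁻¹ * G' : GL ι F) : Matrix ι ι F) := by
    intro f
    have h1 : (G' : Matrix ι ι F) * Matrix.reindex e.symm e.symm (pureMat f) =
        Matrix.reindex e.symm e.symm (pureMat fun j => φ (σ.symm j) (f (σ.symm j))) *
          (G' : Matrix ι ι F) := by
      have h0 : (P : Matrix ι ι F) * (Matrix.reindex e.symm e.symm
          (pureMat fun j => φ (σ.symm j) (f (σ.symm j))) * (G' : Matrix ι ι F)) =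
          (g : Matrix ι ι F) * Ψ f * (P : Matrix ι ι F) := by
        rw [← mul_assoc, ← hΨP, ← hgΨ, conjAlg_apply]
        simp [G', mul_assoc]
      calc (G' : Matrix ι ι F) * Matrix.reindex e.symm e.symm (pureMat f)
          = ((P⁻¹ : GL ι F) : Matrix ι ι F) * ((g : Matrix ι ι F) * Ψ f * (P : Matrix ι ι F)) := by
            rw [mul_assoc, hΨP]; simp [G', mul_assoc]
        _ = _ := by rw [← h0, ← mul_assoc, ← Units.val_mul, inv_mul_cancel, Units.val_one, one_mul]
    have h2 : (Y' : Matrix ι ι F) * Matrix.reindex e.symm e.symm (pureMat f) =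
        Matrix.reindex e.symm e.symm (pureMat fun j => φ (σ.symm j) (f (σ.symm j))) *
          (Y' : Matrix ι ι F) := by
      show Matrix.reindexAlgEquiv F F e.symm (Y : Matrix _ _ F) *
        Matrix.reindexAlgEquiv F F e.symm (pureMat f) = Matrix.reindexAlgEquiv F F e.symm _ *
          Matrix.reindexAlgEquiv F F e.symm (Y : Matrix _ _ F)
      rw [← map_mul, ← map_mul, hYconj]
    apply (Units.mul_right_inj Y').1
    rw [← mul_assoc (Y' : Matrix ι ι F), ← mul_assoc (Y' : Matrix ι ι F), h2,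
      mul_assoc _ (Y' : Matrix ι ι F), ← Units.val_mul, mul_inv_cancel_left, h1]
  obtain ⟨c, hc⟩ := hcommutant (conjAlg P ((Y'⁻¹ * G' : GL ι F) : Matrix ι ι F)) fun x y => by
    have hE : E x y = conjAlg P
        (Matrix.reindex e.symm e.symm (pureMat fun i => Matrix.single (x i) (y i) (1 : F))) := by
      rw [conjAlg_apply, ← hΨP, mul_assoc, Units.mul_inv, mul_one]
    rw [hE, ← map_mul (conjAlg P), ← map_mul (conjAlg P), hdiff]
  have hc0 : c ≠ 0 := by
    rintro rfl
    rw [zero_smul] at hc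
    have h0 := congrArg (fun Z => conjAlg P⁻¹ Z) hc
    simp only [conjAlg_inv_self, map_zero] at h0
    exact (Y'⁻¹ * G').isUnit.ne_zero h0
  let S : GL ι F := Units.map (Matrix.scalar ι : F →+* Matrix ι ι F).toMonoidHom (Units.mk0 c hc0)
  have hG' : G' = Y' * S := by
    have h0 := congrArg (fun Z => conjAlg P⁻¹ Z) hc
    simp only [conjAlg_inv_self] at h0
    rw [← inv_mul_eq_iff_eq_mul]
    apply Units.ext
    rw [h0, ← Algebra.algebraMap_eq_smul_one, AlgEquiv.commutes]
    simp [S, Matrix.algebraMap_eq_diagonal]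
  let sc : Fin k → GL (Fin m) F := Pi.mulSingle i₀
    (Units.map (Matrix.scalar (Fin m) : F →+* Matrix (Fin m) (Fin m) F).toMonoidHom (Units.mk0 c hc0))
  have hS : S = glReindex e.symm (pureGL sc) := by
    apply Units.ext
    show Matrix.scalar ι c = Matrix.reindex e.symm e.symm (pureMat _)
    ext i j
    simp only [Matrix.scalar_apply, Matrix.reindex_apply, Matrix.submatrix_apply, Equiv.symm_symm,
      pureMat, Matrix.of_apply]
    have key : ∀ l, ((sc l : GL (Fin m) F) : Matrix (Fin m) (Fin m) F) (e i l) (e j l) =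
        if e i l = e j l then (if l = i₀ then c else 1) else 0 := by
      intro l
      by_cases hl : l = i₀
      · subst hl; simp [sc, Matrix.diagonal_apply]
      · simp [sc, hl, Matrix.one_apply]
    simp only [key]
    by_cases hij : i = j
    · subst hij
      rw [Matrix.diagonal_apply_eq, Finset.prod_eq_single i₀]
      · simp
      · intro l _ hl; simp [hl]
      · exact fun h => absurd (Finset.mem_univ _) h
    · rw [Matrix.diagonal_apply_ne _ hij]
      obtain ⟨l, hl⟩ := Function.ne_iff.1 (e.injective.ne hij)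
      exact (Finset.prod_eq_zero (Finset.mem_univ l) (if_neg hl)).symm
  refine ⟨G', ⟨Y * pureGL sc, ?_, ?_⟩, ?_⟩
  · exact mul_mem (mul_mem (Subgroup.subset_closure (Or.inl ⟨b, fun x y => rfl⟩))
      (Subgroup.subset_closure (Or.inr ⟨σ, fun x y => rfl⟩)))
      (Subgroup.subset_closure (Or.inl ⟨sc, fun x y => rfl⟩))
  · rw [hG', hS]
    exact map_mul (glReindex e.symm) Y (pureGL sc)
  · show P * G' * P⁻¹ = g
    simp [G', mul_assoc]

end CfsgLib.SmallDim
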