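import Cfsg.Agent.Lib.SmallDim.Residual
import Cfsg.Agent.Lib.SmallDim.TensorInduced

/-!
# The perfect minimal normal subgroup in any dimension
-/

set_option autoImplicit false
set_option linter.style.haveILetI false

namespace CfsgLib.SmallDim

open scoped MatrixGroups Matrix
open Cfsg.Geo

variable {ι : Type} [Fintype ι] [DecidableEq ι] {F : Type*} [Field F] [Finite F]

/-- `H` permutes transitively at least two commuting perfect subgroups generating `N`. -/
structure InducedData (H N : Subgroup (GL ι F)) (k : ℕ) (L : Fin k → Subgroup (GL ι F)) : Prop where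
  two_le : 2 ≤ k
  comm : ∀ i j, i ≠ j → ∀ a ∈ L i, ∀ b ∈ L j, a * b = b * a
  iSup_eq : (⨆ i, L i) = N
  nonscalar : ∀ i, ¬ L i ≤ scalars ι F
  perfect : ∀ i, ⁅L i, L i⁆ = L i
  perm : ∀ g ∈ H, ∃ σ : Equiv.Perm (Fin k), ∀ i, (L i).map (MulAut.conj g).toMonoidHom = L (σ i)
  trans : ∀ i, ∃ h ∈ H, ∀ j : Fin k, (j : ℕ) = 0 → (L j).map (MulAut.conj h).toMonoidHom = L i

set_option maxHeartbeats 1000000 in
/-- A minimal perfect non-scalar normal subgroup gives a residual core, or commuting conjugates. -/
theorem isResidualCore_or_inducedData [Nonempty ι] (hn : 1 < Fintype.card ι) {H N : Subgroup (GL ι F)} (hN : NormalIn N H)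
    (habs : ActsAbsolutelyIrreducibly (matrixSet N))
    (hsub : ∀ K : Subfield F, K ≠ ⊤ → ¬ RealisableOver K (matrixSet N))
    (hperf : ⁅N, N⁆ = N)
    (hmin : ∀ M, NormalIn M H → M ≤ N → M ≤ scalars ι F ∨ M = N) :
    IsResidualCore H N ∨ ∃ (k : ℕ) (L : Fin k → Subgroup (GL ι F)), InducedData H N k L := by
  classical
  have hcomm : ¬ ∀ a ∈ N, ∀ b ∈ N, a * b = b * a := not_commutative_of_absIrred hn habs
  have hns : ¬ N ≤ scalars ι F := fun h => hcomm fun a ha b _ => scalars_commute (h ha) b
  have hscalar : ∀ b, (∀ a ∈ N, b * a = a * b) → b ∈ scalars ι F := by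
    intro b hb
    obtain ⟨c, hc⟩ := habs.2 _ (by
      rintro _ ⟨a, ha, rfl⟩
      exact congrArg Units.val (hb a ha))
    exact mem_scalars_of_act c fun v => act_scalar hc v
  -- every non-scalar normal subgroup of `N` is `N`
  refine or_iff_not_imp_right.2 fun hno => ?_
  have hsimple : ∀ L, NormalIn L N → ¬ L ≤ scalars ι F → L = N := by
    intro L₀ hL₀ hL₀s
    have hex : ∃ k, ∃ L, NormalIn L N ∧ L ≤ L₀ ∧ ¬ L ≤ scalars ι F ∧ Nat.card L = k :=
      ⟨_, L₀, hL₀, le_rfl, hL₀s, rfl⟩
    obtain ⟨L, hL, hLL₀, hLs, hLk⟩ := Nat.find_spec hex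
    have hLmin : ∀ M, NormalIn M N → M ≤ L → M ≤ scalars ι F ∨ M = L := by
      intro M hM hML
      by_cases hMs : M ≤ scalars ι F
      · exact Or.inl hMs
      · exact Or.inr (Subgroup.eq_of_le_of_card_ge hML
          (hLk ▸ Nat.find_min' hex ⟨M, hM, hML.trans hLL₀, hMs, rfl⟩))
    -- the subgroup generated by the conjugates of `L` is `N`
    set S : Subgroup (GL ι F) := ⨆ h : H, L.map (MulAut.conj (h : GL ι F)).toMonoidHom
    have hLS : L ≤ S := le_iSup_of_le (1 : H) (fun a ha => ⟨a, ha, by simp⟩)
    have hSN : S ≤ N := iSup_le fun h => (hL.conjugate hN h.2).le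
    have hS : NormalIn S H := by
      refine ⟨hSN.trans hN.le, fun g hg x hx => ?_⟩
      have : S.map (MulAut.conj g).toMonoidHom ≤ S := by
        rw [Subgroup.map_iSup]
        refine iSup_le fun h => le_iSup_of_le ⟨g * h, H.mul_mem hg h.2⟩ ?_
        rintro _ ⟨_, ⟨a, ha, rfl⟩, rfl⟩
        exact ⟨a, ha, by simp [mul_assoc]⟩
      exact this ⟨x, hx, rfl⟩
    have hSeq : S = N := (hmin S hS hSN).resolve_left fun h => hLs (hLS.trans h)
    rcases hLmin _ hL.commutator (Subgroup.commutator_le_self L) with hder | hder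
    · exfalso
      -- `N` would be nilpotent
      have hnil : ∀ h : H, (L.map (MulAut.conj (h : GL ι F)).toMonoidHom).subgroupOf N ≤ Cfsg.fittingSubgroup N := by
        intro h
        have hc := hL.conjugate hN h.2
        haveI : ((L.map (MulAut.conj (h : GL ι F)).toMonoidHom).subgroupOf N).Normal :=
          ⟨fun a ha g => hc.conj g g.2 _ ha⟩
        refine CfsgLib.Cores.le_fittingSubgroup ?_
        haveI : Group.IsNilpotent L := isNilpotent_of_commutator_scalar hder
        haveI : Group.IsNilpotent (L.map (MulAut.conj (h : GL ι F)).toMonoidHom) :=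
          Group.nilpotent_of_surjective _ (MonoidHom.subgroupMap_surjective (MulAut.conj (h : GL ι F)).toMonoidHom L)
        exact (Group.nilpotent_of_mulEquiv (Subgroup.subgroupOfEquivOfLe hc.le).symm)
      have htop : Cfsg.fittingSubgroup N = ⊤ := by
        rw [eq_top_iff]
        intro z _
        have hz : (z : GL ι F) ∈ S := hSeq.symm ▸ z.2
        have hle : S ≤ (Cfsg.fittingSubgroup N).map N.subtype := iSup_le fun h x hx =>
          ⟨⟨x, (hL.conjugate hN h.2).le hx⟩, hnil h hx, rfl⟩
        obtain ⟨z', hz', he⟩ := hle hz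
        rwa [← Subtype.ext he]
      haveI : Group.IsNilpotent N := CfsgLib.Cores.fittingSubgroup_eq_top_iff.mp htop
      haveI : Nontrivial N := by
        rw [Subgroup.nontrivial_iff_ne_bot]
        exact fun h => hns (h ▸ bot_le)
      have hlt := Group.IsSolvable.commutator_lt_top_of_nontrivial (G := N)
      refine hlt.ne (Subgroup.map_injective N.subtype_injective ?_)
      rw [Subgroup.map_subtype_commutator, ← MonoidHom.range_eq_map, Subgroup.range_subtype, hperf]
    have hconj : ∀ g ∈ H, L.map (MulAut.conj g).toMonoidHom ≤ L := by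
      by_contra hcon
      push Not at hcon
      obtain ⟨g₁, hg₁, hne₁⟩ := hcon
      -- the conjugates of `L` commute pairwise
      let c : GL ι F → Subgroup (GL ι F) := fun g => L.map (MulAut.conj g).toMonoidHom
      have hcmin : ∀ g ∈ H, ∀ M, NormalIn M N → M ≤ c g → M ≤ scalars ι F ∨ M = c g := by
        intro g hg M hM hMc
        have hle : M.map (MulAut.conj g⁻¹).toMonoidHom ≤ L := by
          rintro _ ⟨x, hx, rfl⟩
          obtain ⟨y, hy, rfl⟩ := hMc hx
          simpa [mul_assoc] using hy
        rcases hLmin _ (hM.conjugate hN (H.inv_mem hg)) hle with h | h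
        · left
          intro x hx
          have := (scalars_normal (ι := ι) (F := F)).conj_mem _ (h ⟨x, hx, rfl⟩) g
          simpa [mul_assoc] using this
        · right
          refine le_antisymm hMc ?_
          rintro _ ⟨y, hy, rfl⟩
          obtain ⟨x, hx, he⟩ := h.ge hy
          rw [← he]
          simpa [mul_assoc] using hx
      have hcperf : ∀ g, ⁅c g, c g⁆ = c g := fun g => by
        simp only [c, ← Subgroup.map_commutator, hder]
      have hccomm : ∀ g ∈ H, ∀ g' ∈ H, c g ≠ c g' → ∀ a ∈ c g, ∀ b ∈ c g', a * b = b * a := by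
        intro g hg g' hg' hne a ha b hb
        have h1 := hL.conjugate hN hg
        have h2 := hL.conjugate hN hg'
        have hcap : NormalIn (c g ⊓ c g') N :=
          ⟨inf_le_right.trans h2.le, fun z hz x hx => ⟨h1.conj z hz x hx.1, h2.conj z hz x hx.2⟩⟩
        rcases hcmin g' hg' _ hcap inf_le_right with h | h
        · refine commute_of_scalar_commutators (hcperf g') (b := a) (fun y hy => h ⟨?_, ?_⟩) b hb
          · rw [show a * y * a⁻¹ * y⁻¹ = a * (y * a⁻¹ * y⁻¹) by group]
            exact (c g).mul_mem ha (h1.conj y (h2.le hy) _ ((c g).inv_mem ha))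
          · exact (c g').mul_mem (h2.conj a (h1.le ha) y hy) ((c g').inv_mem hy)
        · exact absurd (Subgroup.eq_of_le_of_card_ge (inf_eq_right.mp h)
            ((Subgroup.card_map_of_injective (f := (MulAut.conj g).toMonoidHom) (MulAut.conj g).injective).trans
              (Subgroup.card_map_of_injective (f := (MulAut.conj g').toMonoidHom) (MulAut.conj g').injective).symm).le).symm hne
      -- so `H` is tensor induced
      let T : Set (Subgroup (GL ι F)) := c '' (H : Set (GL ι F))
      haveI : Fintype T := Fintype.ofFinite T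
      have hc1 : c 1 = L := by ext x; simp [c]
      let t₀ : T := ⟨c 1, 1, H.one_mem, rfl⟩
      have hk : 2 ≤ Fintype.card T :=
        Fintype.one_lt_card_iff.2 ⟨⟨c g₁, g₁, hg₁, rfl⟩, t₀, fun h =>
          hne₁ ((congrArg Subtype.val h).trans hc1).le⟩
      let e₀ : Fin (Fintype.card T) ≃ T := (Fintype.equivFin T).symm
      let e : Fin (Fintype.card T) ≃ T := (Equiv.swap ⟨0, by omega⟩ (e₀.symm t₀)).trans e₀
      have he0 : (e ⟨0, by omega⟩ : Subgroup (GL ι F)) = c 1 := by simp [e, t₀]
      let Ls : Fin (Fintype.card T) → Subgroup (GL ι F) := fun i => (e i : Subgroup (GL ι F))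
      have hsup : (⨆ i, Ls i) = N := by
        rw [← hSeq]
        apply le_antisymm
        · refine iSup_le fun i => ?_
          obtain ⟨g, hg, he⟩ := (e i).2
          simp only [Ls, ← he]
          exact le_iSup_of_le ⟨g, hg⟩ le_rfl
        · refine iSup_le fun g => le_iSup_of_le (e.symm ⟨c g, g, g.2, rfl⟩) ?_
          simp only [Ls, Equiv.apply_symm_apply]
          exact le_rfl
      have hmul : ∀ g g' : GL ι F, (c g').map (MulAut.conj g).toMonoidHom = c (g * g') := by
        intro g g'
        simp only [c, Subgroup.map_map]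
        congr 1
        ext x
        simp [mul_assoc]
      exact hno ⟨Fintype.card T, Ls, hk,
        (fun i j hij => by
          obtain ⟨g, hg, hgi⟩ := (e i).2
          obtain ⟨g', hg', hgj⟩ := (e j).2
          simp only [Ls, ← hgi, ← hgj]
          exact hccomm g hg g' hg' fun h => hij (e.injective (Subtype.ext (hgi.symm.trans (h.trans hgj))))),
        hsup,
        (fun i => by
          obtain ⟨g, hg, hgi⟩ := (e i).2
          simp only [Ls, ← hgi]
          intro h
          apply hLs
          intro y hy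
          have := (scalars_normal (ι := ι) (F := F)).conj_mem _ (h ⟨y, hy, rfl⟩) g⁻¹
          simpa [mul_assoc] using this),
        (fun i => by
          obtain ⟨g, hg, hgi⟩ := (e i).2
          simp only [Ls, ← hgi]
          exact hcperf g),
        (fun g hg => by
          let π : T → T := fun t => ⟨(t : Subgroup (GL ι F)).map (MulAut.conj g).toMonoidHom, by
            obtain ⟨g', hg', he⟩ := t.2
            exact ⟨g * g', H.mul_mem hg hg', by rw [← he, hmul]⟩⟩
          have hπ : Function.Injective π := fun a b hab => Subtype.ext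
            (Subgroup.map_injective (MulAut.conj g).injective (congrArg Subtype.val hab))
          exact ⟨(e.trans (Equiv.ofBijective π (Finite.injective_iff_bijective.1 hπ))).trans e.symm,
            fun i => by simp [Ls, π]⟩),
        fun i => by
          obtain ⟨g, hg, hgi⟩ := (e i).2
          refine ⟨g, hg, fun j hj => ?_⟩
          rw [show j = (⟨0, by omega⟩ : Fin (Fintype.card T)) from Fin.ext hj]
          simp only [Ls, he0, ← hgi]
          rw [hmul, mul_one]⟩
    have hLn : NormalIn L H := ⟨hL.le.trans hN.le, fun g hg a ha => hconj g hg ⟨a, ha, rfl⟩⟩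
    exact le_antisymm hL₀.le (((hmin L hLn hL.le).resolve_left hLs).ge.trans hLL₀)
  set Z := (scalars ι F).subgroupOf N
  refine ⟨hN.le, hN.conj, hperf, ?_, ?_, ?_, habs, hsub⟩
  · haveI : Nontrivial (N ⧸ Z) := by
      rw [QuotientGroup.nontrivial_iff]
      exact fun h => hns (Subgroup.subgroupOf_eq_top.mp h)
    refine ⟨fun T hT => ?_⟩
    set T' := T.comap (QuotientGroup.mk' Z)
    have hT' : NormalIn (T'.map N.subtype) N := by
      refine ⟨Subgroup.map_subtype_le T', ?_⟩
      rintro g hg _ ⟨a, ha, rfl⟩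
      refine ⟨⟨g, hg⟩ * a * ⟨g, hg⟩⁻¹, (hT.comap _).conj_mem a ha _, ?_⟩
      simp only [map_mul, map_inv]
      rfl
    by_cases hs : T'.map N.subtype ≤ scalars ι F
    · left
      rw [Subgroup.eq_bot_iff_forall]
      intro t ht
      obtain ⟨a, rfl⟩ := QuotientGroup.mk'_surjective Z t
      exact (QuotientGroup.eq_one_iff a).mpr (Subgroup.mem_subgroupOf.mpr (hs ⟨a, ht, rfl⟩))
    · right
      rw [eq_top_iff]
      intro t _
      obtain ⟨a, rfl⟩ := QuotientGroup.mk'_surjective Z t
      have : (a : GL ι F) ∈ T'.map N.subtype := (hsimple _ hT' hs).symm ▸ a.2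
      obtain ⟨a', ha', he⟩ := this
      rwa [← Subtype.ext he]
  · intro hab
    apply hns
    rw [← hperf, Subgroup.commutator_le]
    intro a ha b hb
    have := hab.is_comm.comm (QuotientGroup.mk' Z ⟨a, ha⟩) (QuotientGroup.mk' Z ⟨b, hb⟩)
    have h1 : QuotientGroup.mk' Z ((⟨a, ha⟩ : N) * ⟨b, hb⟩ * (⟨a, ha⟩ : N)⁻¹ * (⟨b, hb⟩ : N)⁻¹) = 1 := by
      rw [map_mul, map_mul, map_mul, this, map_inv, map_inv, mul_inv_cancel_right, mul_inv_cancel]
    rw [commutatorElement_def]
    exact Subgroup.mem_subgroupOf.mp ((QuotientGroup.eq_one_iff _).mp h1)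
  · intro h _ hc
    exact hscalar h (commute_of_scalar_commutators hperf hc)

/-- A minimal perfect non-scalar normal subgroup gives a residual core, or `H` is tensor induced. -/
theorem isResidualCore_or_tensorWreath [Nonempty ι] (hn : 1 < Fintype.card ι) {H N : Subgroup (GL ι F)}
    (hN : NormalIn N H) (habs : ActsAbsolutelyIrreducibly (matrixSet N))
    (hsub : ∀ K : Subfield F, K ≠ ⊤ → ¬ RealisableOver K (matrixSet N))
    (hperf : ⁅N, N⁆ = N)
    (hmin : ∀ M, NormalIn M H → M ≤ N → M ≤ scalars ι F ∨ M = N) :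
    IsResidualCore H N ∨ ∃ (m k : ℕ) (e : ι ≃ (Fin k → Fin m)) (P : GL ι F),
      2 ≤ m ∧ 2 ≤ k ∧ H ≤ tensorWreathSubgroup m k e P := by
  rcases isResidualCore_or_inducedData hn hN habs hsub hperf hmin with h | ⟨k, L, hL⟩
  · exact Or.inl h
  · obtain ⟨m, e, P, hm, hle⟩ := le_tensorWreathSubgroup (H := H) hL.two_le hL.comm
      (hL.iSup_eq.symm ▸ habs) hL.nonscalar hL.perm
      (fun i => (hL.trans i).imp fun h hh => hh.2 _ rfl)
    exact Or.inr ⟨m, k, e, P, hm, hL.two_le, hle⟩

end CfsgLib.SmallDim
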