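import Cfsg.Agent.Lib.SmallDim.SymplGeneral
import Cfsg.Agent.Lib.SmallDim.ResidualGeneral

/-!
# The generic case of Aschbacher's theorem, without reference to forms
-/

set_option autoImplicit false

namespace CfsgLib.SmallDim

open scoped MatrixGroups Matrix commutatorElement
open Cfsg.Geo

variable {ι : Type} [Fintype ι] [DecidableEq ι] {F : Type*} [Field F] [Finite F]

/-- If every non-scalar normal subgroup is absolutely irreducible and realised over no proper
subfield, there is a symplectic-type normal subgroup, commuting conjugates, or a residual core. -/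
theorem generic_cases [Nonempty ι] (hn : 1 < Fintype.card ι) {H : Subgroup (GL ι F)}
    (hHs : ¬ H ≤ scalars ι F)
    (habs : ∀ N, NormalIn N H → ¬ N ≤ scalars ι F → ActsAbsolutelyIrreducibly (matrixSet N))
    (hsub : ∀ N, NormalIn N H → ¬ N ≤ scalars ι F →
      ∀ K : Subfield F, K ≠ ⊤ → ¬ RealisableOver K (matrixSet N)) :
    (∃ (R : Subgroup (GL ι F)) (r m : ℕ), SymplGen H R r m) ∨
    (∃ (N : Subgroup (GL ι F)) (k : ℕ) (L : Fin k → Subgroup (GL ι F)),
      NormalIn N H ∧ ActsAbsolutelyIrreducibly (matrixSet N) ∧ ⁅N, N⁆ = N ∧ InducedData H N k L) ∨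
    ∃ P, NormalIn P H ∧ IsResidualCore H P := by
  classical
  have hex : ∃ k, ∃ N, NormalIn N H ∧ ¬ N ≤ scalars ι F ∧ Nat.card N = k :=
    ⟨_, H, NormalIn.refl H, hHs, rfl⟩
  obtain ⟨N, hN, hNs, hNk⟩ := Nat.find_spec hex
  have hmin : ∀ M, NormalIn M H → M ≤ N → M ≤ scalars ι F ∨ M = N := by
    intro M hM hMN
    by_cases hMs : M ≤ scalars ι F
    · exact Or.inl hMs
    · exact Or.inr (Subgroup.eq_of_le_of_card_ge hMN (hNk ▸ Nat.find_min' hex ⟨M, hM, hMs, rfl⟩))
  rcases hmin _ hN.commutator (Subgroup.commutator_le_self N) with h | h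
  · refine Or.inl ⟨N, exists_symplGen hn hN (habs N hN hNs)
      (fun a ha b hb => h (Subgroup.commutator_mem_commutator ha hb)) hmin fun M hM hMc => ?_⟩
    by_contra hMs
    exact not_commutative_of_absIrred hn (habs M hM hMs) hMc
  · rcases isResidualCore_or_inducedData hn hN (habs N hN hNs) (hsub N hN hNs) h hmin with hc | ⟨k, L, hL⟩
    · exact Or.inr (Or.inr ⟨N, hN, hc⟩)
    · exact Or.inr (Or.inl ⟨N, k, L, hN, habs N hN hNs, h, hL⟩)

lemma SymplGen.mem_scalars_iff_mem_center {H R : Subgroup (GL ι F)} {r m : ℕ} [Nonempty ι]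
    (h : SymplGen H R r m) (x : R) : (x : GL ι F) ∈ scalars ι F ↔ x ∈ Subgroup.center R := by
  rw [Subgroup.mem_center_iff]
  refine ⟨fun hx a => Subtype.ext (scalars_commute hx a).symm, fun hx => ?_⟩
  obtain ⟨c, hc⟩ := h.absIrred.2 ((x : GL ι F) : Matrix ι ι F) (by
    rintro _ ⟨a, ha, rfl⟩
    exact congrArg (fun w : R => ((w : GL ι F) : Matrix ι ι F)) (hx ⟨a, ha⟩).symm)
  exact mem_scalars_of_act c fun v => act_scalar hc v

end CfsgLib.SmallDim
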