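import Cfsg.Agent.Lib.SmallDim.Forms

/-!
Forms that are diagonal in a basis, and monomial groups fixing them.
-/

set_option autoImplicit false
set_option linter.style.haveILetI false

namespace CfsgLib.SmallDim

open scoped MatrixGroups Matrix
open Cfsg.Geo

variable {ι : Type} [Fintype ι] [DecidableEq ι] {F : Type*} [Field F]
variable {κ : Type} [Fintype κ] [DecidableEq κ]

/-- `g` is monomial with respect to the coordinates `C`, with coefficients `a` satisfying `P`. -/
def IsMonomialFor (C : (ι → F) ≃ₗ[F] (κ → F)) (P : F → Prop) (g : GL ι F) : Prop :=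
  ∃ (π : Equiv.Perm κ) (a : κ → F), (∀ j, P (a j)) ∧
    ∀ j, act g (C.symm (Pi.single j 1)) = a j • C.symm (Pi.single (π j) 1)

lemma IsMonomialFor.coords {C : (ι → F) ≃ₗ[F] (κ → F)} {g : GL ι F} {π : Equiv.Perm κ} {a : κ → F}
    (h : ∀ j, act g (C.symm (Pi.single j 1)) = a j • C.symm (Pi.single (π j) 1)) (u : ι → F) (j : κ) :
    C (act g u) (π j) = a j * C u j := by
  have e : act g u = C.symm (fun k => a (π.symm k) * C u (π.symm k)) := by
    conv_lhs => rw [← C.symm_apply_apply u, pi_eq_sum_univ' (C u)]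
    rw [map_sum]
    show (Matrix.mulVec (g : Matrix ι ι F)) _ = _
    rw [Matrix.mulVec_sum]
    simp only [map_smul, Matrix.mulVec_smul]
    have hs : ∀ k, (g : Matrix ι ι F) *ᵥ C.symm (Pi.single k 1) = a k • C.symm (Pi.single (π k) 1) := h
    simp only [hs, smul_smul, ← map_smul]
    rw [← map_sum]
    congr 1
    funext k
    rw [Finset.sum_apply, Finset.sum_eq_single (π.symm k)]
    · simp [mul_comm]
    · intro b _ hb
      have : k ≠ π b := fun e => hb (by rw [e, Equiv.symm_apply_apply])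
      simp [this]
    · simp
  rw [e, C.apply_symm_apply, Equiv.symm_apply_apply]

/-- The form which is the standard `σ`-form in the coordinates `C`. -/
def diagForm (C : (ι → F) ≃ₗ[F] (κ → F)) (σ : F →+* F) (u v : ι → F) : F :=
  ∑ j, C u j * σ (C v j)

omit [Fintype ι] [DecidableEq ι] in
lemma diagForm_sesqui (C : (ι → F) ≃ₗ[F] (κ → F)) (σ : F →+* F) :
    (∀ x y v, diagForm C σ (x + y) v = diagForm C σ x v + diagForm C σ y v) ∧
      (∀ (c : F) (x v : ι → F), diagForm C σ (c • x) v = c * diagForm C σ x v) ∧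
      (∀ v x y, diagForm C σ v (x + y) = diagForm C σ v x + diagForm C σ v y) ∧
      (∀ (c : F) (v x : ι → F), diagForm C σ v (c • x) = σ c * diagForm C σ v x) := by
  refine ⟨fun x y v => ?_, fun c x v => ?_, fun v x y => ?_, fun c v x => ?_⟩
  · simp [diagForm, add_mul, Finset.sum_add_distrib]
  · simp [diagForm, Finset.mul_sum, mul_assoc]
  · simp [diagForm, mul_add, Finset.sum_add_distrib]
  · simp [diagForm, Finset.mul_sum, mul_left_comm]

omit [Fintype ι] [DecidableEq ι] in
lemma diagForm_nondegenerate (C : (ι → F) ≃ₗ[F] (κ → F)) (σ : F →+* F) :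
    IsNondegenerateForm (diagForm C σ) := by
  intro v hv
  obtain ⟨j, hj⟩ : ∃ j, C v j ≠ 0 := by
    by_contra hall
    push Not at hall
    exact hv (C.map_eq_zero_iff.mp (funext hall))
  refine ⟨⟨C.symm (Pi.single j 1), ?_⟩, ⟨C.symm (Pi.single j 1), ?_⟩⟩
  · rw [diagForm, Finset.sum_eq_single j (fun b _ hb => by simp [hb]) (by simp)]
    simpa using hj
  · rw [diagForm, Finset.sum_eq_single j (fun b _ hb => by simp [hb]) (by simp)]
    simpa using hj

lemma diagForm_isUnitaryForm (C : (ι → F) ≃ₗ[F] (κ → F)) (σ : F ≃+* F) (h1 : σ ≠ RingEquiv.refl F)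
    (h2 : ∀ a, σ (σ a) = a) : IsUnitaryForm σ (diagForm C (σ : F →+* F)) where
  ne_refl := h1
  involutive := h2
  add_left := (diagForm_sesqui C _).1
  smul_left := (diagForm_sesqui C _).2.1
  herm v w := by
    simp only [diagForm, map_sum, map_mul, RingEquiv.coe_toRingHom]
    exact Finset.sum_congr rfl fun j _ => by rw [h2, mul_comm]
  nondegenerate := diagForm_nondegenerate C _

lemma fixes_diagForm (C : (ι → F) ≃ₗ[F] (κ → F)) (σ : F →+* F) {P : F → Prop} (hP : ∀ a, P a → a * σ a = 1)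
    {g : GL ι F} (hg : IsMonomialFor C P g) (u v : ι → F) :
    diagForm C σ (act g u) (act g v) = diagForm C σ u v := by
  obtain ⟨π, a, ha, h⟩ := hg
  rw [diagForm, ← Equiv.sum_comp π]
  refine Finset.sum_congr rfl fun j _ => ?_
  rw [IsMonomialFor.coords h, IsMonomialFor.coords h, map_mul]
  have := hP _ (ha j)
  linear_combination (C u j * σ (C v j)) * this

/-- The sum of squares in the coordinates `C`. -/
def diagQuad (C : (ι → F) ≃ₗ[F] (κ → F)) (u : ι → F) : F := ∑ j, C u j ^ 2

omit [Fintype ι] [DecidableEq ι] in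
lemma diagQuad_nondegenerate (C : (ι → F) ≃ₗ[F] (κ → F)) (h2 : (2 : F) ≠ 0) :
    IsNondegenerateQuadraticForm (diagQuad C) := by
  have hp : QuadraticMap.polar (diagQuad C) = fun u v => 2 * diagForm C (RingHom.id F) u v := by
    funext u v
    simp only [QuadraticMap.polar, diagQuad, diagForm, map_add, Pi.add_apply, Finset.mul_sum,
      ← Finset.sum_sub_distrib, RingHom.id_apply]
    exact Finset.sum_congr rfl fun j _ => by ring
  obtain ⟨a1, a2, a3, a4⟩ := diagForm_sesqui C (RingHom.id F)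
  refine ⟨fun c v => ?_, ?_, ?_⟩
  · simp [diagQuad, Finset.mul_sum, mul_pow]
  · rw [hp]
    exact ⟨fun x y v => by simp only [a1]; ring, fun c x v => by simp only [a2]; ring,
      fun v x y => by simp only [a3]; ring, fun c v x => by simp only [a4, RingHom.id_apply]; ring⟩
  · rw [hp]
    intro v hv
    obtain ⟨⟨x, hx⟩, y, hy⟩ := diagForm_nondegenerate C (RingHom.id F) v hv
    exact ⟨⟨x, mul_ne_zero h2 hx⟩, ⟨y, mul_ne_zero h2 hy⟩⟩

lemma fixes_diagQuad (C : (ι → F) ≃ₗ[F] (κ → F)) {P : F → Prop} (hP : ∀ a, P a → a ^ 2 = 1)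
    {g : GL ι F} (hg : IsMonomialFor C P g) (u : ι → F) : diagQuad C (act g u) = diagQuad C u := by
  obtain ⟨π, a, ha, h⟩ := hg
  rw [diagQuad, ← Equiv.sum_comp π]
  refine Finset.sum_congr rfl fun j _ => ?_
  rw [IsMonomialFor.coords h, mul_pow, hP _ (ha j), one_mul]

end CfsgLib.SmallDim
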