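import Cfsg.Agent.Lib.SmallDim.Residual
import Cfsg.Agent.Lib.SmallDim.DiagForms

/-!
Aschbacher's theorem for the maximal subgroups of `SL` in odd prime dimension.
-/

set_option autoImplicit false
set_option linter.style.haveILetI false

namespace CfsgLib.SmallDim

open scoped MatrixGroups Matrix
open Cfsg.Geo

variable {ι : Type} [Fintype ι] [DecidableEq ι] {F : Type*} [Field F]

lemma not_le_scalars_of_irreducible (hn : 2 ≤ Fintype.card ι) {H : Subgroup (GL ι F)}
    (hirr : ActsIrreducibly (matrixSet H)) : ¬ H ≤ scalars ι F := by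
  intro hle
  obtain ⟨i⟩ : Nonempty ι := Fintype.card_pos_iff.mp (by omega)
  have hne : (Pi.single i 1 : ι → F) ≠ 0 := by simp
  rcases actsIrreducibly_iff.mp hirr (F ∙ (Pi.single i 1 : ι → F)) (fun g hg w hw => by
    obtain ⟨c, hc⟩ := (mem_scalars_iff g).mp (hle hg)
    rw [act_scalar hc]; exact Submodule.smul_mem _ _ hw) with h | h
  · exact hne (Submodule.span_singleton_eq_bot.mp h)
  · have := finrank_span_singleton (K := F) hne
    rw [h, finrank_top, Module.finrank_fintype_fun_eq_card] at this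
    omega

/-- Coordinates attached to a decomposition into lines. -/
lemma exists_coords {D : Fin (Fintype.card ι) → Submodule F (ι → F)} (hD : IsMDecomposition 1 D) :
    ∃ C : (ι → F) ≃ₗ[F] (Fin (Fintype.card ι) → F), (∀ j, C.symm (Pi.single j 1) ∈ D j) ∧
      ∀ g ∈ decompositionStabilizer D, IsMonomialFor C (fun a => a ≠ 0) g := by
  classical
  have hne : ∀ j, ∃ v ∈ D j, v ≠ 0 := fun j => (Submodule.ne_bot_iff _).mp fun h => by
    have := hD.finrank_eq j
    rw [h, finrank_bot] at this
    omega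
  choose v hv hv0 using hne
  have hli : LinearIndependent F v := hD.indep.linearIndependent _ hv hv0
  let b : Module.Basis (Fin (Fintype.card ι)) F (ι → F) := Module.Basis.mk hli
    (hli.span_eq_top_of_card_eq_finrank' (by rw [Fintype.card_fin, Module.finrank_fintype_fun_eq_card])).ge
  have hb : ∀ j, b.equivFun.symm (Pi.single j 1) = v j := fun j => by simp [b]
  refine ⟨b.equivFun, fun j => by rw [hb]; exact hv j, fun g hg => ?_⟩
  obtain ⟨π, hπ⟩ := hg
  have hex : ∀ j, ∃ a : F, a ≠ 0 ∧ act g (v j) = a • v (π j) := by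
    intro j
    have hmem : act g (v j) ∈ D (π j) := by
      rw [← hπ j]; exact ⟨v j, hv j, by rw [Matrix.toLin'_apply]⟩
    obtain ⟨w, hw0, hw⟩ := finrank_eq_one_iff'.mp (hD.finrank_eq (π j))
    obtain ⟨a, ha⟩ := hw ⟨_, hmem⟩
    obtain ⟨b, hb⟩ := hw ⟨_, hv (π j)⟩
    have hb0 : b ≠ 0 := fun h => hv0 (π j) (by rw [h, zero_smul] at hb; exact (congrArg Subtype.val hb).symm)
    have ha' : a • (w : ι → F) = act g (v j) := congrArg Subtype.val ha
    have hb' : b • (w : ι → F) = v (π j) := congrArg Subtype.val hb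
    refine ⟨a / b, ?_, ?_⟩
    · refine div_ne_zero (fun h => ?_) hb0
      rw [h, zero_smul] at ha'
      exact act_ne_zero g (hv0 j) ha'.symm
    · rw [← ha', ← hb', smul_smul, div_mul_cancel₀ a hb0]
  choose a ha hga using hex
  exact ⟨π, a, ha, fun j => by rw [hb, hb]; exact hga j⟩

section

variable [Fintype F]

/-- For a field with four elements, squaring is an automorphism. -/
lemma exists_frobenius_equiv {p k : ℕ} [Fact p.Prime] [CharP F p] :
    ∃ σ : F ≃+* F, ∀ x, σ x = x ^ p ^ k :=
  ⟨RingEquiv.ofBijective (iterateFrobenius F p k)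
    (Finite.injective_iff_bijective.mp (iterateFrobenius F p k).injective), fun x => iterateFrobenius_def p k x⟩

/-- The decomposition case. -/
lemma decomposition_case {H : Subgroup (GL ι F)} (hn : 3 ≤ Fintype.card ι)
    (hH : IsMaximalIn (specialLinear ι F) H) (hirr : ActsIrreducibly (matrixSet H))
    {D : Fin (Fintype.card ι) → Submodule F (ι → F)} (hD : IsMDecomposition 1 D)
    (hle : H ≤ decompositionStabilizer D) :
    (5 ≤ Fintype.card F ∧ H = decompositionStabilizer D ⊓ specialLinear ι F) ∨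
    (Odd (Fintype.card F) ∧ ∃ Q, IsNondegenerateQuadraticForm Q ∧ H = quadSimilarityGroup Q ⊓ specialLinear ι F) ∨
    (∃ σ f, IsUnitaryForm σ f ∧ H = similarityGroup f ⊓ specialLinear ι F) := by
  classical
  rcases le_or_gt 5 (Fintype.card F) with h5 | h5
  · exact Or.inl ⟨h5, IsMaximalIn.eq_inf hH hle (not_sl_le_decompositionStabilizer hD)⟩
  obtain ⟨C, -, hC⟩ := exists_coords hD
  have hFpos : 2 ≤ Fintype.card F := Fintype.one_lt_card
  have hpow : ∀ a : F, a ≠ 0 → a ^ (Fintype.card F - 1) = 1 := fun a ha => FiniteField.pow_card_sub_one_eq_one a ha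
  obtain ⟨p, hchar⟩ := CharP.exists F
  obtain ⟨e, hp, hq⟩ := FiniteField.card F p
  haveI := Fact.mk hp
  rcases (show Fintype.card F = 2 ∨ Fintype.card F = 3 ∨ Fintype.card F = 4 by omega) with h | h | h
  · -- the all-one vector is fixed
    exfalso
    set s := C.symm (fun _ => (1 : F))
    have hs0 : s ≠ 0 := fun h0 => by
      have := congrArg C h0
      rw [C.apply_symm_apply, map_zero] at this
      exact one_ne_zero (congrFun this ⟨0, by omega⟩)
    have hfix : ∀ g ∈ H, act g s = s := by
      intro g hg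
      obtain ⟨π, a, ha, hga⟩ := hC g (hle hg)
      apply C.injective
      funext k
      obtain ⟨j, rfl⟩ := π.surjective k
      rw [IsMonomialFor.coords hga, C.apply_symm_apply, mul_one]
      have := hpow _ (ha j)
      rwa [h, pow_one] at this
    rcases actsIrreducibly_iff.mp hirr (F ∙ s) (fun g hg w hw => by
      obtain ⟨c, rfl⟩ := Submodule.mem_span_singleton.mp hw
      rw [act, Matrix.mulVec_smul, ← act, hfix g hg]
      exact Submodule.smul_mem _ _ (Submodule.mem_span_singleton_self s)) with h' | h'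
    · exact hs0 (Submodule.span_singleton_eq_bot.mp h')
    · have := finrank_span_singleton (K := F) hs0
      rw [h', finrank_top, Module.finrank_fintype_fun_eq_card] at this
      omega
  · right; left
    have h2 : (2 : F) ≠ 0 := by
      intro h0
      have h3 : ((Fintype.card F : ℕ) : F) = 0 := Nat.cast_card_eq_zero F
      rw [h] at h3
      exact one_ne_zero (α := F) (by linear_combination h3 - h0)
    have hQ := diagQuad_nondegenerate C h2
    refine ⟨⟨1, h⟩, _, hQ, IsMaximalIn.eq_inf hH ?_ fun hsl => ?_⟩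
    · intro g hg
      refine ⟨1, fun v => ?_⟩
      rw [Units.val_one, one_mul]
      refine fixes_diagQuad C (fun a ha => ?_) (hC g (hle hg)) v
      have := hpow a ha
      rwa [h] at this
    · exact not_sl_le_similarityGroup hn (IsSesqui.of_bilinear hQ.polar_bilinear) hQ.nondegenerate
        (hsl.trans quadSimilarityGroup_le_polar)
  · right; right
    have hp2 : p = 2 := by
      have hd : p ∣ 4 := by rw [← h, hq]; exact dvd_pow_self p e.pos.ne'
      exact (Nat.prime_dvd_prime_iff_eq hp Nat.prime_two).mp (hp.dvd_of_dvd_pow (n := 2) (by simpa using hd))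
    subst hp2
    obtain ⟨σ, hσ⟩ := exists_frobenius_equiv (F := F) (p := 2) (k := 1)
    simp only [pow_one] at hσ
    have hne : σ ≠ RingEquiv.refl F := by
      intro he
      obtain ⟨g, hg⟩ := IsCyclic.exists_generator (α := Fˣ)
      have h3 : orderOf g = 3 := by
        rw [orderOf_eq_card_of_forall_mem_zpowers hg, Nat.card_units, Nat.card_eq_fintype_card, h]
      have : g ^ 2 = g := Units.ext (by
        rw [Units.val_pow_eq_pow_val, ← hσ, he, RingEquiv.refl_apply])
      have h4 : g = 1 := mul_right_cancel (b := g) (by rw [one_mul, ← pow_two, this])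
      rw [h4, orderOf_one] at h3
      omega
    have hU := diagForm_isUnitaryForm C σ hne (fun a => by
      rw [hσ, hσ, ← pow_mul]
      have := FiniteField.pow_card a
      rwa [h] at this)
    refine ⟨σ, _, hU, IsMaximalIn.eq_inf hH ?_
      (not_sl_le_similarityGroup hn (IsSesqui.of_unitary hU) hU.nondegenerate)⟩
    intro g hg
    refine ⟨1, fun u v => ?_⟩
    rw [Units.val_one, one_mul]
    refine fixes_diagForm C _ (fun a ha => ?_) (hC g (hle hg)) u v
    rw [RingEquiv.coe_toRingHom, hσ, ← pow_succ']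
    have := hpow a ha
    rwa [h] at this

/-- Maximal subgroups of `SL` in odd prime dimension. -/
theorem linear_prime {n : ℕ} (hcard : Fintype.card ι = n) (hn : n.Prime) (hodd : Odd n)
    {H : Subgroup (GL ι F)} (hH : IsMaximalIn (specialLinear ι F) H) :
    (∃ W : Submodule F (ι → F), W ≠ ⊥ ∧ W ≠ ⊤ ∧ H = subspaceStabilizer W ⊓ specialLinear ι F) ∨
    (5 ≤ Fintype.card F ∧ ∃ D : Fin n → Submodule F (ι → F), IsMDecomposition 1 D ∧
      H = decompositionStabilizer D ⊓ specialLinear ι F) ∨
    (∃ K : Subalgebra F (Matrix ι ι F), IsFieldSubalgebra n K ∧ H = subalgebraNormalizer K ⊓ specialLinear ι F) ∨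
    (∃ (F₀ : Subfield F) (r : ℕ) (P : GL ι F), r.Prime ∧ Fintype.card F = Nat.card F₀ ^ r ∧
      H = subfieldSubgroup F₀ P ⊓ specialLinear ι F) ∨
    (∃ (R : Subgroup (GL ι F)) (p e : ℕ), p.Prime ∧ CharP F p ∧ Fintype.card F = p ^ e ∧ Odd e ∧ n ∣ p ^ e - 1 ∧
      (∀ d, 0 < d → d < e → ¬ n ∣ p ^ d - 1) ∧
      IsLinearSymplecticTypeData n R ∧ H = subgroupNormalizer R ⊓ specialLinear ι F) ∨
    (Odd (Fintype.card F) ∧ ∃ Q : (ι → F) → F, IsNondegenerateQuadraticForm Q ∧
      H = quadSimilarityGroup Q ⊓ specialLinear ι F) ∨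
    (∃ (σ : F ≃+* F) (f : (ι → F) → (ι → F) → F), IsUnitaryForm σ f ∧ H = similarityGroup f ⊓ specialLinear ι F) ∨
    InLinearResidualClass H := by
  classical
  subst hcard
  have hn3 : 3 ≤ Fintype.card ι := by
    obtain ⟨k, hk⟩ := hodd
    have := hn.two_le
    omega
  haveI : Nonempty ι := Fintype.card_pos_iff.mp (by omega)
  have hsl : H ≤ specialLinear ι F := hH.1.le
  -- reducible
  by_cases hirr : ActsIrreducibly (matrixSet H)
  swap
  · rw [actsIrreducibly_iff] at hirr
    push Not at hirr
    obtain ⟨W, hW, h0, h1⟩ := hirr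
    exact Or.inl ⟨W, h0, h1, IsMaximalIn.eq_inf hH (le_subspaceStabilizer hW) (not_sl_le_subspaceStabilizer h0 h1)⟩
  right
  -- a normal subgroup that is not absolutely irreducible
  by_cases habs : ∀ N, NormalIn N H → ¬ N ≤ scalars ι F → ActsAbsolutelyIrreducibly (matrixSet N)
  swap
  · push Not at habs
    obtain ⟨N, hN, hNs, hNa⟩ := habs
    rcases normal_cases hn hirr hN hNs with h | ⟨D, χ, hD⟩ | ⟨K, hK⟩
    · exact absurd h hNa
    · rcases decomposition_case hn3 hH hirr hD.decomp hD.le with ⟨h5, h⟩ | h | h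
      · exact Or.inl ⟨h5, D, hD.decomp, h⟩
      · exact Or.inr (Or.inr (Or.inr (Or.inr (Or.inl h))))
      · obtain ⟨σ, f, hf⟩ := h
        exact Or.inr (Or.inr (Or.inr (Or.inr (Or.inr (Or.inl ⟨σ, f, hf⟩)))))
    · exact Or.inr (Or.inl ⟨K, hK.isField,
        IsMaximalIn.eq_inf hH hK.le (not_sl_le_subalgebraNormalizer hn3 hn.two_le hK.isField)⟩)
  right; right
  -- realised over a subfield
  by_cases hsub : ∀ N, NormalIn N H → ¬ N ≤ scalars ι F → ∀ K : Subfield F, K ≠ ⊤ → ¬ RealisableOver K (matrixSet N)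
  swap
  · push Not at hsub
    obtain ⟨N, hN, hNs, K, hK, B, hB⟩ := hsub
    obtain ⟨K₁, r, hr, hle, hcardK⟩ := exists_prime_index_overfield hK
    refine Or.inl ⟨K₁, r, B⁻¹, hr, hcardK, IsMaximalIn.eq_inf hH
      (le_subfieldSubgroup hN (habs N hN hNs) fun s hs i j => hle (hB s hs i j))
      (not_sl_le_subfieldSubgroup (by omega) ?_ _)⟩
    rintro rfl
    rw [show Nat.card (⊤ : Subfield F) = Nat.card F from
      Nat.card_congr (Equiv.subtypeUnivEquiv fun x => Subfield.mem_top x), Nat.card_eq_fintype_card] at hcardK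
    exact (lt_self_pow₀ Fintype.one_lt_card hr.one_lt).ne hcardK
  right
  have hHs := not_le_scalars_of_irreducible (by omega) hirr
  rcases sympl_or_residual hn hodd hsl hHs habs hsub with ⟨R, hR⟩ | ⟨P, hP, hcore⟩
  · -- symplectic type
    obtain ⟨p, hchar⟩ := CharP.exists F
    obtain ⟨⟨e, he0⟩, hp, hq⟩ := FiniteField.card F p
    change Fintype.card F = p ^ e at hq
    haveI := Fact.mk hp
    obtain ⟨ν, hν⟩ := hR.hasRoot
    have hν0 : ν ≠ 0 := hν.ne_zero hn.ne_zero
    have hdvd : Fintype.card ι ∣ p ^ e - 1 := by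
      rw [← hq]
      exact hν.dvd_of_pow_eq_one _ (FiniteField.pow_card_sub_one_eq_one ν hν0)
    obtain ⟨B, hB, -⟩ := hR.monomial
    have hRs : ¬ R ≤ scalars ι F :=
      not_le_scalars_of_irreducible (by omega) hR.absIrred.1
    have hmin : ∀ d, 0 < d → d < e → ¬ Fintype.card ι ∣ p ^ d - 1 := by
      intro d hd hde hdd
      refine hsub R hR.normal hRs (fixedField p d) ?_ ⟨B, ?_⟩
      · intro htop
        obtain ⟨g, hg⟩ := IsCyclic.exists_generator (α := Fˣ)
        have hg' : (g : F) ^ p ^ d = g := mem_fixedField.mp (htop ▸ Subfield.mem_top (g : F))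
        have h1 : g ^ (p ^ d - 1) = 1 := by
          apply mul_right_cancel (b := g)
          rw [← pow_succ, Nat.sub_add_cancel (Nat.one_le_pow _ _ hp.pos), one_mul]
          exact Units.ext (by rw [Units.val_pow_eq_pow_val]; exact hg')
        have h2 := orderOf_dvd_of_pow_eq_one h1
        rw [orderOf_eq_card_of_forall_mem_zpowers hg, Nat.card_units, Nat.card_eq_fintype_card, hq] at h2
        have h3 : p ^ d < p ^ e := Nat.pow_lt_pow_right hp.one_lt hde
        have h4 : 1 < p ^ d := Nat.one_lt_pow hd.ne' hp.one_lt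
        have := Nat.le_of_dvd (by omega) h2
        omega
      · rintro _ ⟨x, hx, rfl⟩ i j
        rw [← Units.val_mul, ← Units.val_mul]
        rcases (hB x hx).entry i j with h | h
        · rw [h]; exact zero_mem _
        · rw [mem_fixedField]
          obtain ⟨k, hk⟩ := hdd
          rw [show p ^ d = Fintype.card ι * k + 1 by
            have := Nat.one_le_pow d p hp.pos; omega, pow_succ, pow_mul, h, one_pow, one_mul]
    rcases Nat.even_or_odd e with ⟨k, hk⟩ | hodd_e
    · -- an invariant unitary form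
      right; right; left
      have hk0 : 0 < k := by omega
      obtain ⟨σ, hσ⟩ := exists_frobenius_equiv (F := F) (p := p) (k := k)
      have hnot : ¬ Fintype.card ι ∣ p ^ k - 1 := hmin k hk0 (by omega)
      have hplus : Fintype.card ι ∣ p ^ k + 1 := by
        have h1 : p ^ e - 1 = (p ^ k + 1) * (p ^ k - 1) := by
          rw [hk, pow_add, ← pow_two]
          simpa using Nat.sq_sub_sq (p ^ k) 1
        rw [h1] at hdvd
        exact (hn.dvd_mul.mp hdvd).resolve_right hnot
      have hne : σ ≠ RingEquiv.refl F := by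
        intro he
        have h1 : ν ^ p ^ k = ν := by rw [← hσ, he, RingEquiv.refl_apply]
        apply hnot
        refine hν.dvd_of_pow_eq_one _ (mul_right_cancel₀ hν0 ?_)
        rw [← pow_succ, Nat.sub_add_cancel (Nat.one_le_pow _ _ hp.pos), one_mul, h1]
      let C : (ι → F) ≃ₗ[F] (ι → F) :=
        LinearEquiv.ofLinearMap (Matrix.toLin' (B : Matrix ι ι F)) (Matrix.toLin' ((B⁻¹ : GL ι F) : Matrix ι ι F))
          (by rw [← Matrix.toLin'_mul, ← Units.val_mul, mul_inv_cancel, Units.val_one, Matrix.toLin'_one])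
          (by rw [← Matrix.toLin'_mul, ← Units.val_mul, inv_mul_cancel, Units.val_one, Matrix.toLin'_one])
      have hU := diagForm_isUnitaryForm C σ hne (fun a => by
        rw [hσ, hσ, ← pow_mul, ← pow_add, ← hk, ← hq, FiniteField.pow_card])
      refine ⟨σ, _, hU, IsMaximalIn.eq_inf hH
        (le_similarityGroup σ.surjective (IsSesqui.of_unitary hU) hU.nondegenerate hR.normal hR.absIrred ?_)
        (not_sl_le_similarityGroup hn3 (IsSesqui.of_unitary hU) hU.nondegenerate)⟩
      rintro _ ⟨x, hx, rfl⟩ u v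
      obtain ⟨π, c, hc, hcx⟩ := hB x hx
      refine fixes_diagForm C _ (P := fun a => a ^ Fintype.card ι = 1) (fun a ha => ?_) ⟨π, c, hc, fun j => ?_⟩ u v
      · rw [RingEquiv.coe_toRingHom, hσ, ← pow_succ']
        obtain ⟨m, hm⟩ := hplus
        rw [hm, pow_mul, ha, one_pow]
      · have hC : ∀ w, C.symm w = act B⁻¹ w := fun w => by
          show Matrix.toLin' ((B⁻¹ : GL ι F) : Matrix ι ι F) w = _
          rw [Matrix.toLin'_apply]
        rw [hC, hC, ← act_mul]
        have := congrArg (act B⁻¹) (hcx j)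
        rw [← act_mul, show B⁻¹ * (B * x * B⁻¹) = x * B⁻¹ by group] at this
        rw [this, act, Matrix.mulVec_smul]
    · left
      have hne : Fintype.card ι ≠ p := by
        intro h
        rw [h] at hdvd
        have h1 : p ∣ p ^ e := dvd_pow_self p he0.ne'
        have h2 : p ∣ 1 := by
          have := Nat.dvd_sub h1 hdvd
          have hpe : 1 ≤ p ^ e := Nat.one_le_pow _ _ hp.pos
          rwa [show p ^ e - (p ^ e - 1) = 1 by omega] at this
        exact hp.ne_one (Nat.dvd_one.mp h2)
      refine ⟨R, p, e, hp, hchar, hq, hodd_e, hdvd, hmin, ⟨hR.sympType, hR.absIrred, p, e, hne,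
        ⟨hp, hchar, hq, ?_, ?_⟩, Or.inl ⟨hodd, hodd_e, hR.card_center, 1, le_rfl, ?_⟩⟩,
        IsMaximalIn.eq_inf hH ?_ (not_sl_le_subgroupNormalizer hR)⟩
      · rw [hR.card_center]; exact hdvd
      · rw [hR.card_center]; exact hmin
      · rw [hR.card_eq]
      · intro g hg
        refine Subgroup.mem_normalizer_iff.mpr fun x => ⟨fun hx => hR.normal.conj g hg x hx, fun hx => ?_⟩
        simpa [mul_assoc] using hR.normal.conj' hg hx
  · -- residual
    right
    have hPs : ¬ P ≤ scalars ι F := not_le_scalars_of_irreducible (by omega) hcore.absIrred.1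
    by_cases hQ : ∃ Q : (ι → F) → F, IsNondegenerateQuadraticForm Q ∧ FixesQuadForm (matrixSet P) Q
    · obtain ⟨Q, hQ, hfix⟩ := hQ
      have h2 : (2 : F) ≠ 0 := fun h0 => no_alternating_odd hodd hQ.polar_bilinear
        (fun v => by rw [polar_self_eq hQ, h0, zero_mul]) hQ.nondegenerate
      refine Or.inl ⟨?_, Q, hQ, IsMaximalIn.eq_inf hH ?_ ?_⟩
      · obtain ⟨p, hchar⟩ := CharP.exists F
        obtain ⟨e, hp, hq⟩ := FiniteField.card F p
        rw [hq]
        refine (hp.odd_of_ne_two ?_).pow
        rintro rfl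
        exact h2 (by exact_mod_cast CharP.cast_eq_zero F 2)
      · exact (le_similarityGroup Function.surjective_id (IsSesqui.of_bilinear hQ.polar_bilinear)
          hQ.nondegenerate hP hcore.absIrred (fixesForm_polar hfix)).trans (similarityGroup_polar_le hQ h2)
      · exact fun h => not_sl_le_similarityGroup hn3 (IsSesqui.of_bilinear hQ.polar_bilinear) hQ.nondegenerate
          (h.trans quadSimilarityGroup_le_polar)
    by_cases hf : ∃ (σ : F ≃+* F) (f : (ι → F) → (ι → F) → F), IsUnitaryForm σ f ∧ FixesForm (matrixSet P) f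
    · obtain ⟨σ, f, hf, hfix⟩ := hf
      exact Or.inr (Or.inl ⟨σ, f, hf, IsMaximalIn.eq_inf hH
        (le_similarityGroup σ.surjective (IsSesqui.of_unitary hf) hf.nondegenerate hP hcore.absIrred hfix)
        (not_sl_le_similarityGroup hn3 (IsSesqui.of_unitary hf) hf.nondegenerate)⟩)
    exact Or.inr (Or.inr ⟨P, hcore, hQ, fun ⟨f, hf', _⟩ =>
      no_alternating_odd hodd hf'.bilinear hf'.alternating hf'.nondegenerate, hf⟩)

end

end CfsgLib.SmallDim
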