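import Cfsg.Agent.Lib.SmallDim.Forms
import Cfsg.Agent.Lib.SmallDim.Subfield

/-!
Structures compatible with a reflexive sesquilinear form: orthogonals, reducible groups of isometries,
decompositions permuted by isometries, adjoints of centralisers, forms fixed by absolutely irreducible sets.
-/

set_option autoImplicit false
set_option linter.style.haveILetI false

namespace CfsgLib.SmallDim

open scoped MatrixGroups Matrix
open Cfsg.Geo

variable {ι : Type} [Fintype ι] [DecidableEq ι] {F : Type*} [Field F]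
variable {σ : F →+* F} {f : (ι → F) → (ι → F) → F}

/-- Orthogonality is symmetric. -/
def IsReflexive (f : (ι → F) → (ι → F) → F) : Prop := ∀ u v, f u v = 0 → f v u = 0

omit [DecidableEq ι] in
lemma isReflexive_of_unitary {σ : F ≃+* F} (h : IsUnitaryForm σ f) : IsReflexive f :=
  fun u v e => by rw [h.herm, e, map_zero]

omit [DecidableEq ι] in
lemma isReflexive_of_symplectic (h : IsSymplecticForm f) : IsReflexive f :=
  fun u v e => by rw [h.skew, e, neg_zero]

omit [DecidableEq ι] in
lemma isReflexive_of_symm (h : ∀ u v, f u v = f v u) : IsReflexive f :=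
  fun u v e => by rw [h, e]

omit [DecidableEq ι] in
lemma IsSesqui.zero_left (h : IsSesqui σ f) (v : ι → F) : f 0 v = 0 := by
  simpa using h.smul_left 0 0 v

omit [DecidableEq ι] in
lemma IsSesqui.zero_right (h : IsSesqui σ f) (v : ι → F) : f v 0 = 0 := by
  simpa using h.smul_right 0 v 0

omit [DecidableEq ι] in
/-- The functional `f(·, v)`. -/
def IsSesqui.lf (h : IsSesqui σ f) (v : ι → F) : (ι → F) →ₗ[F] F where
  toFun x := f x v
  map_add' x y := h.add_left x y v
  map_smul' c x := h.smul_left c x v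

@[simp] lemma IsSesqui.lf_apply (h : IsSesqui σ f) (v x : ι → F) : h.lf v x = f x v := rfl

omit [DecidableEq ι] in
/-- The left orthogonal of a subspace. -/
def IsSesqui.orth (h : IsSesqui σ f) (W : Submodule F (ι → F)) : Submodule F (ι → F) where
  carrier := {x | ∀ w ∈ W, f x w = 0}
  add_mem' {a b} ha hb w hw := by rw [h.add_left, ha w hw, hb w hw, add_zero]
  zero_mem' w _ := h.zero_left w
  smul_mem' c x hx w hw := by rw [h.smul_left, hx w hw, mul_zero]

lemma IsSesqui.mem_orth (h : IsSesqui σ f) {W : Submodule F (ι → F)} {x : ι → F} :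
    x ∈ h.orth W ↔ ∀ w ∈ W, f x w = 0 := Iff.rfl

omit [DecidableEq ι] in
lemma IsSesqui.eq_zero_of_span (h : IsSesqui σ f) {s : Set (ι → F)} {x : ι → F}
    (hs : ∀ y ∈ s, f x y = 0) : ∀ y ∈ Submodule.span F s, f x y = 0 := by
  intro y hy
  induction hy using Submodule.span_induction with
  | mem y hy => exact hs y hy
  | zero => exact h.zero_right x
  | add a b _ _ ha hb => rw [h.add_right, ha, hb, add_zero]
  | smul c a _ ha => rw [h.smul_right, ha, mul_zero]

omit [DecidableEq ι] in
lemma IsSesqui.card_le_finrank_orth (h : IsSesqui σ f) (W : Submodule F (ι → F)) :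
    Fintype.card ι ≤ Module.finrank F (h.orth W) + Module.finrank F W := by
  let b := Module.finBasis F W
  let Φ : (ι → F) →ₗ[F] (Fin (Module.finrank F W) → F) := LinearMap.pi fun i => h.lf (b i)
  have hker : LinearMap.ker Φ ≤ h.orth W := by
    intro x hx w hw
    have hsp : w ∈ Submodule.span F (Set.range fun i => (b i : ι → F)) := by
      rw [show (fun i => (b i : ι → F)) = W.subtype ∘ b from rfl, Set.range_comp,
        ← Submodule.map_span, b.span_eq, Submodule.map_top, Submodule.range_subtype]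
      exact hw
    refine h.eq_zero_of_span ?_ w hsp
    rintro _ ⟨i, rfl⟩
    exact congrFun (LinearMap.mem_ker.mp hx) i
  have h1 := Φ.finrank_range_add_finrank_ker
  have h2 : Module.finrank F (LinearMap.range Φ) ≤ Module.finrank F W :=
    (Submodule.finrank_le _).trans_eq (Module.finrank_fin_fun F)
  have h3 := Submodule.finrank_mono hker
  rw [Module.finrank_fintype_fun_eq_card] at h1
  omega

omit [DecidableEq ι] in
lemma IsSesqui.inf_orth_eq_bot (h : IsSesqui σ f) {W : Submodule F (ι → F)}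
    (hW : IsNondegenerateOn f W) : W ⊓ h.orth W = ⊥ := by
  rw [Submodule.eq_bot_iff]
  rintro x ⟨hx, hx'⟩
  by_contra h0
  obtain ⟨y, hy, hne⟩ := (hW x hx h0).2
  exact hne (hx' y hy)

omit [DecidableEq ι] in
lemma IsSesqui.sup_orth_eq_top (h : IsSesqui σ f) {W : Submodule F (ι → F)}
    (hW : IsNondegenerateOn f W) :
    W ⊔ h.orth W = ⊤ ∧ Module.finrank F W + Module.finrank F (h.orth W) = Fintype.card ι := by
  have h1 := Submodule.finrank_sup_add_finrank_inf_eq W (h.orth W)
  rw [h.inf_orth_eq_bot hW, finrank_bot, add_zero] at h1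
  have h2 := h.card_le_finrank_orth W
  have h3 : Module.finrank F ↥(W ⊔ h.orth W) ≤ Fintype.card ι :=
    le_of_le_of_eq (Submodule.finrank_le _) (Module.finrank_fintype_fun_eq_card F)
  refine ⟨Submodule.eq_top_of_finrank_eq ?_, by omega⟩
  rw [Module.finrank_fintype_fun_eq_card]
  omega

omit [DecidableEq ι] in
lemma IsSesqui.orth_nondegenerate (h : IsSesqui σ f) (hr : IsReflexive f) (hnd : IsNondegenerateForm f)
    {W : Submodule F (ι → F)} (hW : IsNondegenerateOn f W) : IsNondegenerateOn f (h.orth W) := by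
  intro x hx h0
  suffices hs : ∃ y ∈ h.orth W, f x y ≠ 0 by
    obtain ⟨y, hy, hne⟩ := hs
    exact ⟨⟨y, hy, fun e => hne (hr _ _ e)⟩, ⟨y, hy, hne⟩⟩
  by_contra hall
  push Not at hall
  obtain ⟨y, hy⟩ := (hnd x h0).2
  obtain ⟨a, ha, b, hb, rfl⟩ := Submodule.mem_sup.mp ((h.sup_orth_eq_top hW).1.ge (Submodule.mem_top (x := y)))
  rw [h.add_right, hx a ha, hall b hb, add_zero] at hy
  exact hy rfl

lemma IsSesqui.orth_invariant (h : IsSesqui σ f) {H : Subgroup (GL ι F)} (hfix : FixesForm (matrixSet H) f)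
    {W : Submodule F (ι → F)} (hW : ∀ g ∈ H, ∀ v ∈ W, act g v ∈ W) :
    ∀ g ∈ H, ∀ v ∈ h.orth W, act g v ∈ h.orth W := by
  intro g hg v hv w hw
  rw [← act_act_inv g w]
  exact (hfix _ (coe_mem_matrixSet hg) _ _).trans (hv _ (hW _ (H.inv_mem hg) w hw))

/-- A reducible group of isometries stabilises a totally singular subspace or a non-degenerate one
of at most half the dimension. -/
theorem exists_ts_or_nondegenerate (h : IsSesqui σ f) (hr : IsReflexive f) (hnd : IsNondegenerateForm f)
    {H : Subgroup (GL ι F)} (hfix : FixesForm (matrixSet H) f) (hred : ¬ ActsIrreducibly (matrixSet H)) :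
    ∃ W : Submodule F (ι → F), W ≠ ⊥ ∧ W ≠ ⊤ ∧ H ≤ subspaceStabilizer W ∧
      (IsTotallySingularFor f W ∨
        (IsNondegenerateOn f W ∧ 2 * Module.finrank F W ≤ Fintype.card ι)) := by
  rw [actsIrreducibly_iff] at hred
  push Not at hred
  obtain ⟨W, hW, h0, h1⟩ := hred
  have hW' := h.orth_invariant hfix hW
  by_cases hb : W ⊓ h.orth W = ⊥
  · have hnW : IsNondegenerateOn f W := by
      intro x hx hx0
      have hne : ∃ y ∈ W, f x y ≠ 0 := by
        by_contra hall
        push Not at hall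
        exact hx0 ((Submodule.eq_bot_iff _).mp hb x ⟨hx, hall⟩)
      obtain ⟨y, hy, hxy⟩ := hne
      exact ⟨⟨y, hy, fun e => hxy (hr _ _ e)⟩, ⟨y, hy, hxy⟩⟩
    rcases le_or_gt (2 * Module.finrank F W) (Fintype.card ι) with hd | hd
    · exact ⟨W, h0, h1, le_subspaceStabilizer hW, Or.inr ⟨hnW, hd⟩⟩
    obtain ⟨htop, hsum⟩ := h.sup_orth_eq_top hnW
    refine ⟨h.orth W, fun e => h1 ?_, fun e => h0 ?_, le_subspaceStabilizer hW',
      Or.inr ⟨h.orth_nondegenerate hr hnd hnW, by omega⟩⟩
    · rwa [e, sup_bot_eq] at htop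
    · have := h.inf_orth_eq_bot hnW
      rwa [e, inf_top_eq] at this
  · refine ⟨W ⊓ h.orth W, hb, fun e => h1 (top_le_iff.mp (e ▸ inf_le_left)),
      le_subspaceStabilizer fun g hg v hv => ⟨hW g hg v hv.1, hW' g hg v hv.2⟩,
      Or.inl fun u hu v hv => hu.2 v hv.1⟩

/-- A decomposition permuted by an irreducible group of isometries in which each member meets only one
other member non-trivially: all members are non-degenerate and orthogonal, or all are totally singular
and paired. -/
theorem decomposition_nondegenerate_or_paired (h : IsSesqui σ f) (hr : IsReflexive f)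
    (hnd : IsNondegenerateForm f) {H : Subgroup (GL ι F)} (hfix : FixesForm (matrixSet H) f)
    (hirr : ActsIrreducibly (matrixSet H)) {t m : ℕ} {D : Fin t → Submodule F (ι → F)}
    (hD : IsMDecomposition m D) (hle : H ≤ decompositionStabilizer D)
    (huniq : ∀ i j k, ¬ AreOrthogonalFor f (D i) (D j) → ¬ AreOrthogonalFor f (D i) (D k) → j = k) :
    IsNondegenerateMDecomposition f m D ∨
      ∃ τ : Equiv.Perm (Fin t), (∀ i, τ i ≠ i) ∧ (∀ i, τ (τ i) = i) ∧
        (∀ i, IsTotallySingularFor f (D i)) ∧ ∀ i j, j ≠ τ i → AreOrthogonalFor f (D i) (D j) := by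
  classical
  have hne : ∀ i, ∃ v ∈ D i, v ≠ 0 := fun i => (Submodule.ne_bot_iff _).mp fun e => by
    have h1 := hD.finrank_eq i
    rw [e, finrank_bot] at h1
    have := hD.pos
    omega
  have key : ∀ i, ∀ v ∈ D i, v ≠ 0 → ∃ j, ∃ w ∈ D j, f v w ≠ 0 := by
    intro i v _ hv
    by_contra hall
    push Not at hall
    obtain ⟨y, hy⟩ := (hnd v hv).2
    apply hy
    have hle : iSup D ≤ Submodule.span F (⋃ j, (D j : Set (ι → F))) :=
      iSup_le fun j x hx => Submodule.subset_span (Set.mem_iUnion.mpr ⟨j, hx⟩)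
    refine h.eq_zero_of_span ?_ y (hle (hD.iSup_eq_top ▸ Submodule.mem_top))
    intro x hx
    obtain ⟨j, hj⟩ := Set.mem_iUnion.mp hx
    exact hall j x hj
  have hex : ∀ i, ∃ j, ¬ AreOrthogonalFor f (D i) (D j) := fun i => by
    obtain ⟨v, hv, hv0⟩ := hne i
    obtain ⟨j, w, hw, hvw⟩ := key i v hv hv0
    exact ⟨j, fun ho => hvw (ho v hv w hw)⟩
  choose τ hτ using hex
  have hττ : ∀ i, τ (τ i) = i := fun i =>
    huniq _ _ _ (hτ (τ i)) fun ho => hτ i fun u hu v hv => hr _ _ (ho v hv u hu)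
  have horth : ∀ i j, j ≠ τ i → AreOrthogonalFor f (D i) (D j) := fun i j hj => by
    by_contra ho
    exact hj (huniq i j (τ i) ho (hτ i))
  by_cases hfixpt : ∃ i, τ i = i
  · left
    have hall : ∀ i, τ i = i := by
      obtain ⟨i₀, hi₀⟩ := hfixpt
      let U : Submodule F (ι → F) := ⨆ i : {i // τ i = i}, D i
      have hinv : ∀ g ∈ H, ∀ v ∈ U, act g v ∈ U := by
        intro g hg v hv
        obtain ⟨π, hπ⟩ := hle hg
        have hmv : ∀ i, ∀ x ∈ D i, act g x ∈ D (π i) := fun i x hx => by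
          rw [← hπ i]; exact ⟨x, hx, by rw [Matrix.toLin'_apply]⟩
        have hle' : U ≤ U.comap (Matrix.toLin' (g : Matrix ι ι F)) := by
          refine iSup_le fun i => fun x hx => ?_
          rw [Submodule.mem_comap, Matrix.toLin'_apply]
          refine Submodule.mem_iSup_of_mem (⟨π i.1, ?_⟩ : {i // τ i = i}) (hmv _ x hx)
          refine huniq (π i.1) _ _ (hτ _) fun ho => hτ i.1 fun u hu w hw => ?_
          rw [i.2] at hw
          rw [← hfix _ (coe_mem_matrixSet hg) u w]
          exact ho _ (hmv _ u hu) _ (hmv _ w hw)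
        simpa [Matrix.toLin'_apply] using hle' hv
      rcases actsIrreducibly_iff.mp hirr U hinv with hU | hU
      · exfalso
        obtain ⟨v, hv, hv0⟩ := hne i₀
        exact hv0 ((Submodule.eq_bot_iff _).mp hU v (Submodule.mem_iSup_of_mem (⟨i₀, hi₀⟩ : {i // τ i = i}) hv))
      · intro i
        by_contra hi
        obtain ⟨v, hv, hv0⟩ := hne i
        refine hv0 (Submodule.disjoint_def.mp (hD.indep i) v hv ?_)
        have hle' : U ≤ ⨆ (j) (_ : j ≠ i), D j := iSup_le fun j =>
          le_iSup₂_of_le j.1 (fun e : j.1 = i => hi (e ▸ j.2)) le_rfl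
        exact hle' (hU ▸ Submodule.mem_top)
    refine ⟨hD, fun i x hx hx0 => ?_, fun i j hij => horth i j (by rw [hall]; exact hij.symm)⟩
    obtain ⟨j, w, hw, hne'⟩ := key i x hx hx0
    have hji : j = i := by
      by_contra hji
      exact hne' (horth i j (by rw [hall]; exact hji) x hx w hw)
    subst hji
    exact ⟨⟨w, hw, fun e => hne' (hr _ _ e)⟩, ⟨w, hw, hne'⟩⟩
  · right
    push Not at hfixpt
    exact ⟨Function.Involutive.toPerm τ hττ, hfixpt, hττ,
      fun i => horth i i (fun e => hfixpt i e.symm), horth⟩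

/-- With an odd number of members the decomposition is non-degenerate. -/
theorem decomposition_nondegenerate_of_odd (h : IsSesqui σ f) (hr : IsReflexive f)
    (hnd : IsNondegenerateForm f) {H : Subgroup (GL ι F)} (hfix : FixesForm (matrixSet H) f)
    (hirr : ActsIrreducibly (matrixSet H)) {t m : ℕ} (ht : Odd t) {D : Fin t → Submodule F (ι → F)}
    (hD : IsMDecomposition m D) (hle : H ≤ decompositionStabilizer D)
    (huniq : ∀ i j k, ¬ AreOrthogonalFor f (D i) (D j) → ¬ AreOrthogonalFor f (D i) (D k) → j = k) :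
    IsNondegenerateMDecomposition f m D := by
  refine (decomposition_nondegenerate_or_paired h hr hnd hfix hirr hD hle huniq).resolve_right ?_
  rintro ⟨τ, hne, hinv, -⟩
  have hord : τ ^ 2 = 1 := Equiv.ext fun a => by simp [pow_two, hinv]
  have hdvd := Equiv.Perm.two_dvd_card_support hord
  rw [show τ.support = Finset.univ from
    Finset.eq_univ_of_forall fun a => Equiv.Perm.mem_support.mpr (hne a), Finset.card_univ,
    Fintype.card_fin] at hdvd
  exact (Nat.not_even_iff_odd.mpr ht) (even_iff_two_dvd.mpr hdvd)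

omit [DecidableEq ι] in
lemma areOrthogonal_of_eigen (h : IsSesqui σ f) {D : Fin 2 → Submodule F (ι → F)} {g : Matrix ι ι F}
    {a b : F} (hfix : ∀ u v, f (g *ᵥ u) (g *ᵥ v) = f u v) (ha : ∀ v ∈ D 0, g *ᵥ v = a • v)
    (hb : ∀ v ∈ D 1, g *ᵥ v = b • v) (hab : a * σ b ≠ 1) : AreOrthogonalFor f (D 0) (D 1) := by
  intro u hu v hv
  have := hfix u v
  rw [ha u hu, hb v hv, h.smul_left, h.smul_right, ← mul_assoc] at this
  by_contra h0
  exact hab (mul_right_cancel₀ h0 (by rw [this, one_mul]))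

lemma IsSesqui.exists_adjoint [Finite F] (h : IsSesqui σ f) (hnd : IsNondegenerateForm f)
    (k : Matrix ι ι F) : ∃ k' : Matrix ι ι F, ∀ u v, f (k *ᵥ u) v = f u (k' *ᵥ v) := by
  have hσ : Function.Surjective σ := (Finite.injective_iff_bijective.mp σ.injective).2
  have hG := h.isUnit_det_gram hσ hnd
  set M := (gramMatrix f)⁻¹ * (kᵀ * gramMatrix f)
  choose inv hinv using hσ
  refine ⟨M.map inv, fun u v => ?_⟩
  rw [h.apply_eq, h.apply_eq u, map_mulVec_comp, show (M.map inv).map σ = M from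
    Matrix.ext fun i j => hinv _, Matrix.mulVec_mulVec, ← Matrix.mul_assoc, Matrix.mul_nonsing_inv _ hG,
    Matrix.one_mul, ← Matrix.mulVec_mulVec, Matrix.dotProduct_mulVec u kᵀ, Matrix.vecMul_transpose]

omit [DecidableEq ι] in
lemma IsSesqui.eq_of_apply_right (h : IsSesqui σ f) (hnd : IsNondegenerateForm f) {x y : ι → F}
    (he : ∀ u, f u x = f u y) : x = y := by
  by_contra hne
  obtain ⟨u, hu⟩ := (hnd (x - y) (sub_ne_zero.mpr hne)).1
  apply hu
  have := h.add_right u (x - y) y
  rw [sub_add_cancel, he] at this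
  exact right_eq_add.mp this

omit [DecidableEq ι] in
lemma IsSesqui.eq_of_apply_left (h : IsSesqui σ f) (hnd : IsNondegenerateForm f) {x y : ι → F}
    (he : ∀ u, f x u = f y u) : x = y := by
  by_contra hne
  obtain ⟨u, hu⟩ := (hnd (x - y) (sub_ne_zero.mpr hne)).2
  apply hu
  have := h.add_left (x - y) y u
  rw [sub_add_cancel, he] at this
  exact right_eq_add.mp this

/-- The centraliser of a group of isometries is closed under adjoints. -/
theorem isAdjointClosedFor_of_centralizer [Finite F] (h : IsSesqui σ f) (hnd : IsNondegenerateForm f)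
    {N : Subgroup (GL ι F)} (hfix : FixesForm (matrixSet N) f) {K : Subalgebra F (Matrix ι ι F)}
    (hK : ∀ M, M ∈ K ↔ ∀ s ∈ matrixSet N, s * M = M * s) : IsAdjointClosedFor f K := by
  intro k hk
  obtain ⟨k', hk'⟩ := h.exists_adjoint hnd k
  refine ⟨k', (hK k').mpr ?_, hk'⟩
  rintro _ ⟨x, hx, rfl⟩
  apply Matrix.ext_of_mulVec_single
  intro i
  refine h.eq_of_apply_right hnd fun u => ?_
  rw [← Matrix.mulVec_mulVec, ← Matrix.mulVec_mulVec, ← hk']
  show f u (act x _) = f (k *ᵥ u) (act x _)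
  set e : ι → F := Pi.single i 1
  have h1 : k *ᵥ u = act x (k *ᵥ act x⁻¹ u) := by
    simp only [act, Matrix.mulVec_mulVec]
    rw [← Matrix.mul_assoc, (hK k).mp hk _ (coe_mem_matrixSet hx), Matrix.mul_assoc, ← Units.val_mul,
      mul_inv_cancel, Units.val_one, Matrix.mul_one]
  conv_lhs => rw [← act_act_inv x u]
  rw [h1, hfix _ (coe_mem_matrixSet hx), hfix _ (coe_mem_matrixSet hx), hk']

/-- A form invariant under an absolutely irreducible set of isometries of a non-degenerate form is a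
multiple of it. -/
theorem form_unique (hσ : Function.Surjective σ) (h : IsSesqui σ f) (hnd : IsNondegenerateForm f)
    {g : (ι → F) → (ι → F) → F} (hg : IsSesqui σ g) {S : Set (Matrix ι ι F)}
    (hS : ActsAbsolutelyIrreducibly S) (hu : ∀ s ∈ S, IsUnit s) (hf : FixesForm S f) (hgS : FixesForm S g) :
    ∃ c : F, ∀ u v, g u v = c * f u v := by
  have hG := h.isUnit_det_gram hσ hnd
  set T := (gramMatrix g * (gramMatrix f)⁻¹)ᵀ with hT
  have hTv : ∀ u v, g u v = f (T *ᵥ u) v := fun u v => by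
    rw [hg.apply_eq, h.apply_eq (T *ᵥ u), hT, Matrix.mulVec_transpose, ← Matrix.dotProduct_mulVec,
      Matrix.mulVec_mulVec, Matrix.mul_assoc, Matrix.nonsing_inv_mul _ hG, Matrix.mul_one]
  have hcomm : ∀ s ∈ S, T * s = s * T := by
    intro s hs
    apply Matrix.ext_of_mulVec_single
    intro i
    refine h.eq_of_apply_left hnd fun v => ?_
    obtain ⟨w, rfl⟩ := Matrix.mulVec_surjective_iff_isUnit.mpr (hu s hs) v
    rw [← Matrix.mulVec_mulVec, ← Matrix.mulVec_mulVec, hf s hs, ← hTv, ← hTv, hgS s hs]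
  obtain ⟨c, hc⟩ := hS.2 T hcomm
  exact ⟨c, fun u v => by rw [hTv, hc, Matrix.smul_mulVec, Matrix.one_mulVec, h.smul_left]⟩

lemma isUnit_of_mem_matrixSet {R : Subgroup (GL ι F)} {s : Matrix ι ι F} (hs : s ∈ matrixSet R) :
    IsUnit s := by
  obtain ⟨x, -, rfl⟩ := hs
  exact x.isUnit

/-- An absolutely irreducible group realised over a subfield fixes only forms rational over it, up to a
scalar. -/
theorem form_rational [Fintype F] [Nonempty ι] (h : IsSesqui σ f) (hnd : IsNondegenerateForm f)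
    {N : Subgroup (GL ι F)} (hN : ActsAbsolutelyIrreducibly (matrixSet N)) (hfix : FixesForm (matrixSet N) f)
    {K : Subfield F} {B : GL ι F}
    (hB : ∀ s ∈ matrixSet N, ∀ i j, ((B : Matrix ι ι F) * s * ((B⁻¹ : GL ι F) : Matrix ι ι F)) i j ∈ K) :
    ∃ a : F, a ≠ 0 ∧ IsFormRationalStructure f K a⁻¹ B⁻¹ := by
  classical
  obtain ⟨p, hchar⟩ := CharP.exists F
  obtain ⟨e, hp, hq⟩ := FiniteField.card F p
  haveI := Fact.mk hp
  obtain ⟨d, hd0, -, -, hKeq⟩ := exists_fixedField_eq hq K
  set τ := iterateFrobenius F p d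
  have hτ : ∀ x, τ x = x ↔ x ∈ K := fun x => by rw [hKeq, mem_fixedField, iterateFrobenius_def]
  have hστ : ∀ x, τ (σ x) = σ (τ x) := fun x => by simp [τ, iterateFrobenius_def, map_pow]
  have hσK : ∀ x ∈ K, σ x ∈ K := fun x hx => (hτ _).mp (by rw [hστ, (hτ x).mpr hx])
  have hσ : Function.Surjective σ := (Finite.injective_iff_bijective.mp σ.injective).2
  let P : Matrix ι ι F := ((B⁻¹ : GL ι F) : Matrix ι ι F)
  let f' : (ι → F) → (ι → F) → F := fun u v => f (P *ᵥ u) (P *ᵥ v)
  have hf' : IsSesqui σ f' := h.transform P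
  have hnd' : IsNondegenerateForm f' := by
    intro v hv
    obtain ⟨⟨x, hx⟩, ⟨y, hy⟩⟩ := hnd (act B⁻¹ v) (act_ne_zero _ hv)
    refine ⟨⟨act B x, ?_⟩, ⟨act B y, ?_⟩⟩
    · show f (act B⁻¹ (act B x)) (act B⁻¹ v) ≠ 0
      rwa [act_inv_act]
    · show f (act B⁻¹ v) (act B⁻¹ (act B y)) ≠ 0
      rwa [act_inv_act]
  set G := gramMatrix f' with hG
  let f'' : (ι → F) → (ι → F) → F := fun u v => u ⬝ᵥ (G.map τ *ᵥ (σ ∘ v))
  have hf'' : IsSesqui σ f'' :=
    { add_left := fun x y v => by simp [f'', add_dotProduct]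
      smul_left := fun c x v => by simp [f'', smul_dotProduct]
      add_right := fun v x y => by
        simp [f'', show σ ∘ (x + y) = σ ∘ x + σ ∘ y from funext fun i => map_add σ _ _,
          Matrix.mulVec_add, dotProduct_add]
      smul_right := fun c v x => by
        simp [f'', show σ ∘ (c • x) = σ c • (σ ∘ x) from funext fun i => map_mul σ _ _,
          Matrix.mulVec_smul, dotProduct_smul] }
  let S : Set (Matrix ι ι F) := (fun s => (B : Matrix ι ι F) * s * P) '' matrixSet N
  have hP1 : P * (B : Matrix ι ι F) = 1 := by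
    show ((B⁻¹ : GL ι F) : Matrix ι ι F) * _ = 1
    rw [← Units.val_mul, inv_mul_cancel, Units.val_one]
  have hP2 : (B : Matrix ι ι F) * P = 1 := by
    show _ * ((B⁻¹ : GL ι F) : Matrix ι ι F) = 1
    rw [← Units.val_mul, mul_inv_cancel, Units.val_one]
  have hSabs : ActsAbsolutelyIrreducibly S := by
    refine ⟨fun W hW => ?_, fun M hM => ?_⟩
    · let W' : Submodule F (ι → F) := W.comap (Matrix.toLin' (B : Matrix ι ι F))
      have hW'inv : ∀ g ∈ N, ∀ v ∈ W', act g v ∈ W' := by
        intro g hg v hv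
        simp only [W', Submodule.mem_comap, Matrix.toLin'_apply] at hv ⊢
        have h1 := hW _ ⟨_, coe_mem_matrixSet hg, rfl⟩ ⟨_, hv, rfl⟩
        rw [Matrix.toLin'_apply, Matrix.mulVec_mulVec, Matrix.mul_assoc _ P, hP1, Matrix.mul_one,
          ← Matrix.mulVec_mulVec] at h1
        exact h1
      rcases actsIrreducibly_iff.mp hN.1 W' hW'inv with hb | ht
      · refine Or.inl ((Submodule.eq_bot_iff _).mpr fun v hv => ?_)
        have h2 : act B⁻¹ v ∈ W' := by
          show Matrix.toLin' (B : Matrix ι ι F) (act B⁻¹ v) ∈ W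
          rw [Matrix.toLin'_apply]
          show act B (act B⁻¹ v) ∈ W
          rw [act_act_inv]
          exact hv
        rw [hb, Submodule.mem_bot] at h2
        rw [← act_act_inv B v, h2]
        exact Matrix.mulVec_zero _
      · refine Or.inr (Submodule.eq_top_iff'.mpr fun v => ?_)
        have h2 : act B⁻¹ v ∈ W' := ht ▸ Submodule.mem_top
        simpa [W', Matrix.toLin'_apply, act, Matrix.mulVec_mulVec] using h2
    · obtain ⟨c, hc⟩ := hN.2 (P * M * (B : Matrix ι ι F)) (fun s hs => by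
        have h1 := hM _ ⟨s, hs, rfl⟩
        calc P * M * (B : Matrix ι ι F) * s
            = P * (M * ((B : Matrix ι ι F) * s * P)) * (B : Matrix ι ι F) := by
              simp only [Matrix.mul_assoc, hP1, Matrix.mul_one]
          _ = s * (P * M * (B : Matrix ι ι F)) := by
              rw [h1]; simp only [← Matrix.mul_assoc, hP1, Matrix.one_mul])
      refine ⟨c, ?_⟩
      calc M = (B : Matrix ι ι F) * (P * M * (B : Matrix ι ι F)) * P := by
            simp only [← Matrix.mul_assoc, hP2, Matrix.one_mul]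
            rw [Matrix.mul_assoc, hP2, Matrix.mul_one]
        _ = c • 1 := by rw [hc, Matrix.mul_smul, Matrix.mul_one, Matrix.smul_mul, hP2]
  have hSfix : FixesForm S f' := by
    rintro _ ⟨s, hs, rfl⟩ u v
    show f (P *ᵥ _) (P *ᵥ _) = f (P *ᵥ u) (P *ᵥ v)
    rw [Matrix.mulVec_mulVec, Matrix.mulVec_mulVec, ← Matrix.mul_assoc, ← Matrix.mul_assoc, hP1,
      Matrix.one_mul, ← Matrix.mulVec_mulVec, ← Matrix.mulVec_mulVec]
    exact hfix s hs _ _
  have hSfix' : FixesForm S f'' := by
    intro s hs u v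
    have hsK : ∀ i j, s i j ∈ K := by
      obtain ⟨s, hs', rfl⟩ := hs
      exact hB s hs'
    have h1 : gramMatrix f' = sᵀ * gramMatrix f' * s.map σ := by
      rw [← hf'.gram_transform]
      exact congrArg gramMatrix (funext₂ fun u v => (hSfix s hs u v).symm)
    have h2 : G.map τ = sᵀ * G.map τ * s.map σ := by
      have h3 := congrArg (fun M : Matrix ι ι F => M.map τ) h1
      simp only [Matrix.map_mul] at h3
      rw [Matrix.transpose_map] at h3
      rw [show s.map τ = s from Matrix.ext fun i j => (hτ _).mpr (hsK i j),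
        show (s.map σ).map τ = s.map σ from Matrix.ext fun i j => (hτ _).mpr (hσK _ (hsK i j))] at h3
      exact h3
    show (s *ᵥ u) ⬝ᵥ (G.map τ *ᵥ (σ ∘ (s *ᵥ v))) = u ⬝ᵥ (G.map τ *ᵥ (σ ∘ v))
    conv_rhs => rw [h2, Matrix.mul_assoc, ← Matrix.mulVec_mulVec, Matrix.dotProduct_mulVec,
      Matrix.vecMul_transpose, ← Matrix.mulVec_mulVec, ← map_mulVec_comp]
  obtain ⟨c, hc⟩ := form_unique hσ hf' hnd' hf'' hSabs (fun s hs => by
    obtain ⟨s, hs, rfl⟩ := hs
    exact (B.isUnit.mul (isUnit_of_mem_matrixSet hs)).mul (B⁻¹).isUnit) hSfix hSfix'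
  have hcG : ∀ i j, τ (G i j) = c * G i j := fun i j => by
    have := hc (Pi.single i 1) (Pi.single j 1)
    have h4 : f'' (Pi.single i 1) (Pi.single j 1) = τ (G i j) := by
      show (Pi.single i 1 : ι → F) ⬝ᵥ (G.map τ *ᵥ (σ ∘ Pi.single j 1)) = _
      rw [show σ ∘ (Pi.single j (1 : F) : ι → F) = Pi.single j 1 from
        funext fun l => by by_cases hl : l = j <;> simp [hl]]
      simp
    rwa [h4] at this
  obtain ⟨i₀, j₀, ha⟩ : ∃ i j, G i j ≠ 0 := by
    by_contra hall
    push Not at hall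
    exact (hf'.isUnit_det_gram hσ hnd').ne_zero (Matrix.det_eq_zero_of_row_eq_zero (Classical.arbitrary ι)
      fun j => hall _ j)
  have hc0 : c ≠ 0 := fun h0 => by
    have := hcG i₀ j₀
    rw [h0, zero_mul, map_eq_zero] at this
    exact ha this
  set a := G i₀ j₀
  have hG0 : ∀ i j, a⁻¹ * G i j ∈ K := fun i j => by
    rw [← hτ, map_mul, map_inv₀, show τ a = c * a from hcG i₀ j₀, hcG i j]
    field_simp
  refine ⟨a, ha, fun u v hu hv => ?_⟩
  show a⁻¹ * f' u v ∈ K
  rw [hf'.apply_eq, ← hG]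
  simp only [dotProduct, Matrix.mulVec, Finset.mul_sum]
  refine K.sum_mem fun i _ => K.sum_mem fun j _ => ?_
  have h5 := K.mul_mem (K.mul_mem (hu i) (hG0 i j)) (hσK _ (hv j))
  simp only [Function.comp_apply]
  convert h5 using 1
  ring

end CfsgLib.SmallDim
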