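import Cfsg.Agent.Lib.SmallDim.GeneralClifford
import Cfsg.Agent.Lib.SmallDim.Forms

/-!
# Tensor decompositions as members of the geometric classes
-/

set_option autoImplicit false

namespace CfsgLib.SmallDim

open scoped MatrixGroups Matrix Kronecker
open Cfsg.Geo

variable {ι : Type} [Fintype ι] [DecidableEq ι] {F : Type*} [Field F]

lemma tensorProductSubgroup_swap (n₁ n₂ : ℕ) (e : ι ≃ Fin n₁ × Fin n₂) (P : GL ι F) :
    tensorProductSubgroup n₁ n₂ e P ≤ tensorProductSubgroup n₂ n₁ (e.trans (Equiv.prodComm _ _)) P := by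
  rintro _ ⟨_, ⟨z, ⟨a, b, hz⟩, rfl⟩, rfl⟩
  refine ⟨_, ⟨glReindex (Equiv.prodComm (Fin n₁) (Fin n₂)) z, ⟨b, a, ?_⟩, rfl⟩, ?_⟩
  · ext ⟨i, k⟩ ⟨j, l⟩
    simp [glReindex, hz, mul_comm]
  · congr 1

/-- A tensor decomposition with two equal factors is a tensor-wreath decomposition. -/
lemma tensorProductSubgroup_le_wreath (m : ℕ) (e : ι ≃ Fin m × Fin m) (P : GL ι F) :
    tensorProductSubgroup m m e P ≤
      tensorWreathSubgroup m 2 (e.trans (piFinTwoEquiv fun _ => Fin m).symm) P := by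
  rintro _ ⟨_, ⟨z, ⟨a, b, hz⟩, rfl⟩, rfl⟩
  refine ⟨_, ⟨glReindex (piFinTwoEquiv fun _ => Fin m).symm z,
    Subgroup.subset_closure (Or.inl ⟨![a, b], fun x y => ?_⟩), rfl⟩, ?_⟩
  · rw [Fin.prod_univ_two]
    simp [glReindex, hz]
  · congr 1

/-- The determinant of a vector read as a `2 × 2` matrix. -/
def detQuad (v : Fin 2 × Fin 2 → F) : F := v (0, 0) * v (1, 1) - v (0, 1) * v (1, 0)

lemma detQuad_kronecker (a b : Matrix (Fin 2) (Fin 2) F) (v : Fin 2 × Fin 2 → F) :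
    detQuad ((a ⊗ₖ b) *ᵥ v) = a.det * b.det * detQuad v := by
  simp [detQuad, Matrix.mulVec, dotProduct, Fintype.sum_prod_type, Fin.sum_univ_two,
    Matrix.det_fin_two]
  ring

/-- The quadratic form on `ι → F` preserved by a `2 ⊗ 2` decomposition. -/
def tensorQuad (e : ι ≃ Fin 2 × Fin 2) (P : GL ι F) (v : ι → F) : F :=
  detQuad (fun x => act P⁻¹ v (e.symm x))

lemma tensorProductSubgroup_le_quad (e : ι ≃ Fin 2 × Fin 2) (P : GL ι F) :
    tensorProductSubgroup 2 2 e P ≤ quadSimilarityGroup (tensorQuad e P) := by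
  rintro _ ⟨_, ⟨z, ⟨a, b, hz⟩, rfl⟩, rfl⟩
  refine ⟨Matrix.GeneralLinearGroup.det a * Matrix.GeneralLinearGroup.det b, fun v => ?_⟩
  show tensorQuad e P (act (P * glReindex e.symm z * P⁻¹) v) = _
  simp only [tensorQuad, act_mul, act_inv_act]
  rw [show (fun x => act (glReindex e.symm z) (act P⁻¹ v) (e.symm x)) =
      ((a : Matrix _ _ F) ⊗ₖ (b : Matrix _ _ F)) *ᵥ fun x => act P⁻¹ v (e.symm x) from ?_]
  · simp only [detQuad_kronecker, Units.val_mul, Matrix.GeneralLinearGroup.val_det_apply]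
  · funext x
    simp only [act, glReindex, Units.coe_mapEquiv, 
      Matrix.mulVec, dotProduct]
    rw [← Equiv.sum_comp e.symm]
    simp [hz]

lemma polar_detQuad (u v : Fin 2 × Fin 2 → F) : QuadraticMap.polar detQuad u v =
    u (0, 0) * v (1, 1) + u (1, 1) * v (0, 0) - u (0, 1) * v (1, 0) - u (1, 0) * v (0, 1) := by
  simp [QuadraticMap.polar, detQuad]
  ring

lemma isNondegenerateQuadraticForm_tensorQuad (e : ι ≃ Fin 2 × Fin 2) (P : GL ι F) :
    IsNondegenerateQuadraticForm (tensorQuad e P) := by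
  let L : (ι → F) → (Fin 2 × Fin 2 → F) := fun v x => act P⁻¹ v (e.symm x)
  have hpol : ∀ u v, QuadraticMap.polar (tensorQuad e P) u v = QuadraticMap.polar detQuad (L u) (L v) := by
    intro u v
    simp only [QuadraticMap.polar, tensorQuad, L, act, Matrix.mulVec_add]
    rfl
  have hL : ∀ z, ∃ v, L v = z := fun z => ⟨act P (fun i => z (e i)), by
    funext x; simp only [L, act_inv_act, Equiv.apply_symm_apply]⟩
  refine ⟨fun c v => ?_, ⟨?_, ?_, ?_, ?_⟩, fun v hv => ?_⟩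
  · simp only [tensorQuad, detQuad, act, Matrix.mulVec_smul, Pi.smul_apply, smul_eq_mul]; ring
  · intro x y v; simp only [hpol, polar_detQuad, L, act, Matrix.mulVec_add, Pi.add_apply]; ring
  · intro c x v
    simp only [hpol, polar_detQuad, L, act, Matrix.mulVec_smul, Pi.smul_apply, smul_eq_mul]; ring
  · intro v x y; simp only [hpol, polar_detQuad, L, act, Matrix.mulVec_add, Pi.add_apply]; ring
  · intro c v x
    simp only [hpol, polar_detQuad, L, act, Matrix.mulVec_smul, Pi.smul_apply, smul_eq_mul]; ring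
  · obtain ⟨z, hz⟩ : ∃ z, L v z ≠ 0 := by
      by_contra h
      push Not at h
      refine act_ne_zero P⁻¹ hv (funext fun i => ?_)
      have h1 := h (e i)
      simp only [L, Equiv.symm_apply_apply] at h1
      exact h1
    obtain ⟨w, hw⟩ := hL (Pi.single (1 - z.1, 1 - z.2) 1)
    refine ⟨⟨w, ?_⟩, ⟨w, ?_⟩⟩ <;> rw [hpol, hw, polar_detQuad] <;>
    · obtain ⟨i, j⟩ := z
      fin_cases i <;> fin_cases j <;> simpa [Pi.single_apply] using hz

omit [Fintype ι] [DecidableEq ι] in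
lemma isSymplecticForm_polar_of_two_eq_zero (h2 : (2 : F) = 0) {Q : (ι → F) → F}
    (hQ : IsNondegenerateQuadraticForm Q) : IsSymplecticForm (QuadraticMap.polar Q) := by
  have hneg : ∀ x : F, -x = x := fun x => by linear_combination (-x) * h2
  refine ⟨hQ.polar_bilinear, fun v w => ?_, fun v => ?_, hQ.nondegenerate⟩
  · rw [hneg, QuadraticMap.polar, QuadraticMap.polar, add_comm]; ring
  · have h4 := hQ.smul 2 v
    rw [QuadraticMap.polar, ← two_smul F, h4, h2]
    linear_combination (-Q v) * h2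

variable [Fintype F]

/-- `InLinearClass` without the normalisers of symplectic-type groups (class 6). -/
def InLinearGeom (n : ℕ) (F : Type*) [Field F] [Fintype F] (M : Subgroup (GL (Fin n) F)) : Prop :=
  (∃ W : Submodule F (Fin n → F), W ≠ ⊥ ∧ W ≠ ⊤ ∧ M = subspaceStabilizer W) ∨
  (∃ (t m : ℕ) (D : Fin t → Submodule F (Fin n → F)), IsMDecomposition m D ∧ M = decompositionStabilizer D) ∨
  (∃ (r : ℕ) (K : Subalgebra F (Matrix (Fin n) (Fin n) F)), r.Prime ∧ IsFieldSubalgebra r K ∧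
      M = subalgebraNormalizer K) ∨
  (∃ (n₁ n₂ : ℕ) (e : Fin n ≃ Fin n₁ × Fin n₂) (P : GL (Fin n) F), 2 ≤ n₁ ∧ n₁ < n₂ ∧
      M = tensorProductSubgroup n₁ n₂ e P) ∨
  (∃ (F₀ : Subfield F) (r : ℕ) (P : GL (Fin n) F), r.Prime ∧ Fintype.card F = Nat.card F₀ ^ r ∧
      M = subfieldSubgroup F₀ P) ∨
  (∃ (m t : ℕ) (e : Fin n ≃ (Fin t → Fin m)) (P : GL (Fin n) F), 3 ≤ m ∧ 2 ≤ t ∧
      M = tensorWreathSubgroup m t e P) ∨
  (∃ f : (Fin n → F) → (Fin n → F) → F, IsSymplecticForm f ∧ Even n ∧ 4 ≤ n ∧ M = similarityGroup f) ∨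
  (∃ (σ : F ≃+* F) (f : (Fin n → F) → (Fin n → F) → F), IsUnitaryForm σ f ∧ 3 ≤ n ∧ M = similarityGroup f) ∨
  (∃ Q : (Fin n → F) → F, IsNondegenerateQuadraticForm Q ∧ Odd (Fintype.card F) ∧ 3 ≤ n ∧
      M = quadSimilarityGroup Q)

lemma InLinearGeom.inLinearClass {n : ℕ} {M : Subgroup (GL (Fin n) F)} (h : InLinearGeom n F M) :
    InLinearClass n F M := by
  rcases h with h | h | h | h | h | h | h | h | h
  exacts [Or.inl h, Or.inr (Or.inr (Or.inr (Or.inl h))), Or.inr (Or.inr (Or.inr (Or.inr (Or.inl h)))),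
    Or.inr (Or.inr (Or.inr (Or.inr (Or.inr (Or.inl h))))),
    Or.inr (Or.inr (Or.inr (Or.inr (Or.inr (Or.inr (Or.inl h)))))),
    Or.inr (Or.inr (Or.inr (Or.inr (Or.inr (Or.inr (Or.inr (Or.inr (Or.inl h)))))))),
    Or.inr (Or.inr (Or.inr (Or.inr (Or.inr (Or.inr (Or.inr (Or.inr (Or.inr (Or.inl h))))))))),
    Or.inr (Or.inr (Or.inr (Or.inr (Or.inr (Or.inr (Or.inr (Or.inr (Or.inr (Or.inr (Or.inl h)))))))))),
    Or.inr (Or.inr (Or.inr (Or.inr (Or.inr (Or.inr (Or.inr (Or.inr (Or.inr (Or.inr (Or.inr h))))))))))]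

/-- A tensor decomposition preserved by `H` puts `H` into one of the linear classes. -/
theorem inLinearGeom_of_tensor {n n₁ n₂ : ℕ} (h₁ : 2 ≤ n₁) (h₂ : 2 ≤ n₂)
    (e : Fin n ≃ Fin n₁ × Fin n₂) (P : GL (Fin n) F) :
    ∃ M, InLinearGeom n F M ∧ tensorProductSubgroup n₁ n₂ e P ≤ M := by
  rcases lt_trichotomy n₁ n₂ with h | rfl | h
  · exact ⟨_, Or.inr (Or.inr (Or.inr (Or.inl ⟨n₁, n₂, e, P, h₁, h, rfl⟩))), le_rfl⟩
  · by_cases h3 : 3 ≤ n₁
    · exact ⟨_, Or.inr (Or.inr (Or.inr (Or.inr (Or.inr (Or.inl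
        ⟨n₁, 2, _, P, h3, le_rfl, rfl⟩))))), tensorProductSubgroup_le_wreath n₁ e P⟩
    · obtain rfl : n₁ = 2 := by omega
      have hn : n = 4 := by simpa using Fintype.card_congr e
      have hQ := isNondegenerateQuadraticForm_tensorQuad e P
      by_cases hodd : Odd (Fintype.card F)
      · exact ⟨_, Or.inr (Or.inr (Or.inr (Or.inr (Or.inr (Or.inr (Or.inr (Or.inr
          ⟨_, hQ, hodd, by omega, rfl⟩))))))), tensorProductSubgroup_le_quad e P⟩
      · have h2 : (2 : F) = 0 := by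
          have h := FiniteField.even_card_iff_char_two (F := F)
          have hc : ringChar F = 2 := h.2 (Nat.even_iff.1 (Nat.not_odd_iff_even.1 hodd))
          have := ringChar.Nat.cast_ringChar (R := F)
          rw [hc] at this
          exact_mod_cast this
        exact ⟨_, Or.inr (Or.inr (Or.inr (Or.inr (Or.inr (Or.inr (Or.inl
          ⟨_, isSymplecticForm_polar_of_two_eq_zero h2 hQ, by rw [hn]; decide, by omega, rfl⟩)))))),
          (tensorProductSubgroup_le_quad e P).trans quadSimilarityGroup_le_polar⟩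
  · exact ⟨_, Or.inr (Or.inr (Or.inr (Or.inl ⟨n₂, n₁, _, P, h₂, h, rfl⟩))),
      tensorProductSubgroup_swap n₁ n₂ e P⟩

/-- Every non-scalar normal subgroup is absolutely irreducible, or `H` lies in a geometric class. -/
theorem absIrred_or_inLinearGeom {n : ℕ} {H N : Subgroup (GL (Fin n) F)}
    (hH : ActsIrreducibly (matrixSet H)) (hN : NormalIn N H) (hns : ¬ N ≤ scalars (Fin n) F) :
    ActsAbsolutelyIrreducibly (matrixSet N) ∨ ∃ M, InLinearGeom n F M ∧ H ≤ M := by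
  rcases clifford_cases hH hN hns with h | ⟨t, m, D, hD, hle⟩ | ⟨r, K, hr, hK, hle⟩ |
      ⟨n₁, n₂, e, P, hT⟩
  · exact Or.inl h
  · exact Or.inr ⟨_, Or.inr (Or.inl ⟨t, m, D, hD, rfl⟩), hle⟩
  · exact Or.inr ⟨_, Or.inr (Or.inr (Or.inl ⟨r, K, hr, hK, rfl⟩)), hle⟩
  · obtain ⟨M, hM, hle⟩ := inLinearGeom_of_tensor hT.two_le_left hT.two_le_right e P
    exact Or.inr ⟨M, hM, hT.le.trans hle⟩

end CfsgLib.SmallDim
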