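import Cfsg.Agent.Lib.SmallDim.UnitaryProper
import Cfsg.Agent.Lib.SmallDim.TensorClass
import Cfsg.Agent.Lib.SmallDim.FormSesqui

/-!
The special unitary group is contained in no stabiliser of a decomposition into larger subspaces and in no
stabiliser of a tensor decomposition.
-/

set_option autoImplicit false
set_option linter.style.haveILetI false

namespace CfsgLib.SmallDim

open scoped MatrixGroups Matrix Kronecker
open Cfsg.Geo

/-- A Kronecker product differing from the identity by a matrix of rank at most one is the identity. -/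
lemma kronecker_eq_one_add_vecMulVec {F : Type*} [Field F] {n₁ n₂ : ℕ} (h₁ : 2 ≤ n₁) (h₂ : 2 ≤ n₂)
    (a : Matrix (Fin n₁) (Fin n₁) F) (b : Matrix (Fin n₂) (Fin n₂) F) (ha : a.det ≠ 0) (hb : b.det ≠ 0)
    (u w : Fin n₁ × Fin n₂ → F) (h : a ⊗ₖ b = 1 + Matrix.vecMulVec u w) : a ⊗ₖ b = 1 := by
  have : Nontrivial (Fin n₁) := Fin.nontrivial_iff_two_le.2 h₁
  have : Nontrivial (Fin n₂) := Fin.nontrivial_iff_two_le.2 h₂
  have hent : ∀ i k j l, a i j * b k l = (if i = j ∧ k = l then 1 else 0) + u (i, k) * w (j, l) := by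
    intro i k j l
    have := congrFun (congrFun h (i, k)) (j, l)
    simpa [Matrix.vecMulVec_apply, Matrix.one_apply, Prod.mk.injEq] using this
  have hda : ∀ i j, i ≠ j → a i j = 0 := by
    intro i j hij
    have hm : a i j • b = Matrix.vecMulVec (fun k => u (i, k)) (fun l => w (j, l)) := by
      ext k l
      simp [Matrix.vecMulVec_apply, hent, hij]
    have := congrArg Matrix.det hm
    rw [Matrix.det_smul, Matrix.det_vecMulVec] at this
    exact pow_eq_zero_iff (by simp; omega) |>.1 ((mul_eq_zero.1 this).resolve_right hb)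
  have hdb : ∀ k l, k ≠ l → b k l = 0 := by
    intro k l hkl
    have hm : b k l • a = Matrix.vecMulVec (fun i => u (i, k)) (fun j => w (j, l)) := by
      ext i j
      simp [Matrix.vecMulVec_apply, mul_comm (b k l), hent, hkl]
    have := congrArg Matrix.det hm
    rw [Matrix.det_smul, Matrix.det_vecMulVec] at this
    exact pow_eq_zero_iff (by simp; omega) |>.1 ((mul_eq_zero.1 this).resolve_right ha)
  have hoff : ∀ p p', p ≠ p' → u p * w p' = 0 := by
    rintro ⟨i, k⟩ ⟨j, l⟩ hne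
    have h1 := hent i k j l
    have hcond : ¬ (i = j ∧ k = l) := fun hc => hne (by rw [hc.1, hc.2])
    rw [if_neg hcond, zero_add] at h1
    rw [← h1]
    rcases not_and_or.1 hcond with h' | h'
    · rw [hda i j h', zero_mul]
    · rw [hdb k l h', mul_zero]
  ext ⟨i, k⟩ ⟨j, l⟩
  rcases eq_or_ne ((i, k) : Fin n₁ × Fin n₂) (j, l) with he | he
  swap
  · rw [Matrix.one_apply_ne he, h, Matrix.add_apply, Matrix.one_apply_ne he, Matrix.vecMulVec_apply,
      hoff _ _ he, add_zero]
  obtain ⟨rfl, rfl⟩ := Prod.mk.injEq _ _ _ _ ▸ he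
  rw [Matrix.one_apply_eq, h, Matrix.add_apply, Matrix.one_apply_eq, Matrix.vecMulVec_apply, add_eq_left]
  by_contra hne
  obtain ⟨i', hi⟩ := exists_ne i
  obtain ⟨k', hk⟩ := exists_ne k
  have hz : ∀ p, p ≠ (i, k) → u p * w p = 0 := by
    intro p hp
    have h1 : u (i, k) ≠ 0 := left_ne_zero_of_mul hne
    rw [(mul_eq_zero.1 (hoff (i, k) p hp.symm)).resolve_left h1, mul_zero]
  have e0 := hent i k i k
  have e1 := hent i k' i k'
  have e2 := hent i' k i' k
  have e3 := hent i' k' i' k'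
  rw [hz (i, k') (by simp [hk])] at e1
  rw [hz (i', k) (by simp [hi])] at e2
  rw [hz (i', k') (by simp [hi])] at e3
  simp only [and_self, if_true, add_zero] at e0 e1 e2 e3
  apply hne
  linear_combination (-1 : F) * e0 + (a i i * b k k) * (-1 : F) * e3 + (a i' i' * b k k) * e1 + e2

variable {F : Type*} [Field F] [Fintype F] {n q : ℕ} {σ : F ≃+* F}

namespace UnitarySetup

lemma exists_mem_kerW (hu : UnitarySetup n q σ) (W : Submodule F (Fin n → F))
    (hW : 2 ≤ Module.finrank F W) (x : Fin n → F) :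
    ∃ y ∈ W, y ≠ 0 ∧ Cfsg.hermForm n F q y x = 0 := by
  let L : W →ₗ[F] F := (hu.sesqui.lf x).comp W.subtype
  have h1 := LinearMap.finrank_range_add_finrank_ker L
  have h2 := Submodule.finrank_le (LinearMap.range L)
  rw [Module.finrank_self] at h2
  obtain ⟨y, hy⟩ := (Module.finrank_pos_iff_exists_ne_zero (R := F) (M := LinearMap.ker L)).1
    (show 0 < Module.finrank F (LinearMap.ker L) by omega)
  exact ⟨(y : W), (y : W).2, fun h => hy (Subtype.ext (Subtype.ext h)), LinearMap.mem_ker.1 y.2⟩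

/-- A non-degenerate or arbitrary subspace of dimension at least two contains an isotropic vector. -/
lemma exists_isotropic (hu : UnitarySetup n q σ) (W : Submodule F (Fin n → F))
    (hW : 2 ≤ Module.finrank F W) : ∃ x ∈ W, x ≠ 0 ∧ Cfsg.hermForm n F q x x = 0 := by
  obtain ⟨x, hx, hx0⟩ := (Submodule.ne_bot_iff W).1 fun h => by rw [h, finrank_bot] at hW; omega
  by_cases hxx : Cfsg.hermForm n F q x x = 0
  · exact ⟨x, hx, hx0, hxx⟩
  obtain ⟨y, hy, hy0, hyx⟩ := hu.exists_mem_kerW W hW x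
  by_cases hyy : Cfsg.hermForm n F q y y = 0
  · exact ⟨y, hy, hy0, hyy⟩
  have hfix : σ (-Cfsg.hermForm n F q x x / Cfsg.hermForm n F q y y) =
      -Cfsg.hermForm n F q x x / Cfsg.hermForm n F q y y := by
    rw [map_div₀, map_neg, ← hu.herm, ← hu.herm]
  obtain ⟨a, ha, -⟩ := hu.exists_norm_avoid hfix (div_ne_zero (neg_ne_zero.2 hxx) hyy) ∅ (by simp)
  have hxy : Cfsg.hermForm n F q x y = 0 := hu.eq_zero_comm.1 hyx
  refine ⟨x + a • y, W.add_mem hx (W.smul_mem a hy), fun h => hxx ?_, ?_⟩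
  · have h2 : Cfsg.hermForm n F q (x + a • y) x = 0 := by rw [h, hu.herm_eq, zero_dotProduct]
    rwa [hu.sesqui.add_left, hu.sesqui.smul_left, hyx, mul_zero, add_zero] at h2
  · rw [hu.sesqui.add_left, hu.sesqui.add_right, hu.sesqui.add_right, hu.sesqui.smul_left, hu.sesqui.smul_left,
      hu.sesqui.smul_right, hu.sesqui.smul_right, hxy, hyx, RingEquiv.coe_toRingHom]
    field_simp at ha
    linear_combination ha

/-- The centre of a transvection fixing a decomposition into subspaces of dimension at least two lies in one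
of them. -/
lemma mem_block_of_utrans (hu : UnitarySetup n q σ) {t m : ℕ} {D : Fin t → Submodule F (Fin n → F)}
    (hD : IsMDecomposition m D) (hm : 2 ≤ m) {v : Fin n → F} (hv : Cfsg.hermForm n F q v v = 0) (hv0 : v ≠ 0)
    {c : F} (hc : c ≠ 0) (hle : hu.utrans hv c ∈ decompositionStabilizer D) : ∃ i, v ∈ D i := by
  obtain ⟨π, hπ⟩ := hle
  have hmv : ∀ i, ∀ x ∈ D i, act (hu.utrans hv c) x ∈ D (π i) := fun i x hx => by
    rw [← hπ i]; exact ⟨x, hx, Matrix.toLin'_apply _ _⟩
  have hfix : ∀ i, π i = i := by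
    intro i
    obtain ⟨x, hx, hx0, hxv⟩ := hu.exists_mem_kerW (D i) (by rw [hD.finrank_eq i]; omega) v
    by_contra hne
    apply hx0
    have h1 := hmv i x hx
    rw [hu.act_utrans, hxv, mul_zero, zero_smul, add_zero] at h1
    exact Submodule.disjoint_def.1 (hD.indep.pairwiseDisjoint (Ne.symm hne)) x hx h1
  obtain ⟨i, y, hy, hyv⟩ : ∃ i, ∃ y ∈ D i, Cfsg.hermForm n F q y v ≠ 0 := by
    by_contra hall
    push Not at hall
    obtain ⟨x, hx⟩ := (hu.isUnitary.nondegenerate v hv0).1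
    apply hx
    have hle' : iSup D ≤ LinearMap.ker (hu.sesqui.lf v) := iSup_le fun i y hy => hall i y hy
    exact hle' (hD.iSup_eq_top ▸ Submodule.mem_top)
  refine ⟨i, ?_⟩
  have h1 := hmv i y hy
  rw [hfix, hu.act_utrans] at h1
  have h2 := (D i).sub_mem h1 hy
  rw [add_sub_cancel_left] at h2
  have h3 := (D i).smul_mem (c * Cfsg.hermForm n F q y v)⁻¹ h2
  rwa [smul_smul, inv_mul_cancel₀ (mul_ne_zero hc hyv), one_smul] at h3

lemma not_le_decomposition_aux (hu : UnitarySetup n q σ) {t m : ℕ} {D : Fin t → Submodule F (Fin n → F)}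
    (hD : IsMDecomposition m D) (hm : 2 ≤ m) {i j : Fin t} (hij : i ≠ j) {x y : Fin n → F} (hx : x ∈ D i)
    (hy : y ∈ D j) (hx0 : x ≠ 0) (hy0 : y ≠ 0) (hiso : Cfsg.hermForm n F q (x + y) (x + y) = 0) :
    ¬ Cfsg.GU n F q ⊓ specialLinear (Fin n) F ≤ decompositionStabilizer D := by
  intro hle
  obtain ⟨c, hc0, hc, -⟩ := hu.exists_skew_avoid ∅ (by have := hu.two_le; simp; omega)
  have hv0 : x + y ≠ 0 := fun h => hx0 (Submodule.disjoint_def.1 (hD.indep.pairwiseDisjoint hij) x hx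
    (by rw [eq_neg_of_add_eq_zero_left h]; exact (D j).neg_mem hy))
  obtain ⟨k, hk⟩ := hu.mem_block_of_utrans hD hm hiso hv0 hc0 (hle (hu.utrans_mem hiso hc))
  have hdis : Disjoint (D k) (⨆ (l) (_ : l ≠ k), D l) := hD.indep k
  have hle1 : ∀ l, l ≠ k → D l ≤ ⨆ (l) (_ : l ≠ k), D l := fun l hl => le_iSup₂_of_le l hl le_rfl
  rcases eq_or_ne k i with rfl | hki
  · have h1 : y ∈ D k := by simpa using (D k).sub_mem hk hx
    exact hy0 (Submodule.disjoint_def.1 hdis y h1 (hle1 j hij.symm hy))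
  rcases eq_or_ne k j with rfl | hkj
  · have h1 : x ∈ D k := by simpa using (D k).sub_mem hk hy
    exact hx0 (Submodule.disjoint_def.1 hdis x h1 (hle1 i hij hx))
  exact hv0 (Submodule.disjoint_def.1 hdis _ hk
    ((⨆ (l) (_ : l ≠ k), D l).add_mem (hle1 i hki.symm hx) (hle1 j hkj.symm hy)))

theorem not_le_decomposition_of_two_le (hu : UnitarySetup n q σ) {t m : ℕ}
    {D : Fin t → Submodule F (Fin n → F)} (hD : IsNondegenerateMDecomposition (Cfsg.hermForm n F q) m D)
    (hm : 2 ≤ m) : ¬ Cfsg.GU n F q ⊓ specialLinear (Fin n) F ≤ decompositionStabilizer D := by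
  have ht := hD.decomp.two_le
  set i : Fin t := ⟨0, by omega⟩
  set j : Fin t := ⟨1, by omega⟩
  have hij : i ≠ j := by simp [i, j]
  obtain ⟨x, hx, hx0, hxx⟩ := hu.exists_isotropic (D i) (by rw [hD.decomp.finrank_eq]; omega)
  obtain ⟨y, hy, hy0, hyy⟩ := hu.exists_isotropic (D j) (by rw [hD.decomp.finrank_eq]; omega)
  refine hu.not_le_decomposition_aux hD.decomp hm hij hx hy hx0 hy0 ?_
  rw [hu.sesqui.add_left, hu.sesqui.add_right, hu.sesqui.add_right, hxx, hyy,
    hD.orthogonal i j hij x hx y hy, hD.orthogonal j i hij.symm y hy x hx]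
  simp

theorem not_le_decomposition_totallySingular (hu : UnitarySetup n q σ) {t m : ℕ}
    {D : Fin t → Submodule F (Fin n → F)} (hD : IsMDecomposition m D) (hm : 2 ≤ m)
    (hts : ∀ i, IsTotallySingularFor (Cfsg.hermForm n F q) (D i)) :
    ¬ Cfsg.GU n F q ⊓ specialLinear (Fin n) F ≤ decompositionStabilizer D := by
  have ht := hD.two_le
  set i : Fin t := ⟨0, by omega⟩
  set j : Fin t := ⟨1, by omega⟩
  have hij : i ≠ j := by simp [i, j]
  obtain ⟨x, hx, hx0⟩ := (Submodule.ne_bot_iff (D i)).1 fun h => by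
    have := hD.finrank_eq i; rw [h, finrank_bot] at this; omega
  obtain ⟨y, hy, hy0, hyx⟩ := hu.exists_mem_kerW (D j) (by rw [hD.finrank_eq]; omega) x
  refine hu.not_le_decomposition_aux hD hm hij hx hy hx0 hy0 ?_
  rw [hu.sesqui.add_left, hu.sesqui.add_right, hu.sesqui.add_right, hts i x hx x hx, hts j y hy y hy,
    hyx, hu.eq_zero_comm.1 hyx]
  simp

/-- A non-trivial transvection in the special unitary group. -/
lemma exists_utrans (hu : UnitarySetup n q σ) (hn : 2 ≤ n) :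
    ∃ (v : Fin n → F) (hv : Cfsg.hermForm n F q v v = 0) (c : F),
      σ c = -c ∧ hu.utrans hv c ≠ 1 := by
  obtain ⟨c, hc0, hc, -⟩ := hu.exists_skew_avoid ∅ (by have := hu.two_le; simp; omega)
  obtain ⟨a, ha, -⟩ := hu.exists_norm_neg_one ∅ (by simp)
  set i : Fin n := ⟨0, by omega⟩
  set j : Fin n := ⟨1, by omega⟩
  have hij : i ≠ j := by simp [i, j]
  refine ⟨_, hu.isotropic_pair hij ha, c, hc, fun h => ?_⟩
  have h1 : act (hu.utrans (hu.isotropic_pair hij ha) c) (Pi.single i 1) = Pi.single i 1 := by rw [h, act_one]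
  rw [hu.act_utrans, hu.sesqui.add_right, hu.herm_single, hu.herm_single, add_eq_left] at h1
  have h2 := congrFun h1 i
  simp [hij, hij.symm, hc0] at h2

theorem not_le_tensorProductSubgroup (hu : UnitarySetup n q σ) {n₁ n₂ : ℕ} (h₁ : 2 ≤ n₁) (h₂ : 2 ≤ n₂)
    (e : Fin n ≃ Fin n₁ × Fin n₂) (P : GL (Fin n) F) :
    ¬ Cfsg.GU n F q ⊓ specialLinear (Fin n) F ≤ tensorProductSubgroup n₁ n₂ e P := by
  intro hle
  have hn : 2 ≤ n := by
    have := Fintype.card_congr e
    simp only [Fintype.card_fin, Fintype.card_prod] at this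
    nlinarith
  obtain ⟨v, hv, c, hc, hne⟩ := hu.exists_utrans hn
  obtain ⟨_, ⟨z, ⟨a, b, hz⟩, rfl⟩, hzt⟩ := hle (hu.utrans_mem hv hc)
  set φ := c • (σ ∘ v)
  have hM : ((glReindex e.symm z : GL (Fin n) F) : Matrix (Fin n) (Fin n) F) =
      1 + Matrix.vecMulVec (((P⁻¹ : GL (Fin n) F) : Matrix _ _ F) *ᵥ v) (φ ᵥ* (P : Matrix _ _ F)) := by
    have h1 : glReindex e.symm z = P⁻¹ * hu.utrans hv c * P := by
      rw [← hzt]; simp [mul_assoc]
    rw [h1, Units.val_mul, Units.val_mul]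
    show _ * (1 + Matrix.vecMulVec v φ) * _ = _
    rw [Matrix.mul_add, Matrix.add_mul, Matrix.mul_one, ← Units.val_mul, inv_mul_cancel, Units.val_one,
      Matrix.mul_vecMulVec, Matrix.vecMulVec_mul]
  have hz' : (a : Matrix _ _ F) ⊗ₖ (b : Matrix _ _ F) = 1 + Matrix.vecMulVec
      ((((P⁻¹ : GL (Fin n) F) : Matrix _ _ F) *ᵥ v) ∘ e.symm) ((φ ᵥ* (P : Matrix _ _ F)) ∘ e.symm) := by
    rw [← hz]
    ext x y
    have := congrFun (congrFun hM (e.symm x)) (e.symm y)
    simpa [glReindex, Matrix.one_apply, Matrix.vecMulVec_apply] using this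
  have h1 := kronecker_eq_one_add_vecMulVec h₁ h₂ _ _ (Matrix.GeneralLinearGroup.det a).ne_zero
    (Matrix.GeneralLinearGroup.det b).ne_zero _ _ hz'
  apply hne
  rw [← hzt, show z = 1 from Units.ext (hz.trans h1)]
  simp

end UnitarySetup

end CfsgLib.SmallDim
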