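import Cfsg.Agent.Lib.SmallDim.UnitaryTwist
import Cfsg.Agent.Lib.SmallDim.FormSesqui

/-!
Subgroups of the unitary group normalising an absolutely irreducible group realised over a subfield.
-/

set_option autoImplicit false
set_option linter.style.haveILetI false

namespace CfsgLib.SmallDim

open scoped MatrixGroups Matrix
open Cfsg.Geo

variable {F : Type*} [Field F] [Fintype F] {n q : ℕ} {σ : F ≃+* F}

namespace UnitarySetup

/-- The characteristic is two exactly when `q` is even. -/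
lemma two_eq_zero_iff (hu : UnitarySetup n q σ) : (2 : F) = 0 ↔ ¬ Odd q := by
  obtain ⟨p, hchar⟩ := CharP.exists F
  obtain ⟨e, hp, hq⟩ := FiniteField.card F p
  haveI := Fact.mk hp
  obtain ⟨k, -, hk⟩ := (Nat.dvd_prime_pow hp).mp (show q ∣ p ^ (e : ℕ) from ⟨q, by rw [← hq, hu.card, sq]⟩)
  have hk0 : k ≠ 0 := by
    rintro rfl
    have := hu.two_le
    simp at hk; omega
  rw [show (2 : F) = ((2 : ℕ) : F) from by norm_num, CharP.cast_eq_zero_iff F p 2,
    Nat.prime_dvd_prime_iff_eq hp Nat.prime_two]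
  refine ⟨fun h => ?_, fun h => ?_⟩
  · subst h
    rw [hk, Nat.odd_pow_iff hk0]
    decide
  · by_contra h2
    exact h (hk ▸ (hp.odd_of_ne_two h2).pow)

/-- A subfield of odd prime index is moved by the involution. -/
lemma exists_moved (hu : UnitarySetup n q σ) {K : Subfield F} {r : ℕ} (hr : Odd r)
    (hcard : Fintype.card F = Nat.card K ^ r) : ∃ y ∈ K, σ y ≠ y := by
  by_contra hall
  push Not at hall
  obtain ⟨p, hchar⟩ := CharP.exists F
  obtain ⟨e, hp, hq⟩ := FiniteField.card F p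
  haveI := Fact.mk hp
  obtain ⟨d, hd0, -, hKcard, hKeq⟩ := exists_fixedField_eq hq K
  obtain ⟨k, hk⟩ : ∃ k, q = p ^ k := by
    obtain ⟨k, -, hk⟩ := (Nat.dvd_prime_pow hp).mp (show q ∣ p ^ (e : ℕ) from ⟨q, by rw [← hq, hu.card, sq]⟩)
    exact ⟨k, hk⟩
  have h2k : k * 2 = d * r := Nat.pow_right_injective hp.two_le
    (show p ^ (k * 2) = p ^ (d * r) by rw [pow_mul, ← hk, ← hu.card, hcard, hKcard, pow_mul])
  obtain ⟨d', hd'⟩ : 2 ∣ d :=
    (Nat.Coprime.dvd_mul_right (Nat.coprime_two_left.mpr hr)).mp ⟨k, by rw [← h2k, mul_comm]⟩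
  obtain ⟨s, hs⟩ := hr
  have hk' : k = d * s + d' := by
    rw [hd', hs] at h2k
    rw [hd']
    ring_nf at h2k ⊢
    omega
  have hle' : K ≤ fixedField p d' := by
    intro x hx
    rw [mem_fixedField]
    have h1 := hall x hx
    rw [hu.pow, hk, hk', pow_add, pow_mul x] at h1
    have h2 : x ^ p ^ (d * s) = x := by
      have hxd : x ^ p ^ d = x := mem_fixedField.mp (hKeq ▸ hx)
      clear * - hxd
      induction s with
      | zero => simp
      | succ s ih => rw [Nat.mul_succ, pow_add, pow_mul, ih, hxd]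
    rwa [h2] at h1
  have h3 : Nat.card K ≤ Nat.card (fixedField (F := F) p d') :=
    Nat.card_le_card_of_injective (fun x => ⟨x.1, hle' x.2⟩) fun a b hab => Subtype.ext (congrArg (·.1) hab)
  rw [hKcard, card_fixedField hq (by omega) ?_] at h3
  · exact absurd ((Nat.pow_le_pow_iff_right hp.one_lt).mp h3) (by omega)
  · refine ⟨2 * r, ?_⟩
    apply Nat.pow_right_injective hp.two_le
    show p ^ (e : ℕ) = p ^ _
    rw [← hq, hcard, hKcard, ← pow_mul, hd']
    ring_nf

/-- The subfield case in any dimension. -/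
theorem subfield_cases (hu : UnitarySetup n q σ) (hn : 2 ≤ n)
    {H N : Subgroup (GL (Fin n) F)} (hN : NormalIn N H) (hG : H ≤ Cfsg.GU n F q)
    (habs : ActsAbsolutelyIrreducibly (matrixSet N)) {K : Subfield F} (hK : K ≠ ⊤)
    (hreal : RealisableOver K (matrixSet N)) :
    (∃ (F₀ : Subfield F) (r : ℕ) (P : GL (Fin n) F), r.Prime ∧ Odd r ∧ Fintype.card F = Nat.card F₀ ^ r ∧
      IsFormRationalStructure (Cfsg.hermForm n F q) F₀ 1 P ∧ H ≤ subfieldSubgroup F₀ P) ∨
    (∃ (F₀ : Subfield F) (P : GL (Fin n) F) (ζ : F), Fintype.card F = Nat.card F₀ ^ 2 ∧ ζ ≠ 0 ∧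
      ζ + ζ ^ q = 0 ∧ IsFormRationalStructure (Cfsg.hermForm n F q) F₀ ζ P ∧
      (∀ u : Fin n → F, (∀ i, u i ∈ F₀) → Cfsg.hermForm n F q ((P : Matrix (Fin n) (Fin n) F) *ᵥ u)
        ((P : Matrix (Fin n) (Fin n) F) *ᵥ u) = 0) ∧
      H ≤ subfieldSubgroup F₀ P) ∨
    (Odd q ∧ ∃ (F₀ : Subfield F) (P : GL (Fin n) F), Fintype.card F = Nat.card F₀ ^ 2 ∧
      IsFormRationalStructure (Cfsg.hermForm n F q) F₀ 1 P ∧ H ≤ subfieldSubgroup F₀ P) := by
  classical
  haveI : Nonempty (Fin n) := ⟨⟨0, by omega⟩⟩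
  obtain ⟨B, hB₀⟩ := hreal
  obtain ⟨K₁, r, hr, hle, hcard⟩ := exists_prime_index_overfield hK
  have hB : ∀ s ∈ matrixSet N, ∀ i j, ((B : Matrix (Fin n) (Fin n) F) * s *
      ((B⁻¹ : GL (Fin n) F) : Matrix (Fin n) (Fin n) F)) i j ∈ K₁ := fun s hs i j => hle (hB₀ s hs i j)
  have hfixN : FixesForm (matrixSet N) (Cfsg.hermForm n F q) := by
    rintro _ ⟨g, hg, rfl⟩
    exact mem_GU.1 (hG (hN.le hg))
  obtain ⟨a, ha0, hrat⟩ := form_rational hu.sesqui hu.isUnitary.nondegenerate habs hfixN hB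
  set C : Matrix (Fin n) (Fin n) F := ((B⁻¹ : GL (Fin n) F) : Matrix (Fin n) (Fin n) F)
  set g : Fin n → Fin n → F := fun i j => Cfsg.hermForm n F q (C *ᵥ Pi.single i 1) (C *ᵥ Pi.single j 1)
  have hgK : ∀ i j, a⁻¹ * g i j ∈ K₁ := by
    intro i j
    refine hrat _ _ (fun l => ?_) (fun l => ?_) <;>
    · rw [Pi.single_apply]; split <;> [exact K₁.one_mem; exact K₁.zero_mem]
  have hgherm : ∀ i j, σ (g i j) = g j i := fun i j => (hu.herm _ _).symm
  have hσK : ∀ x ∈ K₁, σ x ∈ K₁ := fun x hx => by rw [hu.pow]; exact K₁.pow_mem hx q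
  have hform : ∀ u v : Fin n → F, Cfsg.hermForm n F q (C *ᵥ u) (C *ᵥ v) =
      ∑ i, ∑ j, u i * (g i j * σ (v j)) := by
    intro u v
    rw [(hu.sesqui.transform C).apply_eq u v]
    simp only [dotProduct, Matrix.mulVec, Finset.mul_sum, gramMatrix, Function.comp_apply, RingEquiv.coe_toRingHom]
    rfl
  obtain ⟨i₀, j₀, hg0⟩ : ∃ i j, g i j ≠ 0 := by
    by_contra hall
    push Not at hall
    obtain ⟨x, hx⟩ := (hu.isUnitary.nondegenerate (C *ᵥ Pi.single ⟨0, by omega⟩ 1)
      (act_ne_zero B⁻¹ (by simp))).1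
    apply hx
    rw [show x = C *ᵥ act B x from (act_inv_act B x).symm, hform]
    simp [hall]
  set ρ := σ a / a
  have hρK : ρ ∈ K₁ := by
    have h1 : ρ = (a⁻¹ * g j₀ i₀) / σ (a⁻¹ * g i₀ j₀) := by
      simp only [ρ, map_mul, map_inv₀, hgherm]
      have hg0' : g j₀ i₀ ≠ 0 := by rw [← hgherm]; exact (map_ne_zero σ).2 hg0
      have := (map_ne_zero σ).2 ha0
      field_simp
    rw [h1]
    exact K₁.div_mem (hgK _ _) (hσK _ (hgK _ _))
  have hρσ : ρ * σ ρ = 1 := by
    simp only [ρ, map_div₀, hu.invol]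
    field_simp [ha0, (map_ne_zero σ).mpr ha0]
  have hρ0 : ρ ≠ 0 := left_ne_zero_of_mul_eq_one hρσ
  -- a scaled structure carrying the form itself
  have hscale : ∀ η ∈ K₁, η ≠ 0 → σ (a / η) = a / η →
      ∃ P : GL (Fin n) F, IsFormRationalStructure (Cfsg.hermForm n F q) K₁ 1 P ∧ H ≤ subfieldSubgroup K₁ P ∧
        ∀ u, Cfsg.hermForm n F q (C *ᵥ u) (C *ᵥ u) = 0 →
          Cfsg.hermForm n F q ((P : Matrix (Fin n) (Fin n) F) *ᵥ u) ((P : Matrix (Fin n) (Fin n) F) *ᵥ u) = 0 := by
    intro η hηK hη0 hη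
    obtain ⟨μ, hμ, -⟩ := hu.exists_norm_avoid hη (div_ne_zero ha0 hη0) ∅ (by simp)
    have hμ0 : μ ≠ 0 := fun h => div_ne_zero ha0 hη0 (by rw [← hμ, h, zero_mul])
    set z : GL (Fin n) F := Units.map (Matrix.scalar (Fin n) : F →+* Matrix (Fin n) (Fin n) F).toMonoidHom
      (Units.mk0 μ hμ0)
    have hzs : z ∈ scalars (Fin n) F := scalar_mem_scalars _
    have hzC : (((z * B)⁻¹ : GL (Fin n) F) : Matrix (Fin n) (Fin n) F) = μ⁻¹ • C := by
      rw [mul_inv_rev, Units.val_mul, show ((z⁻¹ : GL (Fin n) F) : Matrix (Fin n) (Fin n) F) = μ⁻¹ • 1 from by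
        rw [show z⁻¹ = Units.map (Matrix.scalar (Fin n) : F →+* Matrix (Fin n) (Fin n) F).toMonoidHom
          (Units.mk0 μ hμ0)⁻¹ from (map_inv _ _).symm]
        simp [Matrix.smul_one_eq_diagonal], Matrix.mul_smul, Matrix.mul_one]
    refine ⟨(z * B)⁻¹, fun u v hu' hv => ?_, le_subfieldSubgroup hN habs ?_, fun u h0 => ?_⟩
    · rw [one_mul, hzC, Matrix.smul_mulVec, Matrix.smul_mulVec, hu.sesqui.smul_left, hu.sesqui.smul_right,
        RingEquiv.coe_toRingHom, map_inv₀, ← mul_assoc, ← mul_inv, hμ, hform]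
      simp only [Finset.mul_sum]
      refine K₁.sum_mem fun i _ => K₁.sum_mem fun j _ => ?_
      rw [show (a / η)⁻¹ * (u i * (g i j * σ (v j))) = u i * (a⁻¹ * g i j * η) * σ (v j) by
        field_simp]
      exact K₁.mul_mem (K₁.mul_mem (hu' i) (K₁.mul_mem (hgK i j) hηK)) (hσK _ (hv j))
    · rintro _ ⟨x, hx, rfl⟩ i j
      rw [← Units.val_mul, ← Units.val_mul, show z * B * x * (z * B)⁻¹ = z * (B * x * B⁻¹) * z⁻¹ by group,
        scalars_commute hzs, mul_inv_cancel_right, Units.val_mul, Units.val_mul]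
      exact hB _ ⟨x, hx, rfl⟩ i j
    · rw [hzC, Matrix.smul_mulVec, hu.sesqui.smul_left, hu.sesqui.smul_right, h0, mul_zero, mul_zero]
  rcases eq_or_ne r 2 with hr2 | hr2
  swap
  · have hrodd : Odd r := hr.odd_of_ne_two hr2
    obtain ⟨y, hy, hyσ⟩ := hu.exists_moved hrodd hcard
    obtain ⟨b, hbK, hb⟩ : ∃ b ∈ K₁, b + σ b / ρ ≠ 0 := by
      by_contra hall
      push Not at hall
      have h1 := hall 1 K₁.one_mem
      rw [map_one] at h1
      have h2 := hall y hy
      apply hyσ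
      have e1 : ρ + 1 = ρ * (1 + 1 / ρ) := by rw [mul_add, mul_one, mul_div_cancel₀ _ hρ0]
      have e2 : ρ * y + σ y = ρ * (y + σ y / ρ) := by rw [mul_add, mul_div_cancel₀ _ hρ0]
      rw [h1, mul_zero] at e1
      rw [h2, mul_zero] at e2
      linear_combination e2 - y * e1
    have hση : σ (b + σ b / ρ) = ρ * (b + σ b / ρ) := by
      rw [map_add, map_div₀, hu.invol, show σ ρ = ρ⁻¹ from (eq_inv_of_mul_eq_one_right hρσ)]
      field_simp
      ring
    obtain ⟨P, hP1, hP2, -⟩ := hscale _ (K₁.add_mem hbK (K₁.div_mem (hσK b hbK) hρK)) hb (by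
      rw [map_div₀, hση, show σ a = ρ * a by simp only [ρ]; field_simp, mul_div_mul_left _ _ hρ0])
    exact Or.inl ⟨K₁, r, P, hr, hrodd, hcard, hP1, hP2⟩
  subst hr2
  have hKq : Nat.card K₁ = q := Nat.pow_left_injective two_ne_zero (hcard.symm.trans hu.card)
  have hfix : ∀ x ∈ K₁, σ x = x := fun x hx => by
    have h := FiniteField.pow_card (⟨x, hx⟩ : K₁)
    rw [← Nat.card_eq_fintype_card, hKq] at h
    rw [hu.pow]; exact congrArg Subtype.val h
  rw [hfix ρ hρK] at hρσ
  by_cases hodd : Odd q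
  · rcases mul_self_eq_one_iff.mp hρσ with h | h
    · obtain ⟨P, hP1, hP2, -⟩ := hscale 1 K₁.one_mem one_ne_zero (by
        rw [div_one]; exact (div_eq_one_iff_eq ha0).mp h)
      exact Or.inr (Or.inr ⟨hodd, K₁, P, hcard, hP1, hP2⟩)
    · have hσa : σ a = -a := by
        have : σ a = ρ * a := by simp only [ρ]; field_simp
        rw [this, h, neg_one_mul]
      have hσi : σ a⁻¹ = -a⁻¹ := by rw [map_inv₀, hσa, inv_neg]
      have hskew : ∀ i j, g j i = -g i j := by
        intro i j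
        have h1 := hfix _ (hgK i j)
        rw [map_mul, hσi, hgherm, neg_mul, ← mul_neg] at h1
        rw [← mul_left_cancel₀ (inv_ne_zero ha0) h1, neg_neg]
      have hdiag : ∀ i, g i i = 0 := by
        intro i
        have h1 : (2 : F) * g i i = 0 := by linear_combination hskew i i
        exact (mul_eq_zero.1 h1).resolve_left fun h2 => hu.two_eq_zero_iff.1 h2 hodd
      refine Or.inr (Or.inl ⟨K₁, B⁻¹, a⁻¹, hcard, inv_ne_zero ha0, by rw [← hu.pow, hσi, add_neg_cancel],
        hrat, fun u hu' => ?_, le_subfieldSubgroup hN habs hB⟩)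
      rw [hform]
      have h2 := dotProduct_mulVec_self_of_alt (M := Matrix.of g) hskew hdiag u
      simp only [dotProduct, Matrix.mulVec, Finset.mul_sum, Matrix.of_apply] at h2
      refine Eq.trans (Finset.sum_congr rfl fun i _ => Finset.sum_congr rfl fun j _ => ?_) h2
      rw [hfix _ (hu' j)]
  -- characteristic two
  have h2 : (2 : F) = 0 := hu.two_eq_zero_iff.2 hodd
  have hρ1 : ρ = 1 := by
    rcases mul_self_eq_one_iff.mp hρσ with h | h
    · exact h
    · rw [h]; linear_combination (-1 : F) * h2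
  have hσa : σ a = a := (div_eq_one_iff_eq ha0).mp hρ1
  have hgfix : ∀ i j, σ (g i j) = g i j := fun i j => by
    have h1 := hfix _ (hgK i j)
    rw [map_mul, map_inv₀, hσa] at h1
    exact mul_left_cancel₀ (inv_ne_zero ha0) h1
  have hskew : ∀ i j, g j i = -g i j := fun i j => by
    rw [← hgherm, hgfix]; linear_combination g i j * h2
  haveI : CharP F 2 := by
    obtain ⟨p, hchar⟩ := CharP.exists F
    obtain ⟨e, hp, -⟩ := FiniteField.card F p
    have h3 : ((2 : ℕ) : F) = 0 := by exact_mod_cast h2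
    obtain rfl := (Nat.prime_dvd_prime_iff_eq hp Nat.prime_two).1 ((CharP.cast_eq_zero_iff F p 2).1 h3)
    exact hchar
  -- the square root of the diagonal is a fixed covector
  choose s hs using fun i => (FiniteField.isSquare_of_char_two (ringChar.eq F 2) (g i i))
  have hdiag : ∀ i, g i i = 0 := by
    suffices hs0 : s = 0 from fun i => by rw [hs i, hs0]; simp
    let L : (Fin n → F) →ₗ[F] F :=
      { toFun := fun v => s ⬝ᵥ ((B : Matrix (Fin n) (Fin n) F) *ᵥ v)
        map_add' := fun x y => by simp [Matrix.mulVec_add, dotProduct_add]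
        map_smul' := fun c x => by simp [Matrix.mulVec_smul, dotProduct_smul] }
    have hquad : ∀ u : Fin n → F, (∀ i, u i ∈ K₁) →
        Cfsg.hermForm n F q (C *ᵥ u) (C *ᵥ u) = (s ⬝ᵥ u) ^ 2 := by
      intro u hu'
      rw [hform, dotProduct, CharTwo.sum_sq]
      have h4 := dotProduct_mulVec_self_of_alt (M := Matrix.of fun i j => if i = j then 0 else g i j)
        (fun i j => by
          simp only [Matrix.of_apply]
          rcases eq_or_ne i j with rfl | hij
          · simp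
          · rw [if_neg hij, if_neg hij.symm, hskew])
        (fun i => by simp) u
      simp only [dotProduct, Matrix.mulVec, Finset.mul_sum, Matrix.of_apply] at h4
      calc ∑ i, ∑ j, u i * (g i j * σ (u j))
          = ∑ i, ∑ j, ((if i = j then (s i * u i) ^ 2 else 0) + u i * ((if i = j then 0 else g i j) * u j)) := by
            refine Finset.sum_congr rfl fun i _ => Finset.sum_congr rfl fun j _ => ?_
            rw [hfix _ (hu' j)]
            rcases eq_or_ne i j with rfl | hij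
            · rw [if_pos rfl, if_pos rfl, hs]; ring
            · rw [if_neg hij, if_neg hij]; ring
        _ = _ := by
            simp only [Finset.sum_add_distrib, h4, add_zero, Finset.sum_ite_eq, Finset.mem_univ, if_true]
    have hinv : ∀ x ∈ N, ∀ v ∈ LinearMap.ker L, act x v ∈ LinearMap.ker L := by
      intro x hx v hv
      set A : Matrix (Fin n) (Fin n) F := (B : Matrix (Fin n) (Fin n) F) * (x : Matrix (Fin n) (Fin n) F) * C
      have hAK : ∀ i j, A i j ∈ K₁ := hB _ ⟨x, hx, rfl⟩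
      have hsA : s ᵥ* A = s := by
        funext j
        have hCA : C *ᵥ (A *ᵥ Pi.single j 1) = act x (C *ᵥ Pi.single j 1) := by
          simp only [A, act, Matrix.mulVec_mulVec, C, ← Units.val_mul]
          congr 2
          group
        have h5 := hquad (A *ᵥ Pi.single j 1) (fun i => by rw [Matrix.mulVec_single_one]; exact hAK i j)
        rw [hCA, mem_GU.1 (hG (hN.le hx))] at h5
        have h6 := hquad (Pi.single j 1) (fun i => by
          rw [Pi.single_apply]; split <;> [exact K₁.one_mem; exact K₁.zero_mem])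
        rw [h6, dotProduct_single, mul_one, Matrix.mulVec_single_one] at h5
        exact (CharTwo.sq_inj.1 h5).symm
      rw [LinearMap.mem_ker] at hv ⊢
      show s ⬝ᵥ ((B : Matrix (Fin n) (Fin n) F) *ᵥ act x v) = 0
      have e1 : (B : Matrix (Fin n) (Fin n) F) *ᵥ act x v = A *ᵥ ((B : Matrix (Fin n) (Fin n) F) *ᵥ v) := by
        simp only [A, act, Matrix.mulVec_mulVec, C, ← Units.val_mul]
        congr 2
        group
      rw [e1, Matrix.dotProduct_mulVec, hsA]
      exact hv
    rcases actsIrreducibly_iff.1 habs.1 _ hinv with h | h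
    · exfalso
      have h7 := LinearMap.finrank_range_add_finrank_ker L
      have h8 := Submodule.finrank_le (LinearMap.range L)
      rw [h, finrank_bot, Module.finrank_fin_fun] at h7
      rw [Module.finrank_self] at h8
      omega
    · funext i
      have h9 := LinearMap.mem_ker.1 (h ▸ Submodule.mem_top : act B⁻¹ (Pi.single i 1) ∈ LinearMap.ker L)
      change s ⬝ᵥ act B (act B⁻¹ (Pi.single i 1)) = 0 at h9
      rw [act_act_inv, dotProduct_single, mul_one] at h9
      exact h9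
  obtain ⟨P, hP1, hP2, hP3⟩ := hscale 1 K₁.one_mem one_ne_zero (by rw [div_one, hσa])
  refine Or.inr (Or.inl ⟨K₁, P, 1, hcard, one_ne_zero, by rw [one_pow]; linear_combination h2, hP1,
    fun u hu' => hP3 u ?_, hP2⟩)
  rw [hform]
  have h4 := dotProduct_mulVec_self_of_alt (M := Matrix.of g) hskew hdiag u
  simp only [dotProduct, Matrix.mulVec, Finset.mul_sum, Matrix.of_apply] at h4
  refine Eq.trans (Finset.sum_congr rfl fun i _ => Finset.sum_congr rfl fun j _ => ?_) h4
  rw [hfix _ (hu' j)]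

end UnitarySetup

end CfsgLib.SmallDim
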