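import Cfsg.Agent.Lib.SmallDim.UnitarySplit
import Cfsg.Agent.Lib.SmallDim.UnitarySubfield
import Cfsg.Agent.Lib.SmallDim.UnitaryProperGeneral
import Cfsg.Agent.Lib.SmallDim.GenericCases
import Cfsg.Agent.Lib.SmallDim.BilinearDescent
import Cfsg.Agent.Lib.SmallDim.LinearPrime

/-!
Maximal subgroups of special unitary groups in dimension at least four, form-compatible version of
Aschbacher's theorem.
-/

set_option autoImplicit false
set_option linter.style.haveILetI false

namespace CfsgLib.SmallDim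

open scoped MatrixGroups Matrix commutatorElement
open Cfsg.Geo

section Multipliers

variable {ι : Type} [Fintype ι] [DecidableEq ι] {F : Type*} [Field F]

/-- The isometries of a two-argument form, as a subgroup. -/
def formIsometries (b : (ι → F) → (ι → F) → F) : Subgroup (GL ι F) where
  carrier := {g | ∀ u v, b (act g u) (act g v) = b u v}
  mul_mem' {x y} hx hy u v := by rw [act_mul, act_mul, hx, hy]
  one_mem' u v := by rw [act_one, act_one]
  inv_mem' {x} hx u v := by rw [← hx, act_act_inv, act_act_inv]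

lemma mem_formIsometries {b : (ι → F) → (ι → F) → F} {g : GL ι F} :
    g ∈ formIsometries b ↔ ∀ u v, b (act g u) (act g v) = b u v := Iff.rfl

/-- A perfect group of similitudes consists of isometries. -/
lemma fixesForm_of_perfect {b : (ι → F) → (ι → F) → F} {N : Subgroup (GL ι F)}
    (hN : N ≤ similarityGroup b) (hperf : ⁅N, N⁆ = N) : FixesForm (matrixSet N) b := by
  have hle : ⁅N, N⁆ ≤ formIsometries b := by
    rw [Subgroup.commutator_le]
    intro x hx y hy
    obtain ⟨c, hc⟩ := hN hx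
    obtain ⟨d, hd⟩ := hN hy
    rw [mem_formIsometries]
    intro u v
    have hi : ∀ (z : GL ι F) (e : Fˣ), (∀ u v, b (act z u) (act z v) = (e : F) * b u v) →
        ∀ u v, b (act z⁻¹ u) (act z⁻¹ v) = ((e⁻¹ : Fˣ) : F) * b u v := by
      intro z e he u v
      have h := he (act z⁻¹ u) (act z⁻¹ v)
      rw [act_act_inv, act_act_inv] at h
      rw [h, ← mul_assoc, Units.val_inv_eq_inv_val, inv_mul_cancel₀ e.ne_zero, one_mul]
    rw [commutatorElement_def, act_mul, act_mul, act_mul, act_mul, act_mul, act_mul]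
    have h1 := hc (act y (act x⁻¹ (act y⁻¹ u))) (act y (act x⁻¹ (act y⁻¹ v)))
    have h2 := hd (act x⁻¹ (act y⁻¹ u)) (act x⁻¹ (act y⁻¹ v))
    have h3 := hi x c hc (act y⁻¹ u) (act y⁻¹ v)
    have h4 := hi y d hd u v
    rw [h1]
    show (c : F) * b (act y _) (act y _) = _
    rw [show b (act y (act x⁻¹ (act y⁻¹ u))) (act y (act x⁻¹ (act y⁻¹ v))) = _ from h2, h3, h4]
    simp only [Units.val_inv_eq_inv_val]
    field_simp
  rintro _ ⟨g, hg, rfl⟩
  exact hle (hperf.symm ▸ hg)

omit [DecidableEq ι] in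
/-- The members of a decomposition fill the space. -/
lemma mdecomposition_card {t m : ℕ} {D : Fin t → Submodule F (ι → F)} (hD : IsMDecomposition m D) :
    t * m = Fintype.card ι := by
  classical
  have h : DirectSum.IsInternal D :=
    DirectSum.isInternal_submodule_of_iSupIndep_of_iSup_eq_top hD.indep hD.iSup_eq_top
  let b := h.collectedBasis fun i => Module.finBasis F (D i)
  have h1 := Module.finrank_eq_card_basis b
  rw [Module.finrank_fintype_fun_eq_card, Fintype.card_sigma] at h1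
  simpa [hD.finrank_eq] using h1.symm

end Multipliers

variable {F : Type*} [Field F] [Fintype F] {n q : ℕ} {σ : F ≃+* F}

namespace UnitarySetup

/-- An absolutely irreducible group of isometries of the Hermitian form and of a bilinear form is realised
over the fixed field. -/
theorem realisable_of_bilinear_any (hu : UnitarySetup n q σ) (hn : 0 < n) {P : Subgroup (GL (Fin n) F)}
    (hG : P ≤ Cfsg.GU n F q) (habs : ActsAbsolutelyIrreducibly (matrixSet P))
    {b : (Fin n → F) → (Fin n → F) → F} (hb : IsBilinearForm b) (hnd : IsNondegenerateForm b)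
    (hfix : FixesForm (matrixSet P) b) : ∃ K : Subfield F, K ≠ ⊤ ∧ RealisableOver K (matrixSet P) := by
  classical
  haveI : Nonempty (Fin n) := ⟨⟨0, hn⟩⟩
  obtain ⟨K, hK, -⟩ := hu.exists_fixed
  refine ⟨K, fun h => hu.isUnitary.ne_refl (RingEquiv.ext fun x => (hK x).mp (h ▸ Subfield.mem_top x)),
    realisableOver_of_trace habs fun g hg => (hK _).2 ?_⟩
  have hS := IsSesqui.of_bilinear hb
  set M := gramMatrix b
  have hMdet := hS.isUnit_det_gram Function.surjective_id hnd
  set X : Matrix (Fin n) (Fin n) F := (g : Matrix (Fin n) (Fin n) F)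
  have h1 : Xᵀ * M * X = M := by
    have := hS.gram_transform X
    rw [show (fun u v => b (X *ᵥ u) (X *ᵥ v)) = b from funext₂ (hfix _ (coe_mem_matrixSet hg))] at this
    rw [show X.map (RingHom.id F) = X from Matrix.ext fun _ _ => rfl] at this
    exact this.symm
  have h2 : X.map σ * Xᵀ = 1 := mul_eq_one_comm.mp (hu.transpose_mul (hG hg))
  have h3 : X.map σ * M = M * X := by
    calc X.map σ * M = X.map σ * (Xᵀ * M * X) := by rw [h1]
      _ = M * X := by rw [← Matrix.mul_assoc, ← Matrix.mul_assoc, h2, Matrix.one_mul]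
  have h4 : X.map σ = M * X * M⁻¹ := by
    rw [← h3, Matrix.mul_assoc, Matrix.mul_nonsing_inv _ hMdet, Matrix.mul_one]
  rw [show σ X.trace = (X.map σ).trace by simp [Matrix.trace, map_sum], h4, Matrix.trace_mul_comm,
    ← Matrix.mul_assoc, Matrix.nonsing_inv_mul _ hMdet, Matrix.one_mul]

/-- Maximal subgroups of `SU` in dimension at least four. -/
theorem unitary_general (hu : UnitarySetup n q σ) (hn : 4 ≤ n) {H : Subgroup (GL (Fin n) F)}
    (hH : IsMaximalIn (Cfsg.GU n F q ⊓ specialLinear (Fin n) F) H) :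
    (∃ W : Submodule F (Fin n → F), W ≠ ⊥ ∧ IsTotallySingularFor (Cfsg.hermForm n F q) W ∧
      H = subspaceStabilizer W ⊓ (Cfsg.GU n F q ⊓ specialLinear (Fin n) F)) ∨
    (∃ W : Submodule F (Fin n → F), W ≠ ⊥ ∧ IsNondegenerateOn (Cfsg.hermForm n F q) W ∧
      2 * Module.finrank F W < n ∧ H = subspaceStabilizer W ⊓ (Cfsg.GU n F q ⊓ specialLinear (Fin n) F)) ∨
    (∃ (t m : ℕ) (D : Fin t → Submodule F (Fin n → F)), t * m = n ∧
      IsNondegenerateMDecomposition (Cfsg.hermForm n F q) m D ∧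
      H = decompositionStabilizer D ⊓ (Cfsg.GU n F q ⊓ specialLinear (Fin n) F)) ∨
    (∃ (m : ℕ) (D : Fin 2 → Submodule F (Fin n → F)), 2 * m = n ∧ IsMDecomposition m D ∧
      (∀ i, IsTotallySingularFor (Cfsg.hermForm n F q) (D i)) ∧
      H = decompositionStabilizer D ⊓ (Cfsg.GU n F q ⊓ specialLinear (Fin n) F)) ∨
    (∃ (r : ℕ) (K : Subalgebra F (Matrix (Fin n) (Fin n) F)), r.Prime ∧ Odd r ∧ r ∣ n ∧
      IsFieldSubalgebra r K ∧ IsAdjointClosedFor (Cfsg.hermForm n F q) K ∧
      H = subalgebraNormalizer K ⊓ (Cfsg.GU n F q ⊓ specialLinear (Fin n) F)) ∨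
    (∃ (n₁ n₂ : ℕ) (e : Fin n ≃ Fin n₁ × Fin n₂) (P : GL (Fin n) F), 2 ≤ n₁ ∧ n₁ ≤ n₂ ∧ n₁ * n₂ = n ∧
      P ∈ Cfsg.GU n F q ∧ H = tensorProductSubgroup n₁ n₂ e P ⊓ (Cfsg.GU n F q ⊓ specialLinear (Fin n) F)) ∨
    (∃ (F₀ : Subfield F) (r : ℕ) (P : GL (Fin n) F), r.Prime ∧ Odd r ∧ Fintype.card F = Nat.card F₀ ^ r ∧
      IsFormRationalStructure (Cfsg.hermForm n F q) F₀ 1 P ∧
      H = subfieldSubgroup F₀ P ⊓ (Cfsg.GU n F q ⊓ specialLinear (Fin n) F)) ∨
    (∃ (F₀ : Subfield F) (P : GL (Fin n) F) (ζ : F), Fintype.card F = Nat.card F₀ ^ 2 ∧ ζ ≠ 0 ∧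
      ζ + ζ ^ q = 0 ∧ IsFormRationalStructure (Cfsg.hermForm n F q) F₀ ζ P ∧
      (∀ u : Fin n → F, (∀ i, u i ∈ F₀) → Cfsg.hermForm n F q ((P : Matrix (Fin n) (Fin n) F) *ᵥ u)
        ((P : Matrix (Fin n) (Fin n) F) *ᵥ u) = 0) ∧
      H = subfieldSubgroup F₀ P ⊓ (Cfsg.GU n F q ⊓ specialLinear (Fin n) F)) ∨
    (Odd q ∧ ∃ (F₀ : Subfield F) (P : GL (Fin n) F), Fintype.card F = Nat.card F₀ ^ 2 ∧
      IsFormRationalStructure (Cfsg.hermForm n F q) F₀ 1 P ∧
      H = subfieldSubgroup F₀ P ⊓ (Cfsg.GU n F q ⊓ specialLinear (Fin n) F)) ∨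
    (∃ (R : Subgroup (GL (Fin n) F)) (r m : ℕ), SymplGen H R r m ∧ R ≤ Cfsg.GU n F q ∧
      ∀ K : Subfield F, K ≠ ⊤ → ¬ RealisableOver K (matrixSet R)) ∨
    (∃ (N : Subgroup (GL (Fin n) F)) (k : ℕ) (L : Fin k → Subgroup (GL (Fin n) F)) (m : ℕ)
      (e : Fin n ≃ (Fin k → Fin m)) (P : GL (Fin n) F), NormalIn N H ∧
      ActsAbsolutelyIrreducibly (matrixSet N) ∧ ⁅N, N⁆ = N ∧ InducedData H N k L ∧
      2 ≤ k ∧ 3 ≤ m ∧ m ^ k = n ∧ H ≤ tensorWreathSubgroup m k e P) ∨
    InUnitaryResidualClass H := by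
  classical
  haveI : Nonempty (Fin n) := ⟨⟨0, by omega⟩⟩
  have hcard : Fintype.card (Fin n) = n := Fintype.card_fin n
  have hG : H ≤ Cfsg.GU n F q := hH.1.le.trans inf_le_left
  have hfix := hu.fixes_of_le hG
  have htop : ∀ {F₀ : Subfield F} {r : ℕ}, 2 ≤ r → Fintype.card F = Nat.card F₀ ^ r → F₀ ≠ ⊤ := by
    rintro F₀ r hr h rfl
    rw [show Nat.card (⊤ : Subfield F) = Nat.card F from
      Nat.card_congr (Equiv.subtypeUnivEquiv fun x => Subfield.mem_top x), Nat.card_eq_fintype_card] at h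
    exact (lt_self_pow₀ Fintype.one_lt_card (by omega)).ne h
  have hdec : ∀ (t m : ℕ) (D : Fin t → Submodule F (Fin n → F)),
      IsNondegenerateMDecomposition (Cfsg.hermForm n F q) m D → H ≤ decompositionStabilizer D →
      t * m = n ∧ IsNondegenerateMDecomposition (Cfsg.hermForm n F q) m D ∧
      H = decompositionStabilizer D ⊓ (Cfsg.GU n F q ⊓ specialLinear (Fin n) F) := by
    intro t m D hD hle
    have htm : t * m = n := (mdecomposition_card hD.decomp).trans hcard
    refine ⟨htm, hD, IsMaximalIn.eq_inf hH hle ?_⟩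
    rcases (show m = 1 ∨ 2 ≤ m by have := hD.decomp.pos; omega) with rfl | hm
    · obtain rfl : t = n := by omega
      exact hu.not_le_decompositionStabilizer (by omega) (Or.inr hn) hD
    · exact hu.not_le_decomposition_of_two_le hD hm
  -- reducible
  by_cases hirr : ActsIrreducibly (matrixSet H)
  swap
  · rcases hu.reducible_split hG hirr with ⟨W, h0, h1, hle, hW | ⟨hW, hdim⟩⟩ | ⟨m, D, -, hD, hle⟩
    · exact Or.inl ⟨W, h0, hW, IsMaximalIn.eq_inf hH hle (hu.not_le_subspaceStabilizer (by omega) h0 h1)⟩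
    · exact Or.inr (Or.inl ⟨W, h0, hW, hdim,
        IsMaximalIn.eq_inf hH hle (hu.not_le_subspaceStabilizer (by omega) h0 h1)⟩)
    · exact Or.inr (Or.inr (Or.inl ⟨2, m, D, hdec _ _ D hD hle⟩))
  right; right
  -- a normal subgroup that is not absolutely irreducible
  by_cases habs : ∀ N, NormalIn N H → ¬ N ≤ scalars (Fin n) F → ActsAbsolutelyIrreducibly (matrixSet N)
  swap
  · push Not at habs
    obtain ⟨N, hN, hNs, hNa⟩ := habs
    rcases form_clifford hu.sesqui hu.reflexive hu.isUnitary.nondegenerate hirr hN hfix hNs with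
      h | ⟨t, m, D, hD, hle⟩ | ⟨t, m, D, τ, hD, hle, hτ, hττ, hts, horth⟩ | ⟨r, K, hr, hK, hadj, hle⟩ |
        ⟨n₁, n₂, e, P, hT⟩
    · exact absurd h hNa
    · exact Or.inl ⟨t, m, D, hdec t m D hD hle⟩
    · rcases hu.paired_split hG hD hle hτ hττ hts horth with ⟨D', hm, hD', hts', hle'⟩ | ⟨s, E, hE, hle'⟩
      · exact Or.inr (Or.inl ⟨m, D', hm, hD', hts',
          IsMaximalIn.eq_inf hH hle' (hu.not_le_decomposition_totallySingular hD' (by omega) hts')⟩)
      · exact Or.inl ⟨s, 2 * m, E, hdec _ _ E hE hle'⟩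
    · obtain ⟨hodd, hdvd⟩ := hu.field_degree (by omega) hr hK hadj
      exact Or.inr (Or.inr (Or.inl ⟨r, K, hr, hodd, hdvd, hK, hadj,
        IsMaximalIn.eq_inf hH hle (hu.not_le_subalgebraNormalizer (by omega) hr.two_le hK)⟩))
    · right; right; right; left
      obtain ⟨P', hP', hle⟩ := hu.tensor_factor hT (hN.le.trans hG)
      have hne : n₁ * n₂ = n := by simpa using (Fintype.card_congr e).symm
      rcases le_total n₁ n₂ with h12 | h12
      · exact ⟨n₁, n₂, e, P', hT.two_le_left, h12, hne, hP', IsMaximalIn.eq_inf hH hle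
          (hu.not_le_tensorProductSubgroup hT.two_le_left hT.two_le_right e P')⟩
      · exact ⟨n₂, n₁, e.trans (Equiv.prodComm _ _), P', hT.two_le_right, h12, by rwa [mul_comm], hP',
          IsMaximalIn.eq_inf hH (hle.trans (tensorProductSubgroup_swap _ _ e P'))
            (hu.not_le_tensorProductSubgroup hT.two_le_right hT.two_le_left _ P')⟩
  right; right; right; right
  -- realised over a subfield
  by_cases hsub : ∀ N, NormalIn N H → ¬ N ≤ scalars (Fin n) F →
      ∀ K : Subfield F, K ≠ ⊤ → ¬ RealisableOver K (matrixSet N)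
  swap
  · push Not at hsub
    obtain ⟨N, hN, hNs, K, hK, hreal⟩ := hsub
    rcases hu.subfield_cases (by omega) hN hG (habs N hN hNs) hK hreal with
      ⟨F₀, r, P, hr, hodd, hc, hform, hle⟩ | ⟨F₀, P, ζ, hc, hζ0, hζ, hform, hiso, hle⟩ |
        ⟨hq, F₀, P, hc, hform, hle⟩
    · exact Or.inl ⟨F₀, r, P, hr, hodd, hc, hform,
        IsMaximalIn.eq_inf hH hle (hu.not_le_subfieldSubgroup (by omega) (htop hr.two_le hc) P)⟩
    · exact Or.inr (Or.inl ⟨F₀, P, ζ, hc, hζ0, hζ, hform, hiso,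
        IsMaximalIn.eq_inf hH hle (hu.not_le_subfieldSubgroup (by omega) (htop le_rfl hc) P)⟩)
    · exact Or.inr (Or.inr (Or.inl ⟨hq, F₀, P, hc, hform,
        IsMaximalIn.eq_inf hH hle (hu.not_le_subfieldSubgroup (by omega) (htop le_rfl hc) P)⟩))
  right; right; right
  have hHs : ¬ H ≤ scalars (Fin n) F := not_le_scalars_of_irreducible (by rw [hcard]; omega) hirr
  rcases generic_cases (by rw [hcard]; omega) hHs habs hsub with ⟨R, r, m, hR⟩ | ⟨N, k, L, hN, hNa, hperf, hL⟩ |
      ⟨P, hP, hcore⟩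
  · exact Or.inl ⟨R, r, m, hR, hR.normal.le.trans hG,
      hsub R hR.normal (not_le_scalars_of_irreducible (by rw [hcard]; omega) hR.absIrred.1)⟩
  · right; left
    obtain ⟨m, e, P, hm, hle⟩ := le_tensorWreathSubgroup (H := H) hL.two_le hL.comm
      (hL.iSup_eq.symm ▸ hNa) hL.nonscalar hL.perm (fun i => (hL.trans i).imp fun h hh => hh.2 _ rfl)
    refine ⟨N, k, L, m, e, P, hN, hNa, hperf, hL, hL.two_le, ?_, by simpa using (Fintype.card_congr e).symm, hle⟩
    by_contra h3
    obtain rfl : m = 2 := by omega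
    have hk : 0 < k := by have := hL.two_le; omega
    obtain ⟨K, hK, hreal⟩ := hu.realisable_of_bilinear_any (by omega) (hN.le.trans hG) hNa
      (isBilinearForm_powForm e P) (isNondegenerateForm_powForm e P)
      (fixesForm_of_perfect ((hN.le.trans hle).trans (tensorWreathSubgroup_le_powForm e P)) hperf)
    exact hsub N hN (not_le_scalars_of_irreducible (by rw [hcard]; omega) hNa.1) K hK hreal
  · right; right
    have hPs : ¬ P ≤ scalars (Fin n) F := not_le_scalars_of_irreducible (by rw [hcard]; omega) hcore.absIrred.1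
    refine ⟨P, hcore, ?_, ?_⟩
    · rintro ⟨Q, hQ, hfixQ⟩
      obtain ⟨K, hK, hreal⟩ := hu.realisable_of_bilinear_any (by omega) (hP.le.trans hG) hcore.absIrred
        hQ.polar_bilinear hQ.nondegenerate (fixesForm_polar hfixQ)
      exact hsub P hP hPs K hK hreal
    · rintro ⟨f, hf, hfixf⟩
      obtain ⟨K, hK, hreal⟩ := hu.realisable_of_bilinear_any (by omega) (hP.le.trans hG) hcore.absIrred
        hf.bilinear hf.nondegenerate hfixf
      exact hsub P hP hPs K hK hreal

end UnitarySetup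

end CfsgLib.SmallDim
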