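import Cfsg.Agent.Lib.SmallDim.LinearStructure
import Cfsg.Agent.Lib.Geometric.LinearDecomp
import Cfsg.Agent.Lib.Geometric.LinearTensor

/-!
# `SL` lies in no member of the geometric classes
-/

set_option autoImplicit false
set_option linter.style.haveILetI false

namespace CfsgLib.SmallDim

open scoped MatrixGroups Matrix Kronecker
open Cfsg.Geo

variable {ι : Type} [Fintype ι] [DecidableEq ι] {F : Type*} [Field F]

lemma not_sl_le_decompositionStabilizer' {t m : ℕ} {D : Fin t → Submodule F (ι → F)}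
    (hD : IsMDecomposition m D) : ¬ specialLinear ι F ≤ decompositionStabilizer D := fun h =>
  (Geometric.Decomp.stab_lt hD).ne (inf_eq_right.2 h)

/-- The degree of a field of matrices divides the dimension. -/
lemma dvd_card_of_isFieldSubalgebra {r : ℕ} {K : Subalgebra F (Matrix ι ι F)} (hK : IsFieldSubalgebra r K) :
    r ∣ Fintype.card ι := by
  rcases isEmpty_or_nonempty ι with h | h
  · simp
  have hfield : IsField K :=
    { exists_pair_ne := ⟨0, 1, zero_ne_one⟩
      mul_comm := fun x y => Subtype.ext (hK.comm x x.2 y y.2)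
      mul_inv_cancel := fun {x} hx => by
        obtain ⟨y, hy, hxy⟩ := hK.inv x x.2 (fun h => hx (Subtype.ext h))
        exact ⟨⟨y, hy⟩, Subtype.ext hxy⟩ }
  letI : Field K := hfield.toField
  let f : K →ₐ[F] Module.End F (ι → F) := Matrix.toLinAlgEquiv'.toAlgHom.comp K.val
  letI : Module K (ι → F) := Module.compHom _ f.toRingHom
  have htower := IsScalarTower.of_algebraMap_smul (R := F) (A := K) (M := ι → F) fun a v => by
    change f (algebraMap F K a) v = a • v
    rw [f.commutes, Module.algebraMap_end_apply]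
  have h := @Module.finrank_mul_finrank F K (ι → F) _ _ _ Algebra.toModule _ _ htower _ _ _ _
  rw [hK.finrank_eq, Module.finrank_fintype_fun_eq_card] at h
  exact Dvd.intro _ h

lemma not_sl_le_tensorProductSubgroup {n₁ n₂ : ℕ} (h₁ : 2 ≤ n₁) (h₂ : 2 ≤ n₂)
    (e : ι ≃ Fin n₁ × Fin n₂) (P : GL ι F) :
    ¬ specialLinear ι F ≤ tensorProductSubgroup n₁ n₂ e P := by
  intro hle
  set i : ι := e.symm (⟨0, by omega⟩, ⟨0, by omega⟩)
  set j : ι := e.symm (⟨1, by omega⟩, ⟨1, by omega⟩)
  have hij : i ≠ j := by simp [i, j]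
  have hdot : (Pi.single j 1 : ι → F) ⬝ᵥ (Pi.single i 1) = 0 := by simp [hij]
  have ht : P * transvec _ _ hdot * P⁻¹ ∈ specialLinear ι F :=
    (MonoidHom.normal_ker _).conj_mem _ (transvec_mem_specialLinear _ _ hdot) P
  obtain ⟨_, ⟨z, ⟨a, b, hz⟩, rfl⟩, he⟩ := hle ht
  have he' : glReindex e.symm z = transvec _ _ hdot :=
    mul_left_cancel (mul_right_cancel he)
  have hval : ∀ x y, (a : Matrix (Fin n₁) (Fin n₁) F) x.1 y.1 * (b : Matrix (Fin n₂) (Fin n₂) F) x.2 y.2 =
      (transvec _ _ hdot : GL ι F).val (e.symm x) (e.symm y) := fun x y => by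
    rw [← he']
    show _ = (glReindex e.symm z).val (e.symm x) (e.symm y)
    simp [glReindex, hz]
  have h00 := hval (⟨0, by omega⟩, ⟨0, by omega⟩) (⟨0, by omega⟩, ⟨0, by omega⟩)
  have h11 := hval (⟨0, by omega⟩, ⟨0, by omega⟩) (⟨1, by omega⟩, ⟨1, by omega⟩)
  have h01 := hval (⟨0, by omega⟩, ⟨0, by omega⟩) (⟨0, by omega⟩, ⟨1, by omega⟩)
  simp [transvec, Matrix.vecMulVec_apply, i, j] at h00 h11 h01
  rcases h01 with h | h
  · rw [h, zero_mul] at h00; exact zero_ne_one h00
  · rw [h, mul_zero] at h11; exact zero_ne_one h11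

/-- A product of functions of the single coordinates. -/
def pureVec {k m : ℕ} (u : Fin k → Fin m → F) (x : Fin k → Fin m) : F := ∏ i, u i (x i)

lemma preservesPure_of_mem_standard [Finite F] {k m : ℕ} {z : GL (Fin k → Fin m) F}
    (hz : z ∈ tensorWreathStandard m k F) :
    ∀ u : Fin k → Fin m → F, ∃ u', (z : Matrix (Fin k → Fin m) (Fin k → Fin m) F) *ᵥ pureVec u = pureVec u' := by
  induction hz using Subgroup.closure_induction with
  | mem z hz =>
    intro u
    rcases hz with ⟨gs, hgs⟩ | ⟨σ, hσ⟩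
    · refine ⟨fun i => (gs i : Matrix (Fin m) (Fin m) F) *ᵥ u i, funext fun x => ?_⟩
      simp only [Matrix.mulVec, dotProduct, pureVec, hgs, ← Finset.prod_mul_distrib]
      exact (Fintype.prod_sum fun i a => (gs i : Matrix (Fin m) (Fin m) F) (x i) a * u i a).symm
    · refine ⟨fun i => u (σ.symm i), funext fun x => ?_⟩
      simp only [Matrix.mulVec, dotProduct, hσ]
      rw [Finset.sum_eq_single (x ∘ σ) (fun w _ hw => by simp [hw]) (fun h => absurd (Finset.mem_univ _) h)]
      simp only [if_true, one_mul, pureVec, Function.comp_apply]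
      rw [← Equiv.prod_comp σ (fun i => u (σ.symm i) (x i))]
      simp
  | one => exact fun u => ⟨u, by simp⟩
  | mul a b _ _ ha hb =>
    intro u
    obtain ⟨u', hu'⟩ := hb u
    obtain ⟨u'', hu''⟩ := ha u'
    exact ⟨u'', by rw [Units.val_mul, ← Matrix.mulVec_mulVec, hu', hu'']⟩
  | inv a _ ha =>
    intro u
    let f : Set.range (pureVec (F := F) (k := k) (m := m)) → Set.range (pureVec (F := F) (k := k) (m := m)) :=
      fun v => ⟨(a : Matrix _ _ F) *ᵥ v.1, by obtain ⟨w, hw⟩ := v.2; obtain ⟨u', hu'⟩ := ha w; exact ⟨u', by rw [← hu', hw]⟩⟩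
    have hf : Function.Injective f := fun v w h =>
      Subtype.ext ((Geometric.ap_injective a) (congrArg Subtype.val h))
    obtain ⟨⟨_, ⟨u', rfl⟩⟩, hu'⟩ := (Finite.injective_iff_surjective.1 hf) ⟨_, u, rfl⟩
    refine ⟨u', ?_⟩
    have h := congrArg Subtype.val hu'
    simp only [f] at h
    rw [← h]
    simp [Matrix.mulVec_mulVec]

lemma not_sl_le_tensorWreathSubgroup [Finite F] {m k : ℕ} (hm : 2 ≤ m) (hk : 2 ≤ k)
    (e : ι ≃ (Fin k → Fin m)) (P : GL ι F) : ¬ specialLinear ι F ≤ tensorWreathSubgroup m k e P := by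
  intro hle
  let c0 : Fin k → Fin m := fun _ => ⟨0, by omega⟩
  let c1 : Fin k → Fin m := fun _ => ⟨1, by omega⟩
  have hne : c0 ≠ c1 := fun h => by simpa [c0, c1] using congrFun h ⟨0, by omega⟩
  have hdot : (Pi.single (e.symm c0) 1 : ι → F) ⬝ᵥ (Pi.single (e.symm c1) 1) = 0 := by simp [Ne.symm hne]
  have ht : P * transvec _ _ hdot * P⁻¹ ∈ specialLinear ι F :=
    (MonoidHom.normal_ker _).conj_mem _ (transvec_mem_specialLinear _ _ hdot) P
  obtain ⟨_, ⟨z, hz, rfl⟩, he⟩ := hle ht
  have he' : glReindex e.symm z = transvec _ _ hdot :=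
    mul_left_cancel (mul_right_cancel he)
  let u : Fin k → Fin m → F := fun _ => Pi.single ⟨0, by omega⟩ 1
  have hu : pureVec u = Pi.single c0 1 := by
    funext x
    by_cases hx : x = c0
    · subst hx; simp [pureVec, u, c0]
    · obtain ⟨i, hi⟩ := Function.ne_iff.1 hx
      rw [Pi.single_eq_of_ne hx, pureVec, Finset.prod_eq_zero (Finset.mem_univ i)]
      exact Pi.single_eq_of_ne hi _
  obtain ⟨u', hu'⟩ := preservesPure_of_mem_standard hz u
  rw [hu, Matrix.mulVec_single_one] at hu'
  have hval : ∀ x, pureVec u' x = (transvec _ _ hdot : GL ι F).val (e.symm x) (e.symm c0) := fun x => by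
    rw [← he', ← hu']
    show _ = (glReindex e.symm z).val (e.symm x) (e.symm c0)
    simp [glReindex]
  let i0 : Fin k := ⟨0, by omega⟩
  let d : Fin k → Fin m := Function.update c0 i0 ⟨1, by omega⟩
  have h0 := hval c0
  have h1 := hval c1
  have h2 := hval d
  have hd0 : d ≠ c0 := fun h => by simpa [d, c0] using congrFun h i0
  have hd1 : d ≠ c1 := fun h => by
    have := congrFun h ⟨1, by omega⟩
    simp [d, c0, c1, i0] at this
  simp [transvec, Matrix.vecMulVec_apply, hne, Ne.symm hne, hd0, hd1] at h0 h1 h2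
  obtain ⟨i, -, hi⟩ := Finset.prod_eq_zero_iff.1 h2
  by_cases hii : i = i0
  · subst hii
    have : pureVec u' c1 = 0 := Finset.prod_eq_zero (Finset.mem_univ i0) (by simpa [d, c1] using hi)
    rw [h1] at this; exact one_ne_zero this
  · have : pureVec u' c0 = 0 := Finset.prod_eq_zero (Finset.mem_univ i) (by simpa [d, hii] using hi)
    rw [h0] at this; exact one_ne_zero this

/-- A non-scalar `r`-group, `r` prime to the characteristic, is not normalised by `SL`. -/
lemma not_sl_le_subgroupNormalizer_of_pGroup [Finite F] {r p : ℕ} (hr : r.Prime) [hchar : CharP F p]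
    (hp : p.Prime) (hrp : r ≠ p) (hn : 4 ≤ Fintype.card ι) {R : Subgroup (GL ι F)} (hR : IsPGroup r R)
    (hns : ¬ R ≤ scalars ι F) : ¬ specialLinear ι F ≤ subgroupNormalizer R := by
  intro hle
  haveI : Nonempty ι := Fintype.card_pos_iff.mp (by omega)
  obtain ⟨x, hx, hxs⟩ := SetLike.not_le_iff_exists.1 hns
  obtain ⟨w, hw⟩ : ∃ w : ι → F, act x w ∉ F ∙ w := by
    by_contra hall
    push Not at hall
    apply hxs
    obtain ⟨a, ha⟩ := LinearMap.exists_eq_smul_id_of_forall_notLinearIndependent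
      (f := Matrix.toLin' (x : Matrix ι ι F)) (fun v h => by
        obtain ⟨c, hc⟩ := Submodule.mem_span_singleton.1 (hall v)
        rw [linearIndependent_fin2] at h
        by_cases hc0 : c = 0
        · exact h.1 (by simp [Matrix.toLin'_apply, ← hc, hc0])
        · refine h.2 c⁻¹ ?_
          simp [Matrix.toLin'_apply, ← hc, smul_smul, inv_mul_cancel₀ hc0])
    exact mem_scalars_of_act a fun v => by
      have := LinearMap.congr_fun ha v
      simpa [act] using this
  have hw0 : w ≠ 0 := fun h => hw (by simp [h, act])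
  obtain ⟨φ, hφ0, hφ⟩ : ∃ φ : (ι → F) →ₗ[F] F, φ ≠ 0 ∧
      ∀ v ∈ Submodule.span F ({w, act x w, act x⁻¹ w} : Set (ι → F)), φ v = 0 := by
    obtain ⟨v, hv⟩ : ∃ v, v ∉ Submodule.span F ({w, act x w, act x⁻¹ w} : Set (ι → F)) := by
      by_contra hall
      push Not at hall
      classical
      have h1 := finrank_span_finset_le_card (R := F) ({w, act x w, act x⁻¹ w} : Finset (ι → F))
      have h2 : Submodule.span F ({w, act x w, act x⁻¹ w} : Set (ι → F)) = ⊤ := eq_top_iff.2 fun v _ => hall v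
      have h3 := Finset.card_le_three (a := w) (b := act x w) (c := act x⁻¹ w)
      rw [Set.finrank, Finset.coe_insert, Finset.coe_insert, Finset.coe_singleton, h2, finrank_top,
        Module.finrank_fintype_fun_eq_card] at h1
      omega
    obtain ⟨φ, hφ, hφv⟩ := Geometric.exists_functional_eq_one hv
    exact ⟨φ, fun h => by simp [h] at hφv, hφ⟩
  have hφw : φ w = 0 := hφ w (Submodule.subset_span (by simp))
  have hφx : φ (act x w) = 0 := hφ _ (Submodule.subset_span (by simp))
  have hφx' : φ (act x⁻¹ w) = 0 := hφ _ (Submodule.subset_span (by simp))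
  set t := Geometric.tv w φ hφw
  let φ' : (ι → F) →ₗ[F] F := φ.comp (Matrix.toLin' ((x⁻¹ : GL ι F) : Matrix ι ι F))
  have hφ' : φ' (act x w) = 0 := by
    show φ (act x⁻¹ (act x w)) = 0
    rw [act_inv_act, hφw]
  have hφ'w : φ' w = 0 := hφx'
  have hconj : x * t⁻¹ * x⁻¹ = (Geometric.tv (act x w) φ' hφ')⁻¹ := by
    rw [eq_inv_iff_mul_eq_one]
    apply Geometric.gl_ext
    intro v
    have h1 : x * t * x⁻¹ = Geometric.tv (act x w) φ' hφ' := by
      apply Geometric.gl_ext
      intro v
      rw [Geometric.ap_mul, Geometric.ap_mul, Geometric.ap_tv, Geometric.ap_tv, Geometric.ap_add,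
        Geometric.ap_ap_inv, Geometric.ap_smul]
      rfl
    rw [← h1]
    simp [mul_assoc]
  set t' := Geometric.tv (act x w) φ' hφ'
  have hcomm : Commute t t' := by
    apply Geometric.gl_ext
    intro v
    simp only [t, t', Geometric.ap_mul, Geometric.ap_tv, map_add, map_smul, hφx, hφ'w, smul_zero, add_zero]
    abel
  set y := t * x * t⁻¹ * x⁻¹
  have hy : y ∈ R := R.mul_mem ((Subgroup.mem_normalizer_iff.1
    (hle (Geometric.tv_mem_specialLinear w φ hφw)) x).1 hx) (R.inv_mem hx)
  have hy' : y = t * t'⁻¹ := by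
    rw [show y = t * (x * t⁻¹ * x⁻¹) by simp [y, mul_assoc], hconj]
  have hpow : ∀ (v : ι → F) (ψ : (ι → F) →ₗ[F] F) (h : ψ v = 0), Geometric.tv v ψ h ^ p = 1 := by
    intro v ψ h
    apply Geometric.gl_ext
    intro u
    have : ∀ k : ℕ, Geometric.ap (Geometric.tv v ψ h ^ k) u = u + (k : F) • (ψ u • v) := by
      intro k
      induction k with
      | zero => simp
      | succ k ih =>
        rw [pow_succ', Geometric.ap_mul, ih, Geometric.ap_tv, map_add, map_smul, map_smul, h]
        simp [add_smul]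
        abel
    rw [this, CharP.cast_eq_zero, zero_smul, add_zero, Geometric.ap_one]
  have hy1 : y ^ p = 1 := by
    rw [hy', (hcomm.inv_right).mul_pow, inv_pow, hpow, hpow, inv_one, one_mul]
  obtain ⟨k, hk⟩ := hR ⟨y, hy⟩
  have hk' : y ^ r ^ k = 1 := congrArg Subtype.val hk
  have : y = 1 := by
    have hg := pow_gcd_eq_one.2 ⟨hy1, hk'⟩
    rwa [(Nat.Coprime.pow_right k ((Nat.coprime_primes hp hr).2 (Ne.symm hrp))).gcd_eq_one, pow_one] at hg
  rw [hy', mul_inv_eq_one] at this
  obtain ⟨u, hu⟩ : ∃ u, φ u ≠ 0 := by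
    by_contra hall
    push Not at hall
    exact hφ0 (LinearMap.ext hall)
  have h4 := congrArg (fun g => Geometric.ap g u) this
  simp only [t, t', Geometric.ap_tv, add_right_inj] at h4
  apply hw
  by_cases hc : φ' u = 0
  · rw [hc, zero_smul, smul_eq_zero] at h4
    exact absurd (h4.resolve_left hu) hw0
  · rw [← inv_smul_smul₀ hc (act x w), ← h4]
    exact Submodule.smul_mem _ _ (Submodule.smul_mem _ _ (Submodule.mem_span_singleton_self w))

end CfsgLib.SmallDim
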