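import Cfsg.Agent.Lib.SmallDim.TensorClass
import Cfsg.Agent.Lib.SmallDim.TensorInduced

/-!
# Tensor powers of a two-dimensional space carry a form
-/

set_option autoImplicit false

namespace CfsgLib.SmallDim

open scoped MatrixGroups Matrix
open Cfsg.Geo

variable {ι : Type} [Fintype ι] [DecidableEq ι] {F : Type*} [Field F]

/-- The Gram matrix of the determinant form in dimension two. -/
def detGram : Matrix (Fin 2) (Fin 2) F := !![0, 1; -1, 0]

lemma transpose_mul_detGram_mul (a : Matrix (Fin 2) (Fin 2) F) :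
    aᵀ * detGram * a = a.det • detGram := by
  rw [Matrix.det_fin_two]
  ext i j
  fin_cases i <;> fin_cases j <;>
    simp [detGram, Matrix.mul_apply, Fin.sum_univ_two] <;> ring

/-- The Gram matrix of the tensor power of the determinant form. -/
def powGram (k : ℕ) : Matrix (Fin k → Fin 2) (Fin k → Fin 2) F := pureMat fun _ => detGram

lemma pureMat_transpose {k m : ℕ} (f : Fin k → Matrix (Fin m) (Fin m) F) :
    (pureMat f)ᵀ = pureMat fun i => (f i)ᵀ := rfl

lemma pureMat_smul {k m : ℕ} (c : Fin k → F) (f : Fin k → Matrix (Fin m) (Fin m) F) :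
    pureMat (fun i => c i • f i) = (∏ i, c i) • pureMat f := by
  ext x y
  simp [pureMat, Finset.prod_mul_distrib]

lemma powGram_transpose (k : ℕ) : (powGram k : Matrix (Fin k → Fin 2) (Fin k → Fin 2) F)ᵀ = (-1 : F) ^ k • powGram k := by
  rw [powGram, pureMat_transpose, show (fun _ : Fin k => (detGram : Matrix (Fin 2) (Fin 2) F)ᵀ) =
    fun _ => (-1 : F) • detGram from funext fun _ => by
      ext i j; fin_cases i <;> fin_cases j <;> simp [detGram], pureMat_smul]
  simp

lemma powGram_mul_self (k : ℕ) :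
    powGram k * powGram k = ((-1 : F) ^ k) • (1 : Matrix (Fin k → Fin 2) (Fin k → Fin 2) F) := by
  rw [powGram, ← pureMat_mul, show ((fun _ : Fin k => (detGram : Matrix (Fin 2) (Fin 2) F)) *
    fun _ => detGram) = fun _ => (-1 : F) • 1 from funext fun _ => by
      ext i j; fin_cases i <;> fin_cases j <;> simp [detGram, Matrix.mul_apply, Fin.sum_univ_two],
    pureMat_smul]
  simp only [Finset.prod_const, Finset.card_univ, Fintype.card_fin]
  exact congrArg _ pureMat_one

/-- The form on `ι → F` attached to a decomposition into two-dimensional tensor factors. -/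
def powForm {k : ℕ} (e : ι ≃ (Fin k → Fin 2)) (P : GL ι F) (u v : ι → F) : F :=
  (fun x => act P⁻¹ u (e.symm x)) ⬝ᵥ powGram k *ᵥ (fun x => act P⁻¹ v (e.symm x))

lemma isBilinearForm_powForm {k : ℕ} (e : ι ≃ (Fin k → Fin 2)) (P : GL ι F) :
    IsBilinearForm (powForm e P) := by
  refine ⟨fun x y v => ?_, fun c x v => ?_, fun v x y => ?_, fun c v x => ?_⟩
  · rw [powForm, powForm, powForm, ← add_dotProduct]; congr 1; funext z
    simp [act, Matrix.mulVec_add]
  · rw [powForm, powForm, ← smul_eq_mul, ← smul_dotProduct]; congr 1; funext z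
    simp [act, Matrix.mulVec_smul]
  · rw [powForm, powForm, powForm, ← dotProduct_add, ← Matrix.mulVec_add]; congr 2; funext z
    simp [act, Matrix.mulVec_add]
  · rw [powForm, powForm, ← smul_eq_mul, ← dotProduct_smul, ← Matrix.mulVec_smul]; congr 2; funext z
    simp [act, Matrix.mulVec_smul]

lemma powForm_swap {k : ℕ} (e : ι ≃ (Fin k → Fin 2)) (P : GL ι F) (u v : ι → F) :
    powForm e P u v = (-1) ^ k * powForm e P v u := by
  rw [powForm, powForm, Matrix.dotProduct_mulVec, ← Matrix.mulVec_transpose, powGram_transpose,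
    Matrix.smul_mulVec, smul_dotProduct, smul_eq_mul, dotProduct_comm]

lemma isNondegenerateForm_powForm {k : ℕ} (e : ι ≃ (Fin k → Fin 2)) (P : GL ι F) :
    IsNondegenerateForm (powForm e P) := by
  intro v hv
  have hne : powGram k *ᵥ (fun x => act P⁻¹ v (e.symm x)) ≠ 0 := by
    intro h
    apply act_ne_zero P⁻¹ hv
    have h2 := congrArg (powGram k *ᵥ ·) h
    simp only [Matrix.mulVec_mulVec, powGram_mul_self, Matrix.smul_mulVec, Matrix.one_mulVec,
      Matrix.mulVec_zero] at h2
    funext i
    have := congrFun h2 (e i)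
    simpa using this
  obtain ⟨z, hz⟩ := Function.ne_iff.1 hne
  obtain ⟨w, hw⟩ : ∃ w : ι → F, (fun x => act P⁻¹ w (e.symm x)) = Pi.single z 1 :=
    ⟨act P (fun i => (Pi.single z 1 : (Fin k → Fin 2) → F) (e i)), by
      funext x; simp only [act_inv_act, Equiv.apply_symm_apply]⟩
  have h1 : powForm e P w v ≠ 0 := by
    rw [powForm, hw, single_dotProduct, one_mul]; exact hz
  exact ⟨⟨w, h1⟩, ⟨w, fun h => h1 (by rw [powForm_swap, h, mul_zero])⟩⟩

lemma powForm_self {k : ℕ} (hk : (-1 : F) ^ k = -1) (hk0 : 0 < k) (e : ι ≃ (Fin k → Fin 2))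
    (P : GL ι F) (v : ι → F) : powForm e P v v = 0 := by
  rw [powForm]
  set w := fun x => act P⁻¹ v (e.symm x)
  simp only [dotProduct, Matrix.mulVec, Finset.mul_sum]
  rw [← Fintype.sum_prod_type']
  refine Finset.sum_involution (fun (q : (Fin k → Fin 2) × (Fin k → Fin 2)) _ => (q.2, q.1)) (fun q _ => ?_) (fun q _ hq => ?_)
    (fun q _ => Finset.mem_univ _) (fun q _ => rfl)
  · have := congrFun (congrFun (powGram_transpose (F := F) k) q.1) q.2
    rw [Matrix.transpose_apply, Matrix.smul_apply, hk, smul_eq_mul] at this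
    simp only
    rw [this]
    ring
  · intro heq
    apply hq
    have h : q.2 = q.1 := congrArg Prod.fst heq
    have : (powGram k : Matrix (Fin k → Fin 2) (Fin k → Fin 2) F) q.1 q.2 = 0 := by
      rw [h]
      refine Finset.prod_eq_zero (Finset.mem_univ (⟨0, hk0⟩ : Fin k)) ?_
      generalize q.1 (⟨0, hk0⟩ : Fin k) = i
      fin_cases i <;> simp [detGram]
    rw [this]; ring

lemma tensorWreathSubgroup_le_powForm {k : ℕ} (e : ι ≃ (Fin k → Fin 2)) (P : GL ι F) :
    tensorWreathSubgroup 2 k e P ≤ similarityGroup (powForm e P) := by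
  rintro _ ⟨_, ⟨z, hz, rfl⟩, rfl⟩
  -- the standard group scales the standard Gram matrix
  have hG : ∃ c : Fˣ, (z : Matrix (Fin k → Fin 2) (Fin k → Fin 2) F)ᵀ * powGram k * (z : Matrix (Fin k → Fin 2) (Fin k → Fin 2) F) = (c : F) • powGram k := by
    induction hz using Subgroup.closure_induction with
    | mem z hz =>
      rcases hz with ⟨gs, hgs⟩ | ⟨σ, hσ⟩
      · refine ⟨∏ i, Matrix.GeneralLinearGroup.det (gs i), ?_⟩
        rw [show (z : Matrix (Fin k → Fin 2) (Fin k → Fin 2) F) = pureMat fun i => (gs i : Matrix (Fin 2) (Fin 2) F) from Matrix.ext hgs,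
          pureMat_transpose, powGram, ← pureMat_mul, ← pureMat_mul, Units.coe_prod, ← pureMat_smul]
        congr 1
        funext i
        exact transpose_mul_detGram_mul _
      · refine ⟨1, ?_⟩
        have hz' : (z : Matrix (Fin k → Fin 2) (Fin k → Fin 2) F) = (factorPerm σ : GL (Fin k → Fin 2) F).val := Matrix.ext hσ
        have horth : (factorPerm σ : GL (Fin k → Fin 2) F).valᵀ * (factorPerm σ : GL (Fin k → Fin 2) F).val = 1 := by
          ext x y
          rw [Matrix.mul_apply, Finset.sum_eq_single (x ∘ σ.symm)]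
          · simp [factorPerm, Matrix.one_apply, Function.comp_assoc, eq_comm]
          · intro w _ hw
            have : x ≠ w ∘ σ := fun h => hw (by rw [h]; funext i; simp)
            simp [factorPerm, this]
          · exact fun h => absurd (Finset.mem_univ _) h
        have hcomm := factorPerm_mul_pureMat σ (fun _ : Fin k => (detGram : Matrix (Fin 2) (Fin 2) F))
        rw [hz', Units.val_one, one_smul, mul_assoc, powGram]
        erw [← hcomm]
        rw [← mul_assoc, horth, one_mul]
    | one => exact ⟨1, by simp⟩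
    | mul a b _ _ ha hb =>
      obtain ⟨c, hc⟩ := ha
      obtain ⟨d, hd⟩ := hb
      refine ⟨c * d, ?_⟩
      rw [Units.val_mul, Matrix.transpose_mul]
      generalize (a : Matrix (Fin k → Fin 2) (Fin k → Fin 2) F) = A at hc ⊢
      generalize (b : Matrix (Fin k → Fin 2) (Fin k → Fin 2) F) = B at hd ⊢
      calc Bᵀ * Aᵀ * powGram k * (A * B) = Bᵀ * (Aᵀ * powGram k * A) * B := by simp only [mul_assoc]
        _ = _ := by
          rw [hc, Matrix.mul_smul, Matrix.smul_mul, hd, smul_smul, Units.val_mul]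
    | inv a _ ha =>
      obtain ⟨c, hc⟩ := ha
      refine ⟨c⁻¹, ?_⟩
      have h1 := a.mul_inv
      generalize (a : Matrix (Fin k → Fin 2) (Fin k → Fin 2) F) = A at hc h1
      generalize ((a⁻¹ : GL (Fin k → Fin 2) F) : Matrix (Fin k → Fin 2) (Fin k → Fin 2) F) = B at h1 ⊢
      have := congrArg (fun X => Bᵀ * X * B) hc
      simp only [Matrix.mul_smul, Matrix.smul_mul] at this
      rw [show Bᵀ * (Aᵀ * powGram k * A) * B = (A * B)ᵀ * powGram k * (A * B) by
          simp only [Matrix.transpose_mul, mul_assoc],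
        h1, Matrix.transpose_one, one_mul, mul_one] at this
      rw [Units.val_inv_eq_inv_val, eq_inv_smul_iff₀ c.ne_zero]
      exact this.symm
  obtain ⟨c, hc⟩ := hG
  refine ⟨c, fun u v => ?_⟩
  show powForm e P (act (P * glReindex e.symm z * P⁻¹) u) (act (P * glReindex e.symm z * P⁻¹) v) = _
  have hL : ∀ w : ι → F, (fun x => act P⁻¹ (act (P * glReindex e.symm z * P⁻¹) w) (e.symm x)) =
      (z : Matrix (Fin k → Fin 2) (Fin k → Fin 2) F) *ᵥ fun x => act P⁻¹ w (e.symm x) := by
    intro w
    funext x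
    simp only [act_mul, act_inv_act]
    simp only [act, glReindex, Units.coe_mapEquiv, Matrix.mulVec, dotProduct]
    rw [← Equiv.sum_comp e.symm]
    simp
  simp only [powForm, hL]
  rw [Matrix.mulVec_mulVec,
    ← Matrix.vecMul_transpose (z : Matrix (Fin k → Fin 2) (Fin k → Fin 2) F) (fun x => act P⁻¹ u (e.symm x)),
    ← Matrix.dotProduct_mulVec, Matrix.mulVec_mulVec, ← mul_assoc, hc, Matrix.smul_mulVec,
    dotProduct_smul, smul_eq_mul]

variable [Fintype F]

/-- A tensor-wreath decomposition preserved by `H` puts it in one of the linear classes. -/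
theorem inLinearGeom_of_tensorWreath {n m k : ℕ} (hm : 2 ≤ m) (hk : 2 ≤ k)
    (e : Fin n ≃ (Fin k → Fin m)) (P : GL (Fin n) F) :
    ∃ M, InLinearGeom n F M ∧ tensorWreathSubgroup m k e P ≤ M := by
  by_cases h3 : 3 ≤ m
  · exact ⟨_, Or.inr (Or.inr (Or.inr (Or.inr (Or.inr (Or.inl
      ⟨m, k, e, P, h3, hk, rfl⟩))))), le_rfl⟩
  obtain rfl : m = 2 := by omega
  have hn : n = 2 ^ k := by simpa using Fintype.card_congr e
  have h4 : 4 ≤ n := hn ▸ Nat.pow_le_pow_right (by norm_num : 1 ≤ 2) hk
  by_cases hsymm : (2 : F) ≠ 0 ∧ Even k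
  · obtain ⟨h2, hev⟩ := hsymm
    have hb := isBilinearForm_powForm e P
    let Q : (Fin n → F) → F := fun v => powForm e P v v
    have hpol : ∀ u v, QuadraticMap.polar Q u v = 2 * powForm e P u v := by
      intro u v
      simp only [QuadraticMap.polar, Q, hb.add_left, hb.add_right]
      rw [powForm_swap e P v u, hev.neg_one_pow]
      ring
    have hQ : IsNondegenerateQuadraticForm Q := by
      refine ⟨fun c v => ?_, ⟨?_, ?_, ?_, ?_⟩, fun v hv => ?_⟩
      · simp only [Q, hb.smul_left, hb.smul_right]; ring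
      · intro x y v; simp only [hpol, hb.add_left]; ring
      · intro c x v; simp only [hpol, hb.smul_left]; ring
      · intro v x y; simp only [hpol, hb.add_right]; ring
      · intro c v x; simp only [hpol, hb.smul_right]; ring
      · obtain ⟨⟨x, hx⟩, ⟨y, hy⟩⟩ := isNondegenerateForm_powForm e P v hv
        exact ⟨⟨x, by rw [hpol]; exact mul_ne_zero h2 hx⟩, ⟨y, by rw [hpol]; exact mul_ne_zero h2 hy⟩⟩
    have hodd : Odd (Fintype.card F) := by
      rw [← Nat.not_even_iff_odd]
      intro hevc
      apply h2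
      have hc : ringChar F = 2 := FiniteField.even_card_iff_char_two.2 (Nat.even_iff.1 hevc)
      have := ringChar.Nat.cast_ringChar (R := F)
      rw [hc] at this
      exact_mod_cast this
    refine ⟨_, Or.inr (Or.inr (Or.inr (Or.inr (Or.inr (Or.inr (Or.inr (Or.inr
      ⟨Q, hQ, hodd, by omega, rfl⟩))))))), fun g hg => ?_⟩
    obtain ⟨c, hc⟩ := tensorWreathSubgroup_le_powForm e P hg
    exact ⟨c, fun v => hc v v⟩
  · have hk' : (-1 : F) ^ k = -1 := by
      rcases Nat.even_or_odd k with hev | hodd
      · have h2 : (2 : F) = 0 := by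
          by_contra h
          exact hsymm ⟨h, hev⟩
        rw [hev.neg_one_pow]
        linear_combination h2
      · exact hodd.neg_one_pow
    refine ⟨_, Or.inr (Or.inr (Or.inr (Or.inr (Or.inr (Or.inr (Or.inl
      ⟨powForm e P, ⟨isBilinearForm_powForm e P, fun v w => ?_, powForm_self hk' (by omega) e P,
        isNondegenerateForm_powForm e P⟩, ?_, h4, rfl⟩)))))),
      tensorWreathSubgroup_le_powForm e P⟩
    · rw [powForm_swap, hk', neg_one_mul]
    · rw [hn]; exact (Nat.even_pow).2 ⟨even_two, by omega⟩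

end CfsgLib.SmallDim
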