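import Cfsg.Agent.Lib.SmallDim.SympTensor
import Cfsg.Agent.Lib.SmallDim.TensorWreathClass

/-!
Pure tensors of a tensor power: products, bilinear values and the action of the wreath product.
-/

set_option autoImplicit false
set_option linter.style.haveILetI false

namespace CfsgLib.SmallDim

open scoped MatrixGroups Matrix
open Cfsg.Geo

variable {F : Type*} [Field F] {k m : ℕ}

/-- The pure tensor of a family of vectors. -/
def pureTensorVec (v : Fin k → Fin m → F) : (Fin k → Fin m) → F := fun x => ∏ i, v i (x i)

lemma pureMat_mulVec (g : Fin k → Matrix (Fin m) (Fin m) F) (v : Fin k → Fin m → F) :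
    pureMat g *ᵥ pureTensorVec v = pureTensorVec fun i => g i *ᵥ v i := by
  funext x
  simp only [Matrix.mulVec, dotProduct, pureMat, Matrix.of_apply, pureTensorVec, Fintype.prod_sum,
    ← Finset.prod_mul_distrib]

lemma pureVec_dot (u v : Fin k → Fin m → F) : pureTensorVec u ⬝ᵥ pureTensorVec v = ∏ i, u i ⬝ᵥ v i := by
  simp only [dotProduct, pureTensorVec, Fintype.prod_sum, ← Finset.prod_mul_distrib]

lemma pureVec_update_add (v : Fin k → Fin m → F) (i : Fin k) (a b : Fin m → F) :
    pureTensorVec (Function.update v i (a + b)) =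
      pureTensorVec (Function.update v i a) + pureTensorVec (Function.update v i b) := by
  funext x
  have h : ∀ c, (fun j => Function.update v i c j (x j)) = Function.update (fun j => v j (x j)) i (c (x i)) :=
    fun c => funext fun j => Function.apply_update (fun j (w : Fin m → F) => w (x j)) v i c j
  simp only [pureTensorVec, Pi.add_apply, h, Finset.prod_update_of_mem (Finset.mem_univ i), add_mul]

lemma pureVec_update_smul (v : Fin k → Fin m → F) (i : Fin k) (c : F) (a : Fin m → F) :
    pureTensorVec (Function.update v i (c • a)) = c • pureTensorVec (Function.update v i a) := by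
  funext x
  have h : ∀ c, (fun j => Function.update v i c j (x j)) = Function.update (fun j => v j (x j)) i (c (x i)) :=
    fun c => funext fun j => Function.apply_update (fun j (w : Fin m → F) => w (x j)) v i c j
  simp only [pureTensorVec, Pi.smul_apply, smul_eq_mul, h, Finset.prod_update_of_mem (Finset.mem_univ i), mul_assoc]

lemma pureVec_single (a : Fin k → Fin m) :
    pureTensorVec (fun i => (Pi.single (a i) 1 : Fin m → F)) = Pi.single a 1 := by
  funext x
  by_cases h : x = a
  · subst h; simp [pureTensorVec]
  · obtain ⟨i, hi⟩ := Function.ne_iff.1 h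
    rw [Pi.single_eq_of_ne h]
    exact Finset.prod_eq_zero (Finset.mem_univ i) (Pi.single_eq_of_ne hi _)

lemma factorPerm_mulVec {g : GL (Fin k → Fin m) F} {σ : Equiv.Perm (Fin k)}
    (hg : ∀ x y, (g : Matrix (Fin k → Fin m) (Fin k → Fin m) F) x y = if y = x ∘ σ then 1 else 0)
    (v : Fin k → Fin m → F) :
    (g : Matrix (Fin k → Fin m) (Fin k → Fin m) F) *ᵥ pureTensorVec v = pureTensorVec fun i => v (σ.symm i) := by
  funext x
  simp only [Matrix.mulVec, dotProduct, hg, ite_mul, one_mul, zero_mul, Finset.sum_ite_eq', Finset.mem_univ,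
    if_true, pureTensorVec, Function.comp_apply]
  exact Fintype.prod_equiv σ _ _ fun i => by simp

/-- The wreath product maps pure tensors to pure tensors. -/
theorem tensorWreathStandard_pureVec [Finite F] {g : GL (Fin k → Fin m) F}
    (hg : g ∈ tensorWreathStandard m k F) (v : Fin k → Fin m → F) :
    ∃ w, (g : Matrix (Fin k → Fin m) (Fin k → Fin m) F) *ᵥ pureTensorVec v = pureTensorVec w := by
  rw [tensorWreathStandard, ← Subgroup.mem_toSubmonoid, Subgroup.closure_toSubmonoid_of_finite] at hg
  induction hg using Submonoid.closure_induction generalizing v with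
  | mem g hg =>
    rcases hg with ⟨gs, hgs⟩ | ⟨σ, hσ⟩
    · rw [show (g : Matrix _ _ F) = pureMat fun i => (gs i : Matrix (Fin m) (Fin m) F) from Matrix.ext hgs]
      exact ⟨_, pureMat_mulVec _ _⟩
    · exact ⟨_, factorPerm_mulVec hσ v⟩
  | one => exact ⟨v, by simp⟩
  | mul g h _ _ ihg ihh =>
    obtain ⟨w, hw⟩ := ihh v
    obtain ⟨w', hw'⟩ := ihg w
    exact ⟨w', by rw [Units.val_mul, ← Matrix.mulVec_mulVec, hw, hw']⟩

/-- The pure slot embedding as a homomorphism. -/
def slotHom (i : Fin k) : GL (Fin m) F →* GL (Fin k → Fin m) F :=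
  MonoidHom.mk' (fun b => pureGL (Pi.mulSingle i b)) fun a b => Units.ext (by
    show pureMat _ = pureMat _ * pureMat _
    rw [← pureMat_mul]
    congr 1
    funext j
    rw [Pi.mulSingle_mul]
    rfl)

lemma slotHom_val (i : Fin k) (b : GL (Fin m) F) :
    (slotHom i b : Matrix (Fin k → Fin m) (Fin k → Fin m) F) =
      pureMat (Pi.mulSingle i (b : Matrix (Fin m) (Fin m) F)) := by
  show pureMat _ = _
  congr 1
  funext j
  exact Pi.apply_mulSingle (fun _ (z : GL (Fin m) F) => (z : Matrix (Fin m) (Fin m) F)) (fun _ => rfl) i b j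

end CfsgLib.SmallDim
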