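import Cfsg.Agent.Lib.SmallDim.UnitaryBasics
import Cfsg.Agent.Lib.SmallDim.TensorClass
import Cfsg.Agent.Lib.Forms.Hermitian

/-!
Tensor decompositions preserved by subgroups of the unitary group come from unitary changes of basis.
-/

set_option autoImplicit false
set_option linter.style.haveILetI false

namespace CfsgLib.SmallDim

open scoped MatrixGroups Matrix Kronecker
open Cfsg.Geo

section Scaling

variable {F : Type*} [Field F]

/-- An element of norm one is a quotient `μ / σ μ`. -/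
lemma exists_ratio (σ : F ≃+* F) (hne : σ ≠ RingEquiv.refl F) (hσ : ∀ a, σ (σ a) = a) {c : F}
    (hc : c * σ c = 1) : ∃ μ : F, μ ≠ 0 ∧ σ μ * c = μ := by
  by_cases h1 : 1 + c = 0
  · obtain ⟨a, ha⟩ : ∃ a, σ a ≠ a := by
      by_contra hall
      push Not at hall
      exact hne (RingEquiv.ext hall)
    refine ⟨a - σ a, sub_ne_zero.2 (Ne.symm ha), ?_⟩
    rw [map_sub, hσ, show c = -1 by linear_combination h1]
    ring
  · refine ⟨1 + c, h1, ?_⟩
    rw [map_add, map_one]
    linear_combination hc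

/-- A Hermitian matrix over a finite field is congruent to the identity. -/
lemma exists_orthonormal_matrix [Finite F] (σ : F ≃+* F) (hne : σ ≠ RingEquiv.refl F) (hσ : ∀ a, σ (σ a) = a)
    {m : ℕ} {G : Matrix (Fin m) (Fin m) F} (hG : (G.map σ)ᵀ = G) (hdet : G.det ≠ 0) :
    ∃ A : GL (Fin m) F, (A : Matrix (Fin m) (Fin m) F)ᵀ * G * (A : Matrix (Fin m) (Fin m) F).map σ = 1 := by
  classical
  let B : (Fin m → F) →ₛₗ[(σ : F →+* F)] (Fin m → F) →ₗ[F] F :=
    LinearMap.mk₂'ₛₗ (σ : F →+* F) (RingHom.id F) (fun v u => u ⬝ᵥ (G *ᵥ (σ ∘ v)))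
      (fun v v' u => by
        simp [show σ ∘ (v + v') = σ ∘ v + σ ∘ v' from funext fun i => map_add σ _ _, Matrix.mulVec_add,
          dotProduct_add])
      (fun a v u => by
        simp [show σ ∘ (a • v) = σ a • (σ ∘ v) from funext fun i => map_mul σ _ _, Matrix.mulVec_smul,
          dotProduct_smul])
      (fun v u u' => by simp [add_dotProduct])
      (fun a v u => by simp [smul_dotProduct])
  have hB : ∀ v u, B v u = u ⬝ᵥ (G *ᵥ (σ ∘ v)) := fun v u => rfl
  have hS : B.IsSymm := by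
    refine ⟨fun v u => ?_⟩
    rw [hB, hB, show (σ : F →+* F) (u ⬝ᵥ (G *ᵥ (σ ∘ v))) = (σ ∘ u) ⬝ᵥ ((G.map σ) *ᵥ v) from ?_]
    · rw [Matrix.dotProduct_mulVec, dotProduct_comm, ← Matrix.mulVec_transpose, hG]
    · simp only [dotProduct, Matrix.mulVec, map_sum, map_mul, RingEquiv.coe_toRingHom, Function.comp_apply,
        Matrix.map_apply, hσ]
  have hl : ∀ v, (∀ u, B v u = 0) → v = 0 := by
    intro v hv
    have h1 : G *ᵥ (σ ∘ v) = 0 := dotProduct_eq_zero _ fun u => by rw [dotProduct_comm]; exact hv u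
    have h2 : σ ∘ v = 0 := Matrix.eq_zero_of_mulVec_eq_zero hdet h1
    funext i
    have h3 := congrFun h2 i
    simpa using h3
  have hnd : B.Nondegenerate := ⟨hl, fun u hu => hl u fun v => by
    rw [← hS.eq v u, hu v, map_zero]⟩
  obtain ⟨b', hb'⟩ := CfsgLib.Forms.exists_orthonormal_basis (σ : F →+* F)
    (fun h => hne (RingEquiv.ext fun x => RingHom.congr_fun h x)) hσ B hS hnd
  let b := b'.reindex (finCongr (Module.finrank_fin_fun F : Module.finrank F (Fin m → F) = m))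
  have hb : ∀ i j, B (b i) (b j) = if i = j then 1 else 0 := fun i j => by
    simp only [b, Module.Basis.reindex_apply, hb', (Equiv.injective _).eq_iff]
  let A : Matrix (Fin m) (Fin m) F := Matrix.of fun i j => b j i
  have hA : IsUnit A := Matrix.mulVec_injective_iff_isUnit.1 (Matrix.mulVec_injective_iff.2 b.linearIndependent)
  refine ⟨hA.unit, ?_⟩
  ext i j
  rw [IsUnit.unit_spec, Matrix.one_apply, show (if i = j then (1 : F) else 0) = B (b j) (b i) from by
    rw [hb]; exact if_congr eq_comm rfl rfl, hB, Matrix.mul_assoc, Matrix.mul_apply]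
  simp [A, dotProduct, Matrix.mulVec, Matrix.mul_apply]

/-- The tensor-product subgroup does not change when the basis is changed inside it. -/
lemma tensorProductSubgroup_absorb {ι : Type} [Fintype ι] [DecidableEq ι] {n₁ n₂ : ℕ}
    (e : ι ≃ Fin n₁ × Fin n₂) (P : GL ι F) {z : GL (Fin n₁ × Fin n₂) F} (hz : z ∈ kroneckerSubgroup n₁ n₂ F) :
    tensorProductSubgroup n₁ n₂ e P ≤ tensorProductSubgroup n₁ n₂ e (P * glReindex e.symm z) := by
  rintro _ ⟨_, ⟨y, hy, rfl⟩, rfl⟩
  refine ⟨_, ⟨z⁻¹ * y * z, mul_mem (mul_mem (inv_mem hz) hy) hz, rfl⟩, ?_⟩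
  simp [map_mul, map_inv, mul_assoc]

end Scaling

variable {F : Type*} [Field F] [Fintype F] {n q : ℕ} {σ : F ≃+* F}

namespace UnitarySetup

lemma mem_GU_iff (hu : UnitarySetup n q σ) {g : GL (Fin n) F} :
    g ∈ Cfsg.GU n F q ↔ (g : Matrix (Fin n) (Fin n) F)ᵀ * (g : Matrix (Fin n) (Fin n) F).map σ = 1 := by
  refine ⟨hu.transpose_mul, fun h => mem_GU.2 fun u v => ?_⟩
  show Cfsg.hermForm n F q ((g : Matrix (Fin n) (Fin n) F) *ᵥ u) ((g : Matrix (Fin n) (Fin n) F) *ᵥ v) = _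
  rw [(hu.sesqui.transform _).apply_eq u v, hu.sesqui.gram_transform, hu.gram_eq_one, Matrix.mul_one,
    show ((σ : F →+* F) : F → F) = σ from rfl, h, Matrix.one_mulVec, ← hu.herm_eq]

lemma isUnitaryFormPow_hermForm (hu : UnitarySetup n q σ) {m : ℕ} :
    IsUnitaryFormPow q (Cfsg.hermForm m F q) := by
  obtain ⟨τ, hm⟩ := exists_unitarySetup m hu.card
  exact ⟨hm.sesqui.add_left, hm.sesqui.smul_left, fun v w => by rw [hm.herm v w, hm.pow],
    hm.isUnitary.nondegenerate⟩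

/-- A unitary change of basis gives a tensor structure of the standard forms. -/
lemma isTensorFormStructure (hu : UnitarySetup n q σ) {n₁ n₂ : ℕ} (e : Fin n ≃ Fin n₁ × Fin n₂)
    {P : GL (Fin n) F} (hP : P ∈ Cfsg.GU n F q) :
    IsTensorFormStructure (fun x : F => x ^ q) (Cfsg.hermForm n F q) (Cfsg.hermForm n₁ F q)
      (Cfsg.hermForm n₂ F q) e P := by
  obtain ⟨σ₁, h1⟩ := exists_unitarySetup n₁ hu.card
  obtain ⟨σ₂, h2⟩ := exists_unitarySetup n₂ hu.card
  refine ⟨1, one_ne_zero, fun x y => ?_⟩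
  show Cfsg.hermForm n F q (act P (x ∘ e)) (act P (y ∘ e)) = _
  rw [mem_GU.1 hP, hu.herm_eq, h1.gram_eq_one, h2.gram_eq_one, Matrix.one_kronecker_one, one_mul]
  simp only [formOfGram, dotProduct, Function.comp_apply, hu.pow, Matrix.one_apply, mul_ite, mul_one, mul_zero,
    ite_mul, zero_mul, Finset.sum_ite_eq, Finset.mem_univ, if_true]
  exact Equiv.sum_comp e fun a => x a * y a ^ q

/-- A tensor decomposition from Clifford theory may be taken with a unitary change of basis. -/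
theorem tensor_factor (hu : UnitarySetup n q σ) {H N : Subgroup (GL (Fin n) F)} {n₁ n₂ : ℕ}
    {e : Fin n ≃ Fin n₁ × Fin n₂} {P : GL (Fin n) F} (hT : TensorCase H N n₁ n₂ e P)
    (hG : N ≤ Cfsg.GU n F q) :
    ∃ P' : GL (Fin n) F, P' ∈ Cfsg.GU n F q ∧ H ≤ tensorProductSubgroup n₁ n₂ e P' := by
  classical
  have : Nonempty (Fin n₁) := ⟨⟨0, by have := hT.two_le_left; omega⟩⟩
  have : Nonempty (Fin n₂) := ⟨⟨0, by have := hT.two_le_right; omega⟩⟩
  set Pm : Matrix (Fin n) (Fin n) F := (P : Matrix (Fin n) (Fin n) F) with hPm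
  set G : Matrix (Fin n₁ × Fin n₂) (Fin n₁ × Fin n₂) F := Matrix.reindex e e (Pmᵀ * Pm.map σ) with hGdef
  have hPdet : Pm.det ≠ 0 := (Matrix.GeneralLinearGroup.det P).ne_zero
  have hGdet : IsUnit G.det := by
    rw [isUnit_iff_ne_zero, hGdef, Matrix.det_reindex_self, Matrix.det_mul, Matrix.det_transpose,
      show (Pm.map σ).det = σ Pm.det from (RingEquiv.map_det σ Pm).symm]
    exact mul_ne_zero hPdet ((map_ne_zero σ).2 hPdet)
  have hGherm : (G.map σ)ᵀ = G := by
    ext a b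
    simp [hGdef, Matrix.mul_apply, map_sum, hu.invol, mul_comm]
  -- the inner matrices
  let S : Set (Matrix (Fin n₂) (Fin n₂) F) := {b | ∃ x ∈ N, (x : Matrix (Fin n) (Fin n) F) * Pm =
    Pm * Matrix.reindex e.symm e.symm ((1 : Matrix (Fin n₁) (Fin n₁) F) ⊗ₖ b)}
  have hblock : ∀ b ∈ S, ((1 : Matrix (Fin n₁) (Fin n₁) F) ⊗ₖ b)ᵀ * G *
      ((1 : Matrix (Fin n₁) (Fin n₁) F) ⊗ₖ b).map σ = G := by
    rintro b ⟨x, hx, hxb⟩
    set Bb : Matrix (Fin n₁ × Fin n₂) (Fin n₁ × Fin n₂) F := (1 : Matrix (Fin n₁) (Fin n₁) F) ⊗ₖ b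
    have h1 : (Matrix.reindex e.symm e.symm Bb)ᵀ * (Pmᵀ * Pm.map σ) * (Matrix.reindex e.symm e.symm Bb).map σ =
        Pmᵀ * Pm.map σ := by
      calc _ = (Pm * Matrix.reindex e.symm e.symm Bb)ᵀ * (Pm * Matrix.reindex e.symm e.symm Bb).map σ := by
            simp only [Matrix.transpose_mul, Matrix.map_mul, Matrix.mul_assoc]
        _ = Pmᵀ * ((x : Matrix (Fin n) (Fin n) F)ᵀ * (x : Matrix (Fin n) (Fin n) F).map σ) * Pm.map σ := by
            rw [← hxb]
            simp only [Matrix.transpose_mul, Matrix.map_mul, Matrix.mul_assoc]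
        _ = _ := by rw [hu.transpose_mul (hG hx), Matrix.mul_one]
    have h2 := congrArg (Matrix.reindexAlgEquiv F F e) h1
    simp only [map_mul] at h2
    have e1 : Matrix.reindexAlgEquiv F F e (Matrix.reindex e.symm e.symm Bb)ᵀ = Bbᵀ := by ext p r; simp
    have e2 : Matrix.reindexAlgEquiv F F e ((Matrix.reindex e.symm e.symm Bb).map σ) = Bb.map σ := by
      ext p r; simp
    have e3 : Matrix.reindexAlgEquiv F F e Pmᵀ * Matrix.reindexAlgEquiv F F e (Pm.map σ) = G := by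
      rw [hGdef, ← map_mul, Matrix.coe_reindexAlgEquiv]
    rw [e1, e2, e3] at h2
    exact h2
  let blk : Fin n₁ → Fin n₁ → Matrix (Fin n₂) (Fin n₂) F := fun i j => Matrix.of fun k l => G (i, k) (j, l)
  have hblkI : ∀ b ∈ S, ∀ i j, bᵀ * blk i j * b.map σ = blk i j := by
    intro b hb i j
    ext k l
    have := congrFun (congrFun (hblock b hb) (i, k)) (j, l)
    rw [show blk i j k l = G (i, k) (j, l) from rfl]
    simpa [Matrix.mul_apply, Fintype.sum_prod_type, Matrix.one_apply, blk, Finset.sum_ite_eq,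
      apply_ite σ, ite_mul, mul_ite] using this
  -- the commutant of the inner matrices is scalar
  have hcomm : ∀ C : Matrix (Fin n₂) (Fin n₂) F, (∀ b ∈ S, C * b = b * C) → ∃ c : F, C = c • 1 := by
    intro C hC
    set R := Matrix.reindexAlgEquiv F F e.symm ((1 : Matrix (Fin n₁) (Fin n₁) F) ⊗ₖ C) with hR
    set M : Matrix (Fin n) (Fin n) F := Pm * R * ((P⁻¹ : GL (Fin n) F) : Matrix (Fin n) (Fin n) F) with hM
    have hMP : M * Pm = Pm * R := by
      rw [hM, Matrix.mul_assoc, hPm, ← Units.val_mul, inv_mul_cancel, Units.val_one, Matrix.mul_one]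
    have hmem : M ∈ Subalgebra.centralizer F (matrixSet N) := by
      rw [Subalgebra.mem_centralizer_iff]
      rintro _ ⟨x, hx, rfl⟩
      obtain ⟨b, hb⟩ := hT.inner x hx
      have hcb := hC b ⟨x, hx, hb⟩
      set Rb := Matrix.reindexAlgEquiv F F e.symm ((1 : Matrix (Fin n₁) (Fin n₁) F) ⊗ₖ b) with hRb
      have hRR : Rb * R = R * Rb := by
        rw [hR, hRb, ← map_mul, ← map_mul, ← Matrix.mul_kronecker_mul, ← Matrix.mul_kronecker_mul, hcb]
      have hxP : (x : Matrix (Fin n) (Fin n) F) * Pm = Pm * Rb := hb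
      have h3 : ((x : Matrix (Fin n) (Fin n) F) * M) * Pm = (M * (x : Matrix (Fin n) (Fin n) F)) * Pm := by
        rw [Matrix.mul_assoc, hMP, ← Matrix.mul_assoc, hxP, Matrix.mul_assoc, hRR, ← Matrix.mul_assoc, ← hMP,
          Matrix.mul_assoc, ← hxP, ← Matrix.mul_assoc]
      exact P.isUnit.mul_left_injective h3
    obtain ⟨C', hC'⟩ := hT.commutant M hmem
    rw [hMP] at hC'
    have h4 : (1 : Matrix (Fin n₁) (Fin n₁) F) ⊗ₖ C = C' ⊗ₖ (1 : Matrix (Fin n₂) (Fin n₂) F) := by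
      have h5 := P.isUnit.mul_right_injective hC'
      exact (Matrix.reindex e.symm e.symm).injective h5
    obtain ⟨i⟩ := ‹Nonempty (Fin n₁)›
    refine ⟨C' i i, Matrix.ext fun k l => ?_⟩
    have := congrFun (congrFun h4 (i, k)) (i, l)
    simpa [Matrix.one_apply] using this
  -- invariant matrices are multiples of one another
  have hinvdet : ∀ b ∈ S, IsUnit b.det ∧ IsUnit (b.map σ).det := by
    intro b hb
    have h := congrArg Matrix.det (hblock b hb)
    rw [Matrix.det_mul, Matrix.det_mul, Matrix.det_transpose, Matrix.det_kronecker, Matrix.det_one, one_pow,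
      one_mul] at h
    have hb0 : b.det ≠ 0 := fun h0 => hGdet.ne_zero (by
      rw [← h, h0, zero_pow (by simpa using Fintype.card_ne_zero (α := Fin n₁)), zero_mul, zero_mul])
    refine ⟨isUnit_iff_ne_zero.2 hb0, isUnit_iff_ne_zero.2 ?_⟩
    rw [show (b.map σ).det = σ b.det from (RingEquiv.map_det σ b).symm]
    exact (map_ne_zero σ).2 hb0
  have hscal : ∀ (X K : Matrix (Fin n₂) (Fin n₂) F), (∀ b ∈ S, bᵀ * X * b.map σ = X) →
      (∀ b ∈ S, b.map σ * K * bᵀ = K) → ∃ c : F, X * K = c • 1 := by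
    intro X K hX hK
    obtain ⟨c, hc⟩ := hcomm (X * K)ᵀ fun b hb => by
      have hbu := (hinvdet b hb).1
      have h1 : bᵀ * (X * K) = (X * K) * bᵀ := by
        calc bᵀ * (X * K) = bᵀ * X * (b.map σ * K * bᵀ) := by rw [hK b hb, Matrix.mul_assoc]
          _ = (bᵀ * X * b.map σ) * K * bᵀ := by simp only [Matrix.mul_assoc]
          _ = _ := by rw [hX b hb]
      simpa [Matrix.transpose_mul, Matrix.mul_assoc] using congrArg Matrix.transpose h1
    refine ⟨c, ?_⟩
    have h2 := congrArg Matrix.transpose hc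
    rwa [Matrix.transpose_transpose, Matrix.transpose_smul, Matrix.transpose_one] at h2
  let kblk : Fin n₁ → Fin n₁ → Matrix (Fin n₂) (Fin n₂) F := fun i j => Matrix.of fun k l => G⁻¹ (i, k) (j, l)
  have hkblk : ∀ b ∈ S, ∀ i j, b.map σ * kblk i j * bᵀ = kblk i j := by
    intro b hb i j
    set Bb : Matrix (Fin n₁ × Fin n₂) (Fin n₁ × Fin n₂) F := (1 : Matrix (Fin n₁) (Fin n₁) F) ⊗ₖ b
    have h1 : Bb.map σ * G⁻¹ * Bbᵀ = G⁻¹ := by
      have h2 : (Bb.map σ * G⁻¹ * Bbᵀ) * G * Bb.map σ = Bb.map σ := by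
        calc _ = Bb.map σ * G⁻¹ * (Bbᵀ * G * Bb.map σ) := by simp only [Matrix.mul_assoc]
          _ = _ := by rw [hblock b hb, Matrix.mul_assoc, Matrix.nonsing_inv_mul _ hGdet, Matrix.mul_one]
      have hBu : IsUnit (Bb.map σ).det := by
        rw [show (Bb.map σ).det = σ Bb.det from (RingEquiv.map_det σ Bb).symm, Matrix.det_kronecker]
        simp only [Matrix.det_one, one_pow, one_mul, map_pow]
        exact ((hinvdet b hb).1.map σ).pow _
      have h3 : (Bb.map σ * G⁻¹ * Bbᵀ) * G = 1 := by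
        have h4 := congrArg (· * (Bb.map σ)⁻¹) h2
        simpa [Matrix.mul_assoc, Matrix.mul_nonsing_inv _ hBu] using h4
      calc _ = (Bb.map σ * G⁻¹ * Bbᵀ) * (G * G⁻¹) := by rw [Matrix.mul_nonsing_inv _ hGdet, Matrix.mul_one]
        _ = _ := by rw [← Matrix.mul_assoc, h3, Matrix.one_mul]
    ext k l
    have := congrFun (congrFun h1 (i, k)) (j, l)
    rw [show kblk i j k l = G⁻¹ (i, k) (j, l) from rfl]
    simpa [Bb, Matrix.mul_apply, Fintype.sum_prod_type, Matrix.one_apply, kblk, Finset.sum_ite_eq,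
      apply_ite σ, ite_mul, mul_ite] using this
  obtain ⟨i₀⟩ := ‹Nonempty (Fin n₁)›
  obtain ⟨j₀, hj₀⟩ : ∃ j, blk i₀ j * kblk j i₀ ≠ 0 := by
    by_contra hall
    push Not at hall
    have h1 : ∑ j, blk i₀ j * kblk j i₀ = 1 := by
      ext k l
      have := congrFun (congrFun (Matrix.mul_nonsing_inv _ hGdet) (i₀, k)) (i₀, l)
      simpa [Matrix.sum_apply, Matrix.mul_apply, blk, kblk, Fintype.sum_prod_type, Matrix.one_apply] using this
    rw [Finset.sum_eq_zero fun j _ => hall j] at h1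
    exact zero_ne_one h1
  obtain ⟨c₀, hc₀⟩ := hscal _ _ (fun b hb => hblkI b hb i₀ j₀) (fun b hb => hkblk b hb j₀ i₀)
  have hc₀0 : c₀ ≠ 0 := fun h => hj₀ (by rw [hc₀, h, zero_smul])
  set K₀ := kblk j₀ i₀ with hK₀
  set G₀ := blk i₀ j₀ with hG₀
  have hGK : (c₀⁻¹ • G₀) * K₀ = 1 := by rw [Matrix.smul_mul, hc₀, smul_smul, inv_mul_cancel₀ hc₀0, one_smul]
  have hKG : K₀ * (c₀⁻¹ • G₀) = 1 := mul_eq_one_comm.1 hGK
  have hmult : ∀ i j, ∃ c : F, blk i j = c • G₀ := by
    intro i j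
    obtain ⟨c, hc⟩ := hscal _ _ (fun b hb => hblkI b hb i j) (fun b hb => hkblk b hb j₀ i₀)
    refine ⟨c * c₀⁻¹, ?_⟩
    calc blk i j = blk i j * (K₀ * (c₀⁻¹ • G₀)) := by rw [hKG, Matrix.mul_one]
      _ = _ := by rw [← Matrix.mul_assoc, hc, Matrix.smul_mul, Matrix.one_mul, smul_smul]
  choose C hC using hmult
  have hG₀det : G₀.det ≠ 0 := by
    intro h0
    have h1 := congrArg Matrix.det hGK
    rw [Matrix.det_mul, Matrix.det_smul, h0, mul_zero, zero_mul, Matrix.det_one] at h1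
    exact zero_ne_one h1
  -- Hermitian symmetry
  have hblkT : ∀ i j, ((blk i j).map σ)ᵀ = blk j i := fun i j => by
    ext k l
    have := congrFun (congrFun hGherm (j, k)) (i, l)
    simpa [blk] using this
  obtain ⟨lam, hlam⟩ : ∃ lam : F, (G₀.map σ)ᵀ = lam • G₀ := ⟨C j₀ i₀, by rw [hG₀, hblkT, hC, ← hG₀]⟩
  have hG₀0 : G₀ ≠ 0 := fun h => hj₀ (by rw [h, Matrix.zero_mul])
  have hlam1 : lam * σ lam = 1 := by
    have h1 := congrArg (fun X : Matrix (Fin n₂) (Fin n₂) F => (X.map σ)ᵀ) hlam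
    have h2 : ((lam • G₀).map σ)ᵀ = (σ lam * lam) • G₀ := by
      rw [show (lam • G₀).map σ = σ lam • G₀.map σ from Matrix.ext fun i j => map_mul σ _ _,
        Matrix.transpose_smul, hlam, smul_smul]
    have h3 : (((G₀.map σ)ᵀ).map σ)ᵀ = G₀ := Matrix.ext fun i j => by simp [hu.invol]
    rw [h2, h3] at h1
    rw [mul_comm]
    exact (smul_left_injective F hG₀0 (h1.symm.trans (one_smul F G₀).symm))
  obtain ⟨μ, hμ0, hμ⟩ := exists_ratio σ hu.isUnitary.ne_refl hu.invol hlam1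
  set G₂ := μ • G₀ with hG₂
  set C₁ : Matrix (Fin n₁) (Fin n₁) F := μ⁻¹ • Matrix.of C with hC₁
  have hGC : G = C₁ ⊗ₖ G₂ := by
    ext ⟨i, k⟩ ⟨j, l⟩
    have := congrFun (congrFun (hC i j) k) l
    rw [show G (i, k) (j, l) = blk i j k l from rfl, this]
    simp [hC₁, hG₂]
    field_simp
  have hG₂herm : (G₂.map σ)ᵀ = G₂ := by
    rw [hG₂, show (μ • G₀).map σ = σ μ • G₀.map σ from Matrix.ext fun i j => map_mul σ _ _,
      Matrix.transpose_smul, hlam, smul_smul, hμ]
  have hG₂det : G₂.det ≠ 0 := by rw [hG₂, Matrix.det_smul]; exact mul_ne_zero (pow_ne_zero _ hμ0) hG₀det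
  have hG₂0 : G₂ ≠ 0 := smul_ne_zero hμ0 hG₀0
  have hC₁herm : (C₁.map σ)ᵀ = C₁ := by
    ext i j
    obtain ⟨k, l, hkl⟩ : ∃ k l, G₂ k l ≠ 0 := by
      by_contra hall
      push Not at hall
      exact hG₂0 (Matrix.ext hall)
    have h1 := congrFun (congrFun hGherm (i, k)) (j, l)
    rw [hGC] at h1
    have h2 := congrFun (congrFun hG₂herm k) l
    simp only [Matrix.transpose_apply, Matrix.map_apply, Matrix.kroneckerMap_apply, map_mul] at h1 h2 ⊢
    rw [h2] at h1
    exact mul_right_cancel₀ hkl h1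
  have hC₁det : C₁.det ≠ 0 := by
    intro h0
    apply hGdet.ne_zero
    rw [hGC, Matrix.det_kronecker, h0,
      zero_pow (by simpa using Fintype.card_ne_zero (α := Fin n₂)), zero_mul]
  obtain ⟨A₁, hA₁⟩ := exists_orthonormal_matrix σ hu.isUnitary.ne_refl hu.invol hC₁herm hC₁det
  obtain ⟨A₂, hA₂⟩ := exists_orthonormal_matrix σ hu.isUnitary.ne_refl hu.invol hG₂herm hG₂det
  have hzu : IsUnit ((A₁ : Matrix (Fin n₁) (Fin n₁) F) ⊗ₖ (A₂ : Matrix (Fin n₂) (Fin n₂) F)) := by
    rw [Matrix.isUnit_iff_isUnit_det, Matrix.det_kronecker]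
    exact (IsUnit.pow _ (Matrix.GeneralLinearGroup.det A₁).isUnit).mul
      (IsUnit.pow _ (Matrix.GeneralLinearGroup.det A₂).isUnit)
  set z : GL (Fin n₁ × Fin n₂) F := hzu.unit
  have hz : (z : Matrix (Fin n₁ × Fin n₂) (Fin n₁ × Fin n₂) F) = _ := hzu.unit_spec
  refine ⟨P * glReindex e.symm z, hu.mem_GU_iff.2 ?_,
    hT.le.trans (tensorProductSubgroup_absorb e P ⟨A₁, A₂, hz⟩)⟩
  have hA : (z : Matrix (Fin n₁ × Fin n₂) (Fin n₁ × Fin n₂) F)ᵀ * G *
      (z : Matrix (Fin n₁ × Fin n₂) (Fin n₁ × Fin n₂) F).map σ = 1 := by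
    have hmap : ((A₁ : Matrix (Fin n₁) (Fin n₁) F) ⊗ₖ (A₂ : Matrix (Fin n₂) (Fin n₂) F)).map σ =
        (A₁ : Matrix (Fin n₁) (Fin n₁) F).map σ ⊗ₖ (A₂ : Matrix (Fin n₂) (Fin n₂) F).map σ :=
      Matrix.ext fun a b => map_mul σ _ _
    rw [hz, hGC, hmap, ← Matrix.kroneckerMap_transpose, ← Matrix.mul_kronecker_mul,
      ← Matrix.mul_kronecker_mul, hA₁, hA₂, Matrix.one_kronecker_one]
  set Z : Matrix (Fin n) (Fin n) F := ((glReindex e.symm z : GL (Fin n) F) : Matrix (Fin n) (Fin n) F) with hZ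
  have hZe : Z = Matrix.reindex e.symm e.symm (z : Matrix (Fin n₁ × Fin n₂) (Fin n₁ × Fin n₂) F) := rfl
  have hPG : Pmᵀ * Pm.map σ = Matrix.reindex e.symm e.symm G := by
    ext a b; simp [hGdef]
  calc _ = Zᵀ * (Pmᵀ * Pm.map σ) * Z.map σ := by
        simp only [Units.val_mul, Matrix.transpose_mul, Matrix.map_mul, Matrix.mul_assoc, hPm, hZ]
    _ = Matrix.reindex e.symm e.symm ((z : Matrix (Fin n₁ × Fin n₂) (Fin n₁ × Fin n₂) F)ᵀ * G *
        (z : Matrix (Fin n₁ × Fin n₂) (Fin n₁ × Fin n₂) F).map σ) := by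
        rw [hPG, hZe]
        simp [Matrix.reindex_apply, Matrix.transpose_submatrix, ← Matrix.submatrix_map]
    _ = 1 := by rw [hA]; simp

set_option maxHeartbeats 1000000 in
/-- Over the field with four elements a tensor factor of dimension two gives a decomposition into two
orthogonal halves. -/
theorem tensor_two_decomposition (hu : UnitarySetup n q σ) (hq : q = 2) {m : ℕ} (hm : 0 < m)
    {e : Fin n ≃ Fin 2 × Fin m} {P : GL (Fin n) F} (hP : P ∈ Cfsg.GU n F q) :
    ∃ D : Fin 2 → Submodule F (Fin n → F), IsNondegenerateMDecomposition (Cfsg.hermForm n F q) m D ∧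
      tensorProductSubgroup 2 m e P ⊓ Cfsg.GU n F q ≤ decompositionStabilizer D := by
  classical
  have : Nonempty (Fin m) := ⟨⟨0, hm⟩⟩
  let ins : Fin 2 → (Fin m → F) →ₗ[F] (Fin n → F) := fun i =>
    { toFun := fun x a => if (e a).1 = i then x (e a).2 else 0
      map_add' := fun x y => funext fun a => by by_cases h : (e a).1 = i <;> simp [h]
      map_smul' := fun c x => funext fun a => by by_cases h : (e a).1 = i <;> simp [h] }
  let emb : Fin 2 → (Fin m → F) →ₗ[F] (Fin n → F) := fun i =>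
    (Matrix.toLin' (P : Matrix (Fin n) (Fin n) F)).comp (ins i)
  have hemb : ∀ i x, emb i x = act P (ins i x) := fun i x => by simp [emb, Matrix.toLin'_apply]
  let D : Fin 2 → Submodule F (Fin n → F) := fun i => LinearMap.range (emb i)
  have hform : ∀ i j x y, Cfsg.hermForm n F q (emb i x) (emb j y) = if i = j then x ⬝ᵥ (σ ∘ y) else 0 := by
    intro i j x y
    rw [hemb, hemb, mem_GU.1 hP, hu.herm_eq, dotProduct, ← Equiv.sum_comp e.symm, Fintype.sum_prod_type,
      Finset.sum_eq_single i]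
    · by_cases h : i = j
      · subst h; simp [ins, dotProduct]
      · simp [ins, h]
    · intro l _ hl; simp [ins, hl]
    · exact fun h => absurd (Finset.mem_univ _) h
  have hinj : ∀ i, Function.Injective (emb i) := by
    intro i x y hxy
    funext k
    have := congrFun (act_injective P ((hemb i x).symm.trans (hxy.trans (hemb i y)))) (e.symm (i, k))
    simpa [ins] using this
  have htop : D 0 ⊔ D 1 = ⊤ := by
    rw [eq_top_iff]
    intro v _
    rw [← act_act_inv P v, show act P⁻¹ v = ins 0 (fun k => act P⁻¹ v (e.symm (0, k))) +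
      ins 1 (fun k => act P⁻¹ v (e.symm (1, k))) from ?_]
    · rw [act, Matrix.mulVec_add]
      exact Submodule.add_mem_sup ⟨_, hemb 0 _⟩ ⟨_, hemb 1 _⟩
    · funext a
      rcases hi : e a with ⟨i, k⟩
      have ha : e.symm (i, k) = a := by rw [← hi, Equiv.symm_apply_apply]
      fin_cases i <;> simp_all [ins]
  have hort : ∀ i j, i ≠ j → AreOrthogonalFor (Cfsg.hermForm n F q) (D i) (D j) := by
    rintro i j hij _ ⟨x, rfl⟩ _ ⟨y, rfl⟩
    rw [hform, if_neg hij]
  have hnd : ∀ i, IsNondegenerateOn (Cfsg.hermForm n F q) (D i) := by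
    rintro i _ ⟨x, rfl⟩ hx
    obtain ⟨k, hk⟩ : ∃ k, x k ≠ 0 := by
      by_contra hall
      push Not at hall
      exact hx (by rw [show x = 0 from funext hall, map_zero])
    have h1 : Cfsg.hermForm n F q (emb i x) (emb i (Pi.single k 1)) = x k := by
      rw [hform, if_pos rfl, show σ ∘ (Pi.single k 1 : Fin m → F) = Pi.single k 1 from
        funext fun l => by rcases eq_or_ne l k with rfl | h <;> simp [*]]
      simp
    exact ⟨⟨_, ⟨Pi.single k 1, rfl⟩, fun h => hk (h1 ▸ hu.eq_zero_comm.1 h)⟩, ⟨_, ⟨Pi.single k 1, rfl⟩, h1 ▸ hk⟩⟩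
  have hdisj : Disjoint (D 0) (D 1) := by
    rw [Submodule.disjoint_def]
    intro v hv hv'
    by_contra hv0
    obtain ⟨x, hx, hvx⟩ := (hnd 0 v hv hv0).2
    exact hvx (hort 1 0 (by decide) v hv' x hx)
  refine ⟨D, ⟨⟨le_rfl, hm, fun i => ?_, ?_, ?_⟩, hnd, hort⟩, ?_⟩
  · rw [LinearMap.finrank_range_of_inj (hinj i), Module.finrank_fin_fun]
  · rw [iSupIndep_pair (by decide : (0 : Fin 2) ≠ 1) (by decide)]
    exact hdisj
  · rw [eq_top_iff, ← htop]
    exact sup_le (le_iSup D 0) (le_iSup D 1)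
  rintro g ⟨⟨_, ⟨z, ⟨a, b, hz⟩, rfl⟩, rfl⟩, hgu⟩
  -- the first factor is monomial
  set A : Matrix (Fin 2) (Fin 2) F := (a : Matrix (Fin 2) (Fin 2) F) with hA
  set Bm : Matrix (Fin m) (Fin m) F := (b : Matrix (Fin m) (Fin m) F) with hB
  have hact : ∀ i x, act (P * glReindex e.symm z * P⁻¹) (emb i x) =
      A 0 i • emb 0 (Bm *ᵥ x) + A 1 i • emb 1 (Bm *ᵥ x) := by
    intro i x
    rw [hemb, hemb, hemb, act_mul, act_inv_act, act_mul]
    show act P _ = (A 0 i) • ((P : Matrix (Fin n) (Fin n) F) *ᵥ _) + (A 1 i) • ((P : Matrix (Fin n) (Fin n) F) *ᵥ _)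
    rw [← Matrix.mulVec_smul, ← Matrix.mulVec_smul, ← Matrix.mulVec_add]
    congr 1
    funext r
    simp only [act, glReindex, Units.coe_mapEquiv, Matrix.mulVec, dotProduct]
    rw [← Equiv.sum_comp e.symm, Fintype.sum_prod_type, Finset.sum_eq_single i]
    · rcases hi : e r with ⟨l, k⟩
      fin_cases l <;>
        simp [ins, hz, hi, Finset.mul_sum, mul_assoc, hA, hB, Matrix.mulVec, dotProduct]
    · intro l _ hl; simp [ins, hl]
    · exact fun h => absurd (Finset.mem_univ _) h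
  have hsum : ∀ i j x, (A 0 i * σ (A 0 j) + A 1 i * σ (A 1 j)) * ((Bm *ᵥ x) ⬝ᵥ (σ ∘ (Bm *ᵥ x))) =
      if i = j then x ⬝ᵥ (σ ∘ x) else 0 := by
    intro i j x
    rw [← hform, ← mem_GU.1 hgu (emb i x) (emb j x)]
    show _ = Cfsg.hermForm n F q (act (P * glReindex e.symm z * P⁻¹) _) (act (P * glReindex e.symm z * P⁻¹) _)
    rw [hact, hact, hu.sesqui.add_left, hu.sesqui.add_right, hu.sesqui.add_right, hu.sesqui.smul_left,
      hu.sesqui.smul_left, hu.sesqui.smul_left, hu.sesqui.smul_left, hu.sesqui.smul_right, hu.sesqui.smul_right,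
      hu.sesqui.smul_right, hu.sesqui.smul_right, hform, hform, hform, hform]
    simp
    ring
  obtain ⟨k⟩ := ‹Nonempty (Fin m)›
  set x₀ : Fin m → F := Pi.single k 1
  have hx₀ : x₀ ⬝ᵥ (σ ∘ x₀) = 1 := by simp [x₀]
  set ν := (Bm *ᵥ x₀) ⬝ᵥ (σ ∘ (Bm *ᵥ x₀))
  have hcol : ∀ j, A 0 j = 0 ∨ A 1 j = 0 := by
    intro j
    by_contra hne
    push Not at hne
    have hnorm : ∀ c : F, c ≠ 0 → c * σ c = 1 := by
      intro c hc
      have h3 := FiniteField.pow_card_sub_one_eq_one c hc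
      rw [hu.card, hq] at h3
      rw [hu.pow, hq]
      linear_combination h3
    have h2 : (2 : F) = 0 := by
      have h4 : ((Fintype.card F : ℕ) : F) = 0 := Nat.cast_card_eq_zero F
      rw [hu.card, hq] at h4
      have h5 : (2 : F) * 2 = 0 := by norm_num at h4 ⊢; exact h4
      exact mul_self_eq_zero.mp h5
    have h6 := hsum j j x₀
    rw [if_pos rfl, hx₀, hnorm _ hne.1, hnorm _ hne.2, one_add_one_eq_two, h2, zero_mul] at h6
    exact zero_ne_one h6
  have hAdet : A.det ≠ 0 := (Matrix.GeneralLinearGroup.det a).ne_zero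
  rw [Matrix.det_fin_two] at hAdet
  have hle : ∀ i l, (∀ l', l' ≠ l → A l' i = 0) →
      (D i).map (Matrix.toLin' ((P * glReindex e.symm z * P⁻¹ : GL (Fin n) F) : Matrix (Fin n) (Fin n) F)) = D l := by
    intro i l hl
    refine Submodule.eq_of_le_of_finrank_eq ?_ ?_
    · rintro _ ⟨_, ⟨x, rfl⟩, rfl⟩
      rw [Matrix.toLin'_apply]
      show act _ _ ∈ _
      rw [hact]
      fin_cases l
      · rw [hl 1 (by decide), zero_smul, add_zero]
        exact Submodule.smul_mem _ _ ⟨_, rfl⟩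
      · rw [hl 0 (by decide), zero_smul, zero_add]
        exact Submodule.smul_mem _ _ ⟨_, rfl⟩
    · rw [(Submodule.equivMapOfInjective _ (fun x y h => act_injective (P * glReindex e.symm z * P⁻¹) (by simpa only [Matrix.toLin'_apply] using h))
        (D i)).symm.finrank_eq, LinearMap.finrank_range_of_inj (hinj i), LinearMap.finrank_range_of_inj (hinj l)]
  rcases hcol 0 with h | h
  · have h' : A 1 1 = 0 := by
      rcases hcol 1 with h1 | h1
      · exact absurd (by rw [h, h1]; ring) hAdet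
      · exact h1
    refine ⟨Equiv.swap 0 1, fun i => ?_⟩
    fin_cases i
    · exact hle 0 1 fun l hl => by fin_cases l <;> simp_all
    · exact hle 1 0 fun l hl => by fin_cases l <;> simp_all
  · have h' : A 0 1 = 0 := by
      rcases hcol 1 with h1 | h1
      · exact h1
      · exact absurd (by rw [h, h1]; ring) hAdet
    refine ⟨1, fun i => ?_⟩
    fin_cases i
    · exact hle 0 0 fun l hl => by fin_cases l <;> simp_all
    · exact hle 1 1 fun l hl => by fin_cases l <;> simp_all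

end UnitarySetup

end CfsgLib.SmallDim
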