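import Cfsg.Agent.Lib.SmallDim.UnitaryTensor
import Cfsg.Agent.Lib.SmallDim.TensorWreathClass

/-!
Groups of unitary similitudes of a bilinear form lie in subfield groups of index two.
-/

set_option autoImplicit false
set_option linter.style.haveILetI false

namespace CfsgLib.SmallDim

open scoped MatrixGroups Matrix Kronecker
open Cfsg.Geo

variable {F : Type*} [Field F]

/-- A quadratic expression in an alternating matrix vanishes. -/
lemma dotProduct_mulVec_self_of_alt {ι : Type} [Fintype ι] {M : Matrix ι ι F} (h : ∀ i j, M j i = -M i j)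
    (hd : ∀ i, M i i = 0) (u : ι → F) : u ⬝ᵥ (M *ᵥ u) = 0 := by
  classical
  simp only [dotProduct, Matrix.mulVec, Finset.mul_sum]
  rw [← Finset.sum_product']
  refine Finset.sum_involution (fun p _ => (p.2, p.1)) (fun p _ => ?_) (fun p _ hp he => ?_)
    (fun p _ => Finset.mem_product.2 ⟨Finset.mem_univ _, Finset.mem_univ _⟩) (fun p _ => rfl)
  · rw [h p.1 p.2]; ring
  · obtain ⟨i, j⟩ := p
    obtain rfl : j = i := congrArg Prod.fst he
    exact hp (by rw [hd]; ring)

/-- A matrix whose conjugate is a multiple of itself lies in a subfield group. -/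
theorem mem_subfieldSubgroup_of_map {ι : Type} [Fintype ι] [DecidableEq ι] [Nonempty ι] (σ : F ≃+* F)
    {K : Subfield F} (hK : ∀ x, x ∈ K ↔ σ x = x) {g P : GL ι F} {c : F}
    (h : ((P⁻¹ * g * P : GL ι F) : Matrix ι ι F).map σ = c • ((P⁻¹ * g * P : GL ι F) : Matrix ι ι F)) :
    g ∈ subfieldSubgroup K P := by
  classical
  set Y : GL ι F := P⁻¹ * g * P
  obtain ⟨i₀, j₀, ha⟩ : ∃ i j, (Y : Matrix ι ι F) i j ≠ 0 := by
    by_contra hall
    push Not at hall
    exact Units.ne_zero Y (Matrix.ext hall)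
  set a := (Y : Matrix ι ι F) i₀ j₀
  have hσa : σ a = c * a := congrFun (congrFun h i₀) j₀
  have hc0 : c ≠ 0 := fun h0 => ha ((map_eq_zero σ).1 (by rw [hσa, h0, zero_mul]))
  set z : GL ι F := Units.map (Matrix.scalar ι : F →+* Matrix ι ι F).toMonoidHom (Units.mk0 a ha)
  refine mem_subfieldSubgroup.2 ⟨z⁻¹ * Y, z, fun i j => ?_, scalar_mem_scalars _, ?_⟩
  · rw [hK]
    have hij : ((z⁻¹ * Y : GL ι F) : Matrix ι ι F) i j = a⁻¹ * (Y : Matrix ι ι F) i j := by
      show ((Matrix.scalar ι) ((Units.mk0 a ha)⁻¹ : Fˣ).1 * (Y : Matrix ι ι F)) i j = _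
      simp
    have h' : σ ((Y : Matrix ι ι F) i j) = c * (Y : Matrix ι ι F) i j := congrFun (congrFun h i) j
    rw [hij, map_mul, map_inv₀, hσa, h']
    field_simp
  · have hz : z * (z⁻¹ * Y) = z⁻¹ * Y * z := scalars_commute (scalar_mem_scalars _) _
    rw [← hz, mul_inv_cancel_left]
    simp [Y, mul_assoc]

variable [Fintype F] {n q : ℕ} {σ : F ≃+* F}

namespace UnitarySetup

/-- A basis of vectors fixed by a semilinear involution. -/
lemma exists_fixed_basis (hu : UnitarySetup n q σ) {N : Matrix (Fin n) (Fin n) F} (hN : N.map σ * N = 1) :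
    ∃ P : GL (Fin n) F, (P : Matrix (Fin n) (Fin n) F).map σ = N * (P : Matrix (Fin n) (Fin n) F) := by
  classical
  have hσσ : ∀ A : Matrix (Fin n) (Fin n) F, (A.map σ).map σ = A := fun A => Matrix.ext fun _ _ => hu.invol _
  let S : Set (Fin n → F) := {v | σ ∘ v = N *ᵥ v}
  have hspan : ⊤ ≤ Submodule.span F S := by
    intro v _
    obtain ⟨a, ha⟩ : ∃ a, σ a ≠ a := by
      by_contra h
      push Not at h
      exact hu.isUnitary.ne_refl (RingEquiv.ext h)
    set w := N.map σ *ᵥ (σ ∘ v)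
    have hmem : ∀ t : F, t • v + σ t • w ∈ S := by
      intro t
      show σ ∘ (t • v + σ t • w) = N *ᵥ (t • v + σ t • w)
      have hw : σ ∘ w = N *ᵥ v := by
        have h := map_mulVec_comp (σ : F →+* F) (N.map σ) (σ ∘ v)
        simp only [RingEquiv.coe_toRingHom] at h
        rw [h, hσσ]
        congr 1
        funext i; exact hu.invol _
      have hw' : N *ᵥ w = σ ∘ v := by
        rw [Matrix.mulVec_mulVec, mul_eq_one_comm.mp hN, Matrix.one_mulVec]
      rw [Matrix.mulVec_add, Matrix.mulVec_smul, Matrix.mulVec_smul, hw', ← hw]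
      funext i
      simp [hu.invol, add_comm]
    have h1 := Submodule.sub_mem _ (Submodule.smul_mem _ (σ a) (Submodule.subset_span (hmem 1)))
      (Submodule.subset_span (hmem a))
    rw [map_one, one_smul, one_smul, show σ a • (v + w) - (a • v + σ a • w) = (σ a - a) • v by
      rw [smul_add, sub_smul]; abel] at h1
    have h2 := Submodule.smul_mem _ (σ a - a)⁻¹ h1
    rwa [smul_smul, inv_mul_cancel₀ (sub_ne_zero.mpr ha), one_smul] at h2
  let bs := Module.Basis.ofSpan hspan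
  let bs' := bs.reindex (bs.indexEquiv (Pi.basisFun F (Fin n)))
  have hcol : ∀ j, σ ∘ (bs' j) = N *ᵥ bs' j := fun j => by
    rw [Module.Basis.reindex_apply]
    exact Module.Basis.ofSpan_subset hspan ⟨_, rfl⟩
  let Bm : Matrix (Fin n) (Fin n) F := Matrix.of fun i j => bs' j i
  have hBli : Function.Injective fun v => Bm *ᵥ v :=
    Matrix.mulVec_injective_iff.mpr bs'.linearIndependent
  obtain ⟨Bu, hBu⟩ := Matrix.mulVec_injective_iff_isUnit.mp hBli
  refine ⟨Bu, ?_⟩
  rw [hBu]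
  ext a c
  have := congrFun (hcol c) a
  simpa [Matrix.mul_apply, Matrix.mulVec, dotProduct, Bm] using this

/-- Unitary similitudes of the bilinear form with Gram matrix `B` lie in a subfield group whose structure
carries `ζ` times the Hermitian form. -/
theorem subfield_of_bilinear (hu : UnitarySetup n q σ) (hn : 0 < n) {H : Subgroup (GL (Fin n) F)}
    (hG : H ≤ Cfsg.GU n F q) {B : Matrix (Fin n) (Fin n) F} {d : F}
    (hB : B.map σ * B = d • 1) (hd : σ d = d) (hd0 : d ≠ 0)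
    (hsim : ∀ g ∈ H, ∃ c : F, (g : Matrix (Fin n) (Fin n) F)ᵀ * B * (g : Matrix (Fin n) (Fin n) F) = c • B) :
    ∃ (F₀ : Subfield F) (P : GL (Fin n) F) (lam : F), Fintype.card F = Nat.card F₀ ^ 2 ∧ lam ≠ 0 ∧
      H ≤ subfieldSubgroup F₀ P ∧
      (∀ i j, Cfsg.hermForm n F q ((P : Matrix (Fin n) (Fin n) F) *ᵥ Pi.single i 1)
        ((P : Matrix (Fin n) (Fin n) F) *ᵥ Pi.single j 1) =
          lam * ((P : Matrix (Fin n) (Fin n) F)ᵀ * B * (P : Matrix (Fin n) (Fin n) F)) i j) ∧
      (∀ x, x ∈ F₀ ↔ σ x = x) := by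
  classical
  haveI : Nonempty (Fin n) := ⟨⟨0, hn⟩⟩
  obtain ⟨K, hK, hcard⟩ := hu.exists_fixed
  obtain ⟨lam, hlam, -⟩ := hu.exists_norm_avoid (b := d⁻¹) (by rw [map_inv₀, hd]) (inv_ne_zero hd0) ∅ (by simp)
  have hlam0 : lam ≠ 0 := fun h => inv_ne_zero hd0 (by rw [← hlam, h, zero_mul])
  set N := lam • B with hNdef
  have hN : N.map σ * N = 1 := by
    rw [show N.map σ = σ lam • B.map σ from Matrix.ext fun i j => map_mul σ _ _, Matrix.smul_mul,
      Matrix.mul_smul, hB, smul_smul, smul_smul, mul_comm (σ lam), hlam, inv_mul_cancel₀ hd0, one_smul]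
  obtain ⟨P, hP⟩ := hu.exists_fixed_basis hN
  refine ⟨K, P, lam, by rw [hu.card, hcard], hlam0, fun g hg => ?_, fun i j => ?_, hK⟩
  · set X : Matrix (Fin n) (Fin n) F := (g : Matrix (Fin n) (Fin n) F)
    obtain ⟨c, hc⟩ := hsim g hg
    have h2 : X.map σ * Xᵀ = 1 := mul_eq_one_comm.mp (hu.transpose_mul (hG hg))
    have hc0 : c ≠ 0 := by
      intro h0
      rw [h0, zero_smul] at hc
      have h3 := congrArg Matrix.det hc
      rw [Matrix.det_mul, Matrix.det_mul, Matrix.det_transpose, Matrix.det_zero] at h3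
      have hBd : B.det ≠ 0 := by
        intro hb
        have h4 := congrArg Matrix.det hB
        rw [Matrix.det_mul, hb, mul_zero, Matrix.det_smul, Matrix.det_one, mul_one] at h4
        exact pow_ne_zero _ hd0 h4.symm
      have hXd : X.det ≠ 0 := (Matrix.GeneralLinearGroup.det g).ne_zero
      exact mul_ne_zero (mul_ne_zero hXd hBd) hXd h3
    have h5 : X.map σ * N = c⁻¹ • (N * X) := by
      have h6 : c • (X.map σ * B) = B * X := by
        rw [← Matrix.mul_smul, ← hc, ← Matrix.mul_assoc, ← Matrix.mul_assoc, h2, Matrix.one_mul]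
      rw [hNdef, Matrix.mul_smul, Matrix.smul_mul, ← h6, smul_smul, smul_smul]
      congr 1
      field_simp
    refine mem_subfieldSubgroup_of_map σ hK (c := c⁻¹) ?_
    set Y : Matrix (Fin n) (Fin n) F := ((P⁻¹ * g * P : GL (Fin n) F) : Matrix (Fin n) (Fin n) F)
    set Pm : Matrix (Fin n) (Fin n) F := (P : Matrix (Fin n) (Fin n) F)
    have hY : Pm * Y = X * Pm := by
      simp only [Pm, Y, X, ← Units.val_mul]
      congr 1
      group
    have h7 : Pm.map σ * Y.map σ = Pm.map σ * (c⁻¹ • Y) := by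
      rw [← Matrix.map_mul, hY, Matrix.map_mul, hP, ← Matrix.mul_assoc, h5, Matrix.smul_mul, Matrix.mul_assoc,
        ← hY, ← Matrix.mul_assoc, Matrix.mul_smul]
    exact (P.isUnit.map (σ : F →+* F).mapMatrix).mul_right_injective h7
  · set Pm : Matrix (Fin n) (Fin n) F := (P : Matrix (Fin n) (Fin n) F)
    rw [show Cfsg.hermForm n F q (Pm *ᵥ Pi.single i 1) (Pm *ᵥ Pi.single j 1) =
      (Pmᵀ * Pm.map σ) i j from ?_, hP, hNdef, Matrix.smul_mul, Matrix.mul_smul, ← Matrix.mul_assoc]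
    · rfl
    · rw [Matrix.mulVec_single_one, Matrix.mulVec_single_one, hu.herm_eq]
      rfl

/-- Unitary similitudes of an alternating form lie in a symplectic subfield group. -/
theorem symplectic_subfield (hu : UnitarySetup n q σ) (hn : 0 < n) {H : Subgroup (GL (Fin n) F)}
    (hG : H ≤ Cfsg.GU n F q) {B : Matrix (Fin n) (Fin n) F} {d : F}
    (hB : B.map σ * B = d • 1) (hd : σ d = d) (hd0 : d ≠ 0) (hskew : ∀ i j, B j i = -B i j)
    (hdiag : ∀ i, B i i = 0)
    (hsim : ∀ g ∈ H, ∃ c : F, (g : Matrix (Fin n) (Fin n) F)ᵀ * B * (g : Matrix (Fin n) (Fin n) F) = c • B) :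
    ∃ (F₀ : Subfield F) (P : GL (Fin n) F) (ζ : F), Fintype.card F = Nat.card F₀ ^ 2 ∧ ζ ≠ 0 ∧
      ζ + ζ ^ q = 0 ∧ IsFormRationalStructure (Cfsg.hermForm n F q) F₀ ζ P ∧
      (∀ u : Fin n → F, (∀ i, u i ∈ F₀) → Cfsg.hermForm n F q ((P : Matrix (Fin n) (Fin n) F) *ᵥ u)
        ((P : Matrix (Fin n) (Fin n) F) *ᵥ u) = 0) ∧
      H ≤ subfieldSubgroup F₀ P := by
  classical
  have hε : Bᵀ = (-1 : F) • B := Matrix.ext fun i j => by simp [hskew i j]
  obtain ⟨K, P, lam, hcard, hlam, hle, hgram, hK⟩ := hu.subfield_of_bilinear hn hG hB hd hd0 hsim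
  obtain ⟨ζ, hζ0, hζ, -⟩ := hu.exists_skew_avoid ∅ (by have := hu.two_le; simp; omega)
  set Pm : Matrix (Fin n) (Fin n) F := (P : Matrix (Fin n) (Fin n) F)
  set G := lam • (Pmᵀ * B * Pm) with hGdef
  have hform : ∀ u v : Fin n → F, Cfsg.hermForm n F q (Pm *ᵥ u) (Pm *ᵥ v) = u ⬝ᵥ (G *ᵥ (σ ∘ v)) := by
    intro u v
    rw [(hu.sesqui.transform Pm).apply_eq u v]
    congr 2
    exact Matrix.ext fun i j => hgram i j
  have hherm : ∀ i j, σ (G i j) = G j i := by
    intro i j
    have h1 : Cfsg.hermForm n F q (Pm *ᵥ Pi.single j 1) (Pm *ᵥ Pi.single i 1) =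
        σ (Cfsg.hermForm n F q (Pm *ᵥ Pi.single i 1) (Pm *ᵥ Pi.single j 1)) := hu.herm _ _
    rw [hgram, hgram] at h1
    exact h1.symm
  have hskewG : ∀ i j, G j i = -G i j := by
    intro i j
    have h1 : (Pmᵀ * B * Pm)ᵀ = -(Pmᵀ * B * Pm) := by
      rw [Matrix.transpose_mul, Matrix.transpose_mul, Matrix.transpose_transpose, hε, neg_one_smul]
      simp [Matrix.mul_assoc]
    have h2 := congrFun (congrFun h1 i) j
    simp only [Matrix.transpose_apply, Matrix.neg_apply] at h2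
    simp [hGdef, h2]
  have hdiagG : ∀ i, G i i = 0 := by
    intro i
    have h1 := dotProduct_mulVec_self_of_alt hskew hdiag (Pm *ᵥ Pi.single i 1)
    rw [Matrix.mulVec_mulVec, Matrix.mulVec_single_one, Matrix.mulVec_single_one] at h1
    have h2 : (Pmᵀ * B * Pm) i i = 0 := by rw [Matrix.mul_assoc]; exact h1
    simp [hGdef, h2]
  refine ⟨K, P, ζ, hcard, hζ0, by rw [← hu.pow, hζ, add_neg_cancel], fun u v hu' hv => ?_, fun u hu' => ?_, hle⟩
  · rw [hform]
    have hσv : σ ∘ v = v := funext fun i => (hK _).1 (hv i)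
    rw [hσv, dotProduct, Finset.mul_sum]
    refine K.sum_mem fun i _ => ?_
    rw [Matrix.mulVec, dotProduct, Finset.mul_sum, Finset.mul_sum]
    refine K.sum_mem fun j _ => ?_
    rw [show ζ * (u i * (G i j * v j)) = u i * (ζ * G i j) * v j by ring]
    refine K.mul_mem (K.mul_mem (hu' i) ((hK _).2 ?_)) (hv j)
    rw [map_mul, hζ, hherm, hskewG]; ring
  · rw [hform, show σ ∘ u = u from funext fun i => (hK _).1 (hu' i)]
    exact dotProduct_mulVec_self_of_alt hskewG hdiagG u

/-- Unitary similitudes of a symmetric form lie in an orthogonal subfield group. -/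
theorem orthogonal_subfield (hu : UnitarySetup n q σ) (hn : 0 < n) {H : Subgroup (GL (Fin n) F)}
    (hG : H ≤ Cfsg.GU n F q) {B : Matrix (Fin n) (Fin n) F} {d : F}
    (hB : B.map σ * B = d • 1) (hd : σ d = d) (hd0 : d ≠ 0) (hsymm : Bᵀ = B)
    (hsim : ∀ g ∈ H, ∃ c : F, (g : Matrix (Fin n) (Fin n) F)ᵀ * B * (g : Matrix (Fin n) (Fin n) F) = c • B) :
    ∃ (F₀ : Subfield F) (P : GL (Fin n) F), Fintype.card F = Nat.card F₀ ^ 2 ∧
      IsFormRationalStructure (Cfsg.hermForm n F q) F₀ 1 P ∧ H ≤ subfieldSubgroup F₀ P := by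
  classical
  obtain ⟨K, P, lam, hcard, hlam, hle, hgram, hK⟩ :=
    hu.subfield_of_bilinear hn hG hB hd hd0 hsim
  set Pm : Matrix (Fin n) (Fin n) F := (P : Matrix (Fin n) (Fin n) F)
  set G := lam • (Pmᵀ * B * Pm) with hGdef
  refine ⟨K, P, hcard, fun u v hu' hv => ?_, hle⟩
  rw [one_mul, (hu.sesqui.transform Pm).apply_eq u v]
  have hG' : gramMatrix (fun u v => Cfsg.hermForm n F q (Pm *ᵥ u) (Pm *ᵥ v)) = G :=
    Matrix.ext fun i j => hgram i j
  have hsymG : ∀ i j, G j i = G i j := by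
    intro i j
    have h1 : (Pmᵀ * B * Pm)ᵀ = Pmᵀ * B * Pm := by
      rw [Matrix.transpose_mul, Matrix.transpose_mul, Matrix.transpose_transpose, hsymm, Matrix.mul_assoc]
    have h2 := congrFun (congrFun h1 i) j
    simp only [Matrix.transpose_apply] at h2
    simp [hGdef, h2]
  have hherm : ∀ i j, σ (G i j) = G j i := by
    intro i j
    have h1 : Cfsg.hermForm n F q (Pm *ᵥ Pi.single j 1) (Pm *ᵥ Pi.single i 1) =
        σ (Cfsg.hermForm n F q (Pm *ᵥ Pi.single i 1) (Pm *ᵥ Pi.single j 1)) := hu.herm _ _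
    rw [hgram, hgram] at h1
    exact h1.symm
  rw [hG', RingEquiv.coe_toRingHom, show σ ∘ v = v from funext fun i => (hK _).1 (hv i), dotProduct]
  refine K.sum_mem fun i _ => K.mul_mem (hu' i) ?_
  rw [Matrix.mulVec, dotProduct]
  exact K.sum_mem fun j _ => K.mul_mem ((hK _).2 (by rw [hherm, hsymG])) (hv j)

/-- The form attached to a decomposition into two-dimensional tensor factors along a unitary change of
basis puts a group into a subfield group. -/
theorem subfield_of_two_power (hu : UnitarySetup n q σ) {k : ℕ} (hk : 0 < k) (e : Fin n ≃ (Fin k → Fin 2))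
    {P : GL (Fin n) F} (hP : P ∈ Cfsg.GU n F q) {H : Subgroup (GL (Fin n) F)} (hG : H ≤ Cfsg.GU n F q)
    (hle : H ≤ tensorWreathSubgroup 2 k e P) :
    (∃ (F₀ : Subfield F) (P : GL (Fin n) F) (ζ : F), Fintype.card F = Nat.card F₀ ^ 2 ∧ ζ ≠ 0 ∧
      ζ + ζ ^ q = 0 ∧ IsFormRationalStructure (Cfsg.hermForm n F q) F₀ ζ P ∧
      (∀ u : Fin n → F, (∀ i, u i ∈ F₀) → Cfsg.hermForm n F q ((P : Matrix (Fin n) (Fin n) F) *ᵥ u)
        ((P : Matrix (Fin n) (Fin n) F) *ᵥ u) = 0) ∧
      H ≤ subfieldSubgroup F₀ P) ∨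
    (Odd q ∧ ∃ (F₀ : Subfield F) (P : GL (Fin n) F), Fintype.card F = Nat.card F₀ ^ 2 ∧
      IsFormRationalStructure (Cfsg.hermForm n F q) F₀ 1 P ∧ H ≤ subfieldSubgroup F₀ P) := by
  classical
  have hn : 0 < n := by
    have := Fintype.card_congr e
    simp at this
    rw [this]; positivity
  set J : Matrix (Fin n) (Fin n) F := Matrix.reindexAlgEquiv F F e.symm (powGram k) with hJ
  set Q : Matrix (Fin n) (Fin n) F := ((P⁻¹ : GL (Fin n) F) : Matrix (Fin n) (Fin n) F) with hQ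
  set B := Qᵀ * J * Q with hB
  have hQu : Q * Qᵀ.map σ = 1 ∧ Qᵀ * Q.map σ = 1 := by
    have h := hu.transpose_mul ((Cfsg.GU n F q).inv_mem hP)
    refine ⟨?_, h⟩
    have h' := mul_eq_one_comm.1 h
    have h'' := congrArg (fun X : Matrix (Fin n) (Fin n) F => X.map σ) h'
    simp only [Matrix.map_mul] at h''
    rw [show (Q.map σ).map σ = Q from Matrix.ext fun _ _ => hu.invol _,
      Matrix.map_one _ (map_zero σ) (map_one σ)] at h''
    exact h''
  have hJσ : J.map σ = J := by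
    ext a b
    simp only [hJ, Matrix.coe_reindexAlgEquiv, Matrix.reindex_apply, Matrix.map_apply, Matrix.submatrix_apply,
      powGram, pureMat, Matrix.of_apply, map_prod]
    refine Finset.prod_congr rfl fun i _ => ?_
    generalize (e.symm.symm a) i = u
    generalize (e.symm.symm b) i = v
    fin_cases u <;> fin_cases v <;> simp [detGram]
  have hJJ : J * J = ((-1 : F) ^ k) • 1 := by rw [hJ, ← map_mul, powGram_mul_self, map_smul, map_one]
  have hBB : B.map σ * B = ((-1 : F) ^ k) • 1 := by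
    rw [hB, Matrix.map_mul, Matrix.map_mul, hJσ]
    calc Qᵀ.map σ * J * Q.map σ * (Qᵀ * J * Q) = Qᵀ.map σ * J * (Q.map σ * Qᵀ) * J * Q := by
          simp only [Matrix.mul_assoc]
      _ = _ := by
          rw [mul_eq_one_comm.1 hQu.2, Matrix.mul_one, Matrix.mul_assoc (Qᵀ.map σ), hJJ, Matrix.mul_smul,
            Matrix.mul_one, Matrix.smul_mul, mul_eq_one_comm.1 hQu.1]
  have hJT : Jᵀ = ((-1 : F) ^ k) • J := by
    rw [hJ, Matrix.coe_reindexAlgEquiv, Matrix.transpose_reindex, powGram_transpose]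
    rfl
  have hBT : Bᵀ = ((-1 : F) ^ k) • B := by
    rw [hB, Matrix.transpose_mul, Matrix.transpose_mul, Matrix.transpose_transpose, hJT,
      Matrix.smul_mul, Matrix.mul_smul, Matrix.mul_assoc]
  have hJdiag : ∀ a, J a a = 0 := by
    intro a
    simp only [hJ, Matrix.coe_reindexAlgEquiv, Matrix.reindex_apply, Matrix.submatrix_apply, powGram, pureMat,
      Matrix.of_apply]
    refine Finset.prod_eq_zero (Finset.mem_univ ⟨0, hk⟩) ?_
    generalize (e.symm.symm a) ⟨0, hk⟩ = u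
    fin_cases u <;> simp [detGram]
  have hsim : ∀ g ∈ H, ∃ c : F, (g : Matrix (Fin n) (Fin n) F)ᵀ * B * (g : Matrix (Fin n) (Fin n) F) = c • B := by
    intro g hg
    obtain ⟨c, hc⟩ := tensorWreathSubgroup_le_powForm e P (hle hg)
    have hpf : ∀ u v, powForm e P u v = u ⬝ᵥ (B *ᵥ v) := by
      intro u v
      rw [hB, ← Matrix.mulVec_mulVec, ← Matrix.mulVec_mulVec, Matrix.dotProduct_mulVec u Qᵀ, Matrix.vecMul_transpose]
      simp only [powForm, dotProduct, Matrix.mulVec, hJ, Matrix.coe_reindexAlgEquiv, Matrix.reindex_apply,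
        Matrix.submatrix_apply, Equiv.symm_symm]
      rw [← Equiv.sum_comp e]
      refine Finset.sum_congr rfl fun a _ => ?_
      congr 1
      · rw [Equiv.symm_apply_apply]
      · rw [← Equiv.sum_comp e]
        simp [hQ]
    refine ⟨c, Matrix.ext fun i j => ?_⟩
    have h1 := hc (Pi.single i 1) (Pi.single j 1)
    rw [hpf, hpf] at h1
    rw [Matrix.smul_apply, smul_eq_mul, show B i j = (Pi.single i 1 : Fin n → F) ⬝ᵥ (B *ᵥ Pi.single j 1) by simp,
      ← h1, Matrix.mulVec_mulVec, Matrix.mulVec_single_one, Matrix.mulVec_single_one, Matrix.mul_assoc]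
    rfl
  have hd : σ ((-1 : F) ^ k) = (-1 : F) ^ k := by rw [map_pow, map_neg, map_one]
  have hd0 : ((-1 : F) ^ k) ≠ 0 := pow_ne_zero _ (neg_ne_zero.2 one_ne_zero)
  by_cases hsk : (-1 : F) ^ k = -1
  · left
    refine hu.symplectic_subfield hn hG hBB hd hd0 (fun i j => ?_) (fun i => ?_) hsim
    · have h := congrFun (congrFun hBT i) j
      simpa [hsk] using h
    · have h1 := dotProduct_mulVec_self_of_alt (M := J) (fun a b => by
        have h := congrFun (congrFun hJT a) b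
        simpa [hsk] using h) hJdiag (Q *ᵥ Pi.single i 1)
      rw [Matrix.mulVec_mulVec, Matrix.mulVec_single_one, Matrix.mulVec_single_one] at h1
      rw [hB, Matrix.mul_assoc]
      exact h1
  · have hsy : (-1 : F) ^ k = 1 := (neg_one_pow_eq_or F k).resolve_right hsk
    refine Or.inr ⟨?_, hu.orthogonal_subfield hn hG hBB hd hd0 (by rw [hBT, hsy, one_smul]) hsim⟩
    by_contra hqe
    apply hsk
    rw [hsy]
    obtain ⟨p, hchar⟩ := CharP.exists F
    obtain ⟨e', hp, hq⟩ := FiniteField.card F p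
    haveI := Fact.mk hp
    have hp2 : p = 2 := by
      obtain ⟨m, hm⟩ := Nat.not_odd_iff_even.1 hqe
      have : 2 ∣ p ^ (e' : ℕ) := by rw [← hq, hu.card, hm]; exact dvd_pow ⟨m, by ring⟩ two_ne_zero
      exact ((Nat.prime_dvd_prime_iff_eq Nat.prime_two hp).mp (Nat.prime_two.dvd_of_dvd_pow this)).symm
    subst hp2
    exact (CharTwo.neg_eq _).symm

end UnitarySetup

end CfsgLib.SmallDim
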