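import Cfsg.Agent.Lib.SmallDim.FormFactor
import Cfsg.Agent.Lib.SmallDim.UnitaryTensor
import Cfsg.Agent.Lib.SmallDim.SympPure
import Cfsg.Agent.Lib.SmallDim.ResidualGeneral
import Cfsg.Agent.Lib.SmallDim.UnitarySubfield
import Cfsg.Agent.Lib.SmallDim.LinearNotLE
import Cfsg.Agent.Lib.SmallDim.TensorClass
import Cfsg.Agent.Lib.SmallDim.UnitaryTwist
import Cfsg.Agent.Lib.CharTheory.Burnside
import Cfsg.Agent.Lib.ClassicalForms.Unitary.Card

/-!
Tensor-induced subgroups of the unitary group: unitary frames, and properness of two-factor wreath stabilisers.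
-/

set_option autoImplicit false
set_option linter.style.haveILetI false

namespace CfsgLib.SmallDim

open scoped MatrixGroups Matrix Kronecker commutatorElement
open Cfsg.Geo

section Absorb

variable {F : Type*} [Field F]

/-- The tensor-wreath subgroup does not change when the basis is changed inside it. -/
lemma tensorWreathSubgroup_absorb {ι : Type} [Fintype ι] [DecidableEq ι] {m k : ℕ}
    (e : ι ≃ (Fin k → Fin m)) (P : GL ι F) {z : GL (Fin k → Fin m) F} (hz : z ∈ tensorWreathStandard m k F) :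
    tensorWreathSubgroup m k e P ≤ tensorWreathSubgroup m k e (P * glReindex e.symm z) := by
  rintro _ ⟨_, ⟨y, hy, rfl⟩, rfl⟩
  refine ⟨_, ⟨z⁻¹ * y * z, mul_mem (mul_mem (inv_mem hz) hy) hz, rfl⟩, ?_⟩
  simp [map_mul, map_inv, mul_assoc]

end Absorb

namespace UnitarySetup

variable {F : Type*} [Field F] [Fintype F] {n q : ℕ} {σ : F ≃+* F}

/-- A unitary change of basis gives a tensor power structure of the standard forms. -/
lemma isTensorPowerFormStructure (hu : UnitarySetup n q σ) {m t : ℕ} (e : Fin n ≃ (Fin t → Fin m))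
    {P : GL (Fin n) F} (hP : P ∈ Cfsg.GU n F q) :
    IsTensorPowerFormStructure (fun x : F => x ^ q) (Cfsg.hermForm n F q) (Cfsg.hermForm m F q) e P := by
  obtain ⟨σ₁, h1⟩ := exists_unitarySetup m hu.card
  refine ⟨1, one_ne_zero, fun x y => ?_⟩
  show Cfsg.hermForm n F q (act P (x ∘ e)) (act P (y ∘ e)) = _
  rw [mem_GU.1 hP, hu.herm_eq, h1.gram_eq_one, one_mul]
  have hone : ∀ a b : Fin t → Fin m, (∏ i, (1 : Matrix (Fin m) (Fin m) F) (a i) (b i)) = if a = b then 1 else 0 := by
    intro a b
    split_ifs with h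
    · subst h; simp
    · obtain ⟨i, hi⟩ := Function.ne_iff.1 h
      exact Finset.prod_eq_zero (Finset.mem_univ i) (Matrix.one_apply_ne hi)
  simp only [dotProduct, Function.comp_apply, hu.pow, hone, mul_ite, mul_one, mul_zero, ite_mul, zero_mul,
    Finset.sum_ite_eq, Finset.mem_univ, if_true]
  exact Equiv.sum_comp e fun a => x a * y a ^ q

/-- The tensor-induced case with a unitary change of basis; the factors act in their slots by unitary
matrices. -/
theorem unitary_wreath_frame (hu : UnitarySetup n q σ) (hn : 0 < n) {H N : Subgroup (GL (Fin n) F)} {k : ℕ}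
    {L : Fin k → Subgroup (GL (Fin n) F)} (hG : H ≤ Cfsg.GU n F q) (hN : N ≤ H)
    (hNa : ActsAbsolutelyIrreducibly (matrixSet N)) (hL : InducedData H N k L) :
    ∃ (m : ℕ) (e : Fin n ≃ (Fin k → Fin m)) (P : GL (Fin n) F), 2 ≤ m ∧ P ∈ Cfsg.GU n F q ∧
      H ≤ tensorWreathSubgroup m k e P ∧ ∀ i, ∀ a ∈ L i, ∃ b : GL (Fin m) F, b ∈ Cfsg.GU m F q ∧
        a * P = P * glReindex e.symm (pureGL (Pi.mulSingle i b)) := by
  classical
  haveI : Nonempty (Fin n) := ⟨⟨0, hn⟩⟩
  have hk : 0 < k := by have := hL.two_le; omega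
  obtain ⟨m, e, P, S, hm, hle, hS, hslot, hconv⟩ := exists_tensorWreath_slots hL.two_le hL.comm
    (hL.iSup_eq.symm ▸ hNa) hL.nonscalar hL.perm
    (fun i => (hL.trans i).imp fun h hh => hh.2 _ rfl)
  have hLG : ∀ i, L i ≤ Cfsg.GU n F q := fun i => ((le_iSup L i).trans hL.iSup_eq.le).trans (hN.trans hG)
  haveI : Nonempty (Fin m) := ⟨⟨0, by omega⟩⟩
  set Pm : Matrix (Fin n) (Fin n) F := (P : Matrix (Fin n) (Fin n) F) with hPm
  set G : Matrix (Fin k → Fin m) (Fin k → Fin m) F := Matrix.reindex e e (Pmᵀ * Pm.map σ) with hGdef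
  have hPdet : Pm.det ≠ 0 := (Matrix.GeneralLinearGroup.det P).ne_zero
  have hGdet : IsUnit G.det := by
    rw [isUnit_iff_ne_zero, hGdef, Matrix.det_reindex_self, Matrix.det_mul, Matrix.det_transpose,
      show (Pm.map σ).det = σ Pm.det from (RingEquiv.map_det σ Pm).symm]
    exact mul_ne_zero hPdet ((map_ne_zero σ).2 hPdet)
  have hGherm : ∀ a b, σ (G b a) = G a b := fun a b => by
    simp [hGdef, Matrix.mul_apply, map_sum, hu.invol, mul_comm]
  have hblock : ∀ i, ∀ b ∈ S, (pureMat (Pi.mulSingle i b))ᵀ * G * (pureMat (Pi.mulSingle i b)).map σ = G := by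
    intro i b hb
    obtain ⟨x, hx, hxb⟩ := hslot i b hb
    set Bb := pureMat (Pi.mulSingle i b)
    have h1 : (Matrix.reindex e.symm e.symm Bb)ᵀ * (Pmᵀ * Pm.map σ) * (Matrix.reindex e.symm e.symm Bb).map σ =
        Pmᵀ * Pm.map σ := by
      calc _ = (Pm * Matrix.reindex e.symm e.symm Bb)ᵀ * (Pm * Matrix.reindex e.symm e.symm Bb).map σ := by
            simp only [Matrix.transpose_mul, Matrix.map_mul, Matrix.mul_assoc]
        _ = Pmᵀ * ((x : Matrix (Fin n) (Fin n) F)ᵀ * (x : Matrix (Fin n) (Fin n) F).map σ) * Pm.map σ := by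
            rw [← hxb]
            simp only [Matrix.transpose_mul, Matrix.map_mul, Matrix.mul_assoc]
        _ = _ := by rw [hu.transpose_mul (hLG i hx), Matrix.mul_one]
    have h2 := congrArg (Matrix.reindexAlgEquiv F F e) h1
    simp only [map_mul] at h2
    have e1 : Matrix.reindexAlgEquiv F F e (Matrix.reindex e.symm e.symm Bb)ᵀ = Bbᵀ := by ext p r; simp
    have e2 : Matrix.reindexAlgEquiv F F e ((Matrix.reindex e.symm e.symm Bb).map σ) = Bb.map σ := by
      ext p r; simp
    have e3 : Matrix.reindexAlgEquiv F F e Pmᵀ * Matrix.reindexAlgEquiv F F e (Pm.map σ) = G := by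
      rw [hGdef, ← map_mul, Matrix.coe_reindexAlgEquiv]
    rw [e1, e2, e3] at h2
    exact h2
  obtain ⟨G₀, c, hc0, hG₀, hinv₀, hGeq⟩ := exists_pureMat_of_invariant (σ := (σ : F →+* F)) (by omega) hS k G
    hGdet hblock hk
  have hGval : ∀ a b : Fin k → Fin m, G a b = c * ∏ i, G₀ (a i) (b i) := fun a b => by
    rw [hGeq]; rfl
  -- the factor is Hermitian up to a scalar
  obtain ⟨p, r, hpr⟩ : ∃ p r, G₀ p r ≠ 0 := by
    by_contra hall
    push Not at hall
    exact hG₀.ne_zero (by rw [show G₀ = 0 from Matrix.ext hall]; exact Matrix.det_zero)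
  set i₀ : Fin k := ⟨0, hk⟩
  obtain ⟨ν, hν⟩ : ∃ ν : F, ∀ x y, σ (G₀ y x) = ν * G₀ x y := by
    have key : ∀ x y, σ c * σ (G₀ y x) * σ (G₀ r p) ^ (k - 1) = c * G₀ x y * G₀ p r ^ (k - 1) := by
      intro x y
      have h := hGherm (Function.update (fun _ => p) i₀ x) (Function.update (fun _ => r) i₀ y)
      rw [hGval, hGval, map_mul, map_prod] at h
      rw [← Finset.mul_prod_erase _ _ (Finset.mem_univ i₀),
        ← Finset.mul_prod_erase _ _ (Finset.mem_univ i₀)] at h
      simp only [Function.update_self] at h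
      rw [Finset.prod_congr (f := fun i => σ (G₀ _ _)) (g := fun _ : Fin k => σ (G₀ r p)) rfl fun i hi => by
          simp only [Function.update_of_ne (Finset.ne_of_mem_erase hi)],
        Finset.prod_congr (f := fun i => G₀ _ _) (g := fun _ : Fin k => G₀ p r) rfl fun i hi => by
          simp only [Function.update_of_ne (Finset.ne_of_mem_erase hi)],
        Finset.prod_const, Finset.prod_const, Finset.card_erase_of_mem (Finset.mem_univ i₀), Finset.card_univ,
        Fintype.card_fin] at h
      linear_combination h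
    have h0 : σ c * σ (G₀ r p) ^ (k - 1) ≠ 0 := by
      intro h0
      have := key p r
      rw [show σ c * σ (G₀ r p) * σ (G₀ r p) ^ (k - 1) = (σ c * σ (G₀ r p) ^ (k - 1)) * σ (G₀ r p) by ring, h0,
        zero_mul] at this
      exact mul_ne_zero (mul_ne_zero hc0 hpr) (pow_ne_zero _ hpr) this.symm
    refine ⟨c * G₀ p r ^ (k - 1) / (σ c * σ (G₀ r p) ^ (k - 1)), fun x y => ?_⟩
    rw [div_mul_eq_mul_div, eq_div_iff h0]
    linear_combination key x y
  have hνν : ν * σ ν = 1 := by
    have h := congrArg σ (hν r p)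
    rw [hu.invol, map_mul, hν p r] at h
    exact mul_right_cancel₀ hpr (by linear_combination -h)
  obtain ⟨μ, hμ0, hμ⟩ := exists_ratio σ hu.isUnitary.ne_refl hu.invol hνν
  have hH₀ : ((μ • G₀).map σ)ᵀ = μ • G₀ := by
    ext x y
    simp only [Matrix.transpose_apply, Matrix.map_apply, Matrix.smul_apply, smul_eq_mul, map_mul, hν]
    linear_combination G₀ x y * hμ
  obtain ⟨A, hA⟩ := exists_orthonormal_matrix σ hu.isUnitary.ne_refl hu.invol hH₀
    (by rw [Matrix.det_smul]; exact mul_ne_zero (pow_ne_zero _ hμ0) hG₀.ne_zero)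
  set Am : Matrix (Fin m) (Fin m) F := (A : Matrix (Fin m) (Fin m) F)
  have hA' : Amᵀ * G₀ * Am.map σ = μ⁻¹ • 1 := by
    rw [← hA, Matrix.mul_smul, Matrix.smul_mul, smul_smul, inv_mul_cancel₀ hμ0, one_smul]
  set z : GL (Fin k → Fin m) F := pureGL (fun _ => A)
  set P₁ := P * glReindex e.symm z
  set d := c * μ⁻¹ ^ k
  have hgram : ((P₁ : GL (Fin n) F) : Matrix (Fin n) (Fin n) F)ᵀ *
      ((P₁ : GL (Fin n) F) : Matrix (Fin n) (Fin n) F).map σ = d • 1 := by
    have hz : (pureMat fun _ : Fin k => Am)ᵀ * G * (pureMat fun _ : Fin k => Am).map σ = d • 1 := by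
      rw [hGeq, pureMat_transpose, show (pureMat fun _ : Fin k => Am).map σ = pureMat (fun _ : Fin k => Am.map σ) from
          Matrix.ext fun a b => by simp [pureMat, map_prod],
        Matrix.mul_smul, Matrix.smul_mul, ← pureMat_mul, ← pureMat_mul]
      rw [show ((fun _ : Fin k => Amᵀ) * (fun _ : Fin k => G₀) * fun _ : Fin k => Am.map σ) =
          fun _ : Fin k => μ⁻¹ • (1 : Matrix (Fin m) (Fin m) F) from funext fun i => hA',
        pureMat_smul (fun _ : Fin k => μ⁻¹) (fun _ : Fin k => (1 : Matrix (Fin m) (Fin m) F)),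
        show (fun _ : Fin k => (1 : Matrix (Fin m) (Fin m) F)) = 1 from rfl, pureMat_one, smul_smul,
        Finset.prod_const, Finset.card_univ, Fintype.card_fin]
    have h2 := congrArg (Matrix.reindexAlgEquiv F F e.symm) hz
    simp only [map_mul, map_smul, map_one] at h2
    rw [show Matrix.reindexAlgEquiv F F e.symm G = Pmᵀ * Pm.map σ by ext a b; simp [hGdef]] at h2
    rw [← h2]
    show (Pm * Matrix.reindexAlgEquiv F F e.symm (pureMat fun _ : Fin k => Am))ᵀ * (Pm * _).map σ = _
    rw [Matrix.transpose_mul, Matrix.map_mul]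
    simp only [Matrix.coe_reindexAlgEquiv, Matrix.transpose_reindex, ← Matrix.mul_assoc]
    rfl
  have hd0 : d ≠ 0 := mul_ne_zero hc0 (pow_ne_zero _ (inv_ne_zero hμ0))
  have hdσ : σ d = d := by
    have i : Fin n := ⟨0, hn⟩
    have h := congrFun (congrFun hgram i) i
    rw [Matrix.smul_apply, Matrix.one_apply_eq, smul_eq_mul, mul_one] at h
    rw [← h]
    simp [Matrix.mul_apply, map_sum, hu.invol, mul_comm]
  obtain ⟨t, ht, -⟩ := hu.exists_norm_avoid (b := d⁻¹) (by rw [map_inv₀, hdσ]) (inv_ne_zero hd0) ∅ (by simp)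
  have ht0 : t ≠ 0 := fun h => inv_ne_zero hd0 (by rw [← ht, h, zero_mul])
  let T : GL (Fin m) F := Units.map (Matrix.scalar (Fin m) : F →+* Matrix (Fin m) (Fin m) F).toMonoidHom
    (Units.mk0 t ht0)
  let sc : GL (Fin k → Fin m) F := pureGL (Pi.mulSingle i₀ T)
  have hscmat : ((glReindex e.symm sc : GL (Fin n) F) : Matrix (Fin n) (Fin n) F) = t • 1 := by
    have h : pureMat (fun i => ((Pi.mulSingle i₀ T : Fin k → GL (Fin m) F) i : Matrix (Fin m) (Fin m) F)) =
        t • (1 : Matrix (Fin k → Fin m) (Fin k → Fin m) F) := by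
      rw [show (fun i => ((Pi.mulSingle i₀ T : Fin k → GL (Fin m) F) i : Matrix (Fin m) (Fin m) F)) =
          fun i => (if i = i₀ then t else 1) • ((1 : Fin k → Matrix (Fin m) (Fin m) F) i) from funext fun i => by
        by_cases hi : i = i₀
        · subst hi; simp [T, Matrix.smul_one_eq_diagonal]
        · simp [hi],
        pureMat_smul, pureMat_one, Finset.prod_ite_eq' Finset.univ i₀ fun _ => t, if_pos (Finset.mem_univ i₀)]
    show Matrix.reindexAlgEquiv F F e.symm _ = _
    rw [show (sc : Matrix (Fin k → Fin m) (Fin k → Fin m) F) = t • 1 from h, map_smul, map_one]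
  set P₂ := P₁ * glReindex e.symm sc
  have hP₂ : P₂ ∈ Cfsg.GU n F q := by
    rw [hu.mem_GU_iff, show ((P₂ : GL (Fin n) F) : Matrix (Fin n) (Fin n) F) =
      t • ((P₁ : GL (Fin n) F) : Matrix (Fin n) (Fin n) F) by
        rw [Units.val_mul, hscmat, Matrix.mul_smul, Matrix.mul_one]]
    rw [Matrix.transpose_smul, show (t • ((P₁ : GL (Fin n) F) : Matrix (Fin n) (Fin n) F)).map σ =
      σ t • ((P₁ : GL (Fin n) F) : Matrix (Fin n) (Fin n) F).map σ from Matrix.ext fun _ _ => map_mul σ _ _,
      Matrix.smul_mul, Matrix.mul_smul, hgram, smul_smul, smul_smul, ht, inv_mul_cancel₀ hd0, one_smul]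
  have hzs : z ∈ tensorWreathStandard m k F := Subgroup.subset_closure (Or.inl ⟨_, fun x y => rfl⟩)
  have hscs : sc ∈ tensorWreathStandard m k F := Subgroup.subset_closure (Or.inl ⟨_, fun x y => rfl⟩)
  refine ⟨m, e, P₂, hm, hP₂,
    hle.trans ((tensorWreathSubgroup_absorb e P hzs).trans (tensorWreathSubgroup_absorb e P₁ hscs)),
    fun i a ha => ?_⟩
  obtain ⟨b, hb, hab⟩ := hconv i a ha
  have hinvb : bᵀ * G₀ * b.map σ = G₀ := hinv₀ b hb
  have hbdet : b.det ≠ 0 := fun h => hG₀.ne_zero (by
    have h' := congrArg Matrix.det hinvb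
    rw [Matrix.det_mul, Matrix.det_mul, Matrix.det_transpose, h, zero_mul, zero_mul] at h'
    exact h'.symm)
  set B : GL (Fin m) F := Matrix.GeneralLinearGroup.mkOfDetNeZero b hbdet
  refine ⟨A⁻¹ * B * A, ?_, ?_⟩
  · obtain ⟨σ₁, h1⟩ := exists_unitarySetup m hu.card
    have hσ₁ : σ₁ = σ := RingEquiv.ext fun x => by rw [h1.pow, hu.pow]
    subst hσ₁
    set Y : Matrix (Fin m) (Fin m) F := ((A⁻¹ * B * A : GL (Fin m) F) : Matrix (Fin m) (Fin m) F)
    have hY : Am * Y = b * Am := by
      show (A : Matrix (Fin m) (Fin m) F) * Y = (B : Matrix (Fin m) (Fin m) F) * (A : Matrix (Fin m) (Fin m) F)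
      rw [← Units.val_mul, ← Units.val_mul]
      congr 1
      group
    have e1 : Yᵀ * (Amᵀ * G₀ * Am.map σ₁) * Y.map σ₁ = Amᵀ * G₀ * Am.map σ₁ := by
      calc _ = (Am * Y)ᵀ * G₀ * (Am * Y).map σ₁ := by
            simp only [Matrix.transpose_mul, Matrix.map_mul, Matrix.mul_assoc]
        _ = Amᵀ * (bᵀ * G₀ * b.map σ₁) * Am.map σ₁ := by
            rw [hY]; simp only [Matrix.transpose_mul, Matrix.map_mul, Matrix.mul_assoc]
        _ = _ := by rw [hinvb]
    rw [hA', Matrix.mul_smul, Matrix.smul_mul, Matrix.mul_one] at e1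
    exact h1.mem_GU_iff.2 (smul_right_injective _ (inv_ne_zero hμ0) e1)
  · have hval : a * P = P * glReindex e.symm (pureGL (Pi.mulSingle i B)) := by
      apply Units.ext
      rw [Units.val_mul, hab, Units.val_mul]
      congr 1
      show _ = Matrix.reindex e.symm e.symm (pureMat fun j => ((Pi.mulSingle i B : Fin k → GL (Fin m) F) j : Matrix (Fin m) (Fin m) F))
      congr 1
      congr 1
      funext j
      by_cases hj : j = i
      · subst hj; simp [B]
      · simp [hj]
    have hcom : pureGL (Pi.mulSingle i B) * (z * sc) = (z * sc) * pureGL (Pi.mulSingle i (A⁻¹ * B * A)) := by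
      apply Units.ext
      show pureMat _ * (pureMat _ * pureMat _) = pureMat _ * pureMat _ * pureMat _
      simp only [← pureMat_mul]
      congr 1
      funext j
      have hsc : ∀ X : Matrix (Fin m) (Fin m) F, X * (T : Matrix (Fin m) (Fin m) F) = (T : Matrix (Fin m) (Fin m) F) * X :=
        fun X => (Matrix.scalar_commute t (fun x => Commute.all t x) X).symm.eq
      simp only [Pi.mul_apply]
      have hAA : (A : Matrix (Fin m) (Fin m) F) * ((A⁻¹ : GL (Fin m) F) : Matrix (Fin m) (Fin m) F) = 1 := by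
        rw [← Units.val_mul, mul_inv_cancel, Units.val_one]
      by_cases hj : j = i
      · subst hj
        simp only [Pi.mulSingle_eq_same, Units.val_mul]
        by_cases h0 : j = i₀
        · subst h0
          simp only [Pi.mulSingle_eq_same, Matrix.mul_assoc]
          rw [← Matrix.mul_assoc (T : Matrix (Fin m) (Fin m) F), ← hsc, Matrix.mul_assoc,
            ← Matrix.mul_assoc (A : Matrix (Fin m) (Fin m) F), hAA,
            Matrix.one_mul, hsc, ← Matrix.mul_assoc, ← Matrix.mul_assoc, hsc]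
        · simp only [ne_eq, h0, not_false_eq_true, Pi.mulSingle_eq_of_ne, Units.val_one, Matrix.mul_one]
          rw [← Matrix.mul_assoc (A : Matrix (Fin m) (Fin m) F), ← Matrix.mul_assoc (A : Matrix (Fin m) (Fin m) F),
            hAA, Matrix.one_mul]
      · simp [hj]
    show a * (P * glReindex e.symm z * glReindex e.symm sc) = P * glReindex e.symm z * glReindex e.symm sc * _
    rw [mul_assoc P, ← map_mul, ← mul_assoc, hval, mul_assoc, ← map_mul, hcom, map_mul, ← mul_assoc]

/-- The stabiliser of a tensor square of dimension at least three does not contain the special unitary group,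
for a unitary change of basis. -/
theorem not_le_wreath_two (hu : UnitarySetup n q σ) {m : ℕ} (hm : 3 ≤ m) (e : Fin n ≃ (Fin 2 → Fin m))
    {P : GL (Fin n) F} (hP : P ∈ Cfsg.GU n F q) :
    ¬ Cfsg.GU n F q ⊓ specialLinear (Fin n) F ≤ tensorWreathSubgroup m 2 e P := by
  classical
  intro hle
  let i0 : Fin m := ⟨0, by omega⟩
  let i1 : Fin m := ⟨1, by omega⟩
  let i2 : Fin m := ⟨2, by omega⟩
  have h01 : i0 ≠ i1 := by simp [i0, i1]
  have h02 : i0 ≠ i2 := by simp [i0, i2]
  have h12 : i1 ≠ i2 := by simp [i1, i2]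
  obtain ⟨a, ha, -⟩ := hu.exists_norm_avoid (b := (-1 : F)) (by rw [map_neg, map_one])
    (neg_ne_zero.2 one_ne_zero) ∅ (by simp)
  have ha0 : a ≠ 0 := fun h => neg_ne_zero.2 (one_ne_zero (α := F)) (by rw [← ha, h, zero_mul])
  let pick : Fin m → Fin m → Fin n := fun x y => e.symm ![x, y]
  have hpick : ∀ x y x' y', pick x y = pick x' y' ↔ x = x' ∧ y = y' := fun x y x' y' => by
    simp [pick, funext_iff, Fin.forall_fin_two]
  set w : Fin n → F := Pi.single (pick i0 i0) 1 + Pi.single (pick i1 i1) a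
  have hw : Cfsg.hermForm n F q w w = 0 := by
    rw [hu.sesqui.add_left, hu.single_herm, hu.single_herm]
    simp [w, hpick, h01, Ne.symm h01]
    linear_combination ha
  set v := act P w
  have hv : Cfsg.hermForm n F q v v = 0 := by rw [mem_GU.1 hP, hw]
  obtain ⟨c, hc0, hc, -⟩ := hu.exists_skew_avoid ∅ (by have := hu.two_le; simp; omega)
  obtain ⟨_, ⟨z, hz, rfl⟩, hzt⟩ := hle (hu.utrans_mem hv hc)
  have hzact : ∀ x : Fin n → F, act (glReindex e.symm z) x = x + (c * Cfsg.hermForm n F q x w) • w := by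
    intro x
    have h1 : glReindex e.symm z = P⁻¹ * hu.utrans hv c * P := by
      rw [← hzt]; simp [mul_assoc]
    rw [h1, act_mul, act_mul]
    apply act_injective P
    rw [act_act_inv, hu.act_utrans, mem_GU.1 hP]
    show _ = (P : Matrix (Fin n) (Fin n) F) *ᵥ _
    rw [Matrix.mulVec_add, Matrix.mulVec_smul]
  let u : Fin 2 → Fin m → F := ![Pi.single i0 1 + Pi.single i2 1, Pi.single i0 1 + Pi.single i2 1]
  obtain ⟨u', hu'⟩ := preservesPure_of_mem_standard hz u
  have key : ∀ x y, pureVec u ![x, y] + c * Cfsg.hermForm n F q (fun i => pureVec u (e i)) w * w (pick x y) =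
      u' 0 x * u' 1 y := by
    intro x y
    have h := congrFun (hzact fun i => pureVec u (e i)) (pick x y)
    rw [Pi.add_apply, Pi.smul_apply, smul_eq_mul] at h
    have h2 : act (glReindex e.symm z) (fun i => pureVec u (e i)) (pick x y) = pureVec u' ![x, y] := by
      rw [← congrFun hu' ![x, y]]
      simp only [act, Matrix.mulVec, dotProduct, pick, glReindex]
      rw [← Equiv.sum_comp e.symm]
      simp
    rw [h2] at h
    simp only [pick, Equiv.apply_symm_apply] at h
    rw [← h, pureVec, Fin.prod_univ_two]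
    rfl
  have hh : Cfsg.hermForm n F q (fun i => pureVec u (e i)) w = 1 := by
    rw [hu.herm, hu.sesqui.add_left, hu.single_herm, hu.single_herm]
    simp [pick, pureVec, u, Fin.prod_univ_two, Ne.symm h01, h02, h12]
  rw [hh, mul_one] at key
  have k11 := key i1 i1
  have k22 := key i2 i2
  have k12 := key i1 i2
  simp [w, pureVec, u, Fin.prod_univ_two, Pi.single_apply, hpick, Ne.symm h01, Ne.symm h02, h12,
    Ne.symm h12] at k11 k22 k12
  rcases k12 with h | h
  · rw [h, zero_mul] at k11
    simp [hc0, ha0] at k11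
  · rw [h, mul_zero] at k22
    exact one_ne_zero k22

/-- Over four elements the product stabiliser of a tensor square is a proper part of the wreath stabiliser. -/
theorem tensor_square_not_maximal (hu : UnitarySetup n q σ) (hq : q = 2) {m : ℕ} (hm : 3 ≤ m)
    (e : Fin n ≃ Fin m × Fin m) {P : GL (Fin n) F} (hP : P ∈ Cfsg.GU n F q) {H : Subgroup (GL (Fin n) F)}
    (hH : IsMaximalIn (Cfsg.GU n F q ⊓ specialLinear (Fin n) F) H)
    (hle : H ≤ tensorProductSubgroup m m e P) : False := by
  classical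
  set G := Cfsg.GU n F q ⊓ specialLinear (Fin n) F
  set e' := e.trans (piFinTwoEquiv fun _ => Fin m).symm
  have hW := hu.not_le_wreath_two hm e' hP
  set s : GL (Fin n) F := glReindex e'.symm (factorPerm (Equiv.swap 0 1)) with hs
  have hsval : ∀ i j, (s : Matrix (Fin n) (Fin n) F) i j = if (e j) = ((e i).2, (e i).1) then 1 else 0 := by
    intro i j
    simp [hs, glReindex, factorPerm, e', funext_iff, Fin.forall_fin_two, Prod.ext_iff]
  have hσ : ∀ i j, σ ((s : Matrix (Fin n) (Fin n) F) i j) = (s : Matrix (Fin n) (Fin n) F) i j := fun i j => by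
    rw [hsval]; split_ifs <;> simp
  let π : Equiv.Perm (Fin n) := (e.trans (Equiv.prodComm _ _)).trans e.symm
  have hperm : (s : Matrix (Fin n) (Fin n) F) = π.permMatrix F := by
    ext i j
    rw [hsval, Equiv.Perm.permMatrix, PEquiv.toMatrix_apply]
    refine if_congr ?_ rfl rfl
    simp [π, Equiv.toPEquiv, Prod.swap, eq_comm, Equiv.eq_symm_apply]
  have hsG : s ∈ G := by
    refine ⟨hu.mem_GU_iff.2 ?_, ?_⟩
    · rw [show (s : Matrix (Fin n) (Fin n) F).map σ = (s : Matrix (Fin n) (Fin n) F) from Matrix.ext hσ, hperm,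
        Matrix.transpose_permMatrix, ← Matrix.permMatrix_mul]
      simp
    · show s ∈ specialLinear (Fin n) F
      rw [Geometric.mem_specialLinear_iff, hperm, Matrix.det_permutation]
      have h2 : (2 : F) = 0 := hu.two_eq_zero_iff.2 (by subst hq; decide)
      rcases Int.units_eq_one_or (Equiv.Perm.sign π) with h | h <;> simp [h]
      linear_combination -h2
  set K := tensorWreathSubgroup m 2 e' P ⊓ G
  have hHK : H ≤ K := le_inf (hle.trans (tensorProductSubgroup_le_wreath m e P)) hH.1.le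
  have hgK : P * s * P⁻¹ ∈ K := by
    refine ⟨⟨_, ⟨factorPerm (Equiv.swap 0 1), Subgroup.subset_closure (Or.inr ⟨_, fun x y => rfl⟩), rfl⟩, rfl⟩,
      Subgroup.mul_mem _ (Subgroup.mul_mem _ hP hsG.1) (inv_mem hP), ?_⟩
    show Matrix.GeneralLinearGroup.det (P * s * P⁻¹) = 1
    rw [show Matrix.GeneralLinearGroup.det (P * s * P⁻¹) = Matrix.GeneralLinearGroup.det s by simp [mul_comm]]
    exact hsG.2
  rcases hH.2 K hHK inf_le_right with hK | hK
  · obtain ⟨_, ⟨z, ⟨a, b, hz⟩, rfl⟩, hzs⟩ := hle (hK ▸ hgK)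
    have h : glReindex e.symm z = s := mul_left_cancel (mul_right_cancel hzs)
    have hab : ∀ x y : Fin m × Fin m, (a : Matrix (Fin m) (Fin m) F) x.1 y.1 *
        (b : Matrix (Fin m) (Fin m) F) x.2 y.2 = if y = (x.2, x.1) then 1 else 0 := by
      intro x y
      have h1 := congrArg (fun g : GL (Fin n) F => (g : Matrix (Fin n) (Fin n) F) (e.symm x) (e.symm y)) h
      simp only [hsval, Equiv.apply_symm_apply] at h1
      rw [← h1]
      simp [glReindex, hz]
    let i0 : Fin m := ⟨0, by omega⟩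
    let i1 : Fin m := ⟨1, by omega⟩
    have h1 := hab (i0, i1) (i1, i0)
    have h2 := hab (i0, i0) (i0, i0)
    have h3 := hab (i0, i0) (i1, i0)
    simp [i0, i1] at h1 h2 h3
    rcases h3 with h3 | h3
    · rw [h3, zero_mul] at h1; exact zero_ne_one h1
    · rw [h3, mul_zero] at h2; exact zero_ne_one h2
  · exact hW (hK.ge.trans inf_le_left)

/-- Over four elements there is no tensor-induced case with factors of dimension three. -/
theorem no_induced_three (hu : UnitarySetup n q σ) (hq : q = 2) {H N : Subgroup (GL (Fin n) F)} {k : ℕ}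
    {L : Fin k → Subgroup (GL (Fin n) F)} (hL : InducedData H N k L) {e : Fin n ≃ (Fin k → Fin 3)}
    {P : GL (Fin n) F} (hslot : ∀ i, ∀ a ∈ L i, ∃ b : GL (Fin 3) F, b ∈ Cfsg.GU 3 F q ∧
      a * P = P * glReindex e.symm (pureGL (Pi.mulSingle i b))) : False := by
  classical
  have hk := hL.two_le
  let i₀ : Fin k := ⟨0, by omega⟩
  have hcardGU : Nat.card (Cfsg.GU 3 F q) = 2 ^ 3 * 3 ^ 4 := by
    rw [CfsgLib.ClassicalForms.card_gu (by rw [Nat.card_eq_fintype_card, hu.card]) 3, hq]
    simp [Finset.prod_range_succ, Nat.even_iff]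
  haveI hsol : Group.IsSolvable (Cfsg.GU 3 F q) :=
    CfsgLib.CharTheory.isSolvable_of_card_dvd_pow_mul_pow 2 3 3 4 Nat.prime_two Nat.prime_three (hcardGU.dvd)
  -- the slot embedding
  let φ : Cfsg.GU 3 F q →* GL (Fin n) F :=
    (MulAut.conj P).toMonoidHom.comp ((glReindex e.symm).toMonoidHom.comp ((slotHom i₀).comp (Cfsg.GU 3 F q).subtype))
  have hrange : L i₀ ≤ φ.range := by
    intro a ha
    obtain ⟨b, hb, hab⟩ := hslot i₀ a ha
    refine ⟨⟨b, hb⟩, ?_⟩
    show P * glReindex e.symm (slotHom i₀ b) * P⁻¹ = a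
    rw [show slotHom i₀ b = pureGL (Pi.mulSingle i₀ b) from rfl, ← hab, mul_inv_cancel_right]
  haveI : Group.IsSolvable φ.range := Group.isSolvable_of_surjective φ.rangeRestrict_surjective
  haveI : Group.IsSolvable (L i₀) := Group.isSolvable_of_isSolvable_injective (Subgroup.inclusion_injective hrange)
  apply hL.nonscalar i₀
  have hbot : L i₀ = ⊥ := by
    have hc : commutator (L i₀) = ⊤ := by
      apply Subgroup.map_injective (L i₀).subtype_injective
      rw [Subgroup.map_subtype_commutator, hL.perfect i₀, ← MonoidHom.range_eq_map, Subgroup.range_subtype]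
    by_contra hne
    haveI : Nontrivial (L i₀) := (Subgroup.nontrivial_iff_ne_bot _).2 hne
    exact (Group.IsSolvable.commutator_lt_top_of_nontrivial (L i₀)).ne hc
  rw [hbot]
  exact bot_le

/-- There is no symplectic subfield structure in odd dimension. -/
theorem no_symplectic_odd (hu : UnitarySetup n q σ) (hn : Odd n) {F₀ : Subfield F} {P : GL (Fin n) F}
    (hiso : ∀ u : Fin n → F, (∀ i, u i ∈ F₀) → Cfsg.hermForm n F q ((P : Matrix (Fin n) (Fin n) F) *ᵥ u)
      ((P : Matrix (Fin n) (Fin n) F) *ᵥ u) = 0) : False := by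
  classical
  set h : (Fin n → F) → (Fin n → F) → F := fun u v =>
    Cfsg.hermForm n F q ((P : Matrix (Fin n) (Fin n) F) *ᵥ u) ((P : Matrix (Fin n) (Fin n) F) *ᵥ v) with hh
  have hs : IsSesqui (σ : F →+* F) h := hu.sesqui.transform _
  set G := gramMatrix h
  have hadd : ∀ i j, i ≠ j → G j i = -G i j := by
    intro i j hij
    have e := hiso (Pi.single i 1 + Pi.single j 1) fun a => by
      by_cases h1 : a = i
      · subst h1; simp [hij, F₀.one_mem]
      · by_cases h2 : a = j
        · subst h2; simp [h1, F₀.one_mem]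
        · simp [h1, h2, F₀.zero_mem]
    have ei : ∀ a, h (Pi.single a 1) (Pi.single a 1) = 0 := fun a => hiso _ fun b => by
      by_cases h1 : b = a
      · subst h1; simp [F₀.one_mem]
      · simp [h1, F₀.zero_mem]
    change h (Pi.single i 1 + Pi.single j 1) (Pi.single i 1 + Pi.single j 1) = 0 at e
    rw [hs.add_left, hs.add_right, hs.add_right, ei, ei, zero_add, add_zero] at e
    show h (Pi.single j 1) (Pi.single i 1) = -h (Pi.single i 1) (Pi.single j 1)
    linear_combination e
  have hdiag : ∀ i, G i i = 0 := fun i => hiso _ fun b => by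
    by_cases h1 : b = i
    · subst h1; simp [F₀.one_mem]
    · simp [h1, F₀.zero_mem]
  have hskew : ∀ i j, G j i = -G i j := fun i j => by
    rcases eq_or_ne i j with rfl | hij
    · rw [hdiag, neg_zero]
    · exact hadd i j hij
  let f : (Fin n → F) → (Fin n → F) → F := fun u v => u ⬝ᵥ (G *ᵥ v)
  have hf : IsBilinearForm f := ⟨fun u v w => add_dotProduct _ _ _, fun c u v => smul_dotProduct _ _ _,
    fun u v w => by simp [f, Matrix.mulVec_add, dotProduct_add],
    fun c u v => by simp [f, Matrix.mulVec_smul, dotProduct_smul]⟩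
  have halt : ∀ v, f v v = 0 := fun v => dotProduct_mulVec_self_of_alt hskew hdiag v
  have hG : G.det ≠ 0 := by
    have hgr := hu.sesqui.gram_transform (P : Matrix (Fin n) (Fin n) F)
    rw [hu.gram_eq_one, Matrix.mul_one] at hgr
    show (gramMatrix h).det ≠ 0
    rw [hh, hgr, Matrix.det_mul, Matrix.det_transpose]
    refine mul_ne_zero (Matrix.GeneralLinearGroup.det P).ne_zero ?_
    rw [show ((P : Matrix (Fin n) (Fin n) F).map (σ : F →+* F)).det = σ (P : Matrix (Fin n) (Fin n) F).det from
      (RingEquiv.map_det σ _).symm]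
    exact (map_ne_zero σ).2 (Matrix.GeneralLinearGroup.det P).ne_zero
  refine no_alternating_odd (by simpa using hn) hf halt ?_
  intro v hv
  refine ⟨?_, ?_⟩ <;> by_contra hall <;> push Not at hall
  · apply hv
    refine Matrix.eq_zero_of_mulVec_eq_zero hG (funext fun i => ?_)
    have := hall (Pi.single i 1)
    simpa [f] using this
  · apply hv
    refine Matrix.eq_zero_of_vecMul_eq_zero hG (funext fun i => ?_)
    have := hall (Pi.single i 1)
    simpa [f, Matrix.vecMul, dotProduct, Matrix.mulVec, Pi.single_apply] using this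

end UnitarySetup

end CfsgLib.SmallDim
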