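import Cfsg.Agent.Lib.SmallDim.OrthEvenGeneric
import Cfsg.Agent.Lib.SmallDim.UnitaryWreath

/-!
Orthogonal tensor squares and frames in dimension three over small fields.
-/

set_option autoImplicit false
set_option linter.style.haveILetI false
set_option linter.unusedSectionVars false

namespace CfsgLib.SmallDim.OrthEven

open scoped MatrixGroups Matrix Kronecker
open Cfsg.Geo QuadraticMap CfsgLib.ClassicalForms CfsgLib.Geometric.Orth Module

variable {ι : Type} [Fintype ι] [DecidableEq ι] {F : Type*} [Field F] [Fintype F] {Q : QuadraticForm F (ι → F)}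

/-- Every symmetric form in dimension three is a multiple of the dot product in suitable coordinates. -/
theorem exists_scaled_dot {V : Type*} [AddCommGroup V] [Module F V] [FiniteDimensional F V]
    (h2 : (2 : F) ≠ 0) (B : LinearMap.BilinForm F V) (hS : B.IsSymm) (hB : B.Nondegenerate)
    (hV : finrank F V = 3) :
    ∃ (c : F) (e : (Fin 3 → F) ≃ₗ[F] V), c ≠ 0 ∧ ∀ x y, B (e x) (e y) = c * (x ⬝ᵥ y) := by
  classical
  set c := gdet B
  have hc : c ≠ 0 := gdet_ne_zero B hB
  let B₀ : LinearMap.BilinForm F (Fin 3 → F) := Matrix.toBilin' (c • (1 : Matrix (Fin 3) (Fin 3) F))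
  have hval : ∀ x y, B₀ x y = c * (x ⬝ᵥ y) := fun x y => by
    simp [B₀, Matrix.toBilin'_apply', Matrix.smul_mulVec, dotProduct_smul]
  have hS₀ : B₀.IsSymm := ⟨fun x y => by rw [hval, hval, dotProduct_comm]⟩
  have hB₀ : B₀.Nondegenerate := by
    refine LinearMap.BilinForm.nondegenerate_toBilin'_of_det_ne_zero' _ ?_
    simp [Matrix.det_smul, hc]
  obtain ⟨s, -, hs⟩ := gdet_basis B₀ (Pi.basisFun F (Fin 3))
  have hM : LinearMap.BilinForm.toMatrix (Pi.basisFun F (Fin 3)) B₀ = c • 1 := by
    ext i j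
    rw [LinearMap.BilinForm.toMatrix_apply, hval]
    by_cases hij : i = j <;> simp [hij, Matrix.one_apply]
  rw [hM, Matrix.det_smul, Matrix.det_one, mul_one, Fintype.card_fin] at hs
  have hs0 : s ≠ 0 := by rintro rfl; simp [hc] at hs
  obtain ⟨e, he⟩ := exists_isometry h2 B₀ hS₀ hB₀ B hS hB (by rw [hV, Module.finrank_fin_fun])
    ⟨c ^ 2 / s, by
      show gdet B₀ * c = _
      field_simp
      linear_combination -hs⟩
  exact ⟨c, e, hc, fun x y => by rw [he, hval]⟩

/-- The matrix version. -/
theorem exists_scaled_orth_matrix (h2 : (2 : F) ≠ 0) {G : Matrix (Fin 3) (Fin 3) F} (hG : Gᵀ = G) (hdet : G.det ≠ 0) :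
    ∃ (c : F) (A : GL (Fin 3) F), c ≠ 0 ∧
      (A : Matrix (Fin 3) (Fin 3) F)ᵀ * G * (A : Matrix (Fin 3) (Fin 3) F) = c • 1 := by
  classical
  let B : LinearMap.BilinForm F (Fin 3 → F) := Matrix.toBilin' G
  obtain ⟨c, e, hc, he⟩ := exists_scaled_dot h2 B
    ⟨fun x y => by
      rw [Matrix.toBilin'_apply', Matrix.toBilin'_apply', dotProduct_comm, ← Matrix.vecMul_transpose,
        ← Matrix.dotProduct_mulVec, hG]⟩
    (LinearMap.BilinForm.nondegenerate_toBilin'_of_det_ne_zero' _ hdet) (Module.finrank_fin_fun F)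
  set A : Matrix (Fin 3) (Fin 3) F := LinearMap.toMatrix' e.toLinearMap
  have hA : ∀ x, A *ᵥ x = e x := fun x => by rw [← Matrix.toLin'_apply, Matrix.toLin'_toMatrix']; rfl
  have hgram : Aᵀ * G * A = c • 1 := by
    ext i j
    have h := he (Pi.single i 1) (Pi.single j 1)
    rw [Matrix.toBilin'_apply', ← hA, ← hA, ← Matrix.vecMul_transpose, ← Matrix.dotProduct_mulVec,
      Matrix.mulVec_mulVec, Matrix.mulVec_mulVec] at h
    simpa [Matrix.mulVec_single_one, Matrix.one_apply, Matrix.smul_apply, Pi.single_apply, eq_comm] using h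
  refine ⟨c, Matrix.GeneralLinearGroup.mkOfDetNeZero A (fun h => ?_), hc, hgram⟩
  have h' := congrArg Matrix.det hgram
  rw [Matrix.det_mul, h, mul_zero, Matrix.det_smul, Matrix.det_one, mul_one] at h'
  exact pow_ne_zero _ hc h'.symm

/-- An `Ω`-invariant set with a non-zero vector is large. -/
theorem omega_orbit_card (hQ : Nondeg Q) (hn : 5 ≤ Fintype.card ι) {S : Set (ι → F)} {d : ι → F} (hd : d ∈ S)
    (hd0 : d ≠ 0) (hinv : ∀ g ∈ omegaGL (⇑Q), ∀ v ∈ S, act g v ∈ S) :
    Fintype.card F ^ (Fintype.card ι - 2) ≤ Nat.card S := by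
  classical
  obtain ⟨u, hu, hud⟩ := exists_singular_pair hQ (by omega) hd0
  let L : (ι → F) →ₗ[F] (Fin 2 → F) := LinearMap.pi ![polarBilin Q u, polarBilin Q d]
  let T := LinearMap.ker L
  have hT : ∀ w : T, polar Q u (w : ι → F) = 0 ∧ polar Q d (w : ι → F) = 0 := fun w => by
    have h := LinearMap.mem_ker.mp w.2
    exact ⟨congrFun h 0, congrFun h 1⟩
  let Φ : T → S := fun w => ⟨_, hinv _ (sg_mem hQ hn hu (hT w).1) d hd⟩
  have hdu : polar Q d u = 1 := by rw [polar_comm]; exact hud
  have hinj : Function.Injective Φ := by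
    intro w w' h
    have h' : act (sg Q u w hu (hT w).1) d = act (sg Q u w' hu (hT w').1) d :=
      congrArg Subtype.val h
    rw [act_sg, act_sg, hdu, one_smul, one_smul, (hT w).2, (hT w').2, zero_add, zero_add, mul_one, mul_one] at h'
    have h3 : (w : ι → F) - w' = (Q w - Q w') • u := by
      rw [sub_smul]
      linear_combination (norm := module) h'
    have hc : Q w - Q w' = 0 := by
      have h4 := congrArg (polar Q d) h3
      simpa [polar_sub_right, polar_smul_right, (hT w).2, (hT w').2, hdu, eq_comm] using h4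
    refine Subtype.ext (sub_eq_zero.mp ?_)
    rw [h3, hc, zero_smul]
  have hcard := Nat.card_le_card_of_injective Φ hinj
  have h1 : Fintype.card ι ≤ Module.finrank F T + 2 := by
    have e1 := LinearMap.finrank_range_add_finrank_ker L
    have e2 := Submodule.finrank_le (LinearMap.range L)
    rw [Module.finrank_fintype_fun_eq_card] at e1
    rw [Module.finrank_fin_fun] at e2
    show _ ≤ Module.finrank F (LinearMap.ker L) + 2
    omega
  rw [Module.natCard_eq_pow_finrank (K := F), Nat.card_eq_fintype_card] at hcard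
  exact (Nat.pow_le_pow_right Fintype.card_pos (by omega)).trans hcard

/-- `Ω` preserves no set of pure tensors. -/
theorem omega_not_le_tensorWreathSubgroup (hQ : Nondeg Q) (hn : 5 ≤ Fintype.card ι) {m k : ℕ} (hm : 0 < m)
    (hsmall : k * m < Fintype.card ι - 2) (e : ι ≃ (Fin k → Fin m)) (P : GL ι F) :
    ¬ omegaGL (⇑Q) ≤ tensorWreathSubgroup m k e P := by
  classical
  intro hle
  let f : (Fin k → Fin m → F) → (ι → F) := fun v => point e P (pureTensorVec v)
  have h := omega_orbit_card hQ hn (S := Set.range f)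
    (d := point e P (Pi.single (fun _ => ⟨0, hm⟩) 1)) ⟨_, congrArg (point e P) (pureVec_single _)⟩ ?_ ?_
  · have h' : Nat.card (Set.range f) ≤ Fintype.card F ^ (k * m) := by
      refine (Finite.card_range_le f).trans_eq ?_
      rw [Nat.card_eq_fintype_card, Fintype.card_fun, Fintype.card_fun, Fintype.card_fin, Fintype.card_fin,
        ← pow_mul, mul_comm]
    have := Nat.pow_lt_pow_right (Fintype.one_lt_card (α := F)) hsmall
    omega
  · intro h0
    have h1 := congrArg (coordMap e P) h0
    rw [map_zero] at h1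
    simp only [point, coordMap_point] at h1
    exact one_ne_zero (Pi.single_eq_zero_iff.mp h1)
  · rintro g hg _ ⟨v, rfl⟩
    obtain ⟨_, ⟨z, hz, rfl⟩, rfl⟩ := hle hg
    obtain ⟨w, hw⟩ := tensorWreathStandard_pureVec hz v
    refine ⟨w, ?_⟩
    show point e P _ = act (P * glReindex e.symm z * P⁻¹) ((P : Matrix ι ι F) *ᵥ _)
    rw [act_conj_reindex, hw]
    rfl

/-- The elements of the wreath product are monomial in the factors. -/
theorem tensorWreathStandard_factors {k m : ℕ} {g : GL (Fin k → Fin m) F} (hg : g ∈ tensorWreathStandard m k F) :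
    ∃ (σ : Equiv.Perm (Fin k)) (gs : Fin k → Matrix (Fin m) (Fin m) F), ∀ v : Fin k → Fin m → F,
      (g : Matrix (Fin k → Fin m) (Fin k → Fin m) F) *ᵥ pureTensorVec v =
        pureTensorVec fun i => gs i *ᵥ v (σ i) := by
  rw [tensorWreathStandard, ← Subgroup.mem_toSubmonoid, Subgroup.closure_toSubmonoid_of_finite] at hg
  induction hg using Submonoid.closure_induction with
  | mem g hg =>
    rcases hg with ⟨gs, hgs⟩ | ⟨σ, hσ⟩
    · refine ⟨1, fun i => (gs i : Matrix (Fin m) (Fin m) F), fun v => ?_⟩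
      rw [show (g : Matrix _ _ F) = pureMat fun i => (gs i : Matrix (Fin m) (Fin m) F) from Matrix.ext hgs]
      exact pureMat_mulVec _ _
    · exact ⟨σ.symm, 1, fun v => by rw [factorPerm_mulVec hσ]; simp⟩
  | one => exact ⟨1, 1, fun v => by simp⟩
  | mul g h _ _ ihg ihh =>
    obtain ⟨σ, gs, hgs⟩ := ihg
    obtain ⟨τ, hs, hhs⟩ := ihh
    refine ⟨σ.trans τ, fun i => gs i * hs (σ i), fun v => ?_⟩
    rw [Units.val_mul, ← Matrix.mulVec_mulVec, hhs, hgs]
    simp [Matrix.mulVec_mulVec]

/-- A basis of pairwise orthogonal vectors of non-zero norm, permuted up to scalars by `H`. -/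
theorem lines_decomposition {H : Subgroup (GL ι F)} {t : ℕ} (ht : t = Fintype.card ι) (h2t : 2 ≤ t)
    (v : Fin t → ι → F) (hn : ∀ i, polar Q (v i) (v i) ≠ 0) (ho : ∀ i j, i ≠ j → polar Q (v i) (v j) = 0)
    (hmap : ∀ g ∈ H, ∀ i, ∃ (j : Fin t) (c : F), act g (v i) = c • v j) :
    ∃ D : Fin t → Submodule F (ι → F),
      IsNondegenerateMDecomposition (polar (⇑Q)) 1 D ∧ H ≤ decompositionStabilizer D := by
  classical
  have hv0 : ∀ i, v i ≠ 0 := fun i h => hn i (by rw [h, QuadraticMap.polar_zero_left])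
  have hli : LinearIndependent F v := by
    rw [Fintype.linearIndependent_iff]
    intro a ha i
    have h := congrArg (polarBilin Q (v i)) ha
    rw [map_sum, map_zero, Finset.sum_eq_single i] at h
    · rw [map_smul, polarBilin_apply_apply, smul_eq_mul] at h
      exact (mul_eq_zero.mp h).resolve_right (hn i)
    · intro j _ hj
      simp [ho i j (Ne.symm hj)]
    · simp
  haveI : Nonempty (Fin t) := ⟨⟨0, by omega⟩⟩
  have hspan := hli.span_eq_top_of_card_eq_finrank (by
    rw [Fintype.card_fin, Module.finrank_fintype_fun_eq_card, ht])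
  refine ⟨fun i => F ∙ v i, ⟨⟨h2t, one_pos, fun i => finrank_span_singleton (hv0 i),
    hli.iSupIndep_span_singleton, ?_⟩, fun i w hw hw0 => ?_, fun i j hij x hx y hy => ?_⟩, fun g hg => ?_⟩
  · rw [← Submodule.span_range_eq_iSup, hspan]
  · obtain ⟨a, rfl⟩ := Submodule.mem_span_singleton.mp hw
    have ha : a ≠ 0 := fun h => hw0 (by rw [h, zero_smul])
    have h : polar Q (v i) (a • v i) ≠ 0 := by
      rw [polar_smul_right, smul_eq_mul]; exact mul_ne_zero ha (hn i)
    exact ⟨⟨v i, Submodule.mem_span_singleton_self _, h⟩,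
      v i, Submodule.mem_span_singleton_self _, by rwa [polar_comm]⟩
  · obtain ⟨a, rfl⟩ := Submodule.mem_span_singleton.mp hx
    obtain ⟨b, rfl⟩ := Submodule.mem_span_singleton.mp hy
    rw [polar_smul_left, polar_smul_right, ho i j hij, smul_zero, smul_zero]
  · choose f c hfc using hmap g hg
    have hc : ∀ i, c i ≠ 0 := fun i h => hv0 i (act_injective g (by
      rw [hfc i, h, zero_smul]; exact (Matrix.mulVec_zero _).symm))
    have hinj : Function.Injective f := by
      intro i j hij
      by_contra hne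
      have h1 : c j • v i = c i • v j := act_injective g (by
        rw [act_smul, act_smul, hfc, hfc, hij, smul_comm])
      have h2 := congrArg (fun z => polar Q (v i) z) h1
      simp only [polar_smul_right, ho i j hne, smul_zero, smul_eq_mul, mul_zero] at h2
      exact mul_ne_zero (hc j) (hn i) h2
    refine ⟨Equiv.ofBijective f (Finite.injective_iff_bijective.1 hinj), fun i => ?_⟩
    show (F ∙ v i).map _ = F ∙ v (f i)
    rw [Submodule.map_span, Set.image_singleton, Matrix.toLin'_apply]
    show F ∙ act g (v i) = _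
    rw [hfc i, Submodule.span_singleton_smul_eq (isUnit_iff_ne_zero.2 (hc i))]

/-- A vector of norm one over three elements is a signed unit vector. -/
lemma eq_smul_single_of_norm_one (h3 : Fintype.card F = 3) {x : Fin 3 → F} (hx : x ⬝ᵥ x = 1) :
    ∃ (k : Fin 3) (c : F), x = c • Pi.single k 1 := by
  classical
  have hsq : ∀ a : F, a = 0 ∨ a * a = 1 := fun a => by
    rcases eq_or_ne a 0 with h | h
    · exact Or.inl h
    · have := FiniteField.pow_card_sub_one_eq_one a h
      rw [h3] at this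
      exact Or.inr (by linear_combination this)
  have h11 : (1 : F) + 1 ≠ 1 := fun h => one_ne_zero (by linear_combination h)
  have h30 : (1 : F) + 1 + 1 ≠ 1 := fun h => one_ne_zero (α := F) (by
    have h3' : ((3 : ℕ) : F) = 0 := h3 ▸ FiniteField.cast_card_eq_zero F
    push_cast at h3'
    linear_combination h3' - h)
  simp only [dotProduct, Fin.sum_univ_three] at hx
  rcases hsq (x 0) with h0 | h0 <;> rcases hsq (x 1) with h1 | h1 <;> rcases hsq (x 2) with h2 | h2 <;>
    simp only [h0, h1, h2, mul_zero, zero_add, add_zero] at hx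
  · exact absurd hx zero_ne_one
  · exact ⟨2, x 2, funext fun i => by fin_cases i <;> simp [h0, h1]⟩
  · exact ⟨1, x 1, funext fun i => by fin_cases i <;> simp [h0, h2]⟩
  · exact absurd hx h11
  · exact ⟨0, x 0, funext fun i => by fin_cases i <;> simp [h1, h2]⟩
  · exact absurd hx h11
  · exact absurd hx h11
  · exact absurd hx h30

/-- `H` preserves a tensor square of a multiple of the dot product on a three-space. -/
structure SquareFrame (Q : QuadraticForm F (ι → F)) (H : Subgroup (GL ι F)) (e : ι ≃ (Fin 2 → Fin 3))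
    (P : GL ι F) (c : F) : Prop where
  ne_zero : c ≠ 0
  gram : ∀ x y, polar Q (point e P x) (point e P y) = c * (x ⬝ᵥ y)
  le : H ≤ tensorWreathSubgroup 3 2 e P

variable {H : Subgroup (GL ι F)} {e : ι ≃ (Fin 2 → Fin 3)} {P : GL ι F} {c : F}

/-- Over three elements such a group is monomial. -/
theorem SquareFrame.lines (h : SquareFrame Q H e P c) (hiso : Isometric Q H) (h3 : Fintype.card F = 3) :
    ∃ D : Fin 9 → Submodule F (ι → F),
      IsNondegenerateMDecomposition (polar (⇑Q)) 1 D ∧ H ≤ decompositionStabilizer D := by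
  classical
  let r : Fin 9 ≃ (Fin 2 → Fin 3) := Fintype.equivOfCardEq (by simp)
  let v : Fin 9 → ι → F := fun a => point e P (Pi.single (r a) 1)
  refine lines_decomposition (v := v) (by rw [Fintype.card_congr e]; simp) (by norm_num) (fun i => ?_)
    (fun i j hij => ?_) fun g hg a => ?_
  · rw [h.gram]; simpa using h.ne_zero
  · rw [h.gram, single_dotProduct, Pi.single_eq_of_ne (fun he => hij (r.injective he))]; simp
  obtain ⟨_, ⟨z, hz, rfl⟩, hzg⟩ := h.le hg
  obtain ⟨σ, gs, hgs⟩ := tensorWreathStandard_factors hz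
  have hact : ∀ x, act g (point e P x) = point e P ((z : Matrix _ _ F) *ᵥ x) := fun x => by
    rw [← hzg]; exact act_conj_reindex e P z x
  have hdot : ∀ u w : Fin 2 → Fin 3 → F,
      ((gs 0 *ᵥ u (σ 0)) ⬝ᵥ (gs 0 *ᵥ w (σ 0))) * ((gs 1 *ᵥ u (σ 1)) ⬝ᵥ (gs 1 *ᵥ w (σ 1))) =
        (u 0 ⬝ᵥ w 0) * (u 1 ⬝ᵥ w 1) := by
    intro u w
    have h1 := hiso.polar hg (point e P (pureTensorVec u)) (point e P (pureTensorVec w))
    rw [hact, hact, hgs, hgs, h.gram, h.gram, pureVec_dot, pureVec_dot, Fin.prod_univ_two, Fin.prod_univ_two] at h1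
    exact mul_left_cancel₀ h.ne_zero h1
  have hmu : ∀ i : Fin 2, ∃ μ : F, (gs i)ᵀ * gs i = μ • 1 := by
    intro i
    obtain ⟨j, hij⟩ : ∃ j : Fin 2, i ≠ j := ⟨i + 1, by fin_cases i <;> decide⟩
    let e0 : Fin 3 → F := Pi.single 0 1
    set κ := (gs j *ᵥ e0) ⬝ᵥ (gs j *ᵥ e0)
    have key : ∀ x y : Fin 3 → F, (gs i *ᵥ x) ⬝ᵥ (gs i *ᵥ y) * κ = x ⬝ᵥ y := by
      intro x y
      have h1 := hdot (Function.update (fun _ => e0) (σ i) x) (Function.update (fun _ => e0) (σ i) y)
      have hne : σ j ≠ σ i := fun he => hij (σ.injective he).symm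
      have hrhs : ∀ k : Fin 2, (Function.update (fun _ => e0) k x 0 ⬝ᵥ Function.update (fun _ => e0) k y 0) *
          (Function.update (fun _ => e0) k x 1 ⬝ᵥ Function.update (fun _ => e0) k y 1) = x ⬝ᵥ y := by
        intro k
        fin_cases k <;> simp [e0]
      rw [hrhs] at h1
      have hpair : ∀ T : Fin 2 → F, T i * T j = T 0 * T 1 := fun T => by
        fin_cases i <;> fin_cases j <;> first | exact absurd rfl hij | rfl | exact mul_comm _ _
      rw [← hpair (fun k => (gs k *ᵥ Function.update (fun _ => e0) (σ i) x (σ k)) ⬝ᵥ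
        (gs k *ᵥ Function.update (fun _ => e0) (σ i) y (σ k)))] at h1
      simpa only [Function.update_self, Function.update_of_ne hne] using h1
    have hκ : κ ≠ 0 := fun h0 => by
      have := key e0 e0
      rw [h0, mul_zero] at this
      simp [e0] at this
    refine ⟨κ⁻¹, Matrix.ext fun a b => ?_⟩
    have h1 := key (Pi.single a 1) (Pi.single b 1)
    rw [Matrix.dotProduct_mulVec, ← Matrix.mulVec_transpose, Matrix.mulVec_mulVec, Matrix.mulVec_single_one,
      dotProduct_single, mul_one, dotProduct_single, mul_one, Matrix.col_apply] at h1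
    have hsym : ((gs i)ᵀ * gs i) a b = ((gs i)ᵀ * gs i) b a := by
      rw [← Matrix.transpose_apply ((gs i)ᵀ * gs i) b a, Matrix.transpose_mul, Matrix.transpose_transpose]
    rw [hsym]
    rw [Matrix.smul_apply, Matrix.one_apply, smul_eq_mul]
    apply mul_right_cancel₀ hκ
    rw [h1, mul_comm, ← mul_assoc, mul_inv_cancel₀ hκ, one_mul]
    simp [Pi.single_apply, eq_comm]
  have hmono : ∀ (i : Fin 2) (b : Fin 3), ∃ (k : Fin 3) (s : F),
      gs i *ᵥ (Pi.single b 1 : Fin 3 → F) = s • Pi.single k 1 := by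
    intro i b
    obtain ⟨μ, hμ⟩ := hmu i
    have hd := congrArg Matrix.det hμ
    rw [Matrix.det_mul, Matrix.det_transpose, Matrix.det_smul, Matrix.det_one, mul_one, Fintype.card_fin] at hd
    have hμ0 : μ ≠ 0 := fun h0 => by
      have h1 := hdot (fun _ => Pi.single b 1) (fun _ => Pi.single b 1)
      have h2' : (gs i *ᵥ (Pi.single b 1 : Fin 3 → F)) ⬝ᵥ (gs i *ᵥ Pi.single b 1) = 0 := by
        rw [Matrix.dotProduct_mulVec, ← Matrix.mulVec_transpose, Matrix.mulVec_mulVec, hμ, h0]
        simp
      fin_cases i <;> simp at h2' <;> simp [h2'] at h1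
    have hμ1 : μ = 1 := by
      have hd0 : (gs i).det ≠ 0 := left_ne_zero_of_mul (hd ▸ pow_ne_zero 3 hμ0)
      have h1 := FiniteField.pow_card_sub_one_eq_one μ hμ0
      have h2' := FiniteField.pow_card_sub_one_eq_one _ hd0
      rw [h3] at h1 h2'
      linear_combination -hd - μ * h1 + h2'
    refine eq_smul_single_of_norm_one h3 ?_
    rw [Matrix.dotProduct_mulVec, ← Matrix.mulVec_transpose, Matrix.mulVec_mulVec, hμ, hμ1, one_smul,
      Matrix.one_mulVec]
    simp
  choose k s hks using fun i => hmono i (r a (σ i))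
  refine ⟨r.symm k, ∏ i, s i, ?_⟩
  show act g (point e P _) = _ • point e P (Pi.single (r (r.symm k)) 1)
  rw [hact, ← pureVec_single, hgs, Equiv.apply_symm_apply, ← point_smul]
  congr 1
  simp only [hks]
  rw [← pureVec_single]
  funext x
  simp [pureTensorVec, Finset.prod_mul_distrib]

end CfsgLib.SmallDim.OrthEven
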