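import Cfsg.Agent.Lib.SmallDim.UnitaryThreeCode
import Cfsg.Agent.Lib.SmallDim.OrthWreath
import Cfsg.Agent.Lib.SmallDim.UnitarySubfield

/-!
The index-two subfield subgroups of `SU(3,q)`, `q` odd: real orthogonal matrices in a unitary frame.
-/

set_option autoImplicit false
set_option linter.style.haveILetI false
set_option linter.unusedSectionVars false

namespace CfsgLib.SmallDim.UThree

open scoped MatrixGroups Matrix
open Cfsg.Geo

variable {F : Type*} [Field F] [Fintype F] {q : ℕ}

/-- In a unitary frame a subfield group of index two consists of scalar multiples of real orthogonal matrices. -/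
theorem exists_real_frame {σ : F ≃+* F} (hu : UnitarySetup 3 q σ) (hodd : Odd q) {K : Subfield F}
    (hK : Fintype.card F = Nat.card K ^ 2) {P : GL (Fin 3) F}
    (hform : IsFormRationalStructure (Cfsg.hermForm 3 F q) K 1 P) :
    ∃ U ∈ Cfsg.GU 3 F q, ∀ g ∈ subfieldSubgroup K P ⊓ Cfsg.GU 3 F q,
      ∃ (r : F) (Y : Matrix (Fin 3) (Fin 3) F), (∀ i j, Y i j ∈ K) ∧ Yᵀ * Y = 1 ∧
        ((U⁻¹ * g * U : GL (Fin 3) F) : Matrix (Fin 3) (Fin 3) F) = r • Y := by
  classical
  have hcardK : Nat.card K = q := by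
    have h : Nat.card K ^ 2 = q ^ 2 := hK.symm.trans hu.card
    exact Nat.pow_left_injective two_ne_zero h
  haveI : Fintype K := Fintype.ofFinite K
  have hfix : ∀ x : F, x ∈ K → σ x = x := fun x hx => by
    rw [hu.pow]
    have := FiniteField.pow_card (⟨x, hx⟩ : K)
    rw [← Nat.card_eq_fintype_card, hcardK] at this
    exact congrArg Subtype.val this
  set f := Cfsg.hermForm 3 F q
  set Pm : Matrix (Fin 3) (Fin 3) F := (P : Matrix (Fin 3) (Fin 3) F)
  set G : Matrix (Fin 3) (Fin 3) F := Pmᵀ * Pm.map σ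
  have hGf : ∀ i j, G i j = f (Pm *ᵥ Pi.single i 1) (Pm *ᵥ Pi.single j 1) := fun i j => by
    simp [G, f, hu.herm_eq, Matrix.mul_apply, Matrix.mulVec_single_one, dotProduct]
  have hGK : ∀ i j, G i j ∈ K := fun i j => by
    have hmem : ∀ i : Fin 3, ∀ a, (Pi.single i 1 : Fin 3 → F) a ∈ K := fun i a => by
      by_cases h : a = i
      · subst h; simp [K.one_mem]
      · simp [h, K.zero_mem]
    rw [hGf]
    simpa using hform (Pi.single i 1) (Pi.single j 1) (hmem i) (hmem j)
  have hGs : ∀ i j, G j i = G i j := fun i j => by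
    rw [← hfix _ (hGK i j), hGf, hGf]
    exact hu.herm _ _
  let G₀ : Matrix (Fin 3) (Fin 3) K := Matrix.of fun i j => ⟨G i j, hGK i j⟩
  have hG₀ : G₀.map (fun x : K => (x : F)) = G := rfl
  have hGd : G.det ≠ 0 := by
    rw [Matrix.det_mul, Matrix.det_transpose]
    refine mul_ne_zero (Matrix.GeneralLinearGroup.det P).ne_zero ?_
    rw [show (Pm.map σ).det = σ Pm.det from (RingEquiv.map_det σ _).symm]
    exact (map_ne_zero σ).2 (Matrix.GeneralLinearGroup.det P).ne_zero
  have hG₀d : G₀.det ≠ 0 := fun h => hGd (by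
    rw [← hG₀, show G₀.map (fun x : K => (x : F)) = K.subtype.mapMatrix G₀ from rfl, ← RingHom.map_det, h, map_zero])
  have h2 : (2 : K) ≠ 0 := CfsgLib.ClassicalForms.two_ne_zero_of_odd (by rwa [hcardK])
  obtain ⟨c, A, hc, hA⟩ := OrthEven.exists_scaled_orth_matrix h2
    (show G₀ᵀ = G₀ from Matrix.ext fun i j => Subtype.ext (hGs i j)) hG₀d
  set Am : Matrix (Fin 3) (Fin 3) F := (A : Matrix (Fin 3) (Fin 3) K).map (fun x : K => (x : F))
  have hAσ : Am.map σ = Am := Matrix.ext fun i j => hfix _ ((A : Matrix (Fin 3) (Fin 3) K) i j).2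
  have hAG : Amᵀ * G * Am = (c : F) • 1 := by
    have h := congrArg K.subtype.mapMatrix hA
    rw [map_mul, map_mul] at h
    rw [← hG₀]
    calc _ = K.subtype.mapMatrix ((A : Matrix (Fin 3) (Fin 3) K)ᵀ) * K.subtype.mapMatrix G₀ *
          K.subtype.mapMatrix (A : Matrix (Fin 3) (Fin 3) K) := rfl
      _ = K.subtype.mapMatrix (c • 1) := h
      _ = _ := by ext i j; by_cases hij : i = j <;> simp [Matrix.one_apply, hij]
  have hc' : (c : F) ≠ 0 := fun h => hc (Subtype.ext h)
  obtain ⟨t, ht, -⟩ := hu.exists_norm_avoid (b := (c : F)⁻¹) (by rw [map_inv₀, hfix _ c.2]) (inv_ne_zero hc') ∅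
    (by simp)
  set Um : Matrix (Fin 3) (Fin 3) F := t • (Pm * Am)
  have hUgram : Umᵀ * Um.map σ = 1 := by
    rw [show Um.map σ = σ t • (Pm.map σ * Am) from by
      ext i j; simp [Um, Matrix.map_apply, Matrix.mul_apply, map_sum, hfix _ ((A : Matrix (Fin 3) (Fin 3) K) _ _).2, Am]]
    rw [Matrix.transpose_smul, Matrix.transpose_mul, Matrix.smul_mul, Matrix.mul_smul, smul_smul,
      show Amᵀ * Pmᵀ * (Pm.map σ * Am) = Amᵀ * G * Am by simp only [G, Matrix.mul_assoc], hAG, smul_smul, ht,
      inv_mul_cancel₀ hc', one_smul]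
  set U := Matrix.GeneralLinearGroup.mkOfDetNeZero Um (fun e => by
    have := congrArg Matrix.det hUgram
    rw [Matrix.det_mul, Matrix.det_transpose, e, zero_mul, Matrix.det_one] at this
    exact zero_ne_one this)
  have hUGU : U ∈ Cfsg.GU 3 F q := hu.mem_GU_iff.2 hUgram
  refine ⟨U, hUGU, fun g hg => ?_⟩
  obtain ⟨B, z, hB, hz, hgB⟩ := mem_subfieldSubgroup.mp hg.1
  obtain ⟨ru, hr⟩ := (mem_scalars_iff z).mp hz
  set r : F := (ru : F) with hrdef
  set AF : GL (Fin 3) F := Matrix.GeneralLinearGroup.map (K.subtype : K →+* F) A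
  have hAF : (AF : Matrix (Fin 3) (Fin 3) F) = Am := rfl
  set W := AF⁻¹ * B * AF
  have hWK : ∀ i j, (W : Matrix (Fin 3) (Fin 3) F) i j ∈ K := by
    let SK : Subgroup (GL (Fin 3) F) := (Matrix.GeneralLinearGroup.map (K.subtype : K →+* F)).range
    have hB' : B ∈ SK := mem_map_range hB
    have hAF' : AF ∈ SK := ⟨A, rfl⟩
    obtain ⟨W₀, hW₀⟩ : W ∈ SK := SK.mul_mem (SK.mul_mem (SK.inv_mem hAF') hB') hAF'
    intro i j
    rw [← hW₀]
    exact ((W₀ : Matrix (Fin 3) (Fin 3) K) i j).2
  have hsame : ((U⁻¹ * g * U : GL (Fin 3) F) : Matrix (Fin 3) (Fin 3) F) = r • (W : Matrix (Fin 3) (Fin 3) F) := by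
    set Tt : GL (Fin 3) F := U * (P * AF)⁻¹
    have hTt : (Tt : Matrix (Fin 3) (Fin 3) F) = t • 1 := by
      have h1 : (U : Matrix (Fin 3) (Fin 3) F) = t • ((P * AF : GL (Fin 3) F) : Matrix (Fin 3) (Fin 3) F) := by
        rw [Units.val_mul, hAF]; rfl
      show (U : Matrix (Fin 3) (Fin 3) F) * (((P * AF)⁻¹ : GL (Fin 3) F) : Matrix (Fin 3) (Fin 3) F) = _
      rw [h1, Matrix.smul_mul, ← Units.val_mul, mul_inv_cancel, Units.val_one]
    have hTc : Tt * g = g * Tt := scalars_commute (mem_scalars_of_act t fun w => act_scalar hTt w) g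
    have hzB : B * z = z * B := (scalars_commute hz B).symm
    rw [show U⁻¹ * g * U = W * z by
      have hU : U = Tt * (P * AF) := by simp [Tt, mul_assoc]
      rw [hU, mul_inv_rev]
      calc (P * AF)⁻¹ * Tt⁻¹ * g * (Tt * (P * AF)) = (P * AF)⁻¹ * (Tt⁻¹ * (g * Tt)) * (P * AF) := by group
        _ = (P * AF)⁻¹ * g * (P * AF) := by rw [← hTc]; group
        _ = AF⁻¹ * (B * z) * AF := by rw [hgB]; group
        _ = AF⁻¹ * B * (z * AF) := by group
        _ = W * z := by rw [scalars_commute hz AF]; simp only [W]; group]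
    rw [Units.val_mul, hr]
    ext i j; simp [Matrix.scalar, mul_comm, hrdef]
  have horth : ∃ μ : F, μ ∈ K ∧ (W : Matrix (Fin 3) (Fin 3) F)ᵀ * (W : Matrix (Fin 3) (Fin 3) F) = μ • 1 := by
    have hmem : U⁻¹ * g * U ∈ Cfsg.GU 3 F q :=
      Subgroup.mul_mem _ (Subgroup.mul_mem _ (Subgroup.inv_mem _ hUGU) hg.2) hUGU
    have h := hu.transpose_mul hmem
    rw [hsame, show (r • (W : Matrix (Fin 3) (Fin 3) F)).map σ = σ r • (W : Matrix (Fin 3) (Fin 3) F) from
      Matrix.ext fun i j => by
        rw [Matrix.map_apply, Matrix.smul_apply, Matrix.smul_apply, smul_eq_mul, smul_eq_mul, map_mul, hfix _ (hWK i j)], Matrix.transpose_smul, Matrix.smul_mul, Matrix.mul_smul,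
      smul_smul] at h
    have hr0 : r * σ r ≠ 0 := fun e => by
      have h' := congrArg Matrix.det h
      rw [e, zero_smul, Matrix.det_zero, Matrix.det_one] at h'
      exact zero_ne_one h'
    refine ⟨(r * σ r)⁻¹, K.inv_mem ?_, ?_⟩
    · have hfx : σ (r * σ r) = r * σ r := by rw [map_mul, hu.invol]; ring
      obtain ⟨K', hK', hcard'⟩ := hu.exists_fixed
      have hle : K ≤ K' := fun x hx => (hK' x).2 (hfix x hx)
      haveI : Finite K' := Subtype.finite
      have heq : (K : Set F) = K' := Set.eq_of_subset_of_ncard_le hle (by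
        rw [← Nat.card_coe_set_eq, ← Nat.card_coe_set_eq]
        exact le_of_eq (hcard'.trans hcardK.symm))
      exact heq.ge ((hK' _).2 hfx)
    · rw [← h, smul_smul, inv_mul_cancel₀ hr0, one_smul]
  obtain ⟨μ, hμK, hμ⟩ := horth
  set dW := (W : Matrix (Fin 3) (Fin 3) F).det
  have hd3 : dW * dW = μ ^ 3 := by
    have h := congrArg Matrix.det hμ
    rwa [Matrix.det_mul, Matrix.det_transpose, Matrix.det_smul, Matrix.det_one, mul_one, Fintype.card_fin] at h
  have hd0 : dW ≠ 0 := ((Matrix.isUnit_iff_isUnit_det _).mp W.isUnit).ne_zero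
  have hμ0 : μ ≠ 0 := fun e => mul_ne_zero hd0 hd0 (by rw [hd3, e]; ring)
  have hdK : dW ∈ K := by
    let W' : Matrix (Fin 3) (Fin 3) K := Matrix.of fun i j => ⟨_, hWK i j⟩
    rw [show dW = (K.subtype.mapMatrix W').det from rfl, ← RingHom.map_det]
    exact W'.det.2
  refine ⟨r * (dW / μ), (μ / dW) • (W : Matrix (Fin 3) (Fin 3) F), fun i j => ?_, ?_, ?_⟩
  · exact K.mul_mem (K.div_mem hμK hdK) (hWK i j)
  · rw [Matrix.transpose_smul, Matrix.smul_mul, Matrix.mul_smul, hμ, smul_smul, smul_smul,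
      show μ / dW * (μ / dW) * μ = 1 by field_simp; linear_combination -hd3, one_smul]
  · rw [hsame, smul_smul, mul_assoc, show dW / μ * (μ / dW) = 1 by field_simp, mul_one]

/-- The columns of a unitary matrix give an orthogonal frame. -/
theorem unitary_frame_decomp {σ : F ≃+* F} (hu : UnitarySetup 3 q σ) {U : GL (Fin 3) F} (hU : U ∈ Cfsg.GU 3 F q) :
    IsNondegenerateMDecomposition (Cfsg.hermForm 3 F q) 1 (fun i => F ∙ act U (Pi.single i 1)) := by
  classical
  set e : Fin 3 → Fin 3 → F := fun i => act U (Pi.single i 1)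
  have hf : ∀ i j, Cfsg.hermForm 3 F q (e i) (e j) = if i = j then 1 else 0 := fun i j => by
    rw [mem_GU.1 hU, hu.herm_eq]
    by_cases h : i = j
    · subst h; simp
    · simp [h]
  have hs := hu.sesqui
  have hli : LinearIndependent F e := by
    have h := ((Pi.basisFun F (Fin 3)).linearIndependent).map' (Matrix.toLin' (U : Matrix (Fin 3) (Fin 3) F))
      (LinearMap.ker_eq_bot.mpr fun a b hab => act_injective U (by simpa [act] using hab))
    have he : e = Matrix.toLin' (U : Matrix (Fin 3) (Fin 3) F) ∘ Pi.basisFun F (Fin 3) := funext fun i => by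
      simp [e, act]
    rw [he]
    exact h
  have hspan := hli.span_eq_top_of_card_eq_finrank (by rw [Fintype.card_fin, Module.finrank_fin_fun])
  refine ⟨⟨by norm_num, one_pos, fun i => finrank_span_singleton (hli.ne_zero i), hli.iSupIndep_span_singleton, ?_⟩,
    fun i w hw hw0 => ?_, fun i j hij x hx y hy => ?_⟩
  · rw [← Submodule.span_range_eq_iSup, hspan]
  · obtain ⟨a, rfl⟩ := Submodule.mem_span_singleton.mp hw
    have ha : a ≠ 0 := fun h => hw0 (by rw [h, zero_smul])
    refine ⟨⟨e i, Submodule.mem_span_singleton_self _, ?_⟩, e i, Submodule.mem_span_singleton_self _, ?_⟩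
    · rw [hs.smul_right, hf, if_pos rfl, mul_one]; exact (map_ne_zero σ).2 ha
    · rw [hs.smul_left, hf, if_pos rfl, mul_one]; exact ha
  · obtain ⟨a, rfl⟩ := Submodule.mem_span_singleton.mp hx
    obtain ⟨b, rfl⟩ := Submodule.mem_span_singleton.mp hy
    rw [hs.smul_left, hs.smul_right, hf, if_neg hij, mul_zero, mul_zero]

/-- A matrix mapping the vectors of a unitary frame to multiples of each other permutes the frame. -/
theorem mem_decompositionStabilizer_lines {U : GL (Fin 3) F} {g : GL (Fin 3) F}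
    (hcol : ∀ i, ∃ j, ∃ c : F, act g (act U (Pi.single i 1)) = c • act U (Pi.single j 1)) :
    g ∈ decompositionStabilizer (fun i => F ∙ act U (Pi.single i 1)) := by
  classical
  choose f c hfc using hcol
  have hne : ∀ i, act U (Pi.single i 1 : Fin 3 → F) ≠ 0 := fun i h => one_ne_zero (α := F) (by
    have h' := congrArg (act U⁻¹) h
    rw [act_inv_act] at h'
    simpa [act] using congrFun h' i)
  have hc : ∀ i, c i ≠ 0 := fun i h => hne i (act_injective g (by
    rw [hfc i, h, zero_smul]; exact (Matrix.mulVec_zero _).symm))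
  have hinj : Function.Injective f := by
    intro i j hij
    by_contra hne'
    have h1 : c j • (Pi.single i 1 : Fin 3 → F) = c i • Pi.single j 1 := act_injective U (act_injective g (by
      rw [act_smul, act_smul, act_smul, act_smul, hfc, hfc, hij, smul_comm]))
    have h2 := congrFun h1 i
    simp [Pi.single_eq_of_ne hne', hc j] at h2
  refine ⟨Equiv.ofBijective f (Finite.injective_iff_bijective.1 hinj), fun i => ?_⟩
  show (F ∙ act U (Pi.single i 1)).map _ = F ∙ act U (Pi.single (f i) 1)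
  rw [Submodule.map_span, Set.image_singleton, Matrix.toLin'_apply]
  show F ∙ act g (act U (Pi.single i 1)) = _
  rw [hfc i, Submodule.span_singleton_smul_eq (isUnit_iff_ne_zero.2 (hc i))]

/-- Over nine elements these groups are monomial. -/
theorem real_monomial_three {σ : F ≃+* F} (hu : UnitarySetup 3 3 σ) {K : Subfield F}
    (hK : Fintype.card F = Nat.card K ^ 2) {P : GL (Fin 3) F}
    (hform : IsFormRationalStructure (Cfsg.hermForm 3 F 3) K 1 P) :
    ∃ D : Fin 3 → Submodule F (Fin 3 → F), IsNondegenerateMDecomposition (Cfsg.hermForm 3 F 3) 1 D ∧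
      subfieldSubgroup K P ⊓ Cfsg.GU 3 F 3 ≤ decompositionStabilizer D := by
  classical
  obtain ⟨U, hU, hframe⟩ := exists_real_frame hu (by decide) hK hform
  haveI : Fintype K := Fintype.ofFinite K
  have hK3 : Fintype.card K = 3 := by
    rw [← Nat.card_eq_fintype_card]
    exact Nat.pow_left_injective two_ne_zero (hK.symm.trans hu.card)
  refine ⟨fun i => F ∙ act U (Pi.single i 1), unitary_frame_decomp hu hU, fun g hg => ?_⟩
  obtain ⟨r, Y, hYK, hYY, hgY⟩ := hframe g hg
  have hcol : ∀ i, ∃ j, ∃ c : F, act g (act U (Pi.single i 1)) = c • act U (Pi.single j 1) := by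
    intro i
    let x : Fin 3 → K := fun k => ⟨Y k i, hYK k i⟩
    have hx : x ⬝ᵥ x = 1 := Subtype.ext (by
      have h := congrFun (congrFun hYY i) i
      rw [Matrix.one_apply_eq, Matrix.mul_apply] at h
      simpa [dotProduct, x, Fin.sum_univ_three, Matrix.transpose_apply] using h)
    obtain ⟨j, c, hc⟩ := OrthEven.eq_smul_single_of_norm_one hK3 hx
    refine ⟨j, r * c, ?_⟩
    rw [show g = U * (U⁻¹ * g * U) * U⁻¹ by group, act_mul, act_inv_act, act_mul]
    have hcolY : act (U⁻¹ * g * U) (Pi.single i 1) = (r * (c : F)) • Pi.single j 1 := by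
      rw [act, hgY, Matrix.smul_mulVec, Matrix.mulVec_single_one]
      funext k
      have h := congrArg Subtype.val (congrFun hc k)
      by_cases hkj : k = j
      · subst hkj; simpa [x] using congrArg (r * ·) h
      · simp [x, hkj] at h ⊢; exact Or.inr h
    rw [hcolY, act_smul]
  exact mem_decompositionStabilizer_lines hcol

end CfsgLib.SmallDim.UThree
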