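import Cfsg.Agent.Lib.SmallDim.UnitaryThreeField
import Cfsg.Agent.Lib.SmallDim.UnitaryThreeReal
import Cfsg.Agent.Lib.SmallDim.UnitaryThreeTablesA
import Cfsg.Agent.Lib.SmallDim.UnitaryThreeTablesB

/-!
The coded models in `SU(3,3)` and `SU(3,5)` as subgroups.
-/

set_option autoImplicit false
set_option linter.style.haveILetI false
set_option linter.unusedSectionVars false

namespace CfsgLib.SmallDim.UThree

open scoped MatrixGroups Matrix
open Cfsg.Geo

instance : Fact (Nat.Prime 5) := ⟨by norm_num⟩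
instance : Fact (Nat.Prime 3) := ⟨by norm_num⟩

variable {p : ℕ} [Fact p.Prime] {F : Type*} [Field F] [Fintype F] [CharP F p] {s : F}

lemma charP_of_card {q : ℕ} (hq : q.Prime) {K : Type*} [Field K] [Fintype K] (h : Fintype.card K = q ^ 2) :
    CharP K q := by
  obtain ⟨p, hchar⟩ := CharP.exists K
  obtain ⟨e, hpp, he⟩ := FiniteField.card K p
  rw [h] at he
  obtain rfl : q = p := (Nat.prime_dvd_prime_iff_eq hq hpp).mp
    (hq.dvd_of_dvd_pow (he ▸ dvd_pow_self q two_ne_zero))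
  exact hchar

lemma act_coded (hs : s ^ 2 = 2) {g : GL (Fin 3) F} {X : M3 p} (hg : (g : Matrix (Fin 3) (Fin 3) F) = decM s X)
    (v : V3 p) : act g (decV s v) = decV s (mv X v) := by rw [act, hg, decM_mulVec hs]

lemma act_pow_coded (hs : s ^ 2 = 2) {g : GL (Fin 3) F} {X : M3 p} (hg : (g : Matrix (Fin 3) (Fin 3) F) = decM s X)
    (m : ℕ) : ∀ v : V3 p, act (g ^ m) (decV s v) = decV s ((mv X)^[m] v) := by
  induction m with
  | zero => intro v; simp [act_one]
  | succ m ih => intro v; rw [pow_succ', act_mul, ih, act_coded hs hg, Function.iterate_succ_apply']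

lemma eq_of_act_units (x y : GL (Fin 3) F)
    (h : ∀ i, act x (decV s (unit3 i : V3 p)) = act y (decV s (unit3 i : V3 p))) : x = y := by
  refine Units.ext (Matrix.ext_of_mulVec_single fun i => ?_)
  have := h i
  rwa [decV_unit] at this

lemma sevenModel_of_coded (hs : s ^ 2 = 2) (h2 : ∀ a : ZMod p, a ^ 2 ≠ 2) {N : ℕ} {S : Fin N → V3 p} {A B : M3 p}
    {a b : GL (Fin 3) F} (ha : (a : Matrix (Fin 3) (Fin 3) F) = decM s A)
    (hb : (b : Matrix (Fin 3) (Fin 3) F) = decM s B)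
    (haG : a ∈ Cfsg.GU 3 F p ⊓ specialLinear (Fin 3) F) (hbG : b ∈ Cfsg.GU 3 F p ⊓ specialLinear (Fin 3) F)
    (haM : a ∈ lineStab (fun k => decV s (S k))) (hbM : b ∈ lineStab (fun k => decV s (S k)))
    (ha7 : a ^ 7 = 1) (hA1 : ∃ i j, mv A (unit3 i) j ≠ unit3 i j)
    (hBA : ∀ i j, mv B (mv A (unit3 i)) j = ((mv A)^[4] (mv B (unit3 i))) j)
    (htr : ∀ m : Fin 7, ((mv A)^[(m : ℕ)] (unit3 0)) 0 + ((mv A)^[(m : ℕ)] (unit3 1)) 1 +
      ((mv A)^[(m : ℕ)] (unit3 2)) 2 = mv A (unit3 0) 0 + mv A (unit3 1) 1 + mv A (unit3 2) 2 →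
      m = 1 ∨ m = 4 ∨ m = 2) :
    SevenModel p (lineStab (fun k => decV s (S k))) a b where
  mem_a := haG
  mem_b := hbG
  a_M := haM
  b_M := hbM
  order := orderOf_eq_prime (hp := ⟨by norm_num⟩) ha7 fun h => by
    obtain ⟨i, j, hij⟩ := hA1
    refine hij (decQ_injective hs h2 ?_)
    have h' := congrFun (act_coded hs ha (unit3 i)) j
    rw [h, act_one] at h'
    exact h'.symm
  semi := eq_of_act_units (s := s) (p := p) _ _ fun i => by
    rw [act_mul, act_mul, act_coded hs ha, act_coded hs hb, act_coded hs hb, act_pow_coded hs ha]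
    exact congrArg _ (funext (hBA i))
  trace := fun m hm => by
    have hentry : ∀ (n : ℕ) (i : Fin 3), ((a ^ n : GL (Fin 3) F) : Matrix (Fin 3) (Fin 3) F) i i =
        decQ s (((mv A)^[n] (unit3 i)) i) := fun n i => by
      have h := congrFun (act_pow_coded hs ha n (unit3 i)) i
      rw [decV_unit, act, Matrix.mulVec_single_one] at h
      exact h
    have htrn : ∀ n : ℕ, Matrix.trace ((a ^ n : GL (Fin 3) F) : Matrix (Fin 3) (Fin 3) F) =
        decQ s (((mv A)^[n] (unit3 0)) 0 + ((mv A)^[n] (unit3 1)) 1 + ((mv A)^[n] (unit3 2)) 2) := fun n => by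
      rw [Matrix.trace_fin_three, hentry, hentry, hentry, decQ_add, decQ_add]
    have h1 := htrn 1
    rw [pow_one, Function.iterate_one] at h1
    rcases htr m (decQ_injective hs h2 ((htrn m).symm.trans (hm.trans h1))) with rfl | rfl | rfl
    exacts [⟨0, rfl⟩, ⟨1, rfl⟩, ⟨2, rfl⟩]
  scalar := fun g c hg => scalar_mem_lineStab _ hg

/-- Non-vanishing of a commutator of coded elements. -/
lemma ne_of_coded (hs : s ^ 2 = 2) (h2 : ∀ a : ZMod p, a ^ 2 ≠ 2) {A E : M3 p} {a g : GL (Fin 3) F} {n : ℕ}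
    (ha : (a : Matrix (Fin 3) (Fin 3) F) = decM s A) (hg : (g : Matrix (Fin 3) (Fin 3) F) = decM s E)
    (hgn : g ^ (n + 1) = 1)
    (hne : ∃ i j, mv E (mv A ((mv E)^[n] (mv A (unit3 i)))) j ≠ mv A (mv E (mv A ((mv E)^[n] (unit3 i)))) j) :
    g * a * g⁻¹ * a ≠ a * (g * a * g⁻¹) := by
  intro h
  have hinv : g⁻¹ = g ^ n := inv_eq_of_mul_eq_one_right (by rw [← pow_succ']; exact hgn)
  obtain ⟨i, j, hij⟩ := hne
  have h' := congrFun (congrArg (fun x => act x (decV s (unit3 i : V3 p))) h) j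
  simp only [hinv, act_mul, act_coded hs ha, act_coded hs hg, act_pow_coded hs hg] at h'
  exact hij (decQ_injective hs h2 h')

/-- No cubic field over nine elements gives a maximal subgroup. -/
theorem no_field_q3 {F : Type*} [Field F] [Fintype F] {σ : F ≃+* F} (hu : UnitarySetup 3 3 σ)
    {H : Subgroup (GL (Fin 3) F)} (hH : IsMaximalIn (Cfsg.GU 3 F 3 ⊓ specialLinear (Fin 3) F) H)
    {K : Subalgebra F (Matrix (Fin 3) (Fin 3) F)} (hK : IsFieldSubalgebra 3 K)
    (hadj : IsAdjointClosedFor (Cfsg.hermForm 3 F 3) K)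
    (hHK : H = subalgebraNormalizer K ⊓ (Cfsg.GU 3 F 3 ⊓ specialLinear (Fin 3) F)) : False := by
  haveI := charP_of_card Nat.prime_three hu.card
  obtain ⟨s, hs⟩ := exists_sqrt_two (p := 3) hu.card (by norm_num) (by decide)
  have h2 : ∀ a : ZMod 3, a ^ 2 ≠ 2 := by decide
  obtain ⟨a, ha, haU, haM, ha7, haS⟩ := cert_l7A.exists_gl hs hu (by norm_num) (by decide)
  obtain ⟨b, hb, hbU, hbM, -, hbS⟩ := cert_l7B.exists_gl hs hu (by norm_num) (by decide)
  obtain ⟨g, hg, hgU, hgM, hgn, hgS⟩ := cert_l7E.exists_gl hs hu (by norm_num) (by decide)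
  obtain ⟨d, hd, hdU, hdS⟩ := exists_unitary_gl out_l7_unitary hs hu (by norm_num) (by decide)
  exact no_field_three hu (Or.inl rfl)
    (sevenModel_of_coded hs h2 ha hb ⟨haU, haS det_l7A⟩ ⟨hbU, hbS det_l7B⟩ haM hbM ha7 (by decide +kernel)
      (by decide +kernel) (by decide +kernel))
    hgM ⟨hgU, hgS det_l7E⟩ (ne_of_coded hs h2 ha hg hgn (by decide +kernel)) ⟨hdU, hdS det_l7Out⟩
    (not_mem_lineStab hs h2 hu.card hd out_l7_bad) hH hK hadj hHK

variable {K : Type*}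

section Five

variable [CharP F 5] {σ : F ≃+* F} {s : F}

/-- No cubic field over twenty-five elements gives a maximal subgroup. -/
theorem no_field_q5 (hu : UnitarySetup 3 5 σ) {H : Subgroup (GL (Fin 3) F)}
    (hH : IsMaximalIn (Cfsg.GU 3 F 5 ⊓ specialLinear (Fin 3) F) H)
    {K : Subalgebra F (Matrix (Fin 3) (Fin 3) F)} (hK : IsFieldSubalgebra 3 K)
    (hadj : IsAdjointClosedFor (Cfsg.hermForm 3 F 5) K)
    (hHK : H = subalgebraNormalizer K ⊓ (Cfsg.GU 3 F 5 ⊓ specialLinear (Fin 3) F)) : False := by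
  obtain ⟨s, hs⟩ := exists_sqrt_two (p := 5) hu.card (by norm_num) (by decide)
  have h2 : ∀ a : ZMod 5, a ^ 2 ≠ 2 := by decide
  obtain ⟨a, ha, haU, haM, ha7, haS⟩ := cert_a7A.exists_gl hs hu (by norm_num) (by decide)
  obtain ⟨b, hb, hbU, hbM, -, hbS⟩ := cert_a7B.exists_gl hs hu (by norm_num) (by decide)
  obtain ⟨g, hg, hgU, hgM, hgn, hgS⟩ := cert_a7C.exists_gl hs hu (by norm_num) (by decide)
  obtain ⟨d, hd, hdU, hdS⟩ := exists_unitary_gl out_a7_unitary hs hu (by norm_num) (by decide)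
  exact no_field_three hu (Or.inr rfl)
    (sevenModel_of_coded hs h2 ha hb ⟨haU, haS det_a7A⟩ ⟨hbU, hbS det_a7B⟩ haM hbM ha7 (by decide +kernel)
      (by decide +kernel) (by decide +kernel))
    hgM ⟨hgU, hgS det_a7C⟩ (ne_of_coded hs h2 ha hg hgn (by decide +kernel)) ⟨hdU, hdS det_a7Out⟩
    (not_mem_lineStab hs h2 hu.card hd out_a7_bad) hH hK hadj hHK

/-- The lines of the first model. -/
abbrev a7Stab (s : F) : Subgroup (GL (Fin 3) F) := lineStab fun k => decV s (a7S k)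

/-- Monomial matrices with entries sixth roots of unity and suitable determinant stabilise the lines. -/
theorem monomial_mem (hu : UnitarySetup 3 5 σ) (hs : s ^ 2 = 2) {g : GL (Fin 3) F} {π : Equiv.Perm (Fin 3)}
    {μ : Fin 3 → F} (h6 : ∀ i, μ i ^ 6 = 1) (hprod : (μ 0 * μ 1 * μ 2) ^ 2 = 1)
    (hg : ∀ i, act g (Pi.single i 1) = μ i • (Pi.single (π i) 1 : Fin 3 → F)) : g ∈ a7Stab s := by
  classical
  have h2 : ∀ a : ZMod 5, a ^ 2 ≠ 2 := by decide
  obtain ⟨D1, hD1, -, hD1M, hD16, -⟩ := cert_a7D1.exists_gl hs hu (by norm_num) (by decide)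
  obtain ⟨D2, hD2, -, hD2M, -, -⟩ := cert_a7D2.exists_gl hs hu (by norm_num) (by decide)
  obtain ⟨C, hC, -, hCM, -, -⟩ := cert_a7C.exists_gl hs hu (by norm_num) (by decide)
  obtain ⟨T, hT, -, hTM, -, -⟩ := cert_a7T.exists_gl hs hu (by norm_num) (by decide)
  have hCact : ∀ i : Fin 3, act C (Pi.single i 1) = (1 : F) • (Pi.single (i + 1) 1 : Fin 3 → F) := fun i => by
    rw [← decV_unit (p := 5) (s := s) i, act_coded hs hC, one_smul, ← decV_unit (p := 5) (s := s) (i + 1)]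
    congr 1
    revert i; decide +kernel
  have hTact : ∀ i : Fin 3, act T (Pi.single i 1) = (-1 : F) • (Pi.single (Equiv.swap 0 1 i) 1 : Fin 3 → F) :=
    fun i => by
    rw [← decV_unit (p := 5) (s := s) i, act_coded hs hT,
      show (-1 : F) = decQ (p := 5) s (-q1) by simp [decQ, q1], ← decV_unit (p := 5) (s := s), ← decV_sv hs]
    congr 1
    revert i; decide +kernel
  obtain ⟨m, hm, hmact⟩ : ∃ m ∈ a7Stab s, ∃ ε : F, (ε = 1 ∨ ε = -1) ∧
      ∀ i, act m (Pi.single i 1) = ε • (Pi.single (π i) 1 : Fin 3 → F) := by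
    have hcases : ∀ π : Equiv.Perm (Fin 3), (∀ i, π i = i) ∨ (∀ i, π i = i + 1) ∨ (∀ i, π i = i + 1 + 1) ∨
        (∀ i, π i = Equiv.swap 0 1 i) ∨ (∀ i, π i = Equiv.swap 0 1 i + 1) ∨ (∀ i, π i = Equiv.swap 0 1 i + 1 + 1) := by
      decide
    rcases hcases π with h | h | h | h | h | h
    · exact ⟨1, one_mem _, 1, Or.inl rfl, fun i => by rw [act_one, one_smul, h]⟩
    · exact ⟨C, hCM, 1, Or.inl rfl, fun i => by rw [hCact, h]⟩
    · exact ⟨C * C, mul_mem hCM hCM, 1, Or.inl rfl, fun i => by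
        rw [act_mul, hCact, one_smul, hCact, h]⟩
    · exact ⟨T, hTM, -1, Or.inr rfl, fun i => by rw [hTact, h]⟩
    · exact ⟨C * T, mul_mem hCM hTM, -1, Or.inr rfl, fun i => by
        rw [act_mul, hTact, act_smul, hCact, one_smul, h]⟩
    · exact ⟨C * (C * T), mul_mem hCM (mul_mem hCM hTM), -1, Or.inr rfl, fun i => by
        rw [act_mul, act_mul, hTact, act_smul, hCact, one_smul, act_smul, hCact, one_smul, h]⟩
  obtain ⟨ε, hε, hmact⟩ := hmact
  have hε2 : ε * ε = 1 := by rcases hε with rfl | rfl <;> ring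
  set δ := μ 0 * μ 1 * μ 2
  -- the diagonal part
  set c : Fin 3 → F := fun i => ε * μ i
  set t := c 0 * c 1 * c 2
  have ht : t = 1 ∨ t = -1 := by
    rw [← mul_self_eq_one_iff]
    show ε * μ 0 * (ε * μ 1) * (ε * μ 2) * (ε * μ 0 * (ε * μ 1) * (ε * μ 2)) = 1
    linear_combination ((ε * ε) ^ 2 + ε * ε + 1) * δ ^ 2 * hε2 + hprod
  have ht2 : t * t = 1 := by rcases ht with h | h <;> rw [h] <;> ring
  set z : F := decQ (p := 5) s (3, 2)
  have hz : IsPrimitiveRoot z 6 := by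
    have hd : ∀ n : ℕ, z ^ n = decQ (p := 5) s ((qm (3, 2))^[n] q1) := fun n => by
      induction n with
      | zero => simp [decQ_one]
      | succ n ih => rw [Function.iterate_succ_apply', decQ_mul hs, ← ih, pow_succ']
    refine (IsPrimitiveRoot.iff_def _ _).mpr ⟨by rw [hd, ← decQ_one (p := 5) (s := s)]; congr 1, fun l hl => ?_⟩
    rw [← Nat.div_add_mod l 6, pow_add, pow_mul,
      show z ^ 6 = 1 by rw [hd, ← decQ_one (p := 5) (s := s)]; congr 1, one_pow, one_mul, hd,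
      ← decQ_one (p := 5) (s := s)] at hl
    have hkey : ∀ r : Fin 6, (qm ((3, 2) : Q2 5))^[(r : ℕ)] q1 = q1 → r = 0 := by decide +kernel
    have := hkey ⟨l % 6, Nat.mod_lt _ (by norm_num)⟩ (decQ_injective hs h2 hl)
    exact Nat.dvd_of_mod_eq_zero (congrArg Fin.val this)
  have hε6 : ε ^ 6 = 1 := by rcases hε with rfl | rfl <;> ring
  have hc6 : ∀ i, (t * c i) ^ 6 = 1 := fun i => by
    rw [show (t * c i) ^ 6 = (t * t) ^ 3 * (ε ^ 6 * μ i ^ 6) by
      show (t * (ε * μ i)) ^ 6 = _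
      ring, ht2, hε6, h6]
    ring
  obtain ⟨i, -, hi⟩ := hz.eq_pow_of_pow_eq_one (hc6 0)
  obtain ⟨j, -, hj⟩ := hz.eq_pow_of_pow_eq_one (ξ := t * c 0 * (t * c 1)) (by rw [mul_pow, hc6, hc6, one_mul])
  -- the diagonal generators
  set zi : F := decQ (p := 5) s (3, 3)
  have hzz : z * zi = 1 := by
    rw [← decQ_mul hs, ← decQ_one (p := 5) (s := s)]; congr 1
  have hdiag : ∀ (x : GL (Fin 3) F) (X : M3 5) (v : Fin 3 → F), (x : Matrix (Fin 3) (Fin 3) F) = decM s X →
      (∀ k l, decQ s (X k l) = if k = l then v k else 0) → (x : Matrix (Fin 3) (Fin 3) F) = Matrix.diagonal v :=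
    fun x X v hx hv => by
      rw [hx]; ext k l; rw [decM, Matrix.of_apply, hv, Matrix.diagonal_apply]
  have hd1 := hdiag D1 a7D1 ![z, zi, 1] hD1 (fun k l => by
    fin_cases k <;> fin_cases l <;> simp [a7D1, z, zi, decQ])
  have hd2 := hdiag D2 a7D2 ![1, z, zi] hD2 (fun k l => by
    fin_cases k <;> fin_cases l <;> simp [a7D2, z, zi, decQ])
  set Tt : GL (Fin 3) F := Matrix.GeneralLinearGroup.mkOfDetNeZero (t • (1 : Matrix (Fin 3) (Fin 3) F)) (by
    rw [Matrix.det_smul, Matrix.det_one, mul_one]; exact pow_ne_zero _ (left_ne_zero_of_mul_eq_one ht2))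
  set d := m⁻¹ * g
  have hdd : ∀ k, act d (Pi.single k 1) = c k • (Pi.single k 1 : Fin 3 → F) := fun k => by
    apply act_injective m
    rw [← act_mul, mul_inv_cancel_left, hg, act_smul, hmact, smul_smul]
    congr 1
    linear_combination -(μ k) * hε2
  have hdeq : d = Tt * (D1 ^ i * D2 ^ j) := by
    refine Units.ext (Matrix.ext_of_mulVec_single fun k => ?_)
    show act d (Pi.single k 1) = _
    rw [hdd, Units.val_mul, Units.val_mul, Units.val_pow_eq_pow_val, Units.val_pow_eq_pow_val, hd1, hd2,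
      Matrix.diagonal_pow, Matrix.diagonal_pow, Matrix.diagonal_mul_diagonal,
      show ((Tt : GL (Fin 3) F) : Matrix (Fin 3) (Fin 3) F) = t • 1 from rfl, Matrix.smul_mul, Matrix.one_mul,
      ← Matrix.diagonal_smul, Matrix.mulVec_single_one]
    funext l
    have e0 : (![z, zi, 1] : Fin 3 → F) ^ i * (![1, z, zi] : Fin 3 → F) ^ j =
        ![z ^ i, zi ^ i * z ^ j, zi ^ j] := by
      funext r; fin_cases r <;> simp
    have ez1 : zi ^ i * z ^ j = t * c 1 := by
      rw [hj, ← hi, ← mul_assoc, ← mul_pow, mul_comm zi, hzz, one_pow, one_mul]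
    have ez2 : zi ^ j = t * c 2 := by
      have h1 : z ^ j * zi ^ j = 1 := by rw [← mul_pow, hzz, one_pow]
      have h2' : z ^ j * (t * c 2) = 1 := by
        rw [hj, show t * c 0 * (t * c 1) * (t * c 2) = (t * t) * t * (c 0 * c 1 * c 2) by ring, ht2, one_mul]
        exact ht2
      exact mul_left_cancel₀ (left_ne_zero_of_mul_eq_one h1) (h1.trans h2'.symm)
    by_cases hlk : l = k
    · subst hlk
      simp only [Matrix.col_apply, Matrix.diagonal_apply_eq, Pi.smul_apply, smul_eq_mul, e0]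
      fin_cases l <;> simp [hi, ez1, ez2, ← mul_assoc, ht2]
    · simp [Matrix.col_apply, Matrix.diagonal_apply_ne _ hlk, Pi.single_eq_of_ne hlk]
  have hgm : g = m * d := by simp [d]
  rw [hgm, hdeq]
  exact mul_mem hm (mul_mem (scalar_mem_lineStab _ (c := t) rfl) (mul_mem (pow_mem hD1M i) (pow_mem hD2M j)))

end Five

end CfsgLib.SmallDim.UThree
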