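import Cfsg.Agent.Lib.SmallDim.SymplecticType
import Cfsg.Agent.Lib.Cores.Fitting

/-!
The generic case in prime dimension: every non-scalar normal subgroup is absolutely irreducible and realised
over no proper subfield. Then there is a symplectic-type normal subgroup or a residual core.
-/

set_option autoImplicit false
set_option linter.style.haveILetI false

namespace CfsgLib.SmallDim

open scoped MatrixGroups Matrix
open Cfsg.Geo

variable {ι : Type} [Fintype ι] [DecidableEq ι] {F : Type*} [Field F] [Finite F]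

lemma commute_of_scalar_commutators {L : Subgroup (GL ι F)} (hperf : ⁅L, L⁆ = L) {b : GL ι F}
    (hb : ∀ a ∈ L, b * a * b⁻¹ * a⁻¹ ∈ scalars ι F) : ∀ a ∈ L, b * a = a * b := by
  let φ : L →* GL ι F :=
    { toFun := fun a => b * a * b⁻¹ * (a : GL ι F)⁻¹
      map_one' := by simp
      map_mul' := fun a a' => by
        calc b * ((a * a' : L) : GL ι F) * b⁻¹ * ((a * a' : L) : GL ι F)⁻¹
            = (b * a * b⁻¹) * (b * a' * b⁻¹ * (a' : GL ι F)⁻¹) * (a : GL ι F)⁻¹ := by
              rw [Subgroup.coe_mul]; group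
          _ = (b * a * b⁻¹) * ((a : GL ι F)⁻¹ * (b * a' * b⁻¹ * (a' : GL ι F)⁻¹)) := by
              rw [mul_assoc, scalars_commute (hb _ a'.2)]
          _ = _ := by group }
  have hker : commutator L ≤ φ.ker := by
    rw [commutator_def, Subgroup.commutator_le]
    intro x _ y _
    rw [MonoidHom.mem_ker, commutatorElement_def, map_mul, map_mul, map_mul,
      show φ x * φ y = φ y * φ x from scalars_commute (hb _ x.2) _, map_inv, map_inv,
      mul_inv_cancel_right, mul_inv_cancel]
  intro a ha
  have ha' : a ∈ (commutator L).map L.subtype := by rw [Subgroup.map_subtype_commutator, hperf]; exact ha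
  obtain ⟨a', ha'', rfl⟩ := ha'
  have h1 : b * (a' : GL ι F) * b⁻¹ * (a' : GL ι F)⁻¹ = 1 := hker ha''
  calc b * L.subtype a' = (b * (a' : GL ι F) * b⁻¹ * (a' : GL ι F)⁻¹) * (a' : GL ι F) * b := by
        show b * (a' : GL ι F) = _
        group
    _ = _ := by rw [h1, one_mul]; rfl

lemma isNilpotent_of_commutator_scalar {L : Subgroup (GL ι F)} (h : ⁅L, L⁆ ≤ scalars ι F) :
    Group.IsNilpotent L := by
  let Z : Subgroup L := (scalars ι F).subgroupOf L
  have hcomm : commutator L ≤ Z := by
    rw [commutator_def, Subgroup.commutator_le]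
    intro a _ b _
    exact Subgroup.mem_subgroupOf.mpr (h (Subgroup.commutator_mem_commutator a.2 b.2))
  have hZ : Z ≤ Subgroup.center L := fun z hz =>
    Subgroup.mem_center_iff.mpr fun g => Subtype.ext (scalars_commute (Subgroup.mem_subgroupOf.mp hz) g).symm
  refine Subgroup.nilpotent_iff_lowerCentralSeries.mpr ⟨2, Subgroup.lowerCentralSeries_succ_eq_bot ⊤ ?_⟩
  rw [Subgroup.top_lowerCentralSeries_one]
  exact hcomm.trans hZ

lemma NormalIn.conjugate {L N H : Subgroup (GL ι F)} (hL : NormalIn L N) (hN : NormalIn N H) {g : GL ι F}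
    (hg : g ∈ H) : NormalIn (L.map (MulAut.conj g).toMonoidHom) N := by
  refine ⟨?_, ?_⟩
  · rintro _ ⟨a, ha, rfl⟩
    exact hN.conj g hg a (hL.le ha)
  · rintro z hz _ ⟨a, ha, rfl⟩
    refine ⟨(g⁻¹ * z * g) * a * (g⁻¹ * z * g)⁻¹, hL.conj _ (hN.conj' hg hz) a ha, ?_⟩
    simp only [MulEquiv.coe_toMonoidHom, MulAut.conj_apply]
    group

set_option maxHeartbeats 1000000 in
/-- A minimal perfect non-scalar normal subgroup gives a residual core. -/
theorem isResidualCore_of_perfect (hn : (Fintype.card ι).Prime) {H N : Subgroup (GL ι F)} (hN : NormalIn N H)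
    (habs : ActsAbsolutelyIrreducibly (matrixSet N))
    (hsub : ∀ K : Subfield F, K ≠ ⊤ → ¬ RealisableOver K (matrixSet N))
    (hperf : ⁅N, N⁆ = N)
    (hmin : ∀ M, NormalIn M H → M ≤ N → M ≤ scalars ι F ∨ M = N) :
    IsResidualCore H N := by
  classical
  haveI : Nonempty ι := Fintype.card_pos_iff.mp hn.pos
  have hcomm : ¬ ∀ a ∈ N, ∀ b ∈ N, a * b = b * a := not_commutative_of_absIrred hn.one_lt habs
  have hns : ¬ N ≤ scalars ι F := fun h => hcomm fun a ha b _ => scalars_commute (h ha) b
  have hscalar : ∀ b, (∀ a ∈ N, b * a = a * b) → b ∈ scalars ι F := by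
    intro b hb
    obtain ⟨c, hc⟩ := habs.2 _ (by
      rintro _ ⟨a, ha, rfl⟩
      exact congrArg Units.val (hb a ha))
    exact mem_scalars_of_act c fun v => act_scalar hc v
  -- every non-scalar normal subgroup of `N` is `N`
  have hsimple : ∀ L, NormalIn L N → ¬ L ≤ scalars ι F → L = N := by
    intro L₀ hL₀ hL₀s
    have hex : ∃ k, ∃ L, NormalIn L N ∧ L ≤ L₀ ∧ ¬ L ≤ scalars ι F ∧ Nat.card L = k :=
      ⟨_, L₀, hL₀, le_rfl, hL₀s, rfl⟩
    obtain ⟨L, hL, hLL₀, hLs, hLk⟩ := Nat.find_spec hex
    have hLmin : ∀ M, NormalIn M N → M ≤ L → M ≤ scalars ι F ∨ M = L := by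
      intro M hM hML
      by_cases hMs : M ≤ scalars ι F
      · exact Or.inl hMs
      · exact Or.inr (Subgroup.eq_of_le_of_card_ge hML
          (hLk ▸ Nat.find_min' hex ⟨M, hM, hML.trans hLL₀, hMs, rfl⟩))
    -- the subgroup generated by the conjugates of `L` is `N`
    set S : Subgroup (GL ι F) := ⨆ h : H, L.map (MulAut.conj (h : GL ι F)).toMonoidHom
    have hLS : L ≤ S := le_iSup_of_le (1 : H) (fun a ha => ⟨a, ha, by simp⟩)
    have hSN : S ≤ N := iSup_le fun h => (hL.conjugate hN h.2).le
    have hS : NormalIn S H := by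
      refine ⟨hSN.trans hN.le, fun g hg x hx => ?_⟩
      have : S.map (MulAut.conj g).toMonoidHom ≤ S := by
        rw [Subgroup.map_iSup]
        refine iSup_le fun h => le_iSup_of_le ⟨g * h, H.mul_mem hg h.2⟩ ?_
        rintro _ ⟨_, ⟨a, ha, rfl⟩, rfl⟩
        exact ⟨a, ha, by simp [mul_assoc]⟩
      exact this ⟨x, hx, rfl⟩
    have hSeq : S = N := (hmin S hS hSN).resolve_left fun h => hLs (hLS.trans h)
    rcases hLmin _ hL.commutator (Subgroup.commutator_le_self L) with hder | hder
    · exfalso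
      -- `N` would be nilpotent
      have hnil : ∀ h : H, (L.map (MulAut.conj (h : GL ι F)).toMonoidHom).subgroupOf N ≤ Cfsg.fittingSubgroup N := by
        intro h
        have hc := hL.conjugate hN h.2
        haveI : ((L.map (MulAut.conj (h : GL ι F)).toMonoidHom).subgroupOf N).Normal :=
          ⟨fun a ha g => hc.conj g g.2 _ ha⟩
        refine CfsgLib.Cores.le_fittingSubgroup ?_
        haveI : Group.IsNilpotent L := isNilpotent_of_commutator_scalar hder
        haveI : Group.IsNilpotent (L.map (MulAut.conj (h : GL ι F)).toMonoidHom) :=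
          Group.nilpotent_of_surjective _ (MonoidHom.subgroupMap_surjective (MulAut.conj (h : GL ι F)).toMonoidHom L)
        exact (Group.nilpotent_of_mulEquiv (Subgroup.subgroupOfEquivOfLe hc.le).symm)
      have htop : Cfsg.fittingSubgroup N = ⊤ := by
        rw [eq_top_iff]
        intro z _
        have hz : (z : GL ι F) ∈ S := hSeq.symm ▸ z.2
        have hle : S ≤ (Cfsg.fittingSubgroup N).map N.subtype := iSup_le fun h x hx =>
          ⟨⟨x, (hL.conjugate hN h.2).le hx⟩, hnil h hx, rfl⟩
        obtain ⟨z', hz', he⟩ := hle hz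
        rwa [← Subtype.ext he]
      haveI : Group.IsNilpotent N := CfsgLib.Cores.fittingSubgroup_eq_top_iff.mp htop
      haveI : Nontrivial N := by
        rw [Subgroup.nontrivial_iff_ne_bot]
        exact fun h => hns (h ▸ bot_le)
      have hlt := Group.IsSolvable.commutator_lt_top_of_nontrivial (G := N)
      refine hlt.ne (Subgroup.map_injective N.subtype_injective ?_)
      rw [Subgroup.map_subtype_commutator, ← MonoidHom.range_eq_map, Subgroup.range_subtype, hperf]
    have hLabs : ActsAbsolutelyIrreducibly (matrixSet L) := by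
      rcases normal_cases hn habs.1 hL hLs with h | ⟨D, χ, h⟩ | ⟨K, h⟩
      · exact h
      all_goals
        exfalso
        refine hLs ?_
        rw [← hder, Subgroup.commutator_le]
        intro a ha b hb
        rw [commutatorElement_def, h.commutative a ha b hb, mul_inv_cancel_right, mul_inv_cancel]
        exact one_mem _
    have hconj : ∀ g ∈ H, L.map (MulAut.conj g).toMonoidHom ≤ L := by
      intro g hg
      set L' := L.map (MulAut.conj g).toMonoidHom
      have hL' := hL.conjugate hN hg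
      have hcap : NormalIn (L' ⊓ L) N :=
        ⟨inf_le_right.trans hL.le, fun z hz a ha => ⟨hL'.conj z hz a ha.1, hL.conj z hz a ha.2⟩⟩
      rcases hLmin _ hcap inf_le_right with h | h
      · exfalso
        refine hLs ?_
        have hL's : L' ≤ scalars ι F := fun b hb => by
          have hcomb := commute_of_scalar_commutators hder (b := b) (fun a ha => h ⟨by
            rw [show b * a * b⁻¹ * a⁻¹ = b * (a * b⁻¹ * a⁻¹) by group]
            exact L'.mul_mem hb (hL'.conj a (hL.le ha) _ (L'.inv_mem hb)),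
            L.mul_mem (hL.conj b (hL'.le hb) a ha) (L.inv_mem ha)⟩)
          obtain ⟨c, hc⟩ := hLabs.2 _ (by
            rintro _ ⟨a, ha, rfl⟩
            exact congrArg Units.val (hcomb a ha))
          exact mem_scalars_of_act c fun v => act_scalar hc v
        intro a ha
        have hm := hL's ⟨a, ha, rfl⟩
        simp only [MulEquiv.coe_toMonoidHom, MulAut.conj_apply] at hm
        have := (scalars_normal (ι := ι) (F := F)).conj_mem _ hm g⁻¹
        simpa [mul_assoc] using this
      · exact (Subgroup.eq_of_le_of_card_ge (inf_eq_right.mp h)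
          (Subgroup.card_map_of_injective (MulAut.conj g).injective).le).ge
    have hLn : NormalIn L H := ⟨hL.le.trans hN.le, fun g hg a ha => hconj g hg ⟨a, ha, rfl⟩⟩
    exact le_antisymm hL₀.le (((hmin L hLn hL.le).resolve_left hLs).ge.trans hLL₀)
  set Z := (scalars ι F).subgroupOf N
  refine ⟨hN.le, hN.conj, hperf, ?_, ?_, ?_, habs, hsub⟩
  · haveI : Nontrivial (N ⧸ Z) := by
      rw [QuotientGroup.nontrivial_iff]
      exact fun h => hns (Subgroup.subgroupOf_eq_top.mp h)
    refine ⟨fun T hT => ?_⟩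
    set T' := T.comap (QuotientGroup.mk' Z)
    have hT' : NormalIn (T'.map N.subtype) N := by
      refine ⟨Subgroup.map_subtype_le T', ?_⟩
      rintro g hg _ ⟨a, ha, rfl⟩
      refine ⟨⟨g, hg⟩ * a * ⟨g, hg⟩⁻¹, (hT.comap _).conj_mem a ha _, ?_⟩
      simp only [map_mul, map_inv]
      rfl
    by_cases hs : T'.map N.subtype ≤ scalars ι F
    · left
      rw [Subgroup.eq_bot_iff_forall]
      intro t ht
      obtain ⟨a, rfl⟩ := QuotientGroup.mk'_surjective Z t
      exact (QuotientGroup.eq_one_iff a).mpr (Subgroup.mem_subgroupOf.mpr (hs ⟨a, ht, rfl⟩))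
    · right
      rw [eq_top_iff]
      intro t _
      obtain ⟨a, rfl⟩ := QuotientGroup.mk'_surjective Z t
      have : (a : GL ι F) ∈ T'.map N.subtype := (hsimple _ hT' hs).symm ▸ a.2
      obtain ⟨a', ha', he⟩ := this
      rwa [← Subtype.ext he]
  · intro hab
    apply hns
    rw [← hperf, Subgroup.commutator_le]
    intro a ha b hb
    have := hab.is_comm.comm (QuotientGroup.mk' Z ⟨a, ha⟩) (QuotientGroup.mk' Z ⟨b, hb⟩)
    have h1 : QuotientGroup.mk' Z ((⟨a, ha⟩ : N) * ⟨b, hb⟩ * (⟨a, ha⟩ : N)⁻¹ * (⟨b, hb⟩ : N)⁻¹) = 1 := by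
      rw [map_mul, map_mul, map_mul, this, map_inv, map_inv, mul_inv_cancel_right, mul_inv_cancel]
    rw [commutatorElement_def]
    exact Subgroup.mem_subgroupOf.mp ((QuotientGroup.eq_one_iff _).mp h1)
  · intro h _ hc
    exact hscalar h (commute_of_scalar_commutators hperf hc)

/-- The generic case. -/
theorem sympl_or_residual (hn : (Fintype.card ι).Prime) (hodd : Odd (Fintype.card ι))
    {H : Subgroup (GL ι F)} (hsl : H ≤ specialLinear ι F) (hHs : ¬ H ≤ scalars ι F)
    (habs : ∀ N, NormalIn N H → ¬ N ≤ scalars ι F → ActsAbsolutelyIrreducibly (matrixSet N))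
    (hsub : ∀ N, NormalIn N H → ¬ N ≤ scalars ι F → ∀ K : Subfield F, K ≠ ⊤ → ¬ RealisableOver K (matrixSet N)) :
    (∃ R, SymplData H R) ∨ ∃ P, NormalIn P H ∧ IsResidualCore H P := by
  classical
  have hex : ∃ k, ∃ N, NormalIn N H ∧ ¬ N ≤ scalars ι F ∧ Nat.card N = k := ⟨_, H, NormalIn.refl H, hHs, rfl⟩
  obtain ⟨N, hN, hNs, hNk⟩ := Nat.find_spec hex
  have hmin : ∀ M, NormalIn M H → M ≤ N → M ≤ scalars ι F ∨ M = N := by
    intro M hM hMN
    by_cases hMs : M ≤ scalars ι F
    · exact Or.inl hMs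
    · exact Or.inr (Subgroup.eq_of_le_of_card_ge hMN (hNk ▸ Nat.find_min' hex ⟨M, hM, hMs, rfl⟩))
  rcases hmin _ hN.commutator (Subgroup.commutator_le_self N) with h | h
  · refine Or.inl ⟨N, exists_symplData hn hodd hsl hN (habs N hN hNs)
      (fun a ha b hb => h (Subgroup.commutator_mem_commutator ha hb)) hmin fun M hM hMc => ?_⟩
    by_contra hMs
    exact not_commutative_of_absIrred hn.one_lt (habs M hM hMs) hMc
  · exact Or.inr ⟨N, hN, isResidualCore_of_perfect hn hN (habs N hN hNs) (hsub N hN hNs) h hmin⟩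

end CfsgLib.SmallDim
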