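import Cfsg.Agent.Lib.SmallDim.Basic

/-!
Clifford's theorem in prime dimension: a non-scalar normal subgroup of an irreducible subgroup of `GL ι F`
(`Fintype.card ι` prime, `F` finite) gives a decomposition into lines, or generates a field of matrices
of full degree, or is absolutely irreducible.
-/

set_option autoImplicit false
set_option linter.style.haveILetI false

namespace CfsgLib.SmallDim

open scoped MatrixGroups Matrix
open Cfsg.Geo

variable {ι : Type} [Fintype ι] [DecidableEq ι] {F : Type*} [Field F]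

/-- Diagonalisable case: a family of lines, the common eigenspaces of `N`, permuted by `H`. -/
structure EigenLines (H N : Subgroup (GL ι F)) (D : Fin (Fintype.card ι) → Submodule F (ι → F))
    (χ : Fin (Fintype.card ι) → GL ι F → F) : Prop where
  decomp : IsMDecomposition 1 D
  le : H ≤ decompositionStabilizer D
  eigen : ∀ g ∈ N, ∀ i, ∀ v ∈ D i, act g v = χ i g • v
  distinct : ∀ i j, i ≠ j → ∃ g ∈ N, χ i g ≠ χ j g

/-- Field case: the centraliser of `N` is a field of matrices of full degree, containing `N`. -/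
structure FullField (H N : Subgroup (GL ι F)) (K : Subalgebra F (Matrix ι ι F)) : Prop where
  isField : IsFieldSubalgebra (Fintype.card ι) K
  le : H ≤ subalgebraNormalizer K
  mem_iff : ∀ M, M ∈ K ↔ ∀ s ∈ matrixSet N, s * M = M * s
  mem : ∀ g ∈ N, (g : Matrix ι ι F) ∈ K
  centralizes : ∀ M, (∀ k ∈ K, k * M = M * k) → M ∈ K

/-- The common eigenspace of `N` for the function `c`. -/
def commonEigenspace (N : Subgroup (GL ι F)) (c : GL ι F → F) : Submodule F (ι → F) where
  carrier := {v | ∀ g ∈ N, act g v = c g • v}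
  add_mem' {a b} ha hb g hg := by
    simp only [act, Matrix.mulVec_add, smul_add]
    rw [← ha g hg, ← hb g hg]
  zero_mem' g _ := by simp [act]
  smul_mem' a v hv g hg := by
    simp only [act, Matrix.mulVec_smul]
    rw [smul_comm, ← hv g hg]

lemma mem_commonEigenspace {N : Subgroup (GL ι F)} {c : GL ι F → F} {v : ι → F} :
    v ∈ commonEigenspace N c ↔ ∀ g ∈ N, act g v = c g • v := Iff.rfl

/-- Either `N` is irreducible or it has a common eigenvector. -/
lemma irreducible_or_eigenvector (hn : (Fintype.card ι).Prime) {H N : Subgroup (GL ι F)}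
    (hH : ActsIrreducibly (matrixSet H)) (hN : NormalIn N H) :
    ActsIrreducibly (matrixSet N) ∨ ∃ (c : GL ι F → F) (v : ι → F), v ≠ 0 ∧ v ∈ commonEigenspace N c := by
  classical
  by_cases hirr : ActsIrreducibly (matrixSet N)
  · exact Or.inl hirr
  rw [actsIrreducibly_iff] at hirr hH
  push Not at hirr
  obtain ⟨W0, hW0, hW0b, hW0t⟩ := hirr
  set P : Submodule F (ι → F) → Prop := fun W => W ≠ ⊥ ∧ ∀ g ∈ N, ∀ v ∈ W, act g v ∈ W with hP
  have hex : ∃ d, ∃ W, P W ∧ Module.finrank F W = d := ⟨_, W0, ⟨hW0b, hW0⟩, rfl⟩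
  set d := Nat.find hex with hd
  obtain ⟨W, hW, hWd⟩ := Nat.find_spec hex
  have hmin : ∀ W', P W' → d ≤ Module.finrank F W' := fun W' h => Nat.find_min' hex ⟨W', h, rfl⟩
  have hdlt : d < Fintype.card ι := by
    have h1 := Submodule.finrank_lt hW0t
    rw [Module.finrank_fintype_fun_eq_card] at h1
    exact lt_of_le_of_lt (hmin W0 ⟨hW0b, hW0⟩) h1
  set Q : Submodule F (ι → F) → Prop := fun U => (∀ g ∈ N, ∀ v ∈ U, act g v ∈ U) ∧ d ∣ Module.finrank F U
  let k := Nat.findGreatest (fun k => ∃ U, Q U ∧ Module.finrank F U = k) (Fintype.card ι)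
  have hk : ∃ U, Q U ∧ Module.finrank F U = k := by
    apply Nat.findGreatest_spec (P := fun k => ∃ U, Q U ∧ Module.finrank F U = k) (m := 0) (Nat.zero_le _)
    exact ⟨⊥, ⟨fun g _ v hv => by rw [Submodule.mem_bot] at hv ⊢; simp [hv, act], by simp⟩, by simp⟩
  obtain ⟨U, hU, hUk⟩ := hk
  have hUtop : U = ⊤ := by
    by_contra hne
    -- some translate of `W` is not inside `U`
    have : ∃ h ∈ H, ¬ ∀ v ∈ W, act h v ∈ U := by
      by_contra hall
      push Not at hall
      let S : Submodule F (ι → F) := ⨅ h ∈ H, U.comap (Matrix.toLin' ((h : GL ι F) : Matrix ι ι F))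
      have hmem : ∀ v, v ∈ S ↔ ∀ h ∈ H, act h v ∈ U := fun v => by simp [S, act, Matrix.toLin'_apply]
      have hinv : ∀ g ∈ H, ∀ v ∈ S, act g v ∈ S := by
        intro g hg v hv
        rw [hmem] at hv ⊢
        intro h hh
        rw [← act_mul]
        exact hv _ (H.mul_mem hh hg)
      rcases hH S hinv with hS | hS
      · exact hW.1 ((Submodule.eq_bot_iff _).mpr fun v hv => by
          have : v ∈ S := (hmem v).mpr fun h hh => hall h hh v hv
          simpa [hS] using this)
      · refine hne (Submodule.eq_top_iff'.mpr fun v => ?_)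
        have : v ∈ S := hS ▸ Submodule.mem_top
        simpa [act_one] using (hmem v).mp this 1 H.one_mem
    obtain ⟨h, hh, hnot⟩ := this
    set e : (ι → F) ≃ₗ[F] (ι → F) :=
      LinearEquiv.ofBijective (Matrix.toLin' (h : Matrix ι ι F))
        ⟨act_injective h, fun v => ⟨act h⁻¹ v, act_act_inv h v⟩⟩
    set W' := W.map (e : (ι → F) →ₗ[F] (ι → F)) with hW'
    have hW'inv : ∀ g ∈ N, ∀ v ∈ W', act g v ∈ W' := by
      rintro g hg _ ⟨v, hv, rfl⟩
      obtain ⟨y, hy, hgy⟩ := hN.mul_swap hh hg
      refine ⟨act y v, hW.2 y hy v hv, ?_⟩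
      show act h (act y v) = act g (act h v)
      rw [← act_mul, ← act_mul, hgy]
    have hW'd : Module.finrank F W' = d := by
      rw [hW', LinearEquiv.finrank_map_eq, hWd]
    have hnotle : ¬ W' ≤ U := fun hle => hnot fun v hv => hle ⟨v, hv, rfl⟩
    have hdis : W' ⊓ U = ⊥ := by
      by_contra hne'
      have h1 := hmin (W' ⊓ U) ⟨hne', fun g hg v hv => ⟨hW'inv g hg v hv.1, hU.1 g hg v hv.2⟩⟩
      exact hnotle (inf_eq_left.mp (Submodule.eq_of_le_of_finrank_le inf_le_left (by omega)))
    have hfr := Submodule.finrank_sup_add_finrank_inf_eq W' U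
    rw [hdis, finrank_bot, add_zero, hW'd] at hfr
    have hle : Module.finrank F ↥(W' ⊔ U) ≤ Fintype.card ι :=
      le_of_le_of_eq (Submodule.finrank_le _) (Module.finrank_fintype_fun_eq_card F)
    have hbig : Module.finrank F ↥(W' ⊔ U) ≤ k := by
      refine Nat.le_findGreatest hle ⟨W' ⊔ U, ⟨fun g hg v hv => ?_, by rw [hfr]; exact dvd_add dvd_rfl hU.2⟩, rfl⟩
      obtain ⟨a, ha, b, hb, rfl⟩ := Submodule.mem_sup.mp hv
      rw [act, Matrix.mulVec_add]
      exact Submodule.add_mem_sup (hW'inv g hg a ha) (hU.1 g hg b hb)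
    have : 0 < d := by
      rw [hd, ← hWd]
      exact Nat.pos_of_ne_zero fun h0 => hW.1 (Submodule.finrank_eq_zero.mp h0)
    omega
  have hdd : d ∣ Fintype.card ι := by
    have := hU.2
    rwa [hUtop, finrank_top, Module.finrank_fintype_fun_eq_card] at this
  have hd1 : d = 1 := ((Nat.dvd_prime hn).mp hdd).resolve_right hdlt.ne
  obtain ⟨v, hv, hspan⟩ := finrank_eq_one_iff'.mp (hWd.trans hd1)
  have hev : ∀ g ∈ N, ∃ c : F, act g v = c • (v : ι → F) := fun g hg => by
    obtain ⟨c, hc⟩ := hspan ⟨_, hW.2 g hg v v.2⟩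
    exact ⟨c, (congrArg Subtype.val hc).symm⟩
  choose c hc using hev
  refine Or.inr ⟨fun g => if hg : g ∈ N then c g hg else 0, v, fun h0 => hv (Subtype.ext h0), fun g hg => ?_⟩
  simp [hg, hc g hg]

/-- A non-scalar normal subgroup with a common eigenvector gives a decomposition into lines. -/
lemma exists_eigenLines (hn : (Fintype.card ι).Prime) {H N : Subgroup (GL ι F)}
    (hH : ActsIrreducibly (matrixSet H)) (hN : NormalIn N H) (hns : ¬ N ≤ scalars ι F)
    {c : GL ι F → F} {v : ι → F} (hv : v ≠ 0) (hvc : v ∈ commonEigenspace N c) :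
    ∃ D χ, EigenLines H N D χ := by
  classical
  rw [actsIrreducibly_iff] at hH
  -- the normalised translates of `c`
  set tw : GL ι F → (GL ι F → F) := fun h g => if g ∈ N then c (h⁻¹ * g * h) else 0 with htw
  have htw_mem : ∀ {h g}, g ∈ N → tw h g = c (h⁻¹ * g * h) := fun hg => by simp [htw, hg]
  have hmove : ∀ h ∈ H, ∀ g ∈ H, ∀ w ∈ commonEigenspace N (tw h), act g w ∈ commonEigenspace N (tw (g * h)) := by
    intro h _ g hg w hw x hx
    have hy : g⁻¹ * x * g ∈ N := hN.conj' hg hx
    have hw' := hw _ hy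
    rw [htw_mem hy] at hw'
    rw [htw_mem hx, ← act_mul, show x * g = g * (g⁻¹ * x * g) by group, act_mul, hw', act, Matrix.mulVec_smul]
    congr 2
    group
  have hbase : v ∈ commonEigenspace N (tw 1) := fun g hg => by
    rw [htw_mem hg]; simpa using hvc g hg
  let S : Set (GL ι F → F) := tw '' (H : Set (GL ι F))
  let T : Submodule F (ι → F) := ⨆ χ : S, commonEigenspace N χ.1
  have hTinv : ∀ g ∈ H, ∀ w ∈ T, act g w ∈ T := by
    intro g hg w hw
    have hle : T ≤ T.comap (Matrix.toLin' (g : Matrix ι ι F)) := by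
      refine iSup_le fun χ => ?_
      obtain ⟨χ, h, hh, rfl⟩ := χ
      intro w hw
      rw [Submodule.mem_comap, Matrix.toLin'_apply]
      exact Submodule.mem_iSup_of_mem (⟨tw (g * h), g * h, H.mul_mem hg hh, rfl⟩ : S) (hmove h hh g hg w hw)
    simpa [Matrix.toLin'_apply] using hle hw
  have hTtop : T = ⊤ := (hH T hTinv).resolve_left fun h => hv <| by
    have : v ∈ T := Submodule.mem_iSup_of_mem (⟨tw 1, 1, H.one_mem, rfl⟩ : S) hbase
    simpa [h] using this
  -- `N` is commutative, so common eigenspaces are independent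
  have hcomm : ∀ a b : N, ∀ w : ι → F, act (a : GL ι F) (act (b : GL ι F) w) = act (b : GL ι F) (act (a : GL ι F) w) := by
    intro a b w
    have hle : T ≤ LinearMap.ker (Matrix.toLin' ((a : GL ι F) * (b : GL ι F) : GL ι F).1
        - Matrix.toLin' ((b : GL ι F) * (a : GL ι F) : GL ι F).1) := by
      refine iSup_le fun χ => fun w hw => ?_
      rw [LinearMap.mem_ker, LinearMap.sub_apply, Matrix.toLin'_apply, Matrix.toLin'_apply, sub_eq_zero]
      show act _ w = act _ w
      rw [act_mul, act_mul, hw a a.2, hw b b.2]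
      simp only [act, Matrix.mulVec_smul]
      rw [← act, ← act, hw a a.2, hw b b.2, smul_comm]
    have := hle (hTtop ▸ Submodule.mem_top (x := w))
    rw [LinearMap.mem_ker, LinearMap.sub_apply, Matrix.toLin'_apply, Matrix.toLin'_apply, sub_eq_zero] at this
    rw [← act_mul, ← act_mul]; exact this
  let f : N → Module.End F (ι → F) := fun g => Matrix.toLin' ((g : GL ι F) : Matrix ι ι F)
  have hmaps : ∀ i j φ, Set.MapsTo (f i) ((f j).maxGenEigenspace φ) ((f j).maxGenEigenspace φ) := by
    intro i j φ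
    apply Module.End.mapsTo_maxGenEigenspace_of_comm
    exact LinearMap.ext fun w => by
      show f j (f i w) = f i (f j w)
      simpa [f, Matrix.toLin'_apply] using hcomm j i w
  have hind := Module.End.independent_iInf_maxGenEigenspace_of_forall_mapsTo f hmaps
  have hSind : iSupIndep fun χ : S => commonEigenspace N χ.1 := by
    have hinj : Function.Injective fun χ : S => (fun g : N => χ.1 g) := by
      rintro ⟨_, h, hh, rfl⟩ ⟨_, h', hh', rfl⟩ he
      refine Subtype.ext (funext fun g => ?_)
      by_cases hg : g ∈ N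
      · exact congrFun he ⟨g, hg⟩
      · simp [htw, hg]
    refine (hind.comp hinj).mono fun χ => ?_
    refine le_iInf fun g => fun w hw => ?_
    rw [Module.End.mem_maxGenEigenspace]
    refine ⟨1, ?_⟩
    simp only [pow_one, LinearMap.sub_apply, LinearMap.smul_apply, Module.End.one_apply, f, Matrix.toLin'_apply]
    rw [show ((g : GL ι F) : Matrix ι ι F) *ᵥ w = χ.1 g • w from hw g g.2, sub_self]
  haveI : Finite S := by
    have : ∀ χ : S, commonEigenspace N χ.1 ≠ ⊥ := by
      rintro ⟨_, h, hh, rfl⟩ hbot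
      have hm := hmove 1 H.one_mem h hh v hbase
      rw [mul_one] at hm
      exact act_ne_zero h hv (by simpa [hbot] using hm)
    exact WellFoundedGT.finite_of_iSupIndep hSind this
  haveI : Fintype S := Fintype.ofFinite _
  -- all eigenspaces have the dimension of the first one
  set d := Module.finrank F (commonEigenspace N (tw 1))
  have hdim : ∀ χ : S, Module.finrank F (commonEigenspace N χ.1) = d := by
    rintro ⟨_, h, hh, rfl⟩
    have key : ∀ a ∈ H, ∀ b ∈ H, Module.finrank F (commonEigenspace N (tw b))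
        ≤ Module.finrank F (commonEigenspace N (tw (a * b))) := by
      intro a ha b hb
      let φ : commonEigenspace N (tw b) →ₗ[F] commonEigenspace N (tw (a * b)) :=
        ((Matrix.toLin' (a : Matrix ι ι F)).domRestrict _).codRestrict _
          (fun w => by simpa [Matrix.toLin'_apply] using hmove b hb a ha w w.2)
      refine LinearMap.finrank_le_finrank_of_injective (f := φ) fun w₁ w₂ he => Subtype.ext ?_
      exact act_injective a (by simpa [φ, Matrix.toLin'_apply] using congrArg Subtype.val he)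
    refine le_antisymm ?_ ?_
    · have := key h⁻¹ (H.inv_mem hh) h hh
      rwa [inv_mul_cancel] at this
    · have := key h hh 1 H.one_mem
      rwa [mul_one] at this
  have hsum : Fintype.card S * d = Fintype.card ι := by
    have hint : DirectSum.IsInternal fun χ : S => commonEigenspace N χ.1 :=
      (DirectSum.isInternal_submodule_iff_iSupIndep_and_iSup_eq_top _).mpr ⟨hSind, hTtop⟩
    have h2 := (LinearEquiv.ofBijective (DirectSum.coeLinearMap fun χ : S => commonEigenspace N χ.1) hint).finrank_eq
    rw [Module.finrank_fintype_fun_eq_card, Module.finrank_directSum] at h2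
    rw [← h2]
    simp [hdim]
  have hd : d = 1 := by
    refine ((Nat.dvd_prime hn).mp (Dvd.intro_left _ hsum)).resolve_right fun hd => hns ?_
    have htop : commonEigenspace N (tw 1) = ⊤ :=
      Submodule.eq_top_of_finrank_eq (by rw [Module.finrank_fintype_fun_eq_card]; exact hd)
    intro g hg
    haveI : Nonempty ι := Fintype.card_pos_iff.mp hn.pos
    exact mem_scalars_of_act (tw 1 g) fun w => (htop ▸ Submodule.mem_top : w ∈ commonEigenspace N (tw 1)) g hg
  rw [hd, mul_one] at hsum
  let e : Fin (Fintype.card ι) ≃ S := (finCongr hsum.symm).trans (Fintype.equivFin S).symm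
  refine ⟨fun i => commonEigenspace N (e i).1, fun i => (e i).1, ?_, ?_, fun g hg i w hw => hw g hg, ?_⟩
  · refine ⟨hn.two_le, one_pos, fun i => (hdim _).trans hd, hSind.comp e.injective, ?_⟩
    rw [← hTtop]
    exact e.iSup_comp (g := fun χ : S => commonEigenspace N χ.1)
  · intro g hg
    have hS : ∀ χ : S, ∃ ψ : S, (commonEigenspace N χ.1).map (Matrix.toLin' (g : Matrix ι ι F))
        = commonEigenspace N ψ.1 := by
      rintro ⟨_, h, hh, rfl⟩
      refine ⟨⟨tw (g * h), g * h, H.mul_mem hg hh, rfl⟩, ?_⟩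
      refine Submodule.eq_of_le_of_finrank_le ?_ ?_
      · rintro _ ⟨w, hw, rfl⟩
        simpa [Matrix.toLin'_apply] using hmove h hh g hg w hw
      · rw [hdim ⟨tw (g * h), g * h, H.mul_mem hg hh, rfl⟩, ← hdim ⟨tw h, h, hh, rfl⟩]
        exact (Submodule.equivMapOfInjective _ (fun a b hab => act_injective g (by simpa [Matrix.toLin'_apply] using hab)) _).finrank_eq.le
    choose π hπ using hS
    have hinj : Function.Injective π := by
      intro a b hab
      have h' := (hπ a).trans ((congrArg (fun ψ : S => commonEigenspace N ψ.1) hab).trans (hπ b).symm)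
      have h'' := Submodule.map_injective_of_injective
        (f := Matrix.toLin' (g : Matrix ι ι F)) (fun x y hxy => act_injective g (by simpa [Matrix.toLin'_apply] using hxy)) h'
      by_contra hne
      have hdis := hSind.pairwiseDisjoint hne
      rw [Function.onFun, h'', disjoint_self] at hdis
      have := hdim b
      rw [hdis, finrank_bot] at this
      omega
    refine ⟨(e.trans (Equiv.ofBijective π (Finite.injective_iff_bijective.mp hinj))).trans e.symm, fun i => ?_⟩
    simp [hπ]
  · intro i j hij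
    by_contra hall
    push Not at hall
    refine hij (e.injective (Subtype.ext (funext fun g => ?_)))
    by_cases hg : g ∈ N
    · exact hall g hg
    · obtain ⟨h, -, he⟩ := (e i).2
      obtain ⟨h', -, he'⟩ := (e j).2
      rw [← he, ← he']
      simp [htw, hg]

/-- An irreducible normal subgroup is absolutely irreducible or generates a field of full degree. -/
lemma absIrred_or_fullField [Finite F] (hn : (Fintype.card ι).Prime) {H N : Subgroup (GL ι F)}
    (hN : NormalIn N H) (hirr : ActsIrreducibly (matrixSet N)) :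
    ActsAbsolutelyIrreducibly (matrixSet N) ∨ ∃ K, FullField H N K := by
  classical
  haveI : Nonempty ι := Fintype.card_pos_iff.mp hn.pos
  set K : Subalgebra F (Matrix ι ι F) := Subalgebra.centralizer F (matrixSet N) with hK
  have hmem : ∀ M, M ∈ K ↔ ∀ s ∈ matrixSet N, s * M = M * s := fun M => Subalgebra.mem_centralizer_iff F
  have hker : ∀ M ∈ K, M ≠ 0 → ∀ v, M *ᵥ v = 0 → v = 0 := by
    intro M hM hM0 v hv
    rcases actsIrreducibly_iff.mp hirr (LinearMap.ker (Matrix.toLin' M)) (fun g hg w hw => by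
      rw [LinearMap.mem_ker, Matrix.toLin'_apply] at hw ⊢
      rw [act, Matrix.mulVec_mulVec, ← (hmem M).mp hM _ (coe_mem_matrixSet hg), ← Matrix.mulVec_mulVec, hw,
        Matrix.mulVec_zero]) with h | h
    · have : v ∈ LinearMap.ker (Matrix.toLin' M) := by rw [LinearMap.mem_ker, Matrix.toLin'_apply, hv]
      simpa [h] using this
    · exact absurd (Matrix.toLin'.map_eq_zero_iff.mp (LinearMap.ker_eq_top.mp h)) hM0
  haveI : Finite K := Subtype.finite
  haveI : NoZeroDivisors K := ⟨fun {a b} hab => by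
    by_contra hne
    push Not at hne
    obtain ⟨v, hv⟩ : ∃ v, (b : Matrix ι ι F) *ᵥ v ≠ 0 := by
      by_contra hall
      push Not at hall
      exact hne.2 (Subtype.ext (Matrix.ext_of_mulVec_single fun i => (hall _).trans (Matrix.zero_mulVec _).symm))
    refine hv (hker a a.2 (fun h => hne.1 (Subtype.ext h)) _ ?_)
    rw [Matrix.mulVec_mulVec, show (a : Matrix ι ι F) * b = 0 from congrArg Subtype.val hab, Matrix.zero_mulVec]⟩
  haveI : IsDomain K := NoZeroDivisors.to_isDomain _
  have hfield : IsField K := Finite.isDomain_to_isField K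
  -- the orbit map `k ↦ k v` and the divisibility of `finrank K`
  let orb : (ι → F) → (K →ₗ[F] (ι → F)) := fun v =>
    { toFun := fun k => (k : Matrix ι ι F) *ᵥ v
      map_add' := fun k l => by simp [Matrix.add_mulVec]
      map_smul' := fun a k => by simp [Matrix.smul_mulVec] }
  have horb : ∀ v, v ≠ 0 → Function.Injective (orb v) := fun v hv => by
    rw [← LinearMap.ker_eq_bot, Submodule.eq_bot_iff]
    intro k hk
    by_contra h0
    exact hv (hker k k.2 (fun h => h0 (Subtype.ext h)) v hk)
  have horbd : ∀ v, v ≠ 0 → Module.finrank F (LinearMap.range (orb v)) = Module.finrank F K :=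
    fun v hv => LinearMap.finrank_range_of_inj (horb v hv)
  have hd : Module.finrank F K ∣ Fintype.card ι := by
    let Q : Submodule F (ι → F) → Prop := fun U =>
      (∀ k : K, ∀ v ∈ U, (k : Matrix ι ι F) *ᵥ v ∈ U) ∧ Module.finrank F K ∣ Module.finrank F U
    let m := Nat.findGreatest (fun m => ∃ U, Q U ∧ Module.finrank F U = m) (Fintype.card ι)
    have hm : ∃ U, Q U ∧ Module.finrank F U = m := by
      apply Nat.findGreatest_spec (P := fun m => ∃ U, Q U ∧ Module.finrank F U = m) (m := 0) (Nat.zero_le _)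
      exact ⟨⊥, ⟨fun k v hv => by rw [Submodule.mem_bot] at hv ⊢; simp [hv], by simp⟩, by simp⟩
    obtain ⟨U, hU, hUm⟩ := hm
    by_contra hnd
    have hne : U ≠ ⊤ := fun htop => hnd (by
      have := hU.2
      rwa [htop, finrank_top, Module.finrank_fintype_fun_eq_card] at this)
    obtain ⟨v, hv⟩ : ∃ v, v ∉ U := by
      by_contra hall
      push Not at hall
      exact hne (Submodule.eq_top_iff'.mpr hall)
    have hv0 : v ≠ 0 := fun h => hv (h ▸ U.zero_mem)
    have hdis : LinearMap.range (orb v) ⊓ U = ⊥ := by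
      rw [Submodule.eq_bot_iff]
      rintro _ ⟨⟨k, rfl⟩, hk⟩
      by_contra h0
      have hk0 : k ≠ 0 := fun h => h0 (by rw [h, map_zero])
      obtain ⟨k', hk'⟩ := hfield.mul_inv_cancel hk0
      apply hv
      have := hU.1 k' _ hk
      change (k' : Matrix ι ι F) *ᵥ ((k : Matrix ι ι F) *ᵥ v) ∈ U at this
      rwa [Matrix.mulVec_mulVec, show (k' : Matrix ι ι F) * k = 1 from
        congrArg Subtype.val ((hfield.mul_comm k' k).trans hk'), Matrix.one_mulVec] at this
    have hfr := Submodule.finrank_sup_add_finrank_inf_eq (LinearMap.range (orb v)) U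
    rw [hdis, finrank_bot, add_zero, horbd v hv0] at hfr
    have hbig : Module.finrank F ↥(LinearMap.range (orb v) ⊔ U) ≤ m := by
      refine Nat.le_findGreatest (le_of_le_of_eq (Submodule.finrank_le _) (Module.finrank_fintype_fun_eq_card F))
        ⟨_, ⟨fun k w hw => ?_, by rw [hfr]; exact dvd_add dvd_rfl hU.2⟩, rfl⟩
      obtain ⟨_, ⟨l, rfl⟩, b, hb, rfl⟩ := Submodule.mem_sup.mp hw
      rw [Matrix.mulVec_add]
      refine Submodule.add_mem_sup ⟨k * l, ?_⟩ (hU.1 k b hb)
      show ((k : Matrix ι ι F) * (l : Matrix ι ι F)) *ᵥ v = (k : Matrix ι ι F) *ᵥ ((l : Matrix ι ι F) *ᵥ v)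
      rw [Matrix.mulVec_mulVec]
    have hpos : 0 < Module.finrank F K := Module.finrank_pos
    omega
  rcases (Nat.dvd_prime hn).mp hd with h1 | h1
  · left
    refine ⟨hirr, fun M hM => ?_⟩
    have hMK : M ∈ K := (hmem M).mpr fun s hs => (hM s hs).symm
    obtain ⟨c, hc⟩ := (finrank_eq_one_iff_of_nonzero' (1 : K) one_ne_zero).mp h1 ⟨M, hMK⟩
    exact ⟨c, (congrArg Subtype.val hc).symm.trans (by simp)⟩
  · right
    obtain ⟨i₀⟩ := ‹Nonempty ι›
    set v : ι → F := Pi.single i₀ 1
    have hv : v ≠ 0 := by simp [v]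
    have htop : LinearMap.range (orb v) = ⊤ :=
      Submodule.eq_top_of_finrank_eq (by rw [horbd v hv, h1, Module.finrank_fintype_fun_eq_card])
    have hspan : ∀ w, ∃ k : K, (k : Matrix ι ι F) *ᵥ v = w := fun w => by
      obtain ⟨k, hk⟩ := (htop ▸ Submodule.mem_top : w ∈ LinearMap.range (orb v))
      exact ⟨k, hk⟩
    have hcent : ∀ M, (∀ k ∈ K, k * M = M * k) → M ∈ K := by
      intro M hM
      obtain ⟨k, hk⟩ := hspan (M *ᵥ v)
      have : M = (k : Matrix ι ι F) := by
        apply Matrix.ext_of_mulVec_single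
        intro i
        obtain ⟨k', hk'⟩ := hspan (Pi.single i 1)
        rw [← hk', Matrix.mulVec_mulVec, ← hM _ k'.2, ← Matrix.mulVec_mulVec, ← hk, Matrix.mulVec_mulVec,
          Matrix.mulVec_mulVec, show (k' : Matrix ι ι F) * k = k * k' from congrArg Subtype.val (hfield.mul_comm k' k)]
      exact this ▸ k.2
    refine ⟨K, ⟨fun x hx y hy => congrArg Subtype.val (hfield.mul_comm ⟨x, hx⟩ ⟨y, hy⟩), fun x hx h0 => ?_, h1⟩,
      ?_, hmem, fun g hg => hcent _ fun k hk => ((hmem k).mp hk _ (coe_mem_matrixSet hg)).symm, hcent⟩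
    · obtain ⟨y, hy⟩ := hfield.mul_inv_cancel (a := (⟨x, hx⟩ : K)) (fun h => h0 (congrArg Subtype.val h))
      exact ⟨y, y.2, congrArg Subtype.val hy⟩
    · intro g hg
      have key : ∀ a ∈ H, ∀ M ∈ K, (a : Matrix ι ι F) * M * ((a⁻¹ : GL ι F) : Matrix ι ι F) ∈ K := by
        intro a ha M hM
        rw [hmem]
        rintro _ ⟨x, hx, rfl⟩
        have hy := coe_mem_matrixSet (hN.conj' ha hx)
        have hc := (hmem M).mp hM _ hy
        simp only [Units.val_mul] at hc
        calc (x : Matrix ι ι F) * ((a : Matrix ι ι F) * M * (a⁻¹ : GL ι F))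
            = (a : Matrix ι ι F) * (((a⁻¹ : GL ι F) : Matrix ι ι F) * x * a * M) * (a⁻¹ : GL ι F) := by
              simp [mul_assoc]
          _ = (a : Matrix ι ι F) * (M * (((a⁻¹ : GL ι F) : Matrix ι ι F) * x * a)) * (a⁻¹ : GL ι F) := by rw [hc]
          _ = _ := by simp [mul_assoc]
      intro M
      refine ⟨key g hg M, fun h => ?_⟩
      have := key g⁻¹ (H.inv_mem hg) _ h
      simpa [mul_assoc] using this

/-- The three cases for a non-scalar normal subgroup in prime dimension. -/
theorem normal_cases [Finite F] (hn : (Fintype.card ι).Prime) {H N : Subgroup (GL ι F)}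
    (hH : ActsIrreducibly (matrixSet H)) (hN : NormalIn N H) (hns : ¬ N ≤ scalars ι F) :
    ActsAbsolutelyIrreducibly (matrixSet N) ∨ (∃ D χ, EigenLines H N D χ) ∨ (∃ K, FullField H N K) := by
  rcases irreducible_or_eigenvector hn hH hN with h | ⟨c, v, hv, hvc⟩
  · exact (absIrred_or_fullField hn hN h).imp_right Or.inr
  · exact Or.inr (Or.inl (exists_eigenLines hn hH hN hns hv hvc))

/-- A matrix group with the eigen-line structure is commutative. -/
lemma EigenLines.commutative {H N : Subgroup (GL ι F)} {D χ} (h : EigenLines H N D χ) :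
    ∀ a ∈ N, ∀ b ∈ N, a * b = b * a := by
  intro a ha b hb
  apply Units.ext
  apply Matrix.ext_of_mulVec_single
  intro i
  have hle : iSup D ≤ LinearMap.ker (Matrix.toLin' (a * b : GL ι F).1 - Matrix.toLin' (b * a : GL ι F).1) := by
    refine iSup_le fun j w hw => ?_
    rw [LinearMap.mem_ker, LinearMap.sub_apply, Matrix.toLin'_apply, Matrix.toLin'_apply, sub_eq_zero]
    show act _ w = act _ w
    rw [act_mul, act_mul, h.eigen a ha j w hw, h.eigen b hb j w hw]
    simp only [act, Matrix.mulVec_smul]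
    rw [← act, ← act, h.eigen a ha j w hw, h.eigen b hb j w hw, smul_comm]
  have := hle (h.decomp.iSup_eq_top ▸ Submodule.mem_top (x := Pi.single i 1))
  rw [LinearMap.mem_ker, LinearMap.sub_apply, Matrix.toLin'_apply, Matrix.toLin'_apply, sub_eq_zero] at this
  exact this

lemma FullField.commutative {H N : Subgroup (GL ι F)} {K} (h : FullField H N K) :
    ∀ a ∈ N, ∀ b ∈ N, a * b = b * a :=
  fun a ha b hb => Units.ext (h.isField.comm _ (h.mem a ha) _ (h.mem b hb))

/-- An absolutely irreducible group in dimension at least two is not commutative. -/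
lemma not_commutative_of_absIrred (hn : 1 < Fintype.card ι) {N : Subgroup (GL ι F)}
    (hirr : ActsAbsolutelyIrreducibly (matrixSet N)) : ¬ ∀ a ∈ N, ∀ b ∈ N, a * b = b * a := by
  intro hcomm
  obtain ⟨i⟩ : Nonempty ι := Fintype.card_pos_iff.mp (by omega)
  have hsc : ∀ g ∈ N, ∃ c : F, (g : Matrix ι ι F) = c • 1 := fun g hg => hirr.2 _ (by
    rintro _ ⟨b, hb, rfl⟩
    exact congrArg Units.val (hcomm g hg b hb))
  rcases actsIrreducibly_iff.mp hirr.1 (F ∙ (Pi.single i 1 : ι → F)) (fun g hg w hw => by
    obtain ⟨c, hc⟩ := hsc g hg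
    rw [act_scalar hc]; exact Submodule.smul_mem _ c hw) with h | h
  · rw [Submodule.span_singleton_eq_bot] at h
    have := congrFun h i
    simp at this
  · have := finrank_span_singleton (K := F) (v := (Pi.single i 1 : ι → F)) (by simp)
    rw [h, finrank_top, Module.finrank_fintype_fun_eq_card] at this
    omega

end CfsgLib.SmallDim
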