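import Cfsg.Agent.Lib.SmallDim.Clifford
import Cfsg.Agent.Lib.SmallDim.Forms

/-!
Eigenlines of a group of isometries of a reflexive form in odd dimension are orthogonal and anisotropic.
-/

set_option autoImplicit false
set_option linter.style.haveILetI false

namespace CfsgLib.SmallDim

open scoped MatrixGroups Matrix
open Cfsg.Geo

variable {ι : Type} [Fintype ι] [DecidableEq ι] {F : Type*} [Field F]

/-- An element moving one line of an invariant decomposition to another. -/
lemma exists_map_line {H : Subgroup (GL ι F)} (hirr : ActsIrreducibly (matrixSet H)) {t : ℕ}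
    {D : Fin t → Submodule F (ι → F)} (hD : IsMDecomposition 1 D) (hle : H ≤ decompositionStabilizer D)
    (i j : Fin t) : ∃ g ∈ H, (D i).map (Matrix.toLin' (g : Matrix ι ι F)) = D j := by
  classical
  let S : Set (Fin t) := {k | ∃ g ∈ H, (D i).map (Matrix.toLin' (g : Matrix ι ι F)) = D k}
  let W : Submodule F (ι → F) := ⨆ k ∈ S, D k
  have hWinv : ∀ g ∈ H, ∀ v ∈ W, act g v ∈ W := by
    intro g hg v hv
    obtain ⟨π, hπ⟩ := hle hg
    have hle' : W.map (Matrix.toLin' (g : Matrix ι ι F)) ≤ W := by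
      simp only [W, Submodule.map_iSup]
      refine iSup₂_le fun k hk => ?_
      rw [hπ k]
      obtain ⟨h, hh, hhk⟩ := hk
      refine le_iSup₂_of_le (π k) ⟨g * h, H.mul_mem hg hh, ?_⟩ le_rfl
      rw [Units.val_mul, Matrix.toLin'_mul, Submodule.map_comp, hhk, hπ k]
    exact hle' ⟨v, hv, Matrix.toLin'_apply _ _⟩
  have hne : ∀ k, D k ≠ ⊥ := fun k h => by
    have := hD.finrank_eq k
    rw [h, finrank_bot] at this
    omega
  rcases actsIrreducibly_iff.mp hirr W hWinv with h | h
  · have hi : D i ≤ W := le_iSup₂_of_le i (show i ∈ S from ⟨1, H.one_mem, by simp⟩) le_rfl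
    exact absurd (le_bot_iff.mp (h ▸ hi)) (hne i)
  · by_contra hj
    have hsub : W ≤ ⨆ (k) (_ : k ≠ j), D k :=
      iSup₂_le fun k hk => le_iSup₂_of_le k (fun e : k = j => hj (e ▸ hk)) le_rfl
    obtain ⟨v, hv, hv0⟩ := (D j).ne_bot_iff.mp (hne j)
    exact hv0 (Submodule.disjoint_def.mp (hD.indep j) v hv (hsub (h ▸ Submodule.mem_top)))

/-- The eigenlines of a normal subgroup form an orthogonal decomposition. -/
theorem nondegenerateDecomposition_of_eigenLines {σ : F →+* F} {f : (ι → F) → (ι → F) → F} (hf : IsSesqui σ f)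
    (hsym : ∀ u v, f u v = 0 → f v u = 0) (hnd : IsNondegenerateForm f) (hodd : Odd (Fintype.card ι))
    {H N : Subgroup (GL ι F)} (hN : NormalIn N H) (hfix : FixesForm (matrixSet H) f)
    (hirr : ActsIrreducibly (matrixSet H)) {D χ} (hD : EigenLines H N D χ) :
    IsNondegenerateMDecomposition f 1 D := by
  classical
  have hodd' : Odd (Fintype.card (Fin (Fintype.card ι))) := by simpa using hodd
  have hne : ∀ k, D k ≠ ⊥ := fun k h => by
    have := hD.decomp.finrank_eq k
    rw [h, finrank_bot] at this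
    omega
  choose d hd hd0 using fun k => (D k).ne_bot_iff.mp (hne k)
  have hspan : ∀ k, ∀ w ∈ D k, ∃ a : F, w = a • d k := by
    intro k w hw
    obtain ⟨a, ha⟩ := (finrank_eq_one_iff_of_nonzero' (⟨d k, hd k⟩ : D k)
      (fun h => hd0 k (congrArg Subtype.val h))).mp (hD.decomp.finrank_eq k) ⟨w, hw⟩
    exact ⟨a, (congrArg Subtype.val ha).symm⟩
  -- characters of non-orthogonal lines are dual
  have hdual : ∀ i j, f (d i) (d j) ≠ 0 → ∀ g ∈ N, χ i g * σ (χ j g) = 1 := by
    intro i j hij g hg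
    have h : f (act g (d i)) (act g (d j)) = f (d i) (d j) := hfix _ (coe_mem_matrixSet (hN.le hg)) (d i) (d j)
    rw [hD.eigen g hg i _ (hd i), hD.eigen g hg j _ (hd j), hf.smul_left, hf.smul_right,
      ← mul_assoc] at h
    exact mul_right_cancel₀ hij (h.trans (one_mul _).symm)
  have huniq : ∀ i j k, f (d i) (d j) ≠ 0 → f (d i) (d k) ≠ 0 → j = k := by
    intro i j k hj hk
    by_contra hjk
    obtain ⟨g, hg, hne⟩ := hD.distinct j k hjk
    apply hne
    apply σ.injective
    have h1 := hdual i j hj g hg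
    have h2 := hdual i k hk g hg
    exact mul_left_cancel₀ (left_ne_zero_of_mul_eq_one h1) (h1.trans h2.symm)
  have htop : ∀ v, v ∈ Submodule.span F (Set.range d) := by
    intro v
    have h : iSup D ≤ Submodule.span F (Set.range d) := iSup_le fun k w hw => by
      obtain ⟨a, rfl⟩ := hspan k w hw
      exact Submodule.smul_mem _ a (Submodule.subset_span ⟨k, rfl⟩)
    exact h (hD.decomp.iSup_eq_top ▸ Submodule.mem_top)
  have hexists : ∀ i, ∃ j, f (d i) (d j) ≠ 0 := by
    intro i
    by_contra hall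
    push Not at hall
    obtain ⟨-, y, hy⟩ := hnd (d i) (hd0 i)
    apply hy
    clear hy
    induction htop y using Submodule.span_induction with
    | mem x hx => obtain ⟨k, rfl⟩ := hx; exact hall k
    | zero => simpa using hf.smul_right 0 (d i) 0
    | add a b _ _ ha hb =>
      show f (d i) (a + b) = 0
      rw [hf.add_right, show f (d i) a = 0 from ha,
        show f (d i) b = 0 from hb, add_zero]
    | smul c a _ ha =>
      show f (d i) (c • a) = 0
      rw [hf.smul_right, show f (d i) a = 0 from ha, mul_zero]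
  choose τ hτ using hexists
  have hττ : ∀ i, τ (τ i) = i := fun i =>
    huniq (τ i) _ _ (hτ (τ i)) (fun h => hτ i (hsym _ _ h))
  -- a fixed point
  obtain ⟨i₀, hi₀⟩ : ∃ i, τ i = i := by
    by_contra hall
    push Not at hall
    let π : Equiv.Perm (Fin (Fintype.card (ι))) := ⟨τ, τ, hττ, hττ⟩
    have hs : π.support = Finset.univ := Finset.eq_univ_of_forall fun a => Equiv.Perm.mem_support.mpr (hall a)
    have hord : π ^ 2 = 1 := Equiv.ext fun a => by simp [pow_two, π, hττ]
    have hdvd := Equiv.Perm.two_dvd_card_support hord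
    rw [hs, Finset.card_univ] at hdvd
    exact (Nat.not_even_iff_odd.mpr hodd') (even_iff_two_dvd.mpr hdvd)
  -- the anisotropic lines span an invariant subspace
  let W : Submodule F (ι → F) := ⨆ i ∈ {i | f (d i) (d i) ≠ 0}, D i
  have hWinv : ∀ g ∈ H, ∀ v ∈ W, act g v ∈ W := by
    intro g hg v hv
    obtain ⟨π, hπ⟩ := hD.le hg
    have hle : W.map (Matrix.toLin' (g : Matrix (ι) (ι) F)) ≤ W := by
      simp only [W, Submodule.map_iSup]
      refine iSup₂_le fun i hi => ?_
      rw [hπ i]
      refine le_iSup₂_of_le (π i) ?_ le_rfl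
      obtain ⟨a, ha⟩ := hspan (π i) (act g (d i)) (by
        rw [← hπ i]; exact ⟨d i, hd i, Matrix.toLin'_apply _ _⟩)
      intro h0
      apply hi
      have h : f (act g (d i)) (act g (d i)) = f (d i) (d i) := hfix _ (coe_mem_matrixSet hg) (d i) (d i)
      rw [ha, hf.smul_left, hf.smul_right,
        show f (d (π i)) (d (π i)) = 0 from h0, mul_zero, mul_zero] at h
      exact h.symm
    exact hle ⟨v, hv, Matrix.toLin'_apply _ _⟩
  have hWtop : W = ⊤ := by
    refine (actsIrreducibly_iff.mp hirr W hWinv).resolve_left fun h => hd0 i₀ ?_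
    have : d i₀ ∈ W := Submodule.mem_iSup_of_mem i₀ (Submodule.mem_iSup_of_mem (by
      have := hτ i₀; rwa [hi₀] at this) (hd i₀))
    simpa [h] using this
  have hdiag : ∀ i, f (d i) (d i) ≠ 0 := by
    intro i h0
    apply hd0 i
    have hsub : W ≤ ⨆ (k) (_ : k ≠ i), D k :=
      iSup₂_le fun k hk => le_iSup₂_of_le k (fun e : k = i => hk (e ▸ h0)) le_rfl
    exact Submodule.disjoint_def.mp (hD.decomp.indep i) _ (hd i) (hsub (hWtop ▸ Submodule.mem_top))
  have horth : ∀ i j, i ≠ j → f (d i) (d j) = 0 := fun i j hij => by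
    by_contra h
    exact hij (huniq i i j (hdiag i) h)
  refine ⟨hD.decomp, fun i w hw hw0 => ?_, fun i j hij u hu' v hv => ?_⟩
  · obtain ⟨a, rfl⟩ := hspan i w hw
    have ha : a ≠ 0 := fun h => hw0 (by rw [h, zero_smul])
    refine ⟨⟨d i, hd i, ?_⟩, ⟨d i, hd i, ?_⟩⟩
    · show f (d i) (a • d i) ≠ 0
      rw [hf.smul_right]; exact mul_ne_zero ((map_ne_zero σ).mpr ha) (hdiag i)
    · show f (a • d i) (d i) ≠ 0
      rw [hf.smul_left]; exact mul_ne_zero ha (hdiag i)
  · obtain ⟨a, rfl⟩ := hspan i u hu'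
    obtain ⟨b, rfl⟩ := hspan j v hv
    show f (a • d i) (b • d j) = 0
    rw [hf.smul_left, hf.smul_right, horth i j hij, mul_zero, mul_zero]

end CfsgLib.SmallDim
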