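import Cfsg.Agent.Lib.SmallDim.GeneralClifford
import Cfsg.Agent.Lib.SmallDim.FormSesqui

/-!
Clifford theory relative to a reflexive sesquilinear form: the centre of the centraliser algebra of a normal
subgroup of an irreducible group of isometries is closed under adjoints, and either contains idempotents
(a compatible decomposition), or is a field (a compatible extension field), or is scalar (a tensor product).
-/

set_option autoImplicit false
set_option linter.style.haveILetI false

namespace CfsgLib.SmallDim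

open scoped MatrixGroups Matrix
open Cfsg.Geo

variable {ι : Type} [Fintype ι] [DecidableEq ι] {F : Type*} [Field F]

section Commutative

variable {H : Subgroup (GL ι F)} {Z : Subalgebra F (Matrix ι ι F)}

/-- Commuting square-zero matrices have a common fixed line in their kernels. -/
lemma exists_common_kernel [Nonempty ι] (T : Finset (Matrix ι ι F))
    (hcomm : ∀ a ∈ T, ∀ b ∈ T, a * b = b * a) (hsq : ∀ a ∈ T, a * a = 0) :
    ∃ v : ι → F, v ≠ 0 ∧ ∀ a ∈ T, a *ᵥ v = 0 := by
  classical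
  induction T using Finset.induction_on with
  | empty =>
    exact ⟨Pi.single (Classical.arbitrary ι) 1, by simp, by simp⟩
  | insert a T _ ih =>
    obtain ⟨v, hv0, hv⟩ := ih (fun x hx y hy => hcomm x (Finset.mem_insert_of_mem hx) y
      (Finset.mem_insert_of_mem hy)) fun x hx => hsq x (Finset.mem_insert_of_mem hx)
    by_cases ha : a *ᵥ v = 0
    · exact ⟨v, hv0, fun x hx => (Finset.mem_insert.1 hx).elim (fun e => e ▸ ha) (hv x)⟩
    · refine ⟨a *ᵥ v, ha, fun x hx => ?_⟩
      rcases Finset.mem_insert.1 hx with rfl | hxT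
      · rw [Matrix.mulVec_mulVec, hsq x (Finset.mem_insert_self _ _), Matrix.zero_mulVec]
      · rw [Matrix.mulVec_mulVec, hcomm x (Finset.mem_insert_of_mem hxT) a (Finset.mem_insert_self _ _),
          ← Matrix.mulVec_mulVec, hv x hxT, Matrix.mulVec_zero]

lemma conj_mem_of_normalizer {g : GL ι F} (hg : g ∈ subalgebraNormalizer Z) {x : Matrix ι ι F}
    (hx : x ∈ Z) : (g : Matrix ι ι F) * x * ((g⁻¹ : GL ι F) : Matrix ι ι F) ∈ Z := (hg x).1 hx

/-- A commutative algebra normalised by an irreducible group has no non-zero nilpotent element. -/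
lemma eq_zero_of_sq_eq_zero [Finite F] (hirr : ActsIrreducibly (matrixSet H))
    (hH : H ≤ subalgebraNormalizer Z) (hcomm : ∀ x ∈ Z, ∀ y ∈ Z, x * y = y * x)
    {x : Matrix ι ι F} (hx : x ∈ Z) (hx2 : x * x = 0) : x = 0 := by
  classical
  rcases isEmpty_or_nonempty ι with _ | _
  · exact Subsingleton.elim _ _
  let T : Finset (Matrix ι ι F) := (Set.toFinite {a | a ∈ Z ∧ a * a = 0}).toFinset
  have hT : ∀ a, a ∈ T ↔ a ∈ Z ∧ a * a = 0 := fun a => Set.Finite.mem_toFinset _
  obtain ⟨v, hv0, hv⟩ := exists_common_kernel T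
    (fun a ha b hb => hcomm a ((hT a).1 ha).1 b ((hT b).1 hb).1) fun a ha => ((hT a).1 ha).2
  let W : Submodule F (ι → F) := ⨅ a ∈ T, LinearMap.ker (Matrix.toLin' a)
  have hW : ∀ w, w ∈ W ↔ ∀ a ∈ T, a *ᵥ w = 0 := fun w => by
    simp [W, Submodule.mem_iInf, Matrix.toLin'_apply]
  have hinv : ∀ g ∈ H, ∀ w ∈ W, act g w ∈ W := fun g hg w hw => (hW _).2 fun a ha => by
    obtain ⟨haZ, ha2⟩ := (hT a).1 ha
    have hc := conj_mem_of_normalizer (hH (H.inv_mem hg)) haZ
    rw [inv_inv] at hc
    have h0 := (hW w).1 hw _ ((hT _).2 ⟨hc, by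
      rw [show ∀ A B C : Matrix ι ι F, A * a * B * (C * a * B) = A * a * (B * C) * a * B from
        fun A B C => by simp only [mul_assoc], ← Units.val_mul, mul_inv_cancel, Units.val_one, mul_one,
        mul_assoc _ a a, ha2, mul_zero, zero_mul]⟩)
    have h1 := congrArg (act g) h0
    simpa [act, Matrix.mulVec_mulVec, ← mul_assoc, ← Units.val_mul] using h1
  rcases actsIrreducibly_iff.1 hirr W hinv with h | h
  · exact absurd ((Submodule.eq_bot_iff _).1 h v ((hW v).2 hv)) hv0
  · apply Matrix.ext_of_mulVec_single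
    intro i
    rw [(hW _).1 (h ▸ Submodule.mem_top) x ((hT x).2 ⟨hx, hx2⟩), Matrix.zero_mulVec]

/-- In such an algebra every element is fixed by multiplication with an idempotent power of itself. -/
lemma exists_idempotent_pow [Finite F] (hirr : ActsIrreducibly (matrixSet H))
    (hH : H ≤ subalgebraNormalizer Z) (hcomm : ∀ x ∈ Z, ∀ y ∈ Z, x * y = y * x)
    {x : Matrix ι ι F} (hx : x ∈ Z) :
    ∃ d, 0 < d ∧ x ^ d * x ^ d = x ^ d ∧ x ^ d * x = x := by
  have hnil : ∀ (n : ℕ) (y : Matrix ι ι F), y ∈ Z → y ^ (n + 1) = 0 → y = 0 := by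
    intro n
    induction n with
    | zero => intro y _ h; simpa using h
    | succ n ih =>
      intro y hy h
      refine ih y hy (eq_zero_of_sq_eq_zero hirr hH hcomm (Subalgebra.pow_mem _ hy _) ?_)
      rw [← pow_add, show n + 1 + (n + 1) = n + 2 + n by omega, pow_add, h, zero_mul]
  obtain ⟨a, b, hab, he⟩ := Finite.exists_ne_map_eq_of_infinite fun n : ℕ => x ^ (n + 1)
  wlog hlt : a < b generalizing a b
  · exact this b a hab.symm he.symm (by omega)
  obtain ⟨d, hd, rfl⟩ : ∃ d, 0 < d ∧ b = a + d := ⟨b - a, by omega, by omega⟩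
  have hmem : x * (1 - x ^ d) ∈ Z := Z.mul_mem hx (Z.sub_mem Z.one_mem (Subalgebra.pow_mem _ hx _))
  have hc : Commute x (1 - x ^ d) := (Commute.one_right x).sub_right (Commute.self_pow x d)
  have h0 : x * (1 - x ^ d) = 0 := by
    refine hnil a _ hmem ?_
    rw [hc.mul_pow, pow_succ (1 - x ^ d) a, ← mul_assoc]
    have h1 : x ^ (a + 1) * (1 - x ^ d) = 0 := by
      rw [mul_sub, mul_one, ← pow_add, show a + 1 + d = a + d + 1 by omega, ← he, sub_self]
    rw [mul_assoc, ← pow_succ, pow_succ' (1 - x ^ d) a, ← mul_assoc, h1, zero_mul]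
  rw [mul_sub, mul_one, sub_eq_zero, ← pow_succ'] at h0
  refine ⟨d, hd, ?_, by rw [← pow_succ]; exact h0.symm⟩
  obtain ⟨c, rfl⟩ : ∃ c, d = c + 1 := ⟨d - 1, by omega⟩
  conv_lhs => rw [← pow_add, show c + 1 + (c + 1) = c + (c + 1 + 1) by omega, pow_add, ← h0]
  rw [pow_succ]

end Commutative

variable {σ : F →+* F} {f : (ι → F) → (ι → F) → F}

/-- In an adjoint-closed algebra every element is the adjoint of one. -/
lemma exists_preAdjoint [Finite F] (hs : IsSesqui σ f) (hnd : IsNondegenerateForm f)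
    {K : Subalgebra F (Matrix ι ι F)} (hK : IsAdjointClosedFor f K) {y : Matrix ι ι F} (hy : y ∈ K) :
    ∃ x ∈ K, ∀ u v, f (x *ᵥ u) v = f u (y *ᵥ v) := by
  choose! A hA hA' using hK
  have hinj : Function.Injective fun k : K => (⟨A k, hA k k.2⟩ : K) := by
    intro a b hab
    have hab' : A a = A b := congrArg Subtype.val hab
    refine Subtype.ext (Matrix.ext_of_mulVec_single fun i => hs.eq_of_apply_left hnd fun v => ?_)
    rw [hA' a a.2, hA' b b.2, hab']
  obtain ⟨x, hx⟩ := (Finite.injective_iff_bijective.1 hinj).2 ⟨y, hy⟩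
  have hx' : A x = y := congrArg Subtype.val hx
  exact ⟨x, x.2, fun u v => by rw [hA' x x.2, hx']⟩

lemma eq_of_adjoint (hs : IsSesqui σ f) (hnd : IsNondegenerateForm f) {a b : Matrix ι ι F}
    (h : ∀ u v, f u (a *ᵥ v) = f u (b *ᵥ v)) : a = b :=
  Matrix.ext_of_mulVec_single fun _ => hs.eq_of_apply_right hnd fun u => h u _

lemma adjoint_pow {x x' : Matrix ι ι F} (h : ∀ u v, f (x *ᵥ u) v = f u (x' *ᵥ v)) (m : ℕ) :
    ∀ u v, f (x ^ m *ᵥ u) v = f u (x' ^ m *ᵥ v) := by
  induction m with
  | zero => simp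
  | succ m ih =>
    intro u v
    rw [pow_succ x, ← Matrix.mulVec_mulVec, ih, h, Matrix.mulVec_mulVec, ← pow_succ']

/-- The centre of the centraliser of a group of isometries is closed under adjoints. -/
theorem isAdjointClosedFor_centreN [Finite F] (hs : IsSesqui σ f) (hnd : IsNondegenerateForm f)
    {N : Subgroup (GL ι F)} (hfix : FixesForm (matrixSet N) f) : IsAdjointClosedFor f (centreN N) := by
  have hC : IsAdjointClosedFor f (Subalgebra.centralizer F (matrixSet N)) :=
    isAdjointClosedFor_of_centralizer hs hnd hfix fun M => Subalgebra.mem_centralizer_iff F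
  intro k hk
  obtain ⟨k', hk', hkk'⟩ := hC k hk.1
  refine ⟨k', ⟨hk', (Subalgebra.mem_centralizer_iff F).2 fun X hX => ?_⟩, hkk'⟩
  obtain ⟨Y, hY, hYX⟩ := exists_preAdjoint hs hnd hC hX
  refine eq_of_adjoint hs hnd fun u v => ?_
  rw [← Matrix.mulVec_mulVec, ← Matrix.mulVec_mulVec, ← hYX, ← hkk', ← hkk', ← hYX,
    Matrix.mulVec_mulVec, Matrix.mulVec_mulVec]
  rw [(Subalgebra.mem_centralizer_iff F).1 hk.2 Y hY]

/-- A commutative adjoint-closed algebra normalised by an irreducible group which is not a field gives a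
decomposition in which each member meets only one other member non-trivially. -/
theorem idempotent_decomposition [Finite F] (hs : IsSesqui σ f) (hnd : IsNondegenerateForm f)
    {H : Subgroup (GL ι F)} {Z : Subalgebra F (Matrix ι ι F)} (hirr : ActsIrreducibly (matrixSet H))
    (hH : H ≤ subalgebraNormalizer Z) (hcomm : ∀ x ∈ Z, ∀ y ∈ Z, x * y = y * x)
    (hadj : IsAdjointClosedFor f Z) (hnf : ¬ ∀ x ∈ Z, x ≠ 0 → ∃ y ∈ Z, x * y = 1) :
    ∃ (t m : ℕ) (D : Fin t → Submodule F (ι → F)), IsMDecomposition m D ∧ H ≤ decompositionStabilizer D ∧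
      ∀ i j k, ¬ AreOrthogonalFor f (D i) (D j) → ¬ AreOrthogonalFor f (D i) (D k) → j = k := by
  classical
  let Idem : Matrix ι ι F → Prop := fun e => e ∈ Z ∧ e * e = e ∧ e ≠ 0
  let Prim : Matrix ι ι F → Prop := fun e => Idem e ∧ ∀ g ∈ Z, g * g = g → e * g = 0 ∨ e * g = e
  have hprim0 : ∀ {e d}, Prim e → Prim d → e ≠ d → e * d = 0 := by
    rintro e d ⟨⟨heZ, hee, -⟩, he⟩ ⟨⟨hdZ, hdd, -⟩, hd⟩ hne
    rcases he d hdZ hdd with h | h
    · exact h
    · rcases hd e heZ hee with h' | h'
      · rwa [hcomm e heZ d hdZ]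
      · exact absurd (h.symm.trans ((hcomm e heZ d hdZ).trans h')) hne
  have hex : ∀ a, Idem a → ∃ e, Prim e ∧ e * a = e := by
    intro a ha
    obtain ⟨e, ⟨⟨heZ, hee, he0⟩, hea⟩, hmin⟩ := Set.exists_min_image
      {e | Idem e ∧ e * a = e} (fun e => Module.finrank F (LinearMap.range (Matrix.toLin' e)))
      (Set.toFinite _) ⟨a, ha, ha.2.1⟩
    refine ⟨e, ⟨⟨heZ, hee, he0⟩, fun g hgZ hgg => ?_⟩, hea⟩
    by_contra hcon
    push Not at hcon
    have hegeg : e * g * (e * g) = e * g := by
      calc e * g * (e * g) = e * (g * e) * g := by simp only [mul_assoc]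
        _ = e * e * (g * g) := by rw [← hcomm e heZ g hgZ]; simp only [mul_assoc]
        _ = e * g := by rw [hee, hgg]
    have hle : LinearMap.range (Matrix.toLin' (e * g)) ≤ LinearMap.range (Matrix.toLin' e) := by
      rw [Matrix.toLin'_mul]; exact LinearMap.range_comp_le_range _ _
    have heq := Submodule.eq_of_le_of_finrank_le hle (hmin _ ⟨⟨Z.mul_mem heZ hgZ, hegeg, hcon.1⟩, by
      rw [hcomm e heZ g hgZ, mul_assoc, hea]⟩)
    apply hcon.2
    apply Matrix.ext_of_mulVec_single
    intro i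
    obtain ⟨w, hw⟩ : e *ᵥ (Pi.single i 1) ∈ LinearMap.range (Matrix.toLin' (e * g)) := by
      rw [heq]; exact ⟨_, Matrix.toLin'_apply _ _⟩
    rw [Matrix.toLin'_apply] at hw
    calc (e * g) *ᵥ Pi.single i 1 = (e * g) *ᵥ (e *ᵥ Pi.single i 1) := by
          rw [Matrix.mulVec_mulVec, mul_assoc, ← hcomm e heZ g hgZ, ← mul_assoc, hee]
      _ = e *ᵥ Pi.single i 1 := by rw [← hw, Matrix.mulVec_mulVec, hegeg]
  let P : Finset (Matrix ι ι F) := (Set.toFinite {e | Prim e}).toFinset
  have hP : ∀ e, e ∈ P ↔ Prim e := fun e => Set.Finite.mem_toFinset _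
  have hPmul : ∀ e ∈ P, ∀ (b : Finset (Matrix ι ι F)), b = P → e * ∑ d ∈ b, d = e := by
    rintro e he b rfl
    rw [Finset.mul_sum, Finset.sum_eq_single e
      (fun d hd hne => hprim0 ((hP e).1 he) ((hP d).1 hd) hne.symm) (fun h => absurd he h),
      ((hP e).1 he).1.2.1]
  have hsum : ∑ d ∈ P, d = 1 := by
    have hSZ : ∑ d ∈ P, d ∈ Z := Z.sum_mem fun d hd => ((hP d).1 hd).1.1
    have hSS : (∑ d ∈ P, d) * ∑ d ∈ P, d = ∑ d ∈ P, d := by
      rw [Finset.sum_mul]
      exact Finset.sum_congr rfl fun e he => hPmul e he P rfl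
    by_contra hne
    obtain ⟨e, he, hea⟩ := hex (1 - ∑ d ∈ P, d) ⟨Z.sub_mem Z.one_mem hSZ, by
      simp [mul_sub, sub_mul, hSS], sub_ne_zero.2 (Ne.symm hne)⟩
    rw [mul_sub, mul_one, hPmul e ((hP e).2 he) P rfl, sub_self] at hea
    exact he.1.2.2 hea.symm
  let t := P.card
  let e : Fin t → Matrix ι ι F := fun i => (P.equivFin.symm i : Matrix ι ι F)
  have he : ∀ i, Prim (e i) := fun i => (hP _).1 (P.equivFin.symm i).2
  have hinj : Function.Injective e := Subtype.val_injective.comp P.equivFin.symm.injective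
  have hsurj : ∀ d, Prim d → ∃ i, e i = d := fun d hd => ⟨P.equivFin ⟨d, (hP d).2 hd⟩, by simp [e]⟩
  have horth : ∀ i j, i ≠ j → e i * e j = 0 := fun i j h => hprim0 (he i) (he j) (hinj.ne h)
  have hsum' : ∑ i, e i = 1 := by
    rw [← hsum, ← Finset.sum_coe_sort P]
    exact Equiv.sum_comp P.equivFin.symm fun d : P => (d : Matrix ι ι F)
  let D : Fin t → Submodule F (ι → F) := fun i => LinearMap.range (Matrix.toLin' (e i))
  have hD : ∀ i v, v ∈ D i ↔ e i *ᵥ v = v := by
    intro i v
    refine ⟨?_, fun h => ⟨v, by rw [Matrix.toLin'_apply, h]⟩⟩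
    rintro ⟨w, rfl⟩
    rw [Matrix.toLin'_apply, Matrix.mulVec_mulVec, (he i).1.2.1]
  have hne : ∀ i, D i ≠ ⊥ := fun i h => (he i).1.2.2 (Matrix.ext_of_mulVec_single fun k => by
    rw [Matrix.zero_mulVec]
    exact (Submodule.eq_bot_iff _).1 h _ ⟨_, Matrix.toLin'_apply _ _⟩)
  have hkill : ∀ i j, i ≠ j → D j ≤ LinearMap.ker (Matrix.toLin' (e i)) := by
    intro i j hij v hv
    rw [LinearMap.mem_ker, Matrix.toLin'_apply, ← (hD j v).1 hv, Matrix.mulVec_mulVec, horth i j hij,
      Matrix.zero_mulVec]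
  -- the action of the group
  have hconj : ∀ g ∈ H, ∀ i, ∃ j, (g : Matrix ι ι F) * e i * ((g⁻¹ : GL ι F) : Matrix ι ι F) = e j ∧
      (D i).map (Matrix.toLin' (g : Matrix ι ι F)) = D j := by
    intro g hg i
    obtain ⟨⟨heZ, hee, he0⟩, hep⟩ := he i
    set c : Matrix ι ι F → Matrix ι ι F := fun x => (g : Matrix ι ι F) * x * ((g⁻¹ : GL ι F) : Matrix ι ι F)
      with hc
    set c' : Matrix ι ι F → Matrix ι ι F := fun x => ((g⁻¹ : GL ι F) : Matrix ι ι F) * x * (g : Matrix ι ι F)
      with hc'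
    have hcc' : ∀ x, c (c' x) = x := fun x => by simp [hc, hc', mul_assoc]
    have hcmul : ∀ x y, c x * c y = c (x * y) := fun x y => by simp [hc, mul_assoc]
    have hprim : Prim (c (e i)) := by
      refine ⟨⟨conj_mem_of_normalizer (hH hg) heZ, by rw [hcmul, hee], fun h => he0 ?_⟩, fun x hx hxx => ?_⟩
      · have := congrArg c' h
        simpa [hc, hc', mul_assoc] using this
      · have hx' : c' x ∈ Z := by
          have := conj_mem_of_normalizer (hH (H.inv_mem hg)) hx
          rwa [inv_inv] at this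
        have hxx' : c' x * c' x = c' x := by
          simp only [hc']
          conv_rhs => rw [← hxx]
          simp [mul_assoc]
        rw [← hcc' x, hcmul]
        rcases hep _ hx' hxx' with h | h <;> rw [h] <;> simp [hc]
    obtain ⟨j, hj⟩ := hsurj _ hprim
    refine ⟨j, hj.symm, ?_⟩
    ext v
    rw [Submodule.mem_map]
    constructor
    · rintro ⟨w, hw, rfl⟩
      rw [hD, hj, hc, Matrix.toLin'_apply]
      simp only [Matrix.mulVec_mulVec]
      rw [mul_assoc, mul_assoc, ← Units.val_mul, inv_mul_cancel, Units.val_one, mul_one,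
        ← Matrix.mulVec_mulVec, (hD i w).1 hw]
    · intro hv
      refine ⟨act g⁻¹ v, (hD i _).2 ?_, by rw [Matrix.toLin'_apply]; exact act_act_inv g v⟩
      have h1 := congrArg (act g⁻¹) ((hD j v).1 hv)
      rw [hj, hc] at h1
      simpa [act, Matrix.mulVec_mulVec, ← mul_assoc, ← Units.val_mul] using h1
  choose! π hπe hπD using hconj
  have ht : 2 ≤ t := by
    by_contra hlt
    apply hnf
    intro x hx hx0
    obtain ⟨d, hd, hdd, hdx⟩ := exists_idempotent_pow hirr hH hcomm hx
    have hd0 : x ^ d ≠ 0 := fun h => hx0 (by rw [← hdx, h, zero_mul])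
    obtain ⟨p, hp, hpa⟩ := hex _ ⟨Subalgebra.pow_mem _ hx _, hdd, hd0⟩
    obtain ⟨i, rfl⟩ := hsurj p hp
    have hall : ∀ j, j = i := fun j => Fin.ext (by have := j.2; have := i.2; omega)
    have h1 : e i = 1 := by
      rw [← hsum', Finset.sum_eq_single i (fun j _ hj => absurd (hall j) hj)
        (fun h => absurd (Finset.mem_univ i) h)]
    rw [h1, one_mul] at hpa
    refine ⟨x ^ (d - 1), Subalgebra.pow_mem _ hx _, ?_⟩
    rw [← pow_succ', Nat.sub_add_cancel hd, hpa]
  have : NeZero t := ⟨by omega⟩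
  have htrans : ∀ k, ∃ g ∈ H, π g 0 = k := by
    intro k
    by_contra hno
    push Not at hno
    let U : Submodule F (ι → F) := ⨆ g : H, D (π g.1 0)
    have hinv : ∀ g ∈ H, ∀ v ∈ U, act g v ∈ U := by
      intro g hg
      have hle : U ≤ U.comap (Matrix.toLin' (g : Matrix ι ι F)) := by
        refine iSup_le fun h => ?_
        rw [← Submodule.map_le_iff_le_comap]
        refine le_of_eq_of_le ?_ (le_iSup (fun g : H => D (π g.1 0)) ⟨g * h.1, H.mul_mem hg h.2⟩)
        rw [← hπD h.1 h.2 0, ← hπD (g * h.1) (H.mul_mem hg h.2) 0, ← Submodule.map_comp,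
          ← Matrix.toLin'_mul, ← Units.val_mul]
      intro v hv
      simpa [Matrix.toLin'_apply] using hle hv
    rcases actsIrreducibly_iff.1 hirr U hinv with h | h
    · exact hne _ (le_bot_iff.1 ((le_iSup (fun g : H => D (π g.1 0)) ⟨1, H.one_mem⟩).trans h.le))
    · have hUk : U ≤ LinearMap.ker (Matrix.toLin' (e k)) :=
        iSup_le fun g => hkill k _ fun he' => hno g.1 g.2 he'.symm
      apply (he k).1.2.2
      apply Matrix.ext_of_mulVec_single
      intro i
      have h3 := hUk (h ▸ Submodule.mem_top : (Pi.single i 1 : ι → F) ∈ U)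
      rw [LinearMap.mem_ker, Matrix.toLin'_apply] at h3
      rw [h3, Matrix.zero_mulVec]
  refine ⟨t, Module.finrank F (D 0), D, ⟨ht, ?_, fun k => ?_, fun i => ?_, ?_⟩, fun g hg => ?_, ?_⟩
  · exact Nat.pos_of_ne_zero fun h => hne 0 (Submodule.finrank_eq_zero.1 h)
  · obtain ⟨g, hg, rfl⟩ := htrans k
    rw [← hπD g hg 0]
    exact LinearEquiv.finrank_map_eq (actEquiv g) (D 0)
  · rw [Submodule.disjoint_def]
    intro v hv hv'
    have h3 : (⨆ (j) (_ : j ≠ i), D j) ≤ LinearMap.ker (Matrix.toLin' (e i)) :=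
      iSup₂_le fun j hj => hkill i j hj.symm
    have h4 := h3 hv'
    rw [LinearMap.mem_ker, Matrix.toLin'_apply, (hD i v).1 hv] at h4
    exact h4
  · rw [eq_top_iff]
    intro v _
    rw [← Matrix.one_mulVec v, ← hsum', Matrix.sum_mulVec]
    exact Submodule.sum_mem _ fun i _ => Submodule.mem_iSup_of_mem i ⟨v, Matrix.toLin'_apply _ _⟩
  · have hinjπ : Function.Injective (π g) := by
      intro a b hab
      refine hinj ?_
      have h1 := (hπe g hg a).trans ((congrArg e hab).trans (hπe g hg b).symm)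
      have h2 := congrArg (fun x => ((g⁻¹ : GL ι F) : Matrix ι ι F) * x * (g : Matrix ι ι F)) h1
      simpa [mul_assoc] using h2
    exact ⟨Equiv.ofBijective _ (Finite.injective_iff_bijective.1 hinjπ), hπD g hg⟩
  · -- the adjoint of a primitive idempotent is primitive
    have hadjp : ∀ i, ∃ j, ∀ u v, f (e i *ᵥ u) v = f u (e j *ᵥ v) := by
      intro i
      obtain ⟨⟨heZ, hee, he0⟩, hep⟩ := he i
      obtain ⟨a, ha, hae⟩ := hadj _ heZ
      have haa : a * a = a := eq_of_adjoint hs hnd fun u v => by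
        rw [← Matrix.mulVec_mulVec, ← hae, ← hae, ← hae, Matrix.mulVec_mulVec, hee]
      have ha0 : a ≠ 0 := fun h => he0 (Matrix.ext_of_mulVec_single fun k => by
        rw [Matrix.zero_mulVec]
        exact hs.eq_of_apply_left hnd fun v => by rw [hae, h, Matrix.zero_mulVec, hs.zero_right, hs.zero_left])
      have hprim : Prim a := by
        refine ⟨⟨ha, haa, ha0⟩, fun g hg hgg => ?_⟩
        obtain ⟨b, hb, hbg⟩ := exists_preAdjoint hs hnd hadj hg
        have hbb : b * b = b := Matrix.ext_of_mulVec_single fun k => hs.eq_of_apply_left hnd fun v => by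
          rw [← Matrix.mulVec_mulVec, hbg, hbg, Matrix.mulVec_mulVec, hgg, ← hbg]
        rcases hep b hb hbb with h | h
        · left
          refine eq_of_adjoint hs hnd fun u v => ?_
          rw [← Matrix.mulVec_mulVec, ← hae, ← hbg, Matrix.mulVec_mulVec, hcomm b hb (e i) heZ, h,
            Matrix.zero_mulVec, Matrix.zero_mulVec, hs.zero_left, hs.zero_right]
        · right
          refine eq_of_adjoint hs hnd fun u v => ?_
          rw [← Matrix.mulVec_mulVec, ← hae, ← hbg, Matrix.mulVec_mulVec, hcomm b hb (e i) heZ, h, hae]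
      obtain ⟨j, rfl⟩ := hsurj a hprim
      exact ⟨j, hae⟩
    choose τ hτ using hadjp
    intro i j k hj hk
    have key : ∀ l, ¬ AreOrthogonalFor f (D i) (D l) → τ i = l := by
      intro l hl
      by_contra hne'
      refine hl fun u hu v hv => ?_
      rw [← (hD i u).1 hu, ← (hD l v).1 hv, hτ, Matrix.mulVec_mulVec, horth _ _ hne', Matrix.zero_mulVec,
        hs.zero_right]
    exact (key j hj).symm.trans (key k hk)

/-- A homogeneous module when the centre of the centraliser is scalar. -/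
lemma isIsotypic_of_centre_scalar [Finite F] {H N : Subgroup (GL ι F)}
    (hH : ActsIrreducibly (matrixSet H)) (hN : NormalIn N H)
    (hsc : ∀ x ∈ centreN N, ∃ c : F, x = c • 1) : IsIsotypic (AdjN N) (ι → F) := by
  classical
  have := isSemisimpleModule_adjN hH hN
  set C := isotypicComponents (AdjN N) (ι → F) with hCdef
  intro S hS
  suffices isotypicComponent (AdjN N) (ι → F) S = ⊤ by
    exact (Submodule.topEquiv.isIsotypicOfType_iff).1 (this ▸ IsIsotypicOfType.isotypicComponent (AdjN N) (ι → F) S)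
  set c := isotypicComponent (AdjN N) (ι → F) S
  have hc : c ∈ C := ⟨S, hS, rfl⟩
  set d := sSup (C \ {c})
  have hdisj : Disjoint c d := sSupIndep_isotypicComponents _ _ hc
  have hcod : c ⊔ d = ⊤ := by
    rw [← sSup_insert, Set.insert_sdiff_singleton, Set.insert_eq_of_mem hc]
    exact sSup_isotypicComponents _ _
  have hcd : IsCompl c d := ⟨hdisj, codisjoint_iff.2 hcod⟩
  let p : Module.End (AdjN N) (ι → F) := c.projection d hcd
  let M := LinearMap.toMatrix' (p.restrictScalars F)
  have hM : ∀ v, M *ᵥ v = p v := fun v => by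
    rw [← Matrix.toLin'_apply, Matrix.toLin'_toMatrix']; rfl
  have hMC : M ∈ centreN N := by
    refine ⟨mem_centralizer_iff_commute.2 fun g hg v => by rw [hM, hM, end_commute p hg],
      (Subalgebra.mem_centralizer_iff F).2 fun X hX => ?_⟩
    let x : Module.End (AdjN N) (ι → F) := ofCommute N (Matrix.toLin' X) fun g hg v => by
      simpa using mem_centralizer_iff_commute.1 hX g hg v
    have hx : ∀ v, x v = X *ᵥ v := fun v => Matrix.toLin'_apply X v
    have hfull : ∀ c' ∈ C, ∀ v ∈ c', x v ∈ c' := by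
      rintro c' ⟨T, _, rfl⟩ v hv
      exact (Submodule.IsFullyInvariant.isotypicComponent (AdjN N) (ι → F) T x) hv
    have hdfull : ∀ v ∈ d, x v ∈ d := by
      intro v hv
      have hle : d ≤ d.comap x := sSup_le fun c' hc' w hw => le_sSup hc' (hfull c' hc'.1 w hw)
      exact hle hv
    apply Matrix.ext_of_mulVec_single
    intro i
    set v : ι → F := Pi.single i 1
    obtain ⟨a, ha, b, hb, hab⟩ := Submodule.mem_sup.1 (hcod ▸ Submodule.mem_top : v ∈ c ⊔ d)
    rw [← Matrix.mulVec_mulVec, ← Matrix.mulVec_mulVec, hM, hM, ← hx, ← hx, ← hab]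
    simp only [map_add]
    rw [show p a = a from Submodule.projection_apply_of_mem_left hcd ha,
      show p b = 0 from Submodule.projection_apply_of_mem_right hcd hb,
      show p (x a) = x a from Submodule.projection_apply_of_mem_left hcd (hfull c hc a ha),
      show p (x b) = 0 from Submodule.projection_apply_of_mem_right hcd (hdfull b hb), map_zero]
  obtain ⟨a, ha⟩ := hsc M hMC
  obtain ⟨s, hs, hs0⟩ := (Submodule.ne_bot_iff _).1 (bot_lt_isotypicComponents hc).ne'
  have h1 : a • s = s := by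
    conv_rhs => rw [← show p s = s from Submodule.projection_apply_of_mem_left hcd hs, ← hM, ha,
      Matrix.smul_mulVec, Matrix.one_mulVec]
  have ha1 : a = 1 := smul_left_injective F hs0 (h1.trans (one_smul F s).symm)
  rw [eq_top_iff]
  intro v _
  have h2 := Submodule.projection_apply_mem hcd v
  rwa [show c.projection d hcd v = p v from rfl, ← hM, ha, ha1, one_smul, Matrix.one_mulVec] at h2

/-- A field of matrices closed under adjoints contains one of prime degree closed under adjoints. -/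
lemma exists_prime_adjointClosed [Finite F] [Nonempty ι] (hs : IsSesqui σ f) (hnd : IsNondegenerateForm f)
    {K : Subalgebra F (Matrix ι ι F)}
    (hcomm : ∀ x ∈ K, ∀ y ∈ K, x * y = y * x) (hinv : ∀ x ∈ K, x ≠ 0 → ∃ y ∈ K, x * y = 1)
    (hne : ∃ x ∈ K, ∀ c : F, x ≠ c • 1) (hadj : IsAdjointClosedFor f K) :
    ∃ (r : ℕ) (K' : Subalgebra F (Matrix ι ι F)), r.Prime ∧ IsFieldSubalgebra r K' ∧ K' ≤ K ∧
      IsAdjointClosedFor f K' ∧ subalgebraNormalizer K ≤ subalgebraNormalizer K' := by
  classical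
  have := Fintype.ofFinite F
  have hfield : IsField K :=
    { exists_pair_ne := ⟨0, 1, zero_ne_one⟩
      mul_comm := fun x y => Subtype.ext (hcomm x x.2 y y.2)
      mul_inv_cancel := fun {x} hx => by
        obtain ⟨y, hy, hxy⟩ := hinv x x.2 (fun h => hx (Subtype.ext h))
        exact ⟨⟨y, hy⟩, Subtype.ext hxy⟩ }
  letI : Field K := hfield.toField
  have hfin : Finite K := Subtype.finite
  have : Module.Finite F K := Module.Finite.of_finite
  have he : 1 < Module.finrank F K := by
    refine lt_of_le_of_ne Module.finrank_pos fun h => ?_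
    obtain ⟨x, hx, hxc⟩ := hne
    obtain ⟨c, hc⟩ := (finrank_eq_one_iff_of_nonzero' (1 : K) one_ne_zero).1 h.symm ⟨x, hx⟩
    exact hxc c (congrArg Subtype.val hc).symm
  obtain ⟨r, hr, hre⟩ := Nat.exists_prime_and_dvd he.ne'
  let φ : Gal(K/F) := FiniteField.frobeniusAlgEquivOfAlgebraic F K
  let G : Subgroup Gal(K/F) := Subgroup.zpowers (φ ^ r)
  let L : IntermediateField F K := IntermediateField.fixedField G
  have hφ : orderOf φ = Module.finrank F K :=
    FiniteField.orderOf_frobeniusAlgEquivOfAlgebraic F K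
  have hL : Module.finrank F L = r := by
    have h1 : Module.finrank L K = Module.finrank F K / r := by
      rw [IntermediateField.finrank_fixedField_eq_card G, Nat.card_zpowers,
        orderOf_pow_of_dvd hr.ne_zero (hφ.symm ▸ hre), hφ]
    have h2 := Module.finrank_mul_finrank F L K
    rw [h1] at h2
    have h3 : r * (Module.finrank F K / r) = Module.finrank F K := Nat.mul_div_cancel' hre
    exact Nat.eq_of_mul_eq_mul_right (Nat.div_pos (Nat.le_of_dvd (by omega) hre) hr.pos)
      (h2.trans h3.symm)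
  have hφr : ∀ x : K, (φ ^ r) x = x ^ Fintype.card F ^ r := by
    intro x
    rw [AlgEquiv.coe_pow, FiniteField.coe_frobeniusAlgEquivOfAlgebraic_iterate]
  have hmem : ∀ x : K, x ∈ L ↔ x ^ Fintype.card F ^ r = x := by
    intro x
    rw [← hφr]
    refine ⟨fun h => ?_, fun h => ?_⟩
    · exact (IntermediateField.mem_fixedField_iff G x).1 h _ (Subgroup.mem_zpowers _)
    · refine (IntermediateField.mem_fixedField_iff G x).2 fun f hf => ?_
      have : G ≤ MulAction.stabilizer Gal(K/F) x := Subgroup.zpowers_le.2 h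
      exact this hf
  let K' : Subalgebra F (Matrix ι ι F) := L.toSubalgebra.map K.val
  have hK' : ∀ M, M ∈ K' ↔ M ∈ K ∧ M ^ Fintype.card F ^ r = M := by
    intro M
    constructor
    · rintro ⟨x, hx, rfl⟩
      exact ⟨x.2, congrArg Subtype.val ((hmem x).1 hx)⟩
    · rintro ⟨hM, hpow⟩
      exact ⟨⟨M, hM⟩, (hmem _).2 (Subtype.ext hpow), rfl⟩
  have hle : K' ≤ K := fun M hM => ((hK' M).1 hM).1
  refine ⟨r, K', hr, ⟨fun x hx y hy => hcomm x (hle hx) y (hle hy), fun x hx hx0 => ?_, ?_⟩, hle,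
    fun k hk => ?_, fun g hg M => ?_⟩
  · obtain ⟨z, hz, rfl⟩ := hx
    have hz0 : z ≠ 0 := fun h => hx0 (by rw [h]; rfl)
    exact ⟨(z⁻¹ : K).1, ⟨z⁻¹, L.inv_mem hz, rfl⟩, congrArg Subtype.val (mul_inv_cancel₀ hz0 : z * z⁻¹ = 1)⟩
  · rw [← hL]
    exact ((L.toSubalgebra.equivMapOfInjective K.val Subtype.val_injective).toLinearEquiv.finrank_eq).symm
  · obtain ⟨hkK, hpow⟩ := (hK' k).1 hk
    obtain ⟨k', hk'K, hkk'⟩ := hadj k hkK
    refine ⟨k', (hK' k').2 ⟨hk'K, eq_of_adjoint hs hnd fun u v => ?_⟩, hkk'⟩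
    rw [← adjoint_pow hkk', hpow, hkk']
  · rw [hK', hK', ← hg M]
    refine and_congr_right fun _ => ?_
    rw [Units.conj_pow]
    refine ⟨fun h => by rw [h], fun h => ?_⟩
    have := congrArg (fun X => ((g⁻¹ : GL ι F) : Matrix ι ι F) * X * (g : Matrix ι ι F)) h
    simpa [mul_assoc] using this

/-- **Clifford's theorem relative to a form.** -/
theorem form_clifford [Finite F] (hs : IsSesqui σ f) (hr : IsReflexive f) (hnd : IsNondegenerateForm f)
    {H N : Subgroup (GL ι F)} (hirr : ActsIrreducibly (matrixSet H)) (hN : NormalIn N H)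
    (hfix : FixesForm (matrixSet H) f) (hns : ¬ N ≤ scalars ι F) :
    ActsAbsolutelyIrreducibly (matrixSet N) ∨
    (∃ (t m : ℕ) (D : Fin t → Submodule F (ι → F)),
      IsNondegenerateMDecomposition f m D ∧ H ≤ decompositionStabilizer D) ∨
    (∃ (t m : ℕ) (D : Fin t → Submodule F (ι → F)) (τ : Equiv.Perm (Fin t)),
      IsMDecomposition m D ∧ H ≤ decompositionStabilizer D ∧ (∀ i, τ i ≠ i) ∧ (∀ i, τ (τ i) = i) ∧
      (∀ i, IsTotallySingularFor f (D i)) ∧ (∀ i j, j ≠ τ i → AreOrthogonalFor f (D i) (D j))) ∨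
    (∃ (r : ℕ) (K : Subalgebra F (Matrix ι ι F)), r.Prime ∧ IsFieldSubalgebra r K ∧
      IsAdjointClosedFor f K ∧ H ≤ subalgebraNormalizer K) ∨
    ∃ (n₁ n₂ : ℕ) (e : ι ≃ Fin n₁ × Fin n₂) (P : GL ι F), TensorCase H N n₁ n₂ e P := by
  classical
  have : Nonempty ι := by
    by_contra he
    rw [not_nonempty_iff] at he
    exact hns fun g _ => (Subsingleton.elim g 1 : g = 1) ▸ one_mem _
  by_cases habs : ActsAbsolutelyIrreducibly (matrixSet N)
  · exact Or.inl habs
  right
  have hfixN : FixesForm (matrixSet N) f := by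
    rintro _ ⟨g, hg, rfl⟩
    exact hfix _ (coe_mem_matrixSet (hN.le hg))
  have hH := le_subalgebraNormalizer_centreN hN
  have hadj := isAdjointClosedFor_centreN hs hnd hfixN
  by_cases hfield : ∀ x ∈ centreN N, x ≠ 0 → ∃ y ∈ centreN N, x * y = 1
  swap
  · obtain ⟨t, m, D, hD, hle, huniq⟩ :=
      idempotent_decomposition hs hnd hirr hH (centreN_comm N) hadj hfield
    rcases decomposition_nondegenerate_or_paired hs hr hnd hfix hirr hD hle huniq with h | ⟨τ, h⟩
    · exact Or.inl ⟨t, m, D, h, hle⟩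
    · exact Or.inr (Or.inl ⟨t, m, D, τ, hD, hle, h⟩)
  right; right
  by_cases hne : ∃ x ∈ centreN N, ∀ c : F, x ≠ c • 1
  · obtain ⟨r, K, hr', hK, -, hKadj, hKH⟩ :=
      exists_prime_adjointClosed hs hnd (centreN_comm N) hfield hne hadj
    exact Or.inl ⟨r, K, hr', hK, hKadj, hH.trans hKH⟩
  · push Not at hne
    exact Or.inr (tensorCase_of_isotypic hirr hN hns (isIsotypic_of_centre_scalar hirr hN hne) hne habs)

end CfsgLib.SmallDim
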