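import Cfsg.Agent.Lib.SmallDim.TensorInduced
import Cfsg.Agent.Lib.SmallDim.Forms

/-!
# Invariant forms of tensor decompositions

A non-degenerate form invariant under groups acting in the slots of a tensor decomposition with
scalar commutant factors as a tensor product of forms.
-/

set_option autoImplicit false
set_option linter.style.haveILetI false

namespace CfsgLib.SmallDim

open scoped MatrixGroups Matrix Kronecker
open Cfsg.Geo

section Factor

variable {F : Type*} [Field F] {κ₁ κ₂ : Type} [Fintype κ₁] [DecidableEq κ₁] [Fintype κ₂] [DecidableEq κ₂]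

/-- The forms invariant under `S`. -/
def InvGram (σ : F →+* F) (S : Set (Matrix κ₂ κ₂ F)) (X : Matrix κ₂ κ₂ F) : Prop :=
  ∀ b ∈ S, bᵀ * X * b.map σ = X

/-- Invariant matrices are multiples of a fixed invertible one. -/
theorem InvGram.exists_smul {σ : F →+* F} {S : Set (Matrix κ₂ κ₂ F)} {G₀ X : Matrix κ₂ κ₂ F}
    (hS : ∀ C : Matrix κ₂ κ₂ F, (∀ b ∈ S, C * b = b * C) → ∃ c : F, C = c • 1)
    (h₀ : InvGram σ S G₀) (hdet : IsUnit G₀.det) (hX : InvGram σ S X) :
    ∃ c : F, X = c • G₀ := by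
  obtain ⟨c, hc⟩ := hS (X * G₀⁻¹)ᵀ fun b hb => by
    have hb1 : IsUnit (bᵀ).det := isUnit_of_mul_isUnit_left (y := (G₀ * b.map σ).det) (by
      rw [← Matrix.det_mul, ← Matrix.mul_assoc, h₀ b hb]; exact hdet)
    have e1 : G₀ * b.map σ = (bᵀ)⁻¹ * G₀ := by
      conv_rhs => rw [← h₀ b hb]
      rw [Matrix.mul_assoc bᵀ, ← Matrix.mul_assoc, Matrix.nonsing_inv_mul _ hb1, Matrix.one_mul]
    have e2 : bᵀ * (X * G₀⁻¹) = X * G₀⁻¹ * bᵀ := by
      have e3 : bᵀ * X * b.map σ * G₀⁻¹ * bᵀ = X * G₀⁻¹ * bᵀ := by rw [hX b hb]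
      rw [← e3]
      have e4 : b.map σ = G₀⁻¹ * ((bᵀ)⁻¹ * G₀) := by
        rw [← e1, ← Matrix.mul_assoc, Matrix.nonsing_inv_mul _ hdet, Matrix.one_mul]
      rw [e4]
      simp only [Matrix.mul_assoc]
      rw [← Matrix.mul_assoc G₀ G₀⁻¹, Matrix.mul_nonsing_inv _ hdet, Matrix.one_mul,
        Matrix.nonsing_inv_mul _ hb1, Matrix.mul_one]
    simpa [Matrix.transpose_mul, Matrix.mul_assoc] using congrArg Matrix.transpose e2
  refine ⟨c, ?_⟩
  have h2 := congrArg Matrix.transpose hc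
  rw [Matrix.transpose_transpose, Matrix.transpose_smul, Matrix.transpose_one] at h2
  calc X = X * G₀⁻¹ * G₀ := by rw [Matrix.mul_assoc, Matrix.nonsing_inv_mul _ hdet, Matrix.mul_one]
    _ = _ := by rw [h2, Matrix.smul_mul, Matrix.one_mul]

/-- An invertible form invariant under `1 ⊗ S` is a tensor product. -/
theorem exists_kronecker_of_invariant [Nonempty κ₁] [Nonempty κ₂] {σ : F →+* F} {S : Set (Matrix κ₂ κ₂ F)}
    (hS : ∀ C : Matrix κ₂ κ₂ F, (∀ b ∈ S, C * b = b * C) → ∃ c : F, C = c • 1)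
    {G : Matrix (κ₁ × κ₂) (κ₁ × κ₂) F} (hG : IsUnit G.det)
    (hinv : ∀ b ∈ S, ((1 : Matrix κ₁ κ₁ F) ⊗ₖ b)ᵀ * G * ((1 : Matrix κ₁ κ₁ F) ⊗ₖ b).map σ = G) :
    ∃ (C : Matrix κ₁ κ₁ F) (G₀ : Matrix κ₂ κ₂ F),
      IsUnit C.det ∧ IsUnit G₀.det ∧ InvGram σ S G₀ ∧ G = C ⊗ₖ G₀ := by
  classical
  let blk : κ₁ → κ₁ → Matrix κ₂ κ₂ F := fun i j => Matrix.of fun k l => G (i, k) (j, l)
  have hblk : ∀ i j, InvGram σ S (blk i j) := by
    intro i j b hb
    ext k l
    have := congrFun (congrFun (hinv b hb) (i, k)) (j, l)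
    rw [show blk i j k l = G (i, k) (j, l) from rfl]
    simpa [Matrix.mul_apply, Fintype.sum_prod_type, Matrix.one_apply, blk, Finset.sum_ite_eq,
      apply_ite σ, ite_mul, mul_ite] using this
  -- every member of `S` is invertible
  have hbu : ∀ b ∈ S, IsUnit b.det ∧ IsUnit (b.map σ).det := by
    intro b hb
    have h := congrArg Matrix.det (hinv b hb)
    rw [Matrix.det_mul, Matrix.det_mul, Matrix.det_transpose, Matrix.det_kronecker, Matrix.det_one,
      one_pow, one_mul] at h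
    have hb0 : b.det ≠ 0 := fun h0 => hG.ne_zero (by
      rw [← h, h0, zero_pow Fintype.card_ne_zero, zero_mul, zero_mul])
    refine ⟨isUnit_iff_ne_zero.2 hb0, isUnit_iff_ne_zero.2 ?_⟩
    rw [show (b.map σ).det = σ b.det from (RingHom.map_det σ b).symm]
    exact (map_ne_zero σ).2 hb0
  let kblk : κ₁ → κ₁ → Matrix κ₂ κ₂ F := fun i j => Matrix.of fun k l => G⁻¹ (i, k) (j, l)
  have hkblk : ∀ b ∈ S, ∀ i j, b.map σ * kblk i j * bᵀ = kblk i j := by
    intro b hb i j
    set Bb : Matrix (κ₁ × κ₂) (κ₁ × κ₂) F := (1 : Matrix κ₁ κ₁ F) ⊗ₖ b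
    have h1 : Bb.map σ * G⁻¹ * Bbᵀ = G⁻¹ := by
      have hBu : IsUnit (Bbᵀ).det := by
        rw [Matrix.det_transpose, Matrix.det_kronecker, Matrix.det_one, one_pow, one_mul]
        exact (hbu b hb).1.pow _
      have h2 : G * Bb.map σ = (Bbᵀ)⁻¹ * G := by
        conv_rhs => rw [← hinv b hb]
        rw [Matrix.mul_assoc Bbᵀ, ← Matrix.mul_assoc, Matrix.nonsing_inv_mul _ hBu, Matrix.one_mul]
      have h3 : Bb.map σ = G⁻¹ * ((Bbᵀ)⁻¹ * G) := by
        rw [← h2, ← Matrix.mul_assoc, Matrix.nonsing_inv_mul _ hG, Matrix.one_mul]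
      rw [h3]
      simp only [Matrix.mul_assoc]
      rw [← Matrix.mul_assoc G G⁻¹, Matrix.mul_nonsing_inv _ hG, Matrix.one_mul,
        Matrix.nonsing_inv_mul _ hBu, Matrix.mul_one]
    ext k l
    have := congrFun (congrFun h1 (i, k)) (j, l)
    rw [show kblk i j k l = G⁻¹ (i, k) (j, l) from rfl]
    simpa [Bb, Matrix.mul_apply, Fintype.sum_prod_type, Matrix.one_apply, kblk, Finset.sum_ite_eq,
      apply_ite σ, ite_mul, mul_ite] using this
  obtain ⟨i₀⟩ := ‹Nonempty κ₁›
  obtain ⟨j₀, hj₀⟩ : ∃ j, blk i₀ j * kblk j i₀ ≠ 0 := by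
    by_contra hall
    push Not at hall
    have h1 : ∑ j, blk i₀ j * kblk j i₀ = 1 := by
      ext k l
      have := congrFun (congrFun (Matrix.mul_nonsing_inv _ hG) (i₀, k)) (i₀, l)
      simpa [Matrix.sum_apply, Matrix.mul_apply, blk, kblk, Fintype.sum_prod_type,
        Matrix.one_apply] using this
    rw [Finset.sum_eq_zero fun j _ => hall j] at h1
    exact zero_ne_one h1
  obtain ⟨c₀, hc₀⟩ := hS (blk i₀ j₀ * kblk j₀ i₀)ᵀ fun b hb => by
    have e2 : bᵀ * (blk i₀ j₀ * kblk j₀ i₀) = blk i₀ j₀ * kblk j₀ i₀ * bᵀ := by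
      calc bᵀ * (blk i₀ j₀ * kblk j₀ i₀)
          = bᵀ * blk i₀ j₀ * (b.map σ * kblk j₀ i₀ * bᵀ) := by rw [hkblk b hb, Matrix.mul_assoc]
        _ = (bᵀ * blk i₀ j₀ * b.map σ) * kblk j₀ i₀ * bᵀ := by simp only [Matrix.mul_assoc]
        _ = _ := by rw [hblk i₀ j₀ b hb]
    simpa [Matrix.transpose_mul, Matrix.mul_assoc] using congrArg Matrix.transpose e2
  have hc : blk i₀ j₀ * kblk j₀ i₀ = c₀ • 1 := by
    have h2 := congrArg Matrix.transpose hc₀
    rwa [Matrix.transpose_transpose, Matrix.transpose_smul, Matrix.transpose_one] at h2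
  have hdet₀ : IsUnit (blk i₀ j₀).det := by
    have hc0 : c₀ ≠ 0 := fun h => hj₀ (by rw [hc, h, zero_smul])
    apply isUnit_of_mul_isUnit_left (y := (kblk j₀ i₀).det)
    rw [← Matrix.det_mul, hc, Matrix.det_smul, Matrix.det_one, mul_one]
    exact (isUnit_iff_ne_zero.2 hc0).pow _
  choose C hC using fun i j => (hblk i₀ j₀).exists_smul hS hdet₀ (hblk i j)
  have hGC : G = Matrix.of C ⊗ₖ blk i₀ j₀ := by
    ext ⟨i, k⟩ ⟨j, l⟩
    rw [Matrix.kronecker_apply, Matrix.of_apply, show G (i, k) (j, l) = blk i j k l from rfl, hC i j]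
    rfl
  refine ⟨Matrix.of C, blk i₀ j₀, ?_, hdet₀, hblk i₀ j₀, hGC⟩
  have h := hG
  rw [hGC, Matrix.det_kronecker] at h
  exact (isUnit_pow_iff Fintype.card_ne_zero).1 (isUnit_of_mul_isUnit_left h)

end Factor

variable {ι : Type} [Fintype ι] [DecidableEq ι] {F : Type*} [Field F]

set_option maxHeartbeats 1600000 in
/-- The tensor-induced case, together with the action of the factors in their slots. -/
theorem exists_tensorWreath_slots [Finite F] [Nonempty ι] {H : Subgroup (GL ι F)} {k : ℕ}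
    (hk : 2 ≤ k) {L : Fin k → Subgroup (GL ι F)}
    (hcomm : ∀ i j, i ≠ j → ∀ a ∈ L i, ∀ b ∈ L j, a * b = b * a)
    (hN : ActsAbsolutelyIrreducibly (matrixSet (⨆ i, L i)))
    (hns : ∀ i, ¬ L i ≤ scalars ι F)
    (hperm : ∀ g ∈ H, ∃ σ : Equiv.Perm (Fin k),
      ∀ i, (L i).map (MulAut.conj g).toMonoidHom = L (σ i))
    (htrans : ∀ i, ∃ h : GL ι F, (L ⟨0, by omega⟩).map (MulAut.conj h).toMonoidHom = L i) :
    ∃ (m : ℕ) (e : ι ≃ (Fin k → Fin m)) (P : GL ι F) (S : Set (Matrix (Fin m) (Fin m) F)),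
      2 ≤ m ∧ H ≤ tensorWreathSubgroup m k e P ∧
      (∀ C : Matrix (Fin m) (Fin m) F, (∀ b ∈ S, C * b = b * C) → ∃ c : F, C = c • 1) ∧
      (∀ i, ∀ b ∈ S, ∃ a ∈ L i, (a : Matrix ι ι F) * (P : Matrix ι ι F) =
        (P : Matrix ι ι F) * Matrix.reindex e.symm e.symm (pureMat (Pi.mulSingle i b))) ∧
      ∀ i, ∀ a ∈ L i, ∃ b ∈ S, (a : Matrix ι ι F) * (P : Matrix ι ι F) =
        (P : Matrix ι ι F) * Matrix.reindex e.symm e.symm (pureMat (Pi.mulSingle i b)) := by
  classical
  let i₀ : Fin k := ⟨0, by omega⟩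
  have hnot : ¬ ActsAbsolutelyIrreducibly (matrixSet (L i₀)) := by
    intro h
    refine hns ⟨1, by omega⟩ fun b hb => ?_
    obtain ⟨c, hc⟩ := h.2 _ (by
      rintro _ ⟨a, ha, rfl⟩
      exact congrArg Units.val (hcomm ⟨1, by omega⟩ i₀ (by simp [i₀, Fin.ext_iff]) b hb a ha))
    exact mem_scalars_of_act c fun v => act_scalar hc v
  obtain ⟨m, Φ₀, hm, hinj₀, hrange₀⟩ := exists_biCent_algHom hcomm hN (hns i₀) hnot
  choose h hh using htrans
  let Φ : Fin k → Matrix (Fin m) (Fin m) F →ₐ[F] Matrix ι ι F := fun i =>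
    (conjAlg (h i)).toAlgHom.comp Φ₀
  have hΦinj : ∀ i, Function.Injective (Φ i) := fun i => (conjAlg (h i)).injective.comp hinj₀
  have hΦrange : ∀ i, (Φ i).range = biCent (L i) := by
    intro i
    apply le_antisymm
    · rintro _ ⟨b, rfl⟩
      have := conjAlg_mem_biCent (h i) (hrange₀.le ⟨b, rfl⟩)
      rwa [hh] at this
    · intro X hX
      have := conjAlg_mem_biCent (h i)⁻¹ hX
      rw [← hh, map_conj_inv] at this
      obtain ⟨b, hb⟩ := hrange₀.ge this
      refine ⟨b, ?_⟩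
      show conjAlg (h i) (Φ₀ b) = X
      rw [show Φ₀ b = conjAlg (h i)⁻¹ X from hb, ← conjAlg_mul, mul_inv_cancel]
      simp [conjAlg_apply]
  have hΦmem : ∀ i b, Φ i b ∈ biCent (L i) := fun i b => (hΦrange i).le ⟨b, rfl⟩
  have hΦcomm : ∀ i j, i ≠ j → ∀ a b, Φ i a * Φ j b = Φ j b * Φ i a := fun i j hij a b =>
    biCent_commute (hcomm i j hij) (hΦmem i a) (hΦmem j b)
  let Ψ : (Fin k → Matrix (Fin m) (Fin m) F) →* Matrix ι ι F :=
    MonoidHom.noncommPiCoprod (fun i => (Φ i : Matrix (Fin m) (Fin m) F →* Matrix ι ι F))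
      fun i j hij a b => hΦcomm i j hij a b
  have hΨs : ∀ i b, Ψ (Pi.mulSingle i b) = Φ i b := fun i b =>
    MonoidHom.noncommPiCoprod_mulSingle (ϕ := fun i => (Φ i : Matrix (Fin m) (Fin m) F →* Matrix ι ι F))
      (hcomm := fun i j hij a b => hΦcomm i j hij a b) i b
  have hupd : ∀ (f : Fin k → Matrix (Fin m) (Fin m) F) i b,
      Ψ (Function.update f i b) = Φ i b * Ψ (Function.update f i 1) := by
    intro f i b
    rw [← hΨs, ← map_mul]
    congr 1
    funext j
    by_cases hj : j = i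
    · subst hj; simp
    · simp [hj]
  let Ψl : MultilinearMap F (fun _ : Fin k => Matrix (Fin m) (Fin m) F) (Matrix ι ι F) :=
    { toFun := Ψ
      map_update_add' := by
        intro inst f i a b
        obtain rfl : inst = instDecidableEqFin k := Subsingleton.elim _ _
        rw [hupd f i (a + b), hupd f i a, hupd f i b, map_add, add_mul]
      map_update_smul' := by
        intro inst f i c a
        obtain rfl : inst = instDecidableEqFin k := Subsingleton.elim _ _
        rw [hupd f i (c • a), hupd f i a, map_smul, Matrix.smul_mul] }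
  have hΨl : ∀ f, Ψl f = Ψ f := fun f => rfl
  let E : (Fin k → Fin m) → (Fin k → Fin m) → Matrix ι ι F := fun x y =>
    Ψ fun i => Matrix.single (x i) (y i) 1
  -- expansion in matrix units
  have hexp : ∀ f, Ψ f = ∑ r : Fin k → Fin m × Fin m,
      (∏ i, f i (r i).1 (r i).2) • E (fun i => (r i).1) (fun i => (r i).2) := by
    intro f
    have hf : f = fun i => ∑ q : Fin m × Fin m, f i q.1 q.2 • Matrix.single q.1 q.2 (1 : F) := by
      funext i
      have := matrix_algHom_apply (AlgHom.id F (Matrix (Fin m) (Fin m) F)) (f i)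
      simpa using this
    conv_lhs => rw [← hΨl, hf, Ψl.map_sum]
    refine Finset.sum_congr rfl fun r _ => ?_
    rw [Ψl.map_smul_univ]
    rfl
  have hmul : ∀ a b c d, E a b * E c d = if b = c then E a d else 0 := by
    intro a b c d
    show Ψ _ * Ψ _ = _
    rw [← map_mul]
    split
    · next hbc => subst hbc; simp [E, Pi.mul_def]
    · next hbc =>
      obtain ⟨i, hi⟩ := Function.ne_iff.1 hbc
      rw [← hΨl]
      exact Ψl.map_coord_zero i (Matrix.single_mul_single_of_ne _ _ _ _ hi _)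
  have hsum : ∑ a, E a a = 1 := by
    show ∑ a : Fin k → Fin m, Ψl (fun i => Matrix.single (a i) (a i) 1) = 1
    rw [← Ψl.map_sum (fun _ (q : Fin m) => Matrix.single q q (1 : F))]
    simp only [Matrix.sum_single_eq_diagonal, Matrix.diagonal_one]
    exact map_one Ψ
  have hcommutant : ∀ M : Matrix ι ι F, (∀ a b, M * E a b = E a b * M) →
      ∃ c : F, M = c • 1 := by
    intro M hM
    refine hN.2 M ?_
    rintro _ ⟨a, ha, rfl⟩
    refine commute_iSup (fun j b hb => ?_) a ha
    obtain ⟨B, hB⟩ := (hΦrange j).ge (coe_mem_biCent hb)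
    rw [← hB]
    show M * Φ j B = Φ j B * M
    rw [← hΨs, hexp, Finset.mul_sum, Finset.sum_mul]
    refine Finset.sum_congr rfl fun r _ => ?_
    rw [Matrix.mul_smul, Matrix.smul_mul, hM]
  have : Nonempty (Fin k → Fin m) := ⟨fun _ => ⟨0, by omega⟩⟩
  obtain ⟨e, P, hP⟩ := exists_conj_of_matrixUnits hmul hsum hcommutant
  have hΨP : ∀ f, Ψ f * (P : Matrix ι ι F) =
      (P : Matrix ι ι F) * Matrix.reindex e.symm e.symm (pureMat f) := by
    intro f
    rw [hexp, Finset.sum_mul]
    simp only [Matrix.smul_mul, hP, ← Matrix.mul_smul, ← Finset.mul_sum]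
    congr 1
    ext i j
    simp only [Matrix.sum_apply, Matrix.smul_apply, Matrix.reindex_apply, Matrix.submatrix_apply,
      Equiv.symm_symm, Matrix.single_apply, smul_eq_mul, pureMat, Matrix.of_apply]
    rw [Finset.sum_eq_single (fun l => (e i l, e j l))]
    · simp
    · intro r _ hr
      rw [if_neg, mul_zero]
      rintro ⟨h1, h2⟩
      exact hr (funext fun l => Prod.ext (congrFun h1 l) (congrFun h2 l))
    · exact fun h => absurd (Finset.mem_univ _) h
  refine ⟨m, e, P, {b | Φ₀ b ∈ matrixSet (L i₀)}, hm, ?core, ?comm, ?slots, ?conv⟩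
  case comm =>
    intro C hC
    have hC' : ∀ j, ∀ a ∈ L j, Φ₀ C * (a : Matrix ι ι F) = (a : Matrix ι ι F) * Φ₀ C := by
      intro j a ha
      by_cases hj : j = i₀
      · subst hj
        obtain ⟨B, hB⟩ := hrange₀.ge (coe_mem_biCent ha)
        have hB' : Φ₀ B = (a : Matrix ι ι F) := hB
        have hBS : Φ₀ B ∈ matrixSet (L i₀) := by rw [hB']; exact coe_mem_matrixSet ha
        rw [← hB', ← map_mul, ← map_mul, hC B hBS]
      · exact biCent_commute (hcomm i₀ j (Ne.symm hj)) (hrange₀.le ⟨C, rfl⟩) (coe_mem_biCent ha)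
    obtain ⟨c, hc⟩ := hN.2 (Φ₀ C) (by
      rintro _ ⟨a, ha, rfl⟩
      exact commute_iSup hC' a ha)
    exact ⟨c, hinj₀ (by rw [hc, map_smul, map_one])⟩
  case slots =>
    intro i b hb
    obtain ⟨a, ha, hab⟩ := hb
    have hia : h i * a * (h i)⁻¹ ∈ L i := by
      rw [← hh i]
      exact ⟨a, ha, rfl⟩
    refine ⟨_, hia, ?_⟩
    rw [← hΨP, hΨs, ← conjAlg_coe]
    exact congrArg (fun z => conjAlg (h i) z * (P : Matrix ι ι F)) hab
  case conv =>
    intro i a ha
    rw [← hh i] at ha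
    obtain ⟨a₀, ha₀, rfl⟩ := ha
    obtain ⟨b, hb⟩ := hrange₀.ge (coe_mem_biCent ha₀)
    have hb' : Φ₀ b = (a₀ : Matrix ι ι F) := hb
    refine ⟨b, show Φ₀ b ∈ matrixSet (L i₀) by rw [hb']; exact coe_mem_matrixSet ha₀, ?_⟩
    rw [← hΨP, hΨs]
    show _ = conjAlg (h i) (Φ₀ b) * (P : Matrix ι ι F)
    rw [hb', conjAlg_coe]
    rfl
  intro g hg
  obtain ⟨σ, hσ⟩ := hperm g hg
  -- `g` induces inner automorphisms between the factors
  have hφ : ∀ i, ∃ φ : Matrix (Fin m) (Fin m) F ≃ₐ[F] Matrix (Fin m) (Fin m) F,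
      ∀ X, Φ (σ i) (φ X) = conjAlg g (Φ i X) := by
    intro i
    have hmemr : ∀ X, conjAlg g (Φ i X) ∈ (Φ (σ i)).range := fun X => by
      rw [hΦrange, ← hσ]; exact conjAlg_mem_biCent g (hΦmem i X)
    let ψ : Matrix (Fin m) (Fin m) F →ₐ[F] (Φ (σ i)).range :=
      ((conjAlg g).toAlgHom.comp (Φ i)).codRestrict _ hmemr
    let inv := (AlgEquiv.ofInjective (Φ (σ i)) (hΦinj _)).symm
    let φ := inv.toAlgHom.comp ψ
    have hφinj : Function.Injective φ := fun a b hab =>
      hΦinj i ((conjAlg g).injective (congrArg Subtype.val (inv.injective hab)))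
    refine ⟨AlgEquiv.ofBijective φ ⟨hφinj,
      (LinearMap.injective_iff_surjective (f := φ.toLinearMap)).1 hφinj⟩, fun X => ?_⟩
    show Φ (σ i) (inv (ψ X)) = _
    exact congrArg Subtype.val ((AlgEquiv.ofInjective (Φ (σ i)) (hΦinj _)).apply_symm_apply (ψ X))
  choose φ hφ using hφ
  choose a ha using fun i => exists_inner (φ i)
  -- the standard element with the same effect
  let b : Fin k → GL (Fin m) F := fun j => a (σ.symm j)
  let Y : GL (Fin k → Fin m) F := pureGL b * factorPerm σ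
  have hYconj : ∀ f, (Y : Matrix (Fin k → Fin m) (Fin k → Fin m) F) * pureMat f =
      pureMat (fun j => φ (σ.symm j) (f (σ.symm j))) * (Y : Matrix (Fin k → Fin m) (Fin k → Fin m) F) := by
    intro f
    simp only [Y, Units.val_mul, mul_assoc, factorPerm_mul_pureMat]
    rw [← mul_assoc, ← mul_assoc]
    congr 1
    show pureMat (fun i => (b i : Matrix (Fin m) (Fin m) F)) * _ = _
    rw [← pureMat_mul, show (pureGL b : GL (Fin k → Fin m) F).val =
      pureMat (fun i => (b i : Matrix (Fin m) (Fin m) F)) from rfl, ← pureMat_mul]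
    congr 1
    funext j
    exact (ha (σ.symm j) (f (σ.symm j))).symm
  let G' : GL ι F := P⁻¹ * g * P
  let Y' : GL ι F := glReindex e.symm Y
  have hgΨ : ∀ f, conjAlg g (Ψ f) = Ψ fun j => φ (σ.symm j) (f (σ.symm j)) := by
    let A : (Fin k → Matrix (Fin m) (Fin m) F) →* Matrix ι ι F :=
      (conjAlg g : Matrix ι ι F →* Matrix ι ι F).comp Ψ
    let B : (Fin k → Matrix (Fin m) (Fin m) F) →* Matrix ι ι F := Ψ.comp
      { toFun := fun f j => φ (σ.symm j) (f (σ.symm j))
        map_one' := funext fun j => map_one _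
        map_mul' := fun f f' => funext fun j => map_mul _ _ _ }
    suffices A = B from fun f => congrArg (fun q : _ →* _ => q f) this
    refine MonoidHom.pi_ext fun i X => ?_
    simp only [A, B, MonoidHom.comp_apply, MonoidHom.coe_coe]
    rw [hΨs, ← hφ, ← hΨs]
    congr 1
    funext j
    by_cases hj : j = σ i
    · subst hj
      simp only [MonoidHom.coe_mk, OneHom.coe_mk, Equiv.symm_apply_apply, Pi.mulSingle_eq_same]
    · have : σ.symm j ≠ i := fun h' => hj (by rw [← h', Equiv.apply_symm_apply])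
      simp [hj, this]
  -- they differ by a matrix commuting with all tensor products
  have hdiff : ∀ f, ((Y'⁻¹ * G' : GL ι F) : Matrix ι ι F) * Matrix.reindex e.symm e.symm (pureMat f) =
      Matrix.reindex e.symm e.symm (pureMat f) * ((Y'⁻¹ * G' : GL ι F) : Matrix ι ι F) := by
    intro f
    have h1 : (G' : Matrix ι ι F) * Matrix.reindex e.symm e.symm (pureMat f) =
        Matrix.reindex e.symm e.symm (pureMat fun j => φ (σ.symm j) (f (σ.symm j))) *
          (G' : Matrix ι ι F) := by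
      have h0 : (P : Matrix ι ι F) * (Matrix.reindex e.symm e.symm
          (pureMat fun j => φ (σ.symm j) (f (σ.symm j))) * (G' : Matrix ι ι F)) =
          (g : Matrix ι ι F) * Ψ f * (P : Matrix ι ι F) := by
        rw [← mul_assoc, ← hΨP, ← hgΨ, conjAlg_apply]
        simp [G', mul_assoc]
      calc (G' : Matrix ι ι F) * Matrix.reindex e.symm e.symm (pureMat f)
          = ((P⁻¹ : GL ι F) : Matrix ι ι F) * ((g : Matrix ι ι F) * Ψ f * (P : Matrix ι ι F)) := by
            rw [mul_assoc, hΨP]; simp [G', mul_assoc]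
        _ = _ := by rw [← h0, ← mul_assoc, ← Units.val_mul, inv_mul_cancel, Units.val_one, one_mul]
    have h2 : (Y' : Matrix ι ι F) * Matrix.reindex e.symm e.symm (pureMat f) =
        Matrix.reindex e.symm e.symm (pureMat fun j => φ (σ.symm j) (f (σ.symm j))) *
          (Y' : Matrix ι ι F) := by
      show Matrix.reindexAlgEquiv F F e.symm (Y : Matrix _ _ F) *
        Matrix.reindexAlgEquiv F F e.symm (pureMat f) = Matrix.reindexAlgEquiv F F e.symm _ *
          Matrix.reindexAlgEquiv F F e.symm (Y : Matrix _ _ F)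
      rw [← map_mul, ← map_mul, hYconj]
    apply (Units.mul_right_inj Y').1
    rw [← mul_assoc (Y' : Matrix ι ι F), ← mul_assoc (Y' : Matrix ι ι F), h2,
      mul_assoc _ (Y' : Matrix ι ι F), ← Units.val_mul, mul_inv_cancel_left, h1]
  obtain ⟨c, hc⟩ := hcommutant (conjAlg P ((Y'⁻¹ * G' : GL ι F) : Matrix ι ι F)) fun x y => by
    have hE : E x y = conjAlg P
        (Matrix.reindex e.symm e.symm (pureMat fun i => Matrix.single (x i) (y i) (1 : F))) := by
      rw [conjAlg_apply, ← hΨP, mul_assoc, Units.mul_inv, mul_one]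
    rw [hE, ← map_mul (conjAlg P), ← map_mul (conjAlg P), hdiff]
  have hc0 : c ≠ 0 := by
    rintro rfl
    rw [zero_smul] at hc
    have h0 := congrArg (fun Z => conjAlg P⁻¹ Z) hc
    simp only [conjAlg_inv_self, map_zero] at h0
    exact (Y'⁻¹ * G').isUnit.ne_zero h0
  let S : GL ι F := Units.map (Matrix.scalar ι : F →+* Matrix ι ι F).toMonoidHom (Units.mk0 c hc0)
  have hG' : G' = Y' * S := by
    have h0 := congrArg (fun Z => conjAlg P⁻¹ Z) hc
    simp only [conjAlg_inv_self] at h0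
    rw [← inv_mul_eq_iff_eq_mul]
    apply Units.ext
    rw [h0, ← Algebra.algebraMap_eq_smul_one, AlgEquiv.commutes]
    simp [S, Matrix.algebraMap_eq_diagonal]
  let sc : Fin k → GL (Fin m) F := Pi.mulSingle i₀
    (Units.map (Matrix.scalar (Fin m) : F →+* Matrix (Fin m) (Fin m) F).toMonoidHom (Units.mk0 c hc0))
  have hS : S = glReindex e.symm (pureGL sc) := by
    apply Units.ext
    show Matrix.scalar ι c = Matrix.reindex e.symm e.symm (pureMat _)
    ext i j
    simp only [Matrix.scalar_apply, Matrix.reindex_apply, Matrix.submatrix_apply, Equiv.symm_symm,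
      pureMat, Matrix.of_apply]
    have key : ∀ l, ((sc l : GL (Fin m) F) : Matrix (Fin m) (Fin m) F) (e i l) (e j l) =
        if e i l = e j l then (if l = i₀ then c else 1) else 0 := by
      intro l
      by_cases hl : l = i₀
      · subst hl; simp [sc, Matrix.diagonal_apply]
      · simp [sc, hl, Matrix.one_apply]
    simp only [key]
    by_cases hij : i = j
    · subst hij
      rw [Matrix.diagonal_apply_eq, Finset.prod_eq_single i₀]
      · simp
      · intro l _ hl; simp [hl]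
      · exact fun h => absurd (Finset.mem_univ _) h
    · rw [Matrix.diagonal_apply_ne _ hij]
      obtain ⟨l, hl⟩ := Function.ne_iff.1 (e.injective.ne hij)
      exact (Finset.prod_eq_zero (Finset.mem_univ l) (if_neg hl)).symm
  refine ⟨G', ⟨Y * pureGL sc, ?_, ?_⟩, ?_⟩
  · exact mul_mem (mul_mem (Subgroup.subset_closure (Or.inl ⟨b, fun x y => rfl⟩))
      (Subgroup.subset_closure (Or.inr ⟨σ, fun x y => rfl⟩)))
      (Subgroup.subset_closure (Or.inl ⟨sc, fun x y => rfl⟩))
  · rw [hG', hS]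
    exact map_mul (glReindex e.symm) Y (pureGL sc)
  · show P * G' * P⁻¹ = g
    simp [G', mul_assoc]


section Power

/-- The reindexing splitting off the first tensor slot. -/
def splitFirst (k m : ℕ) : (Fin (k + 1) → Fin m) ≃ (Fin k → Fin m) × Fin m :=
  (Fin.consEquiv fun _ => Fin m).symm.trans (Equiv.prodComm _ _)

lemma splitFirst_apply {k m : ℕ} (x : Fin (k + 1) → Fin m) :
    splitFirst k m x = (fun i => x i.succ, x 0) := rfl

lemma pureMat_split {k m : ℕ} (g : Fin (k + 1) → Matrix (Fin m) (Fin m) F) :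
    Matrix.reindex (splitFirst k m) (splitFirst k m) (pureMat g) =
      pureMat (fun i => g i.succ) ⊗ₖ g 0 := by
  ext ⟨x, a⟩ ⟨y, b⟩
  simp [pureMat, splitFirst, Fin.prod_univ_succ, mul_comm]

/-- An invertible form invariant under `S` in every slot is a multiple of a tensor power. -/
theorem exists_pureMat_of_invariant {σ : F →+* F} {m : ℕ} (hm : 0 < m) {S : Set (Matrix (Fin m) (Fin m) F)}
    (hS : ∀ C : Matrix (Fin m) (Fin m) F, (∀ b ∈ S, C * b = b * C) → ∃ c : F, C = c • 1) :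
    ∀ (k : ℕ) (G : Matrix (Fin k → Fin m) (Fin k → Fin m) F), IsUnit G.det →
      (∀ i, ∀ b ∈ S, (pureMat (Pi.mulSingle i b))ᵀ * G * (pureMat (Pi.mulSingle i b)).map σ = G) →
      0 < k → ∃ (G₀ : Matrix (Fin m) (Fin m) F) (c : F),
        c ≠ 0 ∧ IsUnit G₀.det ∧ InvGram σ S G₀ ∧ G = c • pureMat (fun _ => G₀) := by
  haveI : Nonempty (Fin m) := ⟨⟨0, hm⟩⟩
  intro k
  induction k with
  | zero => exact fun _ _ _ h => absurd h (lt_irrefl 0)
  | succ k ih =>
    intro G hG hinv _
    let e := splitFirst k m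
    let R : Matrix (Fin (k + 1) → Fin m) (Fin (k + 1) → Fin m) F → _ := Matrix.reindex e e
    have hR : ∀ i, ∀ b ∈ S, (R (pureMat (Pi.mulSingle i b)))ᵀ * R G *
        (R (pureMat (Pi.mulSingle i b))).map σ = R G := by
      intro i b hb
      conv_rhs => rw [← hinv i b hb]
      simp [R, Matrix.submatrix_mul_equiv, Matrix.transpose_submatrix, ← Matrix.submatrix_map]
    have h0 : ∀ b ∈ S, ((1 : Matrix (Fin k → Fin m) (Fin k → Fin m) F) ⊗ₖ b)ᵀ * R G *
        ((1 : Matrix (Fin k → Fin m) (Fin k → Fin m) F) ⊗ₖ b).map σ = R G := by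
      intro b hb
      have h := hR 0 b hb
      have e1 : (fun i : Fin k => (Pi.mulSingle 0 b : Fin (k + 1) → Matrix (Fin m) (Fin m) F) i.succ) = 1 :=
        funext fun i => Pi.mulSingle_eq_of_ne (Fin.succ_ne_zero i) b
      simp only [R, e, pureMat_split, Pi.mulSingle_eq_same, e1, pureMat_one] at h
      exact h
    obtain ⟨C, G₀, hC, hG₀, hinv₀, hsplit⟩ := exists_kronecker_of_invariant hS
      (G := R G) (by simpa [R] using hG) h0
    have hback : ∀ (c : F) (A : Matrix (Fin k → Fin m) (Fin k → Fin m) F),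
        (∀ x y, A x y = c * ∏ i, G₀ (x i) (y i)) → C = A → G = c • pureMat (fun _ => G₀) := by
      intro c A hA hCA
      apply (Matrix.reindex e e).injective
      show R G = Matrix.reindex e e (c • pureMat fun _ => G₀)
      rw [hsplit, hCA, show Matrix.reindex e e (c • pureMat fun _ => G₀) =
        c • Matrix.reindex e e (pureMat fun _ => G₀) from rfl, pureMat_split]
      ext ⟨x, a⟩ ⟨y, b⟩
      simp [hA, pureMat, mul_assoc]
    rcases Nat.eq_zero_or_pos k with rfl | hk
    · let z : Fin 0 → Fin m := Fin.elim0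
      refine ⟨G₀, C z z, fun h => hC.ne_zero ?_, hG₀, hinv₀, hback _ C (fun x y => ?_) rfl⟩
      · rw [Matrix.det_unique]; rw [Subsingleton.elim (default : Fin 0 → Fin m) z]; exact h
      · rw [Subsingleton.elim x z, Subsingleton.elim y z, Fin.prod_univ_zero, mul_one]
    have hCinv : ∀ i, ∀ b ∈ S,
        (pureMat (Pi.mulSingle i b))ᵀ * C * (pureMat (Pi.mulSingle i b)).map σ = C := by
      intro i b hb
      have h := hR i.succ b hb
      have e1 : (fun j : Fin k => (Pi.mulSingle i.succ b : Fin (k + 1) → Matrix (Fin m) (Fin m) F) j.succ) =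
          Pi.mulSingle i b := funext fun j => by
        by_cases hji : j = i
        · subst hji; simp
        · simp [hji, Fin.succ_inj]
      have e2 : (Pi.mulSingle i.succ b : Fin (k + 1) → Matrix (Fin m) (Fin m) F) 0 = 1 :=
        Pi.mulSingle_eq_of_ne (Fin.succ_ne_zero i).symm b
      simp only [R, e, pureMat_split, e1, e2] at h
      rw [show Matrix.reindex (splitFirst k m) (splitFirst k m) G = C ⊗ₖ G₀ from hsplit] at h
      rw [← Matrix.kroneckerMap_transpose, ← Matrix.mul_kronecker_mul,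
        show ((pureMat (Pi.mulSingle i b) : Matrix (Fin k → Fin m) (Fin k → Fin m) F) ⊗ₖ
            (1 : Matrix (Fin m) (Fin m) F)).map σ = (pureMat (Pi.mulSingle i b)).map σ ⊗ₖ
            (1 : Matrix (Fin m) (Fin m) F).map σ from Matrix.ext fun _ _ => map_mul σ _ _,
        ← Matrix.mul_kronecker_mul] at h
      simp only [Matrix.transpose_one, Matrix.one_mul, Matrix.map_one, map_zero, map_one, Matrix.mul_one] at h
      obtain ⟨p, q, hpq⟩ : ∃ p q, G₀ p q ≠ 0 := by
        by_contra hall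
        push Not at hall
        exact hG₀.ne_zero (by rw [show G₀ = 0 from Matrix.ext hall]; exact Matrix.det_zero)
      ext x y
      exact mul_right_cancel₀ hpq (congrFun (congrFun h (x, p)) (y, q))
    obtain ⟨G₁, c, hc, hG₁, hinv₁, hCeq⟩ := ih C hC hCinv hk
    obtain ⟨d, hd⟩ := hinv₀.exists_smul hS hG₀ hinv₁
    have hd0 : d ≠ 0 := fun h => hG₁.ne_zero (by rw [hd, h, zero_smul]; exact Matrix.det_zero)
    refine ⟨G₀, c * d ^ k, mul_ne_zero hc (pow_ne_zero _ hd0), hG₀, hinv₀, hback _ _ (fun x y => ?_) hCeq⟩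
    simp [pureMat, hd, Finset.prod_mul_distrib, mul_assoc]

end Power

end CfsgLib.SmallDim
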