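import Cfsg.Agent.Lib.SmallDim.GenericCases

/-!
# Forms fixed by symplectic-type groups

Averaging gives an invariant form, non-zero by trace orthogonality.
-/

set_option autoImplicit false

namespace CfsgLib.SmallDim

open scoped MatrixGroups Matrix
open Cfsg.Geo

variable {ι : Type} [Fintype ι] [DecidableEq ι] {F : Type*} [Field F] [Finite F]

/-- A symplectic-type group whose central values have norm one for the involution `σ` (possibly
trivial) fixes a non-degenerate form, hermitian up to a constant. -/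
theorem SymplGen.exists_gram [Nonempty ι] {H R : Subgroup (GL ι F)} {r m : ℕ}
    (h : SymplGen H R r m) {σ : F ≃+* F} (hσ : ∀ a, σ (σ a) = a)
    (hz : ∀ s : F, s ^ Nat.card (Subgroup.center R) = 1 → s * σ s = 1) :
    ∃ (G : Matrix ι ι F) (c : F), IsUnit G.det ∧ (G.map σ)ᵀ = c • G ∧ c * σ c = 1 ∧
      ∀ x ∈ matrixSet R, xᵀ * G * x.map σ = G := by
  classical
  have : Fintype R := Fintype.ofFinite R
  let X : R → Matrix ι ι F := fun x => ((x : GL ι F) : Matrix ι ι F)
  let A : Matrix ι ι F → Matrix ι ι F := fun M => ∑ x : R, (X x)ᵀ * M * (X x).map σ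
  have hA : ∀ M, ∀ s ∈ matrixSet R, sᵀ * A M * s.map σ = A M := by
    rintro M _ ⟨g, hg, rfl⟩
    simp only [A, Finset.mul_sum, Finset.sum_mul]
    refine Fintype.sum_equiv (Equiv.mulRight (⟨g, hg⟩ : R)) _ _ fun x => ?_
    simp only [X, Equiv.coe_mulRight, Subgroup.coe_mul, Units.val_mul, Matrix.transpose_mul,
      Matrix.map_mul, mul_assoc]
  obtain ⟨G₀, hG₀⟩ : ∃ M, A M ≠ 0 := by
    by_contra hall
    push Not at hall
    have h1 : ∀ a b : ι, ∑ x : R, X x a a * σ (X x b b) = 0 := fun a b => by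
      have := congrFun (congrFun (hall (Matrix.single a b 1)) a) b
      simp [A, Matrix.sum_apply, Matrix.mul_apply, Matrix.single_apply, ite_and] at this
      exact this
    have h2 : ∑ x : R, Matrix.trace (X x) * σ (Matrix.trace (X x)) = 0 := by
      simp only [Matrix.trace, Matrix.diag, map_sum, Finset.sum_mul, Finset.mul_sum]
      rw [Finset.sum_comm]
      refine Finset.sum_eq_zero fun a _ => ?_
      rw [Finset.sum_comm]
      exact Finset.sum_eq_zero fun b _ => h1 _ _
    have h3 : ∀ x : R, Matrix.trace (X x) * σ (Matrix.trace (X x)) =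
        if x ∈ Subgroup.center R then (Fintype.card ι : F) * Fintype.card ι else 0 := by
      intro x
      split
      · next hx =>
        obtain ⟨s, hs, hs'⟩ := h.scalar_pow x x.2 ((h.mem_scalars_iff_mem_center x).2 hx)
        simp only [X, hs, Matrix.trace_smul, Matrix.trace_one, smul_eq_mul, map_mul, map_natCast]
        calc s * (Fintype.card ι : F) * (σ s * Fintype.card ι)
            = (s * σ s) * (Fintype.card ι * Fintype.card ι) := by ring
          _ = _ := by rw [hz s hs', one_mul]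
      · next hx =>
        simp only [X, h.trace_eq_zero x x.2 (fun hs => hx ((h.mem_scalars_iff_mem_center x).1 hs)),
          zero_mul]
    rw [Finset.sum_congr rfl fun x _ => h3 x, Finset.sum_ite, Finset.sum_const_zero, add_zero,
      Finset.sum_const, nsmul_eq_mul] at h2
    obtain ⟨s, hs⟩ := h.hasRoot
    have hne : NeZero (Nat.card (Subgroup.center R)) := ⟨Nat.card_pos.ne'⟩
    have hzne := hs.neZero'
    rw [← Fintype.card_subtype, ← Nat.card_eq_fintype_card] at h2
    rcases mul_eq_zero.1 h2 with h4 | h4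
    · exact hzne.out h4
    · exact mul_ne_zero h.card_ne_zero h.card_ne_zero h4
  set G := A G₀ with hG
  have hinv : ∀ s ∈ matrixSet R, sᵀ * G * s.map σ = G := hA G₀
  have hdet : IsUnit G.det := by
    rw [← Matrix.isUnit_iff_isUnit_det, ← Matrix.mulVec_injective_iff_isUnit]
    let W : Submodule F (ι → F) :=
      { carrier := {v | G *ᵥ (σ ∘ v) = 0}
        add_mem' := fun {a b} ha hb => by
          show G *ᵥ (σ ∘ (a + b)) = 0
          rw [show σ ∘ (a + b) = σ ∘ a + σ ∘ b from funext fun i => map_add σ _ _, Matrix.mulVec_add,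
            ha, hb, add_zero]
        zero_mem' := by
          show G *ᵥ (σ ∘ (0 : ι → F)) = 0
          rw [show σ ∘ (0 : ι → F) = 0 from funext fun i => map_zero σ, Matrix.mulVec_zero]
        smul_mem' := fun c v hv => by
          show G *ᵥ (σ ∘ (c • v)) = 0
          rw [show σ ∘ (c • v) = σ c • (σ ∘ v) from funext fun i => map_mul σ _ _, Matrix.mulVec_smul,
            hv, smul_zero] }
    have hW : W = ⊥ := by
      refine (actsIrreducibly_iff.1 h.absIrred.1 W fun g hg v hv => ?_).resolve_right fun ht => ?_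
      · show G *ᵥ (σ ∘ ((g : Matrix ι ι F) *ᵥ v)) = 0
        rw [show σ ∘ ((g : Matrix ι ι F) *ᵥ v) = (g : Matrix ι ι F).map σ *ᵥ (σ ∘ v) from
          map_mulVec_comp (σ : F →+* F) _ v, Matrix.mulVec_mulVec]
        have h1 := hinv _ (coe_mem_matrixSet hg)
        have h2 : G * (g : Matrix ι ι F).map σ = (((g⁻¹ : GL ι F) : Matrix ι ι F))ᵀ * G := by
          calc G * (g : Matrix ι ι F).map σ
              = (((g⁻¹ : GL ι F) : Matrix ι ι F))ᵀ * ((g : Matrix ι ι F)ᵀ * G * (g : Matrix ι ι F).map σ) := by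
                simp only [← mul_assoc]
                rw [← Matrix.transpose_mul, Units.mul_inv, Matrix.transpose_one, one_mul]
            _ = _ := by rw [h1]
        rw [h2, ← Matrix.mulVec_mulVec, hv, Matrix.mulVec_zero]
      · apply hG₀
        apply Matrix.ext_of_mulVec_single
        intro i
        have : (Pi.single i 1 : ι → F) ∈ W := ht ▸ Submodule.mem_top
        have h1 : σ ∘ (Pi.single i 1 : ι → F) = Pi.single i 1 := by
          funext j; by_cases hj : j = i <;> simp [hj]
        have h2 : G *ᵥ (σ ∘ (Pi.single i 1 : ι → F)) = 0 := this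
        rw [h1] at h2
        rw [h2, Matrix.zero_mulVec]
    intro u v huv
    have hmem : σ.symm ∘ (u - v) ∈ W := by
      show G *ᵥ (σ ∘ (σ.symm ∘ (u - v))) = 0
      rw [show σ ∘ (σ.symm ∘ (u - v)) = u - v from funext fun i => σ.apply_symm_apply _,
        Matrix.mulVec_sub, sub_eq_zero]
      exact huv
    rw [hW, Submodule.mem_bot] at hmem
    funext i
    have := congrFun hmem i
    simp only [Function.comp_apply, Pi.zero_apply, map_eq_zero_iff _ σ.symm.injective, Pi.sub_apply,
      sub_eq_zero] at this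
    exact this
  have hmm : ∀ M : Matrix ι ι F, (M.map σ).map σ = M := fun M => Matrix.ext fun i j => hσ _
  set G' := (G.map σ)ᵀ with hG'
  have hinv' : ∀ x ∈ matrixSet R, xᵀ * G' * x.map σ = G' := by
    intro x hx
    have h1 := congrArg (fun M => (M.map σ)ᵀ) (hinv x hx)
    simp only [Matrix.map_mul, ← Matrix.transpose_map, hmm, Matrix.transpose_mul, Matrix.transpose_transpose,
      ← mul_assoc] at h1
    rw [hG', ← Matrix.transpose_map]
    exact h1
  obtain ⟨c', hc'⟩ := h.absIrred.2 ((G⁻¹ * G').map σ) (by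
    intro x hx
    have hxu : IsUnit ((xᵀ).det) := by
      obtain ⟨g, -, rfl⟩ := hx
      rw [Matrix.det_transpose]
      exact (Matrix.isUnit_iff_isUnit_det _).1 g.isUnit
    have e1 : G * x.map σ = (xᵀ)⁻¹ * G := by
      conv_rhs => rw [← hinv x hx, mul_assoc, Matrix.nonsing_inv_mul_cancel_left _ _ hxu]
    have e2 : G' * x.map σ = (xᵀ)⁻¹ * G' := by
      conv_rhs => rw [← hinv' x hx, mul_assoc, Matrix.nonsing_inv_mul_cancel_left _ _ hxu]
    have e3 : (G⁻¹ * G') * x.map σ = x.map σ * (G⁻¹ * G') := by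
      rw [mul_assoc, e2, ← mul_assoc (x.map σ), ← mul_assoc G⁻¹]
      congr 1
      calc G⁻¹ * (xᵀ)⁻¹ = G⁻¹ * ((xᵀ)⁻¹ * G) * G⁻¹ := by
            rw [mul_assoc, mul_assoc, Matrix.mul_nonsing_inv _ hdet, mul_one]
        _ = x.map σ * G⁻¹ := by rw [← e1, Matrix.nonsing_inv_mul_cancel_left _ _ hdet]
    have := congrArg (fun M : Matrix ι ι F => M.map σ) e3
    simp only [Matrix.map_mul, hmm] at this
    simpa only [Matrix.map_mul] using this)
  refine ⟨G, σ c', hdet, ?_, ?_, hinv⟩
  · have := congrArg (fun M : Matrix ι ι F => M.map σ) hc'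
    simp only [hmm] at this
    rw [show (c' • (1 : Matrix ι ι F)).map σ = σ c' • 1 by
      ext i j; by_cases hij : i = j <;> simp [hij]] at this
    calc G' = G * (G⁻¹ * G') := (Matrix.mul_nonsing_inv_cancel_left _ _ hdet).symm
      _ = σ c' • G := by rw [this, Matrix.mul_smul, mul_one]
  · have hG'' : G' = σ c' • G := by
      have := congrArg (fun M : Matrix ι ι F => M.map σ) hc'
      simp only [hmm] at this
      rw [show (c' • (1 : Matrix ι ι F)).map σ = σ c' • 1 by
        ext i j; by_cases hij : i = j <;> simp [hij]] at this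
      calc G' = G * (G⁻¹ * G') := (Matrix.mul_nonsing_inv_cancel_left _ _ hdet).symm
        _ = σ c' • G := by rw [this, Matrix.mul_smul, mul_one]
    obtain ⟨i, j, hij⟩ : ∃ i j, G i j ≠ 0 := by
      by_contra hall
      push Not at hall
      exact hG₀ (Matrix.ext hall)
    have e1 := congrFun (congrFun hG'' i) j
    have e2 := congrArg σ (congrFun (congrFun hG'' j) i)
    simp only [hG', Matrix.transpose_apply, Matrix.map_apply, Matrix.smul_apply, smul_eq_mul, map_mul,
      hσ] at e1 e2
    rw [e1] at e2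
    apply mul_right_cancel₀ hij
    rw [hσ, one_mul]
    calc σ c' * c' * G i j = c' * (σ c' * G i j) := by ring
      _ = G i j := e2.symm

/-- The form with Gram matrix `G`. -/
def gramForm (σ : F → F) (G : Matrix ι ι F) (u v : ι → F) : F := u ⬝ᵥ (G *ᵥ (σ ∘ v))

omit [DecidableEq ι] [Finite F] in
lemma isSesqui_gramForm (σ : F →+* F) (G : Matrix ι ι F) : IsSesqui σ (gramForm σ G) where
  add_left x y v := add_dotProduct _ _ _
  smul_left c x v := by simp [gramForm, smul_dotProduct]
  add_right v x y := by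
    simp only [gramForm]
    rw [show σ ∘ (x + y) = σ ∘ x + σ ∘ y from funext fun i => map_add σ _ _, Matrix.mulVec_add,
      dotProduct_add]
  smul_right c v x := by
    simp only [gramForm]
    rw [show σ ∘ (c • x) = σ c • (σ ∘ x) from funext fun i => map_mul σ _ _, Matrix.mulVec_smul,
      dotProduct_smul, smul_eq_mul]

omit [DecidableEq ι] [Finite F] in
lemma gramForm_herm (σ : F ≃+* F) (hσ : ∀ a, σ (σ a) = a) {G : Matrix ι ι F} {c : F}
    (hG : (G.map σ)ᵀ = c • G) (v w : ι → F) :
    σ (gramForm σ G w v) = c * gramForm σ G v w := by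
  have h : σ (gramForm σ G w v) = (σ ∘ w) ⬝ᵥ ((G.map σ) *ᵥ v) := by
    simp [gramForm, dotProduct, Matrix.mulVec, map_sum, map_mul, hσ, Finset.mul_sum]
  rw [h, Matrix.dotProduct_mulVec, ← Matrix.mulVec_transpose, hG, Matrix.smul_mulVec, smul_dotProduct,
    smul_eq_mul, gramForm, dotProduct_comm]

omit [Finite F] in
lemma isNondegenerateForm_gramForm (σ : F ≃+* F) (hσ : ∀ a, σ (σ a) = a) {G : Matrix ι ι F} {c : F}
    (hG : (G.map σ)ᵀ = c • G) (hc : c ≠ 0) (hdet : IsUnit G.det) :
    IsNondegenerateForm (gramForm σ G) := by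
  intro v hv
  have hne : G *ᵥ (σ ∘ v) ≠ 0 := by
    intro h0
    apply hv
    have hinj := Matrix.mulVec_injective_iff_isUnit.2 ((Matrix.isUnit_iff_isUnit_det G).2 hdet)
    have h1 := hinj (h0.trans (Matrix.mulVec_zero G).symm)
    funext i
    exact (map_eq_zero_iff σ σ.injective).1 (congrFun h1 i)
  obtain ⟨i, hi⟩ := Function.ne_iff.1 hne
  have h1 : gramForm σ G (Pi.single i 1) v ≠ 0 := by
    rw [gramForm, single_dotProduct, one_mul]; exact hi
  refine ⟨⟨_, h1⟩, ⟨Pi.single i 1, fun h2 => h1 ?_⟩⟩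
  have := gramForm_herm σ hσ hG (Pi.single i 1) v
  rw [h2, map_zero] at this
  exact (mul_eq_zero.1 this.symm).resolve_left hc

omit [Finite F] in
lemma fixesForm_gramForm (σ : F ≃+* F) {G : Matrix ι ι F} {S : Set (Matrix ι ι F)}
    (h : ∀ x ∈ S, xᵀ * G * x.map σ = G) : FixesForm S (gramForm σ G) := by
  intro x hx u v
  simp only [gramForm]
  rw [show σ ∘ (x *ᵥ v) = x.map σ *ᵥ (σ ∘ v) from map_mulVec_comp (σ : F →+* F) _ v,
    Matrix.mulVec_mulVec, ← Matrix.vecMul_transpose x u, ← Matrix.dotProduct_mulVec,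
    Matrix.mulVec_mulVec, ← mul_assoc, h x hx]

/-- A symplectic-type group whose central values have norm one for an involution fixes a unitary form. -/
theorem SymplGen.exists_unitaryForm [Nonempty ι] {H R : Subgroup (GL ι F)} {r m : ℕ}
    (h : SymplGen H R r m) {σ : F ≃+* F} (hne : σ ≠ RingEquiv.refl F) (hσ : ∀ a, σ (σ a) = a)
    (hz : ∀ s : F, s ^ Nat.card (Subgroup.center R) = 1 → s * σ s = 1) :
    ∃ f : (ι → F) → (ι → F) → F, IsUnitaryForm σ f ∧ FixesForm (matrixSet R) f := by
  obtain ⟨G, c, hdet, hG, hc, hinv⟩ := h.exists_gram hσ hz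
  have hc0 : c ≠ 0 := left_ne_zero_of_mul_eq_one hc
  obtain ⟨μ, hμ0, hμ⟩ : ∃ μ : F, μ ≠ 0 ∧ σ μ * c = μ := by
    by_cases h1 : 1 + c = 0
    · obtain ⟨a, ha⟩ : ∃ a, σ a ≠ a := by
        by_contra hall
        push Not at hall
        exact hne (RingEquiv.ext hall)
      refine ⟨a - σ a, sub_ne_zero.2 (Ne.symm ha), ?_⟩
      rw [map_sub, hσ, show c = -1 by linear_combination h1]
      ring
    · refine ⟨1 + c, h1, ?_⟩
      rw [map_add, map_one]
      linear_combination hc
  have hG' : ((μ • G).map σ)ᵀ = (1 : F) • (μ • G) := by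
    rw [one_smul, show (μ • G).map σ = σ μ • G.map σ from Matrix.ext fun i j => map_mul σ _ _,
      Matrix.transpose_smul, hG, smul_smul, hμ]
  have hinv' : ∀ x ∈ matrixSet R, xᵀ * (μ • G) * x.map σ = μ • G := fun x hx => by
    rw [Matrix.mul_smul, Matrix.smul_mul, hinv x hx]
  have hdet' : IsUnit (μ • G).det := by
    rw [Matrix.det_smul]; exact (IsUnit.pow _ (Ne.isUnit hμ0)).mul hdet
  have hs := isSesqui_gramForm (σ : F →+* F) (μ • G)
  refine ⟨gramForm σ (μ • G), ⟨hne, hσ, hs.add_left, hs.smul_left, fun v w => ?_,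
    isNondegenerateForm_gramForm σ hσ hG' one_ne_zero hdet'⟩, fixesForm_gramForm σ hinv'⟩
  rw [gramForm_herm σ hσ hG', one_mul]

/-- A symplectic-type group with centre of order two fixes a quadratic or symplectic form. -/
theorem SymplGen.exists_orthogonal_or_symplectic [Nonempty ι] {H R : Subgroup (GL ι F)} {r m : ℕ}
    (h : SymplGen H R r m) (hz : Nat.card (Subgroup.center R) = 2) :
    (2 : F) ≠ 0 ∧ ((∃ Q : (ι → F) → F, IsNondegenerateQuadraticForm Q ∧ FixesQuadForm (matrixSet R) Q) ∨
      ∃ f : (ι → F) → (ι → F) → F, IsSymplecticForm f ∧ FixesForm (matrixSet R) f) := by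
  obtain ⟨s, hs⟩ := h.hasRoot
  rw [hz] at hs
  have h2 : (2 : F) ≠ 0 := by
    have : NeZero (2 : ℕ) := ⟨two_ne_zero⟩
    have := hs.neZero'
    exact_mod_cast this.ne
  refine ⟨h2, ?_⟩
  obtain ⟨G, c, hdet, hG, hc, hinv⟩ := h.exists_gram (σ := RingEquiv.refl F) (fun a => rfl)
    (fun s hs' => by rw [hz] at hs'; show s * s = 1; rw [← pow_two, hs'])
  have hb := isSesqui_gramForm ((RingEquiv.refl F : F ≃+* F) : F →+* F) G
  have hbil : IsBilinearForm (gramForm (RingEquiv.refl F) G) :=
    ⟨hb.add_left, hb.smul_left, hb.add_right, fun c v x => hb.smul_right c v x⟩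
  have hswap : ∀ v w, gramForm (RingEquiv.refl F) G w v = c * gramForm (RingEquiv.refl F) G v w :=
    gramForm_herm (RingEquiv.refl F) (fun a => rfl) hG
  have hnd := isNondegenerateForm_gramForm (RingEquiv.refl F) (fun a => rfl) hG
    (left_ne_zero_of_mul_eq_one hc) hdet
  have hfix := fixesForm_gramForm (RingEquiv.refl F) hinv
  rcases mul_self_eq_one_iff.1 (show c * c = 1 from hc) with rfl | rfl
  · left
    refine ⟨fun v => gramForm (RingEquiv.refl F) G v v, ?_, fun x hx v => hfix x hx v v⟩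
    have hpol : ∀ u v, QuadraticMap.polar (fun v => gramForm (RingEquiv.refl F) G v v) u v =
        2 * gramForm (RingEquiv.refl F) G u v := by
      intro u v
      simp only [QuadraticMap.polar, hbil.add_left, hbil.add_right]
      rw [hswap u v]
      ring
    refine ⟨fun a v => ?_, ⟨?_, ?_, ?_, ?_⟩, fun v hv => ?_⟩
    · simp only [hbil.smul_left, hbil.smul_right]; ring
    · intro x y v; simp only [hpol, hbil.add_left]; ring
    · intro a x v; simp only [hpol, hbil.smul_left]; ring
    · intro v x y; simp only [hpol, hbil.add_right]; ring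
    · intro a v x; simp only [hpol, hbil.smul_right]; ring
    · obtain ⟨⟨x, hx⟩, ⟨y, hy⟩⟩ := hnd v hv
      exact ⟨⟨x, by rw [hpol]; exact mul_ne_zero h2 hx⟩, ⟨y, by rw [hpol]; exact mul_ne_zero h2 hy⟩⟩
  · right
    refine ⟨gramForm (RingEquiv.refl F) G, ⟨hbil, fun v w => ?_, fun v => ?_, hnd⟩, hfix⟩
    · rw [hswap w v, neg_one_mul]
    · have h1 := hswap v v
      rw [neg_one_mul, eq_neg_iff_add_eq_zero, ← two_mul] at h1
      exact (mul_eq_zero.1 h1).resolve_left h2

end CfsgLib.SmallDim
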