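import Cfsg.Agent.Lib.SmallDim.Subfield
import Cfsg.Agent.Lib.SmallDim.TensorWreathClass
import Cfsg.Agent.Lib.SmallDim.SymplForm

/-!
# Aschbacher's theorem for linear groups in any dimension
-/

set_option autoImplicit false
set_option linter.style.haveILetI false

namespace CfsgLib.SmallDim

open scoped MatrixGroups Matrix
open Cfsg.Geo

variable {n : ℕ} {F : Type*} [Field F] [Fintype F]

lemma two_eq_zero_iff_not_odd_card : (2 : F) = 0 ↔ ¬ Odd (Fintype.card F) := by
  rw [Nat.not_odd_iff_even, Nat.even_iff, ← FiniteField.even_card_iff_char_two]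
  constructor
  · intro h
    haveI := ringChar.charP F
    have h1 : (ringChar F) ∣ 2 := (ringChar.spec F 2).1 (by exact_mod_cast h)
    rcases (Nat.dvd_prime Nat.prime_two).1 h1 with h2 | h2
    · exact absurd h2 CharP.ringChar_ne_one
    · exact h2
  · intro h
    have := ringChar.Nat.cast_ringChar (R := F)
    rw [h] at this
    exact_mod_cast this

/-- A group normalising an absolutely irreducible group fixing a form lies in a class-8 group. -/
lemma inLinearGeom_of_fixed_form (hn : 3 ≤ n) {H N : Subgroup (GL (Fin n) F)} (hN : NormalIn N H)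
    (habs : ActsAbsolutelyIrreducibly (matrixSet N))
    (hform : (∃ Q : (Fin n → F) → F, IsNondegenerateQuadraticForm Q ∧ FixesQuadForm (matrixSet N) Q) ∨
      (∃ f : (Fin n → F) → (Fin n → F) → F, IsSymplecticForm f ∧ FixesForm (matrixSet N) f) ∨
      ∃ (σ : F ≃+* F) (f : (Fin n → F) → (Fin n → F) → F), IsUnitaryForm σ f ∧ FixesForm (matrixSet N) f) :
    ∃ M, InLinearGeom n F M ∧ H ≤ M := by
  classical
  have hsym : ∀ f : (Fin n → F) → (Fin n → F) → F, IsSymplecticForm f → FixesForm (matrixSet N) f →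
      ∃ M, InLinearGeom n F M ∧ H ≤ M := by
    intro f hf hfix
    have hev : Even n := by
      by_contra hodd
      exact no_alternating_odd (by simpa using Nat.not_even_iff_odd.1 hodd) hf.bilinear hf.alternating
        hf.nondegenerate
    refine ⟨_, Or.inr (Or.inr (Or.inr (Or.inr (Or.inr (Or.inr (Or.inl
      ⟨f, hf, hev, ?_, rfl⟩)))))), ?_⟩
    · obtain ⟨k, hk⟩ := hev
      omega
    · exact le_similarityGroup Function.surjective_id (IsSesqui.of_bilinear hf.bilinear)
        hf.nondegenerate hN habs hfix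
  rcases hform with ⟨Q, hQ, hfix⟩ | ⟨f, hf, hfix⟩ | ⟨σ, f, hf, hfix⟩
  · by_cases h2 : (2 : F) = 0
    · exact hsym _ (isSymplecticForm_polar_of_two_eq_zero h2 hQ) (fixesForm_polar hfix)
    · exact ⟨_, Or.inr (Or.inr (Or.inr (Or.inr (Or.inr (Or.inr (Or.inr (Or.inr
        ⟨Q, hQ, not_not.1 (fun h => h2 (two_eq_zero_iff_not_odd_card.2 h)), hn, rfl⟩))))))),
        (le_similarityGroup Function.surjective_id (IsSesqui.of_bilinear hQ.polar_bilinear)
          hQ.nondegenerate hN habs (fixesForm_polar hfix)).trans (similarityGroup_polar_le hQ h2)⟩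
  · exact hsym f hf hfix
  · exact ⟨_, Or.inr (Or.inr (Or.inr (Or.inr (Or.inr (Or.inr (Or.inr (Or.inl
      ⟨σ, f, hf, hn, rfl⟩))))))),
      le_similarityGroup σ.surjective (IsSesqui.of_unitary hf) hf.nondegenerate hN habs hfix⟩

/-- A group normalising an absolutely irreducible group realisable over a proper subfield lies in a
subfield group. -/
lemma inLinearGeom_of_realisable (hn : 3 ≤ n) {H N : Subgroup (GL (Fin n) F)} (hN : NormalIn N H)
    (habs : ActsAbsolutelyIrreducibly (matrixSet N)) {K : Subfield F} (hK : K ≠ ⊤)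
    (hreal : RealisableOver K (matrixSet N)) : ∃ M, InLinearGeom n F M ∧ H ≤ M := by
  haveI : Nonempty (Fin n) := ⟨⟨0, by omega⟩⟩
  obtain ⟨B, hB⟩ := hreal
  obtain ⟨K₁, r, hr, hle, hcard⟩ := exists_prime_index_overfield hK
  exact ⟨_, Or.inr (Or.inr (Or.inr (Or.inr (Or.inl
    ⟨K₁, r, B⁻¹, hr, hcard, rfl⟩)))), le_subfieldSubgroup hN habs fun s hs i j => hle (hB s hs i j)⟩

/-- A symplectic-type normal subgroup gives a geometric class. -/
lemma symplGen_cases (hn : 3 ≤ n) {H R : Subgroup (GL (Fin n) F)} {r m : ℕ}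
    (hR : SymplGen H R r m) : (∃ M, InLinearGeom n F M ∧ H ≤ M) ∨
      (IsLinearSymplecticTypeData r R ∧ n = r ^ m ∧ H ≤ subgroupNormalizer R) := by
  classical
  haveI : Nonempty (Fin n) := ⟨⟨0, by omega⟩⟩
  obtain ⟨z, hz⟩ : ∃ z, Nat.card (Subgroup.center R) = z := ⟨_, rfl⟩
  have hcc := hR.center_cases
  rw [hz] at hcc
  obtain ⟨p, hchar⟩ := CharP.exists F
  obtain ⟨⟨e, he0⟩, hp, hq⟩ := FiniteField.card F p
  change Fintype.card F = p ^ e at hq
  haveI := Fact.mk hp
  obtain ⟨ν, hν⟩ := hR.hasRoot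
  rw [hz] at hν
  have hzpos : 0 < z := hz ▸ Nat.card_pos
  have hν0 : ν ≠ 0 := hν.ne_zero hzpos.ne'
  have hdvd : z ∣ p ^ e - 1 := by
    rw [← hq]
    exact hν.dvd_of_pow_eq_one _ (FiniteField.pow_card_sub_one_eq_one ν hν0)
  have hr := hR.sympType.prime
  have hrz : r ∣ z := by
    rcases hcc with ⟨-, h⟩ | ⟨rfl, h | h⟩ <;> rw [h]
    exact (by norm_num : 2 ∣ 4)
  have hrp : r ≠ p := by
    rintro rfl
    have h1 : r ∣ r ^ e := dvd_pow_self r he0.ne'
    have h2 : r ∣ 1 := by
      have := Nat.dvd_sub h1 (hrz.trans hdvd)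
      have hpe : 1 ≤ r ^ e := Nat.one_le_pow _ _ hp.pos
      rwa [show r ^ e - (r ^ e - 1) = 1 by omega] at this
    exact hp.ne_one (Nat.dvd_one.1 h2)
  -- a smaller field suffices, or the field is minimal
  by_cases hmin : ∀ d, 0 < d → d < e → ¬ z ∣ p ^ d - 1
  swap
  · push Not at hmin
    obtain ⟨d, hd, hde, hdd⟩ := hmin
    refine Or.inl (inLinearGeom_of_realisable hn hR.normal hR.absIrred (K := fixedField p d) ?_
      (realisableOver_of_trace hR.absIrred fun g hg => ?_))
    · intro htop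
      obtain ⟨g, hg⟩ := IsCyclic.exists_generator (α := Fˣ)
      have hg' : (g : F) ^ p ^ d = g := mem_fixedField.mp (htop ▸ Subfield.mem_top (g : F))
      have h1 : g ^ (p ^ d - 1) = 1 := by
        apply mul_right_cancel (b := g)
        rw [← pow_succ, Nat.sub_add_cancel (Nat.one_le_pow _ _ hp.pos), one_mul]
        exact Units.ext (by rw [Units.val_pow_eq_pow_val]; exact hg')
      have h2 := orderOf_dvd_of_pow_eq_one h1
      rw [orderOf_eq_card_of_forall_mem_zpowers hg, Nat.card_units, Nat.card_eq_fintype_card, hq] at h2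
      have h3 : p ^ d < p ^ e := Nat.pow_lt_pow_right hp.one_lt hde
      have h4 : 1 < p ^ d := Nat.one_lt_pow hd.ne' hp.one_lt
      have := Nat.le_of_dvd (by omega) h2
      omega
    · by_cases hgs : g ∈ scalars (Fin n) F
      · obtain ⟨s, hs, hs'⟩ := hR.scalar_pow g hg hgs
        rw [hs, Matrix.trace_smul, Matrix.trace_one, smul_eq_mul]
        refine Subfield.mul_mem _ ?_ (natCast_mem _ _)
        obtain ⟨k, hk⟩ := hdd
        rw [hz] at hs'
        rw [mem_fixedField, show p ^ d = z * k + 1 by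
          have := Nat.one_le_pow d p hp.pos; omega, pow_succ, pow_mul, hs', one_pow, one_mul]
      · rw [hR.trace_eq_zero g hg hgs]; exact Subfield.zero_mem _
  have hnm : n = r ^ m := by simpa using hR.dim
  have hm : 1 ≤ m := Nat.pos_of_ne_zero fun h => by rw [h, pow_zero] at hnm; omega
  -- unitary case for even `e`
  have hunit : Odd r ∨ z = 4 → Even e → ∃ M, InLinearGeom n F M ∧ H ≤ M := by
    intro hcases ⟨k, hk⟩
    have hk0 : 0 < k := by omega
    have hnot := hmin k hk0 (by omega)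
    have hplus : z ∣ p ^ k + 1 := by
      have h1 : p ^ e - 1 = (p ^ k + 1) * (p ^ k - 1) := by
        rw [hk, pow_add, ← pow_two]
        simpa using Nat.sq_sub_sq (p ^ k) 1
      rcases hcc with ⟨-, hzr⟩ | ⟨hr2, hz24⟩
      · rw [h1] at hdvd
        rw [hzr] at hdvd hnot ⊢
        exact (hr.dvd_mul.mp hdvd).resolve_right hnot
      · have h4 : z = 4 := by
          rcases hcases with hodd | h4
          · rw [hr2] at hodd; exact absurd hodd (by decide)
          · exact h4
        rw [h4] at hnot ⊢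
        have hpodd : Odd (p ^ k) := (hp.odd_of_ne_two (fun h => hrp (hr2.trans h.symm))).pow
        obtain ⟨j, hj⟩ := hpodd
        omega
    obtain ⟨σ, hσ⟩ : ∃ σ : F ≃+* F, ∀ x, σ x = x ^ p ^ k :=
      ⟨RingEquiv.ofBijective (iterateFrobenius F p k)
        (Finite.injective_iff_bijective.mp (iterateFrobenius F p k).injective),
        fun x => iterateFrobenius_def p k x⟩
    have hne : σ ≠ RingEquiv.refl F := by
      intro he
      have h1 : ν ^ p ^ k = ν := by rw [← hσ, he, RingEquiv.refl_apply]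
      apply hnot
      refine hν.dvd_of_pow_eq_one _ (mul_right_cancel₀ hν0 ?_)
      rw [← pow_succ, Nat.sub_add_cancel (Nat.one_le_pow _ _ hp.pos), one_mul, h1]
    have hinv : ∀ a, σ (σ a) = a := fun a => by
      rw [hσ, hσ, ← pow_mul, ← pow_add, ← hk, ← hq, FiniteField.pow_card]
    obtain ⟨f, hf, hfix⟩ := hR.exists_unitaryForm hne hinv fun s hs => by
      rw [hz] at hs
      obtain ⟨j, hj⟩ := hplus
      rw [hσ, ← pow_succ', hj, pow_mul, hs, one_pow]
    exact inLinearGeom_of_fixed_form hn hR.normal hR.absIrred (Or.inr (Or.inr ⟨σ, f, hf, hfix⟩))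
  have hnorm : H ≤ subgroupNormalizer R := fun g hg =>
    Subgroup.mem_normalizer_iff.mpr fun x => ⟨fun hx => hR.normal.conj g hg x hx, fun hx => by
      simpa [mul_assoc] using hR.normal.conj' hg hx⟩
  have hdata : ((Odd r ∧ Odd e ∧ z = r ∧ ∃ m : ℕ, 1 ≤ m ∧ Nat.card R = r ^ (1 + 2 * m)) ∨
      (r = 2 ∧ e = 1 ∧ z = 4 ∧ 4 ≤ Fintype.card (Fin n) ∧ ∃ m : ℕ, Nat.card R = 2 ^ (2 + 2 * m))) →
      IsLinearSymplecticTypeData r R ∧ n = r ^ m ∧ H ≤ subgroupNormalizer R := by
    intro h
    rw [← hz] at hdvd hmin h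
    refine ⟨⟨hR.sympType, hR.absIrred, p, e, hrp, ⟨hp, hchar, hq, hdvd, hmin⟩, ?_⟩, hnm, hnorm⟩
    rcases h with h | h
    · exact Or.inl h
    · exact Or.inr (Or.inl h)
  rcases hcc with ⟨hrodd, hzr⟩ | ⟨hr2, hz2 | hz4⟩
  · rcases Nat.even_or_odd e with hev | hodd
    · exact Or.inl (hunit (Or.inl hrodd) hev)
    · exact Or.inr (hdata (Or.inl ⟨hrodd, hodd, hzr, m, hm, by rw [hR.card_eq, hz, hzr, pow_add, pow_one]⟩))
  · obtain ⟨-, hform⟩ := hR.exists_orthogonal_or_symplectic (hz.trans hz2)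
    exact Or.inl (inLinearGeom_of_fixed_form hn hR.normal hR.absIrred (hform.elim Or.inl fun h => Or.inr (Or.inl h)))
  · rcases Nat.even_or_odd e with hev | hodd
    · exact Or.inl (hunit (Or.inr hz4) hev)
    · refine Or.inr (hdata (Or.inr ⟨hr2, ?_, hz4, ?_, m, ?_⟩))
      · -- an odd power is congruent to `p` modulo `4`
        by_contra hne1
        refine hmin 1 one_pos (by omega) ?_
        rw [hz4] at hdvd ⊢
        rw [pow_one]
        obtain ⟨j, hj⟩ := hp.odd_of_ne_two (fun h => hrp (hr2.trans h.symm))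
        obtain ⟨i, hi⟩ := hodd
        have hpp : p ^ 2 % 4 = 1 := by
          rw [hj, show (2 * j + 1) ^ 2 = 4 * (j * j + j) + 1 by ring]; omega
        have hmod : p ^ e % 4 = p % 4 := by
          rw [hi, pow_succ, pow_mul, Nat.mul_mod, Nat.pow_mod, hpp, one_pow]
          omega
        omega
      · rw [Fintype.card_fin, hnm, hr2]
        rw [hr2] at hnm
        rcases Nat.lt_or_ge m 2 with h | h
        · interval_cases m
          omega
        · exact Nat.pow_le_pow_right (by norm_num : 1 ≤ 2) h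
      · rw [hR.card_eq, hz, hz4, hr2, pow_add]; norm_num

/-- Aschbacher's theorem with the symplectic-type case kept apart, with its dimension. -/
theorem linear_cases (hn : 3 ≤ n) (H : Subgroup (GL (Fin n) F)) :
    (∃ M, InLinearGeom n F M ∧ H ≤ M) ∨
      (∃ (R : Subgroup (GL (Fin n) F)) (r m : ℕ), IsLinearSymplecticTypeData r R ∧ n = r ^ m ∧
        H ≤ subgroupNormalizer R) ∨ InLinearResidualClass H := by
  classical
  haveI : Nonempty (Fin n) := ⟨⟨0, by omega⟩⟩
  by_cases hirr : ActsIrreducibly (matrixSet H)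
  swap
  · rw [actsIrreducibly_iff] at hirr
    push Not at hirr
    obtain ⟨W, hW, h0, h1⟩ := hirr
    exact Or.inl ⟨_, Or.inl ⟨W, h0, h1, rfl⟩, le_subspaceStabilizer hW⟩
  have hHs : ¬ H ≤ scalars (Fin n) F := by
    intro hle
    have hne : (Pi.single ⟨0, by omega⟩ 1 : Fin n → F) ≠ 0 := by simp
    rcases actsIrreducibly_iff.mp hirr (F ∙ (Pi.single ⟨0, by omega⟩ 1 : Fin n → F)) (fun g hg w hw => by
      obtain ⟨c, hc⟩ := (mem_scalars_iff g).mp (hle hg)
      rw [act_scalar hc]; exact Submodule.smul_mem _ _ hw) with h | h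
    · exact hne (Submodule.span_singleton_eq_bot.mp h)
    · have := finrank_span_singleton (K := F) hne
      rw [h, finrank_top, Module.finrank_fintype_fun_eq_card, Fintype.card_fin] at this
      omega
  by_cases habs : ∀ N, NormalIn N H → ¬ N ≤ scalars (Fin n) F → ActsAbsolutelyIrreducibly (matrixSet N)
  swap
  · push Not at habs
    obtain ⟨N, hN, hNs, hNa⟩ := habs
    exact Or.inl ((absIrred_or_inLinearGeom hirr hN hNs).resolve_left hNa)
  by_cases hsub : ∀ N, NormalIn N H → ¬ N ≤ scalars (Fin n) F →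
      ∀ K : Subfield F, K ≠ ⊤ → ¬ RealisableOver K (matrixSet N)
  swap
  · push Not at hsub
    obtain ⟨N, hN, hNs, K, hK, hreal⟩ := hsub
    exact Or.inl (inLinearGeom_of_realisable hn hN (habs N hN hNs) hK hreal)
  have hcard : 1 < Fintype.card (Fin n) := by rw [Fintype.card_fin]; omega
  rcases generic_cases hcard hHs habs hsub with ⟨R, r, m, hR⟩ | ⟨N, k, L, -, hNa, -, hL⟩ | ⟨P, hP, hcore⟩
  · exact (symplGen_cases hn hR).imp id fun h => Or.inl ⟨R, r, m, h⟩
  · obtain ⟨m, e, P, hm, hle⟩ := le_tensorWreathSubgroup (H := H) hL.two_le hL.comm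
      (hL.iSup_eq.symm ▸ hNa) hL.nonscalar hL.perm (fun i => (hL.trans i).imp fun h hh => hh.2 _ rfl)
    obtain ⟨M, hM, hMle⟩ := inLinearGeom_of_tensorWreath hm hL.two_le e P
    exact Or.inl ⟨M, hM, hle.trans hMle⟩
  · by_cases hform : (∃ Q : (Fin n → F) → F, IsNondegenerateQuadraticForm Q ∧ FixesQuadForm (matrixSet P) Q) ∨
        (∃ f : (Fin n → F) → (Fin n → F) → F, IsSymplecticForm f ∧ FixesForm (matrixSet P) f) ∨
        ∃ (σ : F ≃+* F) (f : (Fin n → F) → (Fin n → F) → F), IsUnitaryForm σ f ∧ FixesForm (matrixSet P) f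
    · exact Or.inl (inLinearGeom_of_fixed_form hn hP hcore.absIrred hform)
    · simp only [not_or] at hform
      exact Or.inr (Or.inr ⟨P, hcore, hform⟩)

/-- Aschbacher's theorem for subgroups of the linear groups, in any dimension at least three. -/
theorem linear_structure (hn : 3 ≤ n) (H : Subgroup (GL (Fin n) F)) :
    (∃ M, InLinearClass n F M ∧ H ≤ M) ∨ InLinearResidualClass H := by
  rcases linear_cases hn H with ⟨M, hM, hle⟩ | ⟨R, r, m, hR, -, hle⟩ | h
  · exact Or.inl ⟨M, hM.inLinearClass, hle⟩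
  · exact Or.inl ⟨_, Or.inr (Or.inr (Or.inr (Or.inr (Or.inr (Or.inr (Or.inr (Or.inl
      ⟨r, R, hR, rfl⟩))))))), hle⟩
  · exact Or.inr h

end CfsgLib.SmallDim
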