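import Cfsg.Agent.Lib.SmallDim.Subfield
import Cfsg.Agent.Lib.SmallDim.Forms
import Cfsg.Agent.Lib.ClassicalForms.Ortho.POmega

/-!
The odd-dimensional group `Ω` in coordinates: Siegel elements, irreducibility, and the geometric overgroups
containing it.
-/

set_option autoImplicit false
set_option linter.style.haveILetI false

namespace CfsgLib.SmallDim

open scoped MatrixGroups Matrix
open Cfsg.Geo

variable {F : Type*} [Field F]

/-- The index type of the standard odd-dimensional form. -/
abbrev OddIdx (m : ℕ) : Type := Unit ⊕ (Fin m ⊕ Fin m)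

/-- The standard polar form. -/
abbrev oddPolar (m : ℕ) (F : Type*) [Field F] : (OddIdx m → F) → (OddIdx m → F) → F :=
  QuadraticMap.polar (Cfsg.quadFormOdd m F)

variable {m : ℕ}

lemma quadFormOdd_eq (m : ℕ) (F : Type*) [Field F] :
    Cfsg.quadFormOdd m F = ⇑(CfsgLib.ClassicalForms.qOdd m F) :=
  funext fun v => (CfsgLib.ClassicalForms.qOdd_apply m v).symm

lemma isNondegenerateQuad_odd (h2 : (2 : F) ≠ 0) (m : ℕ) :
    IsNondegenerateQuadraticForm (Cfsg.quadFormOdd m F) := by
  rw [quadFormOdd_eq]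
  set Q := CfsgLib.ClassicalForms.qOdd m F
  have hnd : CfsgLib.ClassicalForms.Nondeg Q := CfsgLib.ClassicalForms.nondeg_qOdd h2 m
  refine ⟨fun c v => by rw [QuadraticMap.map_smul, smul_eq_mul, pow_two],
    ⟨fun x y v => Q.polar_add_left x y v, fun c x v => by rw [QuadraticMap.polar_smul_left, smul_eq_mul],
      fun v x y => Q.polar_add_right v x y, fun c v x => by rw [QuadraticMap.polar_smul_right, smul_eq_mul]⟩,
    fun v hv => ?_⟩
  obtain ⟨y, hy⟩ : ∃ y, QuadraticMap.polar (⇑Q) v y ≠ 0 := by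
    by_contra hall
    push Not at hall
    exact hv (hnd v hall)
  exact ⟨⟨y, by rwa [QuadraticMap.polar_comm]⟩, y, hy⟩

lemma mem_omegaGL_isometry {g : GL (OddIdx m) F} (hg : g ∈ omegaGL (Cfsg.quadFormOdd m F)) (v : OddIdx m → F) :
    Cfsg.quadFormOdd m F (act g v) = Cfsg.quadFormOdd m F v := by
  obtain ⟨x, -, rfl⟩ := hg
  exact x.2 v v

lemma omegaGL_fixesQuad {H : Subgroup (GL (OddIdx m) F)} (hH : H ≤ omegaGL (Cfsg.quadFormOdd m F)) :
    FixesQuadForm (matrixSet H) (Cfsg.quadFormOdd m F) := by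
  rintro _ ⟨g, hg, rfl⟩ v
  exact mem_omegaGL_isometry (hH hg) v

lemma omega_polar_act {g : GL (OddIdx m) F} (hg : g ∈ omegaGL (Cfsg.quadFormOdd m F)) (u v : OddIdx m → F) :
    oddPolar m F (act g u) (act g v) = oddPolar m F u v :=
  fixesForm_polar (omegaGL_fixesQuad (le_refl _)) _ (coe_mem_matrixSet hg) u v

lemma oddPolar_comm (u v : OddIdx m → F) : oddPolar m F u v = oddPolar m F v u := QuadraticMap.polar_comm _ _ _

lemma omegaGL_le_specialLinear (m : ℕ) (F : Type*) [Field F] :
    omegaGL (Cfsg.quadFormOdd m F) ≤ specialLinear (OddIdx m) F := by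
  rw [omegaGL, Cfsg.Omega, Subgroup.map_subtype_commutator]
  refine Subgroup.commutator_le.mpr fun a _ b _ => ?_
  rw [specialLinear, MonoidHom.mem_ker, map_commutatorElement]
  exact commutatorElement_eq_one_iff_mul_comm.mpr (mul_comm _ _)

/-- The Siegel element. -/
noncomputable def oTrans (u w : OddIdx m → F) (hu : Cfsg.quadFormOdd m F u = 0) (hw : oddPolar m F u w = 0) :
    GL (OddIdx m) F :=
  CfsgLib.ClassicalForms.glEquiv.symm
    (CfsgLib.ClassicalForms.siegel (CfsgLib.ClassicalForms.qOdd m F) u w (by rw [CfsgLib.ClassicalForms.qOdd_apply]; exact hu)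
      (by rw [← quadFormOdd_eq]; exact hw)).1

lemma act_oTrans {u w : OddIdx m → F} (hu : Cfsg.quadFormOdd m F u = 0) (hw : oddPolar m F u w = 0)
    (x : OddIdx m → F) :
    act (oTrans u w hu hw) x
      = x + oddPolar m F x u • w - (oddPolar m F x w + Cfsg.quadFormOdd m F w * oddPolar m F x u) • u := by
  show ((oTrans u w hu hw : GL (OddIdx m) F) : Matrix (OddIdx m) (OddIdx m) F).mulVec x = _
  rw [← CfsgLib.ClassicalForms.glEquiv_apply, oTrans, MulEquiv.apply_symm_apply,
    CfsgLib.ClassicalForms.siegel_apply, oddPolar, quadFormOdd_eq]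

lemma oTrans_mem [Finite F] (h2 : (2 : F) ≠ 0) (hm : 2 ≤ m) {u w : OddIdx m → F}
    (hu : Cfsg.quadFormOdd m F u = 0) (hw : oddPolar m F u w = 0) :
    oTrans u w hu hw ∈ omegaGL (Cfsg.quadFormOdd m F) := by
  set Q := CfsgLib.ClassicalForms.qOdd m F
  set ψ := CfsgLib.ClassicalForms.isoMat Q (CfsgLib.ClassicalForms.qOdd_apply m)
  set s := CfsgLib.ClassicalForms.siegel Q u w (by rw [CfsgLib.ClassicalForms.qOdd_apply]; exact hu)
    (by rw [← quadFormOdd_eq]; exact hw)
  have hs : s ∈ commutator (CfsgLib.ClassicalForms.orth Q) :=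
    CfsgLib.ClassicalForms.siegel_mem_commutator (CfsgLib.ClassicalForms.nondeg_qOdd h2 m)
      (by rw [CfsgLib.ClassicalForms.finrank_qOdd]; omega) _ _
  refine ⟨ψ.symm s, ?_, rfl⟩
  have hle : (commutator (CfsgLib.ClassicalForms.orth Q)).map ψ.symm.toMonoidHom
      ≤ commutator (Cfsg.isometryGroup F (Cfsg.quadFormOdd m F)) := by
    rw [commutator_def, Subgroup.map_commutator, commutator_def]
    exact Subgroup.commutator_mono le_top le_top
  exact hle ⟨s, hs, rfl⟩

/-- Siegel elements multiply by adding. -/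
lemma oTrans_mul [Finite F] {u w w' : OddIdx m → F} (hu : Cfsg.quadFormOdd m F u = 0)
    (hw : oddPolar m F u w = 0) (hw' : oddPolar m F u w' = 0) (hww : oddPolar m F u (w + w') = 0) :
    oTrans u w hu hw * oTrans u w' hu hw' = oTrans u (w + w') hu hww := by
  simp only [oTrans, ← map_mul]
  congr 1
  exact congrArg Subtype.val (CfsgLib.ClassicalForms.siegel_mul _ _ _)

lemma oTrans_pow_char [Finite F] {p : ℕ} [CharP F p] {u w : OddIdx m → F} (hu : Cfsg.quadFormOdd m F u = 0)
    (hw : oddPolar m F u w = 0) : oTrans u w hu hw ^ p = 1 := by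
  have hlin : ∀ c : F, oddPolar m F u (c • w) = 0 := fun c => by
    rw [oddPolar, quadFormOdd_eq, QuadraticMap.polar_smul_right]
    rw [oddPolar, quadFormOdd_eq] at hw
    rw [hw, smul_zero]
  have hzero : oTrans u ((0 : F) • w) hu (hlin 0) = 1 := by
    refine Units.ext (Matrix.ext_of_mulVec_single fun i => ?_)
    show act _ _ = act _ _
    rw [act_oTrans, act_one, zero_smul]
    simp [oddPolar, quadFormOdd_eq]
  have key : ∀ k : ℕ, oTrans u w hu hw ^ k = oTrans u ((k : F) • w) hu (hlin k) := by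
    intro k
    induction k with
    | zero => rw [pow_zero]; simp only [Nat.cast_zero]; exact hzero.symm
    | succ k ih =>
      rw [pow_succ, ih, oTrans_mul hu (hlin k) hw (by
        have := hlin ((k : F) + 1); rwa [add_smul, one_smul] at this)]
      congr 1
      rw [Nat.cast_succ, add_smul, one_smul]
  rw [key]
  simp only [CharP.cast_eq_zero]
  exact hzero

/-- The `i`-th vector of the first half. -/
abbrev eVec (i : Fin m) : OddIdx m → F := Pi.single (Sum.inr (Sum.inl i)) 1
/-- The `i`-th vector of the second half. -/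
abbrev fVec (i : Fin m) : OddIdx m → F := Pi.single (Sum.inr (Sum.inr i)) 1

lemma quad_eVec (i : Fin m) : Cfsg.quadFormOdd m F (eVec i) = 0 := by
  simp [Cfsg.quadFormOdd, eVec, Pi.single_apply]

lemma quad_fVec (i : Fin m) : Cfsg.quadFormOdd m F (fVec i) = 0 := by
  simp [Cfsg.quadFormOdd, fVec, Pi.single_apply]

lemma oddPolar_eq (x y : OddIdx m → F) :
    oddPolar m F x y = 2 * x (.inl ()) * y (.inl ())
      + ∑ i : Fin m, (x (.inr (.inl i)) * y (.inr (.inr i)) + y (.inr (.inl i)) * x (.inr (.inr i))) := by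
  simp only [oddPolar, QuadraticMap.polar, Cfsg.quadFormOdd, Pi.add_apply, add_mul, mul_add, Finset.sum_add_distrib]
  ring

lemma polar_eVec (x : OddIdx m → F) (i : Fin m) : oddPolar m F x (eVec i) = x (.inr (.inr i)) := by
  rw [oddPolar_eq, Finset.sum_eq_single i (fun b _ hb => by simp [eVec, hb]) (by simp)]
  simp [eVec]

lemma polar_fVec (x : OddIdx m → F) (i : Fin m) : oddPolar m F x (fVec i) = x (.inr (.inl i)) := by
  rw [oddPolar_eq, Finset.sum_eq_single i (fun b _ hb => by simp [fVec, hb]) (by simp)]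
  simp [fVec]

/-- The singular vectors are not all orthogonal to a non-zero vector. -/
lemma exists_singular_polar_ne (h2 : (2 : F) ≠ 0) (hm : 0 < m) {x : OddIdx m → F} (hx : x ≠ 0) :
    ∃ u, Cfsg.quadFormOdd m F u = 0 ∧ oddPolar m F x u ≠ 0 := by
  by_contra hall
  push Not at hall
  have he : ∀ i, x (.inr (.inr i)) = 0 := fun i => (polar_eVec x i) ▸ hall _ (quad_eVec i)
  have hf : ∀ i, x (.inr (.inl i)) = 0 := fun i => (polar_fVec x i) ▸ hall _ (quad_fVec i)
  apply hx
  funext j
  rcases j with ⟨⟩ | i | i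
  · set i₀ : Fin m := ⟨0, hm⟩
    set u : OddIdx m → F := Pi.single (Sum.inl ()) 1 + eVec i₀ - fVec i₀
    have hu : Cfsg.quadFormOdd m F u = 0 := by
      simp only [Cfsg.quadFormOdd, u]
      rw [Finset.sum_eq_single i₀ (fun b _ hb => by simp [eVec, fVec, hb]) (by simp)]
      simp [eVec, fVec]
    have h := hall u hu
    rw [oddPolar_eq] at h
    simp [u, eVec, fVec, he, hf, h2] at h
    exact h
  · exact hf i
  · exact he i

/-- A non-singular vector orthogonal to a given one. -/
lemma exists_perp_ne (h2 : (2 : F) ≠ 0) (hm : 0 < m) (u : OddIdx m → F) :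
    ∃ w, oddPolar m F u w = 0 ∧ Cfsg.quadFormOdd m F w ≠ 0 := by
  classical
  by_contra hall
  push Not at hall
  have hQ := isNondegenerateQuad_odd h2 m (F := F)
  have hb := hQ.polar_bilinear
  let φ : (OddIdx m → F) →ₗ[F] F :=
    { toFun := oddPolar m F u, map_add' := hb.add_right u, map_smul' := fun c x => hb.smul_right c u x }
  have hiso : ∀ a ∈ LinearMap.ker φ, ∀ b ∈ LinearMap.ker φ, oddPolar m F a b = 0 := by
    intro a ha b hb'
    show QuadraticMap.polar (Cfsg.quadFormOdd m F) a b = 0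
    rw [QuadraticMap.polar, hall _ (LinearMap.mem_ker.mp ((LinearMap.ker φ).add_mem ha hb')),
      hall a (LinearMap.mem_ker.mp ha), hall b (LinearMap.mem_ker.mp hb')]
    simp
  have hdim : 2 * m ≤ Module.finrank F (LinearMap.ker φ) := by
    have h1 := LinearMap.finrank_range_add_finrank_ker φ
    have h3 := Submodule.finrank_le (LinearMap.range φ)
    rw [Module.finrank_fintype_fun_eq_card] at h1
    rw [Module.finrank_self] at h3
    simp at h1
    omega
  rcases eq_or_ne (LinearMap.ker φ) ⊤ with htop | hne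
  · exact hb_contra hQ hiso htop
  · obtain ⟨x, hx⟩ : ∃ x, x ∉ LinearMap.ker φ := by
      by_contra h; push Not at h; exact hne (Submodule.eq_top_iff'.mpr h)
    have hx0 : φ x ≠ 0 := fun h => hx (LinearMap.mem_ker.mpr h)
    let L : LinearMap.ker φ →ₗ[F] F :=
      { toFun := fun w => oddPolar m F w x
        map_add' := fun a b => hb.add_left _ _ _
        map_smul' := fun c a => hb.smul_left _ _ _ }
    have hLi : Function.Injective L := by
      rw [← LinearMap.ker_eq_bot, Submodule.eq_bot_iff]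
      intro w hw
      by_contra h0
      obtain ⟨-, y, hy⟩ := hQ.nondegenerate w (fun h => h0 (Subtype.ext h))
      apply hy
      have hmem : y - (φ y / φ x) • x ∈ LinearMap.ker φ := by
        rw [LinearMap.mem_ker, map_sub, map_smul, smul_eq_mul, div_mul_cancel₀ _ hx0, sub_self]
      rw [show y = (y - (φ y / φ x) • x) + (φ y / φ x) • x by abel, hb.add_right,
        show QuadraticMap.polar (Cfsg.quadFormOdd m F) (w : OddIdx m → F) _ = 0 from hiso _ w.2 _ hmem, hb.smul_right,
        show QuadraticMap.polar (Cfsg.quadFormOdd m F) (w : OddIdx m → F) x = 0 from hw, mul_zero, add_zero]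
    have h4 := LinearMap.finrank_le_finrank_of_injective hLi
    rw [Module.finrank_self] at h4
    omega
where
  hb_contra {φ : (OddIdx m → F) →ₗ[F] F} (hQ : IsNondegenerateQuadraticForm (Cfsg.quadFormOdd m F))
      (hiso : ∀ a ∈ LinearMap.ker φ, ∀ b ∈ LinearMap.ker φ, oddPolar m F a b = 0)
      (htop : LinearMap.ker φ = ⊤) : False := by
    obtain ⟨-, y, hy⟩ := hQ.nondegenerate (Pi.single (Sum.inl ()) 1) (by simp)
    exact hy (hiso _ (htop ▸ Submodule.mem_top) y (htop ▸ Submodule.mem_top))

/-- `Ω` is irreducible. -/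
theorem omega_not_le_subspaceStabilizer [Finite F] (h2 : (2 : F) ≠ 0) (hm : 2 ≤ m)
    {W : Submodule F (OddIdx m → F)} (h0 : W ≠ ⊥) (h1 : W ≠ ⊤) :
    ¬ omegaGL (Cfsg.quadFormOdd m F) ≤ subspaceStabilizer W := by
  intro hle
  have hQ := isNondegenerateQuad_odd h2 m (F := F)
  have hb := hQ.polar_bilinear
  have hinv : ∀ u w (hu : Cfsg.quadFormOdd m F u = 0) (hw : oddPolar m F u w = 0), ∀ x ∈ W,
      oddPolar m F x u • w - (oddPolar m F x w + Cfsg.quadFormOdd m F w * oddPolar m F x u) • u ∈ W := by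
    intro u w hu hw x hx
    have := (mem_subspaceStabilizer.mp (hle (oTrans_mem h2 hm hu hw)) x).mp hx
    rw [act_oTrans, add_sub_assoc] at this
    simpa using W.sub_mem this hx
  obtain ⟨x, hx, hx0⟩ := W.ne_bot_iff.mp h0
  obtain ⟨u, hu, hxu⟩ := exists_singular_polar_ne h2 (by omega) hx0
  have hsplit : ∀ w, oddPolar m F u w = 0 →
      oddPolar m F x u • w - oddPolar m F x w • u ∈ W ∧ (Cfsg.quadFormOdd m F w * oddPolar m F x u) • u ∈ W := by
    intro w hw
    have hnw : oddPolar m F u (-w) = 0 := by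
      rw [← neg_one_smul F w]
      show QuadraticMap.polar (Cfsg.quadFormOdd m F) _ _ = 0
      rw [hb.smul_right, show QuadraticMap.polar (Cfsg.quadFormOdd m F) u w = 0 from hw, mul_zero]
    have e1 : Cfsg.quadFormOdd m F (-w) = Cfsg.quadFormOdd m F w := by
      rw [← neg_one_smul F w, hQ.smul]; ring
    have e2 : oddPolar m F x (-w) = -oddPolar m F x w := by
      rw [← neg_one_smul F w]
      show QuadraticMap.polar (Cfsg.quadFormOdd m F) _ _ = _
      rw [hb.smul_right, neg_one_mul]
    have ha := hinv u w hu hw x hx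
    have hb' := hinv u (-w) hu hnw x hx
    rw [e1, e2] at hb'
    have h3 := W.smul_mem (2 : F)⁻¹ (W.sub_mem ha hb')
    have h4 : oddPolar m F x u • w - oddPolar m F x w • u ∈ W := by
      convert h3 using 1
      match_scalars <;> field_simp <;> ring
    refine ⟨h4, ?_⟩
    convert W.sub_mem h4 ha using 1
    match_scalars <;> ring
  have huW : u ∈ W := by
    obtain ⟨w, hw, hQw⟩ := exists_perp_ne h2 (by omega) u
    have := W.smul_mem (Cfsg.quadFormOdd m F w * oddPolar m F x u)⁻¹ (hsplit w hw).2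
    rwa [smul_smul, inv_mul_cancel₀ (mul_ne_zero hQw hxu), one_smul] at this
  apply h1
  rw [Submodule.eq_top_iff']
  intro y
  set w := y - (oddPolar m F y u / oddPolar m F x u) • x
  have hw : oddPolar m F u w = 0 := by
    rw [oddPolar_comm]
    show QuadraticMap.polar (Cfsg.quadFormOdd m F) _ _ = 0
    rw [show w = y + (-(oddPolar m F y u / oddPolar m F x u)) • x by simp [w, sub_eq_add_neg], hb.add_left,
      hb.smul_left]
    show oddPolar m F y u + -(oddPolar m F y u / oddPolar m F x u) * oddPolar m F x u = 0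
    field_simp; ring
  have h5 := W.add_mem (hsplit w hw).1 (W.smul_mem (oddPolar m F x w) huW)
  rw [sub_add_cancel] at h5
  have h6 := W.smul_mem (oddPolar m F x u)⁻¹ h5
  rw [smul_smul, inv_mul_cancel₀ hxu, one_smul] at h6
  simpa [w] using W.add_mem h6 (W.smul_mem (oddPolar m F y u / oddPolar m F x u) hx)

/-- `Ω` permutes no decomposition into lines. -/
theorem omega_not_le_decompositionStabilizer [Fintype F] (h2 : (2 : F) ≠ 0) (hm : 2 ≤ m) {t : ℕ}
    (ht : t = 2 * m + 1) {D : Fin t → Submodule F (OddIdx m → F)} (hD : IsMDecomposition 1 D) :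
    ¬ omegaGL (Cfsg.quadFormOdd m F) ≤ decompositionStabilizer D := by
  classical
  intro hle
  have hb := (isNondegenerateQuad_odd h2 m (F := F)).polar_bilinear
  let i₀ : Fin t := ⟨0, by omega⟩
  have hne : D i₀ ≠ ⊥ := fun h => by
    have := hD.finrank_eq i₀
    rw [h, finrank_bot] at this
    omega
  obtain ⟨d, hd, hd0⟩ := (D i₀).ne_bot_iff.mp hne
  obtain ⟨u, hu, hdu⟩ := exists_singular_polar_ne h2 (by omega) hd0
  let φ : (OddIdx m → F) →ₗ[F] F :=
    { toFun := oddPolar m F u, map_add' := hb.add_right u, map_smul' := fun c x => hb.smul_right c u x }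
  have hidx : ∀ w : LinearMap.ker φ, ∃ k, act (oTrans u w hu (LinearMap.mem_ker.mp w.2)) d ∈ D k := fun w => by
    obtain ⟨π, hπ⟩ := hle (oTrans_mem h2 hm hu (LinearMap.mem_ker.mp w.2))
    exact ⟨π i₀, by rw [← hπ i₀]; exact ⟨d, hd, Matrix.toLin'_apply _ _⟩⟩
  choose k hk using hidx
  -- two vectors with the same image differ by a multiple of `u`
  have hfib : ∀ w w' : LinearMap.ker φ, k w = k w' → ∃ a : F, (w : OddIdx m → F) = w' + a • u := by
    intro w w' hkk
    set g := oTrans u (w : OddIdx m → F) hu (LinearMap.mem_ker.mp w.2)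
    set g' := oTrans u (w' : OddIdx m → F) hu (LinearMap.mem_ker.mp w'.2)
    have hu' : ∀ z (hz : oddPolar m F u z = 0), act (oTrans u z hu hz) u = u := by
      intro z hz
      have huu : oddPolar m F u u = 0 := by
        show QuadraticMap.polar (Cfsg.quadFormOdd m F) u u = 0
        rw [polar_self_eq (isNondegenerateQuad_odd h2 m), hu, mul_zero]
      rw [act_oTrans, huu, hz]; simp
    have hgu : ∀ z (hz : oddPolar m F u z = 0), oddPolar m F (act (oTrans u z hu hz) d) u = oddPolar m F d u := by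
      intro z hz
      conv_lhs => arg 4; rw [← hu' z hz]
      exact omega_polar_act (oTrans_mem h2 hm hu hz) d u
    have hne' : (⟨act g' d, hk w'⟩ : D (k w')) ≠ 0 := fun h => act_ne_zero g' hd0 (congrArg Subtype.val h)
    obtain ⟨a, ha⟩ := (finrank_eq_one_iff_of_nonzero' _ hne').mp (hD.finrank_eq _) ⟨act g d, hkk ▸ hk w⟩
    have ha' : a • act g' d = act g d := congrArg Subtype.val ha
    have ha1 : a = 1 := by
      have : oddPolar m F (a • act g' d) u = oddPolar m F (act g d) u := congrArg (fun z => oddPolar m F z u) ha'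
      rw [show oddPolar m F (a • act g' d) u = a * oddPolar m F (act g' d) u from hb.smul_left _ _ _,
        hgu, hgu] at this
      exact mul_right_cancel₀ hdu (this.trans (one_mul _).symm)
    rw [ha1, one_smul, act_oTrans, act_oTrans] at ha'
    set s := (oddPolar m F d (w : OddIdx m → F) + Cfsg.quadFormOdd m F w * oddPolar m F d u)
      - (oddPolar m F d (w' : OddIdx m → F) + Cfsg.quadFormOdd m F w' * oddPolar m F d u)
    refine ⟨s / oddPolar m F d u, ?_⟩
    apply smul_right_injective (OddIdx m → F) hdu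
    simp only [smul_add, smul_smul, mul_div_cancel₀ _ hdu]
    rw [← sub_eq_zero] at ha' ⊢
    rw [← neg_eq_zero, ← ha']
    match_scalars <;> first | ring1 | (simp only [s]; ring1)
  -- counting
  have hcard : Nat.card (LinearMap.ker φ) ≤ t * Fintype.card F := by
    have hsel : ∀ c : Fin t, ∃ w₀ : OddIdx m → F, ∀ w : LinearMap.ker φ, k w = c →
        ∃ a : F, (w : OddIdx m → F) = w₀ + a • u := fun c => by
      by_cases hc : ∃ w, k w = c
      · obtain ⟨w₀, hw₀⟩ := hc
        exact ⟨w₀, fun w hw => hfib w w₀ (hw.trans hw₀.symm)⟩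
      · exact ⟨0, fun w hw => absurd ⟨w, hw⟩ hc⟩
    choose w₀ hw₀ using hsel
    choose a ha using fun w => hw₀ (k w) w rfl
    have hinj : Function.Injective fun w => (k w, a w) := fun w w' h => by
      simp only [Prod.mk.injEq] at h
      exact Subtype.ext (by rw [ha w, ha w', h.1, h.2])
    have := Nat.card_le_card_of_injective _ hinj
    simpa [Nat.card_prod] using this
  have hdim : 2 * m ≤ Module.finrank F (LinearMap.ker φ) := by
    have h1 := LinearMap.finrank_range_add_finrank_ker φ
    have h3 := Submodule.finrank_le (LinearMap.range φ)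
    rw [Module.finrank_fintype_fun_eq_card] at h1
    rw [Module.finrank_self] at h3
    simp at h1
    omega
  rw [Module.natCard_eq_pow_finrank (K := F), Nat.card_eq_fintype_card, ht] at hcard
  have hq : 3 ≤ Fintype.card F := by
    have h1 := Fintype.one_lt_card (α := F)
    by_contra h
    have h' : ((Fintype.card F : ℕ) : F) = 0 := Nat.cast_card_eq_zero F
    rw [show Fintype.card F = 2 by omega] at h'
    exact h2 (by exact_mod_cast h')
  have h5 : (Fintype.card F) ^ (2 * m) ≤ (2 * m + 1) * Fintype.card F :=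
    (Nat.pow_le_pow_right (by omega) hdim).trans hcard
  have h6 : ∀ j, 2 ≤ j → 2 * j + 1 < 3 ^ (2 * j - 1) := by
    intro j hj
    induction j, hj using Nat.le_induction with
    | base => norm_num
    | succ j hj ih =>
      rw [show 2 * (j + 1) - 1 = (2 * j - 1) + 2 by omega, pow_add]
      omega
  rw [show 2 * m = (2 * m - 1) + 1 by omega, pow_succ] at h5
  have h7 := Nat.le_of_mul_le_mul_right h5 (by omega)
  have h8 := Nat.pow_le_pow_left hq (2 * m - 1)
  have := h6 m hm
  omega

/-- An element of order `p` which is a scalar times a matrix over a subfield comes from that subfield. -/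
lemma entries_of_pow_char [Finite F] {ι : Type} [Fintype ι] [DecidableEq ι] [Nonempty ι] {p : ℕ}
    [Fact p.Prime] [CharP F p] {K : Subfield F} {g A z : GL ι F} (hg : g ^ p = 1)
    (hA : ∀ i j, (A : Matrix ι ι F) i j ∈ K) (hz : z ∈ scalars ι F) (he : g = A * z) :
    ∀ i j, (g : Matrix ι ι F) i j ∈ K := by
  classical
  obtain ⟨c, hc⟩ := (mem_scalars_iff z).mp hz
  have hgc : (g : Matrix ι ι F) = (c : F) • (A : Matrix ι ι F) := by
    rw [he, Units.val_mul, hc, Matrix.mul_smul, Matrix.mul_one]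
  have hpow : ∀ (k : ℕ) i j, ((A : Matrix ι ι F) ^ k) i j ∈ K := by
    intro k
    induction k with
    | zero => intro i j; by_cases h : i = j <;> simp [h, K.one_mem, K.zero_mem]
    | succ k ih =>
      intro i j
      rw [pow_succ, Matrix.mul_apply]
      exact K.sum_mem fun l _ => K.mul_mem (ih i l) (hA l j)
  obtain ⟨i⟩ := ‹Nonempty ι›
  have h1 := congrArg Units.val hg
  rw [Units.val_pow_eq_pow_val, Units.val_one, hgc, _root_.smul_pow] at h1
  have h2 := congrFun (congrFun h1 i) i
  rw [Matrix.smul_apply, Matrix.one_apply_eq, smul_eq_mul] at h2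
  have hcp : (c : F) ^ p ∈ K := by
    rw [eq_inv_of_mul_eq_one_left h2]
    exact K.inv_mem (hpow p i i)
  have hinj : Function.Injective fun x : K => x ^ p := fun x y hxy =>
    Subtype.ext (frobenius_inj F p (congrArg Subtype.val hxy))
  obtain ⟨d, hd⟩ := Finite.injective_iff_surjective.mp hinj ⟨_, hcp⟩
  have hd' : (d : F) = c := frobenius_inj F p (congrArg Subtype.val hd)
  intro a b
  rw [hgc, Matrix.smul_apply, smul_eq_mul, ← hd']
  exact K.mul_mem d.2 (hA a b)

/-- `Ω` lies in no subfield group. -/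
theorem omega_not_le_subfieldSubgroup [Fintype F] (h2 : (2 : F) ≠ 0) (hm : 2 ≤ m) {K : Subfield F}
    (hK : K ≠ ⊤) (P : GL (OddIdx m) F) : ¬ omegaGL (Cfsg.quadFormOdd m F) ≤ subfieldSubgroup K P := by
  classical
  intro hle
  obtain ⟨p, hchar⟩ := CharP.exists F
  obtain ⟨e, hp, -⟩ := FiniteField.card F p
  haveI := Fact.mk hp
  have hQ := isNondegenerateQuad_odd h2 m (F := F)
  have hS := IsSesqui.of_bilinear hQ.polar_bilinear
  set G := gramMatrix (oddPolar m F)
  set Pm : Matrix (OddIdx m) (OddIdx m) F := ↑P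
  set Pi' : Matrix (OddIdx m) (OddIdx m) F := ↑(P⁻¹)
  -- the rank-one operators
  have hR : ∀ u w, Cfsg.quadFormOdd m F u = 0 → oddPolar m F u w = 0 →
      ∀ i j, (Pi' * ((-2 * Cfsg.quadFormOdd m F w) • Matrix.vecMulVec u (G *ᵥ u)) * Pm) i j ∈ K := by
    intro u w hu hw
    have hnw : oddPolar m F u (-w) = 0 := by
      rw [← neg_one_smul F w]
      show QuadraticMap.polar (Cfsg.quadFormOdd m F) _ _ = 0
      rw [hQ.polar_bilinear.smul_right, show QuadraticMap.polar (Cfsg.quadFormOdd m F) u w = 0 from hw, mul_zero]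
    have hE : ∀ z (hz : oddPolar m F u z = 0), ∀ i j,
        (Pi' * (oTrans u z hu hz : GL (OddIdx m) F) * Pm) i j ∈ K := by
      intro z hz
      obtain ⟨A, s, hA, hs, he⟩ := mem_subfieldSubgroup.mp (hle (oTrans_mem h2 hm hu hz))
      have hg : (P⁻¹ * oTrans u z hu hz * P) ^ p = 1 := by
        have := conj_pow (i := p) (a := P⁻¹) (b := oTrans u z hu hz)
        rw [inv_inv] at this
        rw [this, oTrans_pow_char, mul_one, inv_mul_cancel]
      have := entries_of_pow_char hg hA hs (by rw [he]; group)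
      simpa [Pi', Pm, Units.val_mul] using this
    have hsum : ((oTrans u w hu hw : GL (OddIdx m) F) : Matrix (OddIdx m) (OddIdx m) F)
        + (oTrans u (-w) hu hnw : GL (OddIdx m) F) - 2 • (1 : Matrix (OddIdx m) (OddIdx m) F)
        = (-2 * Cfsg.quadFormOdd m F w) • Matrix.vecMulVec u (G *ᵥ u) := by
      apply Matrix.ext_of_mulVec_single
      intro i
      set x : OddIdx m → F := Pi.single i 1
      rw [Matrix.sub_mulVec, Matrix.add_mulVec, Matrix.smul_mulVec, Matrix.one_mulVec, Matrix.smul_mulVec,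
        Matrix.vecMulVec_mulVec]
      show act _ x + act _ x - 2 • x = _
      have e1 : Cfsg.quadFormOdd m F (-w) = Cfsg.quadFormOdd m F w := by
        rw [← neg_one_smul F w, hQ.smul]; ring
      have e2 : oddPolar m F x (-w) = -oddPolar m F x w := by
        rw [← neg_one_smul F w]
        show QuadraticMap.polar (Cfsg.quadFormOdd m F) _ _ = _
        rw [hQ.polar_bilinear.smul_right, neg_one_mul]
      have e3 : (G *ᵥ u) ⬝ᵥ x = oddPolar m F x u := by
        rw [dotProduct_comm]
        exact ((hS.apply_eq x u).trans rfl).symm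
      rw [act_oTrans, act_oTrans, e1, e2, e3, op_smul_eq_smul, two_nsmul]
      match_scalars <;> ring
    intro i j
    rw [← hsum, Matrix.mul_sub, Matrix.mul_add, Matrix.sub_mul, Matrix.add_mul, Matrix.sub_apply, Matrix.add_apply]
    refine K.sub_mem (K.add_mem (hE w hw i j) (hE _ hnw i j)) ?_
    rw [two_nsmul, Matrix.mul_add, Matrix.add_mul, Matrix.mul_one, Matrix.add_apply,
      show Pi' * Pm = 1 by simp only [Pi', Pm, ← Units.val_mul, inv_mul_cancel, Units.val_one]]
    rcases eq_or_ne i j with rfl | h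
    · rw [Matrix.one_apply_eq]; exact K.add_mem K.one_mem K.one_mem
    · rw [Matrix.one_apply_ne h]; exact K.add_mem K.zero_mem K.zero_mem
  let i₀ : Fin m := ⟨0, by omega⟩
  let i₁ : Fin m := ⟨1, by omega⟩
  have hi : i₀ ≠ i₁ := by simp [i₀, i₁]
  set w : F → (OddIdx m → F) := fun c => eVec i₁ + c • fVec i₁
  have hQw : ∀ c, Cfsg.quadFormOdd m F (w c) = c := fun c => by
    simp only [Cfsg.quadFormOdd, w]
    rw [Finset.sum_eq_single i₁ (fun b _ hb => by simp [eVec, fVec, hb]) (by simp)]
    simp [eVec, fVec]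
  have hwe : ∀ c, oddPolar m F (eVec i₀) (w c) = 0 := fun c => by
    rw [oddPolar_comm, polar_eVec]; simp [w, eVec, fVec, hi]
  have hwf : ∀ c, oddPolar m F (fVec i₀) (w c) = 0 := fun c => by
    rw [oddPolar_comm, polar_fVec]; simp [w, eVec, fVec, hi]
  have hprod : ∀ a b, (-2 * a) * (-2 * b) ∈ K := by
    intro a b
    have hA := hR (eVec i₀) (w a) (quad_eVec i₀) (hwe a)
    have hB := hR (fVec i₀) (w b) (quad_fVec i₀) (hwf b)
    rw [hQw] at hA hB
    set RA := (-2 * a) • Matrix.vecMulVec (eVec i₀ : OddIdx m → F) (G *ᵥ eVec i₀)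
    set RB := (-2 * b) • Matrix.vecMulVec (fVec i₀ : OddIdx m → F) (G *ᵥ fVec i₀)
    have htr : ((Pi' * RA * Pm) * (Pi' * RB * Pm)).trace ∈ K := by
      refine K.sum_mem fun i _ => ?_
      rw [Matrix.diag_apply, Matrix.mul_apply]
      exact K.sum_mem fun l _ => K.mul_mem (hA i l) (hB l i)
    have hPP : Pm * Pi' = 1 := by simp only [Pi', Pm, ← Units.val_mul, mul_inv_cancel, Units.val_one]
    have e : ((Pi' * RA * Pm) * (Pi' * RB * Pm)).trace = (RA * RB).trace := by
      rw [show (Pi' * RA * Pm) * (Pi' * RB * Pm) = Pi' * (RA * (Pm * Pi') * RB * Pm) by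
        simp only [Matrix.mul_assoc], hPP, Matrix.mul_one, Matrix.trace_mul_comm, Matrix.mul_assoc, hPP,
        Matrix.mul_one]
    rw [e] at htr
    have he : (G *ᵥ eVec i₀) ⬝ᵥ (fVec i₀ : OddIdx m → F) = 1 := by
      rw [dotProduct_comm]
      refine ((hS.apply_eq (fVec i₀) (eVec i₀)).symm.trans ?_)
      show oddPolar m F (fVec i₀) (eVec i₀) = 1
      rw [polar_eVec]; simp [fVec]
    have he' : (G *ᵥ fVec i₀) ⬝ᵥ (eVec i₀ : OddIdx m → F) = 1 := by
      rw [dotProduct_comm]
      refine ((hS.apply_eq (eVec i₀) (fVec i₀)).symm.trans ?_)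
      show oddPolar m F (eVec i₀) (fVec i₀) = 1
      rw [polar_fVec]; simp [eVec]
    rw [show (RA * RB).trace = (-2 * a) * (-2 * b) by
      simp only [RA, RB, Matrix.smul_mul, Matrix.mul_smul, Matrix.trace_smul, Matrix.vecMulVec_mul_vecMulVec, he,
        one_smul, Matrix.trace_vecMulVec, smul_eq_mul]
      rw [dotProduct_comm, he']
      ring] at htr
    exact htr
  refine hK (eq_top_iff.mpr fun c _ => ?_)
  have h4 : (4 : F) ∈ K := by
    rw [show (4 : F) = ((4 : ℕ) : F) by norm_num]
    exact natCast_mem K 4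
  have h5 := K.mul_mem (hprod c 1) (K.inv_mem h4)
  rwa [show -2 * c * (-2 * 1) * (4 : F)⁻¹ = c by
    have h40 : (4 : F) ≠ 0 := by rw [show (4 : F) = 2 * 2 by norm_num]; exact mul_ne_zero h2 h2
    field_simp
    ring] at h5

end CfsgLib.SmallDim
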