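import Cfsg.Agent.Lib.SmallDim.UnitaryProper
import Cfsg.Agent.Lib.SmallDim.Residual
import Cfsg.Agent.Lib.SmallDim.DiagForms

/-!
The individual cases of Aschbacher's theorem for the unitary groups in odd dimension.
-/

set_option autoImplicit false
set_option linter.style.haveILetI false

namespace CfsgLib.SmallDim

open scoped MatrixGroups Matrix
open Cfsg.Geo

section

variable {ι : Type} [Fintype ι] [DecidableEq ι] {F : Type*} [Field F]

/-- Up to a scalar an absolutely irreducible set of matrices fixes at most one non-degenerate Gram matrix. -/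
theorem gram_unique {σ : F →+* F} {S : Set (Matrix ι ι F)} (hirr : ActsAbsolutelyIrreducibly S)
    {G G' : Matrix ι ι F} (hG : IsUnit G.det) (h : ∀ s ∈ S, sᵀ * G * s.map σ = G)
    (h' : ∀ s ∈ S, sᵀ * G' * s.map σ = G') : ∃ c : F, G' = c • G := by
  have hcomm : ∀ s ∈ S, (G' * G⁻¹)ᵀ * s = s * (G' * G⁻¹)ᵀ := by
    intro s hs
    have hsdet : IsUnit (s.map σ).det := by
      have h1 : IsUnit ((sᵀ * G * s.map σ).det) := by rw [h s hs]; exact hG
      rw [Matrix.det_mul] at h1
      exact isUnit_of_mul_isUnit_right h1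
    have e1 : G' * (s.map σ)⁻¹ = sᵀ * G' := by
      conv_lhs => rw [← h' s hs]
      rw [Matrix.mul_assoc, Matrix.mul_nonsing_inv _ hsdet, Matrix.mul_one]
    have e2 : G * (s.map σ)⁻¹ = sᵀ * G := by
      conv_lhs => rw [← h s hs]
      rw [Matrix.mul_assoc, Matrix.mul_nonsing_inv _ hsdet, Matrix.mul_one]
    have e3 : G⁻¹ * sᵀ = (s.map σ)⁻¹ * G⁻¹ := by
      calc G⁻¹ * sᵀ = G⁻¹ * (sᵀ * G) * G⁻¹ := by
            rw [Matrix.mul_assoc, Matrix.mul_assoc, Matrix.mul_nonsing_inv _ hG, Matrix.mul_one]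
        _ = _ := by rw [← e2, ← Matrix.mul_assoc G⁻¹, Matrix.nonsing_inv_mul _ hG, Matrix.one_mul]
    have key : sᵀ * (G' * G⁻¹) = (G' * G⁻¹) * sᵀ := by
      rw [Matrix.mul_assoc, e3, ← Matrix.mul_assoc G', e1, Matrix.mul_assoc]
    have := congrArg Matrix.transpose key
    rwa [Matrix.transpose_mul sᵀ (G' * G⁻¹), Matrix.transpose_mul (G' * G⁻¹) sᵀ, Matrix.transpose_transpose] at this
  obtain ⟨c, hc⟩ := hirr.2 _ hcomm
  refine ⟨c, ?_⟩
  have := congrArg Matrix.transpose hc
  rw [Matrix.transpose_transpose, Matrix.transpose_smul, Matrix.transpose_one] at this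
  calc G' = G' * G⁻¹ * G := by rw [Matrix.mul_assoc, Matrix.nonsing_inv_mul _ hG, Matrix.mul_one]
    _ = _ := by rw [this, Matrix.smul_mul, Matrix.one_mul]

/-- In odd dimension and characteristic two no symmetric non-degenerate matrix is invariant under an
irreducible group. -/
theorem no_invariant_symm_charTwo [Finite F] (hodd : Odd (Fintype.card ι)) (hn : 2 ≤ Fintype.card ι)
    (h2 : (2 : F) = 0) {N : Subgroup (GL ι F)} (hirr : ActsIrreducibly (matrixSet N)) (B : GL ι F)
    {M : Matrix ι ι F} (hM : Mᵀ = M) (hdet : M.det ≠ 0)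
    (hinv : ∀ x ∈ N, ((B * x * B⁻¹ : GL ι F) : Matrix ι ι F)ᵀ * M * ((B * x * B⁻¹ : GL ι F) : Matrix ι ι F) = M) :
    False := by
  classical
  let qd : (ι → F) → F := fun u => u ⬝ᵥ (M *ᵥ u)
  have hsymm : ∀ u v, u ⬝ᵥ (M *ᵥ v) = v ⬝ᵥ (M *ᵥ u) := fun u v => by
    rw [dotProduct_comm, ← Matrix.vecMul_transpose, hM, ← Matrix.dotProduct_mulVec]
  have hadd : ∀ u v, qd (u + v) = qd u + qd v := fun u v => by
    simp only [qd, Matrix.mulVec_add, dotProduct_add, add_dotProduct]
    linear_combination (hsymm v u) + (u ⬝ᵥ (M *ᵥ v)) * h2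
  have hsmul : ∀ (a : F) u, qd (a • u) = a ^ 2 * qd u := fun a u => by
    simp only [qd, Matrix.mulVec_smul, dotProduct_smul, smul_dotProduct, smul_eq_mul]
    ring
  let W : Submodule F (ι → F) :=
    { carrier := {w | qd (act B w) = 0}
      zero_mem' := by simp [qd, act]
      add_mem' := fun {a b} ha hb => by
        show qd (act B (a + b)) = 0
        rw [act, Matrix.mulVec_add, hadd]
        exact (congrArg₂ (· + ·) ha hb).trans (add_zero 0)
      smul_mem' := fun a w hw => by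
        show qd (act B (a • w)) = 0
        rw [act_smul B a w, hsmul, show qd (act B w) = 0 from hw, mul_zero] }
  rcases actsIrreducibly_iff.mp hirr W (fun x hx w hw => by
    show qd (act B (act x w)) = 0
    rw [show act B (act x w) = act (B * x * B⁻¹) (act B w) by rw [← act_mul, ← act_mul]; congr 1; group]
    generalize hA : ((B * x * B⁻¹ : GL ι F) : Matrix ι ι F) = A
    have hAi : Aᵀ * M * A = M := hA ▸ hinv x hx
    show (((B * x * B⁻¹ : GL ι F) : Matrix ι ι F) *ᵥ act B w) ⬝ᵥ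
      (M *ᵥ (((B * x * B⁻¹ : GL ι F) : Matrix ι ι F) *ᵥ act B w)) = 0
    rw [hA, dotProduct_comm, Matrix.dotProduct_mulVec, ← Matrix.mulVec_transpose, Matrix.mulVec_mulVec,
      Matrix.mulVec_mulVec, hAi, dotProduct_comm]
    exact hw) with hW | hW
  · -- `qd` has a non-trivial zero
    obtain ⟨i, j, hij⟩ := Fintype.exists_pair_of_one_lt_card (α := ι) (by omega)
    obtain ⟨u, hu0, hu⟩ : ∃ u : ι → F, u ≠ 0 ∧ qd u = 0 := by
      by_cases hi : qd (Pi.single i 1) = 0
      · exact ⟨_, by simp, hi⟩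
      have hinj : Function.Injective fun x : F => x ^ 2 := fun x y hxy => by
        have h4 : (x - y) ^ 2 = 0 := by linear_combination hxy + (y ^ 2 - x * y) * h2
        exact sub_eq_zero.mp (sq_eq_zero_iff.mp h4)
      obtain ⟨a, ha⟩ := Finite.injective_iff_surjective.mp hinj (qd (Pi.single j 1) / qd (Pi.single i 1))
      simp only at ha
      refine ⟨a • Pi.single i 1 + Pi.single j 1, fun h0 => ?_, ?_⟩
      · simpa [hij, hij.symm] using congrFun h0 j
      · rw [hadd, hsmul, ha, div_mul_cancel₀ _ hi]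
        linear_combination (qd (Pi.single j 1)) * h2
    have hm : act B⁻¹ u ∈ W := by show qd (act B (act B⁻¹ u)) = 0; rw [act_act_inv]; exact hu
    rw [hW, Submodule.mem_bot] at hm
    exact act_ne_zero _ hu0 hm
  · have hzero : ∀ u, qd u = 0 := fun u => by
      have : act B⁻¹ u ∈ W := hW ▸ Submodule.mem_top
      rwa [show act B⁻¹ u ∈ W ↔ qd (act B (act B⁻¹ u)) = 0 from Iff.rfl, act_act_inv] at this
    refine no_alternating_odd hodd (f := fun u v => u ⬝ᵥ (M *ᵥ v)) ⟨?_, ?_, ?_, ?_⟩ hzero ?_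
    · exact fun x y v => add_dotProduct _ _ _
    · exact fun c x v => by rw [smul_dotProduct, smul_eq_mul]
    · exact fun v x y => by simp only [Matrix.mulVec_add, dotProduct_add]
    · exact fun c v x => by simp only [Matrix.mulVec_smul, dotProduct_smul, smul_eq_mul]
    intro v hv
    have hMv : M *ᵥ v ≠ 0 := fun h => hdet (Matrix.exists_mulVec_eq_zero_iff.mp ⟨v, hv, h⟩)
    obtain ⟨k, hk⟩ := Function.ne_iff.mp hMv
    refine ⟨⟨Pi.single k 1, by simpa [single_dotProduct] using hk⟩, ⟨Pi.single k 1, ?_⟩⟩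
    show v ⬝ᵥ (M *ᵥ Pi.single k 1) ≠ 0
    rw [hsymm]
    simpa [single_dotProduct] using hk

end

variable {F : Type*} [Field F] [Fintype F] {n q : ℕ} {σ : F ≃+* F}

namespace UnitarySetup

/-- The reducible case. -/
theorem reducible_case (hu : UnitarySetup n q σ) (hodd : Odd n) {H : Subgroup (GL (Fin n) F)}
    (hG : H ≤ Cfsg.GU n F q) (hirr : ¬ ActsIrreducibly (matrixSet H)) :
    ∃ W : Submodule F (Fin n → F), W ≠ ⊥ ∧ W ≠ ⊤ ∧ H ≤ subspaceStabilizer W ∧
      (IsTotallySingularFor (Cfsg.hermForm n F q) W ∨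
        (IsNondegenerateOn (Cfsg.hermForm n F q) W ∧ 2 * Module.finrank F W < n)) := by
  classical
  rw [actsIrreducibly_iff] at hirr
  push Not at hirr
  obtain ⟨W, hW, h0, h1⟩ := hirr
  have hperp : ∀ U : Submodule F (Fin n → F), (∀ g ∈ H, ∀ v ∈ U, act g v ∈ U) →
      ∀ g ∈ H, ∀ v ∈ hu.perpSub U, act g v ∈ hu.perpSub U := by
    intro U hU g hg v hv w hw
    have h := mem_GU.mp (hG hg) v (act g⁻¹ w)
    rw [act_act_inv, hv _ (hU g⁻¹ (H.inv_mem hg) w hw)] at h
    exact h
  by_cases hR : W ⊓ hu.perpSub W = ⊥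
  swap
  · refine ⟨_, hR, fun h => h1 (top_le_iff.mp (h ▸ inf_le_left)),
      le_subspaceStabilizer (fun g hg v hv => ⟨hW g hg v hv.1, hperp W hW g hg v hv.2⟩),
      Or.inl fun a ha b hb => ha.2 b hb.1⟩
  have hnd : ∀ U : Submodule F (Fin n → F), U ⊓ hu.perpSub U = ⊥ →
      IsNondegenerateOn (Cfsg.hermForm n F q) U := by
    intro U hU w hw hw0
    have : ∃ x ∈ U, Cfsg.hermForm n F q w x ≠ 0 := by
      by_contra hall
      push Not at hall
      have hmem : w ∈ U ⊓ hu.perpSub U := ⟨hw, hall⟩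
      rw [hU, Submodule.mem_bot] at hmem
      exact hw0 hmem
    obtain ⟨x, hx, hwx⟩ := this
    exact ⟨⟨x, hx, fun h => hwx (hu.eq_zero_comm.mp h)⟩, x, hx, hwx⟩
  have hsum := Submodule.finrank_sup_add_finrank_inf_eq W (hu.perpSub W)
  have hle := Submodule.finrank_le (W ⊔ hu.perpSub W)
  have hge := hu.le_finrank_perpSub W
  rw [hR, finrank_bot, add_zero] at hsum
  rw [Module.finrank_fin_fun] at hle
  rcases lt_or_ge (2 * Module.finrank F W) n with hlt | hlt
  · exact ⟨W, h0, h1, le_subspaceStabilizer hW, Or.inr ⟨hnd W hR, hlt⟩⟩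
  have hW' : Module.finrank F W < n := by
    have := Submodule.finrank_lt h1
    rwa [Module.finrank_fin_fun] at this
  refine ⟨hu.perpSub W, fun h => ?_, fun h => ?_, le_subspaceStabilizer (hperp W hW),
    Or.inr ⟨hnd _ ?_, ?_⟩⟩
  · rw [h, finrank_bot] at hge; omega
  · rw [h, inf_top_eq] at hR; exact h0 hR
  · have htop : W ⊔ hu.perpSub W = ⊤ := Submodule.eq_top_of_finrank_eq (by rw [Module.finrank_fin_fun]; omega)
    rw [Submodule.eq_bot_iff]
    rintro x ⟨hx, hx'⟩
    by_contra hx0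
    obtain ⟨⟨y, hy⟩, -⟩ := hu.isUnitary.nondegenerate x hx0
    have hy' : y ∈ W ⊔ hu.perpSub W := htop ▸ Submodule.mem_top
    obtain ⟨a, ha, b, hb, rfl⟩ := Submodule.mem_sup.mp hy'
    rw [hu.sesqui.add_left, hu.eq_zero_comm.mp (hx a ha), hu.eq_zero_comm.mp (hx' b hb), add_zero] at hy
    exact hy rfl
  · obtain ⟨m, hm⟩ := hodd
    omega

/-- The eigenlines of a normal subgroup form an orthogonal decomposition. -/
theorem nondegenerate_of_eigenLines (hu : UnitarySetup n q σ) (hodd : Odd n)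
    {H N : Subgroup (GL (Fin n) F)} (hN : NormalIn N H) (hG : H ≤ Cfsg.GU n F q)
    (hirr : ActsIrreducibly (matrixSet H)) {D χ} (hD : EigenLines H N D χ) :
    IsNondegenerateMDecomposition (Cfsg.hermForm n F q) 1 D := by
  classical
  have hodd' : Odd (Fintype.card (Fin (Fintype.card (Fin n)))) := by simpa using hodd
  have hne : ∀ k, D k ≠ ⊥ := fun k h => by
    have := hD.decomp.finrank_eq k
    rw [h, finrank_bot] at this
    omega
  choose d hd hd0 using fun k => (D k).ne_bot_iff.mp (hne k)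
  have hspan : ∀ k, ∀ w ∈ D k, ∃ a : F, w = a • d k := by
    intro k w hw
    obtain ⟨a, ha⟩ := (finrank_eq_one_iff_of_nonzero' (⟨d k, hd k⟩ : D k)
      (fun h => hd0 k (congrArg Subtype.val h))).mp (hD.decomp.finrank_eq k) ⟨w, hw⟩
    exact ⟨a, (congrArg Subtype.val ha).symm⟩
  -- characters of non-orthogonal lines are dual
  have hdual : ∀ i j, Cfsg.hermForm n F q (d i) (d j) ≠ 0 → ∀ g ∈ N, χ i g * σ (χ j g) = 1 := by
    intro i j hij g hg
    have h := mem_GU.mp (hG (hN.le hg)) (d i) (d j)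
    rw [hD.eigen g hg i _ (hd i), hD.eigen g hg j _ (hd j), hu.sesqui.smul_left, hu.sesqui.smul_right,
      ← mul_assoc] at h
    exact mul_right_cancel₀ hij (h.trans (one_mul _).symm)
  have huniq : ∀ i j k, Cfsg.hermForm n F q (d i) (d j) ≠ 0 → Cfsg.hermForm n F q (d i) (d k) ≠ 0 → j = k := by
    intro i j k hj hk
    by_contra hjk
    obtain ⟨g, hg, hne⟩ := hD.distinct j k hjk
    apply hne
    apply σ.injective
    have h1 := hdual i j hj g hg
    have h2 := hdual i k hk g hg
    exact mul_left_cancel₀ (left_ne_zero_of_mul_eq_one h1) (h1.trans h2.symm)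
  have htop : ∀ v, v ∈ Submodule.span F (Set.range d) := by
    intro v
    have h : iSup D ≤ Submodule.span F (Set.range d) := iSup_le fun k w hw => by
      obtain ⟨a, rfl⟩ := hspan k w hw
      exact Submodule.smul_mem _ a (Submodule.subset_span ⟨k, rfl⟩)
    exact h (hD.decomp.iSup_eq_top ▸ Submodule.mem_top)
  have hexists : ∀ i, ∃ j, Cfsg.hermForm n F q (d i) (d j) ≠ 0 := by
    intro i
    by_contra hall
    push Not at hall
    obtain ⟨-, y, hy⟩ := hu.isUnitary.nondegenerate (d i) (hd0 i)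
    apply hy
    clear hy
    induction htop y using Submodule.span_induction with
    | mem x hx => obtain ⟨k, rfl⟩ := hx; exact hall k
    | zero => rw [hu.herm_eq]; simp [dotProduct]
    | add a b _ _ ha hb =>
      show Cfsg.hermForm n F q (d i) (a + b) = 0
      rw [hu.sesqui.add_right, show Cfsg.hermForm n F q (d i) a = 0 from ha,
        show Cfsg.hermForm n F q (d i) b = 0 from hb, add_zero]
    | smul c a _ ha =>
      show Cfsg.hermForm n F q (d i) (c • a) = 0
      rw [hu.sesqui.smul_right, show Cfsg.hermForm n F q (d i) a = 0 from ha, mul_zero]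
  choose τ hτ using hexists
  have hττ : ∀ i, τ (τ i) = i := fun i =>
    huniq (τ i) _ _ (hτ (τ i)) (fun h => hτ i (hu.eq_zero_comm.mp h))
  -- a fixed point
  obtain ⟨i₀, hi₀⟩ : ∃ i, τ i = i := by
    by_contra hall
    push Not at hall
    let π : Equiv.Perm (Fin (Fintype.card (Fin n))) := ⟨τ, τ, hττ, hττ⟩
    have hs : π.support = Finset.univ := Finset.eq_univ_of_forall fun a => Equiv.Perm.mem_support.mpr (hall a)
    have hord : π ^ 2 = 1 := Equiv.ext fun a => by simp [pow_two, π, hττ]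
    have hdvd := Equiv.Perm.two_dvd_card_support hord
    rw [hs, Finset.card_univ] at hdvd
    exact (Nat.not_even_iff_odd.mpr hodd') (even_iff_two_dvd.mpr hdvd)
  -- the anisotropic lines span an invariant subspace
  let W : Submodule F (Fin n → F) := ⨆ i ∈ {i | Cfsg.hermForm n F q (d i) (d i) ≠ 0}, D i
  have hWinv : ∀ g ∈ H, ∀ v ∈ W, act g v ∈ W := by
    intro g hg v hv
    obtain ⟨π, hπ⟩ := hD.le hg
    have hle : W.map (Matrix.toLin' (g : Matrix (Fin n) (Fin n) F)) ≤ W := by
      simp only [W, Submodule.map_iSup]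
      refine iSup₂_le fun i hi => ?_
      rw [hπ i]
      refine le_iSup₂_of_le (π i) ?_ le_rfl
      obtain ⟨a, ha⟩ := hspan (π i) (act g (d i)) (by
        rw [← hπ i]; exact ⟨d i, hd i, Matrix.toLin'_apply _ _⟩)
      intro h0
      apply hi
      have h := mem_GU.mp (hG hg) (d i) (d i)
      rw [ha, hu.sesqui.smul_left, hu.sesqui.smul_right,
        show Cfsg.hermForm n F q (d (π i)) (d (π i)) = 0 from h0, mul_zero, mul_zero] at h
      exact h.symm
    exact hle ⟨v, hv, Matrix.toLin'_apply _ _⟩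
  have hWtop : W = ⊤ := by
    refine (actsIrreducibly_iff.mp hirr W hWinv).resolve_left fun h => hd0 i₀ ?_
    have : d i₀ ∈ W := Submodule.mem_iSup_of_mem i₀ (Submodule.mem_iSup_of_mem (by
      have := hτ i₀; rwa [hi₀] at this) (hd i₀))
    simpa [h] using this
  have hdiag : ∀ i, Cfsg.hermForm n F q (d i) (d i) ≠ 0 := by
    intro i h0
    apply hd0 i
    have hsub : W ≤ ⨆ (k) (_ : k ≠ i), D k :=
      iSup₂_le fun k hk => le_iSup₂_of_le k (fun e : k = i => hk (e ▸ h0)) le_rfl
    exact Submodule.disjoint_def.mp (hD.decomp.indep i) _ (hd i) (hsub (hWtop ▸ Submodule.mem_top))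
  have horth : ∀ i j, i ≠ j → Cfsg.hermForm n F q (d i) (d j) = 0 := fun i j hij => by
    by_contra h
    exact hij (huniq i i j (hdiag i) h)
  refine ⟨hD.decomp, fun i w hw hw0 => ?_, fun i j hij u hu' v hv => ?_⟩
  · obtain ⟨a, rfl⟩ := hspan i w hw
    have ha : a ≠ 0 := fun h => hw0 (by rw [h, zero_smul])
    refine ⟨⟨d i, hd i, ?_⟩, ⟨d i, hd i, ?_⟩⟩
    · show Cfsg.hermForm n F q (d i) (a • d i) ≠ 0
      rw [hu.sesqui.smul_right]; exact mul_ne_zero ((map_ne_zero σ).mpr ha) (hdiag i)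
    · show Cfsg.hermForm n F q (a • d i) (d i) ≠ 0
      rw [hu.sesqui.smul_left]; exact mul_ne_zero ha (hdiag i)
  · obtain ⟨a, rfl⟩ := hspan i u hu'
    obtain ⟨b, rfl⟩ := hspan j v hv
    show Cfsg.hermForm n F q (a • d i) (b • d j) = 0
    rw [hu.sesqui.smul_left, hu.sesqui.smul_right, horth i j hij, mul_zero, mul_zero]

/-- The field attached to a normal subgroup is closed under adjoints. -/
theorem adjointClosed_of_fullField (hu : UnitarySetup n q σ) {H N : Subgroup (GL (Fin n) F)}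
    (hN : N ≤ Cfsg.GU n F q) {K : Subalgebra F (Matrix (Fin n) (Fin n) F)} (hK : FullField H N K) :
    IsAdjointClosedFor (Cfsg.hermForm n F q) K := by
  intro k hk
  refine ⟨(k.map σ)ᵀ, ?_, fun u v => ?_⟩
  · rw [hK.mem_iff]
    rintro _ ⟨x, hx, rfl⟩
    set X : Matrix (Fin n) (Fin n) F := ↑x
    have h1 := congrArg Matrix.transpose (congrArg (fun m : Matrix (Fin n) (Fin n) F => m.map σ)
      ((hK.mem_iff k).mp hk X (coe_mem_matrixSet hx)))
    simp only [Matrix.map_mul, Matrix.transpose_mul] at h1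
    -- `h1` says that the transpose of `σ k` commutes with the transpose of `σ X`
    have hinv : ((X.map σ)ᵀ) * X = 1 := hu.map_transpose_mul (hN hx)
    have hinv' : X * (X.map σ)ᵀ = 1 := mul_eq_one_comm.mp hinv
    calc X * (k.map σ)ᵀ = X * ((k.map σ)ᵀ * (X.map σ)ᵀ) * X := by
          rw [Matrix.mul_assoc, Matrix.mul_assoc, hinv, Matrix.mul_one]
      _ = X * ((X.map σ)ᵀ * (k.map σ)ᵀ) * X := by rw [h1]
      _ = (k.map σ)ᵀ * X := by rw [← Matrix.mul_assoc, hinv', Matrix.one_mul]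
  · rw [hu.herm_eq, hu.herm_eq]
    have : σ ∘ ((k.map σ)ᵀ *ᵥ v) = kᵀ *ᵥ (σ ∘ v) := by
      have h := map_mulVec_comp (σ : F →+* F) ((k.map σ)ᵀ) v
      simp only [RingEquiv.coe_toRingHom] at h
      rw [h]
      congr 1
      exact Matrix.ext fun i j => hu.invol _
    rw [this, ← Matrix.vecMul_transpose, Matrix.dotProduct_mulVec]

/-- The subfield case. -/
theorem subfield_case (hu : UnitarySetup n q σ) (hodd : Odd n) (hn : 2 ≤ n)
    {H N : Subgroup (GL (Fin n) F)} (hN : NormalIn N H) (hG : H ≤ Cfsg.GU n F q)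
    (habs : ActsAbsolutelyIrreducibly (matrixSet N)) {K : Subfield F} (hK : K ≠ ⊤)
    (hreal : RealisableOver K (matrixSet N)) :
    ∃ (F₀ : Subfield F) (r : ℕ) (P : GL (Fin n) F), r.Prime ∧ F₀ ≠ ⊤ ∧ Fintype.card F = Nat.card F₀ ^ r ∧
      IsFormRationalStructure (Cfsg.hermForm n F q) F₀ 1 P ∧ H ≤ subfieldSubgroup F₀ P ∧
      (Odd r ∨ (r = 2 ∧ Odd q)) := by
  classical
  haveI : Nonempty (Fin n) := ⟨⟨0, by omega⟩⟩
  obtain ⟨B, hB₀⟩ := hreal
  obtain ⟨K₁, r, hr, hle, hcard⟩ := exists_prime_index_overfield hK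
  have hK₁ : K₁ ≠ ⊤ := by
    rintro rfl
    rw [show Nat.card (⊤ : Subfield F) = Nat.card F from
      Nat.card_congr (Equiv.subtypeUnivEquiv fun x => Subfield.mem_top x), Nat.card_eq_fintype_card] at hcard
    exact (lt_self_pow₀ Fintype.one_lt_card hr.one_lt).ne hcard
  have hB : ∀ x ∈ N, ∀ i j, ((B * x * B⁻¹ : GL (Fin n) F) : Matrix (Fin n) (Fin n) F) i j ∈ K₁ := fun x hx i j =>
    hle (hB₀ _ (coe_mem_matrixSet hx) i j)
  obtain ⟨p, hchar⟩ := CharP.exists F
  obtain ⟨e, hp, hq⟩ := FiniteField.card F p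
  haveI := Fact.mk hp
  obtain ⟨d, hd0, -, hKcard, hKeq⟩ := exists_fixedField_eq hq K₁
  set τ := iterateFrobenius F p d with hτdef
  have hτ : ∀ x, τ x = x ↔ x ∈ K₁ := fun x => by rw [hKeq, mem_fixedField, iterateFrobenius_def]
  have hcomm : ∀ x, τ (σ x) = σ (τ x) := fun x => by rw [hu.pow, hu.pow, map_pow]
  have hσK : ∀ x ∈ K₁, σ x ∈ K₁ := fun x hx => by rw [hu.pow]; exact K₁.pow_mem hx q
  set C : Matrix (Fin n) (Fin n) F := ((B⁻¹ : GL (Fin n) F) : Matrix (Fin n) (Fin n) F)
  set G' := Cᵀ * C.map σ with hG'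
  -- invariance of the Gram matrix
  have hinvG' : ∀ x ∈ N, ((B * x * B⁻¹ : GL (Fin n) F) : Matrix (Fin n) (Fin n) F)ᵀ * G'
      * ((B * x * B⁻¹ : GL (Fin n) F) : Matrix (Fin n) (Fin n) F).map σ = G' := by
    intro x hx
    have e1 : C * ((B * x * B⁻¹ : GL (Fin n) F) : Matrix (Fin n) (Fin n) F) = (x : Matrix _ _ F) * C := by
      rw [← Units.val_mul, ← Units.val_mul]; congr 1; group
    calc _ = (C * ((B * x * B⁻¹ : GL (Fin n) F) : Matrix (Fin n) (Fin n) F))ᵀ
          * (C * ((B * x * B⁻¹ : GL (Fin n) F) : Matrix (Fin n) (Fin n) F)).map σ := by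
          simp only [G', Matrix.transpose_mul, Matrix.map_mul, Matrix.mul_assoc]
      _ = Cᵀ * ((x : Matrix (Fin n) (Fin n) F)ᵀ * (x : Matrix (Fin n) (Fin n) F).map σ) * C.map σ := by
          rw [e1]
          simp only [Matrix.transpose_mul, Matrix.map_mul, Matrix.mul_assoc]
      _ = _ := by rw [hu.transpose_mul (hG (hN.le hx)), Matrix.mul_one]
  obtain ⟨c, hc⟩ : ∃ c : F, G'.map τ = c • G' := by
    set Bm : Matrix (Fin n) (Fin n) F := ↑B
    have hinv : ∀ s ∈ matrixSet N, sᵀ * (Bmᵀ * G'.map τ * Bm.map σ) * s.map σ = Bmᵀ * G'.map τ * Bm.map σ := by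
      rintro _ ⟨x, hx, rfl⟩
      set X : Matrix (Fin n) (Fin n) F := ↑x
      set A : Matrix (Fin n) (Fin n) F := ((B * x * B⁻¹ : GL (Fin n) F) : Matrix (Fin n) (Fin n) F)
      have hA : A.map τ = A := Matrix.ext fun i j => (hτ _).mpr (hB x hx i j)
      have e1 : Bm * X = A * Bm := by simp only [Bm, X, A, ← Units.val_mul]; congr 1; group
      have e2 : Aᵀ * G'.map τ * A.map σ = G'.map τ := by
        have h1 : (Aᵀ * G' * A.map σ).map τ = G'.map τ :=
          congrArg (fun m : Matrix (Fin n) (Fin n) F => m.map τ) (hinvG' x hx)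
        rw [Matrix.map_mul, Matrix.map_mul, show Aᵀ.map τ = Aᵀ from Matrix.ext fun i j => (hτ _).mpr (hB x hx j i),
          show (A.map σ).map τ = A.map σ from Matrix.ext fun i j => by
            simp only [Matrix.map_apply]; rw [hcomm, show τ (A i j) = A i j from (hτ _).mpr (hB x hx i j)]] at h1
        exact h1
      calc Xᵀ * (Bmᵀ * G'.map τ * Bm.map σ) * X.map σ
          = (Bm * X)ᵀ * G'.map τ * (Bm * X).map σ := by
            simp only [Matrix.transpose_mul, Matrix.map_mul, Matrix.mul_assoc]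
        _ = Bmᵀ * (Aᵀ * G'.map τ * A.map σ) * Bm.map σ := by
            rw [e1]; simp only [Matrix.transpose_mul, Matrix.map_mul, Matrix.mul_assoc]
        _ = _ := by rw [e2]
    obtain ⟨c, hc⟩ := gram_unique (σ := (σ : F →+* F)) habs (G := 1) (by simp) (by
      rintro _ ⟨x, hx, rfl⟩; rw [Matrix.mul_one]; exact hu.transpose_mul (hG (hN.le hx))) hinv
    refine ⟨c, ?_⟩
    have hBC : Bm * C = 1 := by simp only [Bm, C, ← Units.val_mul, mul_inv_cancel, Units.val_one]
    calc G'.map τ = (Bm * C)ᵀ * G'.map τ * (Bm * C).map σ := by simp [hBC]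
      _ = Cᵀ * (Bmᵀ * G'.map τ * Bm.map σ) * C.map σ := by
          simp only [Matrix.transpose_mul, Matrix.map_mul, Matrix.mul_assoc]
      _ = _ := by
          rw [hc, Matrix.mul_smul, Matrix.mul_one, Matrix.smul_mul]
  have hG'det : G'.det ≠ 0 := by
    rw [hG', Matrix.det_mul, Matrix.det_transpose]
    have hd : C.det ≠ 0 := (Matrix.isUnit_iff_isUnit_det _).mp (B⁻¹).isUnit |>.ne_zero
    refine mul_ne_zero hd ?_
    rw [show (C.map σ).det = σ C.det from (RingEquiv.map_det σ C).symm]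
    exact (map_ne_zero σ).mpr hd
  obtain ⟨i₀, j₀, hζ⟩ : ∃ i j, G' i j ≠ 0 := by
    by_contra hall
    push Not at hall
    exact hG'det (Matrix.det_eq_zero_of_row_eq_zero (⟨0, by omega⟩ : Fin n) (hall _))
  set ζ := G' i₀ j₀
  have hτζ : τ ζ = c * ζ := congrFun (congrFun hc i₀) j₀
  have hc0 : c ≠ 0 := fun h => hζ ((map_eq_zero τ).mp (by rw [hτζ, h, zero_mul]))
  have hMK : ∀ i j, G' i j / ζ ∈ K₁ := fun i j => by
    have h1 : τ (G' i j) = c * G' i j := congrFun (congrFun hc i) j
    rw [← hτ, map_div₀, h1, hτζ, mul_div_mul_left _ _ hc0]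
  have hherm : ∀ i j, σ (G' i j) = G' j i := by
    intro i j
    have : (G'.map σ) = G'ᵀ := by
      simp only [G', Matrix.map_mul, Matrix.transpose_mul, Matrix.transpose_transpose]
      congr 1
      exact Matrix.ext fun a b => hu.invol _
    exact congrFun (congrFun this i) j
  set ρ := σ ζ / ζ
  have hρK : ρ ∈ K₁ := by simp only [ρ, ζ]; rw [hherm]; exact hMK j₀ i₀
  -- rescaling `B`
  suffices hfin : (∃ η ∈ K₁, η ≠ 0 ∧ σ (ζ / η) = ζ / η) ∧ (Odd r ∨ (r = 2 ∧ Odd q)) by
    obtain ⟨⟨η, hηK, hη0, hη⟩, hcase⟩ := hfin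
    obtain ⟨μ, hμ, -⟩ := hu.exists_norm_avoid hη (div_ne_zero hζ hη0) ∅ (by simp)
    have hμ0 : μ ≠ 0 := fun h => div_ne_zero hζ hη0 (by rw [← hμ, h, zero_mul])
    set z : GL (Fin n) F := Units.map (Matrix.scalar (Fin n) : F →+* Matrix (Fin n) (Fin n) F).toMonoidHom
      (Units.mk0 μ hμ0)
    have hzs : z ∈ scalars (Fin n) F := scalar_mem_scalars _
    refine ⟨K₁, r, (z * B)⁻¹, hr, hK₁, hcard, ?_, le_subfieldSubgroup hN habs ?_, hcase⟩
    · intro u v hu' hv
      rw [one_mul]
      have hzC : (((z * B)⁻¹ : GL (Fin n) F) : Matrix (Fin n) (Fin n) F) = μ⁻¹ • C := by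
        rw [mul_inv_rev, Units.val_mul, show ((z⁻¹ : GL (Fin n) F) : Matrix (Fin n) (Fin n) F) = μ⁻¹ • 1 from by
          rw [show z⁻¹ = Units.map (Matrix.scalar (Fin n) : F →+* Matrix (Fin n) (Fin n) F).toMonoidHom
            (Units.mk0 μ hμ0)⁻¹ from (map_inv _ _).symm]
          simp [Matrix.smul_one_eq_diagonal], Matrix.mul_smul, Matrix.mul_one]
      rw [hzC, Matrix.smul_mulVec, Matrix.smul_mulVec, hu.sesqui.smul_left, hu.sesqui.smul_right,
        RingEquiv.coe_toRingHom, map_inv₀, ← mul_assoc, ← mul_inv, hμ,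
        (hu.sesqui.transform C).apply_eq u v, hu.sesqui.gram_transform C, hu.gram_eq_one, Matrix.mul_one]
      simp only [dotProduct, Matrix.mulVec, RingEquiv.coe_toRingHom, Function.comp_apply, Finset.mul_sum]
      refine K₁.sum_mem fun a _ => K₁.sum_mem fun b _ => ?_
      rw [show (ζ / η)⁻¹ * (u a * ((Cᵀ * C.map σ) a b * σ (v b))) = u a * (G' a b / ζ * η) * σ (v b) by
        rw [← hG']; field_simp]
      exact K₁.mul_mem (K₁.mul_mem (hu' a) (K₁.mul_mem (hMK a b) hηK)) (hσK _ (hv b))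
    · rintro _ ⟨x, hx, rfl⟩ i j
      rw [← Units.val_mul, ← Units.val_mul, show z * B * x * (z * B)⁻¹ = z * (B * x * B⁻¹) * z⁻¹ by group,
        scalars_commute hzs, mul_inv_cancel_right]
      exact hB x hx i j
  have hρσ : ρ * σ ρ = 1 := by
    simp only [ρ, map_div₀, hu.invol]
    field_simp [hζ, (map_ne_zero σ).mpr hζ]
  have hρ0 : ρ ≠ 0 := left_ne_zero_of_mul_eq_one hρσ
  rcases eq_or_ne r 2 with hr2 | hr2
  · subst hr2
    have hKq : Nat.card K₁ = q := Nat.pow_left_injective two_ne_zero (hcard.symm.trans hu.card)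
    have hfix : ∀ x ∈ K₁, σ x = x := fun x hx => by
      have h := FiniteField.pow_card (⟨x, hx⟩ : K₁)
      rw [← Nat.card_eq_fintype_card, hKq] at h
      rw [hu.pow]; exact congrArg Subtype.val h
    -- the normalised Gram matrix is symmetric
    have hsym : ∀ i j, G' j i / ζ = ρ * (G' i j / ζ) := by
      intro i j
      have h1 := hfix _ (hMK i j)
      rw [map_div₀, hherm] at h1
      rw [← h1]
      simp only [ρ]
      field_simp [hζ, (map_ne_zero σ).mpr hζ]
    rw [hfix ρ hρK] at hρσ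
    have hρ1 : ρ = 1 := by
      rcases mul_self_eq_one_iff.mp hρσ with h | h
      · exact h
      · by_cases h2 : (2 : F) = 0
        · rw [h]; linear_combination (-1 : F) * h2
        exfalso
        set M : Matrix (Fin n) (Fin n) F := Matrix.of fun i j => G' i j / ζ
        have hM : Mᵀ = -M := Matrix.ext fun i j => by
          simp only [M, Matrix.transpose_apply, Matrix.of_apply, Matrix.neg_apply]
          rw [hsym, h]; ring
        have hdet := congrArg Matrix.det hM
        rw [Matrix.det_transpose, Matrix.det_neg, Fintype.card_fin, hodd.neg_one_pow, neg_one_mul] at hdet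
        have h0 : M.det = 0 := by
          have h4 : (2 : F) * M.det = 0 := by linear_combination hdet
          exact (mul_eq_zero.mp h4).resolve_left h2
        apply hG'det
        rw [show G' = ζ • M from Matrix.ext fun i j => by simp [M]; field_simp, Matrix.det_smul, h0, mul_zero]
    refine ⟨⟨1, K₁.one_mem, one_ne_zero, ?_⟩, Or.inr ⟨rfl, ?_⟩⟩
    · rw [div_one]; exact (div_eq_one_iff_eq hζ).mp hρ1
    · by_contra hqe
      rw [Nat.not_odd_iff_even] at hqe
      have h2 : (2 : F) = 0 := by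
        have h4 : ((Fintype.card F : ℕ) : F) = 0 := Nat.cast_card_eq_zero F
        obtain ⟨m, hm⟩ := hqe
        rw [hu.card, hm] at h4
        have hp2 : p = 2 := by
          have : 2 ∣ p ^ (e : ℕ) := by rw [← hq, hu.card, hm]; exact dvd_pow ⟨m, by ring⟩ two_ne_zero
          exact ((Nat.prime_dvd_prime_iff_eq Nat.prime_two hp).mp (Nat.prime_two.dvd_of_dvd_pow this)).symm
        subst hp2
        exact_mod_cast CharP.cast_eq_zero F 2
      set M : Matrix (Fin n) (Fin n) F := Matrix.of fun i j => G' i j / ζ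
      refine no_invariant_symm_charTwo (M := M) (by simpa using hodd) (by simpa using hn) h2 habs.1 B
        (Matrix.ext fun i j => by simp only [M, Matrix.transpose_apply, Matrix.of_apply]; rw [hsym, hρ1, one_mul])
        ?_ (fun x hx => ?_)
      · intro h0
        apply hG'det
        rw [show G' = ζ • M from Matrix.ext fun i j => by simp [M]; field_simp, Matrix.det_smul, h0, mul_zero]
      · have h1 := hinvG' x hx
        rw [show ((B * x * B⁻¹ : GL (Fin n) F) : Matrix (Fin n) (Fin n) F).map σ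
          = ((B * x * B⁻¹ : GL (Fin n) F) : Matrix (Fin n) (Fin n) F) from
            Matrix.ext fun i j => hfix _ (hB x hx i j)] at h1
        rw [show M = ζ⁻¹ • G' from Matrix.ext fun i j => by simp [M, div_eq_inv_mul], Matrix.mul_smul,
          Matrix.smul_mul, h1]
  · have hrodd : Odd r := hr.odd_of_ne_two hr2
    refine ⟨?_, Or.inl hrodd⟩
    -- `σ` moves an element of `K₁`
    obtain ⟨y, hy, hyσ⟩ : ∃ y ∈ K₁, σ y ≠ y := by
      by_contra hall
      push Not at hall
      obtain ⟨k, hk⟩ : ∃ k, q = p ^ k := by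
        obtain ⟨k, -, hk⟩ := (Nat.dvd_prime_pow hp).mp (show q ∣ p ^ (e : ℕ) from ⟨q, by rw [← hq, hu.card, sq]⟩)
        exact ⟨k, hk⟩
      have h2k : k * 2 = d * r := Nat.pow_right_injective hp.two_le
        (show p ^ (k * 2) = p ^ (d * r) by rw [pow_mul, ← hk, ← hu.card, hcard, hKcard, pow_mul])
      obtain ⟨d', hd'⟩ : 2 ∣ d :=
        (Nat.Coprime.dvd_mul_right (Nat.coprime_two_left.mpr hrodd)).mp ⟨k, by rw [← h2k, mul_comm]⟩
      obtain ⟨s, hs⟩ := hrodd
      have hk' : k = d * s + d' := by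
        rw [hd', hs] at h2k
        rw [hd']
        ring_nf at h2k ⊢
        omega
      have hle' : K₁ ≤ fixedField p d' := by
        intro x hx
        rw [mem_fixedField]
        have h1 := hall x hx
        rw [hu.pow, hk, hk', pow_add, pow_mul x] at h1
        have h2 : x ^ p ^ (d * s) = x := by
          have hxd : x ^ p ^ d = x := mem_fixedField.mp (hKeq ▸ hx)
          clear * - hxd
          induction s with
          | zero => simp
          | succ s ih => rw [Nat.mul_succ, pow_add, pow_mul, ih, hxd]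
        rwa [h2] at h1
      have h3 : Nat.card K₁ ≤ Nat.card (fixedField (F := F) p d') :=
        Nat.card_le_card_of_injective (fun x => ⟨x.1, hle' x.2⟩) fun a b hab => Subtype.ext (congrArg (·.1) hab)
      rw [hKcard, card_fixedField hq (by omega) ?_] at h3
      · exact absurd ((Nat.pow_le_pow_iff_right hp.one_lt).mp h3) (by omega)
      · refine ⟨2 * r, ?_⟩
        apply Nat.pow_right_injective hp.two_le
        show p ^ (e : ℕ) = p ^ _
        rw [← hq, hcard, hKcard, ← pow_mul, hd']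
        ring_nf
    obtain ⟨a, haK, ha⟩ : ∃ a ∈ K₁, a + σ a / ρ ≠ 0 := by
      by_contra hall
      push Not at hall
      have h1 := hall 1 K₁.one_mem
      rw [map_one] at h1
      have h2 := hall y hy
      apply hyσ
      have e1 : ρ + 1 = ρ * (1 + 1 / ρ) := by rw [mul_add, mul_one, mul_div_cancel₀ _ hρ0]
      have e2 : ρ * y + σ y = ρ * (y + σ y / ρ) := by rw [mul_add, mul_div_cancel₀ _ hρ0]
      rw [h1, mul_zero] at e1
      rw [h2, mul_zero] at e2
      linear_combination e2 - y * e1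
    refine ⟨a + σ a / ρ, K₁.add_mem haK (K₁.div_mem (hσK a haK) hρK), ha, ?_⟩
    have hση : σ (a + σ a / ρ) = ρ * (a + σ a / ρ) := by
      rw [map_add, map_div₀, hu.invol, show σ ρ = ρ⁻¹ from (eq_inv_of_mul_eq_one_right hρσ)]
      field_simp
      ring
    rw [map_div₀, hση, show σ ζ = ρ * ζ by simp only [ρ]; field_simp, mul_div_mul_left _ _ hρ0]

/-- A non-degenerate invariant bilinear form forces realisability over the fixed field. -/
theorem realisable_of_bilinear (hu : UnitarySetup n q σ) (hodd : Odd n) {P : Subgroup (GL (Fin n) F)}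
    (hG : P ≤ Cfsg.GU n F q) (habs : ActsAbsolutelyIrreducibly (matrixSet P))
    {b : (Fin n → F) → (Fin n → F) → F} (hb : IsBilinearForm b) (hnd : IsNondegenerateForm b)
    (hfix : FixesForm (matrixSet P) b) : ∃ K : Subfield F, K ≠ ⊤ ∧ RealisableOver K (matrixSet P) := by
  classical
  obtain ⟨K, hK, -⟩ := hu.exists_fixed
  refine ⟨K, fun h => hu.isUnitary.ne_refl (RingEquiv.ext fun x => (hK x).mp (h ▸ Subfield.mem_top x)), ?_⟩
  have hS := IsSesqui.of_bilinear hb
  set M := gramMatrix b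
  have hMdet := hS.isUnit_det_gram Function.surjective_id hnd
  have hMs : ∀ x ∈ P, (x : Matrix (Fin n) (Fin n) F).map σ * M = M * (x : Matrix (Fin n) (Fin n) F) := by
    intro x hx
    set X : Matrix (Fin n) (Fin n) F := ↑x
    have h1 : Xᵀ * M * X = M := by
      have := hS.gram_transform X
      rw [show (fun u v => b (X *ᵥ u) (X *ᵥ v)) = b from funext₂ (hfix _ (coe_mem_matrixSet hx))] at this
      rw [show X.map (RingHom.id F) = X from Matrix.ext fun _ _ => rfl] at this
      exact this.symm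
    have h2 : X.map σ * Xᵀ = 1 := mul_eq_one_comm.mp (hu.transpose_mul (hG hx))
    calc X.map σ * M = X.map σ * (Xᵀ * M * X) := by rw [h1]
      _ = M * X := by rw [← Matrix.mul_assoc, ← Matrix.mul_assoc, h2, Matrix.one_mul]
  have hσσ : ∀ A : Matrix (Fin n) (Fin n) F, (A.map σ).map σ = A := fun A => Matrix.ext fun _ _ => hu.invol _
  obtain ⟨d, hd⟩ : ∃ d : F, M.map σ * M = d • 1 := by
    refine habs.2 _ ?_
    rintro _ ⟨x, hx, rfl⟩
    have h1 := congrArg (fun m : Matrix (Fin n) (Fin n) F => m.map σ) (hMs x hx)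
    simp only [Matrix.map_mul, hσσ] at h1
    rw [Matrix.mul_assoc, ← hMs x hx, ← Matrix.mul_assoc, ← h1, Matrix.mul_assoc]
  have hd0 : d ≠ 0 := by
    intro h0
    haveI : Nonempty (Fin n) := ⟨⟨0, hodd.pos⟩⟩
    have := congrArg Matrix.det hd
    rw [h0, zero_smul, Matrix.det_zero, Matrix.det_mul,
      show (M.map σ).det = σ M.det from (RingEquiv.map_det σ M).symm] at this
    simp at this
    exact hMdet.ne_zero this
  have hdσ : σ d = d := by
    haveI : Nonempty (Fin n) := ⟨⟨0, hodd.pos⟩⟩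
    have h1 := congrArg (fun m : Matrix (Fin n) (Fin n) F => m.map σ) hd
    simp only [Matrix.map_mul, hσσ] at h1
    have h2 : M * M.map σ = d • 1 := by
      have h3 : d⁻¹ • (M.map σ * M) = 1 := by rw [hd, smul_smul, inv_mul_cancel₀ hd0, one_smul]
      rw [← Matrix.smul_mul] at h3
      have h4 := mul_eq_one_comm.mp h3
      rw [Matrix.mul_smul] at h4
      calc M * M.map σ = d • (d⁻¹ • (M * M.map σ)) := by rw [smul_smul, mul_inv_cancel₀ hd0, one_smul]
        _ = _ := by rw [h4]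
    have h5 := congrFun (congrFun (h1.symm.trans h2) ⟨0, hodd.pos⟩) ⟨0, hodd.pos⟩
    simpa using h5
  -- `d` is the norm of `lam`
  obtain ⟨m, hm⟩ := hodd
  set lam := M.det / d ^ m
  have hlam : lam * σ lam = d := by
    have h1 := congrArg Matrix.det hd
    rw [Matrix.det_mul, show (M.map σ).det = σ M.det from (RingEquiv.map_det σ M).symm, Matrix.det_smul, Matrix.det_one, mul_one, Fintype.card_fin,
      congrArg (fun k => d ^ k) hm] at h1
    simp only [lam, map_div₀, map_pow, hdσ]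
    field_simp
    linear_combination h1
  have hlam0 : lam ≠ 0 := fun h => hd0 (by rw [← hlam, h, zero_mul])
  set N := lam⁻¹ • M
  have hN1 : N.map σ * N = 1 := by
    have h1 : N.map σ = (σ lam)⁻¹ • M.map σ := Matrix.ext fun i j => by simp [N, map_inv₀]
    rw [h1, Matrix.smul_mul, Matrix.mul_smul, hd, smul_smul, smul_smul, ← mul_inv, mul_comm (σ lam), hlam,
      inv_mul_cancel₀ hd0, one_smul]
  have hNs : ∀ x ∈ P, (x : Matrix (Fin n) (Fin n) F).map σ * N = N * (x : Matrix (Fin n) (Fin n) F) := fun x hx => by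
    rw [Matrix.mul_smul, Matrix.smul_mul, hMs x hx]
  -- vectors fixed by the semilinear involution span
  let S : Set (Fin n → F) := {v | σ ∘ v = N *ᵥ v}
  have hspan : ⊤ ≤ Submodule.span F S := by
    intro v _
    obtain ⟨a, ha⟩ : ∃ a, σ a ≠ a := by
      by_contra h
      push Not at h
      exact hu.isUnitary.ne_refl (RingEquiv.ext h)
    set w := N.map σ *ᵥ (σ ∘ v)
    have hmem : ∀ t : F, t • v + σ t • w ∈ S := by
      intro t
      show σ ∘ (t • v + σ t • w) = N *ᵥ (t • v + σ t • w)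
      have hw : σ ∘ w = N *ᵥ v := by
        have h := map_mulVec_comp (σ : F →+* F) (N.map σ) (σ ∘ v)
        simp only [RingEquiv.coe_toRingHom] at h
        rw [h, hσσ]
        congr 1
        funext i; exact hu.invol _
      have hw' : N *ᵥ w = σ ∘ v := by
        rw [Matrix.mulVec_mulVec, mul_eq_one_comm.mp hN1, Matrix.one_mulVec]
      rw [Matrix.mulVec_add, Matrix.mulVec_smul, Matrix.mulVec_smul, hw', ← hw]
      funext i
      simp [hu.invol, add_comm]
    have h1 := Submodule.sub_mem _ (Submodule.smul_mem _ (σ a) (Submodule.subset_span (hmem 1)))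
      (Submodule.subset_span (hmem a))
    rw [map_one, one_smul, one_smul, show σ a • (v + w) - (a • v + σ a • w) = (σ a - a) • v by
      rw [smul_add, sub_smul]; abel] at h1
    have h2 := Submodule.smul_mem _ (σ a - a)⁻¹ h1
    rwa [smul_smul, inv_mul_cancel₀ (sub_ne_zero.mpr ha), one_smul] at h2
  let bs := Module.Basis.ofSpan hspan
  let bs' := bs.reindex (bs.indexEquiv (Pi.basisFun F (Fin n)))
  have hcol : ∀ j, σ ∘ (bs' j) = N *ᵥ bs' j := fun j => by
    rw [Module.Basis.reindex_apply]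
    exact Module.Basis.ofSpan_subset hspan ⟨_, rfl⟩
  let Bm : Matrix (Fin n) (Fin n) F := Matrix.of fun i j => bs' j i
  have hBli : Function.Injective fun v => Bm *ᵥ v :=
    Matrix.mulVec_injective_iff.mpr bs'.linearIndependent
  obtain ⟨Bu, hBu⟩ := Matrix.mulVec_injective_iff_isUnit.mp hBli
  refine ⟨Bu⁻¹, ?_⟩
  rintro _ ⟨x, hx, rfl⟩ i j
  rw [hK, inv_inv, hBu]
  set X : Matrix (Fin n) (Fin n) F := ↑x
  set Y := ((Bu⁻¹ : GL (Fin n) F) : Matrix (Fin n) (Fin n) F) * X * Bm
  suffices h : Y.map σ = Y from congrFun (congrFun h i) j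
  have hBN : Bm.map σ = N * Bm := Matrix.ext fun a c => by
    have := congrFun (hcol c) a
    simpa [Matrix.mul_apply, Matrix.mulVec, dotProduct, Bm] using this
  have hY : Bm * Y = X * Bm := by
    simp only [Y, ← hBu, ← Matrix.mul_assoc, ← Units.val_mul, mul_inv_cancel, Units.val_one, Matrix.one_mul]
  have h1 : Bm.map σ * Y.map σ = Bm.map σ * Y := by
    rw [← Matrix.map_mul, hY, Matrix.map_mul, hBN, ← Matrix.mul_assoc, hNs x hx, Matrix.mul_assoc,
      ← hY, Matrix.mul_assoc]
  have hBdet : (Bm.map σ).det ≠ 0 := by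
    rw [show (Bm.map σ).det = σ Bm.det from (RingEquiv.map_det σ Bm).symm]
    exact (map_ne_zero σ).mpr ((Matrix.isUnit_iff_isUnit_det _).mp (hBu ▸ Bu.isUnit)).ne_zero
  calc Y.map σ = (Bm.map σ)⁻¹ * (Bm.map σ * Y.map σ) := by
        rw [← Matrix.mul_assoc, Matrix.nonsing_inv_mul _ (isUnit_iff_ne_zero.mpr hBdet), Matrix.one_mul]
    _ = Y := by
        rw [h1, ← Matrix.mul_assoc, Matrix.nonsing_inv_mul _ (isUnit_iff_ne_zero.mpr hBdet), Matrix.one_mul]

/-- The symplectic-type case. -/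
theorem symplectic_case (hu : UnitarySetup n q σ) (hn : n.Prime)
    {H R : Subgroup (GL (Fin n) F)} (hG : H ≤ Cfsg.GU n F q) (hR : SymplData H R)
    (hsub : ∀ K : Subfield F, K ≠ ⊤ → ¬ RealisableOver K (matrixSet R)) :
    (∃ p e : ℕ, p.Prime ∧ CharP F p ∧ Fintype.card F = p ^ e ∧ n ∣ p ^ e - 1 ∧
      (∀ d, 0 < d → d < e → ¬ n ∣ p ^ d - 1)) ∧ n ∣ q + 1 ∧
    ∃ (d : Fin n → (Fin n → F)) (x : GL (Fin n) F) (μ : Fin n → F),
      (∀ i j, Cfsg.hermForm n F q (d i) (d j) = if i = j then 1 else 0) ∧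
      (∀ y ∈ R, ∀ i, ∃ (k : Fin n) (a : F), act y (d i) = a • d k) ∧
      x ∈ R ∧ (∀ i, act x (d i) = μ i • d i) ∧ Function.Injective μ := by
  classical
  have hcard : Fintype.card (Fin n) = n := Fintype.card_fin n
  obtain ⟨B, hB, x, hx, μ, hμ, hinj⟩ := hR.monomial
  rw [hcard] at hB
  obtain ⟨p, hchar⟩ := CharP.exists F
  obtain ⟨⟨e, he0⟩, hp, hq⟩ := FiniteField.card F p
  change Fintype.card F = p ^ e at hq
  haveI := Fact.mk hp
  obtain ⟨ν, hν⟩ := hR.hasRoot
  rw [hcard] at hν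
  have hν0 : ν ≠ 0 := hν.ne_zero hn.ne_zero
  have hdvd : n ∣ p ^ e - 1 := by
    rw [← hq]
    exact hν.dvd_of_pow_eq_one _ (FiniteField.pow_card_sub_one_eq_one ν hν0)
  -- all entries lie in any field containing the `n`-th roots of unity
  have hreal : ∀ K : Subfield F, (∀ a : F, a ^ n = 1 → a ∈ K) → K = ⊤ := by
    intro K hKn
    by_contra hK
    refine hsub K hK ⟨B, ?_⟩
    rintro _ ⟨y, hy, rfl⟩ i j
    rw [← Units.val_mul, ← Units.val_mul]
    rcases (hB y hy).entry i j with h | h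
    · rw [h]; exact zero_mem _
    · exact hKn _ h
  have hmin : ∀ d, 0 < d → d < e → ¬ n ∣ p ^ d - 1 := by
    intro d hd hde hdd
    have htop := hreal (fixedField p d) fun a ha => by
      rw [mem_fixedField]
      obtain ⟨k, hk⟩ := hdd
      rw [show p ^ d = n * k + 1 by have := Nat.one_le_pow d p hp.pos; omega, pow_succ, pow_mul, ha, one_pow, one_mul]
    obtain ⟨g, hg⟩ := IsCyclic.exists_generator (α := Fˣ)
    have hg' : (g : F) ^ p ^ d = g := mem_fixedField.mp (htop ▸ Subfield.mem_top (g : F))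
    have h1 : g ^ (p ^ d - 1) = 1 := by
      apply mul_right_cancel (b := g)
      rw [← pow_succ, Nat.sub_add_cancel (Nat.one_le_pow _ _ hp.pos), one_mul]
      exact Units.ext (by rw [Units.val_pow_eq_pow_val]; exact hg')
    have h2 := orderOf_dvd_of_pow_eq_one h1
    rw [orderOf_eq_card_of_forall_mem_zpowers hg, Nat.card_units, Nat.card_eq_fintype_card, hq] at h2
    have h3 : p ^ d < p ^ e := Nat.pow_lt_pow_right hp.one_lt hde
    have h4 : 1 < p ^ d := Nat.one_lt_pow hd.ne' hp.one_lt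
    have := Nat.le_of_dvd (by omega) h2
    omega
  have hplus : n ∣ q + 1 := by
    obtain ⟨K, hK, -⟩ := hu.exists_fixed
    have hnot : ¬ n ∣ q - 1 := by
      intro hqd
      obtain ⟨k, hk⟩ := hqd
      have htop := hreal K fun a ha => by
        rw [hK, hu.pow, show q = n * k + 1 by have := hu.two_le; omega, pow_succ, pow_mul, ha, one_pow, one_mul]
      exact hu.isUnitary.ne_refl (RingEquiv.ext fun a => (hK a).mp (htop ▸ Subfield.mem_top a))
    have h1 : p ^ e - 1 = (q + 1) * (q - 1) := by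
      rw [← hq, hu.card]
      simpa using Nat.sq_sub_sq q 1
    rw [h1] at hdvd
    exact (hn.dvd_mul.mp hdvd).resolve_right hnot
  refine ⟨⟨p, e, hp, hchar, hq, hdvd, hmin⟩, hplus, ?_⟩
  -- the eigenvectors
  set v : Fin n → (Fin n → F) := fun j => act B⁻¹ (Pi.single j 1)
  have hv0 : ∀ j, v j ≠ 0 := fun j => act_ne_zero _ (by simp)
  have hact : ∀ (y : GL (Fin n) F) (w : Fin n → F), act y (act B⁻¹ w) = act B⁻¹ (act (B * y * B⁻¹) w) := by
    intro y w
    rw [← act_mul, ← act_mul]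
    congr 1
    group
  have hxv : ∀ j, act x (v j) = μ j • v j := fun j => by
    simp only [v]; rw [hact, hμ, act_smul]
  have hroot : ∀ j, μ j ^ n = 1 := fun j => by
    obtain ⟨π, c, hc, hcx⟩ := hB x hx
    have h1 := (hcx j).symm.trans (hμ j)
    have h2 := congrFun h1 j
    by_cases hπ : π j = j
    · rw [hπ] at h2
      simp at h2
      rw [← h2]; exact hc j
    · exfalso
      have h3 := congrFun h1 (π j)
      simp [hπ] at h3
      exact one_ne_zero (α := F) (by rw [← hc j, h3, zero_pow hn.ne_zero])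
  have horth : ∀ i j, i ≠ j → Cfsg.hermForm n F q (v i) (v j) = 0 := by
    intro i j hij
    by_contra hne
    have h := mem_GU.mp (hG (hR.normal.le hx)) (v i) (v j)
    rw [hxv, hxv, hu.sesqui.smul_left, hu.sesqui.smul_right, ← mul_assoc] at h
    have h1 : μ i * σ (μ j) = 1 := mul_right_cancel₀ hne (h.trans (one_mul _).symm)
    have h2 : μ j * σ (μ j) = 1 := by
      obtain ⟨k, hk⟩ := hplus
      rw [hu.pow, ← pow_succ', hk, pow_mul, hroot, one_pow]
    exact hij (hinj (mul_right_cancel₀ (right_ne_zero_of_mul_eq_one h1) (h1.trans h2.symm)))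
  have hdiag : ∀ i, Cfsg.hermForm n F q (v i) (v i) ≠ 0 := by
    intro i h0
    obtain ⟨-, y, hy⟩ := hu.isUnitary.nondegenerate (v i) (hv0 i)
    apply hy
    rw [← act_inv_act B y, pi_eq_sum_univ' (act B y), act, Matrix.mulVec_sum]
    have hS : ∀ (s : Finset (Fin n)) (g : Fin n → (Fin n → F)),
        Cfsg.hermForm n F q (v i) (∑ k ∈ s, g k) = ∑ k ∈ s, Cfsg.hermForm n F q (v i) (g k) := fun s g =>
      map_sum (AddMonoidHom.mk' (Cfsg.hermForm n F q (v i)) (hu.sesqui.add_right (v i))) g s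
    rw [hS]
    refine Finset.sum_eq_zero fun k _ => ?_
    rw [Matrix.mulVec_smul, hu.sesqui.smul_right]
    rcases eq_or_ne i k with rfl | hik
    · rw [show ((B⁻¹ : GL (Fin n) F) : Matrix (Fin n) (Fin n) F) *ᵥ Pi.single i 1 = v i from rfl, h0, mul_zero]
    · rw [show ((B⁻¹ : GL (Fin n) F) : Matrix (Fin n) (Fin n) F) *ᵥ Pi.single k 1 = v k from rfl, horth i k hik,
        mul_zero]
  have hex : ∀ i, ∃ a : F, a ≠ 0 ∧ Cfsg.hermForm n F q (a • v i) (a • v i) = 1 := by
    intro i
    obtain ⟨b, hb, -⟩ := hu.exists_norm_avoid (b := (Cfsg.hermForm n F q (v i) (v i))⁻¹)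
      (by rw [map_inv₀, ← hu.herm]) (inv_ne_zero (hdiag i)) ∅ (by simp)
    refine ⟨b, fun h => inv_ne_zero (hdiag i) (by rw [← hb, h, zero_mul]), ?_⟩
    rw [hu.sesqui.smul_left, hu.sesqui.smul_right, ← mul_assoc, RingEquiv.coe_toRingHom, hb,
      inv_mul_cancel₀ (hdiag i)]
  choose a ha0 ha using hex
  refine ⟨fun i => a i • v i, x, μ, fun i j => ?_, fun y hy i => ?_, hx, fun i => ?_, hinj⟩
  · split_ifs with h
    · subst h; exact ha i
    · rw [hu.sesqui.smul_left, hu.sesqui.smul_right, horth i j h, mul_zero, mul_zero]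
  · obtain ⟨π, c, -, hc⟩ := hB y hy
    refine ⟨π i, a i * c i / a (π i), ?_⟩
    rw [act_smul, show act y (v i) = c i • v (π i) by simp only [v]; rw [hact, hc, act_smul], smul_smul,
      smul_smul, div_mul_cancel₀ _ (ha0 (π i))]
  · rw [act_smul, hxv, smul_comm]

end UnitarySetup

end CfsgLib.SmallDim
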