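import Cfsg.Agent.Lib.SmallDim.OmegaBasics
import Cfsg.Agent.Lib.SmallDim.BilinearDescent
import Cfsg.Agent.Lib.SmallDim.LinearPrime
import Cfsg.Agent.Lib.SmallDim.UnitaryCases
import Cfsg.Agent.Lib.SmallDim.EigenLinesForm

/-!
Maximal subgroups of `Ω` in odd prime dimension.
-/

set_option autoImplicit false
set_option linter.style.haveILetI false

namespace CfsgLib.SmallDim

open scoped MatrixGroups Matrix
open Cfsg.Geo

variable {F : Type*} [Field F] [Fintype F] {m : ℕ}

lemma gram_oddPolar_mem (m : ℕ) (K : Subfield F) (a b : OddIdx m) : gramMatrix (oddPolar m F) a b ∈ K := by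
  classical
  show oddPolar m F (Pi.single a 1) (Pi.single b 1) ∈ K
  rw [oddPolar_eq]
  have h01 : ∀ c d : OddIdx m, (Pi.single c (1 : F) : OddIdx m → F) d ∈ K := fun c d => by
    rcases eq_or_ne d c with rfl | h <;> simp [*, K.one_mem, K.zero_mem]
  refine K.add_mem (K.mul_mem (K.mul_mem ?_ (h01 _ _)) (h01 _ _)) (K.sum_mem fun i _ =>
    K.add_mem (K.mul_mem (h01 _ _) (h01 _ _)) (K.mul_mem (h01 _ _) (h01 _ _)))
  rw [show (2 : F) = ((2 : ℕ) : F) by norm_num]
  exact natCast_mem K 2

/-- A matrix whose Gram matrix is a multiple of one over `K` can be scaled to carry the form. -/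
theorem exists_rational_scale (h2 : (2 : F) ≠ 0) {K : Subfield F} (P : GL (OddIdx m) F) {ζ : F} (hζ : ζ ≠ 0)
    (hM : ∀ a b, ((P : Matrix (OddIdx m) (OddIdx m) F)ᵀ * gramMatrix (oddPolar m F)
      * (P : Matrix (OddIdx m) (OddIdx m) F)) a b / ζ ∈ K) :
    ∃ z ∈ scalars (OddIdx m) F, IsQuadFormRationalStructure (Cfsg.quadFormOdd m F) K (z * P) := by
  classical
  set Pm : Matrix (OddIdx m) (OddIdx m) F := ↑P
  set G := gramMatrix (oddPolar m F)
  set M : Matrix (OddIdx m) (OddIdx m) F := Matrix.of fun a b => (Pmᵀ * G * Pm) a b / ζ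
  have hQ := isNondegenerateQuad_odd h2 m (F := F)
  have hS := IsSesqui.of_bilinear hQ.polar_bilinear
  have hG0 : G.det ≠ 0 := (hS.isUnit_det_gram Function.surjective_id hQ.nondegenerate).ne_zero
  have hP0 : Pm.det ≠ 0 := ((Matrix.isUnit_iff_isUnit_det _).mp P.isUnit).ne_zero
  have hGK : G.det ∈ K := by
    rw [Matrix.det_apply']
    exact K.sum_mem fun π _ => K.mul_mem (intCast_mem K _) (K.prod_mem fun a _ => gram_oddPolar_mem m K _ _)
  have hMK : M.det ∈ K := by
    rw [Matrix.det_apply']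
    exact K.sum_mem fun π _ => K.mul_mem (intCast_mem K _) (K.prod_mem fun a _ => hM _ _)
  have hdet : Pm.det * G.det * Pm.det = ζ ^ (2 * m + 1) * M.det := by
    have h1 : Pmᵀ * G * Pm = ζ • M := Matrix.ext fun a b => by simp [M]; field_simp
    have h2 := congrArg Matrix.det h1
    rw [Matrix.det_mul, Matrix.det_mul, Matrix.det_transpose, Matrix.det_smul] at h2
    rw [h2]
    congr 2
    simp; omega
  have hM0 : M.det ≠ 0 := fun h => mul_ne_zero (mul_ne_zero hP0 hG0) hP0 (by rw [hdet, h, mul_zero])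
  set μ := Pm.det / ζ ^ m
  have hμ0 : μ ≠ 0 := div_ne_zero hP0 (pow_ne_zero _ hζ)
  have hμ : μ ^ 2 * G.det = ζ * M.det := by
    simp only [μ]
    rw [div_pow, div_mul_eq_mul_div, div_eq_iff (pow_ne_zero _ (pow_ne_zero _ hζ))]
    linear_combination hdet
  refine ⟨_, scalar_mem_scalars (Units.mk0 μ⁻¹ (inv_ne_zero hμ0)), fun u hu => ?_⟩
  set z := Units.map (Matrix.scalar (OddIdx m) : F →+* Matrix (OddIdx m) (OddIdx m) F).toMonoidHom
    (Units.mk0 μ⁻¹ (inv_ne_zero hμ0))
  have hz : ((z * P : GL (OddIdx m) F) : Matrix (OddIdx m) (OddIdx m) F) = μ⁻¹ • Pm := by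
    rw [Units.val_mul]
    simp only [z, Units.coe_map, RingHom.toMonoidHom_eq_coe, MonoidHom.coe_coe, Units.val_mk0, Pm]
    rw [Matrix.scalar_apply, ← Matrix.smul_one_eq_diagonal, Matrix.smul_mul, Matrix.one_mul]
  rw [hz, Matrix.smul_mulVec, hQ.smul]
  have h1 : QuadraticMap.polar (Cfsg.quadFormOdd m F) (Pm *ᵥ u) (Pm *ᵥ u) = ζ * (u ⬝ᵥ (M *ᵥ u)) := by
    rw [(hS.transform Pm).apply_eq u u, hS.gram_transform Pm, show Pm.map (RingHom.id F) = Pm from Matrix.ext fun _ _ => rfl,
      show Pmᵀ * gramMatrix (QuadraticMap.polar (Cfsg.quadFormOdd m F)) * Pm = ζ • M from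
        Matrix.ext fun a b => by simp [M, G]; field_simp,
      Matrix.smul_mulVec, dotProduct_smul, smul_eq_mul]
    rfl
  rw [polar_self_eq hQ] at h1
  have h3 : Cfsg.quadFormOdd m F (Pm *ᵥ u) = ζ * (u ⬝ᵥ (M *ᵥ u)) / 2 := by rw [← h1]; field_simp
  rw [h3, inv_pow, show (μ ^ 2)⁻¹ * (ζ * (u ⬝ᵥ (M *ᵥ u)) / 2) = G.det / M.det * (u ⬝ᵥ (M *ᵥ u)) / 2 by
    rw [show (μ ^ 2)⁻¹ = G.det / (ζ * M.det) by rw [← hμ]; field_simp]
    field_simp]
  refine K.div_mem (K.mul_mem (K.div_mem hGK hMK) (K.sum_mem fun a _ => K.mul_mem (hu a) ?_)) ?_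
  · simp only [Matrix.mulVec, dotProduct]
    exact K.sum_mem fun b _ => K.mul_mem (hM a b) (hu b)
  · rw [show (2 : F) = ((2 : ℕ) : F) by norm_num]
    exact natCast_mem K 2

/-- The subfield case. -/
theorem omega_subfield_case (h2 : (2 : F) ≠ 0) {H N : Subgroup (GL (OddIdx m) F)} (hN : NormalIn N H)
    (hH : H ≤ omegaGL (Cfsg.quadFormOdd m F)) (habs : ActsAbsolutelyIrreducibly (matrixSet N)) {K : Subfield F}
    (hreal : RealisableOver K (matrixSet N)) :
    ∃ P : GL (OddIdx m) F, IsQuadFormRationalStructure (Cfsg.quadFormOdd m F) K P ∧ H ≤ subfieldSubgroup K P := by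
  classical
  obtain ⟨B, hB₀⟩ := hreal
  have hB : ∀ x ∈ N, ∀ i j, ((B * x * B⁻¹ : GL (OddIdx m) F) : Matrix (OddIdx m) (OddIdx m) F) i j ∈ K :=
    fun x hx i j => hB₀ _ (coe_mem_matrixSet hx) i j
  obtain ⟨p, hchar⟩ := CharP.exists F
  obtain ⟨e, hp, hq⟩ := FiniteField.card F p
  haveI := Fact.mk hp
  obtain ⟨d, -, -, -, hKeq⟩ := exists_fixedField_eq hq K
  set τ := iterateFrobenius F p d
  have hτ : ∀ x, τ x = x ↔ x ∈ K := fun x => by rw [hKeq, mem_fixedField, iterateFrobenius_def]
  have hQ := isNondegenerateQuad_odd h2 m (F := F)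
  have hS := IsSesqui.of_bilinear hQ.polar_bilinear
  set G := gramMatrix (oddPolar m F)
  have hG : IsUnit G.det := hS.isUnit_det_gram Function.surjective_id hQ.nondegenerate
  have hinv : ∀ x ∈ N, ((x : GL (OddIdx m) F) : Matrix _ _ F)ᵀ * G * (x : Matrix (OddIdx m) (OddIdx m) F) = G := by
    intro x hx
    have h1 := hS.gram_transform (x : Matrix (OddIdx m) (OddIdx m) F)
    rw [show (fun u v => QuadraticMap.polar (Cfsg.quadFormOdd m F) ((x : Matrix _ _ F) *ᵥ u) ((x : Matrix _ _ F) *ᵥ v))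
      = QuadraticMap.polar (Cfsg.quadFormOdd m F) from
        funext₂ (fixesForm_polar (omegaGL_fixesQuad (hN.le.trans hH)) _ (coe_mem_matrixSet hx)),
      show (x : Matrix (OddIdx m) (OddIdx m) F).map (RingHom.id F) = (x : Matrix _ _ F) from Matrix.ext fun _ _ => rfl] at h1
    exact h1.symm
  set C : Matrix (OddIdx m) (OddIdx m) F := ↑(B⁻¹)
  set Bm : Matrix (OddIdx m) (OddIdx m) F := ↑B
  set G' := Cᵀ * G * C
  obtain ⟨c, hc⟩ : ∃ c : F, G'.map τ = c • G' := by
    obtain ⟨c, hc⟩ := gram_uniq habs hG hinv (G' := Bmᵀ * G'.map τ * Bm) (by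
      intro x hx
      set X : Matrix (OddIdx m) (OddIdx m) F := ↑x
      set A : Matrix (OddIdx m) (OddIdx m) F := ((B * x * B⁻¹ : GL (OddIdx m) F) : Matrix (OddIdx m) (OddIdx m) F)
      have e1 : Bm * X = A * Bm := by simp only [Bm, X, A, ← Units.val_mul]; congr 1; group
      have e3 : C * A = X * C := by simp only [C, X, A, ← Units.val_mul]; congr 1; group
      have e2 : Aᵀ * G' * A = G' := by
        calc Aᵀ * G' * A = (C * A)ᵀ * G * (C * A) := by simp only [G', Matrix.transpose_mul, Matrix.mul_assoc]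
          _ = Cᵀ * (Xᵀ * G * X) * C := by rw [e3]; simp only [Matrix.transpose_mul, Matrix.mul_assoc]
          _ = _ := by rw [hinv x hx]
      have e4 : Aᵀ * G'.map τ * A = G'.map τ := by
        have h1 : (Aᵀ * G' * A).map τ = G'.map τ := congrArg (fun n : Matrix _ _ F => n.map τ) e2
        rwa [Matrix.map_mul, Matrix.map_mul, show Aᵀ.map τ = Aᵀ from Matrix.ext fun i j => (hτ _).mpr (hB x hx j i),
          show A.map τ = A from Matrix.ext fun i j => (hτ _).mpr (hB x hx i j)] at h1
      calc Xᵀ * (Bmᵀ * G'.map τ * Bm) * X = (Bm * X)ᵀ * G'.map τ * (Bm * X) := by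
            simp only [Matrix.transpose_mul, Matrix.mul_assoc]
        _ = Bmᵀ * (Aᵀ * G'.map τ * A) * Bm := by rw [e1]; simp only [Matrix.transpose_mul, Matrix.mul_assoc]
        _ = _ := by rw [e4])
    refine ⟨c, ?_⟩
    have hBC : Bm * C = 1 := by simp only [Bm, C, ← Units.val_mul, mul_inv_cancel, Units.val_one]
    calc G'.map τ = (Bm * C)ᵀ * G'.map τ * (Bm * C) := by simp [hBC]
      _ = Cᵀ * (Bmᵀ * G'.map τ * Bm) * C := by simp only [Matrix.transpose_mul, Matrix.mul_assoc]
      _ = _ := by rw [hc, Matrix.mul_smul, Matrix.smul_mul]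
  have hC0 : C.det ≠ 0 := ((Matrix.isUnit_iff_isUnit_det _).mp (B⁻¹).isUnit).ne_zero
  have hG'det : G'.det ≠ 0 := by
    rw [show G' = Cᵀ * G * C from rfl, Matrix.det_mul, Matrix.det_mul, Matrix.det_transpose]
    exact mul_ne_zero (mul_ne_zero hC0 hG.ne_zero) hC0
  obtain ⟨i₀, j₀, hζ⟩ : ∃ i j, G' i j ≠ 0 := by
    by_contra hall
    push Not at hall
    exact hG'det (Matrix.det_eq_zero_of_row_eq_zero (Sum.inl ()) (hall _))
  set ζ := G' i₀ j₀
  have hτζ : τ ζ = c * ζ := congrFun (congrFun hc i₀) j₀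
  have hc0 : c ≠ 0 := fun h => hζ ((map_eq_zero τ).mp (by rw [hτζ, h, zero_mul]))
  have hMK : ∀ i j, G' i j / ζ ∈ K := fun i j => by
    have h1 : τ (G' i j) = c * G' i j := congrFun (congrFun hc i) j
    rw [← hτ, map_div₀, h1, hτζ, mul_div_mul_left _ _ hc0]
  obtain ⟨z, hz, hrat⟩ := exists_rational_scale h2 (K := K) B⁻¹ hζ hMK
  have hle := le_subfieldSubgroup hN habs (K := K) (B := z⁻¹ * B) (by
    rintro _ ⟨x, hx, rfl⟩ i j
    rw [← Units.val_mul, ← Units.val_mul, show z⁻¹ * B * x * (z⁻¹ * B)⁻¹ = z⁻¹ * (B * x * B⁻¹) * z⁻¹⁻¹ by group,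
      scalars_commute (inv_mem hz), mul_inv_cancel_right]
    exact hB x hx i j)
  rw [mul_inv_rev, inv_inv, ← scalars_commute hz] at hle
  exact ⟨_, hrat, hle⟩
where
  gram_uniq {S : Subgroup (GL (OddIdx m) F)} (hirr : ActsAbsolutelyIrreducibly (matrixSet S))
      {G G' : Matrix (OddIdx m) (OddIdx m) F} (hG : IsUnit G.det)
      (h : ∀ x ∈ S, (x : Matrix (OddIdx m) (OddIdx m) F)ᵀ * G * (x : Matrix _ _ F) = G)
      (h' : ∀ x ∈ S, (x : Matrix (OddIdx m) (OddIdx m) F)ᵀ * G' * (x : Matrix _ _ F) = G') :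
      ∃ c : F, G' = c • G := by
    refine gram_unique (σ := RingHom.id F) hirr hG ?_ ?_ <;> rintro _ ⟨x, hx, rfl⟩
    · rw [show (x : Matrix (OddIdx m) (OddIdx m) F).map (RingHom.id F) = (x : Matrix _ _ F) from Matrix.ext fun _ _ => rfl]
      exact h x hx
    · rw [show (x : Matrix (OddIdx m) (OddIdx m) F).map (RingHom.id F) = (x : Matrix _ _ F) from Matrix.ext fun _ _ => rfl]
      exact h' x hx

/-- Eigenlines of a group of isometries give an orthogonal decomposition. -/
theorem omega_eigenLines (h2 : (2 : F) ≠ 0) {H N : Subgroup (GL (OddIdx m) F)} (hN : NormalIn N H)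
    (hH : H ≤ omegaGL (Cfsg.quadFormOdd m F)) (hirr : ActsIrreducibly (matrixSet H)) {D χ}
    (hD : EigenLines H N D χ) : IsOrthogonalMDecomposition (Cfsg.quadFormOdd m F) 1 D := by
  classical
  have hQ := isNondegenerateQuad_odd h2 m (F := F)
  refine ⟨nondegenerateDecomposition_of_eigenLines (IsSesqui.of_bilinear hQ.polar_bilinear)
    (fun a b h => by rwa [QuadraticMap.polar_comm]) hQ.nondegenerate (by simp [parity_simps]) hN
    (fixesForm_polar (omegaGL_fixesQuad hH)) hirr hD, fun i j => ?_⟩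
  obtain ⟨g, hg, hgD⟩ := exists_map_line hirr hD.decomp hD.le i j
  let e0 : D i →ₗ[F] D j :=
    ((Matrix.toLin' (g : Matrix (OddIdx m) (OddIdx m) F)).domRestrict (D i)).codRestrict (D j) fun w => by
      rw [← hgD]; exact ⟨w, w.2, rfl⟩
  have hinj : Function.Injective e0 := fun a b hab => Subtype.ext (act_injective g (by
    simpa [e0, Matrix.toLin'_apply] using congrArg Subtype.val hab))
  refine ⟨e0.linearEquivOfInjective hinj ((hD.decomp.finrank_eq i).trans (hD.decomp.finrank_eq j).symm), fun w => ?_⟩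
  simp [e0, LinearMap.linearEquivOfInjective, Matrix.toLin'_apply]
  exact mem_omegaGL_isometry (hH hg) _

/-- The decomposition case over a field which is not a prime field. -/
theorem omega_decomposition_subfield (h2 : (2 : F) ≠ 0) {H : Subgroup (GL (OddIdx m) F)}
    (hH : H ≤ omegaGL (Cfsg.quadFormOdd m F)) (hirr : ActsIrreducibly (matrixSet H)) {t : ℕ}
    (ht : Fintype.card (OddIdx m) = t)
    {D : Fin t → Submodule F (OddIdx m → F)} (hD : IsOrthogonalMDecomposition (Cfsg.quadFormOdd m F) 1 D)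
    (hle : H ≤ decompositionStabilizer D) (K : Subfield F) :
    ∃ P : GL (OddIdx m) F, IsQuadFormRationalStructure (Cfsg.quadFormOdd m F) K P ∧ H ≤ subfieldSubgroup K P := by
  classical
  have hQ := isNondegenerateQuad_odd h2 m (F := F)
  have hb := hQ.polar_bilinear
  have htpos : 0 < t := by have := hD.decomp.decomp.two_le; omega
  let i₀ : Fin t := ⟨0, htpos⟩
  have hne : D i₀ ≠ ⊥ := fun h => by
    have := hD.decomp.decomp.finrank_eq i₀
    rw [h, finrank_bot] at this
    omega
  obtain ⟨d₀, hd₀, hd₀0⟩ := (D i₀).ne_bot_iff.mp hne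
  choose g hg hgD using fun k => exists_map_line hirr hD.decomp.decomp hle i₀ k
  set d : Fin t → (OddIdx m → F) := fun k => act (g k) d₀
  have hd : ∀ k, d k ∈ D k := fun k => by rw [← hgD k]; exact ⟨d₀, hd₀, Matrix.toLin'_apply _ _⟩
  have hd0 : ∀ k, d k ≠ 0 := fun k => act_ne_zero _ hd₀0
  set lam := Cfsg.quadFormOdd m F d₀
  have hQd : ∀ k, Cfsg.quadFormOdd m F (d k) = lam := fun k => mem_omegaGL_isometry (hH (hg k)) d₀
  have hlam : lam ≠ 0 := by
    intro h0
    obtain ⟨⟨x, hx, hxd⟩, -⟩ := hD.decomp.nondegenerate i₀ d₀ hd₀ hd₀0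
    obtain ⟨a, ha⟩ := (finrank_eq_one_iff_of_nonzero' (⟨d₀, hd₀⟩ : D i₀)
      (fun h => hd₀0 (congrArg Subtype.val h))).mp (hD.decomp.decomp.finrank_eq i₀) ⟨x, hx⟩
    apply hxd
    rw [← show a • d₀ = x from congrArg Subtype.val ha, hb.smul_left, polar_self_eq hQ,
      show Cfsg.quadFormOdd m F d₀ = 0 from h0, mul_zero, mul_zero]
  let e : OddIdx m ≃ Fin t := Fintype.equivFinOfCardEq ht
  let Pm : Matrix (OddIdx m) (OddIdx m) F := Matrix.of fun a b => d (e b) a
  have hcol : ∀ b, Pm *ᵥ Pi.single b 1 = d (e b) := fun b => by rw [Matrix.mulVec_single_one]; rfl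
  have hli : LinearIndependent F fun b => d (e b) :=
    (hD.decomp.decomp.indep.linearIndependent _ hd hd0).comp e e.injective
  obtain ⟨P, hP⟩ := Matrix.mulVec_injective_iff_isUnit.mp (Matrix.mulVec_injective_iff.mpr (show LinearIndependent F Pm.col from hli))
  have hgram : ∀ a b, (Pmᵀ * gramMatrix (oddPolar m F) * Pm) a b = if a = b then 2 * lam else 0 := by
    intro a b
    have h1 := (IsSesqui.of_bilinear hb).gram_transform Pm
    rw [show Pm.map (RingHom.id F) = Pm from Matrix.ext fun _ _ => rfl] at h1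
    rw [← h1]
    show QuadraticMap.polar (Cfsg.quadFormOdd m F) (Pm *ᵥ Pi.single a 1) (Pm *ᵥ Pi.single b 1) = _
    rw [hcol, hcol]
    split_ifs with h
    · rw [h, polar_self_eq hQ, hQd]
    · exact hD.decomp.orthogonal _ _ (fun h' => h (e.injective h')) _ (hd _) _ (hd _)
  obtain ⟨z, hz, hrat⟩ := exists_rational_scale h2 (K := K) P (mul_ne_zero h2 hlam) (fun a b => by
    rw [hP, hgram]
    split_ifs
    · rw [div_self (mul_ne_zero h2 hlam)]; exact K.one_mem
    · rw [zero_div]; exact K.zero_mem)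
  refine ⟨z * P, hrat, fun h hh => ?_⟩
  rw [mem_subfieldSubgroup]
  refine ⟨P⁻¹ * h * P, 1, fun a b => ?_, one_mem _, ?_⟩
  · obtain ⟨π, hπ⟩ := hle hh
    have hmem : act h (d (e b)) ∈ D (π (e b)) := by
      rw [← hπ (e b)]; exact ⟨_, hd _, Matrix.toLin'_apply _ _⟩
    obtain ⟨s, hs⟩ := (finrank_eq_one_iff_of_nonzero' (⟨_, hd (π (e b))⟩ : D (π (e b)))
      (fun h => hd0 _ (congrArg Subtype.val h))).mp (hD.decomp.decomp.finrank_eq _) ⟨_, hmem⟩
    have hs' : s • d (π (e b)) = act h (d (e b)) := congrArg Subtype.val hs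
    have hs2 : s ^ 2 = 1 := by
      have h1 := mem_omegaGL_isometry (hH hh) (d (e b))
      rw [← hs', hQ.smul, hQd, hQd] at h1
      exact mul_right_cancel₀ hlam (h1.trans (one_mul lam).symm)
    have hval : act (P⁻¹ * h * P) (Pi.single b 1) = s • Pi.single (e.symm (π (e b))) 1 := by
      apply act_injective P
      rw [← act_mul, show P * (P⁻¹ * h * P) = h * P by group, act_mul, act_smul]
      simp only [act, hP, hcol, Equiv.apply_symm_apply]
      exact hs'.symm
    have h3 := congrFun hval a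
    simp only [act, Matrix.mulVec_single_one, Matrix.col_apply, Pi.smul_apply, smul_eq_mul] at h3
    rw [h3]
    have hsK : s ∈ K := by
      rcases sq_eq_one_iff.mp hs2 with rfl | rfl
      · exact K.one_mem
      · exact K.neg_mem K.one_mem
    rcases eq_or_ne a (e.symm (π (e b))) with hab | hab
    · rw [hab, Pi.single_eq_same, mul_one]; exact hsK
    · rw [Pi.single_eq_of_ne hab, mul_zero]; exact K.zero_mem
  · calc h = z * h * z⁻¹ := by rw [scalars_commute hz, mul_inv_cancel_right]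
      _ = _ := by group

/-- A field generated by a group of isometries is impossible in odd dimension. -/
theorem omega_no_fullField (h2 : (2 : F) ≠ 0) {H N : Subgroup (GL (OddIdx m) F)}
    (hH : N ≤ omegaGL (Cfsg.quadFormOdd m F)) (hns : ¬ N ≤ scalars (OddIdx m) F)
    {K : Subalgebra F (Matrix (OddIdx m) (OddIdx m) F)} (hK : FullField H N K) : False := by
  classical
  have hQ := isNondegenerateQuad_odd h2 m (F := F)
  have hS := IsSesqui.of_bilinear hQ.polar_bilinear
  set G := gramMatrix (oddPolar m F)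
  have hG : IsUnit G.det := hS.isUnit_det_gram Function.surjective_id hQ.nondegenerate
  have hGt : Gᵀ = G := Matrix.ext fun a b => oddPolar_comm _ _
  set τ : Matrix (OddIdx m) (OddIdx m) F → Matrix (OddIdx m) (OddIdx m) F := fun k => G⁻¹ * kᵀ * G
  have hτ_inv : ∀ x ∈ N, τ (x : Matrix (OddIdx m) (OddIdx m) F) * (x : Matrix _ _ F) = 1 := by
    intro x hx
    have h1 := hS.gram_transform (x : Matrix (OddIdx m) (OddIdx m) F)
    rw [show (fun u v => QuadraticMap.polar (Cfsg.quadFormOdd m F) ((x : Matrix _ _ F) *ᵥ u) ((x : Matrix _ _ F) *ᵥ v))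
      = QuadraticMap.polar (Cfsg.quadFormOdd m F) from
        funext₂ (fixesForm_polar (omegaGL_fixesQuad hH) _ (coe_mem_matrixSet hx)),
      show (x : Matrix (OddIdx m) (OddIdx m) F).map (RingHom.id F) = (x : Matrix _ _ F) from Matrix.ext fun _ _ => rfl] at h1
    show G⁻¹ * (x : Matrix (OddIdx m) (OddIdx m) F)ᵀ * G * (x : Matrix _ _ F) = 1
    rw [Matrix.mul_assoc G⁻¹, Matrix.mul_assoc G⁻¹, ← show G = _ from h1, Matrix.nonsing_inv_mul _ hG]
  have hτmul : ∀ a b, τ (a * b) = τ b * τ a := fun a b => by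
    simp only [τ, Matrix.transpose_mul, Matrix.mul_assoc]
    rw [← Matrix.mul_assoc G G⁻¹, Matrix.mul_nonsing_inv _ hG, Matrix.one_mul]
  have hτK : ∀ k ∈ K, τ k ∈ K := by
    intro k hk
    rw [hK.mem_iff]
    rintro _ ⟨x, hx, rfl⟩
    set X : Matrix (OddIdx m) (OddIdx m) F := ↑x
    have h1 : τ k * τ X = τ X * τ k := by
      rw [← hτmul, ← hτmul, (hK.mem_iff k).mp hk X (coe_mem_matrixSet hx)]
    have h3 : τ X * X = 1 := hτ_inv x hx
    have h4 : X * τ X = 1 := mul_eq_one_comm.mp h3
    calc X * τ k = X * (τ k * τ X) * X := by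
          rw [Matrix.mul_assoc, Matrix.mul_assoc, h3, Matrix.mul_one]
      _ = X * (τ X * τ k) * X := by rw [h1]
      _ = τ k * X := by rw [← Matrix.mul_assoc, h4, Matrix.one_mul]
  have hττ : ∀ k, τ (τ k) = k := fun k => by
    simp only [τ, Matrix.transpose_mul, Matrix.transpose_nonsing_inv, hGt, Matrix.transpose_transpose, Matrix.mul_assoc]
    rw [← Matrix.mul_assoc G⁻¹ G, Matrix.nonsing_inv_mul _ hG, Matrix.one_mul, Matrix.mul_one]
  let T : K →ₗ[F] K :=
    { toFun := fun k => ⟨τ k, hτK k k.2⟩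
      map_add' := fun a b => Subtype.ext (by simp [τ, Matrix.mul_add, Matrix.add_mul])
      map_smul' := fun c a => Subtype.ext (by simp [τ]) }
  -- every element of the field is self-adjoint
  have hself : ∀ k ∈ K, τ k = k := by
    by_contra hall
    push Not at hall
    obtain ⟨k, hk, hne⟩ := hall
    set y := k - τ k
    have hyK : y ∈ K := K.sub_mem hk (hτK k hk)
    have hy0 : y ≠ 0 := sub_ne_zero.mpr (Ne.symm hne)
    have hy : τ y = -y := by
      have : τ y = τ k - τ (τ k) := by simp [τ, y, Matrix.mul_sub, Matrix.sub_mul]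
      rw [this, hττ, neg_sub]
    obtain ⟨y', hy'K, hyy'⟩ := hK.isField.inv y hyK hy0
    have hcomm := hK.isField.comm
    have hy' : τ y' = -y' := by
      have h1 : τ y' * τ y = 1 := by rw [← hτmul, hyy']; simp [τ, Matrix.nonsing_inv_mul _ hG]
      rw [hy, Matrix.mul_neg] at h1
      calc τ y' = τ y' * (y * y') := by rw [hyy', Matrix.mul_one]
        _ = _ := by rw [← Matrix.mul_assoc, show τ y' * y = -1 by rw [← neg_neg (τ y' * y), h1], Matrix.neg_mul,
          Matrix.one_mul]
    let Kp := LinearMap.ker (T - LinearMap.id)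
    let Kn := LinearMap.ker (T + LinearMap.id)
    have hp : ∀ a : K, a ∈ Kp ↔ τ a = a := fun a => by
      rw [LinearMap.mem_ker, LinearMap.sub_apply, sub_eq_zero]
      exact ⟨congrArg Subtype.val, fun h => Subtype.ext h⟩
    have hn : ∀ a : K, a ∈ Kn ↔ τ a = -(a : Matrix (OddIdx m) (OddIdx m) F) := fun a => by
      rw [LinearMap.mem_ker, LinearMap.add_apply, ← eq_neg_iff_add_eq_zero]
      exact ⟨congrArg Subtype.val, fun h => Subtype.ext h⟩
    let e : Kp ≃ₗ[F] Kn :=
      { toFun := fun a => ⟨⟨(a.1 : Matrix _ _ F) * y, K.mul_mem a.1.2 hyK⟩, (hn _).mpr (by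
          show τ (_ * y) = -_
          rw [hτmul, hy, (hp _).mp a.2, Matrix.neg_mul, hcomm y hyK _ a.1.2])⟩
        invFun := fun b => ⟨⟨(b.1 : Matrix _ _ F) * y', K.mul_mem b.1.2 hy'K⟩, (hp _).mpr (by
          show τ (_ * y') = _
          rw [hτmul, hy', (hn _).mp b.2, Matrix.neg_mul, Matrix.mul_neg, neg_neg, hcomm y' hy'K _ b.1.2])⟩
        map_add' := fun a b => Subtype.ext (Subtype.ext (by simp [Matrix.add_mul]))
        map_smul' := fun c a => Subtype.ext (Subtype.ext (by simp))
        left_inv := fun a => Subtype.ext (Subtype.ext (by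
          show (a.1 : Matrix (OddIdx m) (OddIdx m) F) * y * y' = _
          rw [Matrix.mul_assoc, hyy', Matrix.mul_one]))
        right_inv := fun b => Subtype.ext (Subtype.ext (by
          show (b.1 : Matrix (OddIdx m) (OddIdx m) F) * y' * y = _
          rw [Matrix.mul_assoc, hcomm y' hy'K y hyK, hyy', Matrix.mul_one])) }
    have hcompl : IsCompl Kp Kn := by
      constructor
      · rw [disjoint_iff, Submodule.eq_bot_iff]
        rintro a ⟨ha, hb⟩
        refine Subtype.ext ?_
        have h1 : ((a : Matrix (OddIdx m) (OddIdx m) F)) + (a : Matrix _ _ F) = 0 := by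
          nth_rewrite 1 [← (hp a).mp ha]
          rw [(hn a).mp hb, neg_add_cancel]
        rw [← two_smul F] at h1
        exact (smul_eq_zero.mp h1).resolve_left h2
      · rw [codisjoint_iff, eq_top_iff]
        intro a _
        refine Submodule.mem_sup.mpr ⟨(2 : F)⁻¹ • (a + T a), (hp _).mpr ?_, (2 : F)⁻¹ • (a - T a), (hn _).mpr ?_, ?_⟩
        · show τ ((2 : F)⁻¹ • ((a : Matrix (OddIdx m) (OddIdx m) F) + τ a)) = (2 : F)⁻¹ • ((a : Matrix _ _ F) + τ a)
          have : τ ((2 : F)⁻¹ • ((a : Matrix (OddIdx m) (OddIdx m) F) + τ a)) = (2 : F)⁻¹ • (τ a + τ (τ a)) := by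
            simp [τ, Matrix.mul_add, Matrix.add_mul]
          rw [this, hττ, add_comm]
        · show τ ((2 : F)⁻¹ • ((a : Matrix (OddIdx m) (OddIdx m) F) - τ a)) = -((2 : F)⁻¹ • ((a : Matrix _ _ F) - τ a))
          have : τ ((2 : F)⁻¹ • ((a : Matrix (OddIdx m) (OddIdx m) F) - τ a)) = (2 : F)⁻¹ • (τ a - τ (τ a)) := by
            simp [τ, Matrix.mul_sub, Matrix.sub_mul]
          rw [this, hττ, ← smul_neg, neg_sub]
        · match_scalars <;> field_simp <;> ring
    have h3 := Submodule.finrank_add_eq_of_isCompl hcompl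
    rw [← e.finrank_eq, hK.isField.finrank_eq] at h3
    simp at h3
    omega
  apply hns
  intro x hx
  have hxK := hK.mem x hx
  have h1 := hτ_inv x hx
  rw [hself _ hxK] at h1
  set X : Matrix (OddIdx m) (OddIdx m) F := ↑x
  haveI : Nonempty (OddIdx m) := ⟨Sum.inl ()⟩
  by_cases hone : X - 1 = 0
  · exact mem_scalars_of_act (g := x) 1 fun v => by
      show X *ᵥ v = _
      rw [sub_eq_zero.mp hone, Matrix.one_mulVec, one_smul]
  · obtain ⟨w, hw, hww⟩ := hK.isField.inv _ (K.sub_mem hxK K.one_mem) hone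
    have hX : X = -1 := by
      have hc := hK.isField.comm w hw (X - 1) (K.sub_mem hxK K.one_mem)
      rw [hww] at hc
      have hsq : (X - 1) * (X + 1) = 0 := by
        rw [Matrix.sub_mul, Matrix.mul_add, h1, Matrix.mul_one, Matrix.one_mul, add_comm X 1, sub_self]
      apply eq_neg_of_add_eq_zero_left
      calc X + 1 = w * ((X - 1) * (X + 1)) := by rw [← Matrix.mul_assoc, hc, Matrix.one_mul]
        _ = 0 := by rw [hsq, Matrix.mul_zero]
    exact mem_scalars_of_act (g := x) (-1) fun v => by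
      show X *ᵥ v = _
      rw [hX, Matrix.neg_mulVec, Matrix.one_mulVec, neg_one_smul]

/-- The reducible case. -/
theorem omega_reducible_case (h2 : (2 : F) ≠ 0) (hm : 2 ≤ m) {H : Subgroup (GL (OddIdx m) F)}
    (hH : H ≤ omegaGL (Cfsg.quadFormOdd m F)) (hirr : ¬ ActsIrreducibly (matrixSet H)) :
    ∃ W : Submodule F (OddIdx m → F), W ≠ ⊥ ∧ W ≠ ⊤ ∧ H ≤ subspaceStabilizer W ∧
      (IsTotallySingularQuad (Cfsg.quadFormOdd m F) W ∨
        (Even (Module.finrank F W) ∧ IsNondegenerateOn (oddPolar m F) W ∧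
          ¬ (Fintype.card F = 3 ∧ Module.finrank F W = 2 ∧ IsPlusTypeOn (Cfsg.quadFormOdd m F) W))) := by
  classical
  have hQ := isNondegenerateQuad_odd h2 m (F := F)
  have hb := hQ.polar_bilinear
  let perp : Submodule F (OddIdx m → F) → Submodule F (OddIdx m → F) := fun U =>
    { carrier := {x | ∀ w ∈ U, oddPolar m F x w = 0}
      zero_mem' := fun w _ => by simpa using hb.smul_left 0 0 w
      add_mem' := fun {x y} hx hy w hw => by
        rw [show oddPolar m F (x + y) w = oddPolar m F x w + oddPolar m F y w from hb.add_left x y w, hx w hw, hy w hw, add_zero]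
      smul_mem' := fun c x hx w hw => by
        rw [show oddPolar m F (c • x) w = c * oddPolar m F x w from hb.smul_left c x w, hx w hw, mul_zero] }
  have hperp : ∀ U : Submodule F (OddIdx m → F), (∀ g ∈ H, ∀ v ∈ U, act g v ∈ U) →
      ∀ g ∈ H, ∀ v ∈ perp U, act g v ∈ perp U := by
    intro U hU g hg v hv w hw
    have h := omega_polar_act (hH hg) v (act g⁻¹ w)
    rw [act_act_inv, hv _ (hU g⁻¹ (H.inv_mem hg) w hw)] at h
    exact h
  have hdimperp : ∀ U : Submodule F (OddIdx m → F), 2 * m + 1 ≤ Module.finrank F U + Module.finrank F (perp U) := by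
    intro U
    let b := Module.finBasis F U
    let L : (OddIdx m → F) →ₗ[F] (Fin (Module.finrank F U) → F) :=
      { toFun := fun x i => oddPolar m F x (b i : OddIdx m → F)
        map_add' := fun x y => funext fun i => hb.add_left _ _ _
        map_smul' := fun c x => funext fun i => hb.smul_left _ _ _ }
    have hker : LinearMap.ker L ≤ perp U := by
      intro x hx w hw
      let φ : (OddIdx m → F) →ₗ[F] F :=
        { toFun := oddPolar m F x, map_add' := hb.add_right x, map_smul' := fun c y => hb.smul_right c x y }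
      have hle : (⊤ : Submodule F U).map U.subtype ≤ LinearMap.ker φ := by
        rw [← b.span_eq, Submodule.map_span_le]
        rintro _ ⟨i, rfl⟩
        exact congrFun hx i
      rw [Submodule.map_top, Submodule.range_subtype] at hle
      exact hle hw
    have h1 := LinearMap.finrank_range_add_finrank_ker L
    have h3 := Submodule.finrank_le (LinearMap.range L)
    have h4 := Submodule.finrank_mono hker
    rw [Module.finrank_fintype_fun_eq_card] at h1
    rw [Module.finrank_fin_fun] at h3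
    simp at h1
    omega
  have hnd : ∀ U : Submodule F (OddIdx m → F), U ⊓ perp U = ⊥ → IsNondegenerateOn (oddPolar m F) U := by
    intro U hU w hw hw0
    obtain ⟨x, hx, hwx⟩ : ∃ x ∈ U, oddPolar m F w x ≠ 0 := by
      by_contra hall
      push Not at hall
      have hmem : w ∈ U ⊓ perp U := ⟨hw, hall⟩
      rw [hU, Submodule.mem_bot] at hmem
      exact hw0 hmem
    exact ⟨⟨x, hx, by rwa [oddPolar_comm]⟩, x, hx, hwx⟩
  -- the facts about a non-degenerate invariant subspace
  have hfacts : ∀ U : Submodule F (OddIdx m → F), U ⊓ perp U = ⊥ →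
      Module.finrank F U + Module.finrank F (perp U) = 2 * m + 1 ∧ perp U ⊓ perp (perp U) = ⊥ := by
    intro U hU
    have hsum := Submodule.finrank_sup_add_finrank_inf_eq U (perp U)
    have hle := Submodule.finrank_le (U ⊔ perp U)
    rw [hU, finrank_bot, add_zero] at hsum
    rw [Module.finrank_fintype_fun_eq_card] at hle
    simp at hle
    have := hdimperp U
    refine ⟨by omega, ?_⟩
    have htop : U ⊔ perp U = ⊤ := Submodule.eq_top_of_finrank_eq (by
      rw [Module.finrank_fintype_fun_eq_card]; simp; omega)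
    rw [Submodule.eq_bot_iff]
    rintro x ⟨hx, hx'⟩
    by_contra hx0
    obtain ⟨-, y, hy⟩ := hQ.nondegenerate x hx0
    obtain ⟨a, ha, c, hc, rfl⟩ := Submodule.mem_sup.mp (htop ▸ Submodule.mem_top : y ∈ U ⊔ perp U)
    apply hy
    rw [hb.add_right, show QuadraticMap.polar (Cfsg.quadFormOdd m F) x a = 0 from hx a ha,
      show QuadraticMap.polar (Cfsg.quadFormOdd m F) x c = 0 from hx' c hc, add_zero]
  rw [actsIrreducibly_iff] at hirr
  push Not at hirr
  obtain ⟨W, hW, h0, h1⟩ := hirr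
  by_cases hR : W ⊓ perp W = ⊥
  swap
  · refine ⟨_, hR, fun h => h1 (top_le_iff.mp (h ▸ inf_le_left)),
      le_subspaceStabilizer (fun g hg v hv => ⟨hW g hg v hv.1, hperp W hW g hg v hv.2⟩), Or.inl fun a ha => ?_⟩
    have h := ha.2 a ha.1
    rw [show oddPolar m F a a = 2 * Cfsg.quadFormOdd m F a from polar_self_eq hQ a] at h
    exact (mul_eq_zero.mp h).resolve_left h2
  -- choose an even-dimensional one
  obtain ⟨W, hW, h0, h1, hR, heven⟩ : ∃ W : Submodule F (OddIdx m → F), (∀ g ∈ H, ∀ v ∈ W, act g v ∈ W) ∧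
      W ≠ ⊥ ∧ W ≠ ⊤ ∧ W ⊓ perp W = ⊥ ∧ Even (Module.finrank F W) := by
    obtain ⟨hsum, hR'⟩ := hfacts W hR
    rcases Nat.even_or_odd (Module.finrank F W) with he | he
    · exact ⟨W, hW, h0, h1, hR, he⟩
    refine ⟨perp W, hperp W hW, fun h => ?_, fun h => ?_, hR', ?_⟩
    · rw [h, finrank_bot] at hsum
      refine h1 (Submodule.eq_top_of_finrank_eq ?_)
      rw [Module.finrank_fintype_fun_eq_card]; simp; omega
    · rw [h, inf_top_eq] at hR; exact h0 hR
    · obtain ⟨k, hk⟩ := he
      exact ⟨m - k, by omega⟩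
  by_cases hexc : Fintype.card F = 3 ∧ Module.finrank F W = 2 ∧ IsPlusTypeOn (Cfsg.quadFormOdd m F) W
  swap
  · exact ⟨W, h0, h1, le_subspaceStabilizer hW, Or.inr ⟨heven, hnd W hR, hexc⟩⟩
  obtain ⟨hq3, hdim, U, hUW, hUs, hUdim⟩ := hexc
  obtain ⟨u, hu, hu0⟩ := U.ne_bot_iff.mp (fun h => by rw [h, finrank_bot, hdim] at hUdim; omega)
  -- a hyperbolic pair of the plane
  obtain ⟨y, hy, huy⟩ := (hnd W hR u (hUW hu) hu0).2
  set v₁ := (oddPolar m F u y)⁻¹ • y
  have hv₁ : oddPolar m F u v₁ = 1 := by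
    show QuadraticMap.polar (Cfsg.quadFormOdd m F) u v₁ = 1
    rw [hb.smul_right, inv_mul_cancel₀ huy]
  set v := v₁ + (-(Cfsg.quadFormOdd m F v₁)) • u
  have hQadd : ∀ a c, Cfsg.quadFormOdd m F (a + c)
      = Cfsg.quadFormOdd m F a + Cfsg.quadFormOdd m F c + oddPolar m F a c := fun a c => by
    simp [oddPolar, QuadraticMap.polar]
  have huu : Cfsg.quadFormOdd m F u = 0 := hUs u hu
  have huuf : oddPolar m F u u = 0 := by
    rw [show oddPolar m F u u = _ from polar_self_eq hQ u, huu, mul_zero]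
  have hvQ : Cfsg.quadFormOdd m F v = 0 := by
    rw [hQadd, hQ.smul (-(Cfsg.quadFormOdd m F v₁)) u, huu, show oddPolar m F v₁ ((-(Cfsg.quadFormOdd m F v₁)) • u) = _ from hb.smul_right _ _ _,
      show QuadraticMap.polar (Cfsg.quadFormOdd m F) v₁ u = 1 by rw [QuadraticMap.polar_comm]; exact hv₁]
    ring
  have huv : oddPolar m F u v = 1 := by
    rw [show oddPolar m F u v = _ from hb.add_right u v₁ _]
    show oddPolar m F u v₁ + oddPolar m F u ((-(Cfsg.quadFormOdd m F v₁)) • u) = 1
    rw [hv₁, show oddPolar m F u ((-(Cfsg.quadFormOdd m F v₁)) • u) = _ from hb.smul_right _ _ _,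
      show QuadraticMap.polar (Cfsg.quadFormOdd m F) u u = 0 from huuf, mul_zero, add_zero]
  have hvW : v ∈ W := W.add_mem (W.smul_mem _ hy) (W.smul_mem _ (hUW hu))
  have hspan : ∀ x ∈ W, x = oddPolar m F x v • u + oddPolar m F x u • v := by
    intro x hx
    have hd : x - oddPolar m F x v • u - oddPolar m F x u • v = 0 := by
      set r := x - oddPolar m F x v • u - oddPolar m F x u • v with hr
      have hrW : r ∈ W := W.sub_mem (W.sub_mem hx (W.smul_mem _ (hUW hu))) (W.smul_mem _ hvW)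
      have hfl : ∀ z, oddPolar m F r z
          = oddPolar m F x z - oddPolar m F x v * oddPolar m F u z - oddPolar m F x u * oddPolar m F v z := by
        intro z
        rw [show r = x + (-(oddPolar m F x v)) • u + (-(oddPolar m F x u)) • v by
          simp [hr, sub_eq_add_neg]]
        show QuadraticMap.polar (Cfsg.quadFormOdd m F) _ z = _
        rw [hb.add_left, hb.add_left, hb.smul_left, hb.smul_left]
        ring
      have hru : oddPolar m F r u = 0 := by
        rw [hfl, huuf, oddPolar_comm v u, huv]; ring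
      have hrv : oddPolar m F r v = 0 := by
        rw [hfl, huv, show oddPolar m F v v = _ from polar_self_eq hQ v, hvQ]; ring
      -- `u, v` span the plane
      have hli : LinearIndependent F ![(⟨u, hUW hu⟩ : W), ⟨v, hvW⟩] := by
        rw [LinearIndependent.pair_iff]
        intro s t hst
        have hst' : s • u + t • v = 0 := congrArg Subtype.val hst
        have h5 := congrArg (fun z => oddPolar m F z u) hst'
        have h6 := congrArg (fun z => oddPolar m F z v) hst'
        have hz : ∀ z, oddPolar m F (0 : OddIdx m → F) z = 0 := fun z => by simpa using hb.smul_left 0 0 z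
        simp only [hz] at h5 h6
        rw [show oddPolar m F (s • u + t • v) u = _ from hb.add_left _ _ _, hb.smul_left, hb.smul_left,
          show QuadraticMap.polar (Cfsg.quadFormOdd m F) u u = 0 from huuf,
          show QuadraticMap.polar (Cfsg.quadFormOdd m F) v u = 1 by rw [QuadraticMap.polar_comm]; exact huv] at h5
        rw [show oddPolar m F (s • u + t • v) v = _ from hb.add_left _ _ _, hb.smul_left, hb.smul_left,
          show QuadraticMap.polar (Cfsg.quadFormOdd m F) u v = 1 from huv, polar_self_eq hQ, hvQ] at h6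
        exact ⟨by linear_combination h6, by linear_combination h5⟩
      have hsp := hli.span_eq_top_of_card_eq_finrank' (by rw [Fintype.card_fin, hdim])
      by_contra hr0
      obtain ⟨⟨z, hz, hzr⟩, -⟩ := hnd W hR r hrW hr0
      apply hzr
      have hz' : (⟨z, hz⟩ : W) ∈ Submodule.span F (Set.range ![(⟨u, hUW hu⟩ : W), ⟨v, hvW⟩]) :=
        hsp ▸ Submodule.mem_top
      rw [show Set.range ![(⟨u, hUW hu⟩ : W), ⟨v, hvW⟩] = {⟨u, hUW hu⟩, ⟨v, hvW⟩} by simp [Set.pair_comm]] at hz'
      obtain ⟨s, t, hst⟩ := Submodule.mem_span_pair.mp hz'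
      rw [← show s • u + t • v = z from congrArg Subtype.val hst, oddPolar_comm]
      show QuadraticMap.polar (Cfsg.quadFormOdd m F) r _ = 0
      rw [hb.add_right, hb.smul_right, hb.smul_right]
      show s * oddPolar m F r u + t * oddPolar m F r v = 0
      rw [hru, hrv]; ring
    rw [sub_sub, sub_eq_zero] at hd
    exact hd
  set w := u + v
  have hQw : Cfsg.quadFormOdd m F w = 1 := by rw [hQadd, huu, hvQ, huv]; ring
  have hline : ∀ g ∈ H, ∀ x ∈ F ∙ w, act g x ∈ F ∙ w := by
    intro g hg x hx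
    obtain ⟨s, rfl⟩ := Submodule.mem_span_singleton.mp hx
    rw [act_smul]
    refine Submodule.smul_mem _ s ?_
    have hgw := hW g hg w (W.add_mem (hUW hu) hvW)
    set α := oddPolar m F (act g w) v
    set β := oddPolar m F (act g w) u
    have he := hspan _ hgw
    have hQg := mem_omegaGL_isometry (hH hg) w
    rw [hQw, he, hQadd, hQ.smul, hQ.smul, huu, hvQ, show oddPolar m F (α • u) (β • v) = α * (β * 1) by
      show QuadraticMap.polar (Cfsg.quadFormOdd m F) _ _ = _
      rw [hb.smul_left, hb.smul_right, show QuadraticMap.polar (Cfsg.quadFormOdd m F) u v = 1 from huv]] at hQg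
    have hαβ : α * β = 1 := by linear_combination hQg
    have hsq : α * α = 1 := by
      have := FiniteField.pow_card_sub_one_eq_one α (left_ne_zero_of_mul_eq_one hαβ)
      rw [hq3] at this
      linear_combination this
    have hab : β = α := mul_left_cancel₀ (left_ne_zero_of_mul_eq_one hαβ) (hαβ.trans hsq.symm)
    rw [he]
    show α • u + β • v ∈ F ∙ w
    rw [hab, ← smul_add]
    exact Submodule.smul_mem _ _ (Submodule.mem_span_singleton_self w)
  have hw0 : w ≠ 0 := fun h => by
    rw [h, show Cfsg.quadFormOdd m F 0 = 0 by simpa using hQ.smul 0 0] at hQw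
    exact zero_ne_one hQw
  have hR1 : (F ∙ w) ⊓ perp (F ∙ w) = ⊥ := by
    rw [Submodule.eq_bot_iff]
    rintro x ⟨hx, hx'⟩
    obtain ⟨s, rfl⟩ := Submodule.mem_span_singleton.mp hx
    have := hx' w (Submodule.mem_span_singleton_self w)
    rw [show oddPolar m F (s • w) w = _ from hb.smul_left _ _ _, polar_self_eq hQ, hQw, mul_one] at this
    rw [(mul_eq_zero.mp this).resolve_right h2, zero_smul]
  obtain ⟨hsum, hR'⟩ := hfacts _ hR1
  rw [finrank_span_singleton hw0] at hsum
  refine ⟨perp (F ∙ w), fun h => ?_, fun h => ?_, le_subspaceStabilizer (hperp _ hline),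
    Or.inr ⟨⟨m, by omega⟩, hnd _ hR', fun ⟨_, h, _⟩ => by omega⟩⟩
  · rw [h, finrank_bot] at hsum; omega
  · rw [h, inf_top_eq] at hR1
    exact hw0 (Submodule.span_singleton_eq_bot.mp hR1)

/-- Maximal subgroups of `Ω` in odd prime dimension. -/
theorem omega_prime (hodd : Odd (Fintype.card F)) (hn : (2 * m + 1).Prime) (hm : 2 ≤ m)
    {H : Subgroup (GL (OddIdx m) F)} (hH : IsMaximalIn (omegaGL (Cfsg.quadFormOdd m F)) H) :
    (∃ W : Submodule F (OddIdx m → F), W ≠ ⊥ ∧ IsTotallySingularQuad (Cfsg.quadFormOdd m F) W ∧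
      H = subspaceStabilizer W ⊓ omegaGL (Cfsg.quadFormOdd m F)) ∨
    (∃ W : Submodule F (OddIdx m → F), W ≠ ⊥ ∧ Even (Module.finrank F W) ∧
      IsNondegenerateOn (QuadraticMap.polar (Cfsg.quadFormOdd m F)) W ∧
      ¬ (Fintype.card F = 3 ∧ Module.finrank F W = 2 ∧ IsPlusTypeOn (Cfsg.quadFormOdd m F) W) ∧
      H = subspaceStabilizer W ⊓ omegaGL (Cfsg.quadFormOdd m F)) ∨
    ((Fintype.card F).Prime ∧ ∃ D : Fin (2 * m + 1) → Submodule F (OddIdx m → F),
      IsOrthogonalMDecomposition (Cfsg.quadFormOdd m F) 1 D ∧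
      H = decompositionStabilizer D ⊓ omegaGL (Cfsg.quadFormOdd m F)) ∨
    (∃ (F₀ : Subfield F) (r : ℕ) (P : GL (OddIdx m) F), r.Prime ∧ Fintype.card F = Nat.card F₀ ^ r ∧
      IsQuadFormRationalStructure (Cfsg.quadFormOdd m F) F₀ P ∧
      H = subfieldSubgroup F₀ P ⊓ omegaGL (Cfsg.quadFormOdd m F)) ∨
    InOrthogonalResidualClass H := by
  classical
  have h2 : (2 : F) ≠ 0 := CfsgLib.ClassicalForms.two_ne_zero_of_odd (by rwa [Nat.card_eq_fintype_card])
  have hG : H ≤ omegaGL (Cfsg.quadFormOdd m F) := hH.1.le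
  have hsl : H ≤ specialLinear (OddIdx m) F := hG.trans (omegaGL_le_specialLinear m F)
  haveI : Nonempty (OddIdx m) := ⟨Sum.inl ()⟩
  have hcard : Fintype.card (OddIdx m) = 2 * m + 1 := by simp; omega
  have hn' : (Fintype.card (OddIdx m)).Prime := by rwa [hcard]
  have hodd' : Odd (Fintype.card (OddIdx m)) := ⟨m, hcard⟩
  by_cases hirr : ActsIrreducibly (matrixSet H)
  swap
  · obtain ⟨W, h0, h1, hle, hW | ⟨he, hW, hexc⟩⟩ := omega_reducible_case h2 hm hG hirr
    · exact Or.inl ⟨W, h0, hW, IsMaximalIn.eq_inf hH hle (omega_not_le_subspaceStabilizer h2 hm h0 h1)⟩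
    · exact Or.inr (Or.inl ⟨W, h0, he, hW, hexc,
        IsMaximalIn.eq_inf hH hle (omega_not_le_subspaceStabilizer h2 hm h0 h1)⟩)
  right; right
  by_cases habs : ∀ N, NormalIn N H → ¬ N ≤ scalars (OddIdx m) F → ActsAbsolutelyIrreducibly (matrixSet N)
  swap
  · push Not at habs
    obtain ⟨N, hN, hNs, hNa⟩ := habs
    rcases normal_cases hn' hirr hN hNs with h | ⟨D, χ, hD⟩ | ⟨K, hK⟩
    · exact absurd h hNa
    · have hO := omega_eigenLines h2 hN hG hirr hD
      by_cases hp : (Fintype.card F).Prime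
      · left
        have key : ∀ (t : ℕ) (D : Fin t → Submodule F (OddIdx m → F)), t = 2 * m + 1 →
            IsOrthogonalMDecomposition (Cfsg.quadFormOdd m F) 1 D → H ≤ decompositionStabilizer D →
            ∃ D : Fin (2 * m + 1) → Submodule F (OddIdx m → F),
              IsOrthogonalMDecomposition (Cfsg.quadFormOdd m F) 1 D ∧
              H = decompositionStabilizer D ⊓ omegaGL (Cfsg.quadFormOdd m F) := by
          rintro t D rfl hO hle
          exact ⟨D, hO, IsMaximalIn.eq_inf hH hle (omega_not_le_decompositionStabilizer h2 hm rfl hO.decomp.decomp)⟩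
        exact ⟨hp, key _ D hcard hO hD.le⟩
      · obtain ⟨p, hchar⟩ := CharP.exists F
        obtain ⟨e, hpp, hq⟩ := FiniteField.card F p
        haveI := Fact.mk hpp
        have hbot : fixedField (F := F) p 1 ≠ ⊤ := by
          intro htop
          have h1 := card_fixedField (F := F) (p := p) (k := 1) hq one_pos (one_dvd _)
          rw [htop, pow_one, show Nat.card (⊤ : Subfield F) = Nat.card F from
            Nat.card_congr (Equiv.subtypeUnivEquiv fun x => Subfield.mem_top x), Nat.card_eq_fintype_card] at h1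
          exact hp (h1 ▸ hpp)
        obtain ⟨K₁, r, hr, -, hcardK⟩ := exists_prime_index_overfield hbot
        have hK₁ : K₁ ≠ ⊤ := by
          rintro rfl
          rw [show Nat.card (⊤ : Subfield F) = Nat.card F from
            Nat.card_congr (Equiv.subtypeUnivEquiv fun x => Subfield.mem_top x), Nat.card_eq_fintype_card] at hcardK
          exact (lt_self_pow₀ Fintype.one_lt_card hr.one_lt).ne hcardK
        obtain ⟨P, hrat, hle⟩ := omega_decomposition_subfield h2 hG hirr rfl hO hD.le K₁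
        exact Or.inr (Or.inl ⟨K₁, r, P, hr, hcardK, hrat,
          IsMaximalIn.eq_inf hH hle (omega_not_le_subfieldSubgroup h2 hm hK₁ P)⟩)
    · exact (omega_no_fullField h2 (hN.le.trans hG) hNs hK).elim
  right
  by_cases hsub : ∀ N, NormalIn N H → ¬ N ≤ scalars (OddIdx m) F →
      ∀ K : Subfield F, K ≠ ⊤ → ¬ RealisableOver K (matrixSet N)
  swap
  · push Not at hsub
    obtain ⟨N, hN, hNs, K, hK, hreal⟩ := hsub
    obtain ⟨B, hB⟩ := hreal
    obtain ⟨K₁, r, hr, hle, hcardK⟩ := exists_prime_index_overfield hK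
    have hK₁ : K₁ ≠ ⊤ := by
      rintro rfl
      rw [show Nat.card (⊤ : Subfield F) = Nat.card F from
        Nat.card_congr (Equiv.subtypeUnivEquiv fun x => Subfield.mem_top x), Nat.card_eq_fintype_card] at hcardK
      exact (lt_self_pow₀ Fintype.one_lt_card hr.one_lt).ne hcardK
    obtain ⟨P, hrat, hle'⟩ := omega_subfield_case h2 hN hG (habs N hN hNs) (K := K₁)
      ⟨B, fun s hs i j => hle (hB s hs i j)⟩
    exact Or.inl ⟨K₁, r, P, hr, hcardK, hrat,
      IsMaximalIn.eq_inf hH hle' (omega_not_le_subfieldSubgroup h2 hm hK₁ P)⟩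
  right
  have hHs : ¬ H ≤ scalars (OddIdx m) F := not_le_scalars_of_irreducible (by omega) hirr
  have hQ := isNondegenerateQuad_odd h2 m (F := F)
  rcases sympl_or_residual hn' hodd' hsl hHs habs hsub with ⟨R, hR⟩ | ⟨P, hP, hcore⟩
  · -- a scalar of odd prime order is no isometry
    exfalso
    haveI : Finite (Subgroup.center R) := Subtype.finite
    haveI : Nontrivial (Subgroup.center R) := by
      rw [← Finite.one_lt_card_iff_nontrivial, hR.card_center]; omega
    obtain ⟨z, hz⟩ := exists_ne (1 : Subgroup.center R)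
    set g : GL (OddIdx m) F := ((z : R) : GL (OddIdx m) F)
    obtain ⟨c, hc⟩ := hR.absIrred.2 (g : Matrix (OddIdx m) (OddIdx m) F) (by
      rintro _ ⟨y, hy, rfl⟩
      exact congrArg (fun r : R => ((r : GL (OddIdx m) F) : Matrix (OddIdx m) (OddIdx m) F))
        (Subgroup.mem_center_iff.mp z.2 ⟨y, hy⟩).symm)
    set v : OddIdx m → F := Pi.single (Sum.inl ()) 1
    have hQv : Cfsg.quadFormOdd m F v = 1 := by simp [v, Cfsg.quadFormOdd]
    have hcsq : c ^ 2 = 1 := by
      have h := mem_omegaGL_isometry (hG (hR.normal.le (z : R).2)) v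
      rwa [act_scalar hc, hQ.smul, hQv, mul_one] at h
    have hg2 : g ^ 2 = 1 := Units.ext (by
      rw [Units.val_pow_eq_pow_val, hc, _root_.smul_pow, one_pow, hcsq, one_smul, Units.val_one])
    have hord : z ^ 2 = 1 := by
      apply Subtype.ext; apply Subtype.ext
      exact hg2
    have h5 := (orderOf_dvd_of_pow_eq_one hord)
    have h6 : orderOf z ∣ Fintype.card (OddIdx m) := hR.card_center ▸ orderOf_dvd_natCard z
    have h7 : orderOf z ∣ Nat.gcd 2 (Fintype.card (OddIdx m)) := Nat.dvd_gcd h5 h6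
    rw [Nat.coprime_two_left.mpr hodd', Nat.dvd_one, orderOf_eq_one_iff] at h7
    exact hz h7
  · refine ⟨P, hcore, ?_⟩
    rintro ⟨σ, f, hf, hfix⟩
    obtain ⟨K, hK, hreal⟩ := realisable_of_bilinear_unitary hf hodd' hcore.absIrred hQ.polar_bilinear
      hQ.nondegenerate hfix (fixesForm_polar (omegaGL_fixesQuad (hP.le.trans hG)))
    exact hsub P hP (not_le_scalars_of_irreducible (by omega) hcore.absIrred.1) K hK hreal

end CfsgLib.SmallDim
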