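import Cfsg.Agent.Lib.SmallDim.FormClifford
import Cfsg.Agent.Lib.SmallDim.OmegaPrime
import Cfsg.Agent.Lib.Geometric.Orth.Omega
import Cfsg.Agent.Lib.Geometric.Orth.Singular
import Cfsg.Prelude.Def_ClassicalGeometry

/-!
Groundwork for Aschbacher's theorem for orthogonal groups in even dimension, in any characteristic: the bundled
form, and the geometric overgroups which do not contain `Ω`.
-/

set_option autoImplicit false
set_option linter.style.haveILetI false
set_option linter.unusedSectionVars false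

namespace CfsgLib.SmallDim.OrthEven

open scoped MatrixGroups Matrix
open Cfsg.Geo QuadraticMap CfsgLib.ClassicalForms CfsgLib.Geometric.Orth

variable {ι : Type} [Fintype ι] [DecidableEq ι] {F : Type*} [Field F] {Q : QuadraticForm F (ι → F)}

lemma isBilinear_polar (Q : QuadraticForm F (ι → F)) : IsBilinearForm (polar (⇑Q)) :=
  ⟨fun x y v => Q.polar_add_left x y v, fun c x v => by rw [Q.polar_smul_left, smul_eq_mul],
    fun v x y => Q.polar_add_right v x y, fun c v x => by rw [Q.polar_smul_right, smul_eq_mul]⟩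

lemma sesqui_polar (Q : QuadraticForm F (ι → F)) : IsSesqui (RingHom.id F) (polar (⇑Q)) :=
  IsSesqui.of_bilinear (isBilinear_polar Q)

lemma reflexive_polar (Q : QuadraticForm F (ι → F)) : IsReflexive (polar (⇑Q)) :=
  isReflexive_of_symm fun u v => polar_comm _ u v

lemma isNondegenerateForm_polar (hQ : Nondeg Q) : IsNondegenerateForm (polar (⇑Q)) := by
  intro v hv
  obtain ⟨y, hy⟩ : ∃ y, polar Q v y ≠ 0 := by
    by_contra hall
    push Not at hall
    exact hv (hQ v hall)
  exact ⟨⟨y, by rwa [polar_comm]⟩, y, hy⟩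

/-- Every element of `H` is an isometry of `Q`. -/
def Isometric (Q : QuadraticForm F (ι → F)) (H : Subgroup (GL ι F)) : Prop :=
  ∀ g ∈ H, ∀ v, Q (act g v) = Q v

lemma isometric_of_le_omega {H : Subgroup (GL ι F)} (hH : H ≤ omegaGL (⇑Q)) : Isometric Q H :=
  fun _ hg v => isometry_of_mem (hH hg) v

lemma Isometric.mono {H M : Subgroup (GL ι F)} (hM : Isometric Q M) (h : H ≤ M) : Isometric Q H :=
  fun g hg => hM g (h hg)

lemma Isometric.polar {H : Subgroup (GL ι F)} (hH : Isometric Q H) {g : GL ι F} (hg : g ∈ H) (u v : ι → F) :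
    polar Q (act g u) (act g v) = polar Q u v := by
  simp only [QuadraticMap.polar]
  rw [show act g u + act g v = act g (u + v) from (Matrix.mulVec_add _ _ _).symm, hH g hg, hH g hg, hH g hg]

lemma Isometric.fixesForm {H : Subgroup (GL ι F)} (hH : Isometric Q H) :
    FixesForm (matrixSet H) (QuadraticMap.polar (⇑Q)) := by
  rintro _ ⟨g, hg, rfl⟩
  exact hH.polar hg

lemma Isometric.mem_isometryGroup {H : Subgroup (GL ι F)} (hH : Isometric Q H) {g : GL ι F} (hg : g ∈ H) :
    g ∈ Cfsg.isometryGroup F (⇑Q) :=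
  mem_isometryGroup_iff.mpr (hH g hg)

/-- `polarVec` represents the polar form. -/
lemma polarVec_dotProduct (Q : QuadraticForm F (ι → F)) (u x : ι → F) :
    Cfsg.polarVec (⇑Q) u ⬝ᵥ x = polar Q u x := by
  conv_rhs => rw [pi_eq_sum_univ' x, ← polarBilin_apply_apply, map_sum]
  simp only [dotProduct, map_smul, smul_eq_mul, polarBilin_apply_apply]
  exact Finset.sum_congr rfl fun j _ => by rw [mul_comm]; rfl

lemma act_sg {u w : ι → F} (hu : Q u = 0) (hw : polar Q u w = 0) (x : ι → F) :
    act (sg Q u w hu hw) x = x + polar Q x u • w - (polar Q x w + Q w * polar Q x u) • u :=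
  ap_sg hu hw x

lemma exists_singular_pair [Finite F] (hQ : Nondeg Q) (hn : 3 ≤ Fintype.card ι) {v : ι → F} (hv : v ≠ 0) :
    ∃ s, Q s = 0 ∧ polar Q s v = 1 := by
  obtain ⟨s, -, h⟩ := (Sec.top Q).exists_singular_polar_one hQ
    (by rw [Module.finrank_fintype_fun_eq_card]; omega) (Sec.mem_top v) hv
  exact ⟨s, h⟩

lemma ne_zero_of_polar {s v : ι → F} (h : polar Q s v = 1) : s ≠ 0 := by
  rintro rfl
  rw [QuadraticMap.polar_zero_left] at h
  exact zero_ne_one h

/-- Vectors orthogonal to `u` pairing to `1`. -/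
lemma exists_orth_pair_one (hQ : Nondeg Q) (hn : 3 ≤ Fintype.card ι) {u : ι → F} :
    ∃ w w', polar Q u w = 0 ∧ polar Q u w' = 0 ∧ polar Q w w' = 1 := by
  obtain ⟨w, hw, hwu⟩ : ∃ w, polar Q u w = 0 ∧ w ∉ Submodule.span F {u} := by
    by_contra hall
    push Not at hall
    have hle : LinearMap.ker (polarBilin Q u) ≤ Submodule.span F {u} := fun w hw =>
      hall w (by simpa using hw)
    have h1 := Submodule.finrank_mono hle
    have h2 := LinearMap.finrank_range_add_finrank_ker (polarBilin Q u)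
    have h3 := Submodule.finrank_le (LinearMap.range (polarBilin Q u))
    have h4 : Module.finrank F (Submodule.span F {u}) ≤ 1 := by
      refine (finrank_span_le_card _).trans ?_
      simp
    rw [Module.finrank_fintype_fun_eq_card] at h2
    rw [Module.finrank_self] at h3
    omega
  obtain ⟨w', h1, h2⟩ := exists_polar_pair hQ hwu
  exact ⟨w, w', hw, h1, h2⟩

/-- The second difference of Siegel elements. -/
lemma sg_second_diff {u w w' : ι → F} (hu : Q u = 0) (hw : polar Q u w = 0) (hw' : polar Q u w' = 0)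
    (x : ι → F) :
    (act (sg Q u (w + w') hu (by rw [polar_add_right, hw, hw', add_zero])) x - x)
      - (act (sg Q u w hu hw) x - x) - (act (sg Q u w' hu hw') x - x)
      = -(polar Q w w' * polar Q x u) • u := by
  rw [act_sg, act_sg, act_sg, QuadraticMap.map_add ⇑Q w w', polar_add_right]
  module

variable [Finite F]

/-- `Ω` is irreducible. -/
theorem omega_not_le_subspaceStabilizer (hQ : Nondeg Q) (hn : 5 ≤ Fintype.card ι)
    {W : Submodule F (ι → F)} (h0 : W ≠ ⊥) (h1 : W ≠ ⊤) : ¬ omegaGL (⇑Q) ≤ subspaceStabilizer W := by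
  intro hle
  obtain ⟨x, hx, hx0⟩ := W.ne_bot_iff.mp h0
  obtain ⟨u, hu, hux⟩ := exists_singular_pair hQ (by omega) hx0
  have hd : ∀ w (hw : polar Q u w = 0), act (sg Q u w hu hw) x - x ∈ W := fun w hw =>
    W.sub_mem ((mem_subspaceStabilizer.mp (hle (sg_mem hQ hn hu hw)) x).mp hx) hx
  have hxu : polar Q x u = 1 := by rw [polar_comm]; exact hux
  obtain ⟨w, w', hw, hw', hww⟩ := exists_orth_pair_one hQ (by omega) (u := u)
  have huW : u ∈ W := by
    have h := W.sub_mem (W.sub_mem (hd (w + w') (by rw [polar_add_right, hw, hw', add_zero])) (hd w hw)) (hd w' hw')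
    rw [sg_second_diff hu hw hw', hww, hxu, one_mul, neg_one_smul] at h
    simpa using h
  refine h1 (Submodule.eq_top_iff'.mpr fun y => ?_)
  set z := y - polar Q u y • x with hzdef
  have hz : polar Q u z = 0 := by
    rw [hzdef, polar_sub_right, polar_smul_right, hux, smul_eq_mul, mul_one, sub_self]
  have h := hd z hz
  rw [act_sg, hxu, one_smul, mul_one] at h
  have h2 := W.add_mem h (W.smul_mem (polar Q x z + Q z) huW)
  have h3 : z ∈ W := by
    convert h2 using 1
    abel
  simpa [z] using W.add_mem h3 (W.smul_mem (polar Q u y) hx)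

/-- `Ω` permutes no decomposition with few members. -/
theorem omega_not_le_decompositionStabilizer [Fintype F] (hQ : Nondeg Q) (hn : 5 ≤ Fintype.card ι)
    {t m : ℕ} {D : Fin t → Submodule F (ι → F)} (hD : IsMDecomposition m D)
    (hcount : t * Fintype.card F ^ m < Fintype.card F ^ (Fintype.card ι - 2)) :
    ¬ omegaGL (⇑Q) ≤ decompositionStabilizer D := by
  classical
  intro hle
  have ht : 0 < t := by have := hD.two_le; omega
  obtain ⟨d, hd, hd0⟩ := (D ⟨0, ht⟩).ne_bot_iff.mp fun e => by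
    have h1 := hD.finrank_eq ⟨0, ht⟩
    rw [e, finrank_bot] at h1
    have := hD.pos
    omega
  obtain ⟨u, hu, hud⟩ := exists_singular_pair hQ (by omega) hd0
  let L : (ι → F) →ₗ[F] (Fin 2 → F) := LinearMap.pi ![polarBilin Q u, polarBilin Q d]
  let T := LinearMap.ker L
  have hT : ∀ w : T, polar Q u (w : ι → F) = 0 ∧ polar Q d (w : ι → F) = 0 := fun w => by
    have h := LinearMap.mem_ker.mp w.2
    exact ⟨congrFun h 0, congrFun h 1⟩
  have hmem : ∀ w : T, ∃ k, act (sg Q u w hu (hT w).1) d ∈ D k := fun w => by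
    obtain ⟨π, hπ⟩ := hle (sg_mem hQ hn hu (hT w).1)
    exact ⟨π ⟨0, ht⟩, by rw [← hπ ⟨0, ht⟩]; exact ⟨d, hd, Matrix.toLin'_apply _ _⟩⟩
  choose k hk using hmem
  let Φ : T → Σ i : Fin t, D i := fun w => ⟨k w, _, hk w⟩
  have hdu : polar Q d u = 1 := by rw [polar_comm]; exact hud
  have hinj : Function.Injective Φ := by
    intro w w' h
    have h' : act (sg Q u w hu (hT w).1) d = act (sg Q u w' hu (hT w').1) d :=
      congrArg (fun p : Σ i : Fin t, D i => ((p.2 : D p.1) : ι → F)) h
    rw [act_sg, act_sg, hdu, one_smul, one_smul, (hT w).2, (hT w').2, zero_add, zero_add, mul_one, mul_one] at h'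
    have h3 : (w : ι → F) - w' = (Q w - Q w') • u := by
      rw [sub_smul]
      linear_combination (norm := module) h'
    have hc : Q w - Q w' = 0 := by
      have h4 := congrArg (polar Q d) h3
      simpa [polar_sub_right, polar_smul_right, (hT w).2, (hT w').2, hdu, eq_comm] using h4
    refine Subtype.ext (sub_eq_zero.mp ?_)
    rw [h3, hc, zero_smul]
  have hcard := Nat.card_le_card_of_injective Φ hinj
  have h1 : Fintype.card ι ≤ Module.finrank F T + 2 := by
    have e1 := LinearMap.finrank_range_add_finrank_ker L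
    have e2 := Submodule.finrank_le (LinearMap.range L)
    rw [Module.finrank_fintype_fun_eq_card] at e1
    rw [Module.finrank_fin_fun] at e2
    show _ ≤ Module.finrank F (LinearMap.ker L) + 2
    omega
  rw [Nat.card_sigma, Module.natCard_eq_pow_finrank (K := F), Finset.sum_congr rfl
    (fun i _ => by rw [Module.natCard_eq_pow_finrank (K := F), hD.finrank_eq i]), Finset.sum_const,
    Finset.card_univ, Fintype.card_fin, smul_eq_mul, Nat.card_eq_fintype_card] at hcard
  have h2 : Fintype.card F ^ (Fintype.card ι - 2) ≤ Fintype.card F ^ Module.finrank F T :=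
    Nat.pow_le_pow_right Fintype.card_pos (by omega)
  omega

/-- `Ω` normalises no field of matrices other than the scalars. -/
theorem omega_not_le_subalgebraNormalizer (hQ : Nondeg Q) (hn : 5 ≤ Fintype.card ι) {r : ℕ} (hr : 2 ≤ r)
    {K : Subalgebra F (Matrix ι ι F)} (hK : IsFieldSubalgebra r K) :
    ¬ omegaGL (⇑Q) ≤ subalgebraNormalizer K := by
  classical
  intro hle
  have hinj : ∀ k ∈ K, ∀ v : ι → F, v ≠ 0 → k *ᵥ v = 0 → k = 0 := by
    intro k hk v hv h
    by_contra h0
    obtain ⟨y, hy, hky⟩ := hK.inv k hk h0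
    apply hv
    rw [← Matrix.one_mulVec v, ← hky, hK.comm k hk y hy, ← Matrix.mulVec_mulVec, h, Matrix.mulVec_zero]
  have hcomm : ∀ k ∈ K, ∀ u w (hu : Q u = 0) (hw : polar Q u w = 0), ∀ v,
      k *ᵥ act (sg Q u w hu hw) v = act (sg Q u w hu hw) (k *ᵥ v) := by
    intro k hk u w hu hw v
    set g := sg Q u w hu hw
    let L : (ι → F) →ₗ[F] (Fin 4 → F) := LinearMap.pi ![polarBilin Q u, polarBilin Q w,
      (polarBilin Q u).comp (Matrix.toLin' k), (polarBilin Q w).comp (Matrix.toLin' k)]
    obtain ⟨x, hx, hx0⟩ := (LinearMap.ker L).ne_bot_iff.mp fun e => by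
      have e1 := LinearMap.finrank_range_add_finrank_ker L
      have e2 := Submodule.finrank_le (LinearMap.range L)
      rw [e, finrank_bot, Module.finrank_fintype_fun_eq_card] at e1
      rw [Module.finrank_fin_fun] at e2
      omega
    have hc := LinearMap.mem_ker.mp hx
    have f1 : act g x = x := ap_sg_fix hu hw
      ((polar_comm _ x u).trans (congrFun hc 0)) ((polar_comm _ x w).trans (congrFun hc 1))
    have f2 : act g (k *ᵥ x) = k *ᵥ x := ap_sg_fix hu hw
      ((polar_comm _ (k *ᵥ x) u).trans (congrFun hc 2)) ((polar_comm _ (k *ᵥ x) w).trans (congrFun hc 3))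
    have hk' := (hle (sg_mem hQ hn hu hw) k).mp hk
    set k' := (g : Matrix ι ι F) * k * ((g⁻¹ : GL ι F) : Matrix ι ι F)
    have hact : ∀ y, k' *ᵥ act g y = act g (k *ᵥ y) := by
      intro y
      show ((g : Matrix ι ι F) * k * ((g⁻¹ : GL ι F) : Matrix ι ι F)) *ᵥ ((g : Matrix ι ι F) *ᵥ y) = _
      rw [Matrix.mulVec_mulVec, Units.inv_mul_cancel_right, ← Matrix.mulVec_mulVec]
    have hkk : k' = k := sub_eq_zero.mp (hinj _ (K.sub_mem hk' hk) x hx0 (by
      rw [Matrix.sub_mulVec, sub_eq_zero]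
      calc k' *ᵥ x = k' *ᵥ act g x := by rw [f1]
        _ = k *ᵥ x := by rw [hact, f2]))
    rw [← hact, hkk]
  have hscal : ∀ k ∈ K, ∃ c : F, k = c • 1 := by
    intro k hk
    obtain ⟨i⟩ : Nonempty ι := Fintype.card_pos_iff.mp (by omega)
    obtain ⟨u, hu, hui⟩ := exists_singular_pair hQ (by omega) (v := (Pi.single i 1 : ι → F)) (by simp)
    obtain ⟨w, w', hw, hw', hww⟩ := exists_orth_pair_one hQ (by omega) (u := u)
    set v : ι → F := Pi.single i 1
    have h2 := congrArg (k *ᵥ ·) (sg_second_diff (Q := Q) hu hw hw' v)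
    have h3 := sg_second_diff (Q := Q) hu hw hw' (k *ᵥ v)
    simp only [Matrix.mulVec_sub, Matrix.mulVec_smul, hcomm k hk] at h2
    rw [h3, hww, one_mul, one_mul, polar_comm Q v u, hui, neg_one_smul] at h2
    refine ⟨polar Q (k *ᵥ v) u, sub_eq_zero.mp (hinj _ (K.sub_mem hk (K.smul_mem K.one_mem _)) u
      (ne_zero_of_polar hui) ?_)⟩
    rw [Matrix.sub_mulVec, Matrix.smul_mulVec, Matrix.one_mulVec]
    linear_combination (norm := module) h2
  have hle' : Subalgebra.toSubmodule K ≤ Submodule.span F {(1 : Matrix ι ι F)} := fun k hk => by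
    obtain ⟨c, rfl⟩ := hscal k hk
    exact Submodule.smul_mem _ _ (Submodule.mem_span_singleton_self _)
  have h1 := Submodule.finrank_mono hle'
  have h2 : Module.finrank F (Submodule.span F {(1 : Matrix ι ι F)}) ≤ 1 := by
    refine (finrank_span_le_card _).trans ?_
    simp
  have h3 : Module.finrank F (Subalgebra.toSubmodule K) = r := hK.finrank_eq
  omega

/-- A Siegel element has order dividing the characteristic. -/
lemma sg_pow_char {p : ℕ} [CharP F p] {u w : ι → F} (hu : Q u = 0) (hw : polar Q u w = 0) :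
    sg Q u w hu hw ^ p = 1 := by
  have hpow : ∀ j : ℕ, siegel Q u w hu hw ^ j =
      siegel Q u ((j : F) • w) hu (by rw [polar_smul_right, hw, smul_zero]) := by
    intro j
    induction j with
    | zero => rw [pow_zero, siegel_congr rfl (show ((0 : ℕ) : F) • w = 0 by simp), siegel_zero]
    | succ j ih =>
      rw [pow_succ, ih, siegel_mul]
      exact siegel_congr rfl (by rw [Nat.cast_succ, add_smul, one_smul]) hu _
  rw [sg, ← map_pow, hpow, siegel_congr rfl (show ((p : ℕ) : F) • w = 0 by simp), siegel_zero, map_one]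

/-- `Ω` lies in no proper subfield group. -/
theorem omega_not_le_subfieldSubgroup (hQ : Nondeg Q) (hn : 5 ≤ Fintype.card ι) {K : Subfield F}
    (hK : K ≠ ⊤) (P : GL ι F) : ¬ omegaGL (⇑Q) ≤ subfieldSubgroup K P := by
  classical
  intro hle
  haveI := Fintype.ofFinite F
  haveI : Nonempty ι := Fintype.card_pos_iff.mp (by omega)
  obtain ⟨p, hchar⟩ := CharP.exists F
  obtain ⟨e, hp, -⟩ := FiniteField.card F p
  haveI := Fact.mk hp
  set Pm : Matrix ι ι F := ↑P
  set Pi' : Matrix ι ι F := ↑(P⁻¹)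
  have hPP : Pm * Pi' = 1 := by simp [Pm, Pi']
  have hPP' : Pi' * Pm = 1 := by simp [Pm, Pi']
  have hE : ∀ u w (hu : Q u = 0) (hw : polar Q u w = 0), ∀ i j,
      (Pi' * (sg Q u w hu hw : GL ι F) * Pm) i j ∈ K := by
    intro u w hu hw
    obtain ⟨A, s, hA, hs, he⟩ := mem_subfieldSubgroup.mp (hle (sg_mem hQ hn hu hw))
    have hg : (P⁻¹ * sg Q u w hu hw * P) ^ p = 1 := by
      have := conj_pow (i := p) (a := P⁻¹) (b := sg Q u w hu hw)
      rw [inv_inv] at this
      rw [this, sg_pow_char, mul_one, inv_mul_cancel]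
    have := entries_of_pow_char hg hA hs (by rw [he]; group)
    simpa [Pi', Pm, Units.val_mul] using this
  have hR : ∀ u, Q u = 0 → ∀ a : F, ∀ i j,
      (Pi' * (a • Matrix.vecMulVec u (Cfsg.polarVec (⇑Q) u)) * Pm) i j ∈ K := by
    intro u hu a
    obtain ⟨w₀, w', hw₀, hw', hww⟩ := exists_orth_pair_one hQ (by omega) (u := u)
    have hw : polar Q u (-a • w₀) = 0 := by rw [polar_smul_right, hw₀, smul_zero]
    have hsum : ((sg Q u (-a • w₀ + w') hu (by rw [polar_add_right, hw, hw', add_zero]) : GL ι F) : Matrix ι ι F)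
        - (sg Q u (-a • w₀) hu hw : GL ι F) - (sg Q u w' hu hw' : GL ι F) + 1
        = a • Matrix.vecMulVec u (Cfsg.polarVec (⇑Q) u) := by
      apply Matrix.ext_of_mulVec_single
      intro l
      set x : ι → F := Pi.single l 1
      rw [Matrix.add_mulVec, Matrix.sub_mulVec, Matrix.sub_mulVec, Matrix.one_mulVec, Matrix.smul_mulVec,
        Matrix.vecMulVec_mulVec, op_smul_eq_smul, polarVec_dotProduct, polar_comm Q u x]
      have h := sg_second_diff (Q := Q) hu hw hw' x
      rw [polar_smul_left, hww, smul_eq_mul, mul_one] at h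
      rw [smul_smul]
      linear_combination (norm := module) h
    intro i j
    rw [← hsum, Matrix.mul_add, Matrix.add_mul, Matrix.mul_sub, Matrix.sub_mul, Matrix.mul_sub, Matrix.sub_mul,
      Matrix.mul_one, hPP', Matrix.add_apply, Matrix.sub_apply, Matrix.sub_apply]
    refine K.add_mem (K.sub_mem (K.sub_mem (hE _ _ _ _ i j) (hE _ _ _ _ i j)) (hE _ _ _ _ i j)) ?_
    rcases eq_or_ne i j with rfl | h
    · rw [Matrix.one_apply_eq]; exact K.one_mem
    · rw [Matrix.one_apply_ne h]; exact K.zero_mem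
  obtain ⟨i⟩ := ‹Nonempty ι›
  obtain ⟨u, hu, hui⟩ := exists_singular_pair hQ (by omega) (v := (Pi.single i 1 : ι → F)) (by simp)
  obtain ⟨v, hv, hvu⟩ := exists_singular_pair hQ (by omega) (ne_zero_of_polar hui)
  refine hK (eq_top_iff.mpr fun a _ => ?_)
  have htr : ((Pi' * (a • Matrix.vecMulVec u (Cfsg.polarVec (⇑Q) u)) * Pm) *
      (Pi' * ((1 : F) • Matrix.vecMulVec v (Cfsg.polarVec (⇑Q) v)) * Pm)).trace ∈ K := by
    refine K.sum_mem fun l _ => ?_
    rw [Matrix.diag_apply, Matrix.mul_apply]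
    exact K.sum_mem fun m _ => K.mul_mem (hR u hu a l m) (hR v hv 1 m l)
  set A := a • Matrix.vecMulVec u (Cfsg.polarVec (⇑Q) u)
  set B := (1 : F) • Matrix.vecMulVec v (Cfsg.polarVec (⇑Q) v)
  rw [show (Pi' * A * Pm) * (Pi' * B * Pm) = Pi' * (A * (Pm * Pi') * B * Pm) by simp only [Matrix.mul_assoc],
    hPP, Matrix.mul_one, Matrix.trace_mul_comm, Matrix.mul_assoc, hPP, Matrix.mul_one] at htr
  have huv : polar Q u v = 1 := by rw [polar_comm]; exact hvu
  simpa [A, B, Matrix.vecMulVec_mul_vecMulVec, polarVec_dotProduct, dotProduct_comm u, huv, hvu,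
    Matrix.trace_smul, Matrix.trace_vecMulVec] using htr

end CfsgLib.SmallDim.OrthEven
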