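import Cfsg.Agent.Lib.SmallDim.OrthEvenReducible

/-!
Irreducible subgroups of `Ω` normalising a commutative adjoint-closed algebra: an orthogonal decomposition,
or an extension field of degree two, or self-adjoint extension fields of odd degree.
-/

set_option autoImplicit false
set_option linter.style.haveILetI false
set_option linter.unusedSectionVars false

namespace CfsgLib.SmallDim.OrthEven

open scoped MatrixGroups Matrix
open Cfsg.Geo QuadraticMap CfsgLib.ClassicalForms Module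

variable {ι : Type} [Fintype ι] [DecidableEq ι] {F : Type*} [Field F] {Q : QuadraticForm F (ι → F)}

lemma act_mem_of_map {g : GL ι F} {W U : Submodule F (ι → F)}
    (h : W.map (Matrix.toLin' (g : Matrix ι ι F)) = U) {v : ι → F} (hv : v ∈ W) : act g v ∈ U := by
  rw [← h]; exact ⟨v, hv, Matrix.toLin'_apply _ _⟩

lemma decomp_ne_bot {t m : ℕ} {D : Fin t → Submodule F (ι → F)} (hD : IsMDecomposition m D) (i : Fin t) :
    D i ≠ ⊥ := fun h => by
  have h1 := hD.finrank_eq i
  rw [h, finrank_bot] at h1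
  exact hD.pos.ne h1

lemma decomp_mul_eq {t m : ℕ} {D : Fin t → Submodule F (ι → F)} (hD : IsMDecomposition m D) :
    t * m = Fintype.card ι := by
  classical
  have hint : DirectSum.IsInternal D :=
    DirectSum.isInternal_submodule_of_iSupIndep_of_iSup_eq_top hD.indep hD.iSup_eq_top
  have := finrank_eq_card_basis (hint.collectedBasis fun i => finBasis F (D i))
  rw [finrank_fintype_fun_eq_card, Fintype.card_sigma] at this
  simp [hD.finrank_eq] at this
  exact this.symm

/-- An irreducible group permutes the members of a decomposition transitively. -/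
theorem exists_map_member {H : Subgroup (GL ι F)} (hirr : ActsIrreducibly (matrixSet H)) {t m : ℕ}
    {D : Fin t → Submodule F (ι → F)} (hD : IsMDecomposition m D) (hle : H ≤ decompositionStabilizer D)
    (i j : Fin t) : ∃ g ∈ H, (D i).map (Matrix.toLin' (g : Matrix ι ι F)) = D j := by
  classical
  let S : Set (Fin t) := {k | ∃ g ∈ H, (D i).map (Matrix.toLin' (g : Matrix ι ι F)) = D k}
  let W : Submodule F (ι → F) := ⨆ k ∈ S, D k
  have hWinv : ∀ g ∈ H, ∀ v ∈ W, act g v ∈ W := by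
    intro g hg v hv
    obtain ⟨π, hπ⟩ := hle hg
    have hle' : W.map (Matrix.toLin' (g : Matrix ι ι F)) ≤ W := by
      simp only [W, Submodule.map_iSup]
      refine iSup₂_le fun k hk => ?_
      rw [hπ k]
      obtain ⟨h, hh, hhk⟩ := hk
      refine le_iSup₂_of_le (π k) ⟨g * h, H.mul_mem hg hh, ?_⟩ le_rfl
      rw [Units.val_mul, Matrix.toLin'_mul, Submodule.map_comp, hhk, hπ k]
    exact hle' ⟨v, hv, Matrix.toLin'_apply _ _⟩
  rcases actsIrreducibly_iff.mp hirr W hWinv with h | h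
  · have hi : D i ≤ W := le_iSup₂_of_le i (show i ∈ S from ⟨1, H.one_mem, by simp⟩) le_rfl
    exact absurd (le_bot_iff.mp (h ▸ hi)) (decomp_ne_bot hD i)
  · by_contra hj
    have hsub : W ≤ ⨆ (k) (_ : k ≠ j), D k :=
      iSup₂_le fun k hk => le_iSup₂_of_le k (fun e : k = j => hj (e ▸ hk)) le_rfl
    obtain ⟨v, hv, hv0⟩ := (D j).ne_bot_iff.mp (decomp_ne_bot hD j)
    exact hv0 (Submodule.disjoint_def.mp (hD.indep j) v hv (hsub (h ▸ Submodule.mem_top)))

/-- `H` preserves an orthogonal decomposition into isometric subspaces. -/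
def OrthDecomp (Q : QuadraticForm F (ι → F)) (H : Subgroup (GL ι F)) : Prop :=
  ∃ (t m : ℕ) (D : Fin t → Submodule F (ι → F)), IsOrthogonalMDecomposition (⇑Q) m D ∧
    H ≤ decompositionStabilizer D

/-- `H` normalises an adjoint-closed field of degree two. -/
def QuadField (Q : QuadraticForm F (ι → F)) (H : Subgroup (GL ι F)) : Prop :=
  ∃ K : Subalgebra F (Matrix ι ι F), IsFieldSubalgebra 2 K ∧ IsAdjointClosedFor (polar (⇑Q)) K ∧
    H ≤ subalgebraNormalizer K

/-- `H` normalises a self-adjoint field of odd prime degree. -/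
def OddField (Q : QuadraticForm F (ι → F)) (H : Subgroup (GL ι F)) : Prop :=
  ∃ (r : ℕ) (K : Subalgebra F (Matrix ι ι F)), r.Prime ∧ Odd r ∧ IsFieldSubalgebra r K ∧
    IsSelfAdjointFor (polar (⇑Q)) K ∧ H ≤ subalgebraNormalizer K

theorem orthDecomp_of_nondegenerate {H : Subgroup (GL ι F)} (hH : Isometric Q H)
    (hirr : ActsIrreducibly (matrixSet H)) {t m : ℕ} {D : Fin t → Submodule F (ι → F)}
    (hD : IsNondegenerateMDecomposition (polar (⇑Q)) m D) (hle : H ≤ decompositionStabilizer D) :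
    OrthDecomp Q H := by
  refine ⟨t, m, D, ⟨hD, fun i j => ?_⟩, hle⟩
  obtain ⟨g, hg, hgD⟩ := exists_map_member hirr hD.decomp hle i j
  let e0 : D i →ₗ[F] D j :=
    ((Matrix.toLin' (g : Matrix ι ι F)).domRestrict (D i)).codRestrict (D j) fun w => by
      rw [← hgD]; exact ⟨w, w.2, rfl⟩
  have hinj : Function.Injective e0 := fun a b hab => Subtype.ext (act_injective g (by
    simpa [e0, Matrix.toLin'_apply] using congrArg Subtype.val hab))
  refine ⟨e0.linearEquivOfInjective hinj ((hD.decomp.finrank_eq i).trans (hD.decomp.finrank_eq j).symm), fun w => ?_⟩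
  simp [e0, LinearMap.linearEquivOfInjective, Matrix.toLin'_apply]
  exact hH g hg _

variable [Finite F]

/-- `H` permutes two complementary totally singular subspaces. -/
def SingularPair (Q : QuadraticForm F (ι → F)) (H : Subgroup (GL ι F)) : Prop :=
  ∃ (m : ℕ) (D : Fin 2 → Submodule F (ι → F)), Fintype.card ι = 2 * m ∧ IsMDecomposition m D ∧
    (∀ i, ∀ x ∈ D i, Q x = 0) ∧ H ≤ decompositionStabilizer D

lemma SingularPair.isPlus {H : Subgroup (GL ι F)} (h : SingularPair Q H) : IsPlusTypeOn (⇑Q) ⊤ := by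
  obtain ⟨m, D, hm, hD, hts, -⟩ := h
  exact ⟨D 0, le_top, hts 0, by rw [hD.finrank_eq, finrank_top, finrank_fintype_fun_eq_card, hm]⟩

/-- Two singular subspaces exchanged by `Ω` force an even half-dimension. -/
lemma SingularPair.not_odd (hQ : Nondeg Q) (hn : 5 ≤ Fintype.card ι) {H : Subgroup (GL ι F)}
    (hH : H ≤ omegaGL (⇑Q)) (hirr : ActsIrreducibly (matrixSet H)) (h : SingularPair Q H) :
    ¬ Odd (Fintype.card ι / 2) := by
  obtain ⟨m, D, hcard, hD, hts, hle⟩ := h
  intro hmodd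
  rw [hcard, Nat.mul_div_cancel_left m two_pos] at hmodd
  obtain ⟨g, hg, hgD⟩ := exists_map_member hirr hD hle 0 1
  have hpar := omega_parity hQ hn hcard (hH hg) (hts 0) (hD.finrank_eq 0)
  have hdis : D 0 ⊓ D 1 = ⊥ := by
    have := hD.indep
    rw [iSupIndep_pair (by decide : (0 : Fin 2) ≠ 1) (by decide)] at this
    exact this.eq_bot
  rw [hgD, hdis, finrank_bot, Nat.odd_iff.mp hmodd] at hpar
  exact zero_ne_one hpar

/-- A group permuting paired totally isotropic subspaces. -/
theorem paired_or_pair (hQ : Nondeg Q) (hn : 5 ≤ Fintype.card ι) {H : Subgroup (GL ι F)}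
    (hH : H ≤ omegaGL (⇑Q)) (hirr : ActsIrreducibly (matrixSet H)) {t m : ℕ}
    {D : Fin t → Submodule F (ι → F)} {τ : Equiv.Perm (Fin t)} (hD : IsMDecomposition m D)
    (hle : H ≤ decompositionStabilizer D) (hτ : ∀ i, τ i ≠ i) (hττ : ∀ i, τ (τ i) = i)
    (hts : ∀ i, IsTotallySingularFor (polar (⇑Q)) (D i))
    (horth : ∀ i j, j ≠ τ i → AreOrthogonalFor (polar (⇑Q)) (D i) (D j)) :
    OrthDecomp Q H ∨ SingularPair Q H := by
  classical
  have hiso := isometric_of_le_omega hH
  have hs := sesqui_polar Q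
  have hr := reflexive_polar Q
  have hne := decomp_ne_bot hD
  have hpartner : ∀ i, ∀ v ∈ D i, v ≠ 0 → ∃ w ∈ D (τ i), polar Q v w ≠ 0 := by
    intro i v hv hv0
    by_contra hall
    push Not at hall
    obtain ⟨y, hy⟩ := (isNondegenerateForm_polar hQ v hv0).2
    apply hy
    have hle' : iSup D ≤ Submodule.span F (⋃ j, (D j : Set (ι → F))) :=
      iSup_le fun j x hx => Submodule.subset_span (Set.mem_iUnion.mpr ⟨j, hx⟩)
    refine hs.eq_zero_of_span ?_ y (hle' (hD.iSup_eq_top ▸ Submodule.mem_top))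
    intro x hx
    obtain ⟨j, hj⟩ := Set.mem_iUnion.mp hx
    by_cases hji : j = τ i
    · exact hall x (hji ▸ hj)
    · exact horth i j hji v hv x hj
  let S := Finset.univ.filter fun i => i < τ i
  let E : Fin S.card → Submodule F (ι → F) := fun a =>
    D (S.equivFin.symm a) ⊔ D (τ (S.equivFin.symm a))
  let c : Fin S.card → Fin t := fun a => (S.equivFin.symm a : Fin t)
  have hc : ∀ a, c a < τ (c a) := fun a => (Finset.mem_filter.1 (S.equivFin.symm a).2).2
  have hcinj : Function.Injective c := Subtype.val_injective.comp S.equivFin.symm.injective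
  have hrep : ∀ i, ∃ a, i = c a ∨ i = τ (c a) := by
    intro i
    rcases lt_or_gt_of_ne (hτ i).symm with h | h
    · exact ⟨S.equivFin ⟨i, Finset.mem_filter.2 ⟨Finset.mem_univ _, h⟩⟩, Or.inl (by simp [c])⟩
    · refine ⟨S.equivFin ⟨τ i, Finset.mem_filter.2 ⟨Finset.mem_univ _, by rw [hττ]; exact h⟩⟩, Or.inr ?_⟩
      simp [c, hττ]
  have hdisj : ∀ a b, a ≠ b → c b ≠ c a ∧ c b ≠ τ (c a) := by
    intro a b hab
    refine ⟨fun h => hab (hcinj h).symm, fun h => ?_⟩
    have h1 := hc b
    rw [h, hττ] at h1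
    exact lt_asymm (hc a) h1
  have horthE : ∀ a b, a ≠ b → AreOrthogonalFor (polar (⇑Q)) (E a) (E b) := by
    intro a b hab u hu v hv
    obtain ⟨u₁, hu₁, u₂, hu₂, rfl⟩ := Submodule.mem_sup.1 hu
    obtain ⟨v₁, hv₁, v₂, hv₂, rfl⟩ := Submodule.mem_sup.1 hv
    obtain ⟨h1, h2⟩ := hdisj a b hab
    rw [polar_add_left, polar_add_right, polar_add_right,
      horth _ _ h2 u₁ hu₁ v₁ hv₁,
      horth _ _ (fun h => h1 (τ.injective h)) u₁ hu₁ v₂ hv₂,
      horth _ _ (by rw [hττ]; exact h1) u₂ hu₂ v₁ hv₁,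
      horth _ _ (fun h => h2 (τ.injective h)) u₂ hu₂ v₂ hv₂]
    ring
  have hsum : ∀ i, (D i ⊓ D (τ i) : Submodule F (ι → F)) = ⊥ := fun i =>
    disjoint_iff.1 ((hD.indep i).mono_right (le_iSup₂_of_le (τ i) (hτ i) le_rfl))
  have hndE : ∀ i, IsNondegenerateOn (polar (⇑Q)) (D i ⊔ D (τ i)) := by
    intro i x hx hx0
    suffices h : ∃ y ∈ D i ⊔ D (τ i), polar Q x y ≠ 0 by
      obtain ⟨y, hy, hxy⟩ := h
      exact ⟨⟨y, hy, fun e => hxy (hr _ _ e)⟩, ⟨y, hy, hxy⟩⟩
    obtain ⟨u, hu, w, hw, rfl⟩ := Submodule.mem_sup.1 hx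
    by_cases hu0 : u = 0
    · have hw0 : w ≠ 0 := by simpa [hu0] using hx0
      obtain ⟨y, hy, hwy⟩ := hpartner (τ i) w hw hw0
      rw [hττ] at hy
      exact ⟨y, Submodule.mem_sup_left hy, by simpa [hu0] using hwy⟩
    · obtain ⟨y, hy, huy⟩ := hpartner i u hu hu0
      refine ⟨y, Submodule.mem_sup_right hy, ?_⟩
      rw [polar_add_left, hts (τ i) w hw y hy, add_zero]
      exact huy
  have hrankE : ∀ a, finrank F (E a) = 2 * m := by
    intro a
    have h := Submodule.finrank_sup_add_finrank_inf_eq (D (c a)) (D (τ (c a)))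
    rw [hsum, finrank_bot, add_zero, hD.finrank_eq, hD.finrank_eq] at h
    show finrank F ↥(D (c a) ⊔ D (τ (c a))) = _
    omega
  by_cases hbig : 2 ≤ S.card
  · -- the pairs form a non-degenerate decomposition
    have htopE : iSup E = ⊤ := by
      rw [eq_top_iff, ← hD.iSup_eq_top]
      refine iSup_le fun i => ?_
      obtain ⟨a, rfl | rfl⟩ := hrep i
      · exact le_sup_left.trans (le_iSup E a)
      · exact le_sup_right.trans (le_iSup E a)
    have hindE : iSupIndep E := by
      intro a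
      rw [disjoint_iff, Submodule.eq_bot_iff]
      rintro x ⟨hx, hx'⟩
      by_contra hx0
      obtain ⟨y, hy, hxy⟩ := (hndE (c a) x hx hx0).1
      apply hxy
      have : (⨆ (b) (_ : b ≠ a), E b) ≤ (hs.orth (E a)) :=
        iSup₂_le fun b hb z hz w hw => horthE b a hb z hz w hw
      exact hr _ _ (this hx' y hy)
    refine Or.inl (orthDecomp_of_nondegenerate hiso hirr
      (D := E) (m := 2 * m) ⟨⟨hbig, by have := hD.pos; omega, hrankE, hindE, htopE⟩,
        fun a => hndE (c a), horthE⟩ fun g hg => ?_)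
    obtain ⟨π, hπ⟩ := hle hg
    have hcomm : ∀ i, π (τ i) = τ (π i) := by
      intro i
      by_contra hne'
      obtain ⟨v, hv, hv0⟩ := (Submodule.ne_bot_iff _).1 (hne i)
      obtain ⟨w, hw, hvw⟩ := hpartner i v hv hv0
      rw [← hiso.polar hg] at hvw
      exact hvw (horth _ _ hne' _ (act_mem_of_map (hπ i) hv) _ (act_mem_of_map (hπ (τ i)) hw))
    have hidx : ∀ a, ∃ b, E b = D (π (c a)) ⊔ D (τ (π (c a))) := by
      intro a
      obtain ⟨b, h | h⟩ := hrep (π (c a))
      · exact ⟨b, by rw [h]⟩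
      · exact ⟨b, by rw [h, hττ, sup_comm]⟩
    choose ρ hρ using hidx
    have hρinj : Function.Injective ρ := by
      intro a a' h
      by_contra hne'
      have h1 : E (ρ a) = D (π (c a')) ⊔ D (τ (π (c a'))) := h ▸ hρ a'
      obtain ⟨v, hv, hv0⟩ := (Submodule.ne_bot_iff _).1 (hne (π (c a)))
      have hv' : v ∈ D (π (c a')) ⊔ D (π (τ (c a'))) := by
        rw [hcomm, ← h1, hρ]
        exact Submodule.mem_sup_left hv
      obtain ⟨h2, h3⟩ := hdisj a a' hne'
      refine hv0 (Submodule.disjoint_def.1 (hD.indep (π (c a))) v hv (SetLike.le_def.1 (sup_le ?_ ?_) hv'))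
      · exact le_iSup₂_of_le (π (c a')) (fun e => h2 (π.injective e)) le_rfl
      · exact le_iSup₂_of_le (π (τ (c a'))) (fun e => h3 (by rw [← π.injective e, hττ])) le_rfl
    refine ⟨Equiv.ofBijective ρ (Finite.injective_iff_bijective.1 hρinj), fun a => ?_⟩
    show (D (c a) ⊔ D (τ (c a))).map _ = E (ρ a)
    rw [Submodule.map_sup, hπ, hπ, hρ, hcomm]
  -- a single pair
  right
  have hpair : ∀ i j, j ≠ i → j = τ i := by
    intro i j hji
    obtain ⟨a, ha⟩ := hrep i
    obtain ⟨b, hb⟩ := hrep j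
    have hab : b = a := Fin.ext (by have := a.2; have := b.2; omega)
    subst hab
    rcases ha with rfl | rfl <;> rcases hb with rfl | rfl
    · exact absurd rfl hji
    · rfl
    · exact (hττ _).symm
    · exact absurd rfl hji
  have ht2 : t = 2 := by
    let i₀ : Fin t := ⟨0, by have := hD.two_le; omega⟩
    have huniv : (Finset.univ : Finset (Fin t)) = {i₀, τ i₀} := by
      symm
      refine Finset.eq_univ_of_forall fun j => ?_
      by_cases h : j = i₀
      · simp [h]
      · simp [hpair i₀ j h]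
    have := congrArg Finset.card huniv
    rwa [Finset.card_univ, Fintype.card_fin, Finset.card_pair (hτ i₀).symm] at this
  have hnm := decomp_mul_eq hD
  have hm3 : 3 ≤ m := by rw [ht2] at hnm; omega
  -- the zeros of `Q` on the members
  let U : Fin t → Submodule F (ι → F) := fun i =>
    { carrier := {x | x ∈ D i ∧ Q x = 0}
      add_mem' := fun {a b} ha hb => ⟨(D i).add_mem ha.1 hb.1, by
        rw [QuadraticMap.map_add ⇑Q, ha.2, hb.2, hts i a ha.1 b hb.1, add_zero, add_zero]⟩
      zero_mem' := ⟨(D i).zero_mem, QuadraticMap.map_zero Q⟩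
      smul_mem' := fun a x hx => ⟨(D i).smul_mem a hx.1, by rw [QuadraticMap.map_smul, hx.2, smul_zero]⟩ }
  have hU0 : ∀ i, U i ≠ ⊥ := by
    intro i e
    obtain ⟨v, hv, hv0⟩ := (D i).ne_bot_iff.mp (hne i)
    have hzero : ∀ x ∈ D i, Q x = 0 → x = 0 := fun x hx h => (Submodule.eq_bot_iff (U i)).mp e x ⟨hx, h⟩
    rcases eq_or_ne (2 : F) 0 with h2 | h2
    swap
    · refine hv0 (hzero v hv ?_)
      have h := hts i v hv v hv
      rw [polar_self_mul] at h
      exact (mul_eq_zero.mp h).resolve_left h2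
    have hsp : D i ≤ Submodule.span F {v} := fun x hx => by
      obtain ⟨s, hs⟩ := isSquare_of_two_eq_zero h2 (-Q x / Q v)
      have hQv : Q v ≠ 0 := fun h => hv0 (hzero v hv h)
      have hy : x + s • v = 0 := hzero _ ((D i).add_mem hx ((D i).smul_mem s hv)) (by
        rw [QuadraticMap.map_add ⇑Q, QuadraticMap.map_smul, hts i x hx _ ((D i).smul_mem s hv), smul_eq_mul,
          ← hs]
        field_simp
        ring)
      rw [eq_neg_of_add_eq_zero_left hy]
      exact Submodule.neg_mem _ (Submodule.smul_mem _ _ (Submodule.mem_span_singleton_self v))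
    have := Submodule.finrank_mono hsp
    rw [hD.finrank_eq, finrank_span_singleton hv0] at this
    omega
  have hinv : ∀ g ∈ H, ∀ v ∈ ⨆ i, U i, act g v ∈ ⨆ i, U i := by
    intro g hg v hv
    obtain ⟨π, hπ⟩ := hle hg
    have hle' : (⨆ i, U i) ≤ (⨆ i, U i).comap (Matrix.toLin' (g : Matrix ι ι F)) :=
      iSup_le fun i x hx => Submodule.mem_iSup_of_mem (π i)
        ⟨by rw [Matrix.toLin'_apply]; exact act_mem_of_map (hπ i) hx.1,
          by rw [Matrix.toLin'_apply]; exact (hiso g hg x).trans hx.2⟩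
    simpa [Matrix.toLin'_apply] using hle' hv
  have hDU : ∀ i, ∀ x ∈ D i, Q x = 0 := by
    rcases actsIrreducibly_iff.mp hirr _ hinv with h | h
    · intro i
      exact absurd (le_bot_iff.mp (h ▸ le_iSup U i)) (hU0 i)
    · intro i x hx
      have hxU : x ∈ U i ⊔ ⨆ (j) (_ : j ≠ i), U j := by
        have : (⨆ j, U j) ≤ U i ⊔ ⨆ (j) (_ : j ≠ i), U j := iSup_le fun j => by
          by_cases hji : j = i
          · rw [hji]; exact le_sup_left
          · exact le_sup_of_le_right (le_iSup₂_of_le j hji le_rfl)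
        exact this (h ▸ Submodule.mem_top)
      obtain ⟨a, ha, b, hb, rfl⟩ := Submodule.mem_sup.mp hxU
      have hmono : (⨆ (j) (_ : j ≠ i), U j) ≤ ⨆ (j) (_ : j ≠ i), D j :=
        iSup₂_mono fun j _ => fun y hy => hy.1
      have hb' : b ∈ ⨆ (j) (_ : j ≠ i), D j := hmono hb
      have hb0 : b = 0 := Submodule.disjoint_def.mp (hD.indep i) b
        (by simpa using (D i).sub_mem hx ha.1) hb'
      rw [hb0, add_zero]
      exact ha.2
  have hcard : Fintype.card ι = 2 * m := by rw [← hnm, ht2]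
  subst ht2
  exact ⟨m, D, hcard, hD, hDU, hle⟩

/-- A group permuting paired totally isotropic subspaces, in a dimension excluding a single pair. -/
theorem paired_cases (hQ : Nondeg Q) (hn : 5 ≤ Fintype.card ι) {H : Subgroup (GL ι F)}
    (hH : H ≤ omegaGL (⇑Q)) (hirr : ActsIrreducibly (matrixSet H)) {t m : ℕ}
    {D : Fin t → Submodule F (ι → F)} {τ : Equiv.Perm (Fin t)} (hD : IsMDecomposition m D)
    (hle : H ≤ decompositionStabilizer D) (hτ : ∀ i, τ i ≠ i) (hττ : ∀ i, τ (τ i) = i)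
    (hts : ∀ i, IsTotallySingularFor (polar (⇑Q)) (D i))
    (horth : ∀ i j, j ≠ τ i → AreOrthogonalFor (polar (⇑Q)) (D i) (D j))
    (hbad : IsPlusTypeOn (⇑Q) ⊤ → Odd (Fintype.card ι / 2)) : OrthDecomp Q H :=
  (paired_or_pair hQ hn hH hirr hD hle hτ hττ hts horth).resolve_right fun h =>
    h.not_odd hQ hn hH hirr (hbad h.isPlus)

/-- A field of matrices closed under adjoints contains one of each prime degree dividing its own. -/
lemma exists_subfield_adjointClosed {K : Subalgebra F (Matrix ι ι F)} (hs : IsSesqui (RingHom.id F) (polar (⇑Q)))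
    (hnd : IsNondegenerateForm (polar (⇑Q))) [Nonempty ι] {r d : ℕ}
    (hK : IsFieldSubalgebra d K) (hr : r.Prime) (hre : r ∣ d)
    (hadj : IsAdjointClosedFor (polar (⇑Q)) K) :
    ∃ K' : Subalgebra F (Matrix ι ι F), IsFieldSubalgebra r K' ∧ K' ≤ K ∧
      IsAdjointClosedFor (polar (⇑Q)) K' ∧ subalgebraNormalizer K ≤ subalgebraNormalizer K' := by
  classical
  have := Fintype.ofFinite F
  have hcomm := hK.comm
  have hinv := hK.inv
  have hfield : IsField K :=
    { exists_pair_ne := ⟨0, 1, zero_ne_one⟩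
      mul_comm := fun x y => Subtype.ext (hcomm x x.2 y y.2)
      mul_inv_cancel := fun {x} hx => by
        obtain ⟨y, hy, hxy⟩ := hinv x x.2 (fun h => hx (Subtype.ext h))
        exact ⟨⟨y, hy⟩, Subtype.ext hxy⟩ }
  letI : Field K := hfield.toField
  have hfin : Finite K := Subtype.finite
  have : Module.Finite F K := Module.Finite.of_finite
  have hre' : r ∣ finrank F K := by
    rw [show finrank F K = d from hK.finrank_eq]; exact hre
  let φ : Gal(K/F) := FiniteField.frobeniusAlgEquivOfAlgebraic F K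
  let G : Subgroup Gal(K/F) := Subgroup.zpowers (φ ^ r)
  let L : IntermediateField F K := IntermediateField.fixedField G
  have hφ : orderOf φ = finrank F K := FiniteField.orderOf_frobeniusAlgEquivOfAlgebraic F K
  have hL : finrank F L = r := by
    have h1 : finrank L K = finrank F K / r := by
      rw [IntermediateField.finrank_fixedField_eq_card G, Nat.card_zpowers,
        orderOf_pow_of_dvd hr.ne_zero (hφ.symm ▸ hre'), hφ]
    have h2 := finrank_mul_finrank F L K
    rw [h1] at h2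
    have h3 : r * (finrank F K / r) = finrank F K := Nat.mul_div_cancel' hre'
    exact Nat.eq_of_mul_eq_mul_right (Nat.div_pos (Nat.le_of_dvd finrank_pos hre') hr.pos) (h2.trans h3.symm)
  have hφr : ∀ x : K, (φ ^ r) x = x ^ Fintype.card F ^ r := by
    intro x
    rw [AlgEquiv.coe_pow, FiniteField.coe_frobeniusAlgEquivOfAlgebraic_iterate]
  have hmem : ∀ x : K, x ∈ L ↔ x ^ Fintype.card F ^ r = x := by
    intro x
    rw [← hφr]
    refine ⟨fun h => ?_, fun h => ?_⟩
    · exact (IntermediateField.mem_fixedField_iff G x).1 h _ (Subgroup.mem_zpowers _)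
    · refine (IntermediateField.mem_fixedField_iff G x).2 fun f hf => ?_
      have : G ≤ MulAction.stabilizer Gal(K/F) x := Subgroup.zpowers_le.2 h
      exact this hf
  let K' : Subalgebra F (Matrix ι ι F) := L.toSubalgebra.map K.val
  have hK' : ∀ M, M ∈ K' ↔ M ∈ K ∧ M ^ Fintype.card F ^ r = M := by
    intro M
    constructor
    · rintro ⟨x, hx, rfl⟩
      exact ⟨x.2, congrArg Subtype.val ((hmem x).1 hx)⟩
    · rintro ⟨hM, hpow⟩
      exact ⟨⟨M, hM⟩, (hmem _).2 (Subtype.ext hpow), rfl⟩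
  have hle : K' ≤ K := fun M hM => ((hK' M).1 hM).1
  refine ⟨K', ⟨fun x hx y hy => hcomm x (hle hx) y (hle hy), fun x hx hx0 => ?_, ?_⟩, hle,
    fun k hk => ?_, fun g hg M => ?_⟩
  · obtain ⟨z, hz, rfl⟩ := hx
    have hz0 : z ≠ 0 := fun h => hx0 (by rw [h]; rfl)
    exact ⟨(z⁻¹ : K).1, ⟨z⁻¹, L.inv_mem hz, rfl⟩, congrArg Subtype.val (mul_inv_cancel₀ hz0 : z * z⁻¹ = 1)⟩
  · rw [← hL]
    exact ((L.toSubalgebra.equivMapOfInjective K.val Subtype.val_injective).toLinearEquiv.finrank_eq).symm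
  · obtain ⟨hkK, hpow⟩ := (hK' k).1 hk
    obtain ⟨k', hk'K, hkk'⟩ := hadj k hkK
    refine ⟨k', (hK' k').2 ⟨hk'K, eq_of_adjoint hs hnd fun u v => ?_⟩, hkk'⟩
    rw [← adjoint_pow hkk', hpow, hkk']
  · rw [hK', hK', ← hg M]
    refine and_congr_right fun _ => ?_
    rw [Units.conj_pow]
    refine ⟨fun h => by rw [h], fun h => ?_⟩
    have := congrArg (fun X => ((g⁻¹ : GL ι F) : Matrix ι ι F) * X * (g : Matrix ι ι F)) h
    simpa [mul_assoc] using this

/-- A field with a non-self-adjoint element has even degree. -/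
lemma two_dvd_of_not_selfAdjoint {K : Subalgebra F (Matrix ι ι F)} (hnd : IsNondegenerateForm (polar (⇑Q)))
    {d : ℕ} (hK : IsFieldSubalgebra d K)
    (hadj : IsAdjointClosedFor (polar (⇑Q)) K) (hns : ¬ IsSelfAdjointFor (polar (⇑Q)) K) : 2 ∣ d := by
  classical
  have hs := sesqui_polar Q
  choose adj hadjK hadj' using hadj
  have hAA : ∀ x hx, adj (adj x hx) (hadjK x hx) = x := fun x hx =>
    eq_of_adjoint hs hnd (a := adj (adj x hx) (hadjK x hx)) fun u v => by
      rw [← hadj' _ (hadjK x hx), polar_comm, ← hadj' x hx, polar_comm]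
  obtain ⟨x, hx, hxne⟩ : ∃ x, ∃ hx : x ∈ K, adj x hx ≠ x := by
    by_contra hall
    push Not at hall
    exact hns fun k hk u v => by rw [hadj' k hk, hall k hk]
  have hfin : Finite K := Subtype.finite
  have hfield : IsField K :=
    { exists_pair_ne := ⟨⟨x, hx⟩, ⟨adj x hx, hadjK x hx⟩, fun h => hxne (congrArg Subtype.val h).symm⟩
      mul_comm := fun a b => Subtype.ext (hK.comm a a.2 b b.2)
      mul_inv_cancel := fun {a} ha => by
        obtain ⟨y, hy, hxy⟩ := hK.inv a a.2 (fun h => ha (Subtype.ext h))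
        exact ⟨⟨y, hy⟩, Subtype.ext hxy⟩ }
  letI : Field K := hfield.toField
  have : Module.Finite F K := Module.Finite.of_finite
  let φ : K →ₐ[F] K := AlgHom.ofLinearMap
    { toFun := fun a => ⟨adj a a.2, hadjK a a.2⟩
      map_add' := fun a b => Subtype.ext (eq_of_adjoint hs hnd fun u v => by
          show polar Q u (adj ((a : Matrix ι ι F) + b) (K.add_mem a.2 b.2) *ᵥ v) =
            polar Q u ((adj (a : Matrix ι ι F) a.2 + adj (b : Matrix ι ι F) b.2) *ᵥ v)
          rw [← hadj', Matrix.add_mulVec, Matrix.add_mulVec, polar_add_left, polar_add_right,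
            hadj', hadj'])
      map_smul' := fun c a => Subtype.ext (eq_of_adjoint hs hnd fun u v => by
          show polar Q u (adj (c • (a : Matrix ι ι F)) (K.smul_mem a.2 c) *ᵥ v) =
            polar Q u ((c • adj (a : Matrix ι ι F) a.2) *ᵥ v)
          rw [← hadj', Matrix.smul_mulVec, Matrix.smul_mulVec, polar_smul_left,
            polar_smul_right, hadj']) }
    (Subtype.ext (eq_of_adjoint hs hnd fun u v => by
      show polar Q u (adj 1 K.one_mem *ᵥ v) = polar Q u ((1 : Matrix ι ι F) *ᵥ v)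
      rw [← hadj', Matrix.one_mulVec, Matrix.one_mulVec]))
    (fun a b => Subtype.ext (eq_of_adjoint hs hnd fun u v => by
        show polar Q u (adj ((a : Matrix ι ι F) * b) (K.mul_mem a.2 b.2) *ᵥ v) =
          polar Q u ((adj (a : Matrix ι ι F) a.2 * adj (b : Matrix ι ι F) b.2) *ᵥ v)
        rw [← hadj', hK.comm _ a.2 _ b.2, ← Matrix.mulVec_mulVec, ← Matrix.mulVec_mulVec, hadj',
          hadj']))
  let ψ : Gal(K/F) := AlgEquiv.ofBijective φ φ.bijective
  have hψ : orderOf ψ = 2 := by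
    refine orderOf_eq_prime (AlgEquiv.ext fun a => ?_) fun h => ?_
    · rw [pow_two, AlgEquiv.mul_apply, AlgEquiv.one_apply]
      exact Subtype.ext (hAA a a.2)
    · exact hxne (congrArg Subtype.val (congrArg (fun e : Gal(K/F) => e ⟨x, hx⟩) h))
  rw [← show finrank F K = d from hK.finrank_eq, ← IsGalois.card_aut_eq_finrank F K, ← hψ]
  exact orderOf_dvd_natCard ψ

/-- A commutative adjoint-closed algebra, not the scalars, normalised by an irreducible subgroup of `Ω`. -/
theorem algebra_or_pair (hQ : Nondeg Q) (hn : 5 ≤ Fintype.card ι) {H : Subgroup (GL ι F)}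
    (hH : H ≤ omegaGL (⇑Q)) (hirr : ActsIrreducibly (matrixSet H)) {Z : Subalgebra F (Matrix ι ι F)}
    (hZH : H ≤ subalgebraNormalizer Z) (hcomm : ∀ x ∈ Z, ∀ y ∈ Z, x * y = y * x)
    (hadj : IsAdjointClosedFor (polar (⇑Q)) Z) (hne : ∃ x ∈ Z, ∀ c : F, x ≠ c • 1)
    :
    OrthDecomp Q H ∨ SingularPair Q H ∨ QuadField Q H ∨ ((∀ x ∈ Z, x ≠ 0 → ∃ y ∈ Z, x * y = 1) ∧
      IsSelfAdjointFor (polar (⇑Q)) Z ∧ OddField Q H) := by
  classical
  have hs := sesqui_polar Q
  have hnd := isNondegenerateForm_polar hQ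
  have hiso := isometric_of_le_omega hH
  have : Nonempty ι := Fintype.card_pos_iff.mp (by omega)
  by_cases hfield : ∀ x ∈ Z, x ≠ 0 → ∃ y ∈ Z, x * y = 1
  swap
  · obtain ⟨t, m, D, hD, hle, huniq⟩ := idempotent_decomposition hs hnd hirr hZH hcomm hadj hfield
    rcases decomposition_nondegenerate_or_paired hs (reflexive_polar Q) hnd hiso.fixesForm hirr hD hle huniq
      with h | ⟨τ, h1, h2, h3, h4⟩
    · exact Or.inl (orthDecomp_of_nondegenerate hiso hirr h hle)
    · exact (paired_or_pair hQ hn hH hirr hD hle h1 h2 h3 h4).imp_right Or.inl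
  have hK : IsFieldSubalgebra (finrank F Z) Z := ⟨hcomm, hfield, rfl⟩
  right; right
  by_cases hsa : IsSelfAdjointFor (polar (⇑Q)) Z
  · obtain ⟨r, K, hr, hKr, hKZ, hKadj, hKH⟩ := exists_prime_adjointClosed hs hnd hcomm hfield hne hadj
    rcases hr.eq_two_or_odd' with rfl | hodd
    · exact Or.inl ⟨K, hKr, hKadj, hZH.trans hKH⟩
    · exact Or.inr ⟨hfield, hsa, r, K, hr, hodd, hKr, fun k hk => hsa k (hKZ hk), hZH.trans hKH⟩
  · obtain ⟨K, hK2, -, hKadj, hKH⟩ := exists_subfield_adjointClosed hs hnd hK Nat.prime_two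
      (two_dvd_of_not_selfAdjoint hnd hK hadj hsa) hadj
    exact Or.inl ⟨K, hK2, hKadj, hZH.trans hKH⟩

/-- The same, in a dimension excluding a single pair. -/
theorem algebra_cases (hQ : Nondeg Q) (hn : 5 ≤ Fintype.card ι) {H : Subgroup (GL ι F)}
    (hH : H ≤ omegaGL (⇑Q)) (hirr : ActsIrreducibly (matrixSet H)) {Z : Subalgebra F (Matrix ι ι F)}
    (hZH : H ≤ subalgebraNormalizer Z) (hcomm : ∀ x ∈ Z, ∀ y ∈ Z, x * y = y * x)
    (hadj : IsAdjointClosedFor (polar (⇑Q)) Z) (hne : ∃ x ∈ Z, ∀ c : F, x ≠ c • 1)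
    (hbad : IsPlusTypeOn (⇑Q) ⊤ → Odd (Fintype.card ι / 2)) :
    OrthDecomp Q H ∨ QuadField Q H ∨ ((∀ x ∈ Z, x ≠ 0 → ∃ y ∈ Z, x * y = 1) ∧
      IsSelfAdjointFor (polar (⇑Q)) Z ∧ OddField Q H) :=
  (algebra_or_pair hQ hn hH hirr hZH hcomm hadj hne).imp_right fun h =>
    h.resolve_left fun hp => hp.not_odd hQ hn hH hirr (hbad hp.isPlus)

end CfsgLib.SmallDim.OrthEven
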