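import Cfsg.Agent.Lib.SmallDim.FormFactor
import Cfsg.Agent.Lib.SmallDim.SymplForm
import Cfsg.Agent.Lib.SmallDim.FormClifford
import Cfsg.Prelude.Def_ClassicalGeometry

/-!
Groundwork for Aschbacher's theorem for the symplectic groups: forms in tensor coordinates and
quadratic forms fixed by symplectic groups in characteristic two.
-/

set_option autoImplicit false
set_option linter.style.haveILetI false

namespace CfsgLib.SmallDim

open scoped MatrixGroups Matrix Kronecker
open Cfsg.Geo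

section General

variable {ι κ : Type} [Fintype ι] [DecidableEq ι] [Fintype κ] [DecidableEq κ] {F : Type*} [Field F]

lemma gramMatrix_gramForm (σ : F →+* F) (G : Matrix ι ι F) : gramMatrix (gramForm σ G) = G := by
  ext a b
  have h : σ ∘ (Pi.single b 1 : ι → F) = Pi.single b 1 := by
    funext i
    by_cases hi : i = b
    · subst hi; simp
    · simp [hi]
  simp [gramMatrix, gramForm, h]

lemma isBilinearForm_gramForm (G : Matrix ι ι F) : IsBilinearForm (gramForm (RingEquiv.refl F) G) :=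
  have h := isSesqui_gramForm ((RingEquiv.refl F : F ≃+* F) : F →+* F) G
  ⟨h.add_left, h.smul_left, h.add_right, fun c v x => h.smul_right c v x⟩

lemma gramForm_isSymmetricForm {G : Matrix ι ι F} (hG : Gᵀ = G) (hdet : IsUnit G.det) :
    IsSymmetricForm (gramForm (RingEquiv.refl F) G) := by
  have hG' : (G.map (RingEquiv.refl F))ᵀ = (1 : F) • G := by
    rw [one_smul]; exact (congrArg Matrix.transpose (Matrix.map_id' G)).trans hG
  refine ⟨isBilinearForm_gramForm G, fun u v => ?_,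
    isNondegenerateForm_gramForm (RingEquiv.refl F) (fun a => rfl) hG' one_ne_zero hdet⟩
  exact (gramForm_herm (RingEquiv.refl F) (fun a => rfl) hG' v u).trans (one_mul _)

lemma gramForm_isSymplecticForm (h2 : (2 : F) ≠ 0) {G : Matrix ι ι F} (hG : Gᵀ = -G) (hdet : IsUnit G.det) :
    IsSymplecticForm (gramForm (RingEquiv.refl F) G) := by
  have hG' : (G.map (RingEquiv.refl F))ᵀ = (-1 : F) • G := by
    rw [neg_one_smul]; exact (congrArg Matrix.transpose (Matrix.map_id' G)).trans hG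
  have hswap : ∀ v w, gramForm (RingEquiv.refl F) G w v = -gramForm (RingEquiv.refl F) G v w :=
    fun v w => (gramForm_herm (RingEquiv.refl F) (fun a => rfl) hG' v w).trans (neg_one_mul _)
  refine ⟨isBilinearForm_gramForm G, fun v w => hswap w v, fun v => ?_,
    isNondegenerateForm_gramForm (RingEquiv.refl F) (fun a => rfl) hG' (by simp) hdet⟩
  have h1 := hswap v v
  rw [eq_neg_iff_add_eq_zero, ← two_mul] at h1
  exact (mul_eq_zero.1 h1).resolve_left h2

/-- A function which is additive and square-homogeneous vanishes on the span of its zeros. -/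
lemma eq_zero_of_additive_sq {V : Type*} [AddCommGroup V] [Module F V] {d : V → F}
    (hadd : ∀ x y, d (x + y) = d x + d y) (hsmul : ∀ (c : F) x, d (c • x) = c ^ 2 * d x)
    {T : Set V} (hT : ∀ x ∈ T, d x = 0) {x : V} (hx : x ∈ Submodule.span F T) : d x = 0 := by
  induction hx using Submodule.span_induction with
  | mem x hx => exact hT x hx
  | zero => simpa using hsmul 0 0
  | add x y _ _ hx hy => rw [hadd, hx, hy, add_zero]
  | smul c x _ hx => rw [hsmul, hx, mul_zero]

lemma isSquare_of_two_eq_zero [Finite F] (h2 : (2 : F) = 0) (a : F) : ∃ s, a = s * s :=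
  haveI : CharP F 2 := CharTwo.of_one_ne_zero_of_two_eq_zero one_ne_zero h2
  FiniteField.isSquare_of_char_two (ringChar.eq F 2) a

/-- The values `f (P (e ⬝)) (P (e ⬝))` of a bilinear form in tensor coordinates. -/
def coordGram (f : (ι → F) → (ι → F) → F) (e : ι ≃ κ) (P : GL ι F) : Matrix κ κ F :=
  Matrix.reindex e e ((P : Matrix ι ι F)ᵀ * gramMatrix f * (P : Matrix ι ι F))

lemma apply_coord {f : (ι → F) → (ι → F) → F} (hf : IsBilinearForm f) (e : ι ≃ κ) (P : GL ι F)
    (x y : κ → F) :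
    f ((P : Matrix ι ι F) *ᵥ (x ∘ e)) ((P : Matrix ι ι F) *ᵥ (y ∘ e)) = x ⬝ᵥ (coordGram f e P *ᵥ y) := by
  rw [((IsSesqui.of_bilinear hf).transform (P : Matrix ι ι F)).apply_eq,
    (IsSesqui.of_bilinear hf).gram_transform]
  have hmap : (P : Matrix ι ι F).map (RingHom.id F) = P := Matrix.ext fun _ _ => rfl
  rw [hmap, coordGram, Matrix.reindex_apply]
  simp only [dotProduct, Matrix.mulVec, Function.comp_apply, Matrix.submatrix_apply, RingHom.id_apply]
  refine Fintype.sum_equiv e _ _ fun i => ?_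
  rw [Equiv.symm_apply_apply]
  congr 1
  refine Fintype.sum_equiv e _ _ fun j => ?_
  rw [Equiv.symm_apply_apply]

lemma isUnit_det_coordGram {f : (ι → F) → (ι → F) → F} (hf : IsBilinearForm f) (hnd : IsNondegenerateForm f)
    (e : ι ≃ κ) (P : GL ι F) : IsUnit (coordGram f e P).det := by
  rw [coordGram, Matrix.det_reindex_self, Matrix.det_mul, Matrix.det_mul, Matrix.det_transpose]
  have hP : IsUnit (P : Matrix ι ι F).det := (Matrix.isUnit_iff_isUnit_det _).mp P.isUnit
  exact (hP.mul ((IsSesqui.of_bilinear hf).isUnit_det_gram Function.surjective_id hnd)).mul hP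

lemma coordGram_transpose {f : (ι → F) → (ι → F) → F} (hf : IsBilinearForm f) (hskew : ∀ u v, f u v = -f v u)
    (e : ι ≃ κ) (P : GL ι F) : (coordGram f e P)ᵀ = -coordGram f e P := by
  have hg : (gramMatrix f)ᵀ = -gramMatrix f := Matrix.ext fun a b => by
    rw [Matrix.transpose_apply, Matrix.neg_apply]; exact hskew _ _
  rw [coordGram, Matrix.transpose_reindex, Matrix.transpose_mul, Matrix.transpose_mul,
    Matrix.transpose_transpose, hg, Matrix.neg_mul, Matrix.mul_neg, Matrix.mul_assoc]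
  rfl

lemma coordGram_diag {f : (ι → F) → (ι → F) → F} (hf : IsBilinearForm f) (halt : ∀ v, f v v = 0)
    (e : ι ≃ κ) (P : GL ι F) (k : κ) : coordGram f e P k k = 0 := by
  have h := apply_coord hf e P (Pi.single k 1) (Pi.single k 1)
  rw [halt] at h
  simpa using h.symm

/-- An isometry in tensor coordinates fixes the coordinate Gram matrix. -/
lemma coordGram_fixed {f : (ι → F) → (ι → F) → F} (hf : IsBilinearForm f) (e : ι ≃ κ) (P : GL ι F)
    {X : Matrix ι ι F} (hX : ∀ u v, f (X *ᵥ u) (X *ᵥ v) = f u v) {B : Matrix κ κ F}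
    (hXB : X * (P : Matrix ι ι F) = (P : Matrix ι ι F) * Matrix.reindex e.symm e.symm B) :
    Bᵀ * coordGram f e P * B = coordGram f e P := by
  have h := (IsSesqui.of_bilinear hf).gram_transform X
  rw [show (fun u v => f (X *ᵥ u) (X *ᵥ v)) = f from funext₂ hX] at h
  have hmap : X.map (RingHom.id F) = X := Matrix.ext fun _ _ => rfl
  rw [hmap] at h
  have hB : B = Matrix.reindexAlgEquiv F F e (Matrix.reindex e.symm e.symm B) := by
    ext i j; simp
  have ht : ∀ M : Matrix ι ι F, Matrix.reindex e e M = Matrix.reindexAlgEquiv F F e M := fun _ => rfl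
  set B' := Matrix.reindex e.symm e.symm B
  rw [hB, coordGram, ht, show (Matrix.reindexAlgEquiv F F e B')ᵀ = Matrix.reindexAlgEquiv F F e B'ᵀ from
    rfl, ← map_mul, ← map_mul]
  congr 1
  calc B'ᵀ * ((P : Matrix ι ι F)ᵀ * gramMatrix f * (P : Matrix ι ι F)) * B'
      = ((P : Matrix ι ι F) * B')ᵀ * gramMatrix f * ((P : Matrix ι ι F) * B') := by
        simp only [Matrix.transpose_mul, Matrix.mul_assoc]
    _ = (P : Matrix ι ι F)ᵀ * (Xᵀ * gramMatrix f * X) * (P : Matrix ι ι F) := by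
        rw [← hXB]; simp only [Matrix.transpose_mul, Matrix.mul_assoc]
    _ = _ := by rw [← h]

lemma act_conj_reindex (e : ι ≃ κ) (P : GL ι F) (z : GL κ F) (x : κ → F) :
    act (P * glReindex e.symm z * P⁻¹) ((P : Matrix ι ι F) *ᵥ (x ∘ e)) =
      (P : Matrix ι ι F) *ᵥ (((z : Matrix κ κ F) *ᵥ x) ∘ e) := by
  show act _ (act P (x ∘ e)) = _
  rw [act_mul, act_inv_act, act_mul]
  show (P : Matrix ι ι F) *ᵥ _ = _
  congr 1
  funext i
  simp only [act, glReindex, Units.coe_mapEquiv, Matrix.mulVec, dotProduct, Function.comp_apply]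
  rw [← Equiv.sum_comp e.symm]
  simp

/-- The coordinates of a vector along `P` and `e`. -/
def coordMap (e : ι ≃ κ) (P : GL ι F) : (ι → F) →ₗ[F] (κ → F) :=
  (LinearMap.funLeft F F e.symm).comp (Matrix.toLin' ((P⁻¹ : GL ι F) : Matrix ι ι F))

lemma coordMap_apply (e : ι ≃ κ) (P : GL ι F) (v : ι → F) :
    coordMap e P v = (act P⁻¹ v) ∘ e.symm := by
  simp [coordMap, act, LinearMap.funLeft]

lemma coordMap_point (e : ι ≃ κ) (P : GL ι F) (x : κ → F) :
    coordMap e P ((P : Matrix ι ι F) *ᵥ (x ∘ e)) = x := by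
  rw [coordMap_apply]
  show (act P⁻¹ (act P (x ∘ e))) ∘ e.symm = x
  rw [act_inv_act]
  funext k
  simp

lemma point_coordMap (e : ι ≃ κ) (P : GL ι F) (v : ι → F) :
    (P : Matrix ι ι F) *ᵥ (coordMap e P v ∘ e) = v := by
  rw [coordMap_apply, Function.comp_assoc, e.symm_comp_self, Function.comp_id]
  exact act_act_inv P v

/-- A quadratic form with prescribed alternating polar in characteristic two. -/
lemma exists_triangular_quad (G : Matrix κ κ F) (hG : Gᵀ = G) (hd : ∀ k, G k k = 0) :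
    ∃ q : (κ → F) → F, (∀ (c : F) x, q (c • x) = c ^ 2 * q x) ∧
      (∀ x y, QuadraticMap.polar q x y = x ⬝ᵥ (G *ᵥ y)) ∧ ∀ k, q (Pi.single k 1) = 0 := by
  classical
  let o := Fintype.equivFin κ
  let A : Matrix κ κ F := Matrix.of fun a b => if o a < o b then G a b else 0
  have hA : A + Aᵀ = G := by
    ext a b
    rcases lt_trichotomy (o a) (o b) with h | h | h
    · simp [A, h, h.not_gt]
    · have hab : a = b := o.injective h
      subst hab
      simp [A, hd]
    · have hsym : G b a = G a b := congrFun (congrFun hG a) b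
      simp [A, h, h.not_gt, hsym]
  refine ⟨fun x => x ⬝ᵥ (A *ᵥ x), fun c x => ?_, fun x y => ?_, fun k => ?_⟩
  · simp only [Matrix.mulVec_smul, smul_dotProduct, dotProduct_smul, smul_eq_mul]
    ring
  · simp only [QuadraticMap.polar, Matrix.mulVec_add, dotProduct_add, add_dotProduct]
    rw [← hA, Matrix.add_mulVec, dotProduct_add, Matrix.dotProduct_mulVec x Aᵀ, Matrix.vecMul_transpose,
      dotProduct_comm (A *ᵥ x) y]
    ring
  · simp [A]

end General

section Symp

variable {F : Type*} [Field F] {m : ℕ}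

lemma isSymplecticForm_sympForm : IsSymplecticForm (Cfsg.sympForm m F) := by
  have hb : IsBilinearForm (Cfsg.sympForm m F) := by
    refine ⟨fun x y v => ?_, fun c x v => ?_, fun v x y => ?_, fun c v x => ?_⟩ <;>
      simp [Cfsg.sympForm, add_dotProduct, Matrix.mulVec_add, dotProduct_add, smul_dotProduct,
        Matrix.mulVec_smul, dotProduct_smul]
  have hexp : ∀ u v : Fin m ⊕ Fin m → F, Cfsg.sympForm m F u v =
      ∑ i, u (.inr i) * v (.inl i) - ∑ i, u (.inl i) * v (.inr i) := by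
    intro u v
    simp [Cfsg.sympForm, Matrix.J, dotProduct, Matrix.mulVec, Fintype.sum_sum_type,
      Matrix.one_apply, Finset.sum_neg_distrib]
    ring
  refine ⟨hb, fun v w => ?_, fun v => ?_, fun v hv => ?_⟩
  · rw [hexp, hexp, neg_sub]; simp only [mul_comm]
  · rw [hexp]; simp only [mul_comm, sub_self]
  · obtain ⟨i, hi⟩ := Function.ne_iff.1 hv
    rcases i with i | i
    · exact ⟨⟨Pi.single (.inr i) 1, by simpa [hexp, Pi.single_apply] using hi⟩,
        ⟨Pi.single (.inr i) 1, by simpa [hexp, Pi.single_apply] using hi⟩⟩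
    · exact ⟨⟨Pi.single (.inl i) 1, by simpa [hexp, Pi.single_apply] using hi⟩,
        ⟨Pi.single (.inl i) 1, by simpa [hexp, Pi.single_apply] using hi⟩⟩

lemma sesqui_sympForm : IsSesqui (RingHom.id F) (Cfsg.sympForm m F) :=
  IsSesqui.of_bilinear isSymplecticForm_sympForm.bilinear

lemma reflexive_sympForm : IsReflexive (Cfsg.sympForm m F) :=
  isReflexive_of_symplectic isSymplecticForm_sympForm

lemma mem_spGL {g : GL (Fin m ⊕ Fin m) F} :
    g ∈ Cfsg.spGL m F ↔ ∀ u v, Cfsg.sympForm m F (act g u) (act g v) = Cfsg.sympForm m F u v := Iff.rfl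

lemma fixesForm_of_le_spGL {H : Subgroup (GL (Fin m ⊕ Fin m) F)} (hH : H ≤ Cfsg.spGL m F) :
    FixesForm (matrixSet H) (Cfsg.sympForm m F) := by
  rintro _ ⟨g, hg, rfl⟩
  exact hH hg

/-- `Cfsg.Geo.InSymplecticClass` with class 6 left out; the disjuncts keep their positions. -/
def InSympGeom [Fintype F] (M : Subgroup (GL (Fin m ⊕ Fin m) F)) : Prop :=
  let f := Cfsg.sympForm m F
  let I := Cfsg.spGL m F
  ((∃ W : Submodule F (Fin m ⊕ Fin m → F), W ≠ ⊥ ∧ IsTotallySingularFor f W ∧ M = subspaceStabilizer W ⊓ I) ∨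
  (∃ W : Submodule F (Fin m ⊕ Fin m → F), W ≠ ⊥ ∧ IsNondegenerateOn f W ∧ Module.finrank F W < m ∧
      M = subspaceStabilizer W ⊓ I) ∨
  (∃ (t k : ℕ) (D : Fin t → Submodule F (Fin m ⊕ Fin m → F)), IsNondegenerateMDecomposition f k D ∧
      M = decompositionStabilizer D ⊓ I) ∨
  (∃ (D : Fin 2 → Submodule F (Fin m ⊕ Fin m → F)), Odd (Fintype.card F) ∧ IsMDecomposition m D ∧
      (∀ i, IsTotallySingularFor f (D i)) ∧ M = decompositionStabilizer D ⊓ I) ∨
  (∃ (F₀ : Subfield F) (r : ℕ) (P : GL (Fin m ⊕ Fin m) F) (ζ : F), r.Prime ∧ Fintype.card F = Nat.card F₀ ^ r ∧ ζ ≠ 0 ∧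
      IsFormRationalStructure f F₀ ζ P ∧ M = subfieldSubgroup F₀ P ⊓ I) ∨
  False ∨
  (∃ Q : (Fin m ⊕ Fin m → F) → F, ¬ Odd (Fintype.card F) ∧ IsNondegenerateQuadraticForm Q ∧
      (∀ u v, QuadraticMap.polar Q u v = f u v) ∧ M = quadSimilarityGroup Q ⊓ I)) ∨
  (∃ (r : ℕ) (K : Subalgebra F (Matrix (Fin m ⊕ Fin m) (Fin m ⊕ Fin m) F)), r.Prime ∧ IsFieldSubalgebra r K ∧
      IsSelfAdjointFor f K ∧ (∀ k ∈ K, ∀ v, f (k *ᵥ v) v = 0) ∧ M = subalgebraNormalizer K ⊓ I) ∨
  (∃ K : Subalgebra F (Matrix (Fin m ⊕ Fin m) (Fin m ⊕ Fin m) F), Odd (Fintype.card F) ∧ IsFieldSubalgebra 2 K ∧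
      IsAdjointClosedFor f K ∧ ¬ IsSelfAdjointFor f K ∧ M = subalgebraNormalizer K ⊓ I) ∨
  (∃ (n₁ n₂ : ℕ) (e : (Fin m ⊕ Fin m) ≃ Fin n₁ × Fin n₂) (P : GL (Fin m ⊕ Fin m) F)
      (f₁ : (Fin n₁ → F) → (Fin n₁ → F) → F) (f₂ : (Fin n₂ → F) → (Fin n₂ → F) → F),
      Odd (Fintype.card F) ∧ 3 ≤ n₂ ∧ IsSymplecticForm f₁ ∧ IsSymmetricForm f₂ ∧
      IsTensorFormStructure id f f₁ f₂ e P ∧ M = tensorProductSubgroup n₁ n₂ e P ⊓ I) ∨
  (∃ (k t : ℕ) (e : (Fin m ⊕ Fin m) ≃ (Fin t → Fin k)) (P : GL (Fin m ⊕ Fin m) F) (f₁ : (Fin k → F) → (Fin k → F) → F),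
      Odd (Fintype.card F) ∧ Odd t ∧ 3 ≤ t ∧ ¬ (Fintype.card F = 3 ∧ k = 2) ∧ IsSymplecticForm f₁ ∧
      IsTensorPowerFormStructure id f f₁ e P ∧ M = tensorWreathSubgroup k t e P ⊓ I)

lemma InSympGeom.inSymplecticClass [Fintype F] {M : Subgroup (GL (Fin m ⊕ Fin m) F)} (h : InSympGeom M) :
    InSymplecticClass m F M := by
  rcases h with h | h
  · exact Or.inl (h.imp id (Or.imp id (Or.imp id (Or.imp id (Or.imp id (Or.imp False.elim id))))))
  · exact Or.inr h

/-- `H` lies in a member of one of the geometric classes other than class 6. -/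
def InSympCase [Fintype F] (H : Subgroup (GL (Fin m ⊕ Fin m) F)) : Prop :=
  ∃ M, InSympGeom M ∧ H ≤ M

variable [Fintype F]

lemma two_eq_zero_of_not_odd (h : ¬ Odd (Fintype.card F)) : (2 : F) = 0 := by
  have hc : ringChar F = 2 :=
    (FiniteField.even_card_iff_char_two (F := F)).2 (Nat.even_iff.1 (Nat.not_odd_iff_even.1 h))
  have := ringChar.Nat.cast_ringChar (R := F)
  rw [hc] at this
  exact_mod_cast this

lemma two_ne_zero_of_odd_card (h : Odd (Fintype.card F)) : (2 : F) ≠ 0 := by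
  intro h2
  haveI : CharP F 2 := CharTwo.of_one_ne_zero_of_two_eq_zero one_ne_zero h2
  obtain ⟨k, -, hk⟩ := FiniteField.card F 2
  rw [hk] at h
  exact (Nat.not_even_iff_odd.2 h) (even_two.pow_of_ne_zero k.ne_zero)

/-- A symplectic group fixing a quadratic form polarising to the symplectic form. -/
lemma inSympCase_quad (hev : ¬ Odd (Fintype.card F)) {H : Subgroup (GL (Fin m ⊕ Fin m) F)}
    (hH : H ≤ Cfsg.spGL m F) {Q : (Fin m ⊕ Fin m → F) → F}
    (hsmul : ∀ (c : F) v, Q (c • v) = c ^ 2 * Q v)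
    (hpol : ∀ u v, QuadraticMap.polar Q u v = Cfsg.sympForm m F u v)
    (hfix : ∀ g ∈ H, ∀ v, Q (act g v) = Q v) : InSympCase H := by
  have hpol' : QuadraticMap.polar Q = Cfsg.sympForm m F := funext₂ hpol
  have hQ : IsNondegenerateQuadraticForm Q :=
    ⟨hsmul, hpol' ▸ isSymplecticForm_sympForm.bilinear, hpol' ▸ isSymplecticForm_sympForm.nondegenerate⟩
  refine ⟨_, Or.inl (Or.inr (Or.inr (Or.inr (Or.inr (Or.inr (Or.inr ⟨Q, hev, hQ, hpol, rfl⟩)))))),
    fun g hg => ⟨⟨1, fun v => ?_⟩, hH hg⟩⟩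
  rw [Units.val_one, one_mul]
  exact hfix g hg v

/-- A quadratic form polarising to the symplectic form, zero on a spanning set moved into its zeros,
is fixed. -/
lemma inSympCase_quad_of_span (hev : ¬ Odd (Fintype.card F)) {H : Subgroup (GL (Fin m ⊕ Fin m) F)}
    (hH : H ≤ Cfsg.spGL m F) {Q : (Fin m ⊕ Fin m → F) → F}
    (hsmul : ∀ (c : F) v, Q (c • v) = c ^ 2 * Q v)
    (hpol : ∀ u v, QuadraticMap.polar Q u v = Cfsg.sympForm m F u v)
    {T : Set (Fin m ⊕ Fin m → F)} (hT : ∀ v ∈ T, Q v = 0) (hspan : Submodule.span F T = ⊤)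
    (hmove : ∀ g ∈ H, ∀ v ∈ T, Q (act g v) = 0) : InSympCase H := by
  refine inSympCase_quad hev hH hsmul hpol fun g hg v => sub_eq_zero.1 ?_
  refine eq_zero_of_additive_sq (d := fun v => Q (act g v) - Q v) (fun x y => ?_) (fun c x => ?_)
    (T := T) (fun x hx => by rw [hmove g hg x hx, hT x hx, sub_zero]) (hspan ▸ Submodule.mem_top)
  · have h1 := mem_spGL.1 (hH hg) x y
    rw [← hpol, ← hpol] at h1
    simp only [QuadraticMap.polar] at h1
    rw [show act g (x + y) = act g x + act g y from Matrix.mulVec_add _ _ _]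
    linear_combination h1
  · rw [show act g (c • x) = c • act g x from Matrix.mulVec_smul _ _ _, hsmul, hsmul]
    ring

end Symp

end CfsgLib.SmallDim
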