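import Cfsg.Agent.Lib.SmallDim.OrthEvenBasic
import Cfsg.Agent.Lib.SmallDim.SympBasic
import Cfsg.Agent.Lib.ClassicalForms.Ortho.Siegel

/-!
Subfield groups inside orthogonal groups in even dimension: an absolutely irreducible group written over a subfield
fixes a form rational over it, and a form rational over a subfield of index two is of plus type.
-/

set_option autoImplicit false
set_option linter.style.haveILetI false
set_option linter.unusedSectionVars false
set_option linter.unusedSimpArgs false
set_option synthInstance.maxHeartbeats 80000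

namespace CfsgLib.SmallDim.OrthEven

open scoped MatrixGroups Matrix
open Cfsg.Geo QuadraticMap CfsgLib.ClassicalForms Module

variable {ι : Type} [Fintype ι] [DecidableEq ι] {F : Type*} [Field F] [Fintype F] {Q : QuadraticForm F (ι → F)}

/-- A group normalising an absolutely irreducible group of isometries realisable over a subfield fixes a structure
over it carrying a multiple of the form. -/
theorem subfield_case (hQ : Nondeg Q) (hn : 2 ≤ Fintype.card ι) {H N : Subgroup (GL ι F)} (hN : NormalIn N H)
    (hH : Isometric Q H) (habs : ActsAbsolutelyIrreducibly (matrixSet N)) {K : Subfield F}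
    (hreal : RealisableOver K (matrixSet N)) :
    ∃ (P : GL ι F) (ζ : F), ζ ≠ 0 ∧ IsQuadFormRationalStructure (fun v => ζ * Q v) K P ∧
      H ≤ subfieldSubgroup K P := by
  classical
  haveI : Nonempty ι := Fintype.card_pos_iff.mp (by omega)
  obtain ⟨B, hB₀⟩ := hreal
  have hB : ∀ x ∈ N, ∀ i j, ((B * x * B⁻¹ : GL ι F) : Matrix ι ι F) i j ∈ K :=
    fun x hx i j => hB₀ _ (coe_mem_matrixSet hx) i j
  obtain ⟨p, hchar⟩ := CharP.exists F
  obtain ⟨e, hp, hq⟩ := FiniteField.card F p
  haveI := Fact.mk hp
  obtain ⟨d, -, -, -, hKeq⟩ := exists_fixedField_eq hq K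
  set τ := iterateFrobenius F p d
  have hτ : ∀ x, τ x = x ↔ x ∈ K := fun x => by rw [hKeq, mem_fixedField, iterateFrobenius_def]
  have hS := sesqui_polar Q
  set G := gramMatrix (polar (⇑Q))
  have hG : IsUnit G.det := hS.isUnit_det_gram Function.surjective_id (isNondegenerateForm_polar hQ)
  have hid : ∀ M : Matrix ι ι F, M.map (RingHom.id F) = M := fun M => Matrix.ext fun _ _ => rfl
  have hinv : ∀ x ∈ N, ((x : GL ι F) : Matrix ι ι F)ᵀ * G * (x : Matrix ι ι F) = G := by
    intro x hx
    have h1 := hS.gram_transform (x : Matrix ι ι F)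
    rw [show (fun u v => polar Q ((x : Matrix ι ι F) *ᵥ u) ((x : Matrix ι ι F) *ᵥ v)) = polar (⇑Q) from
        funext₂ fun u v => hH.polar (hN.le hx) u v, hid] at h1
    exact h1.symm
  set C : Matrix ι ι F := ↑(B⁻¹)
  set Bm : Matrix ι ι F := ↑B
  set G' := Cᵀ * G * C
  obtain ⟨c, hc⟩ : ∃ c : F, G'.map τ = c • G' := by
    obtain ⟨c, hc⟩ : ∃ c : F, Bmᵀ * G'.map τ * Bm = c • G := by
      refine gram_unique (σ := RingHom.id F) habs hG ?_ ?_ <;> rintro _ ⟨x, hx, rfl⟩ <;> rw [hid]
      · exact hinv x hx
      set X : Matrix ι ι F := ↑x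
      set A : Matrix ι ι F := ((B * x * B⁻¹ : GL ι F) : Matrix ι ι F)
      have e1 : Bm * X = A * Bm := by simp only [Bm, X, A, ← Units.val_mul]; congr 1; group
      have e3 : C * A = X * C := by simp only [C, X, A, ← Units.val_mul]; congr 1; group
      have e2 : Aᵀ * G' * A = G' := by
        calc Aᵀ * G' * A = (C * A)ᵀ * G * (C * A) := by simp only [G', Matrix.transpose_mul, Matrix.mul_assoc]
          _ = Cᵀ * (Xᵀ * G * X) * C := by rw [e3]; simp only [Matrix.transpose_mul, Matrix.mul_assoc]
          _ = _ := by rw [hinv x hx]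
      have e4 : Aᵀ * G'.map τ * A = G'.map τ := by
        have h1 : (Aᵀ * G' * A).map τ = G'.map τ := congrArg (fun n : Matrix _ _ F => n.map τ) e2
        rwa [Matrix.map_mul, Matrix.map_mul,
          show Aᵀ.map τ = Aᵀ from Matrix.ext fun i j => (hτ _).mpr (hB x hx j i),
          show A.map τ = A from Matrix.ext fun i j => (hτ _).mpr (hB x hx i j)] at h1
      calc Xᵀ * (Bmᵀ * G'.map τ * Bm) * X = (Bm * X)ᵀ * G'.map τ * (Bm * X) := by
            simp only [Matrix.transpose_mul, Matrix.mul_assoc]
        _ = Bmᵀ * (Aᵀ * G'.map τ * A) * Bm := by rw [e1]; simp only [Matrix.transpose_mul, Matrix.mul_assoc]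
        _ = _ := by rw [e4]
    refine ⟨c, ?_⟩
    have hBC : Bm * C = 1 := by simp only [Bm, C, ← Units.val_mul, mul_inv_cancel, Units.val_one]
    calc G'.map τ = (Bm * C)ᵀ * G'.map τ * (Bm * C) := by simp [hBC]
      _ = Cᵀ * (Bmᵀ * G'.map τ * Bm) * C := by simp only [Matrix.transpose_mul, Matrix.mul_assoc]
      _ = _ := by rw [hc, Matrix.mul_smul, Matrix.smul_mul]
  obtain ⟨i₀, j₀, hne⟩ : ∃ i j, G' i j ≠ 0 := by
    by_contra hall
    push Not at hall
    have hC0 : C.det ≠ 0 := ((Matrix.isUnit_iff_isUnit_det _).mp (B⁻¹).isUnit).ne_zero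
    have h0 : G'.det = 0 := Matrix.det_eq_zero_of_row_eq_zero (Classical.arbitrary ι) (hall _)
    rw [show G' = Cᵀ * G * C from rfl, Matrix.det_mul, Matrix.det_mul, Matrix.det_transpose] at h0
    exact mul_ne_zero (mul_ne_zero hC0 hG.ne_zero) hC0 h0
  set η := G' i₀ j₀
  have hτη : τ η = c * η := congrFun (congrFun hc i₀) j₀
  have hc0 : c ≠ 0 := fun h => hne ((map_eq_zero τ).mp (by rw [hτη, h, zero_mul]))
  have hMK : ∀ i j, η⁻¹ * G' i j ∈ K := fun i j => by
    have h1 : τ (G' i j) = c * G' i j := congrFun (congrFun hc i) j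
    rw [← hτ, map_mul, map_inv₀, h1, hτη]
    field_simp
  refine ⟨B⁻¹, η⁻¹, inv_ne_zero hne, ?_, le_subfieldSubgroup hN habs hB₀⟩
  -- the values of the form
  set R : (ι → F) → F := fun u => η⁻¹ * Q (C *ᵥ u)
  have hpol : ∀ u v : ι → F, (∀ i, u i ∈ K) → (∀ i, v i ∈ K) → η⁻¹ * polar Q (C *ᵥ u) (C *ᵥ v) ∈ K := by
    intro u v hu hv
    rw [(hS.transform C).apply_eq u v, hS.gram_transform C, hid]
    show η⁻¹ * (u ⬝ᵥ (G' *ᵥ (RingHom.id F ∘ v))) ∈ K
    simp only [dotProduct, Matrix.mulVec, Finset.mul_sum]
    refine K.sum_mem fun a _ => K.sum_mem fun b _ => ?_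
    rw [show η⁻¹ * (u a * (G' a b * (RingHom.id F ∘ v) b)) = u a * (η⁻¹ * G' a b * v b) by
      rw [Function.comp_apply, RingHom.id_apply]; ring]
    exact K.mul_mem (hu a) (K.mul_mem (hMK a b) (hv b))
  have hadd : ∀ u v : ι → F, R (u + v) = R u + R v + η⁻¹ * polar Q (C *ᵥ u) (C *ᵥ v) := fun u v => by
    simp only [R, Matrix.mulVec_add, QuadraticMap.polar]; ring
  have hsmul : ∀ (a : F) (u : ι → F), R (a • u) = a * a * R u := fun a u => by
    simp only [R, Matrix.mulVec_smul, QuadraticMap.map_smul, smul_eq_mul]; ring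
  have h01 : ∀ a b : ι, (Pi.single a (1 : F) : ι → F) b ∈ K := fun a b => by
    rcases eq_or_ne b a with rfl | h
    · rw [Pi.single_eq_same]; exact K.one_mem
    · rw [Pi.single_eq_of_ne h]; exact K.zero_mem
  have hcoord : ∀ (a : ι) (x : F), x ∈ K → ∀ i, (x • (Pi.single a (1 : F) : ι → F)) i ∈ K := fun a x hx i => by
    rw [Pi.smul_apply, smul_eq_mul]; exact K.mul_mem hx (h01 a i)
  have hsum : ∀ (s : Finset ι) (u : ι → F), (∀ i, u i ∈ K) →
      ∀ i, (∑ b ∈ s, u b • (Pi.single b (1 : F) : ι → F)) i ∈ K := fun s u hu i => by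
    rw [Finset.sum_apply]; exact K.sum_mem fun b _ => hcoord b _ (hu b) i
  suffices hstd : ∀ i, R (Pi.single i 1) ∈ K by
    intro u hu
    show R u ∈ K
    have key : ∀ s : Finset ι, R (∑ i ∈ s, u i • Pi.single i (1 : F)) ∈ K := by
      intro s
      induction s using Finset.induction_on with
      | empty => simp [R]
      | insert a s ha ih =>
        rw [Finset.sum_insert ha, hadd, hsmul]
        exact K.add_mem (K.add_mem (K.mul_mem (K.mul_mem (hu a) (hu a)) (hstd a)) ih)
          (hpol _ _ (hcoord a _ (hu a)) (hsum s u hu))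
    rw [pi_eq_sum_univ' u]
    exact key _
  rcases eq_or_ne (2 : F) 0 with h2 | h2
  swap
  · intro i
    have h := hpol _ _ (h01 i) (h01 i)
    rw [polar_self_mul, mul_left_comm] at h
    rw [show R (Pi.single i 1) = (2 * R (Pi.single i 1)) / ((2 : ℕ) : F) by push_cast; field_simp]
    exact K.div_mem h (natCast_mem K 2)
  -- characteristic two: the defect is semilinear and invariant
  have hD : ∀ x ∈ N, ∀ u : ι → F, R (((B * x * B⁻¹ : GL ι F) : Matrix ι ι F) *ᵥ u) = R u := by
    intro x hx u
    have e3 : C * ((B * x * B⁻¹ : GL ι F) : Matrix ι ι F) = (x : Matrix ι ι F) * C := by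
      simp only [C, ← Units.val_mul]; congr 1; group
    simp only [R]
    rw [Matrix.mulVec_mulVec, e3, ← Matrix.mulVec_mulVec]
    exact congrArg _ (hH x (hN.le hx) _)
  let dd : ι → F := fun i => τ (R (Pi.single i 1)) - R (Pi.single i 1)
  let D : (ι → F) → F := fun v => ∑ i, v i * v i * dd i
  have hDrat : ∀ u : ι → F, (∀ i, u i ∈ K) → τ (R u) - R u = D u := by
    intro u hu
    have key : ∀ s : Finset ι, τ (R (∑ i ∈ s, u i • Pi.single i (1 : F))) - R (∑ i ∈ s, u i • Pi.single i (1 : F))
        = ∑ i ∈ s, u i * u i * dd i := by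
      intro s
      induction s using Finset.induction_on with
      | empty => simp [R]
      | insert a s ha ih =>
        rw [Finset.sum_insert ha, Finset.sum_insert ha, hadd, hsmul, map_add, map_add, map_mul, map_mul,
          (hτ _).mpr (hu a)]
        rw [(hτ _).mpr (hpol _ _ (hcoord a _ (hu a)) (hsum s u hu))]
        rw [← ih]
        simp only [dd]
        ring
    have h := key Finset.univ
    rwa [← pi_eq_sum_univ' u] at h
  let W : Submodule F (ι → F) :=
    { carrier := {w | D (act B w) = 0}
      zero_mem' := by simp [D, act]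
      add_mem' := fun {a b} ha hb => by
        show D (act B (a + b)) = 0
        rw [act, Matrix.mulVec_add]
        have : ∀ u v : ι → F, D (u + v) = D u + D v := fun u v => by
          simp only [D, Pi.add_apply, ← Finset.sum_add_distrib]
          exact Finset.sum_congr rfl fun i _ => by linear_combination (u i * v i * dd i) * h2
        rw [this]
        exact (congrArg₂ (· + ·) ha hb).trans (add_zero 0)
      smul_mem' := fun a w hw => by
        show D (act B (a • w)) = 0
        rw [act_smul, show D (a • act B w) = a * a * D (act B w) by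
          simp only [D, Pi.smul_apply, smul_eq_mul, Finset.mul_sum]
          exact Finset.sum_congr rfl fun i _ => by ring, show D (act B w) = 0 from hw, mul_zero] }
  have hinvW : ∀ x ∈ N, ∀ w ∈ W, act x w ∈ W := by
    intro x hx w hw
    set A : Matrix ι ι F := ((B * x * B⁻¹ : GL ι F) : Matrix ι ι F) with hA
    have hAB : act B (act x w) = A *ᵥ act B w := by
      simp only [hA, act, Matrix.mulVec_mulVec, ← Units.val_mul, inv_mul_cancel_right]
    show D (act B (act x w)) = 0
    rw [hAB]
    have hcol : ∀ j, (∑ i, A i j * A i j * dd i) = dd j := fun j => by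
      have hu : ∀ i, (A *ᵥ Pi.single j 1) i ∈ K := fun i => by
        rw [Matrix.mulVec_single_one]; exact hB x hx i j
      have h := hDrat _ hu
      rw [hD x hx, Matrix.mulVec_single_one] at h
      simpa [D] using h.symm
    have hlin : ∀ v : ι → F, D (A *ᵥ v) = D v := by
      intro v
      have hsq : ∀ i, (A *ᵥ v) i * (A *ᵥ v) i = ∑ j, A i j * A i j * (v j * v j) := fun i => by
        haveI : CharP F 2 := CharTwo.of_one_ne_zero_of_two_eq_zero one_ne_zero h2
        simp only [Matrix.mulVec, dotProduct]
        rw [CharTwo.sum_mul_self]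
        exact Finset.sum_congr rfl fun j _ => by ring
      show (∑ i, (A *ᵥ v) i * (A *ᵥ v) i * dd i) = ∑ j, v j * v j * dd j
      simp only [hsq, Finset.sum_mul]
      rw [Finset.sum_comm]
      refine Finset.sum_congr rfl fun j _ => ?_
      conv_rhs => rw [← hcol j, Finset.mul_sum]
      exact Finset.sum_congr rfl fun i _ => by ring
    rw [hlin]
    exact hw
  intro i
  rw [← hτ, ← sub_eq_zero]
  show dd i = 0
  have hmem : ∀ w, w ∈ W ↔ D (act B w) = 0 := fun w => Iff.rfl
  rcases actsIrreducibly_iff.mp habs.1 W hinvW with h | h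
  · exfalso
    obtain ⟨j, hji⟩ := Fintype.exists_ne_of_one_lt_card (by omega) i
    obtain ⟨a, hda⟩ : ∃ a, dd a ≠ 0 := by
      by_contra hall
      push Not at hall
      have : (Pi.single i 1 : ι → F) ∈ W := (hmem _).2 (by simp [D, hall])
      rw [h, Submodule.mem_bot] at this
      simpa using congrFun this i
    obtain ⟨b, hba⟩ := Fintype.exists_ne_of_one_lt_card (by omega) a
    obtain ⟨s, hs⟩ := isSquare_of_two_eq_zero h2 (dd b / dd a)
    set w : ι → F := s • Pi.single a 1 + Pi.single b 1
    have hw : act B⁻¹ w ∈ W := by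
      rw [hmem, ← act_mul, mul_inv_cancel, act_one]
      show ∑ k, w k * w k * dd k = 0
      rw [Finset.sum_eq_add a b hba.symm]
      · simp [w, hba, hba.symm]
        rw [← hs]
        field_simp
        linear_combination dd b * h2
      · intro k _ hk
        simp [w, hk.1, hk.2]
      all_goals simp
    rw [h, Submodule.mem_bot] at hw
    have := congrFun (congrArg (act B) hw) b
    rw [← act_mul, mul_inv_cancel, act_one] at this
    simp [w, hba, act] at this
  · have := (hmem (act B⁻¹ (Pi.single i 1))).1 (h ▸ Submodule.mem_top)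
    rw [← act_mul, mul_inv_cancel, act_one] at this
    simpa [D, Pi.single_apply] using this

/-- Independent rational vectors stay independent over the large field. -/
lemma linearIndependent_rational {κ : Type*} [Fintype κ] {K : Subfield F} (P : GL ι F) {v : κ → ι → K}
    (hv : LinearIndependent K v) :
    LinearIndependent F fun i => act P (fun a => (v i a : F)) := by
  classical
  obtain ⟨L, hL⟩ := (Fintype.linearCombination K v).exists_leftInverse_of_injective
    (LinearMap.ker_eq_bot.mpr (linearIndependent_iff_injective_fintypeLinearCombination.mp hv))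
  set M : Matrix κ ι F := (LinearMap.toMatrix' L).map K.subtype
  refine LinearIndependent.of_comp (M.mulVecLin.comp (Matrix.toLin' ((P⁻¹ : GL ι F) : Matrix ι ι F))) ?_
  have h : (fun i => (M.mulVecLin.comp (Matrix.toLin' ((P⁻¹ : GL ι F) : Matrix ι ι F)))
      (act P (fun a => (v i a : F)))) = fun i => Pi.single i (1 : F) := by
    funext i
    have h1 : L (v i) = Pi.single i 1 := by
      have := LinearMap.congr_fun hL (Pi.single i 1)
      simpa [Fintype.linearCombination_apply_single] using this
    simp only [LinearMap.comp_apply, Matrix.toLin'_apply, Matrix.mulVecLin_apply]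
    rw [show ((P⁻¹ : GL ι F) : Matrix ι ι F) *ᵥ act P (fun a => (v i a : F)) = fun a => (v i a : F) by
      simp [act, Matrix.mulVec_mulVec, ← Units.val_mul]]
    funext b
    have h2 : (LinearMap.toMatrix' L *ᵥ v i) b = (Pi.single i 1 : κ → K) b := by
      rw [LinearMap.toMatrix'_mulVec, h1]
    have h3 := congrArg K.subtype h2
    rw [RingHom.map_mulVec] at h3
    refine h3.trans ?_
    rcases eq_or_ne b i with rfl | hb <;> simp [*]
  simp only [Function.comp_def]
  rw [h]
  exact Pi.linearIndependent_single_one κ F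

/-- A quadratic polynomial over a subfield of index two has a root. -/
lemma exists_root_quadratic {K : Subfield F} (hcard : Fintype.card F = Nat.card K ^ 2) {a : K} (ha : a ≠ 0)
    (b c : K) : ∃ x : F, (a : F) * x ^ 2 + (b : F) * x + (c : F) = 0 := by
  classical
  have : Fintype K := Fintype.ofFinite K
  have hfin : finrank K F = 2 := by
    have h := natCard_eq_pow_finrank (K := K) (V := F)
    rw [Nat.card_eq_fintype_card (α := F), hcard] at h
    exact (Nat.pow_right_injective (Finite.one_lt_card) h).symm
  let f : Polynomial K := Polynomial.X ^ 2 + Polynomial.C (b / a) * Polynomial.X + Polynomial.C (c / a)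
  have hf : f.Monic := by unfold f; monicity!
  have hd : f.natDegree = 2 := by unfold f; compute_degree!
  suffices h : ∃ x : F, Polynomial.aeval x f = 0 by
    obtain ⟨x, hx⟩ := h
    refine ⟨x, ?_⟩
    have ha' : (a : F) ≠ 0 := fun h => ha (Subtype.ext h)
    have hval : ∀ z : K, algebraMap K F z = (z : F) := fun z => rfl
    simp only [f, map_add, map_mul, map_pow, Polynomial.aeval_X, Polynomial.aeval_C, hval,
      Subfield.coe_div] at hx
    field_simp at hx
    linear_combination hx
  by_cases hi : Irreducible f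
  · haveI := Fact.mk hi
    have : Module.Finite K (AdjoinRoot f) := hf.finite_adjoinRoot
    have : Finite (AdjoinRoot f) := Module.finite_of_finite K
    obtain ⟨φ⟩ := FiniteField.nonempty_algHom_of_finrank_dvd (K := AdjoinRoot f) (L := F) (F := K) (by
      rw [hfin, (AdjoinRoot.powerBasis hi.ne_zero).finrank, AdjoinRoot.powerBasis_dim, hd])
    exact ⟨φ (AdjoinRoot.root f), by rw [Polynomial.aeval_algHom_apply, AdjoinRoot.aeval_eq, AdjoinRoot.mk_self, map_zero]⟩
  · rw [hf.irreducible_iff_roots_eq_zero_of_degree_le_three (by omega) (by omega)] at hi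
    obtain ⟨r, hr⟩ := Multiset.exists_mem_of_ne_zero hi
    exact ⟨algebraMap K F r, by
      rw [Polynomial.aeval_algebraMap_apply, Polynomial.aeval_def, Algebra.algebraMap_self, Polynomial.eval₂_id,
        (Polynomial.mem_roots hf.ne_zero).mp hr, map_zero]⟩

/-- A form rational over a subfield of index two is of plus type. -/
theorem isPlus_of_index_two {m : ℕ} (hn : Fintype.card ι = 2 * m) (hm : 0 < m) {K : Subfield F}
    (hcard : Fintype.card F = Nat.card K ^ 2) {P : GL ι F} {ζ : F} (hζ : ζ ≠ 0)
    (hrat : IsQuadFormRationalStructure (fun v => ζ * Q v) K P) : IsPlusTypeOn (⇑Q) ⊤ := by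
  classical
  let j : (ι → K) → (ι → F) := fun u => act P (fun a => (u a : F))
  have hjadd : ∀ u v, j (u + v) = j u + j v := fun u v => by
    show act P _ = _
    rw [← show act P ((fun a => (u a : F)) + fun a => (v a : F)) = j u + j v from Matrix.mulVec_add _ _ _]
    rfl
  have hjsmul : ∀ (c : K) u, j (c • u) = (c : F) • j u := fun c u => by
    show act P _ = _
    rw [← act_smul]; rfl
  let Q₀ : QuadraticForm K (ι → K) := QuadraticMap.ofPolar
    (fun u => ⟨ζ * Q (j u), hrat (fun a => (u a : F)) fun a => (u a).2⟩)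
    (fun c u => Subtype.ext (by simp [hjsmul, QuadraticMap.map_smul]; ring))
    (fun u u' v => Subtype.ext (by
      have h := QuadraticMap.polar_add_left Q (j u) (j u') (j v)
      simp [QuadraticMap.polar, hjadd] at h ⊢
      linear_combination ζ * h))
    (fun c u v => Subtype.ext (by
      have h := QuadraticMap.polar_smul_left Q (c : F) (j u) (j v)
      simp [QuadraticMap.polar, hjadd, hjsmul] at h ⊢
      linear_combination ζ * h))
  have hQ0 : ∀ u, (Q₀ u : F) = ζ * Q (j u) := fun u => rfl
  have hpol : ∀ u v, ((polar (⇑Q₀) u v : K) : F) = ζ * polar Q (j u) (j v) := fun u v => by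
    simp [QuadraticMap.polar, hQ0, hjadd]; ring
  have hQzero : ∀ u, Q₀ u = 0 → Q (j u) = 0 := fun u h => by
    have := hQ0 u
    rw [h] at this
    exact (mul_eq_zero.mp this.symm).resolve_left hζ
  have hV : finrank K (ι → K) = 2 * m := by rw [finrank_fintype_fun_eq_card, hn]
  have hTS : ∀ k, k + 1 ≤ m → ∃ b : Fin k → ι → K, LinearIndependent K b ∧ (∀ i, Q₀ (b i) = 0) ∧
      ∀ i l, polar Q₀ (b i) (b l) = 0 := by
    intro k
    induction k with
    | zero => exact fun _ => ⟨Fin.elim0, linearIndependent_empty_type, fun i => i.elim0, fun i => i.elim0⟩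
    | succ k ih =>
      intro hk
      obtain ⟨b, hb, hb0, hbb⟩ := ih (by omega)
      obtain ⟨C, hC⟩ := (Submodule.span K (Set.range b)).exists_isCompl
      have hCd : finrank K C = 2 * m - k := by
        have h := Submodule.finrank_add_eq_of_isCompl hC
        rw [finrank_span_eq_card hb, Fintype.card_fin, hV] at h
        omega
      obtain ⟨x, hx0, hxQ, hxb⟩ := exists_singular_ker (Q₀.comp C.subtype)
        (fun i => (polarBilin Q₀ (b i)).comp C.subtype) (by omega)
      have hxb' : ∀ i, polar Q₀ (b i) x = 0 := hxb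
      refine ⟨Fin.cons (x : ι → K) b, linearIndependent_finCons.mpr ⟨hb, fun hmem => hx0 (Subtype.ext
        (Submodule.disjoint_def.mp hC.disjoint _ hmem x.2))⟩, fun i => ?_, fun i l => ?_⟩
      · refine Fin.cases ?_ (fun i => ?_) i
        · simpa using hxQ
        · simpa using hb0 i
      · have hxx : polar Q₀ (x : ι → K) x = 0 := by
          rw [polar_self_mul, show Q₀ x = 0 from hxQ, mul_zero]
        refine Fin.cases ?_ (fun i => ?_) i <;> refine Fin.cases ?_ (fun l => ?_) l <;> simp only [Fin.cons_zero, Fin.cons_succ]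
        · exact hxx
        · rw [QuadraticMap.polar_comm]; exact hxb' l
        · exact hxb' i
        · exact hbb i l
  obtain ⟨b, hb, hb0, hbb⟩ := hTS (m - 1) (by omega)
  obtain ⟨C, hC⟩ := (Submodule.span K (Set.range b)).exists_isCompl
  have hCd : finrank K C = m + 1 := by
    have h := Submodule.finrank_add_eq_of_isCompl hC
    rw [finrank_span_eq_card hb, Fintype.card_fin, hV] at h
    omega
  let ψ : C →ₗ[K] (Fin (m - 1) → K) := LinearMap.pi fun i => (polarBilin Q₀ (b i)).comp C.subtype
  have hker : 2 ≤ finrank K (LinearMap.ker ψ) := by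
    have h1 := ψ.finrank_range_add_finrank_ker
    have h2 := Submodule.finrank_le (LinearMap.range ψ)
    rw [finrank_fin_fun] at h2
    omega
  let W₀ : Submodule K (ι → K) := (LinearMap.ker ψ).map C.subtype
  have hW₀ : 2 ≤ finrank K W₀ := by
    rw [(Submodule.equivMapOfInjective _ C.injective_subtype _).symm.finrank_eq]; exact hker
  let bk := finBasis K W₀
  let u : ι → K := (bk ⟨0, by omega⟩ : W₀)
  let w : ι → K := (bk ⟨1, by omega⟩ : W₀)
  have hmemC : ∀ z : W₀, (z : ι → K) ∈ C := fun z => by
    obtain ⟨c, -, hc⟩ := z.2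
    rw [← hc]; exact c.2
  have hperp : ∀ (z : W₀) i, polar (⇑Q₀) (b i) (z : ι → K) = 0 := fun z i => by
    obtain ⟨c, hc0, hc⟩ := z.2
    rw [← hc]
    exact congrFun (LinearMap.mem_ker.mp hc0) i
  have hli : LinearIndependent K (Fin.cons u (Fin.cons w b) : Fin (m - 1 + 1 + 1) → ι → K) := by
    rw [linearIndependent_finCons, linearIndependent_finCons]
    refine ⟨⟨hb, fun h => ?_⟩, fun h => ?_⟩
    · exact bk.ne_zero _ (Subtype.ext (Submodule.disjoint_def.mp hC.disjoint _ h (hmemC _)))
    · rw [Fin.range_cons] at h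
      obtain ⟨s, z, hz, hsz⟩ := Submodule.mem_span_insert.mp h
      have hz0 : z = 0 := Submodule.disjoint_def.mp hC.disjoint _ hz (by
        rw [show z = u - s • w by rw [hsz]; abel]
        exact C.sub_mem (hmemC _) (C.smul_mem _ (hmemC _)))
      rw [hz0, add_zero] at hsz
      have hrel : bk ⟨0, by omega⟩ = s • bk ⟨1, by omega⟩ := Subtype.ext hsz
      have := congrArg (fun z => bk.repr z ⟨0, by omega⟩) hrel
      simp at this
  obtain ⟨y, hy0, hyb, hyli⟩ : ∃ y : ι → F, Q y = 0 ∧ (∀ i, polar Q y (j (b i)) = 0) ∧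
      LinearIndependent F (Fin.cons y fun i => j (b i) : Fin (m - 1 + 1) → ι → F) := by
    have hjli := linearIndependent_rational P hli
    have hju : ∀ z : W₀, ∀ i, polar Q (j (z : ι → K)) (j (b i)) = 0 := fun z i => by
      have := hpol (b i) (z : ι → K)
      rw [hperp z i] at this
      rw [QuadraticMap.polar_comm]
      exact (mul_eq_zero.mp this.symm).resolve_left hζ
    have heq : (fun i => act P fun a => ((Fin.cons u (Fin.cons w b) : Fin (m - 1 + 1 + 1) → ι → K) i a : F)) =
        (Fin.cons (j u) (Fin.cons (j w) fun i => j (b i)) : Fin (m - 1 + 1 + 1) → ι → F) := by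
      funext i
      refine Fin.cases ?_ (fun i => ?_) i
      · rfl
      · refine Fin.cases ?_ (fun i => ?_) i <;> rfl
    rw [heq, linearIndependent_finCons] at hjli
    obtain ⟨hwli, hu⟩ := hjli
    rw [Fin.range_cons] at hu
    have hwli' := linearIndependent_finCons.mp hwli
    by_cases hu0 : Q₀ u = 0
    · exact ⟨j u, hQzero u hu0, hju _, linearIndependent_finCons.mpr ⟨hwli'.1, fun h =>
        hu (Submodule.span_mono (Set.subset_insert _ _) h)⟩⟩
    obtain ⟨x, hx⟩ := exists_root_quadratic hcard hu0 (polar Q₀ u w) (Q₀ w)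
    refine ⟨x • j u + j w, ?_, fun i => ?_, linearIndependent_finCons.mpr ⟨hwli'.1, fun h => ?_⟩⟩
    · rw [hQ0, hpol, hQ0] at hx
      refine (mul_eq_zero.mp ?_).resolve_left hζ
      rw [QuadraticMap.map_add ⇑Q, QuadraticMap.map_smul, polar_smul_left, smul_eq_mul, smul_eq_mul]
      linear_combination hx
    · rw [polar_add_left, polar_smul_left, hju, hju, smul_zero, add_zero]
    · by_cases hx0 : x = 0
      · rw [hx0, zero_smul, zero_add] at h; exact hwli'.2 h
      refine hu ?_
      have h1 : x • j u ∈ Submodule.span F (insert (j w) (Set.range fun i => j (b i))) := by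
        have := Submodule.sub_mem _ (Submodule.span_mono (Set.subset_insert (j w) _) h)
          (Submodule.subset_span (Set.mem_insert (j w) (Set.range fun i => j (b i))))
        simpa using this
      have h2 := Submodule.smul_mem _ x⁻¹ h1
      rwa [smul_smul, inv_mul_cancel₀ hx0, one_smul] at h2
  let e : Fin (m - 1 + 1) → ι → F := Fin.cons y fun i => j (b i)
  have heQ : ∀ i, Q (e i) = 0 := fun i => Fin.cases hy0 (fun i => hQzero _ (hb0 i)) i
  have hee : ∀ i l, polar Q (e i) (e l) = 0 := by
    have hbb' : ∀ i l, polar Q (j (b i)) (j (b l)) = 0 := fun i l => by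
      have := hpol (b i) (b l)
      rw [hbb] at this
      exact (mul_eq_zero.mp this.symm).resolve_left hζ
    intro i l
    refine Fin.cases ?_ (fun i => ?_) i <;> refine Fin.cases ?_ (fun l => ?_) l <;>
      simp only [e, Fin.cons_zero, Fin.cons_succ]
    · rw [polar_self_mul, hy0, mul_zero]
    · exact hyb l
    · rw [QuadraticMap.polar_comm]; exact hyb i
    · exact hbb' i l
  refine ⟨Submodule.span F (Set.range e), le_top, fun x hx => ?_, ?_⟩
  · have key : ∀ z ∈ Submodule.span F (Set.range e), Q z = 0 ∧ ∀ i, polar Q z (e i) = 0 := by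
      intro z hz
      induction hz using Submodule.span_induction with
      | mem z hz => obtain ⟨i, rfl⟩ := hz; exact ⟨heQ i, hee i⟩
      | zero => simp
      | add a c ha hc iha ihc =>
        refine ⟨?_, fun i => by rw [polar_add_left, iha.2, ihc.2, add_zero]⟩
        rw [QuadraticMap.map_add ⇑Q, iha.1, ihc.1, zero_add, zero_add]
        have hle : Submodule.span F (Set.range e) ≤ LinearMap.ker (polarBilin Q a) :=
          Submodule.span_le.mpr (by rintro _ ⟨i, rfl⟩; exact iha.2 i)
        exact hle hc
      | smul s a ha iha =>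
        exact ⟨by rw [QuadraticMap.map_smul, iha.1, smul_zero], fun i => by rw [polar_smul_left, iha.2, smul_zero]⟩
    exact (key x hx).1
  · rw [finrank_span_eq_card hyli, Fintype.card_fin, finrank_top, finrank_fintype_fun_eq_card, hn]
    omega

end CfsgLib.SmallDim.OrthEven
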