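import Cfsg.Agent.Lib.SmallDim.OrthEvenTensor
import Cfsg.Agent.Lib.SmallDim.OrthEvenRational
import Cfsg.Agent.Lib.SmallDim.GenericCases
import Cfsg.Agent.Lib.SmallDim.LinearNotLE

/-!
Irreducible subgroups of `Ω` in small even dimension: the normal-subgroup analysis.
-/

set_option autoImplicit false
set_option linter.style.haveILetI false
set_option linter.unusedSectionVars false

namespace CfsgLib.SmallDim.OrthEven

open scoped MatrixGroups Matrix commutatorElement
open Cfsg.Geo QuadraticMap CfsgLib.ClassicalForms Module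

variable {ι : Type} [Fintype ι] [DecidableEq ι] {F : Type*} [Field F] [Fintype F] {Q : QuadraticForm F (ι → F)}

/-- Even dimensions in which the only prime fields and tensor products to consider have a factor two. -/
structure SmallEven (Q : QuadraticForm F (ι → F)) : Prop where
  nondeg : Nondeg Q
  five_le : 5 ≤ Fintype.card ι
  bad : IsPlusTypeOn (⇑Q) ⊤ → Odd (Fintype.card ι / 2)
  odd_prime : ∀ r : ℕ, r.Prime → Odd r → r ∣ Fintype.card ι → Fintype.card ι = 2 * r
  factor : ∀ a b : ℕ, a * b = Fintype.card ι → 2 ≤ a → 2 ≤ b → a = 2 ∨ b = 2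

variable {H N : Subgroup (GL ι F)}

/-- Clifford's theorem for a normal subgroup. -/
theorem normal_cases (hS : SmallEven Q) (hH : H ≤ omegaGL (⇑Q)) (hirr : ActsIrreducibly (matrixSet H))
    (hN : NormalIn N H) (hNs : ¬ N ≤ scalars ι F) :
    ActsAbsolutelyIrreducibly (matrixSet N) ∨ OrthDecomp Q H ∨ QuadField Q H := by
  have hiso := isometric_of_le_omega hH
  have : Nonempty ι := Fintype.card_pos_iff.mp (by have := hS.five_le; omega)
  rcases form_clifford (sesqui_polar Q) (reflexive_polar Q) (isNondegenerateForm_polar hS.nondeg) hirr hN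
    hiso.fixesForm hNs with h | ⟨t, m, D, hD, hle⟩ | ⟨t, m, D, τ, hD, hle, h1, h2, h3, h4⟩ |
      ⟨r, K, hr, hK, hadj, hle⟩ | ⟨n₁, n₂, e, P, hT⟩
  · exact Or.inl h
  · exact Or.inr (Or.inl (orthDecomp_of_nondegenerate hiso hirr hD hle))
  · exact Or.inr (Or.inl (paired_cases hS.nondeg hS.five_le hH hirr hD hle h1 h2 h3 h4 hS.bad))
  · rcases hr.eq_two_or_odd' with rfl | hodd
    · exact Or.inr (Or.inr ⟨K, hK, hadj, hle⟩)
    have hsa : IsSelfAdjointFor (polar (⇑Q)) K := by
      by_contra hns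
      exact Nat.not_even_iff_odd.mpr hodd
        (even_iff_two_dvd.mpr (two_dvd_of_not_selfAdjoint (isNondegenerateForm_polar hS.nondeg) hK hadj hns))
    obtain ⟨A, hA, hAs, hAc⟩ := exists_abelian_normal hS.nondeg hsa hK
      (hS.odd_prime r hr hodd (dvd_card_of_isFieldSubalgebra hK)) hr.pos hiso hirr hle
    exact Or.inr (abelian_cases hS.nondeg hS.five_le hH hirr hA hAs hAc hS.bad)
  · have hcard : n₁ * n₂ = Fintype.card ι := by
      rw [Fintype.card_congr e, Fintype.card_prod, Fintype.card_fin, Fintype.card_fin]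
    exact Or.inr (tensor_cases hS.nondeg hS.five_le hH hirr hN hNs hT
      (hS.factor _ _ hcard hT.two_le_left hT.two_le_right) hS.bad)

/-- An absolutely irreducible group of isometries realisable over no proper subfield fixes no unitary form. -/
theorem no_unitary (hQ : Nondeg Q) (hn : 0 < Fintype.card ι) {P : Subgroup (GL ι F)} (hiso : Isometric Q P)
    (habs : ActsAbsolutelyIrreducibly (matrixSet P))
    (hsub : ∀ K : Subfield F, K ≠ ⊤ → ¬ RealisableOver K (matrixSet P)) :
    ¬ ∃ (σ : F ≃+* F) (f : (ι → F) → (ι → F) → F), IsUnitaryForm σ f ∧ FixesForm (matrixSet P) f := by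
  classical
  rintro ⟨σ, f, hf, hfix⟩
  haveI : Nonempty ι := Fintype.card_pos_iff.mp hn
  refine hsub ((σ : F →+* F).eqLocusField (RingHom.id F))
    (fun h => hf.ne_refl (RingEquiv.ext fun x => ?_)) (realisableOver_of_trace habs fun g hg => ?_)
  · have hx : x ∈ (σ : F →+* F).eqLocusField (RingHom.id F) := h ▸ Subfield.mem_top x
    exact hx
  set X : Matrix ι ι F := (g : Matrix ι ι F)
  set G := gramMatrix f
  set M := gramMatrix (polar (⇑Q))
  have hG : IsUnit G.det := (IsSesqui.of_unitary hf).isUnit_det_gram σ.surjective hf.nondegenerate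
  have hM : IsUnit M.det :=
    (sesqui_polar Q).isUnit_det_gram Function.surjective_id (isNondegenerateForm_polar hQ)
  have h1 : Xᵀ * M * X = M := by
    have := (sesqui_polar Q).gram_transform X
    rw [show (fun u v => polar Q (X *ᵥ u) (X *ᵥ v)) = polar (⇑Q) from funext₂ fun u v => hiso.polar hg u v,
      show X.map (RingHom.id F) = X from Matrix.ext fun _ _ => rfl] at this
    exact this.symm
  have h2 : Xᵀ * G * X.map σ = G := by
    have := (IsSesqui.of_unitary hf).gram_transform X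
    rw [show (fun u v => f (X *ᵥ u) (X *ᵥ v)) = f from funext₂ (hfix _ (coe_mem_matrixSet hg))] at this
    exact this.symm
  have hXt : IsUnit Xᵀ.det := by
    rw [Matrix.det_transpose]; exact (Matrix.isUnit_iff_isUnit_det _).mp g.isUnit
  have e1 : G * X.map σ = (Xᵀ)⁻¹ * G := by
    conv_rhs => rw [← h2]
    rw [Matrix.mul_assoc Xᵀ, ← Matrix.mul_assoc, Matrix.nonsing_inv_mul _ hXt, Matrix.one_mul]
  have e2 : M * X = (Xᵀ)⁻¹ * M := by
    conv_rhs => rw [← h1]
    rw [Matrix.mul_assoc Xᵀ, ← Matrix.mul_assoc, Matrix.nonsing_inv_mul _ hXt, Matrix.one_mul]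
  show σ X.trace = X.trace
  rw [show σ X.trace = (X.map σ).trace by simp [Matrix.trace, map_sum]]
  have e3 : X.map σ = G⁻¹ * (Xᵀ)⁻¹ * G := by
    rw [Matrix.mul_assoc, ← e1, ← Matrix.mul_assoc, Matrix.nonsing_inv_mul _ hG, Matrix.one_mul]
  have e4 : (Xᵀ)⁻¹ = M * X * M⁻¹ := by
    rw [e2, Matrix.mul_assoc, Matrix.mul_nonsing_inv _ hM, Matrix.mul_one]
  rw [e3, Matrix.trace_mul_comm, ← Matrix.mul_assoc, Matrix.mul_nonsing_inv _ hG, Matrix.one_mul, e4,
    Matrix.trace_mul_comm, ← Matrix.mul_assoc, Matrix.nonsing_inv_mul _ hM, Matrix.one_mul]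

/-- A subfield group of prime index containing `H`, whose structure carries a multiple of the form. -/
def SubfieldCase (Q : QuadraticForm F (ι → F)) (H : Subgroup (GL ι F)) : Prop :=
  ∃ (K : Subfield F) (r : ℕ) (P : GL ι F) (ζ : F), r.Prime ∧ Fintype.card F = Nat.card K ^ r ∧ K ≠ ⊤ ∧ ζ ≠ 0 ∧
    IsQuadFormRationalStructure (fun v => ζ * Q v) K P ∧ H ≤ subfieldSubgroup K P

lemma ne_top_of_card {K : Subfield F} {r : ℕ} (hr : r.Prime) (h : Fintype.card F = Nat.card K ^ r) : K ≠ ⊤ := by
  rintro rfl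
  rw [show Nat.card (⊤ : Subfield F) = Nat.card F from
    Nat.card_congr (Equiv.subtypeUnivEquiv fun x => Subfield.mem_top x), Nat.card_eq_fintype_card] at h
  exact (lt_self_pow₀ Fintype.one_lt_card hr.one_lt).ne h

/-- The cases for an irreducible subgroup. -/
theorem irreducible_cases (hS : SmallEven Q) (hH : H ≤ omegaGL (⇑Q)) (hirr : ActsIrreducibly (matrixSet H)) :
    OrthDecomp Q H ∨ QuadField Q H ∨ SubfieldCase Q H ∨ InOrthogonalResidualClass H ∨
    (∃ (R : Subgroup (GL ι F)) (r m : ℕ), SymplGen H R r m) ∨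
    ∃ (N : Subgroup (GL ι F)) (k : ℕ) (L : Fin k → Subgroup (GL ι F)),
      NormalIn N H ∧ ActsAbsolutelyIrreducibly (matrixSet N) ∧ ⁅N, N⁆ = N ∧ InducedData H N k L := by
  classical
  have h5 := hS.five_le
  have : Nonempty ι := Fintype.card_pos_iff.mp (by omega)
  have hiso := isometric_of_le_omega hH
  by_cases habs : ∀ N, NormalIn N H → ¬ N ≤ scalars ι F → ActsAbsolutelyIrreducibly (matrixSet N)
  swap
  · push Not at habs
    obtain ⟨N, hN, hNs, hNa⟩ := habs
    rcases (normal_cases hS hH hirr hN hNs).resolve_left hNa with h | h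
    · exact Or.inl h
    · exact Or.inr (Or.inl h)
  by_cases hsub : ∀ N, NormalIn N H → ¬ N ≤ scalars ι F → ∀ K : Subfield F, K ≠ ⊤ →
      ¬ RealisableOver K (matrixSet N)
  swap
  · push Not at hsub
    obtain ⟨N, hN, hNs, K, hK, B, hB⟩ := hsub
    obtain ⟨K₁, r, hr, hle, hcardK⟩ := exists_prime_index_overfield hK
    obtain ⟨P, ζ, hζ, hrat, hle'⟩ := subfield_case hS.nondeg (by omega) hN hiso (habs N hN hNs) (K := K₁)
      ⟨B, fun s hs i j => hle (hB s hs i j)⟩
    exact Or.inr (Or.inr (Or.inl ⟨K₁, r, P, ζ, hr, hcardK, ne_top_of_card hr hcardK, hζ, hrat, hle'⟩))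
  have hHs : ¬ H ≤ scalars ι F := not_le_scalars_of_irreducible (by omega) hirr
  rcases generic_cases (by omega) hHs habs hsub with h | h | ⟨P, hP, hcore⟩
  · exact Or.inr (Or.inr (Or.inr (Or.inr (Or.inl h))))
  · exact Or.inr (Or.inr (Or.inr (Or.inr (Or.inr h))))
  · exact Or.inr (Or.inr (Or.inr (Or.inl ⟨P, hcore, no_unitary hS.nondeg (by omega) (hiso.mono hP.le)
      hcore.absIrred (hsub P hP (not_le_scalars_of_irreducible (by omega) hcore.absIrred.1))⟩)))

/-- A group with a symplectic type or tensor induced normal subgroup has dimension a proper power. -/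
lemma exists_dim_eq_pow {R : Subgroup (GL ι F)} {r m : ℕ} (h : SymplGen H R r m) :
    ∃ a b, Fintype.card ι = a ^ b ∧ a.Prime :=
  ⟨r, m, h.dim, h.sympType.prime⟩

lemma exists_dim_eq_pow' [Nonempty ι] {k : ℕ} {L : Fin k → Subgroup (GL ι F)}
    (habs : ActsAbsolutelyIrreducibly (matrixSet N)) (h : InducedData H N k L) :
    ∃ m, Fintype.card ι = m ^ k := by
  obtain ⟨m, e, P, -, -⟩ := le_tensorWreathSubgroup (H := H) h.two_le h.comm (h.iSup_eq.symm ▸ habs) h.nonscalar
    h.perm (fun i => (h.trans i).imp fun x hx => hx.2 _ rfl)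
  exact ⟨m, by rw [Fintype.card_congr e, Fintype.card_fun, Fintype.card_fin, Fintype.card_fin]⟩

/-- A perfect group normalising a quadratic field centralises it, so is not absolutely irreducible. -/
theorem not_quadField_of_perfect [Nonempty ι] (habs : ActsAbsolutelyIrreducibly (matrixSet N))
    (hperf : ⁅N, N⁆ = N) : ¬ QuadField Q N := by
  classical
  rintro ⟨K, hK, -, hle⟩
  have hbot : ∀ x : Matrix ι ι F, x ∈ (⊥ : Subalgebra F (Matrix ι ι F)) ↔ ∃ c : F, x = c • 1 := fun x => by
    rw [Algebra.mem_bot, Set.mem_range]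
    exact ⟨fun ⟨c, hc⟩ => ⟨c, by rw [← hc, Algebra.algebraMap_eq_smul_one]⟩,
      fun ⟨c, hc⟩ => ⟨c, by rw [hc, Algebra.algebraMap_eq_smul_one]⟩⟩
  obtain ⟨w, hw, hws⟩ : ∃ w ∈ K, ∀ c : F, w ≠ c • 1 := by
    by_contra hall
    push Not at hall
    have hKbot : K = ⊥ := le_antisymm (fun x hx => (hbot x).2 (hall x hx)) bot_le
    have := hK.finrank_eq
    rw [hKbot, Subalgebra.finrank_bot] at this
    omega
  -- `K` has basis `1, w`
  have hspan : ∀ x ∈ K, ∃ a b : F, x = a • 1 + b • w := by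
    intro x hx
    have hli : LinearIndependent F ![(⟨1, K.one_mem⟩ : K), ⟨w, hw⟩] := by
      rw [LinearIndependent.pair_iff]
      intro s t hst
      have h' : s • (1 : Matrix ι ι F) + t • w = 0 := congrArg Subtype.val hst
      have ht : t = 0 := by
        by_contra ht
        refine hws (-s / t) ?_
        have h2 : t • w = -(s • (1 : Matrix ι ι F)) := eq_neg_of_add_eq_zero_right h'
        have h3 := congrArg (fun M => t⁻¹ • M) h2
        rw [smul_smul, inv_mul_cancel₀ ht, one_smul] at h3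
        rw [h3, smul_neg, smul_smul, ← neg_smul]
        congr 1
        ring
      refine ⟨?_, ht⟩
      rw [ht, zero_smul, add_zero] at h'
      exact (smul_eq_zero.mp h').resolve_right one_ne_zero
    have hsp := hli.span_eq_top_of_card_eq_finrank' (by
      rw [Fintype.card_fin]; exact hK.finrank_eq.symm)
    have hx' : (⟨x, hx⟩ : K) ∈ Submodule.span F (Set.range ![(⟨1, K.one_mem⟩ : K), ⟨w, hw⟩]) :=
      hsp ▸ Submodule.mem_top
    rw [show Set.range ![(⟨1, K.one_mem⟩ : K), ⟨w, hw⟩] = {⟨1, K.one_mem⟩, ⟨w, hw⟩} by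
      simp [Set.pair_comm]] at hx'
    obtain ⟨a, b, hab⟩ := Submodule.mem_span_pair.mp hx'
    exact ⟨a, b, (congrArg Subtype.val hab).symm⟩
  obtain ⟨d, t, hww⟩ := hspan (w * w) (K.mul_mem hw hw)
  have hconj : ∀ g ∈ N, conjAlg g w = w ∨ conjAlg g w = t • 1 - w := by
    intro g hg
    have hu : conjAlg g w ∈ K := conj_mem_of_normalizer (hle hg) hw
    have huu : conjAlg g w * conjAlg g w = d • 1 + t • conjAlg g w := by
      rw [← map_mul, hww, map_add, map_smul, map_smul, map_one]
    have hprod : (conjAlg g w - w) * (conjAlg g w - (t • 1 - w)) = 0 := by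
      have hc := hK.comm _ hw _ hu
      rw [sub_mul, mul_sub, mul_sub, huu, mul_sub, mul_sub, hww, hc]
      simp only [mul_smul_comm, mul_one]
      abel
    by_cases h0 : conjAlg g w - w = 0
    · exact Or.inl (sub_eq_zero.mp h0)
    · obtain ⟨y, -, hy⟩ := hK.inv _ (K.sub_mem hu hw) h0
      right
      have h1 := congrArg (fun M => y * M) hprod
      simp only [mul_zero] at h1
      rw [← mul_assoc, mul_eq_one_comm.mp hy, one_mul] at h1
      exact sub_eq_zero.mp h1
  have hfix : ∀ g ∈ N, conjAlg g (t • 1 - w) = t • 1 - conjAlg g w := fun g _ => by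
    rw [map_sub, map_smul, map_one]
  have hcomm : ∀ g ∈ N, ∀ h ∈ N, conjAlg g (conjAlg h w) = conjAlg h (conjAlg g w) := by
    intro g hg h hh
    rcases hconj g hg with e1 | e1 <;> rcases hconj h hh with e2 | e2 <;>
      simp only [e1, e2, hfix g hg, hfix h hh]
  have hcent : ∀ x ∈ N, conjAlg x w = w := by
    intro x hx
    rw [← hperf] at hx
    let S : Subgroup (GL ι F) :=
      { carrier := {x | conjAlg x w = w}
        one_mem' := by simp [conjAlg_apply]
        mul_mem' := fun {a b} ha hb => by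
          show conjAlg (a * b) w = w
          rw [conjAlg_mul, show conjAlg b w = w from hb, show conjAlg a w = w from ha]
        inv_mem' := fun {a} ha => by
          show conjAlg a⁻¹ w = w
          conv_lhs => rw [← show conjAlg a w = w from ha]
          rw [conjAlg_inv_self] }
    refine (Subgroup.commutator_le.mpr fun g hg h hh => ?_ : ⁅N, N⁆ ≤ S) hx
    show conjAlg ⁅g, h⁆ w = w
    rw [commutatorElement_def, conjAlg_mul, conjAlg_mul, conjAlg_mul]
    have h1 := hcomm g⁻¹ (N.inv_mem hg) h⁻¹ (N.inv_mem hh)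
    rw [h1, ← conjAlg_mul h h⁻¹, mul_inv_cancel]
    rw [show conjAlg (1 : GL ι F) (conjAlg g⁻¹ w) = conjAlg g⁻¹ w by simp [conjAlg_apply],
      ← conjAlg_mul, mul_inv_cancel]
    simp [conjAlg_apply]
  obtain ⟨c, hc⟩ := habs.2 w (by
    rintro _ ⟨x, hx, rfl⟩
    have h := hcent x hx
    rw [conjAlg_apply] at h
    calc w * (x : Matrix ι ι F) = ((x : Matrix ι ι F) * w * ((x⁻¹ : GL ι F) : Matrix ι ι F)) * x := by rw [h]
      _ = (x : Matrix ι ι F) * w := Units.inv_mul_cancel_right _ x)
  exact hws c hc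

end CfsgLib.SmallDim.OrthEven
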