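import Cfsg.Agent.Lib.SmallDim.OrthEvenDecomp

/-!
Isometries centralising a self-adjoint field `K` over which the space is a plane: those which are not
involutions commute, so a group normalising `K` has an abelian normal subgroup which is not scalar.
-/

set_option autoImplicit false
set_option linter.style.haveILetI false
set_option linter.unusedSectionVars false

namespace CfsgLib.SmallDim.OrthEven

open scoped MatrixGroups Matrix
open Cfsg.Geo QuadraticMap CfsgLib.ClassicalForms Module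

variable {ι : Type} [Fintype ι] [DecidableEq ι] {F : Type*} [Field F] [Finite F] {Q : QuadraticForm F (ι → F)}
variable {d : ℕ} {K : Subalgebra F (Matrix ι ι F)}

lemma field_act_eq_zero {ι : Type} [Fintype ι] [DecidableEq ι] {F : Type*} [Field F] {d : ℕ}
    {K : Subalgebra F (Matrix ι ι F)} (hK : IsFieldSubalgebra d K) {k : Matrix ι ι F} (hk : k ∈ K)
    {v : ι → F} (hv : v ≠ 0) (h : k *ᵥ v = 0) : k = 0 := by
  by_contra h0
  obtain ⟨y, hy, hky⟩ := hK.inv k hk h0
  apply hv
  rw [← Matrix.one_mulVec v, ← hky, hK.comm k hk y hy, ← Matrix.mulVec_mulVec, h, Matrix.mulVec_zero]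

/-- The cyclic `K`-subspace of a vector. -/
def fieldSpan (K : Subalgebra F (Matrix ι ι F)) (x : ι → F) : Submodule F (ι → F) where
  carrier := {v | ∃ k ∈ K, k *ᵥ x = v}
  add_mem' := by
    rintro a b ⟨k, hk, rfl⟩ ⟨l, hl, rfl⟩
    exact ⟨k + l, K.add_mem hk hl, Matrix.add_mulVec _ _ _⟩
  zero_mem' := ⟨0, K.zero_mem, Matrix.zero_mulVec _⟩
  smul_mem' := by
    rintro c a ⟨k, hk, rfl⟩
    exact ⟨c • k, K.smul_mem hk c, Matrix.smul_mulVec _ _ _⟩

lemma finrank_fieldSpan (hK : IsFieldSubalgebra d K) {x : ι → F} (hx : x ≠ 0) :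
    finrank F (fieldSpan K x) = d := by
  let L : K →ₗ[F] fieldSpan K x :=
    { toFun := fun k => ⟨(k : Matrix ι ι F) *ᵥ x, k, k.2, rfl⟩
      map_add' := fun a b => Subtype.ext (by simp [Matrix.add_mulVec])
      map_smul' := fun a b => Subtype.ext (by simp [Matrix.smul_mulVec]) }
  have hLb : Function.Bijective L := by
    refine ⟨fun a b hab => Subtype.ext (sub_eq_zero.mp (field_act_eq_zero hK (K.sub_mem a.2 b.2) hx ?_)), ?_⟩
    · rw [Matrix.sub_mulVec, sub_eq_zero]
      exact congrArg Subtype.val hab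
    · rintro ⟨v, k, hk, hkv⟩
      exact ⟨⟨k, hk⟩, Subtype.ext hkv⟩
  rw [← (LinearEquiv.ofBijective L hLb).finrank_eq]
  exact hK.finrank_eq

lemma mem_fieldSpan_self (x : ι → F) : x ∈ fieldSpan K x := ⟨1, K.one_mem, Matrix.one_mulVec x⟩

/-- Two vectors independent over `K` span the plane. -/
lemma exists_plane_coords (hK : IsFieldSubalgebra d K) (hdim : Fintype.card ι = 2 * d) {x y : ι → F}
    (hx : x ≠ 0) (hy : y ∉ fieldSpan K x) (v : ι → F) : ∃ a ∈ K, ∃ b ∈ K, v = a *ᵥ x + b *ᵥ y := by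
  have hy0 : y ≠ 0 := fun h => hy (h ▸ Submodule.zero_mem _)
  have hinf : fieldSpan K x ⊓ fieldSpan K y = ⊥ := by
    rw [Submodule.eq_bot_iff]
    rintro v ⟨⟨a, ha, rfl⟩, ⟨b, hb, hba⟩⟩
    by_contra hne
    have hb0 : b ≠ 0 := fun h => hne (by rw [← hba, h, Matrix.zero_mulVec])
    obtain ⟨c, hc, hbc⟩ := hK.inv b hb hb0
    refine hy ⟨c * a, K.mul_mem hc ha, ?_⟩
    rw [← Matrix.mulVec_mulVec, ← hba, Matrix.mulVec_mulVec, hK.comm c hc b hb, hbc, Matrix.one_mulVec]
  have h1 := Submodule.finrank_sup_add_finrank_inf_eq (fieldSpan K x) (fieldSpan K y)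
  rw [hinf, finrank_bot, finrank_fieldSpan hK hx, finrank_fieldSpan hK hy0] at h1
  have htop : fieldSpan K x ⊔ fieldSpan K y = ⊤ := by
    refine Submodule.eq_top_of_finrank_eq ?_
    rw [finrank_fintype_fun_eq_card, hdim]
    omega
  obtain ⟨_, ⟨a, ha, rfl⟩, _, ⟨b, hb, rfl⟩, h⟩ :=
    Submodule.mem_sup.mp (htop.symm ▸ Submodule.mem_top : v ∈ fieldSpan K x ⊔ fieldSpan K y)
  exact ⟨a, ha, b, hb, h.symm⟩

/-- A `K`-linear map preserving every `K`-line is a member of `K`. -/
lemma mem_of_preserves_lines (hK : IsFieldSubalgebra d K) (hdim : Fintype.card ι = 2 * d) (hd : 0 < d)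
    {M : Matrix ι ι F} (hM : ∀ k ∈ K, k * M = M * k) (hline : ∀ x, M *ᵥ x ∈ fieldSpan K x) : M ∈ K := by
  obtain ⟨i⟩ : Nonempty ι := Fintype.card_pos_iff.mp (by omega)
  set x : ι → F := Pi.single i 1
  have hx : x ≠ 0 := by simp [x]
  obtain ⟨y, hy⟩ : ∃ y, y ∉ fieldSpan K x := by
    by_contra hall
    push Not at hall
    have h := finrank_fieldSpan hK hx
    rw [Submodule.eq_top_iff'.mpr hall, finrank_top, finrank_fintype_fun_eq_card] at h
    omega
  obtain ⟨a, ha, hax⟩ := hline x
  obtain ⟨b, hb, hby⟩ := hline y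
  obtain ⟨c, hc, hcxy⟩ := hline (x + y)
  rw [Matrix.mulVec_add, Matrix.mulVec_add, ← hax, ← hby] at hcxy
  have hcx : (c - a) *ᵥ x = (b - c) *ᵥ y := by
    rw [Matrix.sub_mulVec, Matrix.sub_mulVec]
    linear_combination (norm := module) hcxy
  have hbc : b = c := by
    by_contra hne
    obtain ⟨e, he, hee⟩ := hK.inv _ (K.sub_mem hb hc) (sub_ne_zero.mpr hne)
    refine hy ⟨e * (c - a), K.mul_mem he (K.sub_mem hc ha), ?_⟩
    rw [← Matrix.mulVec_mulVec, hcx, Matrix.mulVec_mulVec, hK.comm e he _ (K.sub_mem hb hc), hee,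
      Matrix.one_mulVec]
  have hca : c = a := by
    rw [hbc, sub_self, Matrix.zero_mulVec] at hcx
    exact sub_eq_zero.mp (field_act_eq_zero hK (K.sub_mem hc ha) hx hcx)
  have hMa : M = a := by
    refine Matrix.ext_of_mulVec_single fun j => ?_
    obtain ⟨s, hs, t, ht, h⟩ := exists_plane_coords hK hdim hx hy (Pi.single j 1)
    rw [h]
    simp only [Matrix.mulVec_add, Matrix.mulVec_mulVec, ← hM s hs, ← hM t ht, hK.comm a ha s hs, hK.comm a ha t ht]
    simp only [← Matrix.mulVec_mulVec, ← hax, ← hby, hbc, hca]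
  exact hMa ▸ ha

/-- A normal subgroup, not scalar, whose non-involutions commute pairwise. -/
theorem exists_abelian_of_commute {ι : Type} [Fintype ι] [DecidableEq ι] {F : Type*} [Field F]
    {H N : Subgroup (GL ι F)} (hN : NormalIn N H) (hNs : ¬ N ≤ scalars ι F)
    (hS : ∀ u ∈ N, ∀ v ∈ N, u * u ≠ 1 → v * v ≠ 1 → u * v = v * u) :
    ∃ A : Subgroup (GL ι F), NormalIn A H ∧ ¬ A ≤ scalars ι F ∧ ∀ a ∈ A, ∀ b ∈ A, a * b = b * a := by
  classical
  by_cases hNc : ∀ a ∈ N, ∀ b ∈ N, a * b = b * a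
  · exact ⟨N, hN, hNs, hNc⟩
  push Not at hNc
  obtain ⟨a, ha, b, hb, hab⟩ := hNc
  let S : Set (GL ι F) := {g | g ∈ N ∧ g * g ≠ 1}
  refine ⟨Subgroup.closure S, ⟨(Subgroup.closure_le _).mpr fun g hg => hN.le hg.1, fun h hh x hx => ?_⟩,
    fun hsc => hab ?_, ?_⟩
  · induction hx using Subgroup.closure_induction with
    | mem x hx =>
      refine Subgroup.subset_closure ⟨hN.conj h hh x hx.1, fun e => hx.2 ?_⟩
      rw [show h * x * h⁻¹ * (h * x * h⁻¹) = h * (x * x) * h⁻¹ by group] at e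
      rw [show x * x = h⁻¹ * (h * (x * x) * h⁻¹) * h by group, e]
      group
    | one => simp
    | mul x y _ _ hx hy =>
      rw [show h * (x * y) * h⁻¹ = h * x * h⁻¹ * (h * y * h⁻¹) by group]
      exact Subgroup.mul_mem _ hx hy
    | inv x _ hx =>
      rw [show h * x⁻¹ * h⁻¹ = (h * x * h⁻¹)⁻¹ by group]
      exact Subgroup.inv_mem _ hx
  · have hinv : ∀ g ∈ N, g ∉ scalars ι F → g * g = 1 := fun g hg hgs => by
      by_contra hne
      exact hgs (hsc (Subgroup.subset_closure ⟨hg, hne⟩))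
    by_cases hab' : a * b ∈ scalars ι F
    · have : (a * b) * a = a * (a * b) := scalars_commute hab' a
      rw [mul_assoc] at this
      exact (mul_left_cancel this).symm
    have ha2 := hinv a ha fun h => hab (scalars_commute h b)
    have hb2 := hinv b hb fun h => hab (scalars_commute h a).symm
    have hc2 := hinv _ (N.mul_mem ha hb) hab'
    calc a * b = (a * b)⁻¹ := eq_inv_of_mul_eq_one_left hc2
      _ = b * a := by rw [mul_inv_rev, inv_eq_of_mul_eq_one_left hb2, inv_eq_of_mul_eq_one_left ha2]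
  · intro x hx y hy
    have hcomm : ∀ u ∈ S, ∀ v ∈ S, u * v = v * u := fun u hu v hv => hS u hu.1 v hv.1 hu.2 hv.2
    have h1 : ∀ u ∈ S, Subgroup.closure S ≤ Subgroup.centralizer {u} := fun u hu =>
      (Subgroup.closure_le _).mpr fun v hv => Subgroup.mem_centralizer_singleton_iff.mpr (hcomm v hv u hu)
    have h2 : Subgroup.closure S ≤ Subgroup.centralizer {y} := (Subgroup.closure_le _).mpr fun u hu =>
      Subgroup.mem_centralizer_singleton_iff.mpr (Subgroup.mem_centralizer_singleton_iff.mp (h1 u hu hy)).symm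
    exact Subgroup.mem_centralizer_singleton_iff.mp (h2 hx)

variable (hQ : Nondeg Q) (hsa : IsSelfAdjointFor (polar (⇑Q)) K)
include hQ hsa

lemma selfAdjoint_move (hK : IsFieldSubalgebra d K) {k l : Matrix ι ι F} (hk : k ∈ K) (hl : l ∈ K)
    (x : ι → F) : polar Q (l *ᵥ x) (k *ᵥ x) = polar Q ((k * l) *ᵥ x) x := by
  rw [← hsa k hk, Matrix.mulVec_mulVec]

/-- In characteristic two the squaring map of `K` is bijective. -/
lemma exists_sqrt_of_two (hK : IsFieldSubalgebra d K) (h2 : (2 : F) = 0) {k : Matrix ι ι F} (hk : k ∈ K) :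
    (∃ l ∈ K, l * l = k) ∧ ∀ a ∈ K, ∀ b ∈ K, a * a = b * b → a = b := by
  have hinj : ∀ a ∈ K, ∀ b ∈ K, a * a = b * b → a = b := by
    intro a ha b hb hab
    by_contra hne
    obtain ⟨z, -, hz⟩ := hK.inv _ (K.sub_mem ha hb) (sub_ne_zero.mpr hne)
    have hsq : (a - b) * (a - b) = 0 := by
      rw [sub_mul, mul_sub, mul_sub, hK.comm b hb a ha, hab]
      have : b * b - a * b - (a * b - b * b) = (2 : F) • (b * b - a * b) := by rw [two_smul]; abel
      rw [this, h2, zero_smul]
    exact sub_ne_zero.mpr hne (by rw [← mul_one (a - b), ← hz, ← mul_assoc, hsq, zero_mul])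
  refine ⟨?_, hinj⟩
  have : Finite K := Subtype.finite
  obtain ⟨l, hl⟩ := Finite.surjective_of_injective
    (f := fun a : K => a * a) (fun a b h => Subtype.ext (hinj a a.2 b b.2 (congrArg Subtype.val h))) ⟨k, hk⟩
  exact ⟨l, l.2, congrArg Subtype.val hl⟩

/-- In characteristic two a self-adjoint field has alternating members. -/
lemma polar_act_self_eq_zero (hK : IsFieldSubalgebra d K) (h2 : (2 : F) = 0) {k : Matrix ι ι F} (hk : k ∈ K)
    (x : ι → F) : polar Q (k *ᵥ x) x = 0 := by
  obtain ⟨⟨l, hl, rfl⟩, -⟩ := exists_sqrt_of_two hQ hsa hK h2 hk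
  rw [← Matrix.mulVec_mulVec, hsa l hl, polar_self_mul, h2, zero_mul]

/-- Isometries of a plane over `K` which are not involutions commute. -/
theorem plane_commute (hK : IsFieldSubalgebra d K) (hdim : Fintype.card ι = 2 * d) (hd : 0 < d) {g h : GL ι F}
    (hg : ∀ v, Q (act g v) = Q v) (hh : ∀ v, Q (act h v) = Q v)
    (hgK : ∀ k ∈ K, k * (g : Matrix ι ι F) = (g : Matrix ι ι F) * k)
    (hhK : ∀ k ∈ K, k * (h : Matrix ι ι F) = (h : Matrix ι ι F) * k) (hg2 : g * g ≠ 1) (hh2 : h * h ≠ 1) :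
    g * h = h * g := by
  have hs := sesqui_polar Q
  have hnd := isNondegenerateForm_polar hQ
  have key : ∀ g : GL ι F, (∀ v, Q (act g v) = Q v) →
      (∀ k ∈ K, k * (g : Matrix ι ι F) = (g : Matrix ι ι F) * k) → g * g ≠ 1 →
      ∃ t ∈ K, (g : Matrix ι ι F) + ((g⁻¹ : GL ι F) : Matrix ι ι F) = t ∧ ((2 : F) = 0 → t ≠ 0) := by
    intro g hg hgK hg2
    set M : Matrix ι ι F := (g : Matrix ι ι F) with hMdef
    set Mi : Matrix ι ι F := ((g⁻¹ : GL ι F) : Matrix ι ι F) with hMidef
    have hMMi : M * Mi = 1 := by simp [M, Mi]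
    have hMiM : Mi * M = 1 := by simp [M, Mi]
    have hpol : ∀ u v, polar Q (M *ᵥ u) (M *ᵥ v) = polar Q u v := fun u v => by
      simp only [QuadraticMap.polar, ← Matrix.mulVec_add, hMdef]
      rw [show Q (act g (u + v)) = Q (u + v) from hg _, show Q (act g u) = Q u from hg _,
        show Q (act g v) = Q v from hg _]
    have hadj : ∀ u v, polar Q (M *ᵥ u) v = polar Q u (Mi *ᵥ v) := fun u v => by
      conv_lhs => rw [← Matrix.one_mulVec v, ← hMMi, ← Matrix.mulVec_mulVec, hpol]
    by_cases hline : ∀ x, M *ᵥ x ∈ fieldSpan K x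
    · exfalso
      have hMK := mem_of_preserves_lines hK hdim hd hgK hline
      refine hg2 (Units.ext ?_)
      rw [Units.val_mul, Units.val_one]
      refine eq_of_adjoint hs hnd fun u v => ?_
      rw [Matrix.one_mulVec, ← Matrix.mulVec_mulVec, ← hsa M hMK, hpol]
    push Not at hline
    obtain ⟨x, hx⟩ := hline
    have hx0 : x ≠ 0 := fun h => hx (by rw [h, Matrix.mulVec_zero]; exact Submodule.zero_mem _)
    obtain ⟨a, ha, b, hb, hab⟩ := exists_plane_coords hK hdim hx0 hx (M *ᵥ (M *ᵥ x))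
    have hM2 : M * M = a + b * M := by
      refine Matrix.ext_of_mulVec_single fun j => ?_
      obtain ⟨s, hs', t, ht, h⟩ := exists_plane_coords hK hdim hx0 hx (Pi.single j 1)
      rw [h]
      have e1 : (M * M) *ᵥ x = (a + b * M) *ᵥ x := by
        rw [← Matrix.mulVec_mulVec, hab, Matrix.add_mulVec, ← Matrix.mulVec_mulVec]
      have c1 : ∀ s ∈ K, (M * M) * s = s * (M * M) := fun s hs => by
        rw [mul_assoc, ← hgK s hs, ← mul_assoc, ← hgK s hs, mul_assoc]
      have c2 : ∀ s ∈ K, (a + b * M) * s = s * (a + b * M) := fun s hs => by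
        rw [add_mul, mul_add, hK.comm a ha s hs, mul_assoc, ← hgK s hs, ← mul_assoc, hK.comm b hb s hs,
          mul_assoc]
      have e2 : (M * M) *ᵥ (M *ᵥ x) = (a + b * M) *ᵥ (M *ᵥ x) := by
        have cM : (a + b * M) * M = M * (a + b * M) := by
          rw [add_mul, mul_add, hgK a ha, mul_assoc b M M, ← mul_assoc M b M, ← hgK b hb, mul_assoc]
        rw [Matrix.mulVec_mulVec, Matrix.mulVec_mulVec, cM, mul_assoc, ← Matrix.mulVec_mulVec, e1,
          Matrix.mulVec_mulVec]
      have lin : ∀ X : Matrix ι ι F, (∀ s ∈ K, X * s = s * X) →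
          X *ᵥ (s *ᵥ x + t *ᵥ (M *ᵥ x)) = s *ᵥ (X *ᵥ x) + t *ᵥ (X *ᵥ (M *ᵥ x)) := fun X hX => by
        rw [Matrix.mulVec_add, Matrix.mulVec_mulVec (v := x) (M := X) (N := s), hX s hs', ← Matrix.mulVec_mulVec,
          Matrix.mulVec_mulVec (v := M *ᵥ x) (M := X) (N := t), hX t ht, ← Matrix.mulVec_mulVec]
      rw [lin _ c1, lin _ c2, e1, e2]
    have hMi2 : Mi * Mi = a + b * Mi := by
      refine eq_of_adjoint hs hnd fun u v => ?_
      have lhs : polar Q u ((Mi * Mi) *ᵥ v) = polar Q ((M * M) *ᵥ u) v := by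
        rw [← Matrix.mulVec_mulVec, ← Matrix.mulVec_mulVec, hadj, hadj]
      rw [lhs, hM2, Matrix.add_mulVec, polar_add_left, Matrix.add_mulVec, polar_add_right,
        hsa a ha, ← Matrix.mulVec_mulVec, hsa b hb, hadj, Matrix.mulVec_mulVec (M := Mi)]
      congr 2
      have hbMi : b * Mi = Mi * b := by
        calc b * Mi = (Mi * M) * b * Mi := by rw [hMiM, one_mul]
          _ = Mi * (b * M) * Mi := by rw [mul_assoc Mi M b, ← hgK b hb]
          _ = Mi * b := by rw [mul_assoc, mul_assoc b M Mi, hMMi, mul_one]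
      rw [hbMi]
    -- hence `(a - 1) (a + 1) = 0` and `b (a + 1) = 0`
    have h1 : a * (M * M) + b * M = 1 := by
      calc a * (M * M) + b * M = (a + b * Mi) * (M * M) := by
            rw [add_mul, mul_assoc b Mi (M * M), ← mul_assoc Mi M M, hMiM, one_mul]
        _ = Mi * (Mi * M) * M := by rw [← hMi2]; simp only [mul_assoc]
        _ = 1 := by rw [hMiM, mul_one, hMiM]
    have h2' : (a * a - 1) + (a * b + b) * M = 0 := by
      rw [sub_add_eq_add_sub, sub_eq_zero]
      calc a * a + (a * b + b) * M = a * (a + b * M) + b * M := by rw [mul_add, add_mul, mul_assoc]; abel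
        _ = 1 := by rw [← hM2, h1]
    have hcoef : a * b + b = 0 := by
      by_contra hne
      obtain ⟨e, he, hee⟩ := hK.inv _ (K.add_mem (K.mul_mem ha hb) hb) hne
      refine hx ⟨-(e * (a * a - 1)), K.neg_mem (K.mul_mem he (K.sub_mem (K.mul_mem ha ha) K.one_mem)), ?_⟩
      have h3 := congrArg (fun X => e * X) h2'
      simp only [mul_add, mul_zero, ← mul_assoc, hK.comm e he _ (K.add_mem (K.mul_mem ha hb) hb), hee,
        one_mul] at h3
      rw [eq_neg_of_add_eq_zero_right h3]
    have haa : (a - 1) * (a + 1) = 0 := by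
      rw [hcoef, zero_mul, add_zero] at h2'
      rw [sub_mul, mul_add, mul_one, one_mul, ← h2']
      abel
    have ha1 : a = -1 := by
      by_contra hne
      obtain ⟨e, he, hee⟩ := hK.inv _ (K.add_mem ha K.one_mem) (fun h => hne (eq_neg_of_add_eq_zero_left h))
      have hA : a = 1 := sub_eq_zero.mp (calc
        a - 1 = (a - 1) * ((a + 1) * e) := by rw [hee, mul_one]
        _ = 0 := by rw [← mul_assoc, haa, zero_mul])
      subst hA
      have hb0 : b = 0 := by
        have : ((1 : Matrix ι ι F) + 1) * b = 0 := by rw [add_mul, one_mul]; rwa [one_mul] at hcoef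
        rw [← one_mul b, ← hee, hK.comm _ (K.add_mem K.one_mem K.one_mem) e he, mul_assoc, this,
          mul_zero]
      refine hg2 (Units.ext ?_)
      rw [Units.val_mul, Units.val_one]
      rw [hb0, zero_mul, add_zero] at hM2
      exact hM2
    have htr : M + Mi = b := by
      calc M + Mi = (M * M + 1) * Mi := by rw [add_mul, mul_assoc, hMMi, mul_one, one_mul]
        _ = b := by rw [hM2, ha1]; simp [add_mul, mul_assoc, hMMi]
    refine ⟨b, hb, htr, fun h2 hb0 => hg2 (Units.ext ?_)⟩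
    rw [Units.val_mul, Units.val_one]
    rw [hb0, zero_mul, add_zero, ha1] at hM2
    have h1neg : (-1 : Matrix ι ι F) = 1 := by
      rw [neg_eq_iff_add_eq_zero, ← two_smul F (1 : Matrix ι ι F), h2, zero_smul]
    rwa [h1neg] at hM2
  obtain ⟨t, ht, htr, ht0⟩ := key g hg hgK hg2
  obtain ⟨t', ht', htr', ht0'⟩ := key h hh hhK hh2
  set M : Matrix ι ι F := (g : Matrix ι ι F) with hMdef
  set M' : Matrix ι ι F := (h : Matrix ι ι F) with hM'def
  suffices hMM : M * M' = M' * M by exact Units.ext hMM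
  have hpolg : ∀ u v, polar Q (act g u) (act g v) = polar Q u v := fun u v => by
    simp only [QuadraticMap.polar, act, ← Matrix.mulVec_add]
    rw [show Q (act g (u + v)) = Q (u + v) from hg _, show Q (act g u) = Q u from hg _,
      show Q (act g v) = Q v from hg _]
  by_cases h2 : (2 : F) = 0
  · -- characteristic two: `t' g - t h` is a multiple of the identity
    have hval : ∀ g : GL ι F, (∀ v, Q (act g v) = Q v) →
        (∀ k ∈ K, k * (g : Matrix ι ι F) = (g : Matrix ι ι F) * k) → ∀ t ∈ K,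
        (g : Matrix ι ι F) + ((g⁻¹ : GL ι F) : Matrix ι ι F) = t → ∀ s ∈ K, ∀ x,
          polar Q ((g : Matrix ι ι F) *ᵥ x) ((t * (s * s)) *ᵥ x) = Q ((t * s) *ᵥ x) := by
      intro g hg hgK t ht htr s hs x
      set M : Matrix ι ι F := (g : Matrix ι ι F)
      set y := s *ᵥ x with hy
      have hMy : M *ᵥ (M *ᵥ y) = t *ᵥ (M *ᵥ y) - y := by
        rw [← htr, Matrix.add_mulVec, show ((g⁻¹ : GL ι F) : Matrix ι ι F) *ᵥ (M *ᵥ y) = y from
          act_inv_act g y, add_sub_cancel_right]
      have e := hg (act g y)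
      rw [show act g (act g y) = t *ᵥ (M *ᵥ y) - y from hMy, show Q (act g y) = Q y from hg y, map_sub_eq] at e
      have e2 : Q (t *ᵥ (M *ᵥ y)) = Q (t *ᵥ y) := by
        rw [Matrix.mulVec_mulVec, hgK t ht, ← Matrix.mulVec_mulVec]
        exact hg _
      rw [e2] at e
      have e3 : polar Q (t *ᵥ (M *ᵥ y)) y = Q (t *ᵥ y) := by linear_combination -e
      rw [hsa t ht] at e3
      rw [← Matrix.mulVec_mulVec, ← Matrix.mulVec_mulVec, ← Matrix.mulVec_mulVec, ← hy]
      have e4 : polar Q (M *ᵥ x) (t *ᵥ (s *ᵥ y)) = polar Q (M *ᵥ y) (t *ᵥ y) := by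
        rw [show M *ᵥ y = s *ᵥ (M *ᵥ x) by rw [hy, Matrix.mulVec_mulVec, ← hgK s hs, ← Matrix.mulVec_mulVec],
          hsa s hs]
        congr 1
        simp only [hy, Matrix.mulVec_mulVec]
        congr 1
        rw [← mul_assoc s t s, hK.comm s hs t ht, mul_assoc]
      rw [e4, e3]
    have hskew : ∀ x, ∀ k ∈ K, polar Q ((t' * M - t * M') *ᵥ x) (k *ᵥ x) = 0 := by
      intro x k hk
      obtain ⟨ti, hti, htti⟩ := hK.inv t ht (ht0 h2)
      obtain ⟨ti', hti', htti'⟩ := hK.inv t' ht' (ht0' h2)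
      obtain ⟨⟨s, hs, hs2⟩, hinj⟩ := exists_sqrt_of_two hQ hsa hK h2 (K.mul_mem (K.mul_mem hti ht') hk)
      obtain ⟨⟨s', hs', hs2'⟩, -⟩ := exists_sqrt_of_two hQ hsa hK h2 (K.mul_mem (K.mul_mem hti' ht) hk)
      have e1 := hval g hg hgK t ht htr s hs x
      have e2 := hval h hh hhK t' ht' htr' s' hs' x
      rw [hs2, ← mul_assoc, ← mul_assoc, htti, one_mul] at e1
      rw [hs2', ← mul_assoc, ← mul_assoc, htti', one_mul] at e2
      have hts : t * s = t' * s' := by
        refine hinj _ (K.mul_mem ht hs) _ (K.mul_mem ht' hs') ?_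
        calc t * s * (t * s) = t * (s * t) * s := by simp only [mul_assoc]
          _ = t * t * (s * s) := by rw [hK.comm s hs t ht]; simp only [mul_assoc]
          _ = t * (t * ti) * (t' * k) := by rw [hs2]; simp only [mul_assoc]
          _ = t' * (t' * ti') * (t * k) := by
            rw [htti, htti', mul_one, mul_one, ← mul_assoc, ← mul_assoc, hK.comm t ht t' ht']
          _ = t' * t' * (s' * s') := by rw [hs2']; simp only [mul_assoc]
          _ = t' * (s' * t') * s' := by rw [hK.comm s' hs' t' ht']; simp only [mul_assoc]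
          _ = _ := by simp only [mul_assoc]
      rw [Matrix.sub_mulVec, polar_sub_left, ← Matrix.mulVec_mulVec, ← Matrix.mulVec_mulVec, hsa t' ht',
        hsa t ht, Matrix.mulVec_mulVec, Matrix.mulVec_mulVec, e1, e2, hts, sub_self]
    have hline : ∀ x, (t' * M - t * M') *ᵥ x ∈ fieldSpan K x := by
      intro x
      by_cases hx : x = 0
      · rw [hx, Matrix.mulVec_zero]; exact Submodule.zero_mem _
      have hle : fieldSpan K x ≤ hs.orth (fieldSpan K x) := by
        rintro _ ⟨a, ha, rfl⟩ w ⟨b, hb, rfl⟩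
        rw [selfAdjoint_move hQ hsa hK hb ha]
        exact polar_act_self_eq_zero hQ hsa hK h2 (K.mul_mem hb ha) x
      have hfr : finrank F (hs.orth (fieldSpan K x)) ≤ d := by
        have h1 := finrank_fieldSpan hK hx
        have h2' : hs.orth (fieldSpan K x) = CfsgLib.Geometric.Orth.perpW Q (fieldSpan K x) := by
          ext v
          exact ⟨fun hv w hw => (polar_comm _ _ _).trans (hv w hw),
            fun hv w hw => (polar_comm _ _ _).trans (hv w hw)⟩
        have h3 := LinearMap.BilinForm.finrank_orthogonal (B := polarBilin Q)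
          (nondeg_iff_polarBilin.mpr hQ) (fieldSpan K x)
        rw [finrank_fintype_fun_eq_card, h1] at h3
        rw [h2']
        show finrank F (LinearMap.BilinForm.orthogonal (polarBilin Q) (fieldSpan K x)) ≤ d
        omega
      rw [Submodule.eq_of_le_of_finrank_le hle (by rw [finrank_fieldSpan hK hx]; exact hfr)]
      rintro w ⟨k, hk, rfl⟩
      exact hskew x k hk
    have hcomm : ∀ k ∈ K, k * (t' * M - t * M') = (t' * M - t * M') * k := fun k hk => by
      rw [mul_sub, sub_mul, ← mul_assoc, ← mul_assoc, mul_assoc t' M k, mul_assoc t M' k, ← hgK k hk,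
        ← hhK k hk, ← mul_assoc, ← mul_assoc, hK.comm k hk t' ht', hK.comm k hk t ht]
    set c := t' * M - t * M'
    have hc : c ∈ K := mem_of_preserves_lines hK hdim hd hcomm hline
    obtain ⟨ti, hti, htti⟩ := hK.inv t ht (ht0 h2)
    have hM' : M' = ti * (t' * M - c) := by
      simp only [c, sub_sub_cancel, ← mul_assoc, hK.comm ti hti t ht, htti, one_mul]
    rw [hM', ← mul_assoc M ti, ← hgK ti hti, mul_assoc, mul_assoc ti (t' * M - c) M]
    congr 1
    rw [mul_sub, sub_mul, ← mul_assoc, ← hgK t' ht', ← hgK c hc]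
  · -- odd characteristic: `g - t/2` spans the skew `K`-linear maps
    have h22 : (2 : F)⁻¹ + (2 : F)⁻¹ = 1 := by rw [← two_mul, mul_inv_cancel₀ h2]
    have hsk : ∀ g : GL ι F, (∀ v, Q (act g v) = Q v) →
        (∀ k ∈ K, k * (g : Matrix ι ι F) = (g : Matrix ι ι F) * k) → ∀ t ∈ K,
        (g : Matrix ι ι F) + ((g⁻¹ : GL ι F) : Matrix ι ι F) = t →
        ∀ x, ∀ k ∈ K, polar Q (((g : Matrix ι ι F) - (2 : F)⁻¹ • t) *ᵥ x) (k *ᵥ x) = 0 := by
      intro g hg hgK t ht htr x k hk
      set M : Matrix ι ι F := (g : Matrix ι ι F)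
      have hpol : ∀ u v, polar Q (act g u) (act g v) = polar Q u v := fun u v => by
        simp only [QuadraticMap.polar, act, ← Matrix.mulVec_add]
        rw [show Q (act g (u + v)) = Q (u + v) from hg _, show Q (act g u) = Q u from hg _,
          show Q (act g v) = Q v from hg _]
      have e2 : polar Q (act g⁻¹ x) (k *ᵥ x) = polar Q (M *ᵥ x) (k *ᵥ x) := by
        rw [← hpol (act g⁻¹ x) (k *ᵥ x), act_act_inv, show act g (k *ᵥ x) = k *ᵥ (M *ᵥ x) by
          show M *ᵥ (k *ᵥ x) = _
          rw [Matrix.mulVec_mulVec, ← hgK k hk, ← Matrix.mulVec_mulVec], ← hsa k hk, polar_comm]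
      have e1 : polar Q (t *ᵥ x) (k *ᵥ x) = 2 * polar Q (M *ᵥ x) (k *ᵥ x) := by
        rw [← htr, Matrix.add_mulVec, polar_add_left,
          show ((g⁻¹ : GL ι F) : Matrix ι ι F) *ᵥ x = act g⁻¹ x from rfl, e2, two_mul]
      rw [Matrix.sub_mulVec, Matrix.smul_mulVec, polar_sub_left, polar_smul_left, e1, smul_eq_mul,
        ← mul_assoc, inv_mul_cancel₀ h2, one_mul, sub_self]
    set A := M - (2 : F)⁻¹ • t
    set A' := M' - (2 : F)⁻¹ • t'
    have hAK : ∀ k ∈ K, k * A = A * k := fun k hk => by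
      rw [mul_sub, sub_mul, hgK k hk, Matrix.mul_smul, Matrix.smul_mul, hK.comm k hk t ht]
    have hA'K : ∀ k ∈ K, k * A' = A' * k := fun k hk => by
      rw [mul_sub, sub_mul, hhK k hk, Matrix.mul_smul, Matrix.smul_mul, hK.comm k hk t' ht']
    obtain ⟨i, hAi⟩ : ∃ i, A *ᵥ (Pi.single i 1) ≠ 0 := by
      by_contra hall
      push Not at hall
      have hA0 : A = 0 := Matrix.ext_of_mulVec_single fun i => by rw [hall i, Matrix.zero_mulVec]
      have hMK : M ∈ K := by rw [sub_eq_zero.mp hA0]; exact K.smul_mem ht _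
      refine hg2 (Units.ext ?_)
      rw [Units.val_mul, Units.val_one]
      refine eq_of_adjoint hs hnd fun u v => ?_
      rw [Matrix.one_mulVec, ← Matrix.mulVec_mulVec, ← hsa _ hMK]
      exact hpolg u v
    set x : ι → F := Pi.single i 1
    have hx : x ≠ 0 := by simp [x]
    set P := hs.orth (fieldSpan K x)
    have hmemP : ∀ B : Matrix ι ι F, (∀ k ∈ K, polar Q (B *ᵥ x) (k *ᵥ x) = 0) → B *ᵥ x ∈ P := by
      rintro B hB w ⟨k, hk, rfl⟩
      exact hB k hk
    have hAx : A *ᵥ x ∈ P := hmemP A (hsk g hg hgK t ht htr x)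
    have hA'x : A' *ᵥ x ∈ P := hmemP A' (hsk h hh hhK t' ht' htr' x)
    have hle : fieldSpan K (A *ᵥ x) ≤ P := by
      rintro _ ⟨k, hk, rfl⟩ w ⟨l, hl, rfl⟩
      rw [hsa k hk, Matrix.mulVec_mulVec]
      exact hAx _ ⟨k * l, K.mul_mem hk hl, rfl⟩
    have hP : finrank F P ≤ d := by
      have h1 := finrank_fieldSpan hK hx
      have h2' : P = CfsgLib.Geometric.Orth.perpW Q (fieldSpan K x) := by
        ext v
        exact ⟨fun hv w hw => (polar_comm _ _ _).trans (hv w hw),
          fun hv w hw => (polar_comm _ _ _).trans (hv w hw)⟩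
      have h3 := LinearMap.BilinForm.finrank_orthogonal (B := polarBilin Q)
        (nondeg_iff_polarBilin.mpr hQ) (fieldSpan K x)
      rw [finrank_fintype_fun_eq_card, h1] at h3
      rw [h2']
      show finrank F (LinearMap.BilinForm.orthogonal (polarBilin Q) (fieldSpan K x)) ≤ d
      omega
    have hPeq : fieldSpan K (A *ᵥ x) = P :=
      Submodule.eq_of_le_of_finrank_le hle (by rw [finrank_fieldSpan hK hAi]; exact hP)
    obtain ⟨μ, hμ, hμx⟩ := (hPeq ▸ hA'x : A' *ᵥ x ∈ fieldSpan K (A *ᵥ x))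
    set B := A' - μ * A
    have hBK : ∀ k ∈ K, k * B = B * k := fun k hk => by
      rw [mul_sub, sub_mul, hA'K k hk, ← mul_assoc, hK.comm k hk μ hμ, mul_assoc, hAK k hk, mul_assoc]
    have hBskew : ∀ y, ∀ k ∈ K, polar Q (B *ᵥ y) (k *ᵥ y) = 0 := by
      intro y k hk
      rw [Matrix.sub_mulVec, polar_sub_left, hsk h hh hhK t' ht' htr' y k hk, ← Matrix.mulVec_mulVec,
        hsa μ hμ, Matrix.mulVec_mulVec, hsk g hg hgK t ht htr y _ (K.mul_mem hμ hk), sub_zero]
    have hBx : B *ᵥ x = 0 := by rw [Matrix.sub_mulVec, ← Matrix.mulVec_mulVec, hμx, sub_self]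
    have hB0 : B = 0 := by
      obtain ⟨y, hy⟩ : ∃ y, y ∉ fieldSpan K x := by
        by_contra hall
        push Not at hall
        have h := finrank_fieldSpan hK hx
        rw [Submodule.eq_top_iff'.mpr hall, finrank_top, finrank_fintype_fun_eq_card] at h
        omega
      have hBlin : ∀ k ∈ K, ∀ v, B *ᵥ (k *ᵥ v) = k *ᵥ (B *ᵥ v) := fun k hk v => by
        rw [Matrix.mulVec_mulVec, Matrix.mulVec_mulVec, hBK k hk]
      have hBy : B *ᵥ y = 0 := hQ _ fun v => by
        obtain ⟨a, ha, b, hb, rfl⟩ := exists_plane_coords hK hdim hx hy v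
        rw [polar_add_right, hBskew y b hb, add_zero]
        have e := hBskew (y + x) a ha
        rw [Matrix.mulVec_add, hBx, add_zero, Matrix.mulVec_add, polar_add_right, hBskew y a ha, zero_add] at e
        exact e
      refine Matrix.ext_of_mulVec_single fun j => ?_
      obtain ⟨a, ha, b, hb, hv⟩ := exists_plane_coords hK hdim hx hy (Pi.single j 1)
      rw [Matrix.zero_mulVec, hv, Matrix.mulVec_add, hBlin a ha, hBlin b hb, hBx, hBy, Matrix.mulVec_zero,
        Matrix.mulVec_zero, add_zero]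
    have hA' : M' = μ * (M - (2 : F)⁻¹ • t) + (2 : F)⁻¹ • t' := by
      rw [← sub_eq_zero, sub_add_eq_sub_sub, sub_right_comm]
      exact hB0
    set s := (2 : F)⁻¹ • t
    set s' := (2 : F)⁻¹ • t'
    have hsK : s ∈ K := K.smul_mem ht _
    have hsK' : s' ∈ K := K.smul_mem ht' _
    rw [hA', mul_add, add_mul, ← hgK s' hsK']
    congr 1
    rw [← mul_assoc, ← hgK μ hμ, mul_assoc, mul_assoc μ (M - s) M, mul_sub, sub_mul, ← hgK s hsK]

/-- An irreducible group normalising a self-adjoint field over which the space is a plane has an abelian normal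
subgroup which is not scalar. -/
theorem exists_abelian_normal (hK : IsFieldSubalgebra d K) (hdim : Fintype.card ι = 2 * d) (hd : 0 < d)
    {H : Subgroup (GL ι F)} (hH : Isometric Q H) (hirr : ActsIrreducibly (matrixSet H))
    (hle : H ≤ subalgebraNormalizer K) :
    ∃ A : Subgroup (GL ι F), NormalIn A H ∧ ¬ A ≤ scalars ι F ∧ ∀ a ∈ A, ∀ b ∈ A, a * b = b * a := by
  classical
  let N : Subgroup (GL ι F) :=
    { carrier := {g | g ∈ H ∧ ∀ k ∈ K, k * (g : Matrix ι ι F) = (g : Matrix ι ι F) * k}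
      mul_mem' := fun {a b} ha hb => ⟨H.mul_mem ha.1 hb.1, fun k hk => by
        rw [Units.val_mul, ← mul_assoc, ha.2 k hk, mul_assoc, hb.2 k hk, mul_assoc]⟩
      one_mem' := ⟨H.one_mem, fun k _ => by simp⟩
      inv_mem' := fun {a} ha => ⟨H.inv_mem ha.1, fun k hk => by
        have h := congrArg (fun X => ((a⁻¹ : GL ι F) : Matrix ι ι F) * X * ((a⁻¹ : GL ι F) : Matrix ι ι F))
          (ha.2 k hk)
        simpa [mul_assoc] using h.symm⟩ }
  have hN : NormalIn N H := by
    refine ⟨fun g hg => hg.1, fun h hh x hx => ⟨H.mul_mem (H.mul_mem hh hx.1) (H.inv_mem hh), fun k hk => ?_⟩⟩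
    have hk' := conj_mem_of_normalizer (hle (H.inv_mem hh)) hk
    rw [inv_inv] at hk'
    have h1 := congrArg (fun X => (h : Matrix ι ι F) * X * ((h⁻¹ : GL ι F) : Matrix ι ι F)) (hx.2 _ hk')
    simpa [mul_assoc] using h1
  by_cases hNs : N ≤ scalars ι F
  · -- `H` is then abelian
    have : Finite K := Subtype.finite
    have hfield : IsField K :=
      { exists_pair_ne := ⟨0, 1, fun h => by
          obtain ⟨i⟩ : Nonempty ι := Fintype.card_pos_iff.mp (by omega)
          have := congrFun (congrFun (congrArg Subtype.val h) i) i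
          simp at this⟩
        mul_comm := fun x y => Subtype.ext (hK.comm x x.2 y y.2)
        mul_inv_cancel := fun {x} hx => by
          obtain ⟨y, hy, hxy⟩ := hK.inv x x.2 (fun h => hx (Subtype.ext h))
          exact ⟨⟨y, hy⟩, Subtype.ext hxy⟩ }
    letI : Field K := hfield.toField
    let φ0 : H → (K →ₐ[F] K) := fun g =>
      AlgHom.codRestrict ((conjAlg (g : GL ι F)).toAlgHom.comp K.val) K fun k =>
        conj_mem_of_normalizer (hle g.2) k.2
    have hφ0 : ∀ g, Function.Bijective (φ0 g) := fun g => by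
      refine Finite.injective_iff_bijective.mp fun a b hab => Subtype.ext ?_
      exact (conjAlg (g : GL ι F)).injective (congrArg Subtype.val hab)
    let φ : H →* Gal(K/F) :=
      { toFun := fun g => AlgEquiv.ofBijective (φ0 g) (hφ0 g)
        map_one' := AlgEquiv.ext fun k => Subtype.ext (by
          show conjAlg (1 : GL ι F) (k : Matrix ι ι F) = k
          simp [conjAlg_apply])
        map_mul' := fun a b => AlgEquiv.ext fun k => Subtype.ext (conjAlg_mul _ _ _) }
    refine ⟨H, NormalIn.refl H, fun hsc => ?_, fun a ha b hb => ?_⟩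
    · obtain ⟨i⟩ : Nonempty ι := Fintype.card_pos_iff.mp (by omega)
      rcases actsIrreducibly_iff.mp hirr (Submodule.span F {(Pi.single i 1 : ι → F)}) (fun g hg v hv => by
        obtain ⟨c, hc⟩ := (mem_scalars_iff g).mp (hsc hg)
        rw [act_scalar hc]
        exact Submodule.smul_mem _ _ hv) with h | h
      · exact absurd ((Submodule.eq_bot_iff _).mp h _ (Submodule.mem_span_singleton_self _)) (by simp)
      · have := congrArg (fun W : Submodule F (ι → F) => finrank F W) h
        simp only [finrank_span_singleton (show (Pi.single i 1 : ι → F) ≠ 0 by simp), finrank_top,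
          finrank_fintype_fun_eq_card] at this
        omega
    · have hker : φ.ker ≤ Subgroup.center H := by
        intro g hg
        rw [Subgroup.mem_center_iff]
        intro x
        have hgN : (g : GL ι F) ∈ N := ⟨g.2, fun k hk => by
          have h1 : conjAlg (g : GL ι F) k = k :=
            congrArg (fun e : Gal(K/F) => ((e ⟨k, hk⟩ : K) : Matrix ι ι F)) hg
          rw [conjAlg_apply] at h1
          conv_lhs => rw [← h1]
          simp [mul_assoc]⟩
        exact Subtype.ext (scalars_commute (hNs hgN) x).symm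
      exact congrArg Subtype.val (commutative_of_cyclic_center_quotient φ hker ⟨a, ha⟩ ⟨b, hb⟩)
  exact exists_abelian_of_commute hN hNs fun u hu v hv h1 h2 =>
    plane_commute hQ hsa hK hdim hd (hH u (hN.le hu)) (hH v (hN.le hv)) hu.2 hv.2 h1 h2

end CfsgLib.SmallDim.OrthEven
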