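import Cfsg.Agent.Lib.SmallDim.OrthEvenType
import Cfsg.Agent.Lib.Forms.Symplectic
import Cfsg.Agent.Lib.Forms.Singular
import Cfsg.Agent.Lib.SmallDim.SympBasic

/-!
Reducible subgroups of the orthogonal groups in even dimension, and the parity of intersections of maximal
totally singular subspaces under `Ω`.
-/

set_option autoImplicit false
set_option linter.style.haveILetI false
set_option linter.unusedSectionVars false

namespace CfsgLib.SmallDim.OrthEven

open scoped MatrixGroups Matrix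
open Cfsg.Geo QuadraticMap CfsgLib.ClassicalForms Module CfsgLib.Geometric CfsgLib.Geometric.Orth

variable {ι : Type} [Fintype ι] [DecidableEq ι] {F : Type*} [Field F] {Q : QuadraticForm F (ι → F)}

lemma map_apEquiv (g : GL ι F) (W : Submodule F (ι → F)) :
    W.map (apEquiv g).toLinearMap = W.map (Matrix.toLin' (g : Matrix ι ι F)) := by
  congr 1

lemma finrank_map_toLin (g : GL ι F) (W : Submodule F (ι → F)) :
    finrank F (W.map (Matrix.toLin' (g : Matrix ι ι F))) = finrank F W := by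
  rw [← map_apEquiv]
  exact LinearEquiv.finrank_map_eq (apEquiv g) W

lemma map_eq_of_le_stab {H : Subgroup (GL ι F)} {W : Submodule F (ι → F)} (hle : H ≤ subspaceStabilizer W)
    {g : GL ι F} (hg : g ∈ H) : W.map (Matrix.toLin' (g : Matrix ι ι F)) = W := by
  refine le_antisymm ?_ fun v hv => ⟨act g⁻¹ v, (mem_subspaceStabilizer.mp (hle (H.inv_mem hg)) v).mp hv, ?_⟩
  · rintro _ ⟨v, hv, rfl⟩
    rw [Matrix.toLin'_apply]
    exact (mem_subspaceStabilizer.mp (hle hg) v).mp hv
  · rw [Matrix.toLin'_apply]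
    exact act_act_inv g v

/-- An element of `Ω` preserves the family of a maximal totally singular subspace. -/
theorem omega_parity [Finite F] (hQ : Nondeg Q) (hn : 5 ≤ Fintype.card ι) {m : ℕ} (hm : Fintype.card ι = 2 * m)
    {g : GL ι F} (hg : g ∈ omegaGL (⇑Q)) {U : Submodule F (ι → F)} (hU : ∀ x ∈ U, Q x = 0) (hUd : finrank F U = m) :
    finrank F (U ⊓ U.map (Matrix.toLin' (g : Matrix ι ι F)) : Submodule F (ι → F)) % 2 = m % 2 := by
  have hmax : Classes.IsMaxSingular Q U := ⟨hU, by omega⟩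
  have h := relSign_map hQ hn hg hmax hmax
  rw [map_apEquiv, Classes.relSign, Classes.relSign, inf_idem, hUd] at h
  set k := finrank F (U ⊓ U.map (Matrix.toLin' (g : Matrix ι ι F)) : Submodule F (ι → F))
  rcases Nat.even_or_odd k with hk | hk <;> rcases Nat.even_or_odd m with hm' | hm' <;>
    simp only [hk.neg_one_pow, hm'.neg_one_pow] at h
  · rw [Nat.even_iff.mp hk, Nat.even_iff.mp hm']
  · exact absurd h (by decide)
  · exact absurd h (by decide)
  · rw [Nat.odd_iff.mp hk, Nat.odd_iff.mp hm']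

variable [Fintype F]

lemma two_eq_zero_or_ne : ((2 : F) = 0 ∧ ¬ Odd (Fintype.card F)) ∨ ((2 : F) ≠ 0 ∧ Odd (Fintype.card F)) := by
  rcases Nat.even_or_odd (Fintype.card F) with h | h
  · exact Or.inl ⟨two_eq_zero_of_not_odd (Nat.not_odd_iff_even.mpr h), Nat.not_odd_iff_even.mpr h⟩
  · exact Or.inr ⟨two_ne_zero_of_odd_card h, h⟩

/-- In characteristic two a non-degenerate subspace has even dimension. -/
lemma even_finrank_of_two_eq_zero (h2 : (2 : F) = 0) {W : Submodule F (ι → F)}
    (hW : IsNondegenerateOn (polar (⇑Q)) W) : Even (finrank F W) := by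
  obtain ⟨m, b, -⟩ := Forms.exists_symplectic_basis (restr Q W) (restr_nondegenerate hW)
    fun x => by rw [restr_apply, polar_self_mul, h2, zero_mul]
  exact ⟨m, by rw [finrank_eq_card_basis b]; simp⟩

/-- A subgroup of isometries which is reducible. -/
theorem reducible_split (hQ : Nondeg Q) {H : Subgroup (GL ι F)} (hH : Isometric Q H)
    (hred : ¬ ActsIrreducibly (matrixSet H)) :
    ∃ W : Submodule F (ι → F), W ≠ ⊥ ∧ W ≠ ⊤ ∧ H ≤ subspaceStabilizer W ∧
      ((∀ w ∈ W, Q w = 0) ∨
        (IsNondegenerateOn (polar (⇑Q)) W ∧ 2 * finrank F W ≤ Fintype.card ι) ∨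
        ((2 : F) = 0 ∧ ∃ v, Q v ≠ 0 ∧ W = Submodule.span F {v})) := by
  obtain ⟨W, hW0, hW1, hle, hW⟩ := exists_ts_or_nondegenerate (sesqui_polar Q) (reflexive_polar Q)
    (isNondegenerateForm_polar hQ) hH.fixesForm hred
  rcases hW with hts | hnd
  swap
  · exact ⟨W, hW0, hW1, hle, Or.inr (Or.inl hnd)⟩
  rcases two_eq_zero_or_ne (F := F) with ⟨h2, -⟩ | ⟨h2, -⟩
  swap
  · refine ⟨W, hW0, hW1, hle, Or.inl fun w hw => ?_⟩
    have h := hts w hw w hw
    rw [polar_self_mul] at h
    exact (mul_eq_zero.mp h).resolve_left h2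
  let U : Submodule F (ι → F) :=
    { carrier := {x | x ∈ W ∧ Q x = 0}
      add_mem' := fun {a b} ha hb => ⟨W.add_mem ha.1 hb.1, by
        rw [QuadraticMap.map_add ⇑Q, ha.2, hb.2, hts a ha.1 b hb.1, add_zero, add_zero]⟩
      zero_mem' := ⟨W.zero_mem, QuadraticMap.map_zero Q⟩
      smul_mem' := fun c x hx => ⟨W.smul_mem c hx.1, by rw [QuadraticMap.map_smul, hx.2, smul_zero]⟩ }
  by_cases hU : U = ⊥
  · obtain ⟨v, hv, hv0⟩ := W.ne_bot_iff.mp hW0
    have hQv : Q v ≠ 0 := fun h => hv0 ((Submodule.eq_bot_iff U).mp hU v ⟨hv, h⟩)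
    have hWv : W = Submodule.span F {v} := by
      refine le_antisymm (fun x hx => ?_) ((Submodule.span_singleton_le_iff_mem v W).mpr hv)
      obtain ⟨s, hs⟩ := isSquare_of_two_eq_zero h2 (-Q x / Q v)
      have hy : x + s • v ∈ U := ⟨W.add_mem hx (W.smul_mem s hv), by
        rw [QuadraticMap.map_add ⇑Q, QuadraticMap.map_smul, hts x hx _ (W.smul_mem s hv), smul_eq_mul, ← hs]
        field_simp
        ring⟩
      rw [eq_neg_of_add_eq_zero_left ((Submodule.eq_bot_iff U).mp hU _ hy)]
      exact Submodule.neg_mem _ (Submodule.smul_mem _ _ (Submodule.mem_span_singleton_self v))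
    exact ⟨W, hW0, hW1, hle, Or.inr (Or.inr ⟨h2, v, hQv, hWv⟩)⟩
  · refine ⟨U, hU, fun e => hW1 (eq_top_iff.mpr fun x _ => ((e ▸ Submodule.mem_top : x ∈ U)).1),
      le_subspaceStabilizer fun g hg v hv => ⟨(mem_subspaceStabilizer.mp (hle hg) v).mp hv.1, ?_⟩,
      Or.inl fun w hw => hw.2⟩
    exact (hH g hg v).trans hv.2

/-- The possibilities for a subspace fixed by a reducible group. -/
def ReducibleWitness (Q : QuadraticForm F (ι → F)) (W : Submodule F (ι → F)) : Prop :=
  (∀ w ∈ W, Q w = 0) ∨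
  (Odd (Fintype.card F) ∧ Odd (finrank F W) ∧ IsNondegenerateOn (polar (⇑Q)) W) ∨
  (finrank F W = 2 ∧ IsNondegenerateOn (polar (⇑Q)) W ∧ ¬ IsPlusTypeOn (⇑Q) W) ∨
  (4 ≤ Fintype.card F ∧ finrank F W = 2 ∧ IsNondegenerateOn (polar (⇑Q)) W ∧ IsPlusTypeOn (⇑Q) W) ∨
  (finrank F W = 4 ∧ IsNondegenerateOn (polar (⇑Q)) W) ∨
  (¬ Odd (Fintype.card F) ∧ ∃ v, Q v ≠ 0 ∧ W = Submodule.span F {v})

/-- Reducible subgroups in dimension at most thirteen. -/
theorem reducible_witness_six (hQ : Nondeg Q) (hsmall : Fintype.card ι ≤ 13) {H : Subgroup (GL ι F)}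
    (hH : Isometric Q H) (hred : ¬ ActsIrreducibly (matrixSet H)) :
    ∃ W : Submodule F (ι → F), W ≠ ⊥ ∧ W ≠ ⊤ ∧ H ≤ subspaceStabilizer W ∧
      (ReducibleWitness Q W ∨ (finrank F W = 6 ∧ IsNondegenerateOn (polar (⇑Q)) W)) ∧
      (IsNondegenerateOn (polar (⇑Q)) W → 2 * finrank F W ≤ Fintype.card ι) := by
  obtain ⟨W, hW0, hW1, hle, hts | ⟨hnd, hd⟩ | ⟨h2, v, hv, hWv⟩⟩ := reducible_split hQ hH hred
  · refine ⟨W, hW0, hW1, hle, Or.inl (Or.inl hts), fun hnd => absurd hW0 (not_not_intro ?_)⟩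
    refine (Submodule.eq_bot_iff W).mpr fun x hx => by_contra fun hx0 => ?_
    obtain ⟨y, hy, hxy⟩ := (hnd x hx hx0).2
    exact hxy (by simp [QuadraticMap.polar, hts _ (W.add_mem hx hy), hts x hx, hts y hy])
  swap
  · refine ⟨W, hW0, hW1, hle, Or.inl (Or.inr (Or.inr (Or.inr (Or.inr (Or.inr ⟨?_, v, hv, hWv⟩))))), fun _ => ?_⟩
    · rintro hodd
      exact two_ne_zero_of_odd_card hodd h2
    · rw [hWv, finrank_span_singleton (fun h => hv (by rw [h, QuadraticMap.map_zero]))]
      by_contra hlt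
      have h1 : Fintype.card ι ≤ 1 := by omega
      apply hW1
      refine Submodule.eq_top_of_finrank_eq ?_
      have hle' := Submodule.finrank_le W
      rw [finrank_fintype_fun_eq_card] at hle' ⊢
      rw [hWv, finrank_span_singleton (fun h => hv (by rw [h, QuadraticMap.map_zero]))] at hle' ⊢
      omega
  rcases Nat.even_or_odd (finrank F W) with hev | hodd
  swap
  · rcases two_eq_zero_or_ne (F := F) with ⟨h2, -⟩ | ⟨-, hq⟩
    · exact absurd (even_finrank_of_two_eq_zero h2 hnd) (Nat.not_even_iff_odd.mpr hodd)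
    · exact ⟨W, hW0, hW1, hle, Or.inl (Or.inr (Or.inl ⟨hq, hodd, hnd⟩)), fun _ => hd⟩
  obtain ⟨k, hk⟩ := hev
  have hk0 : finrank F W ≠ 0 := fun h => hW0 (Submodule.finrank_eq_zero.mp h)
  by_cases h4 : finrank F W = 4
  · exact ⟨W, hW0, hW1, hle, Or.inl (Or.inr (Or.inr (Or.inr (Or.inr (Or.inl ⟨h4, hnd⟩))))), fun _ => hd⟩
  by_cases h6 : finrank F W = 6
  · exact ⟨W, hW0, hW1, hle, Or.inr ⟨h6, hnd⟩, fun _ => hd⟩
  have h2' : finrank F W = 2 := by omega
  by_cases hp : IsPlusTypeOn (⇑Q) W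
  swap
  · exact ⟨W, hW0, hW1, hle, Or.inl (Or.inr (Or.inr (Or.inl ⟨h2', hnd, hp⟩))), fun _ => hd⟩
  by_cases hq : 4 ≤ Fintype.card F
  · exact ⟨W, hW0, hW1, hle, Or.inl (Or.inr (Or.inr (Or.inr (Or.inl ⟨hq, h2', hnd, hp⟩)))), fun _ => hd⟩
  -- a hyperbolic plane over at most three elements has one line of norm one
  obtain ⟨U, hUW, hU, hUd⟩ := hp
  obtain ⟨u, hu, hu0⟩ := U.ne_bot_iff.mp fun e => by rw [e, finrank_bot] at hUd; omega
  obtain ⟨y, hy, huy⟩ := (hnd u (hUW hu) hu0).2
  have hQu : Q u = 0 := hU u hu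
  have huu : polar Q u u = 0 := by rw [polar_self_mul, hQu, mul_zero]
  obtain ⟨z, hzW, huz⟩ : ∃ z ∈ W, polar Q u z = 1 :=
    ⟨(polar Q u y)⁻¹ • y, W.smul_mem _ hy, by rw [polar_smul_right, smul_eq_mul, inv_mul_cancel₀ huy]⟩
  obtain ⟨w, hwW, hQw, huw⟩ : ∃ w ∈ W, Q w = 0 ∧ polar Q u w = 1 := by
    refine ⟨z - Q z • u, W.sub_mem hzW (W.smul_mem _ (hUW hu)), ?_, ?_⟩
    · rw [map_sub_eq, QuadraticMap.map_smul, hQu, polar_smul_right, polar_comm, huz]
      simp
    · rw [polar_sub_right, polar_smul_right, huz, huu, smul_zero, sub_zero]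
  have hQuw : Q (u + w) = 1 := by rw [QuadraticMap.map_add ⇑Q, hQu, hQw, huw, zero_add, zero_add]
  have hspan : ∀ x ∈ W, x = polar Q x w • u + polar Q x u • w := by
    intro x hx
    set x' := x - polar Q x w • u - polar Q x u • w with hx'
    have hxu : polar Q x' u = 0 := by
      simp [hx', polar_sub_left, polar_smul_left, huu, polar_comm Q w u, huw]
    have hxw : polar Q x' w = 0 := by
      simp [hx', polar_sub_left, polar_smul_left, huw, polar_self_mul, hQw]
    have hx'W : x' ∈ W := W.sub_mem (W.sub_mem hx (W.smul_mem _ (hUW hu))) (W.smul_mem _ hwW)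
    have hle2 : W ≤ Submodule.span F {u, w} := by
      have hli : LinearIndependent F ![u, w] := by
        rw [LinearIndependent.pair_iff]
        intro a b hab
        have ha := congrArg (fun t => polar Q t w) hab
        have hb := congrArg (fun t => polar Q u t) hab
        simp [polar_add_left, polar_smul_left, huw, polar_self_mul, hQw] at ha
        simp [polar_add_right, polar_smul_right, huw, huu] at hb
        exact ⟨ha, hb⟩
      refine (Submodule.eq_of_le_of_finrank_eq (Submodule.span_le.mpr ?_) ?_).ge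
      · rintro t (rfl | rfl)
        · exact hUW hu
        · exact hwW
      · have := finrank_span_eq_card hli
        rw [Fintype.card_fin, Matrix.range_cons, Matrix.range_cons, Matrix.range_empty, Set.union_empty,
          Set.singleton_union] at this
        rw [this, h2']
    have h0 : x' = 0 := by
      by_contra hne
      obtain ⟨t, ht, htx⟩ := (hnd x' hx'W hne).2
      obtain ⟨a, b, rfl⟩ := Submodule.mem_span_pair.mp (hle2 ht)
      exact htx (by simp [polar_add_right, polar_smul_right, hxu, hxw])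
    calc x = x' + (polar Q x w • u + polar Q x u • w) := by rw [hx']; abel
      _ = _ := by rw [h0, zero_add]
  set L := Submodule.span F {u + w}
  have hinv : ∀ g ∈ H, ∀ v ∈ L, act g v ∈ L := by
    intro g hg v hv
    obtain ⟨c, rfl⟩ := Submodule.mem_span_singleton.mp hv
    rw [act, Matrix.mulVec_smul]
    refine L.smul_mem c ?_
    set x := act g (u + w)
    have hxW : x ∈ W := (mem_subspaceStabilizer.mp (hle hg) _).mp (W.add_mem (hUW hu) hwW)
    set a := polar Q x w
    set b := polar Q x u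
    have hx : x = a • u + b • w := hspan x hxW
    have hab : a * b = 1 := by
      have hQx := hH g hg (u + w)
      rw [hQuw, show act g (u + w) = x from rfl, hx, QuadraticMap.map_add ⇑Q, QuadraticMap.map_smul,
        QuadraticMap.map_smul, hQu, hQw, polar_smul_left, polar_smul_right, huw] at hQx
      simpa using hQx
    have ha2 : a * a = 1 := by
      have ha0 : a ≠ 0 := left_ne_zero_of_mul_eq_one hab
      have hp := FiniteField.pow_card_sub_one_eq_one a ha0
      have h2le := Fintype.one_lt_card (α := F)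
      interval_cases h : Fintype.card F
      · simp at hp; simp [hp]
      · simpa [pow_two] using hp
    have hba : b = a := mul_left_cancel₀ (left_ne_zero_of_mul_eq_one hab) (hab.trans ha2.symm)
    show x ∈ L
    rw [hx, hba, ← smul_add]
    exact L.smul_mem a (Submodule.mem_span_singleton_self _)
  have hne : u + w ≠ 0 := fun h => by rw [h, QuadraticMap.map_zero] at hQuw; exact zero_ne_one hQuw
  have hL1 : finrank F L = 1 := finrank_span_singleton hne
  refine ⟨L, fun e => by rw [e, finrank_bot] at hL1; exact zero_ne_one hL1, fun e => ?_,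
    le_subspaceStabilizer hinv, ?_, fun _ => by omega⟩
  · rw [e, finrank_top, finrank_fintype_fun_eq_card] at hL1
    omega
  · rcases two_eq_zero_or_ne (F := F) with ⟨-, hq2⟩ | ⟨h2, hq2⟩
    · exact Or.inl (Or.inr (Or.inr (Or.inr (Or.inr (Or.inr ⟨hq2, u + w, by rw [hQuw]; exact one_ne_zero, rfl⟩)))))
    · refine Or.inl (Or.inr (Or.inl ⟨hq2, by rw [hL1]; exact odd_one, fun x hx hx0 => ?_⟩))
      obtain ⟨c, rfl⟩ := Submodule.mem_span_singleton.mp hx
      have hc : c ≠ 0 := fun h => hx0 (by rw [h, zero_smul])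
      have hne' : polar Q (c • (u + w)) (u + w) ≠ 0 := by
        rw [polar_smul_left, polar_self_mul, hQuw, mul_one, smul_eq_mul]
        exact mul_ne_zero hc h2
      exact ⟨⟨u + w, Submodule.mem_span_singleton_self _, by rwa [polar_comm]⟩,
        u + w, Submodule.mem_span_singleton_self _, hne'⟩

/-- Reducible subgroups in dimension at most eleven. -/
theorem reducible_witness (hQ : Nondeg Q) (hsmall : Fintype.card ι ≤ 11) {H : Subgroup (GL ι F)}
    (hH : Isometric Q H) (hred : ¬ ActsIrreducibly (matrixSet H)) :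
    ∃ W : Submodule F (ι → F), W ≠ ⊥ ∧ W ≠ ⊤ ∧ H ≤ subspaceStabilizer W ∧ ReducibleWitness Q W ∧
      (IsNondegenerateOn (polar (⇑Q)) W → 2 * finrank F W ≤ Fintype.card ι) := by
  obtain ⟨W, h0, h1, hle, hW | ⟨h6, hnd⟩, hd⟩ := reducible_witness_six hQ (by omega) hH hred
  · exact ⟨W, h0, h1, hle, hW, hd⟩
  · have := hd hnd
    omega

/-- A maximal totally singular subspace containing a given one of the dimension one less, fixed by the
stabiliser of the latter in `Ω`. -/
theorem exists_stable_maximal (hQ : Nondeg Q) (hn : 5 ≤ Fintype.card ι) {m : ℕ}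
    (hm : Fintype.card ι = 2 * m) (hplus : IsPlusTypeOn (⇑Q) ⊤) {H : Subgroup (GL ι F)}
    (hH : H ≤ omegaGL (⇑Q)) {W : Submodule F (ι → F)} (hW : ∀ w ∈ W, Q w = 0)
    (hWd : finrank F W + 1 = m) (hle : H ≤ subspaceStabilizer W) :
    ∃ U : Submodule F (ι → F), (∀ w ∈ U, Q w = 0) ∧ finrank F U = m ∧ H ≤ subspaceStabilizer U := by
  obtain ⟨U₀, -, hU₀, hU₀d⟩ := hplus
  rw [finrank_top, finrank_fintype_fun_eq_card] at hU₀d
  obtain ⟨g, hg, hgle⟩ := Forms.exists_isometry_singular_le Q (nondeg_iff_polarBilin.mpr hQ) W U₀ hW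
    hU₀ (by omega)
  set U := U₀.comap g.toLinearMap
  have hUd : finrank F U = m := by
    show finrank F (U₀.comap g.toLinearMap) = m
    rw [Submodule.comap_equiv_eq_map_symm, LinearEquiv.finrank_map_eq]
    omega
  have hU : ∀ x ∈ U, Q x = 0 := fun x hx => (hg x).symm.trans (hU₀ _ hx)
  have hWU : W ≤ U := Submodule.map_le_iff_le_comap.mp hgle
  refine ⟨U, hU, hUd, fun h hh => ?_⟩
  set U' := U.map (Matrix.toLin' (h : Matrix ι ι F))
  have hWU' : W ≤ U' := (map_eq_of_le_stab hle hh).symm.le.trans (Submodule.map_mono hWU)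
  have h1 : finrank F W ≤ finrank F (U ⊓ U' : Submodule F (ι → F)) :=
    Submodule.finrank_mono (le_inf hWU hWU')
  have h2 : finrank F (U ⊓ U' : Submodule F (ι → F)) ≤ finrank F U := Submodule.finrank_mono inf_le_left
  have h3 : finrank F (U ⊓ U' : Submodule F (ι → F)) % 2 = m % 2 := omega_parity hQ hn hm (hH hh) hU hUd
  have h4 : U ⊓ U' = U := Submodule.eq_of_le_of_finrank_eq inf_le_left (by omega)
  have h5 : U = U' := Submodule.eq_of_le_of_finrank_eq (h4 ▸ inf_le_right)
    (finrank_map_toLin h U).symm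
  rw [mem_subspaceStabilizer]
  intro v
  constructor
  · intro hv
    rw [h5]
    exact ⟨v, hv, Matrix.toLin'_apply _ _⟩
  · intro hv
    rw [h5] at hv
    obtain ⟨x, hx, hxv⟩ := hv
    rw [Matrix.toLin'_apply] at hxv
    rwa [← act_injective h hxv]

/-- A pair of orthogonal complementary non-degenerate subspaces of equal dimension as a decomposition. -/
theorem exists_pair_decomposition (hQ : Nondeg Q) {H : Subgroup (GL ι F)} (hH : Isometric Q H) {k : ℕ}
    (hk : Fintype.card ι = 2 * k) {W : Submodule F (ι → F)} (hW0 : W ≠ ⊥)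
    (hW : IsNondegenerateOn (polar (⇑Q)) W) (hd : finrank F W = k) (hle : H ≤ subspaceStabilizer W) :
    ∃ D : Fin 2 → Submodule F (ι → F), IsNondegenerateMDecomposition (polar (⇑Q)) k D ∧
      H ≤ decompositionStabilizer D := by
  have hc := isCompl_perpW hW
  set W' := perpW Q W
  have hW'k : finrank F W' = k := by
    have := finrank_add_perpW hW
    show finrank F (perpW Q W) = k
    omega
  have hW'inv : H ≤ subspaceStabilizer W' := le_subspaceStabilizer fun g hg v hv => by
    refine mem_perpW.mpr fun y hy => ?_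
    rw [← act_act_inv g y, hH.polar hg]
    exact mem_perpW.mp hv _ ((mem_subspaceStabilizer.mp (hle (H.inv_mem hg)) y).mp hy)
  refine ⟨![W, W'], ⟨⟨le_rfl, ?_, fun i => ?_, ?_, ?_⟩, fun i => ?_, fun i j hij => ?_⟩, fun g hg => ⟨1, fun i => ?_⟩⟩
  · rcases Nat.eq_zero_or_pos k with h | h
    · exact absurd (Submodule.finrank_eq_zero.mp (hd.trans h)) hW0
    · exact h
  · fin_cases i
    · exact hd
    · exact hW'k
  · rw [iSupIndep_pair (by decide : (0 : Fin 2) ≠ 1) (by decide)]
    exact hc.disjoint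
  · rw [eq_top_iff, ← hc.sup_eq_top]
    exact sup_le (le_iSup (![W, W']) 0) (le_iSup (![W, W']) 1)
  · fin_cases i
    · exact hW
    · exact isNondegenerateOn_perpW hW hQ
  · fin_cases i <;> fin_cases j
    · exact absurd rfl hij
    · intro u hu v hv
      exact mem_perpW.mp hv u hu
    · intro u hu v hv
      rw [polar_comm]
      exact mem_perpW.mp hu v hv
    · exact absurd rfl hij
  · fin_cases i
    · exact map_eq_of_le_stab hle hg
    · exact map_eq_of_le_stab hW'inv hg

end CfsgLib.SmallDim.OrthEven
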