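import Cfsg.Agent.Lib.SmallDim.OrthEvenPlane

/-!
Tensor decompositions preserved by irreducible subgroups of `Ω` in which one factor has dimension two.
-/

set_option autoImplicit false
set_option linter.style.haveILetI false
set_option linter.unusedSectionVars false

namespace CfsgLib.SmallDim.OrthEven

open scoped MatrixGroups Matrix Kronecker
open Cfsg.Geo QuadraticMap CfsgLib.ClassicalForms Module

variable {ι : Type} [Fintype ι] [DecidableEq ι] {F : Type*} [Field F] [Finite F] {Q : QuadraticForm F (ι → F)}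

/-- An abelian normal subgroup, not scalar, gives a decomposition or an extension field of degree two. -/
theorem abelian_cases (hQ : Nondeg Q) (hn : 5 ≤ Fintype.card ι) {H A : Subgroup (GL ι F)}
    (hH : H ≤ omegaGL (⇑Q)) (hirr : ActsIrreducibly (matrixSet H)) (hA : NormalIn A H)
    (hAs : ¬ A ≤ scalars ι F) (hAc : ∀ a ∈ A, ∀ b ∈ A, a * b = b * a)
    (hbad : IsPlusTypeOn (⇑Q) ⊤ → Odd (Fintype.card ι / 2)) : OrthDecomp Q H ∨ QuadField Q H := by
  classical
  have hs := sesqui_polar Q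
  have hnd := isNondegenerateForm_polar hQ
  have : Nonempty ι := Fintype.card_pos_iff.mp (by omega)
  have hiso := isometric_of_le_omega hH
  obtain ⟨a, ha, has⟩ := SetLike.not_le_iff_exists.mp hAs
  have hfix : FixesForm (matrixSet A) (polar (⇑Q)) := (hiso.mono hA.le).fixesForm
  have hamem : (a : Matrix ι ι F) ∈ centreN A := by
    refine ⟨(Subalgebra.mem_centralizer_iff F).2 ?_, (Subalgebra.mem_centralizer_iff F).2 fun X hX =>
      ((Subalgebra.mem_centralizer_iff F).1 hX _ (coe_mem_matrixSet ha)).symm⟩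
    rintro _ ⟨b, hb, rfl⟩
    exact congrArg Units.val (hAc b hb a ha)
  have hne : ∀ c : F, (a : Matrix ι ι F) ≠ c • 1 := fun c hc =>
    has (mem_scalars_of_act c fun v => act_scalar hc v)
  rcases algebra_cases hQ hn hH hirr (le_subalgebraNormalizer_centreN hA) (centreN_comm A)
    (isAdjointClosedFor_centreN hs hnd hfix) ⟨_, hamem, hne⟩ hbad with h | h | ⟨hfield, hsa, -⟩
  · exact Or.inl h
  · exact Or.inr h
  exfalso
  have ha2 : (a : Matrix ι ι F) * a = 1 := eq_of_adjoint hs hnd fun u v => by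
    rw [Matrix.one_mulVec, ← Matrix.mulVec_mulVec, ← hsa _ hamem]
    exact hiso.polar (hA.le ha) u v
  by_cases h1 : (a : Matrix ι ι F) - 1 = 0
  · exact hne 1 (by rw [one_smul]; exact sub_eq_zero.mp h1)
  obtain ⟨e, he, hee⟩ := hfield _ ((centreN A).sub_mem hamem (centreN A).one_mem) h1
  refine hne (-1) ?_
  rw [neg_smul, one_smul, eq_neg_iff_add_eq_zero]
  calc (a : Matrix ι ι F) + 1 = ((a : Matrix ι ι F) + 1) * (((a : Matrix ι ι F) - 1) * e) := by rw [hee, mul_one]
    _ = 0 := by rw [← mul_assoc, add_mul, mul_sub, mul_sub, ha2]; simp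

/-- The point with coordinates `x`. -/
def point {κ : Type} [Fintype κ] [DecidableEq κ] (e : ι ≃ κ) (P : GL ι F) (x : κ → F) : ι → F :=
  (P : Matrix ι ι F) *ᵥ (x ∘ e)

/-- The polar form is `C ⊗ G₀` in coordinates, and `H` acts by tensor products of similitudes. -/
structure TensorForm (Q : QuadraticForm F (ι → F)) (H : Subgroup (GL ι F)) {n₁ n₂ : ℕ}
    (e : ι ≃ Fin n₁ × Fin n₂) (P : GL ι F) (C : Matrix (Fin n₁) (Fin n₁) F) (G₀ : Matrix (Fin n₂) (Fin n₂) F) :
    Prop where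
  det_left : IsUnit C.det
  det_right : IsUnit G₀.det
  gram : ∀ x y, polar Q (point e P x) (point e P y) = x ⬝ᵥ ((C ⊗ₖ G₀) *ᵥ y)
  action : ∀ g ∈ H, ∃ (a : Matrix (Fin n₁) (Fin n₁) F) (b : Matrix (Fin n₂) (Fin n₂) F),
    (∀ x, act g (point e P x) = point e P ((a ⊗ₖ b) *ᵥ x)) ∧ (∃ c : F, c ≠ 0 ∧ aᵀ * C * a = c • C) ∧
      (∃ c : F, c ≠ 0 ∧ bᵀ * G₀ * b = c • G₀) ∧ (a ⊗ₖ b)ᵀ * (C ⊗ₖ G₀) * (a ⊗ₖ b) = C ⊗ₖ G₀

lemma exists_smul_of_kronecker {m n : ℕ} {A A' : Matrix (Fin m) (Fin m) F} {B B' : Matrix (Fin n) (Fin n) F}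
    (hA : A ≠ 0) (hB : B ≠ 0) (h : A' ⊗ₖ B' = A ⊗ₖ B) :
    (∃ c : F, c ≠ 0 ∧ A' = c • A) ∧ ∃ c : F, c ≠ 0 ∧ B' = c • B := by
  obtain ⟨i, j, hij⟩ : ∃ i j, A i j ≠ 0 := by
    by_contra hall
    push Not at hall
    exact hA (Matrix.ext hall)
  obtain ⟨k, l, hkl⟩ : ∃ k l, B k l ≠ 0 := by
    by_contra hall
    push Not at hall
    exact hB (Matrix.ext hall)
  have hent : ∀ i j k l, A' i j * B' k l = A i j * B k l := fun i j k l =>
    congrFun (congrFun h (i, k)) (j, l)
  have hne := hent i j k l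
  have hA' : A' i j ≠ 0 := left_ne_zero_of_mul (hne ▸ mul_ne_zero hij hkl)
  have hB' : B' k l ≠ 0 := right_ne_zero_of_mul (hne ▸ mul_ne_zero hij hkl)
  refine ⟨⟨B k l / B' k l, div_ne_zero hkl hB', Matrix.ext fun r s => ?_⟩,
    ⟨A i j / A' i j, div_ne_zero hij hA', Matrix.ext fun r s => ?_⟩⟩
  · rw [Matrix.smul_apply, smul_eq_mul]
    field_simp
    linear_combination hent r s k l
  · rw [Matrix.smul_apply, smul_eq_mul]
    field_simp
    linear_combination hent i j r s

/-- The tensor structure of the polar form in Clifford's tensor case. -/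
theorem exists_tensorForm (hQ : Nondeg Q) {H N : Subgroup (GL ι F)} (hiso : Isometric Q H) (hN : NormalIn N H)
    {n₁ n₂ : ℕ} {e : ι ≃ Fin n₁ × Fin n₂} {P : GL ι F} (hT : TensorCase H N n₁ n₂ e P) :
    ∃ (C : Matrix (Fin n₁) (Fin n₁) F) (G₀ : Matrix (Fin n₂) (Fin n₂) F), TensorForm Q H e P C G₀ ∧
      ∀ x ∈ N, ∃ b : Matrix (Fin n₂) (Fin n₂) F, bᵀ * G₀ * b = G₀ ∧
        ∀ v, act x (point e P v) = point e P (((1 : Matrix (Fin n₁) (Fin n₁) F) ⊗ₖ b) *ᵥ v) := by
  classical
  have : Nonempty (Fin n₁) := ⟨⟨0, by have := hT.two_le_left; omega⟩⟩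
  have : Nonempty (Fin n₂) := ⟨⟨0, by have := hT.two_le_right; omega⟩⟩
  have hf := isBilinear_polar Q
  set Pm : Matrix ι ι F := (P : Matrix ι ι F) with hPm
  set G := coordGram (polar (⇑Q)) e P
  have hG : IsUnit G.det := isUnit_det_coordGram hf (isNondegenerateForm_polar hQ) e P
  let S : Set (Matrix (Fin n₂) (Fin n₂) F) := {b | ∃ x ∈ N, (x : Matrix ι ι F) * Pm =
    Pm * Matrix.reindex e.symm e.symm ((1 : Matrix (Fin n₁) (Fin n₁) F) ⊗ₖ b)}
  have hblock : ∀ b ∈ S, ((1 : Matrix (Fin n₁) (Fin n₁) F) ⊗ₖ b)ᵀ * G *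
      ((1 : Matrix (Fin n₁) (Fin n₁) F) ⊗ₖ b).map (RingHom.id F) = G := by
    rintro b ⟨x, hx, hxb⟩
    rw [show ((1 : Matrix (Fin n₁) (Fin n₁) F) ⊗ₖ b).map (RingHom.id F) = (1 : Matrix (Fin n₁) (Fin n₁) F) ⊗ₖ b
      from Matrix.ext fun _ _ => rfl]
    exact coordGram_fixed hf e P (fun u v => hiso.polar (hN.le hx) u v) hxb
  have hcomm : ∀ C : Matrix (Fin n₂) (Fin n₂) F, (∀ b ∈ S, C * b = b * C) → ∃ c : F, C = c • 1 := by
    intro C hC
    set R := Matrix.reindexAlgEquiv F F e.symm ((1 : Matrix (Fin n₁) (Fin n₁) F) ⊗ₖ C) with hR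
    set M : Matrix ι ι F := Pm * R * ((P⁻¹ : GL ι F) : Matrix ι ι F) with hM
    have hMP : M * Pm = Pm * R := by
      rw [hM, Matrix.mul_assoc, hPm, ← Units.val_mul, inv_mul_cancel, Units.val_one, Matrix.mul_one]
    have hmem : M ∈ Subalgebra.centralizer F (matrixSet N) := by
      rw [Subalgebra.mem_centralizer_iff]
      rintro _ ⟨x, hx, rfl⟩
      obtain ⟨b, hb⟩ := hT.inner x hx
      have hcb := hC b ⟨x, hx, hb⟩
      set Rb := Matrix.reindexAlgEquiv F F e.symm ((1 : Matrix (Fin n₁) (Fin n₁) F) ⊗ₖ b) with hRb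
      have hRR : Rb * R = R * Rb := by
        rw [hR, hRb, ← map_mul, ← map_mul, ← Matrix.mul_kronecker_mul, ← Matrix.mul_kronecker_mul, hcb]
      have hxP : (x : Matrix ι ι F) * Pm = Pm * Rb := hb
      have h3 : ((x : Matrix ι ι F) * M) * Pm = (M * (x : Matrix ι ι F)) * Pm := by
        rw [Matrix.mul_assoc, hMP, ← Matrix.mul_assoc, hxP, Matrix.mul_assoc, hRR, ← Matrix.mul_assoc, ← hMP,
          Matrix.mul_assoc, ← hxP, ← Matrix.mul_assoc]
      exact P.isUnit.mul_left_injective h3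
    obtain ⟨C', hC'⟩ := hT.commutant M hmem
    rw [hMP] at hC'
    have h4 : (1 : Matrix (Fin n₁) (Fin n₁) F) ⊗ₖ C = C' ⊗ₖ (1 : Matrix (Fin n₂) (Fin n₂) F) :=
      (Matrix.reindex e.symm e.symm).injective (P.isUnit.mul_right_injective hC')
    obtain ⟨i⟩ := ‹Nonempty (Fin n₁)›
    refine ⟨C' i i, Matrix.ext fun k l => ?_⟩
    simpa [Matrix.one_apply] using congrFun (congrFun h4 (i, k)) (i, l)
  obtain ⟨C, G₀, hC, hG₀, hinv, hGe⟩ := exists_kronecker_of_invariant (σ := RingHom.id F) hcomm hG hblock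
  refine ⟨C, G₀, ⟨hC, hG₀, fun x y => ?_, fun g hg => ?_⟩, fun x hx => ?_⟩
  · rw [← hGe]; exact apply_coord hf e P x y
  · obtain ⟨_, ⟨z, ⟨a, b, hz⟩, rfl⟩, hg'⟩ := hT.le hg
    subst hg'
    refine ⟨a, b, fun v => ?_, ?_⟩
    · show act _ _ = _
      rw [← hz]
      exact act_conj_reindex e P z v
    · have hfixed : ((a : Matrix (Fin n₁) (Fin n₁) F) ⊗ₖ (b : Matrix (Fin n₂) (Fin n₂) F))ᵀ * G *
          ((a : Matrix (Fin n₁) (Fin n₁) F) ⊗ₖ (b : Matrix (Fin n₂) (Fin n₂) F)) = G := by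
        refine coordGram_fixed hf e P (fun u v => hiso.polar hg u v) ?_
        rw [← hz]
        show ((P * glReindex e.symm z * P⁻¹ : GL ι F) : Matrix ι ι F) * (P : Matrix ι ι F) = _
        rw [← Units.val_mul, inv_mul_cancel_right]
        rfl
      rw [hGe] at hfixed
      have hkr : ((a : Matrix (Fin n₁) (Fin n₁) F)ᵀ * C * (a : Matrix (Fin n₁) (Fin n₁) F)) ⊗ₖ
          ((b : Matrix (Fin n₂) (Fin n₂) F)ᵀ * G₀ * (b : Matrix (Fin n₂) (Fin n₂) F)) = C ⊗ₖ G₀ := by
        rw [Matrix.mul_kronecker_mul, Matrix.mul_kronecker_mul, Matrix.kroneckerMap_transpose]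
        exact hfixed
      obtain ⟨h1, h2⟩ := exists_smul_of_kronecker (fun h => hC.ne_zero (by rw [h, Matrix.det_zero]))
        (fun h => hG₀.ne_zero (by rw [h, Matrix.det_zero])) hkr
      exact ⟨h1, h2, hfixed⟩
  · obtain ⟨b, hb⟩ := hT.inner x hx
    refine ⟨b, ?_, fun v => ?_⟩
    · have := hinv b ⟨x, hx, hb⟩
      rwa [show b.map (RingHom.id F) = b from Matrix.ext fun _ _ => rfl] at this
    · show (x : Matrix ι ι F) *ᵥ (Pm *ᵥ (v ∘ e)) = Pm *ᵥ _
      rw [Matrix.mulVec_mulVec, hb, ← Matrix.mulVec_mulVec]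
      congr 1
      funext i
      simp only [Matrix.mulVec, dotProduct, Function.comp_apply, Matrix.reindex_apply, Matrix.submatrix_apply,
        Equiv.symm_symm]
      exact Fintype.sum_equiv e _ _ fun _ => rfl

/-- The factors in the other order. -/
lemma TensorForm.swap {H : Subgroup (GL ι F)} {n₁ n₂ : ℕ} {e : ι ≃ Fin n₁ × Fin n₂} {P : GL ι F}
    {C : Matrix (Fin n₁) (Fin n₁) F} {G₀ : Matrix (Fin n₂) (Fin n₂) F} (h : TensorForm Q H e P C G₀) :
    TensorForm Q H (e.trans (Equiv.prodComm _ _)) P G₀ C := by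
  have hpt : ∀ x : Fin n₂ × Fin n₁ → F,
      point (e.trans (Equiv.prodComm _ _)) P x = point e P (x ∘ Prod.swap) := fun x => rfl
  have hk : ∀ (A : Matrix (Fin n₁) (Fin n₁) F) (B : Matrix (Fin n₂) (Fin n₂) F) (x : Fin n₂ × Fin n₁ → F),
      (A ⊗ₖ B) *ᵥ (x ∘ Prod.swap) = ((B ⊗ₖ A) *ᵥ x) ∘ Prod.swap := by
    intro A B x
    funext i
    simp only [Matrix.mulVec, dotProduct, Function.comp_apply, Matrix.kroneckerMap_apply]
    exact Fintype.sum_equiv (Equiv.prodComm _ _) _ _ fun j => by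
      simp [mul_comm]
  refine ⟨h.det_right, h.det_left, fun x y => ?_, fun g hg => ?_⟩
  · rw [hpt, hpt, h.gram, hk]
    simp only [dotProduct, Function.comp_apply]
    exact Fintype.sum_equiv (Equiv.prodComm _ _) _ _ fun _ => rfl
  · obtain ⟨a, b, hact, ha, hb, hfix⟩ := h.action g hg
    refine ⟨b, a, fun x => ?_, hb, ha, ?_⟩
    · rw [hpt, hact, hpt, hk]
    · ext ⟨i, k⟩ ⟨j, l⟩
      have := congrFun (congrFun hfix (k, i)) (l, j)
      rw [← Matrix.kroneckerMap_transpose, ← Matrix.mul_kronecker_mul, ← Matrix.mul_kronecker_mul] at this ⊢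
      simpa [mul_comm] using this

/-- The pure tensor of two vectors. -/
def pure2 {n₁ n₂ : ℕ} (x : Fin n₁ → F) (y : Fin n₂ → F) : Fin n₁ × Fin n₂ → F := fun i => x i.1 * y i.2

lemma kronecker_pure {n₁ n₂ : ℕ} (A : Matrix (Fin n₁) (Fin n₁) F) (B : Matrix (Fin n₂) (Fin n₂) F)
    (x : Fin n₁ → F) (y : Fin n₂ → F) : (A ⊗ₖ B) *ᵥ pure2 x y = pure2 (A *ᵥ x) (B *ᵥ y) := by
  funext i
  simp only [Matrix.mulVec, dotProduct, pure2, Matrix.kroneckerMap_apply, Fintype.sum_prod_type,
    Finset.sum_mul_sum]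
  exact Finset.sum_congr rfl fun _ _ => Finset.sum_congr rfl fun _ _ => by ring

lemma dot_pure {n₁ n₂ : ℕ} (x x' : Fin n₁ → F) (y y' : Fin n₂ → F) :
    pure2 x y ⬝ᵥ pure2 x' y' = (x ⬝ᵥ x') * (y ⬝ᵥ y') := by
  simp only [dotProduct, pure2, Fintype.sum_prod_type, Finset.sum_mul_sum]
  exact Finset.sum_congr rfl fun _ _ => Finset.sum_congr rfl fun _ _ => by ring

lemma pure_single {n₁ n₂ : ℕ} (i : Fin n₁) (k : Fin n₂) :
    pure2 (Pi.single i (1 : F)) (Pi.single k 1) = Pi.single (i, k) 1 := by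
  funext ⟨j, l⟩
  by_cases h : j = i <;> by_cases h' : l = k <;> simp [pure2, h, h']

lemma point_add {κ : Type} [Fintype κ] [DecidableEq κ] (e : ι ≃ κ) (P : GL ι F) (x y : κ → F) :
    point e P (x + y) = point e P x + point e P y := by
  simp only [point, show (x + y) ∘ e = x ∘ e + y ∘ e from rfl, Matrix.mulVec_add]

lemma point_smul {κ : Type} [Fintype κ] [DecidableEq κ] (e : ι ≃ κ) (P : GL ι F) (c : F) (x : κ → F) :
    point e P (c • x) = c • point e P x := by
  simp only [point, show (c • x) ∘ e = c • (x ∘ e) from rfl, Matrix.mulVec_smul]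

lemma point_injective {κ : Type} [Fintype κ] [DecidableEq κ] (e : ι ≃ κ) (P : GL ι F) :
    Function.Injective (point e P : (κ → F) → ι → F) := fun x y h =>
  e.surjective.injective_comp_right (act_injective P h)

variable {H : Subgroup (GL ι F)} {n₁ n₂ : ℕ} {e : ι ≃ Fin n₁ × Fin n₂} {P : GL ι F}
  {C : Matrix (Fin n₁) (Fin n₁) F} {G₀ : Matrix (Fin n₂) (Fin n₂) F}

lemma TensorForm.polar_pure (h : TensorForm Q H e P C G₀) (x x' : Fin n₁ → F) (y y' : Fin n₂ → F) :
    polar Q (point e P (pure2 x y)) (point e P (pure2 x' y')) = (x ⬝ᵥ (C *ᵥ x')) * (y ⬝ᵥ (G₀ *ᵥ y')) := by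
  rw [h.gram, kronecker_pure, dot_pure]

/-- In characteristic two the first factor is alternating. -/
theorem TensorForm.diag_zero (h : TensorForm Q H e P C G₀) (hirr : ActsIrreducibly (matrixSet H))
    (hn₁ : 2 ≤ n₁) (hn₂ : 0 < n₂) (h2 : (2 : F) = 0) (hC : Cᵀ = C) (i : Fin n₁) : C i i = 0 := by
  classical
  by_contra hi
  have hquad : ∀ x y : Fin n₁ → F, (x + y) ⬝ᵥ (C *ᵥ (x + y)) = x ⬝ᵥ (C *ᵥ x) + y ⬝ᵥ (C *ᵥ y) := by
    intro x y
    have hsym : y ⬝ᵥ (C *ᵥ x) = x ⬝ᵥ (C *ᵥ y) := by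
      conv_lhs => rw [Matrix.dotProduct_mulVec, ← Matrix.mulVec_transpose, hC]
      exact dotProduct_comm _ _
    simp only [Matrix.mulVec_add, dotProduct_add, add_dotProduct]
    linear_combination (x ⬝ᵥ (C *ᵥ y)) * h2 + hsym
  have hzero : ∀ k, G₀ k k = 0 := by
    intro k
    have h1 := h.polar_pure (Pi.single i 1) (Pi.single i 1) (Pi.single k 1) (Pi.single k 1)
    rw [polar_self_mul, h2, zero_mul] at h1
    simpa [hi] using h1.symm
  let W₁ : Submodule F (Fin n₁ → F) :=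
    { carrier := {x | x ⬝ᵥ (C *ᵥ x) = 0}
      add_mem' := fun {a b} ha hb => by
        show (a + b) ⬝ᵥ _ = 0
        rw [hquad, show a ⬝ᵥ (C *ᵥ a) = 0 from ha, show b ⬝ᵥ (C *ᵥ b) = 0 from hb, add_zero]
      zero_mem' := zero_dotProduct _
      smul_mem' := fun c x hx => by
        show (c • x) ⬝ᵥ (C *ᵥ (c • x)) = 0
        rw [Matrix.mulVec_smul, smul_dotProduct, dotProduct_smul, show x ⬝ᵥ (C *ᵥ x) = 0 from hx, smul_zero,
          smul_zero] }
  let sec : Fin n₂ → (ι → F) →ₗ[F] (Fin n₁ → F) := fun k =>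
    (LinearMap.funLeft F F fun i => (i, k)).comp (coordMap e P)
  let W : Submodule F (ι → F) := ⨅ k, W₁.comap (sec k)
  have hW : ∀ v, v ∈ W ↔ ∀ k, (fun i => coordMap e P v (i, k)) ∈ W₁ := fun v => by
    simp only [W, Submodule.mem_iInf, Submodule.mem_comap]; rfl
  have hWinv : ∀ g ∈ H, ∀ v ∈ W, act g v ∈ W := by
    intro g hg v hv
    obtain ⟨a, b, hact, ⟨c, -, hac⟩, -, -⟩ := h.action g hg
    rw [hW]
    intro k
    have hstable : ∀ x ∈ W₁, a *ᵥ x ∈ W₁ := fun x hx => by
      show (a *ᵥ x) ⬝ᵥ (C *ᵥ (a *ᵥ x)) = 0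
      have e1 : x ⬝ᵥ ((aᵀ * C * a) *ᵥ x) = (a *ᵥ x) ⬝ᵥ (C *ᵥ (a *ᵥ x)) := by
        rw [← Matrix.mulVec_mulVec, ← Matrix.mulVec_mulVec, Matrix.dotProduct_mulVec x, Matrix.vecMul_transpose]
      rw [← e1, hac, Matrix.smul_mulVec, dotProduct_smul, show x ⬝ᵥ (C *ᵥ x) = 0 from hx, smul_zero]
    rw [← point_coordMap e P v, show act g ((P : Matrix ι ι F) *ᵥ (coordMap e P v ∘ e)) = _ from hact _]
    have hexp : (fun i => coordMap e P (point e P ((a ⊗ₖ b) *ᵥ coordMap e P v)) (i, k)) =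
        ∑ l, b k l • (a *ᵥ fun j => coordMap e P v (j, l)) := by
      funext i
      rw [point, coordMap_point]
      simp only [Matrix.mulVec, dotProduct, Fintype.sum_prod_type, Matrix.kroneckerMap_apply, Finset.sum_apply,
        Pi.smul_apply, smul_eq_mul, Finset.mul_sum]
      rw [Finset.sum_comm]
      exact Finset.sum_congr rfl fun _ _ => Finset.sum_congr rfl fun _ _ => by ring
    rw [hexp]
    exact W₁.sum_mem fun l _ => W₁.smul_mem _ (hstable _ ((hW v).1 hv l))
  rcases actsIrreducibly_iff.mp hirr W hWinv with hW0 | hW1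
  · obtain ⟨j, hji⟩ : ∃ j : Fin n₁, j ≠ i := by
      haveI : Nontrivial (Fin n₁) := Fin.nontrivial_iff_two_le.mpr hn₁
      exact exists_ne i
    obtain ⟨s, hs⟩ := isSquare_of_two_eq_zero h2 (C j j / C i i)
    set x : Fin n₁ → F := s • Pi.single i 1 + Pi.single j 1
    have hx0 : x j = 1 := by simp [x, hji]
    have hxW : x ∈ W₁ := by
      show x ⬝ᵥ (C *ᵥ x) = 0
      rw [hquad, Matrix.mulVec_smul, smul_dotProduct, dotProduct_smul]
      simp only [Matrix.mulVec_single_one, single_dotProduct, Matrix.col_apply, one_mul, smul_eq_mul]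
      rw [← mul_assoc, ← hs, div_mul_cancel₀ _ hi]
      linear_combination (C j j) * h2
    have hmem : point e P (pure2 x (Pi.single ⟨0, hn₂⟩ 1)) ∈ W := by
      rw [hW]
      intro k
      rw [point, coordMap_point]
      show (fun i => x i * (Pi.single (⟨0, hn₂⟩ : Fin n₂) (1 : F) : Fin n₂ → F) k) ∈ W₁
      convert W₁.smul_mem ((Pi.single (⟨0, hn₂⟩ : Fin n₂) (1 : F) : Fin n₂ → F) k) hxW using 1
      funext i
      simp [mul_comm]
    have h0 := (Submodule.eq_bot_iff W).mp hW0 _ hmem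
    have h1 := congrFun (congrArg (coordMap e P) h0) (j, ⟨0, hn₂⟩)
    rw [point, coordMap_point, map_zero] at h1
    simp [pure2, hx0] at h1
  · have h1 := (hW (point e P (pure2 (Pi.single i 1) (Pi.single ⟨0, hn₂⟩ 1)))).1 (hW1 ▸ Submodule.mem_top) ⟨0, hn₂⟩
    rw [point, coordMap_point] at h1
    apply hi
    have h3 : (fun j => pure2 (Pi.single i (1 : F)) (Pi.single (⟨0, hn₂⟩ : Fin n₂) 1) (j, ⟨0, hn₂⟩)) =
        Pi.single i 1 := by
      funext j
      simp [pure2]
    rw [h3] at h1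
    simpa using (show (Pi.single i 1 : Fin n₁ → F) ⬝ᵥ (C *ᵥ Pi.single i 1) = 0 from h1)

/-- With two alternating factors, the first of dimension two, the quadratic form vanishes at pure tensors. -/
theorem TensorForm.pure_zero (hQ : Nondeg Q) (hiso : Isometric Q H)
    (h : TensorForm Q H e P C G₀) (hirr : ActsIrreducibly (matrixSet H)) (hn₁ : n₁ = 2) (hn₂ : 2 ≤ n₂)
    (hC : ∀ i, C i i = 0) (hG : ∀ k, G₀ k k = 0) (hCt : Cᵀ = -C) (hGt : G₀ᵀ = -G₀) :
    ∀ x y, Q (point e P (pure2 x y)) = 0 := by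
  classical
  subst hn₁
  have halt : ∀ {n : ℕ} (M : Matrix (Fin n) (Fin n) F), (∀ i, M i i = 0) → Mᵀ = -M →
      ∀ x, x ⬝ᵥ (M *ᵥ x) = 0 := by
    intro n M hd ht x
    simp only [dotProduct, Matrix.mulVec, Finset.mul_sum]
    rw [← Fintype.sum_prod_type (f := fun p : Fin n × Fin n => x p.1 * (M p.1 p.2 * x p.2))]
    refine Finset.sum_involution (fun p _ => p.swap) ?_ ?_ (fun p _ => Finset.mem_univ _) (fun p _ => rfl)
    · rintro ⟨a, b⟩ -
      have : M b a = -M a b := congrFun (congrFun ht a) b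
      simp only [Prod.swap_prod_mk, this]
      ring
    · rintro ⟨a, b⟩ - hne he
      simp only [Prod.swap_prod_mk, Prod.mk.injEq] at he
      simp [he.1, hd] at hne
  have haC := halt C hC hCt
  have haG := halt G₀ hG hGt
  rcases eq_or_ne (2 : F) 0 with h2 | h2
  swap
  · intro x y
    have h1 := h.polar_pure x x y y
    rw [polar_self_mul, haC, zero_mul] at h1
    exact (mul_eq_zero.mp h1).resolve_left h2
  have hneg : ∀ a : F, -a = a := fun a => by linear_combination (-a) * h2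
  set B := C ⊗ₖ G₀
  have hBt : Bᵀ = B := by
    ext ⟨i, k⟩ ⟨j, l⟩
    show C j i * G₀ l k = C i j * G₀ k l
    rw [show C j i = -C i j from congrFun (congrFun hCt i) j, show G₀ l k = -G₀ k l from
      congrFun (congrFun hGt k) l]
    ring
  obtain ⟨q, hqs, hqp, hq0⟩ := exists_triangular_quad B hBt (fun ⟨i, k⟩ => by
    show C i i * G₀ k k = 0
    rw [hC, zero_mul])
  have hzero : ∀ {n : ℕ} (d : (Fin n → F) → F), (∀ a b, d (a + b) = d a + d b) →
      (∀ (c : F) a, d (c • a) = c ^ 2 * d a) → (∀ i, d (Pi.single i 1) = 0) → ∀ a, d a = 0 := by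
    intro n d hadd hsm hbase a
    refine eq_zero_of_additive_sq hadd hsm (T := Set.range fun i => (Pi.single i 1 : Fin n → F)) ?_ ?_
    · rintro _ ⟨i, rfl⟩
      exact hbase i
    · have := (Pi.basisFun F (Fin n)).mem_span a
      rwa [show (⇑(Pi.basisFun F (Fin n))) = fun i => (Pi.single i 1 : Fin n → F) from
        funext fun i => Pi.basisFun_apply F (Fin n) i] at this
  have hqadd : ∀ u v, q (u + v) = q u + q v + u ⬝ᵥ (B *ᵥ v) := fun u v => by
    rw [← hqp]; simp only [QuadraticMap.polar]; ring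
  have hq1 : ∀ i y, q (pure2 (Pi.single i (1 : F)) y) = 0 := by
    intro i
    refine hzero _ (fun a b => ?_) (fun c a => ?_) (fun k => ?_)
    · rw [show pure2 (Pi.single i (1 : F)) (a + b) = pure2 (Pi.single i 1) a + pure2 (Pi.single i 1) b from
        funext fun _ => by simp [pure2, mul_add], hqadd, kronecker_pure, dot_pure]
      simp [hC]
    · rw [← hqs]; congr 1; funext j; simp [pure2, mul_left_comm]
    · rw [pure_single]; exact hq0 _
  have hq2 : ∀ x y, q (pure2 x y) = 0 := by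
    intro x y
    refine hzero (fun x => q (pure2 x y)) (fun a b => ?_) (fun c a => ?_) (fun i => hq1 i y) x
    · rw [show pure2 (a + b) y = pure2 a y + pure2 b y from funext fun _ => by simp [pure2, add_mul], hqadd,
        kronecker_pure, dot_pure, haG, mul_zero, add_zero]
    · rw [← hqs]; congr 1; funext j; simp [pure2, mul_assoc]
  let Dz : Submodule F (ι → F) :=
    { carrier := {v | Q v = q (coordMap e P v)}
      add_mem' := fun {a b} ha hb => by
        show Q (a + b) = q (coordMap e P (a + b))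
        rw [QuadraticMap.map_add ⇑Q, map_add, hqadd, show Q a = _ from ha, show Q b = _ from hb]
        congr 1
        conv_lhs => rw [← point_coordMap e P a, ← point_coordMap e P b]
        exact h.gram _ _
      zero_mem' := by
        show Q 0 = q (coordMap e P 0)
        rw [map_zero, map_zero]
        simpa using (hqs 0 0).symm
      smul_mem' := fun c v hv => by
        show Q (c • v) = q (coordMap e P (c • v))
        rw [QuadraticMap.map_smul, map_smul, hqs, smul_eq_mul, show Q v = _ from hv, pow_two] }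
  have hinv : ∀ g ∈ H, ∀ v ∈ Dz, act g v ∈ Dz := by
    intro g hg v hv
    obtain ⟨a, b, hact, -, -, hfix⟩ := h.action g hg
    show Q (act g v) = q (coordMap e P (act g v))
    rw [hiso g hg, show Q v = _ from hv]
    conv_rhs => rw [← point_coordMap e P v, show act g ((P : Matrix ι ι F) *ᵥ (coordMap e P v ∘ e)) = _
      from hact _, point, coordMap_point]
    set x := coordMap e P v
    have hd : q ((a ⊗ₖ b) *ᵥ x) - q x = 0 := by
      refine eq_zero_of_additive_sq (d := fun x => q ((a ⊗ₖ b) *ᵥ x) - q x) (fun u w => ?_) (fun c u => ?_)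
        (T := Set.range fun p => (Pi.single p 1 : Fin 2 × Fin n₂ → F)) ?_ ?_
      · rw [Matrix.mulVec_add, hqadd, hqadd]
        have h3 : ((a ⊗ₖ b) *ᵥ u) ⬝ᵥ (B *ᵥ ((a ⊗ₖ b) *ᵥ w)) = u ⬝ᵥ (B *ᵥ w) := by
          conv_rhs => rw [show B = (a ⊗ₖ b)ᵀ * B * (a ⊗ₖ b) from hfix.symm]
          rw [← Matrix.mulVec_mulVec, ← Matrix.mulVec_mulVec, Matrix.dotProduct_mulVec u,
            Matrix.vecMul_transpose]
        rw [h3]; ring
      · rw [Matrix.mulVec_smul, hqs, hqs]; ring
      · rintro _ ⟨⟨i, k⟩, rfl⟩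
        show q ((a ⊗ₖ b) *ᵥ Pi.single (i, k) 1) - q (Pi.single (i, k) 1) = 0
        rw [← pure_single, kronecker_pure, hq2, hq2, sub_zero]
      · have := (Pi.basisFun F (Fin 2 × Fin n₂)).mem_span x
        rwa [show (⇑(Pi.basisFun F (Fin 2 × Fin n₂))) = fun p => (Pi.single p 1 : Fin 2 × Fin n₂ → F) from
          funext fun p => Pi.basisFun_apply F (Fin 2 × Fin n₂) p] at this
    exact (sub_eq_zero.mp hd).symm
  have hne : Dz ≠ ⊥ := by
    set u₀ := point e P (Pi.single ((0 : Fin 2), (⟨0, by omega⟩ : Fin n₂)) 1) with hu₀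
    set u₁ := point e P (Pi.single ((1 : Fin 2), (⟨0, by omega⟩ : Fin n₂)) 1) with hu₁
    intro hbot
    have hd₀ : Q u₀ ≠ 0 := fun h0 => by
      have hmem : u₀ ∈ Dz := by
        show Q u₀ = q (coordMap e P u₀)
        rw [h0, hu₀, point, coordMap_point, hq0]
      have := congrFun (congrArg (coordMap e P) ((Submodule.eq_bot_iff Dz).mp hbot _ hmem))
        ((0 : Fin 2), ⟨0, by omega⟩)
      rw [hu₀, point, coordMap_point, map_zero] at this
      simp at this
    obtain ⟨s, hs⟩ := isSquare_of_two_eq_zero h2 (Q u₁ / Q u₀)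
    have hpol : polar Q (s • u₀) u₁ = 0 := by
      rw [polar_smul_left, hu₀, hu₁, ← pure_single, ← pure_single, h.polar_pure]
      simp [hG]
    have hmem : s • u₀ + u₁ ∈ Dz := by
      show Q (s • u₀ + u₁) = q (coordMap e P (s • u₀ + u₁))
      rw [QuadraticMap.map_add ⇑Q, hpol, QuadraticMap.map_smul, smul_eq_mul, ← hs, div_mul_cancel₀ _ hd₀,
        map_add, map_smul, hqadd, hqs, hu₀, hu₁, point, point, coordMap_point, coordMap_point, hq0, hq0]
      simp [B, hG]
      rw [← two_mul, h2, zero_mul]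
    have := congrFun (congrArg (coordMap e P) ((Submodule.eq_bot_iff Dz).mp hbot _ hmem))
      ((1 : Fin 2), ⟨0, by omega⟩)
    rw [map_add, map_smul, hu₀, hu₁, point, point, coordMap_point, coordMap_point, map_zero] at this
    simp at this
  intro x y
  rcases actsIrreducibly_iff.mp hirr Dz hinv with h0 | h1
  · exact absurd h0 hne
  · have hmem : point e P (pure2 x y) ∈ Dz := h1 ▸ Submodule.mem_top
    rw [show Q (point e P (pure2 x y)) = _ from hmem, point, coordMap_point]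
    exact hq2 x y

/-- Two alternating factors, the first of dimension two, give plus type. -/
theorem TensorForm.isPlus_of_alternating (hQ : Nondeg Q) (hiso : Isometric Q H)
    (h : TensorForm Q H e P C G₀) (hirr : ActsIrreducibly (matrixSet H)) (hn₁ : n₁ = 2) (hn₂ : 2 ≤ n₂)
    (hC : ∀ i, C i i = 0) (hG : ∀ k, G₀ k k = 0) (hCt : Cᵀ = -C) (hGt : G₀ᵀ = -G₀) :
    IsPlusTypeOn (⇑Q) ⊤ := by
  classical
  have hpure := h.pure_zero hQ hiso hirr hn₁ hn₂ hC hG hCt hGt
  subst hn₁
  let U : Submodule F (ι → F) := LinearMap.range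
    ({ toFun := fun y => point e P (pure2 (Pi.single 0 1) y)
       map_add' := fun y y' => by
         rw [← point_add]; congr 1; funext i; simp [pure2, mul_add]
       map_smul' := fun c y => by
         rw [RingHom.id_apply, ← point_smul]; congr 1; funext i; simp [pure2, mul_left_comm] } :
      (Fin n₂ → F) →ₗ[F] (ι → F))
  have hUd : finrank F U = n₂ := by
    refine (LinearMap.finrank_range_of_inj fun y y' hyy => ?_).trans (finrank_fin_fun F)
    funext k
    simpa [pure2] using congrFun (point_injective e P hyy) (0, k)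
  have hcard : Fintype.card ι = 2 * n₂ := by
    rw [Fintype.card_congr e, Fintype.card_prod, Fintype.card_fin, Fintype.card_fin]
  exact ⟨U, le_top, by rintro _ ⟨y, rfl⟩; exact hpure _ _, by
    rw [hUd, finrank_top, finrank_fintype_fun_eq_card, hcard]⟩


/-- A symmetric factor of dimension two on the left gives a commutative algebra normalised by `H`. -/
theorem TensorForm.left_symmetric_or_pair (hQ : Nondeg Q) (hn : 5 ≤ Fintype.card ι) (hH : H ≤ omegaGL (⇑Q))
    (hirr : ActsIrreducibly (matrixSet H)) {e : ι ≃ Fin 2 × Fin n₂} {C : Matrix (Fin 2) (Fin 2) F}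
    (h : TensorForm Q H e P C G₀) (h2 : (2 : F) ≠ 0) (hC : Cᵀ = C) :
    OrthDecomp Q H ∨ SingularPair Q H ∨ QuadField Q H := by
  classical
  have hs := sesqui_polar Q
  have hnd := isNondegenerateForm_polar hQ
  set J : Matrix (Fin 2) (Fin 2) F := !![0, 1; -1, 0] with hJ
  have hJt : Jᵀ = -J := by ext i j; fin_cases i <;> fin_cases j <;> simp [J]
  set W := C⁻¹ * J with hW
  have hCW : C * W = J := by rw [hW, ← Matrix.mul_assoc, Matrix.mul_nonsing_inv _ h.det_left, Matrix.one_mul]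
  have hWC : Wᵀ * C = -J := by
    rw [hW, Matrix.transpose_mul, Matrix.transpose_nonsing_inv, hC, Matrix.mul_assoc,
      Matrix.nonsing_inv_mul _ h.det_left, Matrix.mul_one, hJt]
  set Wk : Matrix (Fin 2 × Fin n₂) (Fin 2 × Fin n₂) F := W ⊗ₖ (1 : Matrix (Fin n₂) (Fin n₂) F)
  let L : (ι → F) →ₗ[F] (ι → F) :=
    { toFun := fun v => point e P (Wk *ᵥ coordMap e P v)
      map_add' := fun u v => by rw [map_add, Matrix.mulVec_add, point_add]
      map_smul' := fun c v => by rw [map_smul, Matrix.mulVec_smul, point_smul, RingHom.id_apply] }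
  set T : Matrix ι ι F := LinearMap.toMatrix' L
  have hT : ∀ x, T *ᵥ point e P x = point e P (Wk *ᵥ x) := fun x => by
    rw [← Matrix.toLin'_apply, Matrix.toLin'_toMatrix']
    show point e P (Wk *ᵥ coordMap e P (point e P x)) = _
    simp only [point, coordMap_point]
  have hsurj : ∀ v : ι → F, ∃ x, point e P x = v := fun v => ⟨coordMap e P v, point_coordMap e P v⟩
  have hskew : ∀ u v, polar Q (T *ᵥ u) v = -polar Q u (T *ᵥ v) := by
    intro u v
    obtain ⟨x, rfl⟩ := hsurj u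
    obtain ⟨y, rfl⟩ := hsurj v
    rw [hT, hT, h.gram, h.gram]
    rw [← Matrix.vecMul_transpose, ← Matrix.dotProduct_mulVec, Matrix.mulVec_mulVec, Matrix.mulVec_mulVec,
      ← Matrix.kroneckerMap_transpose, ← Matrix.mul_kronecker_mul, ← Matrix.mul_kronecker_mul, hWC, hCW,
      Matrix.transpose_one, Matrix.one_mul, Matrix.mul_one, ← dotProduct_neg, ← Matrix.neg_mulVec]
    congr 2
    ext a b
    simp
  set Z := Algebra.adjoin F ({T} : Set (Matrix ι ι F)) with hZ
  have hTZ : T ∈ Z := Algebra.subset_adjoin rfl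
  have hcomm : ∀ x ∈ Z, ∀ y ∈ Z, x * y = y * x := by
    intro x hx y hy
    exact (Algebra.commute_of_mem_adjoin_self hy |>.symm |> fun hyT =>
      (Algebra.commute_of_mem_adjoin_singleton_of_commute hx hyT).symm).eq
  have hadj : IsAdjointClosedFor (polar (⇑Q)) Z := by
    intro k hk
    induction hk using Algebra.adjoin_induction with
    | mem x hx =>
      rw [Set.mem_singleton_iff.mp hx]
      exact ⟨-T, Z.neg_mem hTZ, fun u v => by rw [hskew, Matrix.neg_mulVec, QuadraticMap.polar_neg_right]⟩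
    | algebraMap c =>
      refine ⟨algebraMap F _ c, Z.algebraMap_mem c, fun u v => ?_⟩
      simp [Algebra.algebraMap_eq_smul_one, Matrix.smul_mulVec]
    | add a b _ _ ha hb =>
      obtain ⟨a', ha', hA⟩ := ha
      obtain ⟨b', hb', hB⟩ := hb
      exact ⟨a' + b', Z.add_mem ha' hb', fun u v => by
        rw [Matrix.add_mulVec, Matrix.add_mulVec, polar_add_left, polar_add_right, hA, hB]⟩
    | mul a b _ _ ha hb =>
      obtain ⟨a', ha', hA⟩ := ha
      obtain ⟨b', hb', hB⟩ := hb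
      exact ⟨b' * a', Z.mul_mem hb' ha', fun u v => by
        rw [← Matrix.mulVec_mulVec, ← Matrix.mulVec_mulVec, hA, hB]⟩
  have hdet : ∀ a : Matrix (Fin 2) (Fin 2) F, aᵀ * J * a = a.det • J := by
    intro a
    ext i j
    fin_cases i <;> fin_cases j <;> simp [J, Matrix.mul_apply, Matrix.det_fin_two, Fin.sum_univ_two] <;> ring
  have hconj : ∀ g ∈ H, conjAlg g T ∈ Z := by
    intro g hg
    obtain ⟨a, b, hact, ⟨c, hc, hac⟩, -, -⟩ := h.action g hg
    have ha0 : a.det ≠ 0 := fun h0 => by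
      have h1 := congrArg Matrix.det hac
      rw [Matrix.det_mul, Matrix.det_mul, h0, mul_zero, Matrix.det_smul] at h1
      exact mul_ne_zero (pow_ne_zero _ hc) h.det_left.ne_zero h1.symm
    have haW : a * W = (c / a.det) • (W * a) := by
      have h1 : aᵀ * C * (a * W) = aᵀ * C * ((c / a.det) • (W * a)) := by
        calc aᵀ * C * (a * W) = c • J := by rw [← Matrix.mul_assoc, hac, Matrix.smul_mul, hCW]
          _ = (c / a.det) • (aᵀ * J * a) := by rw [hdet, smul_smul, div_mul_cancel₀ _ ha0]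
          _ = (c / a.det) • (aᵀ * C * (W * a)) := by
              rw [Matrix.mul_assoc aᵀ C, ← Matrix.mul_assoc C, hCW, ← Matrix.mul_assoc]
          _ = _ := (Matrix.mul_smul _ _ _).symm
      have hu : IsUnit (aᵀ * C) := (Matrix.isUnit_iff_isUnit_det _).mpr (by
        rw [Matrix.det_mul, Matrix.det_transpose]; exact (isUnit_iff_ne_zero.mpr ha0).mul h.det_left)
      exact hu.mul_left_cancel h1
    have hgT : ∀ v, act g (T *ᵥ v) = ((c / a.det) • T) *ᵥ act g v := by
      intro v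
      obtain ⟨x, rfl⟩ := hsurj v
      rw [hT, hact, hact, Matrix.smul_mulVec, hT, ← point_smul]
      congr 1
      rw [Matrix.mulVec_mulVec, Matrix.mulVec_mulVec, ← Matrix.smul_mulVec, ← Matrix.mul_kronecker_mul,
        ← Matrix.mul_kronecker_mul, haW, Matrix.smul_kronecker, Matrix.mul_one, Matrix.one_mul]
    have hE : conjAlg g T = (c / a.det) • T := by
      refine Matrix.ext_of_mulVec_single fun i => ?_
      rw [conjAlg_apply, ← Matrix.mulVec_mulVec, ← Matrix.mulVec_mulVec]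
      show act g (T *ᵥ act g⁻¹ _) = _
      rw [hgT, act_act_inv]
    rw [hE]
    exact Z.smul_mem hTZ _
  have hZH : H ≤ subalgebraNormalizer Z := by
    have hmap : ∀ g ∈ H, ∀ k ∈ Z, conjAlg g k ∈ Z := fun g hg k hk => by
      have hle : Z.map (conjAlg g).toAlgHom ≤ Z := by
        rw [hZ, AlgHom.map_adjoin, Algebra.adjoin_le_iff]
        rintro _ ⟨t, rfl, rfl⟩
        exact hconj g hg
      exact hle ⟨k, hk, rfl⟩
    intro g hg k
    refine ⟨fun hk => by have := hmap g hg k hk; rwa [conjAlg_apply] at this, fun hk => ?_⟩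
    have := hmap g⁻¹ (H.inv_mem hg) _ hk
    rwa [← conjAlg_apply, conjAlg_inv_self] at this
  have hWk0 : ∃ x, Wk *ᵥ x ≠ 0 := by
    by_contra hall
    push Not at hall
    have hz : Wk = 0 := Matrix.ext_of_mulVec_single fun i => by rw [hall, Matrix.zero_mulVec]
    have hd : Wk.det ≠ 0 := by
      simp [Wk, Matrix.det_kronecker, hW, Matrix.det_mul, Matrix.det_nonsing_inv, h.det_left.ne_zero, J,
        Matrix.det_fin_two_of]
    obtain ⟨i⟩ : Nonempty ι := Fintype.card_pos_iff.mp (by omega)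
    haveI : Nonempty (Fin 2 × Fin n₂) := ⟨e i⟩
    rw [hz, Matrix.det_zero] at hd
    exact hd rfl
  have hne : ∀ c : F, T ≠ c • 1 := by
    intro c hc
    obtain ⟨x, hx⟩ := hWk0
    have hc0 : c = 0 := by
      obtain ⟨i⟩ : Nonempty ι := Fintype.card_pos_iff.mp (by omega)
      obtain ⟨v, hv⟩ := (hnd (Pi.single i 1 : ι → F) (by simp)).2
      have h1 := hskew (Pi.single i 1) v
      rw [hc, Matrix.smul_mulVec, Matrix.one_mulVec, Matrix.smul_mulVec, Matrix.one_mulVec,
        polar_smul_left, polar_smul_right, smul_eq_mul, eq_neg_iff_add_eq_zero, ← two_mul] at h1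
      exact (mul_eq_zero.mp ((mul_eq_zero.mp h1).resolve_left h2)).resolve_right hv
    apply hx
    have h1 := hT x
    rw [hc, hc0, zero_smul, Matrix.zero_mulVec] at h1
    exact point_injective e P (by rw [← h1]; simp [point])
  rcases algebra_or_pair hQ hn hH hirr hZH hcomm hadj ⟨T, hTZ, hne⟩ with h' | h' | h' | ⟨-, hsa, -⟩
  · exact Or.inl h'
  · exact Or.inr (Or.inl h')
  · exact Or.inr (Or.inr h')
  exfalso
  refine hne 0 ?_
  rw [zero_smul]
  refine eq_of_adjoint hs hnd fun u v => ?_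
  rw [Matrix.zero_mulVec, QuadraticMap.polar_zero_right]
  have h1 := hskew u v
  rw [hsa T hTZ, eq_neg_iff_add_eq_zero, ← two_mul] at h1
  exact (mul_eq_zero.mp h1).resolve_left h2

/-- The same, in a dimension excluding a single pair. -/
theorem TensorForm.left_symmetric (hQ : Nondeg Q) (hn : 5 ≤ Fintype.card ι) (hH : H ≤ omegaGL (⇑Q))
    (hirr : ActsIrreducibly (matrixSet H)) {e : ι ≃ Fin 2 × Fin n₂} {C : Matrix (Fin 2) (Fin 2) F}
    (h : TensorForm Q H e P C G₀) (h2 : (2 : F) ≠ 0) (hC : Cᵀ = C)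
    (hbad : IsPlusTypeOn (⇑Q) ⊤ → Odd (Fintype.card ι / 2)) : OrthDecomp Q H ∨ QuadField Q H :=
  (h.left_symmetric_or_pair hQ hn hH hirr h2 hC).imp_right fun h' =>
    h'.resolve_left fun hp => hp.not_odd hQ hn hH hirr (hbad hp.isPlus)

/-- A symmetric factor of dimension two on the right gives an abelian normal subgroup. -/
theorem TensorForm.right_symmetric {N : Subgroup (GL ι F)} {e : ι ≃ Fin n₁ × Fin 2}
    {G₀ : Matrix (Fin 2) (Fin 2) F} (h : TensorForm Q H e P C G₀) (h2 : (2 : F) ≠ 0) (hG : G₀ᵀ = G₀)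
    (hN : NormalIn N H) (hNs : ¬ N ≤ scalars ι F)
    (hinner : ∀ x ∈ N, ∃ b : Matrix (Fin 2) (Fin 2) F, bᵀ * G₀ * b = G₀ ∧
        ∀ v, act x (point e P v) = point e P (((1 : Matrix (Fin n₁) (Fin n₁) F) ⊗ₖ b) *ᵥ v)) :
    ∃ A : Subgroup (GL ι F), NormalIn A H ∧ ¬ A ≤ scalars ι F ∧ ∀ a ∈ A, ∀ b ∈ A, a * b = b * a := by
  classical
  let Q₀ : QuadraticForm F (Fin 2 → F) := LinearMap.BilinMap.toQuadraticMap (Matrix.toBilin' G₀)
  have hQ₀ : ∀ x, Q₀ x = x ⬝ᵥ (G₀ *ᵥ x) := fun x => by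
    simp only [Q₀, LinearMap.BilinMap.toQuadraticMap_apply, Matrix.toBilin'_apply']
  have hQnd : Nondeg Q₀ := by
    intro x hx
    have hGx : G₀ *ᵥ x = 0 := dotProduct_eq_zero _ fun y => by
      have h1 := hx y
      simp only [QuadraticMap.polar, hQ₀, Matrix.mulVec_add, add_dotProduct, dotProduct_add] at h1
      have hsym : x ⬝ᵥ (G₀ *ᵥ y) = y ⬝ᵥ (G₀ *ᵥ x) := by
        conv_lhs => rw [Matrix.dotProduct_mulVec, ← Matrix.mulVec_transpose, hG]
        exact dotProduct_comm _ _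
      rw [dotProduct_comm]
      refine (mul_eq_zero.mp ?_).resolve_left h2
      linear_combination h1 - hsym
    exact Matrix.eq_zero_of_mulVec_eq_zero h.det_right.ne_zero hGx
  have hK : IsFieldSubalgebra 1 (⊥ : Subalgebra F (Matrix (Fin 2) (Fin 2) F)) := by
    refine ⟨fun x hx y _ => ?_, fun x hx hx0 => ?_, Subalgebra.finrank_bot⟩
    · obtain ⟨c, rfl⟩ := Algebra.mem_bot.mp hx
      exact Algebra.commutes c y
    · obtain ⟨c, rfl⟩ := Algebra.mem_bot.mp hx
      have hc : c ≠ 0 := fun hc => hx0 (by rw [hc, map_zero])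
      exact ⟨algebraMap F _ c⁻¹, Subalgebra.algebraMap_mem _ _, by rw [← map_mul, mul_inv_cancel₀ hc, map_one]⟩
  have hsa : IsSelfAdjointFor (polar (⇑Q₀)) (⊥ : Subalgebra F (Matrix (Fin 2) (Fin 2) F)) := by
    intro k hk u v
    obtain ⟨c, rfl⟩ := Algebra.mem_bot.mp hk
    simp [Algebra.algebraMap_eq_smul_one, Matrix.smul_mulVec]
  have hext : ∀ x y : GL ι F, (∀ v, act x (point e P v) = act y (point e P v)) → x = y := fun x y hxy =>
    Geometric.gl_ext fun v => by
      rw [← point_coordMap e P v]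
      exact hxy _
  refine exists_abelian_of_commute hN hNs fun u hu v hv hu2 hv2 => ?_
  obtain ⟨bu, hbu, hau⟩ := hinner u hu
  obtain ⟨bv, hbv, hav⟩ := hinner v hv
  have hinv : ∀ b : Matrix (Fin 2) (Fin 2) F, bᵀ * G₀ * b = G₀ → IsUnit b := fun b hb => by
    refine (Matrix.isUnit_iff_isUnit_det _).mpr (isUnit_iff_ne_zero.mpr fun h0 => h.det_right.ne_zero ?_)
    rw [← hb, Matrix.det_mul, h0, mul_zero]
  set gu : GL (Fin 2) F := (hinv bu hbu).unit
  set gv : GL (Fin 2) F := (hinv bv hbv).unit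
  have hiso : ∀ b : Matrix (Fin 2) (Fin 2) F, bᵀ * G₀ * b = G₀ → ∀ x, Q₀ (b *ᵥ x) = Q₀ x := fun b hb x => by
    rw [hQ₀, hQ₀]
    conv_rhs => rw [← hb, ← Matrix.mulVec_mulVec, ← Matrix.mulVec_mulVec, Matrix.dotProduct_mulVec x,
      Matrix.vecMul_transpose]
  have hsq : ∀ (g : GL ι F) (b : Matrix (Fin 2) (Fin 2) F),
      (∀ w, act g (point e P w) = point e P (((1 : Matrix (Fin n₁) (Fin n₁) F) ⊗ₖ b) *ᵥ w)) →
      g * g ≠ 1 → b * b ≠ 1 := fun g b hg hg2 hb => hg2 (hext _ _ fun w => by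
    rw [act_mul, hg, hg, Matrix.mulVec_mulVec, ← Matrix.mul_kronecker_mul, Matrix.mul_one, hb,
      Matrix.one_kronecker_one, Matrix.one_mulVec, act_one])
  have hcm := plane_commute hQnd hsa hK (by simp) one_pos (g := gu) (h := gv) (hiso bu hbu) (hiso bv hbv)
    (fun k hk => by obtain ⟨c, rfl⟩ := Algebra.mem_bot.mp hk; exact Algebra.commutes c _)
    (fun k hk => by obtain ⟨c, rfl⟩ := Algebra.mem_bot.mp hk; exact Algebra.commutes c _)
    (fun he => hsq u bu hau hu2 (congrArg Units.val he)) (fun he => hsq v bv hav hv2 (congrArg Units.val he))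
  have hbb : bu * bv = bv * bu := congrArg Units.val hcm
  refine hext _ _ fun w => ?_
  rw [act_mul, act_mul, hau, hav, hav, hau, Matrix.mulVec_mulVec, Matrix.mulVec_mulVec,
    ← Matrix.mul_kronecker_mul, ← Matrix.mul_kronecker_mul, Matrix.mul_one, hbb]

lemma even_of_alternating {n : ℕ} {M : Matrix (Fin n) (Fin n) F} (hd : ∀ i, M i i = 0) (ht : Mᵀ = -M)
    (hdet : IsUnit M.det) : Even n := by
  by_contra hodd
  refine no_alternating_odd (ι := Fin n) (by rw [Fintype.card_fin]; exact Nat.not_even_iff_odd.mp hodd)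
    (f := fun x y => x ⬝ᵥ (M *ᵥ y)) ⟨fun x y v => add_dotProduct _ _ _, fun c x v => by simp [smul_dotProduct],
      fun v x y => by simp [Matrix.mulVec_add, dotProduct_add],
      fun c v x => by simp [Matrix.mulVec_smul, dotProduct_smul]⟩ (fun v => ?_) fun v hv => ?_
  · simp only [dotProduct, Matrix.mulVec, Finset.mul_sum]
    rw [← Fintype.sum_prod_type (f := fun p : Fin n × Fin n => v p.1 * (M p.1 p.2 * v p.2))]
    refine Finset.sum_involution (fun p _ => p.swap) ?_ ?_ (fun p _ => Finset.mem_univ _) (fun p _ => rfl)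
    · rintro ⟨a, b⟩ -
      have : M b a = -M a b := congrFun (congrFun ht a) b
      simp only [Prod.swap_prod_mk, this]
      ring
    · rintro ⟨a, b⟩ - hne he
      simp only [Prod.swap_prod_mk, Prod.mk.injEq] at he
      simp [he.1, hd] at hne
  · have hMv : M *ᵥ v ≠ 0 := fun h0 => hv (Matrix.eq_zero_of_mulVec_eq_zero hdet.ne_zero h0)
    have hvM : v ᵥ* M ≠ 0 := fun h0 => hv (Matrix.eq_zero_of_vecMul_eq_zero hdet.ne_zero h0)
    refine ⟨?_, ?_⟩
    · by_contra hall
      push Not at hall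
      exact hMv (dotProduct_eq_zero _ fun x => by rw [dotProduct_comm]; exact hall x)
    · by_contra hall
      push Not at hall
      exact hvM (dotProduct_eq_zero _ fun x => by rw [← Matrix.dotProduct_mulVec]; exact hall x)

/-- Clifford's tensor case with a factor of dimension two. -/
theorem tensor_cases [Fintype F] (hQ : Nondeg Q) (hn : 5 ≤ Fintype.card ι) {N : Subgroup (GL ι F)}
    (hH : H ≤ omegaGL (⇑Q)) (hirr : ActsIrreducibly (matrixSet H)) (hN : NormalIn N H)
    (hNs : ¬ N ≤ scalars ι F) (hT : TensorCase H N n₁ n₂ e P) (hsize : n₁ = 2 ∨ n₂ = 2)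
    (hbad : IsPlusTypeOn (⇑Q) ⊤ → Odd (Fintype.card ι / 2)) : OrthDecomp Q H ∨ QuadField Q H := by
  classical
  have hiso := isometric_of_le_omega hH
  obtain ⟨C, G₀, h, hinner⟩ := exists_tensorForm hQ hiso hN hT
  have hC0 : C ≠ 0 := fun e0 => by
    have hd := h.det_left.ne_zero
    haveI : Nonempty (Fin n₁) := ⟨⟨0, by have := hT.two_le_left; omega⟩⟩
    rw [e0, Matrix.det_zero] at hd
    exact hd rfl
  have hG0 : G₀ ≠ 0 := fun e0 => by
    have hd := h.det_right.ne_zero
    haveI : Nonempty (Fin n₂) := ⟨⟨0, by have := hT.two_le_right; omega⟩⟩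
    rw [e0, Matrix.det_zero] at hd
    exact hd rfl
  have hsym : Cᵀ ⊗ₖ G₀ᵀ = C ⊗ₖ G₀ := by
    ext p r
    have h1 := h.gram (Pi.single p 1) (Pi.single r 1)
    have h2' := h.gram (Pi.single r 1) (Pi.single p 1)
    rw [QuadraticMap.polar_comm, h1] at h2'
    simpa [Matrix.mulVec_single_one] using h2'.symm
  have key : (Cᵀ = C ∧ G₀ᵀ = G₀) ∨ (Cᵀ = -C ∧ G₀ᵀ = -G₀) := by
    obtain ⟨⟨c, -, hc⟩, ⟨c', -, hc'⟩⟩ := exists_smul_of_kronecker hC0 hG0 hsym
    have hcc : c * c = 1 := by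
      have h1 := congrArg Matrix.transpose hc
      rw [Matrix.transpose_transpose, Matrix.transpose_smul, hc, smul_smul] at h1
      exact (smul_left_injective F hC0 ((one_smul F C).trans h1)).symm
    have hcc' : c * c' = 1 := by
      rw [hc, hc', Matrix.smul_kronecker, Matrix.kronecker_smul, smul_smul] at hsym
      refine smul_left_injective F (fun h0 => ?_) (hsym.trans (one_smul F _).symm)
      obtain ⟨i, j, hij⟩ : ∃ i j, C i j ≠ 0 := by
        by_contra hall; push Not at hall; exact hC0 (Matrix.ext hall)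
      obtain ⟨k, l, hkl⟩ : ∃ k l, G₀ k l ≠ 0 := by
        by_contra hall; push Not at hall; exact hG0 (Matrix.ext hall)
      exact mul_ne_zero hij hkl (congrFun (congrFun h0 (i, k)) (j, l))
    rcases mul_self_eq_one_iff.mp hcc with rfl | rfl
    · rw [one_mul] at hcc'
      subst hcc'
      rw [one_smul] at hc hc'
      exact Or.inl ⟨hc, hc'⟩
    · have : c' = -1 := by linear_combination -hcc'
      subst this
      rw [neg_smul, one_smul] at hc hc'
      exact Or.inr ⟨hc, hc'⟩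
  have halt : ∀ (hd : ∀ i, C i i = 0) (hd' : ∀ k, G₀ k k = 0), Cᵀ = -C → G₀ᵀ = -G₀ → False := by
    intro hd hd' ht ht'
    have he₁ := even_of_alternating hd ht h.det_left
    have he₂ := even_of_alternating hd' ht' h.det_right
    have hcard : Fintype.card ι = n₁ * n₂ := by
      rw [Fintype.card_congr e, Fintype.card_prod, Fintype.card_fin, Fintype.card_fin]
    have hp : IsPlusTypeOn (⇑Q) ⊤ := by
      rcases hsize with hs | hs
      · exact h.isPlus_of_alternating hQ hiso hirr hs hT.two_le_right hd hd' ht ht'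
      · exact h.swap.isPlus_of_alternating hQ hiso hirr hs hT.two_le_left hd' hd ht' ht
    have hodd := hbad hp
    rw [hcard] at hodd
    refine Nat.not_even_iff_odd.mpr hodd ?_
    rcases hsize with rfl | rfl
    · rwa [Nat.mul_div_cancel_left _ two_pos]
    · rwa [Nat.mul_div_cancel _ two_pos]
  rcases two_eq_zero_or_ne (F := F) with ⟨h2, -⟩ | ⟨h2, -⟩
  · exfalso
    have hneg : ∀ {m : ℕ} (M : Matrix (Fin m) (Fin m) F), -M = M := fun M => Matrix.ext fun i j => by
      show -M i j = M i j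
      linear_combination (-M i j) * h2
    obtain ⟨hCt, hGt⟩ : Cᵀ = C ∧ G₀ᵀ = G₀ := by
      rcases key with h' | ⟨h', h''⟩
      · exact h'
      · exact ⟨by rw [h', hneg], by rw [h'', hneg]⟩
    exact halt (fun i => h.diag_zero hirr hT.two_le_left (by have := hT.two_le_right; omega) h2 hCt i)
      (fun k => h.swap.diag_zero hirr hT.two_le_right (by have := hT.two_le_left; omega) h2 hGt k)
      (by rw [hneg, hCt]) (by rw [hneg, hGt])
  rcases key with ⟨hCt, hGt⟩ | ⟨hCt, hGt⟩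
  swap
  · exfalso
    have hd : ∀ {m : ℕ} (M : Matrix (Fin m) (Fin m) F), Mᵀ = -M → ∀ i, M i i = 0 := fun M hM i => by
      have h1 : M i i = -M i i := congrFun (congrFun hM i) i
      rw [eq_neg_iff_add_eq_zero, ← two_mul] at h1
      exact (mul_eq_zero.mp h1).resolve_left h2
    exact halt (hd C hCt) (hd G₀ hGt) hCt hGt
  rcases hsize with rfl | rfl
  · exact h.left_symmetric hQ hn hH hirr h2 hCt hbad
  · obtain ⟨A, hA, hAs, hAc⟩ := h.right_symmetric h2 hGt hN hNs hinner
    exact abelian_cases hQ hn hH hirr hA hAs hAc hbad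

end CfsgLib.SmallDim.OrthEven
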