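import Cfsg.Agent.Lib.SmallDim.OrthEvenBasic
import Cfsg.Agent.Lib.Forms.SymmOrtho
import Cfsg.Agent.Lib.Geometric.Orth.AntiIsometry
import Cfsg.Agent.Lib.ClassicalForms.Ortho.Standard

/-!
The type of an even-dimensional quadratic space: isometric orthogonal halves, and, over a finite field of odd
order, the discriminant, the classification of non-degenerate spaces, and the criterion for plus type.
-/

set_option autoImplicit false
set_option linter.style.haveILetI false
set_option linter.unusedSectionVars false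

namespace CfsgLib.SmallDim.OrthEven

open scoped MatrixGroups Matrix
open Cfsg.Geo QuadraticMap CfsgLib.ClassicalForms Module

variable {F : Type*} [Field F]

section Abstract

variable {V V' : Type*} [AddCommGroup V] [Module F V] [FiniteDimensional F V]
  [AddCommGroup V'] [Module F V'] [FiniteDimensional F V']

/-- The determinant of a Gram matrix of a bilinear form. -/
noncomputable def gdet (B : LinearMap.BilinForm F V) : F :=
  (LinearMap.BilinForm.toMatrix (finBasis F V) B).det

lemma gdet_basis {κ : Type*} [Fintype κ] [DecidableEq κ] (B : LinearMap.BilinForm F V) (b : Basis κ F V) :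
    ∃ s : F, s ≠ 0 ∧ (LinearMap.BilinForm.toMatrix b B).det = s ^ 2 * gdet B := by
  classical
  let e : Fin (finrank F V) ≃ κ := Fintype.equivOfCardEq
    (by rw [Fintype.card_fin, finrank_eq_card_basis b])
  set c := (finBasis F V).reindex e
  have hc : (LinearMap.BilinForm.toMatrix c B).det = gdet B := by
    rw [gdet, ← Matrix.det_submatrix_equiv_self e (LinearMap.BilinForm.toMatrix c B)]
    congr 1
    ext i j
    simp [c, LinearMap.BilinForm.toMatrix_apply]
  refine ⟨(c.toMatrix b).det, ?_, ?_⟩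
  · intro h
    have h1 := congrArg Matrix.det (c.toMatrix_mul_toMatrix_flip b)
    rw [Matrix.det_mul, h, zero_mul, Matrix.det_one] at h1
    exact zero_ne_one h1
  · have h := congrArg Matrix.det (LinearMap.BilinForm.toMatrix_mul_basis_toMatrix (b := c) b B)
    rw [Matrix.det_mul, Matrix.det_mul, Matrix.det_transpose, hc] at h
    linear_combination -h

lemma gdet_ne_zero (B : LinearMap.BilinForm F V) (hB : B.Nondegenerate) : gdet B ≠ 0 :=
  (LinearMap.BilinForm.nondegenerate_iff_det_ne_zero (finBasis F V)).mp hB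

lemma isSquare_cancel {a b c : F} (hb : b ≠ 0) (h1 : IsSquare (a * b)) (h2 : IsSquare (b * c)) :
    IsSquare (a * c) := by
  obtain ⟨s, hs⟩ := h1
  obtain ⟨t, ht⟩ := h2
  exact ⟨s * t / b, by field_simp; linear_combination (s * s) * ht + (b * c) * hs⟩

/-- Isometric forms have determinants in the same class. -/
lemma isSquare_gdet_of_isometry (B : LinearMap.BilinForm F V) (B' : LinearMap.BilinForm F V') (e : V ≃ₗ[F] V')
    (he : ∀ x y, B' (e x) (e y) = B x y) : IsSquare (gdet B * gdet B') := by
  obtain ⟨s, -, hs⟩ := gdet_basis B' ((finBasis F V).map e)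
  have hm : LinearMap.BilinForm.toMatrix ((finBasis F V).map e) B' =
      LinearMap.BilinForm.toMatrix (finBasis F V) B := by
    ext i j; simp [LinearMap.BilinForm.toMatrix_apply, he]
  rw [hm] at hs
  exact ⟨s * gdet B', by rw [show gdet B = s ^ 2 * gdet B' from hs]; ring⟩

/-- A form with an isotropic half. -/
theorem isSquare_gdet_of_isotropic (B : LinearMap.BilinForm F V) (hS : B.IsSymm) {m : ℕ}
    (hV : finrank F V = 2 * m) {U : Submodule F V} (hU : finrank F U = m)
    (h0 : ∀ x ∈ U, ∀ y ∈ U, B x y = 0) : IsSquare ((-1 : F) ^ m * gdet B) := by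
  classical
  obtain ⟨U', hU'⟩ := U.exists_isCompl
  have hU'm : finrank F U' = m := by
    have := Submodule.finrank_add_eq_of_isCompl hU'
    omega
  let b₁ := finBasisOfFinrankEq F U hU
  let b₂ := finBasisOfFinrankEq F U' hU'm
  let b := (b₁.prod b₂).map (Submodule.prodEquivOfIsCompl U U' hU')
  obtain ⟨s, hs0, hs⟩ := gdet_basis B b
  have hl : ∀ i, b (Sum.inl i) = (b₁ i : V) := fun i => by simp [b]
  have hr : ∀ i, b (Sum.inr i) = (b₂ i : V) := fun i => by simp [b]
  set A : Matrix (Fin m) (Fin m) F := Matrix.of fun i j => B (b₁ i : V) (b₂ j)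
  set C : Matrix (Fin m) (Fin m) F := Matrix.of fun i j => B (b₂ i : V) (b₂ j)
  have hM : LinearMap.BilinForm.toMatrix b B = Matrix.fromBlocks 0 A Aᵀ C := by
    ext i j
    rw [LinearMap.BilinForm.toMatrix_apply]
    rcases i with i | i <;> rcases j with j | j <;> simp only [hl, hr, Matrix.fromBlocks_apply₁₁,
      Matrix.fromBlocks_apply₁₂, Matrix.fromBlocks_apply₂₁, Matrix.fromBlocks_apply₂₂]
    · exact h0 _ (b₁ i).2 _ (b₁ j).2
    · rfl
    · exact hS.eq _ _
    · rfl
  set S : Matrix (Fin m ⊕ Fin m) (Fin m ⊕ Fin m) F := Matrix.fromBlocks 0 1 1 0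
  have hSdet : S.det = (-1) ^ m := by
    have h1 : Matrix.fromBlocks (1 : Matrix (Fin m) (Fin m) F) 1 0 1 * S = Matrix.fromBlocks 1 1 1 0 := by
      simp [S, Matrix.fromBlocks_multiply]
    have h2 := congrArg Matrix.det h1
    rw [Matrix.det_mul, Matrix.det_fromBlocks_one₁₁, Matrix.det_fromBlocks_one₁₁] at h2
    simpa [Matrix.det_neg] using h2
  have h3 : (Matrix.fromBlocks 0 A Aᵀ C * S).det = A.det * A.det := by
    rw [show Matrix.fromBlocks 0 A Aᵀ C * S = Matrix.fromBlocks A 0 C Aᵀ by
      simp [S, Matrix.fromBlocks_multiply], Matrix.det_fromBlocks_zero₁₂, Matrix.det_transpose]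
  rw [Matrix.det_mul, hSdet, ← hM, hs] at h3
  exact ⟨A.det / s, by field_simp; linear_combination h3⟩

variable [Finite F]

lemma exists_normal_form (h2 : (2 : F) ≠ 0) (B : LinearMap.BilinForm F V) (hS : B.IsSymm)
    (hB : B.Nondegenerate) {n : ℕ} (hn : finrank F V = n + 1) {α : F} (hα : ¬IsSquare α) :
    ∃ (b : Basis (Fin (n + 1)) F V) (δ : F), (δ = 1 ∨ δ = α) ∧ IsSquare (δ * gdet B) ∧
      ∀ i j, B (b i) (b j) = if i = j then (if i = Fin.last n then δ else 1) else 0 := by
  obtain ⟨b, ho, h1, hl⟩ := Forms.exists_orthogonal_basis_one h2 B hS hB hn α hα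
  set δ := B (b (Fin.last n)) (b (Fin.last n))
  have hB' : ∀ i j, B (b i) (b j) = if i = j then (if i = Fin.last n then δ else 1) else 0 := by
    intro i j
    by_cases hij : i = j
    · subst hij
      by_cases hi : i = Fin.last n
      · subst hi; simp [δ]
      · simp [hi, h1 i hi]
    · simp [hij, ho i j hij]
  refine ⟨b, δ, hl, ?_, hB'⟩
  obtain ⟨s, -, hs⟩ := gdet_basis B b
  have hM : LinearMap.BilinForm.toMatrix b B =
      Matrix.diagonal fun i => if i = Fin.last n then δ else 1 := by
    ext i j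
    rw [LinearMap.BilinForm.toMatrix_apply, hB', Matrix.diagonal_apply]
  rw [hM, Matrix.det_diagonal, Finset.prod_ite_eq' Finset.univ (Fin.last n) fun _ => δ,
    if_pos (Finset.mem_univ _)] at hs
  exact ⟨s * gdet B, by rw [hs]; ring⟩

/-- Two non-degenerate forms of the same dimension and discriminant are isometric. -/
theorem exists_isometry (h2 : (2 : F) ≠ 0) (B : LinearMap.BilinForm F V) (hS : B.IsSymm)
    (hB : B.Nondegenerate) (B' : LinearMap.BilinForm F V') (hS' : B'.IsSymm) (hB' : B'.Nondegenerate)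
    (hdim : finrank F V = finrank F V') (hsq : IsSquare (gdet B * gdet B')) :
    ∃ e : V ≃ₗ[F] V', ∀ x y, B' (e x) (e y) = B x y := by
  rcases Nat.eq_zero_or_pos (finrank F V) with h0 | hpos
  · have : Subsingleton V := finrank_zero_iff.mp h0
    exact ⟨LinearEquiv.ofFinrankEq V V' hdim, fun x y => by simp [Subsingleton.elim x 0]⟩
  obtain ⟨n, hn⟩ : ∃ n, finrank F V = n + 1 := ⟨finrank F V - 1, by omega⟩
  have hF : ringChar F ≠ 2 := fun hc => h2 (by
    have h := ringChar.Nat.cast_ringChar (R := F)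
    rw [hc] at h
    exact_mod_cast h)
  obtain ⟨α, hα⟩ := FiniteField.exists_nonsquare hF
  obtain ⟨b, δ, hδ, hδs, hb⟩ := exists_normal_form h2 B hS hB hn hα
  obtain ⟨b', δ', hδ', hδs', hb'⟩ := exists_normal_form h2 B' hS' hB' (hdim ▸ hn) hα
  have hdd : IsSquare (δ * δ') :=
    isSquare_cancel (gdet_ne_zero B' hB') (isSquare_cancel (gdet_ne_zero B hB) hδs hsq)
      (by rwa [mul_comm])
  have hnot : ¬ IsSquare (1 * α) := by rwa [one_mul]
  have hδδ : δ = δ' := by
    rcases hδ with rfl | rfl <;> rcases hδ' with rfl | rfl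
    · rfl
    · exact absurd hdd hnot
    · exact absurd (mul_comm δ (1 : F) ▸ hdd) hnot
    · rfl
  refine ⟨b.equiv b' (Equiv.refl _), fun x y => ?_⟩
  have h : (B'.comp (b.equiv b' (Equiv.refl _)).toLinearMap (b.equiv b' (Equiv.refl _)).toLinearMap) = B :=
    LinearMap.BilinForm.ext_basis b fun i j => by simp [hb, hb', hδδ]
  exact LinearMap.congr_fun (LinearMap.congr_fun h x) y

end Abstract

variable {ι : Type} [Fintype ι] [DecidableEq ι] {Q : QuadraticForm F (ι → F)}

/-- The polar form on a subspace. -/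
noncomputable def restr (Q : QuadraticForm F (ι → F)) (W : Submodule F (ι → F)) : LinearMap.BilinForm F W :=
  LinearMap.BilinForm.restrict (polarBilin Q) W

lemma restr_apply (W : Submodule F (ι → F)) (x y : W) : restr Q W x y = polar Q (x : ι → F) y := rfl

lemma restr_symm (W : Submodule F (ι → F)) : (restr Q W).IsSymm := ⟨fun x y => polar_comm _ (x : ι → F) y⟩

lemma restr_nondegenerate {W : Submodule F (ι → F)} (hW : IsNondegenerateOn (polar (⇑Q)) W) :
    (restr Q W).Nondegenerate := by
  refine ⟨fun x hx => ?_, fun x hx => ?_⟩ <;> by_contra hne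
  · obtain ⟨y, hy, hxy⟩ := (hW x x.2 (fun h => hne (Subtype.ext h))).2
    exact hxy (hx ⟨y, hy⟩)
  · obtain ⟨y, hy, hxy⟩ := (hW x x.2 (fun h => hne (Subtype.ext h))).1
    exact hxy (hx ⟨y, hy⟩)

/-- The discriminant of a subspace. -/
noncomputable def disc (Q : QuadraticForm F (ι → F)) (W : Submodule F (ι → F)) : F := gdet (restr Q W)

/-- The discriminant of the space. -/
noncomputable def discTop (Q : QuadraticForm F (ι → F)) : F := gdet (polarBilin Q)

lemma polar_self' (x : ι → F) : polar Q x x = 2 * Q x := polar_self_mul x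

/-- Isometric subspaces, up to a scalar `c`. -/
lemma isSquare_disc_of_scaled {W W' : Submodule F (ι → F)} {c : F} (e : W ≃ₗ[F] W')
    (he : ∀ w : W, Q ((e w : W') : ι → F) = c * Q w) :
    IsSquare (c ^ finrank F W * disc Q W * disc Q W') := by
  have h := isSquare_gdet_of_isometry (c • restr Q W) (restr Q W') e fun x y => by
    rw [restr_apply, LinearMap.smul_apply, LinearMap.smul_apply, restr_apply, smul_eq_mul]
    simp only [QuadraticMap.polar]
    rw [show ((e x : W') : ι → F) + (e y : W') = ((e (x + y) : W') : ι → F) by simp, he, he, he,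
      Submodule.coe_add]
    ring
  simpa [gdet, disc, Matrix.det_smul, Fintype.card_fin, map_smul] using h

variable [Finite F]

/-- Classification of non-degenerate subspaces, up to a scalar. -/
theorem exists_scaled_equiv (h2 : (2 : F) ≠ 0) {W W' : Submodule F (ι → F)}
    (hW : IsNondegenerateOn (polar (⇑Q)) W) (hW' : IsNondegenerateOn (polar (⇑Q)) W') {c : F} (hc : c ≠ 0)
    (hdim : finrank F W = finrank F W') (hsq : IsSquare (c ^ finrank F W * disc Q W * disc Q W')) :
    ∃ e : W ≃ₗ[F] W', ∀ w : W, Q ((e w : W') : ι → F) = c * Q w := by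
  have hS : (c • restr Q W).IsSymm := ⟨fun x y => by simp [(restr_symm W).eq x y]⟩
  have hB : (c • restr Q W).Nondegenerate := by
    have h := restr_nondegenerate hW
    exact ⟨fun x hx => h.1 x fun y => (mul_eq_zero.mp (hx y)).resolve_left hc,
      fun x hx => h.2 x fun y => (mul_eq_zero.mp (hx y)).resolve_left hc⟩
  obtain ⟨e, he⟩ := exists_isometry h2 _ hS hB _ (restr_symm W') (restr_nondegenerate hW') hdim
    (by simpa [gdet, disc, Matrix.det_smul, Fintype.card_fin, map_smul] using hsq)
  refine ⟨e, fun w => mul_left_cancel₀ h2 ?_⟩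
  have h := he w w
  rw [restr_apply, polar_self', LinearMap.smul_apply, LinearMap.smul_apply, restr_apply, polar_self',
    smul_eq_mul] at h
  linear_combination h

lemma areIsometricFor_iff (h2 : (2 : F) ≠ 0) {W W' : Submodule F (ι → F)}
    (hW : IsNondegenerateOn (polar (⇑Q)) W) (hW' : IsNondegenerateOn (polar (⇑Q)) W')
    (hdim : finrank F W = finrank F W') :
    AreIsometricFor (⇑Q) W W' ↔ IsSquare (disc Q W * disc Q W') := by
  constructor
  · rintro ⟨e, he⟩
    simpa using isSquare_disc_of_scaled (c := 1) e fun w => by rw [he, one_mul]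
  · intro h
    obtain ⟨e, he⟩ := exists_scaled_equiv h2 hW hW' one_ne_zero hdim (by simpa using h)
    exact ⟨e, fun w => by rw [he, one_mul]⟩

/-- The discriminant is multiplicative on orthogonal sums. -/
lemma isSquare_discTop_mul {W W' : Submodule F (ι → F)} (hc : IsCompl W W')
    (ho : ∀ x ∈ W, ∀ y ∈ W', polar Q x y = 0) : IsSquare (discTop Q * (disc Q W * disc Q W')) := by
  classical
  let b₁ := finBasis F W
  let b₂ := finBasis F W'
  let b := (b₁.prod b₂).map (Submodule.prodEquivOfIsCompl W W' hc)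
  obtain ⟨s, -, hs⟩ := gdet_basis (polarBilin Q) b
  have hl : ∀ i, b (Sum.inl i) = (b₁ i : ι → F) := fun i => by simp [b]
  have hr : ∀ i, b (Sum.inr i) = (b₂ i : ι → F) := fun i => by simp [b]
  have hM : LinearMap.BilinForm.toMatrix b (polarBilin Q) =
      Matrix.fromBlocks (LinearMap.BilinForm.toMatrix b₁ (restr Q W)) 0 0
        (LinearMap.BilinForm.toMatrix b₂ (restr Q W')) := by
    ext i j
    rcases i with i | i <;> rcases j with j | j <;>
      simp only [LinearMap.BilinForm.toMatrix_apply, hl, hr, Matrix.fromBlocks_apply₁₁,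
        Matrix.fromBlocks_apply₁₂, Matrix.fromBlocks_apply₂₁, Matrix.fromBlocks_apply₂₂, Matrix.zero_apply,
        polarBilin_apply_apply]
    · rfl
    · exact ho _ (b₁ i).2 _ (b₂ j).2
    · rw [polar_comm]; exact ho _ (b₁ j).2 _ (b₂ i).2
    · rfl
  rw [hM, Matrix.det_fromBlocks_zero₂₁] at hs
  exact ⟨s * discTop Q, by rw [show disc Q W * disc Q W' = s ^ 2 * discTop Q from hs]; ring⟩

lemma discTop_ne_zero (hQ : Nondeg Q) : discTop Q ≠ 0 :=
  gdet_ne_zero _ (nondeg_iff_polarBilin.mpr hQ)

/-- The criterion for plus type. -/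
theorem isPlusTypeOn_top_iff (h2 : (2 : F) ≠ 0) (hQ : Nondeg Q) {m : ℕ} (hn : Fintype.card ι = 2 * m) :
    IsPlusTypeOn (⇑Q) ⊤ ↔ IsSquare ((-1 : F) ^ m * discTop Q) := by
  have hV : finrank F (ι → F) = 2 * m := by rw [finrank_fintype_fun_eq_card, hn]
  constructor
  · rintro ⟨U, -, hU, hUd⟩
    rw [finrank_top, hV] at hUd
    refine isSquare_gdet_of_isotropic _ ⟨fun x y => polar_comm _ x y⟩ hV (U := U) (by omega)
      fun x hx y hy => ?_
    simp [QuadraticMap.polar, hU _ (U.add_mem hx hy), hU _ hx, hU _ hy]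
  · intro h
    set P := qPlus m F
    have hPd : finrank F (Fin m ⊕ Fin m → F) = 2 * m := finrank_qPlus m
    have hPB : (polarBilin P).Nondegenerate := nondeg_iff_polarBilin.mpr (nondeg_qPlus m)
    let U₀ : Submodule F (Fin m ⊕ Fin m → F) := LinearMap.ker (LinearMap.funLeft F F Sum.inr)
    have hU₀0 : ∀ x ∈ U₀, P x = 0 := fun x hx => by
      rw [qPlus_apply]
      exact Finset.sum_eq_zero fun i _ => by
        rw [show x (Sum.inr i) = 0 from congrFun hx i, mul_zero]
    have hU₀ : finrank F U₀ = m := by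
      have e := (LinearMap.funLeft F F (Sum.inr : Fin m → Fin m ⊕ Fin m)).finrank_range_add_finrank_ker
      rw [LinearMap.range_eq_top.mpr (LinearMap.funLeft_surjective_of_injective F F _ Sum.inr_injective),
        finrank_top, finrank_fin_fun, hPd] at e
      show finrank F (LinearMap.ker _) = m
      omega
    have hP := isSquare_gdet_of_isotropic (polarBilin P) ⟨fun x y => polar_comm _ x y⟩ hPd hU₀
      fun x hx y hy => by simp [QuadraticMap.polar, hU₀0 _ (U₀.add_mem hx hy), hU₀0 _ hx, hU₀0 _ hy]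
    obtain ⟨e, he⟩ := exists_isometry h2 (polarBilin P) ⟨fun x y => polar_comm _ x y⟩ hPB (polarBilin Q)
      ⟨fun x y => polar_comm _ x y⟩ (nondeg_iff_polarBilin.mpr hQ) (hPd.trans hV.symm) (by
        refine isSquare_cancel (b := (-1 : F) ^ m) (pow_ne_zero _ (neg_ne_zero.mpr one_ne_zero)) ?_ h
        rwa [mul_comm])
    refine ⟨U₀.map e.toLinearMap, le_top, ?_, by
      rw [finrank_top, hV, LinearEquiv.finrank_map_eq, hU₀]⟩
    rintro _ ⟨x, hx, rfl⟩
    refine mul_left_cancel₀ h2 ?_
    have h1 := he x x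
    simp only [polarBilin_apply_apply] at h1
    rw [polar_self_mul, polar_self_mul, hU₀0 x hx] at h1
    exact h1

/-- A map negating the form between orthogonal disjoint subspaces has a totally singular graph. -/
lemma exists_singular_graph {W W' : Submodule F (ι → F)} (ho : ∀ x ∈ W, ∀ y ∈ W', polar Q x y = 0)
    (hdis : Disjoint W W') (e : W →ₗ[F] (ι → F)) (hmem : ∀ w, e w ∈ W') (he : ∀ w : W, Q (e w) = -Q w) :
    ∃ U : Submodule F (ι → F), U ≤ W ⊔ W' ∧ (∀ x ∈ U, Q x = 0) ∧ finrank F U = finrank F W := by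
  refine ⟨LinearMap.range (W.subtype + e), ?_, ?_, LinearMap.finrank_range_of_inj ?_⟩
  · rintro _ ⟨w, rfl⟩
    exact Submodule.add_mem_sup w.2 (hmem w)
  · rintro _ ⟨w, rfl⟩
    show Q ((w : ι → F) + e w) = 0
    rw [QuadraticMap.map_add ⇑Q, he, ho _ w.2 _ (hmem w)]
    ring
  · rw [injective_iff_map_eq_zero]
    intro w hw
    have h : (w : ι → F) + e w = 0 := hw
    refine Subtype.ext (Submodule.disjoint_def.mp hdis _ w.2 ?_)
    rw [eq_neg_of_add_eq_zero_left h]
    exact W'.neg_mem (hmem w)

/-- Isometric orthogonal subspaces of even dimension span a space with a totally singular half. -/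
theorem exists_singular_of_isometric {W W' : Submodule F (ι → F)} (hW : IsNondegenerateOn (polar (⇑Q)) W)
    (hev : Even (finrank F W)) (ho : ∀ x ∈ W, ∀ y ∈ W', polar Q x y = 0) (hdis : Disjoint W W')
    (hiso : AreIsometricFor (⇑Q) W W') :
    ∃ U : Submodule F (ι → F), U ≤ W ⊔ W' ∧ (∀ x ∈ U, Q x = 0) ∧ finrank F U = finrank F W := by
  obtain ⟨e, he⟩ := hiso
  obtain ⟨σ, hσ⟩ := Geometric.Orth.exists_anti hW hev
  let σ' : W →ₗ[F] W := σ.codRestrict W fun p => (hσ p).1
  refine exists_singular_graph ho hdis (W'.subtype.comp (e.toLinearMap.comp σ')) (fun w => (e (σ' w)).2)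
    fun w => ?_
  show Q ((e (σ' w) : W') : ι → F) = -Q w
  rw [he]
  exact (hσ w).2

end CfsgLib.SmallDim.OrthEven
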