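import Cfsg.Agent.Lib.SmallDim.SympBasic

/-!
Aschbacher's theorem for symplectic groups: reducible, imprimitive and extension-field subgroups.
-/

set_option autoImplicit false
set_option linter.style.haveILetI false

namespace CfsgLib.SmallDim

open scoped MatrixGroups Matrix
open Cfsg.Geo

variable {F : Type*} [Field F] [Fintype F] {m : ℕ} {H : Subgroup (GL (Fin m ⊕ Fin m) F)}

local notation "V" => (Fin m ⊕ Fin m → F)
local notation "M2" => Matrix (Fin m ⊕ Fin m) (Fin m ⊕ Fin m) F
local notation "ω" => Cfsg.sympForm m F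

lemma card_idx : Fintype.card (Fin m ⊕ Fin m) = 2 * m := by
  rw [Fintype.card_sum, Fintype.card_fin, two_mul]

lemma map_toLin'_eq_of_mem {g : GL (Fin m ⊕ Fin m) F} {W U : Submodule F V}
    (hWU : ∀ v ∈ W, act g v ∈ U) (hd : Module.finrank F W = Module.finrank F U) :
    W.map (Matrix.toLin' (g : Matrix (Fin m ⊕ Fin m) (Fin m ⊕ Fin m) F)) = U := by
  refine Submodule.eq_of_le_of_finrank_eq ?_ ?_
  · rintro _ ⟨v, hv, rfl⟩
    rw [Matrix.toLin'_apply]
    exact hWU v hv
  · rw [← hd]
    exact (Submodule.equivMapOfInjective _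
      (fun x y h => act_injective g (by simpa only [Matrix.toLin'_apply] using h)) W).symm.finrank_eq

/-- A reducible group of symplectic isometries. -/
theorem symp_reducible (hH : H ≤ Cfsg.spGL m F) (hred : ¬ ActsIrreducibly (matrixSet H)) :
    InSympCase H := by
  classical
  obtain ⟨W, hW0, hW1, hle, hW | ⟨hW, hdim⟩⟩ := exists_ts_or_nondegenerate sesqui_sympForm reflexive_sympForm
    isSymplecticForm_sympForm.nondegenerate (fixesForm_of_le_spGL hH) hred
  · exact ⟨_, Or.inl (Or.inl ⟨W, hW0, hW, rfl⟩), le_inf hle hH⟩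
  rw [card_idx] at hdim
  by_cases hlt : Module.finrank F W < m
  · exact ⟨_, Or.inl (Or.inr (Or.inl ⟨W, hW0, hW, hlt, rfl⟩)), le_inf hle hH⟩
  have hWm : Module.finrank F W = m := by omega
  set W' := sesqui_sympForm.orth W
  obtain ⟨htop, hsum⟩ := (sesqui_sympForm (m := m) (F := F)).sup_orth_eq_top hW
  rw [card_idx] at hsum
  have hW'm : Module.finrank F W' = m := by
    show Module.finrank F ↥(sesqui_sympForm.orth W) = m
    omega
  let D : Fin 2 → Submodule F V := ![W, W']
  have hinf := (sesqui_sympForm (m := m) (F := F)).inf_orth_eq_bot hW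
  have hD : IsMDecomposition m D := by
    refine ⟨le_rfl, ?_, fun i => ?_, ?_, ?_⟩
    · rcases Nat.eq_zero_or_pos m with h | h
      · exact absurd (Submodule.finrank_eq_zero.1 (hWm.trans h)) hW0
      · exact h
    · fin_cases i
      · exact hWm
      · exact hW'm
    · rw [iSupIndep_pair (by decide : (0 : Fin 2) ≠ 1) (by decide)]
      exact disjoint_iff.2 hinf
    · rw [eq_top_iff, ← htop]
      exact sup_le (le_iSup D 0) (le_iSup D 1)
  refine ⟨_, Or.inl (Or.inr (Or.inr (Or.inl ⟨2, m, D, ⟨hD, fun i => ?_, fun i j hij => ?_⟩, rfl⟩))), ?_⟩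
  · fin_cases i
    · exact hW
    · exact sesqui_sympForm.orth_nondegenerate reflexive_sympForm isSymplecticForm_sympForm.nondegenerate hW
  · fin_cases i <;> fin_cases j
    · exact absurd rfl hij
    · intro u hu v hv
      exact reflexive_sympForm _ _ (hv u hu)
    · intro u hu v hv
      exact hu v hv
    · exact absurd rfl hij
  refine le_inf (fun g hg => ⟨1, fun i => ?_⟩) hH
  have hWinv : ∀ g ∈ H, ∀ v ∈ W, act g v ∈ W := fun g hg v hv =>
    ((mem_subspaceStabilizer.1 (hle hg)) v).1 hv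
  have hW'inv := sesqui_sympForm.orth_invariant (fixesForm_of_le_spGL hH) hWinv
  fin_cases i
  · exact map_toLin'_eq_of_mem (hWinv g hg) rfl
  · exact map_toLin'_eq_of_mem (hW'inv g hg) rfl

/-- A group permuting paired totally singular subspaces. -/
theorem symp_paired (hH : H ≤ Cfsg.spGL m F) {t k : ℕ} {D : Fin t → Submodule F V}
    {τ : Equiv.Perm (Fin t)} (hD : IsMDecomposition k D) (hle : H ≤ decompositionStabilizer D)
    (hτ : ∀ i, τ i ≠ i) (hττ : ∀ i, τ (τ i) = i) (hts : ∀ i, IsTotallySingularFor ω (D i))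
    (horth : ∀ i j, j ≠ τ i → AreOrthogonalFor ω (D i) (D j)) : InSympCase H := by
  classical
  have hf := isSymplecticForm_sympForm (m := m) (F := F)
  have hne : ∀ i, D i ≠ ⊥ := fun i h => by
    have := hD.finrank_eq i
    rw [h, finrank_bot] at this
    exact hD.pos.ne this
  have hpartner : ∀ i, ∀ v ∈ D i, v ≠ 0 → ∃ w ∈ D (τ i), ω v w ≠ 0 := by
    intro i v hv hv0
    by_contra hall
    push Not at hall
    obtain ⟨y, hy⟩ := (hf.nondegenerate v hv0).2
    apply hy
    have hle' : iSup D ≤ Submodule.span F (⋃ j, (D j : Set V)) :=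
      iSup_le fun j x hx => Submodule.subset_span (Set.mem_iUnion.mpr ⟨j, hx⟩)
    refine sesqui_sympForm.eq_zero_of_span ?_ y (hle' (hD.iSup_eq_top ▸ Submodule.mem_top))
    intro x hx
    obtain ⟨j, hj⟩ := Set.mem_iUnion.mp hx
    by_cases hji : j = τ i
    · exact hall x (hji ▸ hj)
    · exact horth i j hji v hv x hj
  let S := Finset.univ.filter fun i => i < τ i
  let E : Fin S.card → Submodule F V := fun a => D (S.equivFin.symm a) ⊔ D (τ (S.equivFin.symm a))
  let c : Fin S.card → Fin t := fun a => (S.equivFin.symm a : Fin t)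
  have hc : ∀ a, c a < τ (c a) := fun a => (Finset.mem_filter.1 (S.equivFin.symm a).2).2
  have hcinj : Function.Injective c := Subtype.val_injective.comp S.equivFin.symm.injective
  have hrep : ∀ i, ∃ a, i = c a ∨ i = τ (c a) := by
    intro i
    rcases lt_or_gt_of_ne (hτ i).symm with h | h
    · exact ⟨S.equivFin ⟨i, Finset.mem_filter.2 ⟨Finset.mem_univ _, h⟩⟩, Or.inl (by simp [c])⟩
    · refine ⟨S.equivFin ⟨τ i, Finset.mem_filter.2 ⟨Finset.mem_univ _, by rw [hττ]; exact h⟩⟩, Or.inr ?_⟩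
      simp [c, hττ]
  have hdisj : ∀ a b, a ≠ b → c b ≠ c a ∧ c b ≠ τ (c a) := by
    intro a b hab
    refine ⟨fun h => hab (hcinj h).symm, fun h => ?_⟩
    have h1 := hc b
    rw [h, hττ] at h1
    exact lt_asymm (hc a) h1
  have horthE : ∀ a b, a ≠ b → AreOrthogonalFor ω (E a) (E b) := by
    intro a b hab u hu v hv
    obtain ⟨u₁, hu₁, u₂, hu₂, rfl⟩ := Submodule.mem_sup.1 hu
    obtain ⟨v₁, hv₁, v₂, hv₂, rfl⟩ := Submodule.mem_sup.1 hv
    obtain ⟨h1, h2⟩ := hdisj a b hab
    rw [hf.bilinear.add_left, hf.bilinear.add_right, hf.bilinear.add_right,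
      horth _ _ h2 u₁ hu₁ v₁ hv₁,
      horth _ _ (fun h => h1 (τ.injective h)) u₁ hu₁ v₂ hv₂,
      horth _ _ (by rw [hττ]; exact h1) u₂ hu₂ v₁ hv₁,
      horth _ _ (fun h => h2 (τ.injective h)) u₂ hu₂ v₂ hv₂]
    ring
  have hsum : ∀ i, (D i ⊓ D (τ i) : Submodule F V) = ⊥ := fun i =>
    disjoint_iff.1 ((hD.indep i).mono_right (le_iSup₂_of_le (τ i) (hτ i) le_rfl))
  have hndE : ∀ i, IsNondegenerateOn ω (D i ⊔ D (τ i)) := by
    intro i x hx hx0
    suffices h : ∃ y ∈ D i ⊔ D (τ i), ω x y ≠ 0 by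
      obtain ⟨y, hy, hxy⟩ := h
      exact ⟨⟨y, hy, fun e => hxy (reflexive_sympForm _ _ e)⟩, ⟨y, hy, hxy⟩⟩
    obtain ⟨u, hu, w, hw, rfl⟩ := Submodule.mem_sup.1 hx
    by_cases hu0 : u = 0
    · have hw0 : w ≠ 0 := by simpa [hu0] using hx0
      obtain ⟨y, hy, hwy⟩ := hpartner (τ i) w hw hw0
      rw [hττ] at hy
      exact ⟨y, Submodule.mem_sup_left hy, by simpa [hu0] using hwy⟩
    · obtain ⟨y, hy, huy⟩ := hpartner i u hu hu0
      refine ⟨y, Submodule.mem_sup_right hy, ?_⟩
      rw [hf.bilinear.add_left, hts (τ i) w hw y hy, add_zero]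
      exact huy
  have hrankE : ∀ a, Module.finrank F (E a) = 2 * k := by
    intro a
    have h := Submodule.finrank_sup_add_finrank_inf_eq (D (c a)) (D (τ (c a)))
    rw [hsum, finrank_bot, add_zero, hD.finrank_eq, hD.finrank_eq] at h
    show Module.finrank F ↥(D (c a) ⊔ D (τ (c a))) = _
    omega
  by_cases hbig : 2 ≤ S.card
  · -- the pairs form a non-degenerate decomposition
    have htopE : iSup E = ⊤ := by
      rw [eq_top_iff, ← hD.iSup_eq_top]
      refine iSup_le fun i => ?_
      obtain ⟨a, rfl | rfl⟩ := hrep i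
      · exact le_sup_left.trans (le_iSup E a)
      · exact le_sup_right.trans (le_iSup E a)
    have hindE : iSupIndep E := by
      intro a
      rw [disjoint_iff, Submodule.eq_bot_iff]
      rintro x ⟨hx, hx'⟩
      by_contra hx0
      obtain ⟨y, hy, hxy⟩ := (hndE (c a) x hx hx0).1
      apply hxy
      have : (⨆ (b) (_ : b ≠ a), E b) ≤ (sesqui_sympForm.orth (E a)) :=
        iSup₂_le fun b hb z hz w hw => horthE b a hb z hz w hw
      exact reflexive_sympForm _ _ (this hx' y hy)
    refine ⟨_, Or.inl (Or.inr (Or.inr (Or.inl ⟨S.card, 2 * k, E,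
      ⟨⟨hbig, by have := hD.pos; omega, hrankE, hindE, htopE⟩, fun a => hndE (c a), horthE⟩, rfl⟩))),
      le_inf (fun g hg => ?_) hH⟩
    obtain ⟨π, hπ⟩ := hle hg
    have hmv : ∀ i, ∀ v ∈ D i, act g v ∈ D (π i) := fun i v hv => by
      rw [← hπ i]; exact ⟨v, hv, Matrix.toLin'_apply _ _⟩
    have hcomm : ∀ i, π (τ i) = τ (π i) := by
      intro i
      by_contra hne'
      obtain ⟨v, hv, hv0⟩ := (Submodule.ne_bot_iff _).1 (hne i)
      obtain ⟨w, hw, hvw⟩ := hpartner i v hv hv0
      rw [← mem_spGL.1 (hH hg)] at hvw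
      exact hvw (horth _ _ hne' _ (hmv _ v hv) _ (hmv _ w hw))
    have hidx : ∀ a, ∃ b, E b = D (π (c a)) ⊔ D (τ (π (c a))) := by
      intro a
      obtain ⟨b, h | h⟩ := hrep (π (c a))
      · exact ⟨b, by rw [h]⟩
      · exact ⟨b, by rw [h, hττ, sup_comm]⟩
    choose ρ hρ using hidx
    have hρinj : Function.Injective ρ := by
      intro a a' h
      by_contra hne'
      have h1 : E (ρ a) = D (π (c a')) ⊔ D (τ (π (c a'))) := h ▸ hρ a'
      obtain ⟨v, hv, hv0⟩ := (Submodule.ne_bot_iff _).1 (hne (π (c a)))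
      have hv' : v ∈ D (π (c a')) ⊔ D (π (τ (c a'))) := by
        rw [hcomm, ← h1, hρ]
        exact Submodule.mem_sup_left hv
      obtain ⟨h2, h3⟩ := hdisj a a' hne'
      refine hv0 (Submodule.disjoint_def.1 (hD.indep (π (c a))) v hv (SetLike.le_def.1 (sup_le ?_ ?_) hv'))
      · exact le_iSup₂_of_le (π (c a')) (fun e => h2 (π.injective e)) le_rfl
      · exact le_iSup₂_of_le (π (τ (c a'))) (fun e => h3 (by rw [← π.injective e, hττ])) le_rfl
    refine ⟨Equiv.ofBijective ρ (Finite.injective_iff_bijective.1 hρinj), fun a => ?_⟩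
    show (D (c a) ⊔ D (τ (c a))).map _ = E (ρ a)
    rw [Submodule.map_sup, hπ, hπ, hρ, hcomm]
  · -- a single pair
    have hpair : ∀ i j, j ≠ i → j = τ i := by
      intro i j hji
      obtain ⟨a, ha⟩ := hrep i
      obtain ⟨b, hb⟩ := hrep j
      have hab : b = a := Fin.ext (by have := a.2; have := b.2; omega)
      subst hab
      rcases ha with rfl | rfl <;> rcases hb with rfl | rfl
      · exact absurd rfl hji
      · rfl
      · exact (hττ _).symm
      · exact absurd rfl hji
    have ht2 : t = 2 := by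
      let i₀ : Fin t := ⟨0, by have := hD.two_le; omega⟩
      have huniv : (Finset.univ : Finset (Fin t)) = {i₀, τ i₀} := by
        symm
        refine Finset.eq_univ_of_forall fun j => ?_
        by_cases h : j = i₀
        · simp [h]
        · simp [hpair i₀ j h]
      have := congrArg Finset.card huniv
      rwa [Finset.card_univ, Fintype.card_fin, Finset.card_pair (hτ i₀).symm] at this
    subst ht2
    have hcompl : IsCompl (D 0) (D 1) := by
      refine ⟨?_, codisjoint_iff.2 ?_⟩
      · have := hD.indep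
        rwa [iSupIndep_pair (by decide : (0 : Fin 2) ≠ 1) (by decide)] at this
      · rw [eq_top_iff, ← hD.iSup_eq_top]
        refine iSup_le fun i => ?_
        fin_cases i
        · exact le_sup_left
        · exact le_sup_right
    have hk : k = m := by
      have h := Submodule.finrank_add_eq_of_isCompl hcompl
      rw [hD.finrank_eq, hD.finrank_eq, Module.finrank_fintype_fun_eq_card, card_idx] at h
      omega
    by_cases hodd : Odd (Fintype.card F)
    · exact ⟨_, Or.inl (Or.inr (Or.inr (Or.inr (Or.inl ⟨D, hodd, hk ▸ hD, hts, rfl⟩)))), le_inf hle hH⟩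
    have hneg : ∀ x : F, -x = x := fun x => by linear_combination (-x) * two_eq_zero_of_not_odd hodd
    set p := (D 0).projection (D 1) hcompl
    have hp0 : ∀ v ∈ D 0, p v = v := fun v hv => Submodule.projection_apply_of_mem_left hcompl hv
    have hp1 : ∀ v ∈ D 1, p v = 0 := fun v hv => Submodule.projection_apply_of_mem_right hcompl hv
    have hzero : ∀ i, ∀ v ∈ D i, ω (p v) v = 0 := by
      intro i v hv
      fin_cases i
      · rw [hp0 v hv]; exact hts 0 v hv v hv
      · rw [hp1 v hv]; exact sesqui_sympForm.zero_left v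
    refine inSympCase_quad_of_span hodd hH (Q := fun v => ω (p v) v) (fun a v => ?_) (fun u v => ?_)
      (T := ⋃ i, (D i : Set V)) ?_ ?_ ?_
    · simp only [map_smul, hf.bilinear.smul_left, hf.bilinear.smul_right]; ring
    · obtain ⟨u₀, hu₀, u₁, hu₁, rfl⟩ := Submodule.mem_sup.1
        (hcompl.sup_eq_top.ge (Submodule.mem_top (x := u)))
      obtain ⟨v₀, hv₀, v₁, hv₁, rfl⟩ := Submodule.mem_sup.1
        (hcompl.sup_eq_top.ge (Submodule.mem_top (x := v)))
      simp only [QuadraticMap.polar, map_add, hp0 _ hu₀, hp1 _ hu₁, hp0 _ hv₀, hp1 _ hv₁, add_zero]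
      simp only [hf.bilinear.add_left, hf.bilinear.add_right, hts 0 _ hu₀ _ hv₀, hts 0 _ hv₀ _ hu₀,
        hts 0 _ hu₀ _ hu₀, hts 0 _ hv₀ _ hv₀, hts 1 _ hu₁ _ hv₁]
      rw [hf.skew u₁ v₀, hneg]
      ring
    · intro v hv
      obtain ⟨i, hi⟩ := Set.mem_iUnion.1 hv
      exact hzero i v hi
    · rw [eq_top_iff, ← hD.iSup_eq_top]
      exact iSup_le fun i x hx => Submodule.subset_span (Set.mem_iUnion.2 ⟨i, hx⟩)
    · intro g hg v hv
      obtain ⟨i, hi⟩ := Set.mem_iUnion.1 hv
      obtain ⟨π, hπ⟩ := hle hg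
      refine hzero (π i) _ ?_
      rw [← hπ i]
      exact ⟨v, hi, Matrix.toLin'_apply _ _⟩

/-- A group normalising an adjoint-closed field of matrices of prime degree. -/
theorem symp_field (hH : H ≤ Cfsg.spGL m F) {r : ℕ}
    {K : Subalgebra F (Matrix (Fin m ⊕ Fin m) (Fin m ⊕ Fin m) F)} (hr : r.Prime)
    (hK : IsFieldSubalgebra r K) (hadj : IsAdjointClosedFor ω K) (hle : H ≤ subalgebraNormalizer K) :
    InSympCase H := by
  classical
  have hf := isSymplecticForm_sympForm (m := m) (F := F)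
  choose adj hadjK hadj' using hadj
  have hAA : ∀ x hx, adj (adj x hx) (hadjK x hx) = x := fun x hx =>
    eq_of_adjoint sesqui_sympForm hf.nondegenerate (a := adj (adj x hx) (hadjK x hx)) fun u v => by
      rw [← hadj' _ (hadjK x hx), hf.skew, ← hadj' x hx, ← hf.skew]
  have hfin : Finite K := Subtype.finite
  have := Fintype.ofFinite K
  -- every self-adjoint element of `K` is alternating in characteristic two
  have halt : ∀ k, ∀ hk : k ∈ K, adj k hk = k → ∀ v, ω (k *ᵥ v) v = 0 := by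
    intro k hk hself v
    by_cases h2 : (2 : F) = 0
    · let sq : K → K := fun x => x * x
      have hinj : Function.Injective sq := by
        intro x y hxy
        have hxy' : (x : M2) * x = (y : M2) * y := congrArg Subtype.val hxy
        have hsq : ((x : Matrix (Fin m ⊕ Fin m) (Fin m ⊕ Fin m) F) - y) * ((x : M2) - y) = 0 := by
          rw [sub_mul, mul_sub, mul_sub, hK.comm (y : Matrix (Fin m ⊕ Fin m) (Fin m ⊕ Fin m) F) y.2
          (x : M2) x.2, hxy']
          have : ((y : Matrix (Fin m ⊕ Fin m) (Fin m ⊕ Fin m) F) * y - (x : M2) * y) -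
              ((x : M2) * y - (y : M2) * y) =
              (2 : F) • ((y : Matrix (Fin m ⊕ Fin m) (Fin m ⊕ Fin m) F) * y - (x : M2) * y) := by
            rw [two_smul]; abel
          rw [this, h2, zero_smul]
        apply Subtype.ext
        by_contra hne
        obtain ⟨z, -, hz⟩ := hK.inv _ (K.sub_mem x.2 y.2) (sub_ne_zero.2 hne)
        refine hne (sub_eq_zero.1 ?_)
        rw [← mul_one ((x : Matrix (Fin m ⊕ Fin m) (Fin m ⊕ Fin m) F) - y), ← hz, ← mul_assoc, hsq,
          zero_mul]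
      obtain ⟨l, hl⟩ := (Finite.injective_iff_surjective.1 hinj) ⟨k, hk⟩
      have hlk : (l : Matrix (Fin m ⊕ Fin m) (Fin m ⊕ Fin m) F) * l = k := congrArg Subtype.val hl
      have hlself : adj l l.2 = (l : Matrix (Fin m ⊕ Fin m) (Fin m ⊕ Fin m) F) := by
        have h1 : adj l l.2 * adj l l.2 = k := by
          rw [← hself]
          refine eq_of_adjoint sesqui_sympForm hf.nondegenerate fun u w => ?_
          conv_rhs => rw [← hadj', ← hlk]
          rw [← Matrix.mulVec_mulVec, ← Matrix.mulVec_mulVec, hadj' l l.2, hadj' l l.2]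
        exact congrArg Subtype.val (hinj (a₁ := ⟨_, hadjK l l.2⟩) (a₂ := l)
          (Subtype.ext (h1.trans hlk.symm)))
      rw [← hlk, ← Matrix.mulVec_mulVec, hadj' l l.2, hlself]
      exact hf.alternating _
    · have h1 : ω (k *ᵥ v) v = -ω (k *ᵥ v) v := by
        conv_lhs => rw [hadj' k hk, hself, hf.skew]
      have : (2 : F) * ω (k *ᵥ v) v = 0 := by linear_combination h1
      exact (mul_eq_zero.1 this).resolve_left h2
  by_cases hall : ∀ k, ∀ hk : k ∈ K, adj k hk = k
  · have hsa : IsSelfAdjointFor ω K := fun k hk u v => by rw [hadj' k hk, hall k hk]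
    exact ⟨_, Or.inr (Or.inl ⟨r, K, hr, hK, hsa, fun k hk v => halt k hk (hall k hk) v, rfl⟩),
      le_inf hle hH⟩
  push Not at hall
  obtain ⟨x, hx, hxne⟩ := hall
  have hadd : ∀ a b, ∀ ha : a ∈ K, ∀ hb : b ∈ K, adj (a + b) (K.add_mem ha hb) = adj a ha + adj b hb :=
    fun a b ha hb => eq_of_adjoint sesqui_sympForm hf.nondegenerate fun u v => by
      rw [← hadj', Matrix.add_mulVec, Matrix.add_mulVec, hf.bilinear.add_left, hf.bilinear.add_right,
        hadj', hadj']
  by_cases hodd : Odd (Fintype.card F)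
  · have hr2 : r = 2 := by
      -- the adjoint is an automorphism of order two of the field `K`
      have hfield : IsField K :=
        { exists_pair_ne := ⟨⟨x, hx⟩, ⟨adj x hx, hadjK x hx⟩, fun h => hxne (congrArg Subtype.val h).symm⟩
          mul_comm := fun a b => Subtype.ext (hK.comm a a.2 b b.2)
          mul_inv_cancel := fun {a} ha => by
            obtain ⟨y, hy, hxy⟩ := hK.inv a a.2 (fun h => ha (Subtype.ext h))
            exact ⟨⟨y, hy⟩, Subtype.ext hxy⟩ }
      letI : Field K := hfield.toField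
      have : Module.Finite F K := Module.Finite.of_finite
      let φ : K →ₐ[F] K := AlgHom.ofLinearMap
        { toFun := fun a => ⟨adj a a.2, hadjK a a.2⟩
          map_add' := fun a b => Subtype.ext (hadd a b a.2 b.2)
          map_smul' := fun c a => Subtype.ext (eq_of_adjoint sesqui_sympForm hf.nondegenerate fun u v => by
              show ω u (adj (c • (a : M2)) (K.smul_mem a.2 c) *ᵥ v) =
                ω u ((c • adj (a : M2) a.2) *ᵥ v)
              rw [← hadj', Matrix.smul_mulVec, Matrix.smul_mulVec, hf.bilinear.smul_left,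
                hf.bilinear.smul_right, hadj']) }
        (Subtype.ext (eq_of_adjoint sesqui_sympForm hf.nondegenerate fun u v => by
          show ω u (adj 1 K.one_mem *ᵥ v) = ω u ((1 : M2) *ᵥ v)
          rw [← hadj', Matrix.one_mulVec, Matrix.one_mulVec]))
        (fun a b => Subtype.ext (eq_of_adjoint sesqui_sympForm hf.nondegenerate fun u v => by
            show ω u (adj ((a : M2) * b) (K.mul_mem a.2 b.2) *ᵥ v) =
              ω u ((adj (a : M2) a.2 * adj (b : M2) b.2) *ᵥ v)
            rw [← hadj', hK.comm _ a.2 _ b.2, ← Matrix.mulVec_mulVec, ← Matrix.mulVec_mulVec, hadj',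
              hadj']))
      let ψ : Gal(K/F) := AlgEquiv.ofBijective φ φ.bijective
      have hψ : orderOf ψ = 2 := by
        refine orderOf_eq_prime (AlgEquiv.ext fun a => ?_) fun h => ?_
        · rw [pow_two, AlgEquiv.mul_apply, AlgEquiv.one_apply]
          exact Subtype.ext (hAA a a.2)
        · exact hxne (congrArg Subtype.val (congrArg (fun e : Gal(K/F) => e ⟨x, hx⟩) h))
      have h2r : 2 ∣ r := by
        rw [← hK.finrank_eq, ← IsGalois.card_aut_eq_finrank F K, ← hψ]
        exact orderOf_dvd_natCard ψ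
      exact ((Nat.prime_dvd_prime_iff_eq Nat.prime_two hr).1 h2r).symm
    subst hr2
    refine ⟨_, Or.inr (Or.inr (Or.inl ⟨K, hodd, hK, fun k hk => ⟨_, hadjK k hk, hadj' k hk⟩,
      fun hsa => hxne ?_, rfl⟩)), le_inf hle hH⟩
    exact eq_of_adjoint sesqui_sympForm hf.nondegenerate fun u v => by rw [← hadj' x hx, hsa x hx]
  -- characteristic two
  have h2 := two_eq_zero_of_not_odd hodd
  have hneg : ∀ a : F, -a = a := fun a => by linear_combination (-a) * h2
  set y := x + adj x hx
  have hyK : y ∈ K := K.add_mem hx (hadjK x hx)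
  have hy0 : y ≠ 0 := fun h => hxne (by
    have h1 : adj x hx = -x := eq_neg_of_add_eq_zero_right h
    rw [h1]
    ext i j
    exact hneg _)
  obtain ⟨z, hz, hyz⟩ := hK.inv y hyK hy0
  set k₀ := x * z
  have hk₀ : k₀ ∈ K := K.mul_mem hx hz
  -- `k₀` has trace one
  have hsym : ∀ u v, ω (k₀ *ᵥ u) v + ω u (k₀ *ᵥ v) = ω u v := by
    intro u v
    have hyself : ∀ a b, ω (y *ᵥ a) b = ω a (y *ᵥ b) := fun a b => by
      simp only [y, Matrix.add_mulVec, hf.bilinear.add_left, hf.bilinear.add_right]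
      rw [hadj' x hx, hf.skew (adj x hx *ᵥ a) b, ← hadj' x hx b a, hf.skew _ a, neg_neg]
      ring
    have hzself : ∀ a b, ω (z *ᵥ a) b = ω a (z *ᵥ b) := fun a b => by
      have h1 := hyself (z *ᵥ a) (z *ᵥ b)
      rw [Matrix.mulVec_mulVec, Matrix.mulVec_mulVec, hyz, Matrix.one_mulVec, Matrix.one_mulVec] at h1
      exact h1.symm
    have hxcomm : z * x = x * z := hK.comm _ hz _ hx
    have e1 : ω (k₀ *ᵥ u) v = ω u ((adj x hx * z) *ᵥ v) := by
      show ω ((x * z) *ᵥ u) v = _
      rw [← Matrix.mulVec_mulVec, hadj' x hx, hzself, Matrix.mulVec_mulVec,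
        hK.comm _ hz _ (hadjK x hx)]
    rw [e1, ← hf.bilinear.add_right, ← Matrix.add_mulVec, ← add_mul, add_comm (adj x hx) x, hyz,
      Matrix.one_mulVec]
  refine inSympCase_quad hodd hH (Q := fun v => ω (k₀ *ᵥ v) v) (fun a v => ?_) (fun u v => ?_) ?_
  · simp only [Matrix.mulVec_smul, hf.bilinear.smul_left, hf.bilinear.smul_right]; ring
  · simp only [QuadraticMap.polar, Matrix.mulVec_add, hf.bilinear.add_left, hf.bilinear.add_right]
    rw [← hsym u v, hf.skew (k₀ *ᵥ v) u, hneg]
    ring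
  intro g hg v
  set gi : Matrix (Fin m ⊕ Fin m) (Fin m ⊕ Fin m) F := ((g⁻¹ : GL (Fin m ⊕ Fin m) F) : M2)
  set k₁ := gi * k₀ * (g : M2) with hk₁def
  have hk₁ : k₁ ∈ K := by
    have := ((hle (H.inv_mem hg)) k₀).1 hk₀
    rwa [inv_inv] at this
  have hk₁g : ∀ u, act g (k₁ *ᵥ u) = k₀ *ᵥ act g u := fun u => by
    simp only [act, k₁, gi, Matrix.mulVec_mulVec, ← mul_assoc, ← Units.val_mul, mul_inv_cancel,
      Units.val_one, one_mul]
  have hsym₁ : ∀ u w, ω (k₁ *ᵥ u) w + ω u (k₁ *ᵥ w) = ω u w := fun u w => by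
    have h := hsym (act g u) (act g w)
    rw [← hk₁g, ← hk₁g, mem_spGL.1 (hH hg), mem_spGL.1 (hH hg), mem_spGL.1 (hH hg)] at h
    exact h
  have hd : k₁ - k₀ ∈ K := K.sub_mem hk₁ hk₀
  have hsubl : ∀ a b c : Fin m ⊕ Fin m → F, ω (a - b) c = ω a c - ω b c := fun a b c =>
    eq_sub_of_add_eq (by rw [← hf.bilinear.add_left, sub_add_cancel])
  have hsubr : ∀ a b c : Fin m ⊕ Fin m → F, ω a (b - c) = ω a b - ω a c := fun a b c =>
    eq_sub_of_add_eq (by rw [← hf.bilinear.add_right, sub_add_cancel])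
  have hdself : adj _ hd = k₁ - k₀ := eq_of_adjoint sesqui_sympForm hf.nondegenerate fun u w => by
    rw [← hadj' _ hd, Matrix.sub_mulVec, Matrix.sub_mulVec, hsubl, hsubr]
    linear_combination hsym₁ u w - hsym u w - (ω u (k₁ *ᵥ w) - ω u (k₀ *ᵥ w)) * h2
  have h0 := halt _ hd hdself v
  rw [Matrix.sub_mulVec, hsubl, sub_eq_zero] at h0
  show ω (k₀ *ᵥ act g v) (act g v) = ω (k₀ *ᵥ v) v
  rw [← hk₁g, mem_spGL.1 (hH hg), h0]

end CfsgLib.SmallDim
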