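import Cfsg.Agent.Lib.SmallDim.SympCases
import Cfsg.Agent.Lib.SmallDim.TensorClass

/-!
Aschbacher's theorem for symplectic groups: tensor decompositions.
-/

set_option autoImplicit false
set_option linter.style.haveILetI false

namespace CfsgLib.SmallDim

open scoped MatrixGroups Matrix Kronecker
open Cfsg.Geo

section Kronecker

variable {F : Type*} [Field F] {κ₁ κ₂ : Type} [Fintype κ₁] [DecidableEq κ₁] [Fintype κ₂] [DecidableEq κ₂]

lemma ne_zero_of_isUnit_det {κ : Type} [Fintype κ] [DecidableEq κ] [Nonempty κ] {A : Matrix κ κ F}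
    (h : IsUnit A.det) : A ≠ 0 := fun h0 => h.ne_zero (by rw [h0]; exact Matrix.det_zero)

lemma exists_entry_ne_zero {κ : Type} {A : Matrix κ κ F} (h : A ≠ 0) : ∃ p q, A p q ≠ 0 := by
  by_contra hall
  push Not at hall
  exact h (Matrix.ext hall)

/-- Equal non-zero tensor products have proportional factors. -/
lemma kronecker_cancel {A C : Matrix κ₁ κ₁ F} {B D : Matrix κ₂ κ₂ F} (hC : C ≠ 0) (hD : D ≠ 0)
    (h : A ⊗ₖ B = C ⊗ₖ D) : ∃ μ : F, μ ≠ 0 ∧ A = μ • C ∧ B = μ⁻¹ • D := by
  obtain ⟨p, q, hpq⟩ := exists_entry_ne_zero hC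
  obtain ⟨r, s, hrs⟩ := exists_entry_ne_zero hD
  have he : ∀ a b c d, A a b * B c d = C a b * D c d := fun a b c d =>
    congrFun (congrFun h (a, c)) (b, d)
  have hB : B r s ≠ 0 := fun h0 => by
    have := he p q r s
    rw [h0, mul_zero] at this
    exact mul_ne_zero hpq hrs this.symm
  refine ⟨D r s / B r s, div_ne_zero hrs hB, ?_, ?_⟩
  · ext a b
    rw [Matrix.smul_apply, smul_eq_mul, div_mul_eq_mul_div, eq_div_iff hB, he, mul_comm]
  · ext c d
    have h1 := he p q c d
    have h2 := he p q r s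
    rw [Matrix.smul_apply, smul_eq_mul, inv_div, div_mul_eq_mul_div, eq_div_iff hrs]
    apply mul_left_cancel₀ hpq
    linear_combination (B c d) * (-h2) + (B r s) * h1

lemma dot_kronecker (A : Matrix κ₁ κ₁ F) (B : Matrix κ₂ κ₂ F) (x x' : κ₁ → F) (y y' : κ₂ → F) :
    (fun p : κ₁ × κ₂ => x p.1 * y p.2) ⬝ᵥ ((A ⊗ₖ B) *ᵥ fun p => x' p.1 * y' p.2) =
      (x ⬝ᵥ (A *ᵥ x')) * (y ⬝ᵥ (B *ᵥ y')) := by
  have h : ((A ⊗ₖ B) *ᵥ fun p => x' p.1 * y' p.2) = fun p => (A *ᵥ x') p.1 * (B *ᵥ y') p.2 := by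
    funext p
    simp only [Matrix.mulVec, dotProduct, Fintype.sum_prod_type, Matrix.kronecker_apply, Finset.sum_mul_sum]
    exact Finset.sum_congr rfl fun a _ => Finset.sum_congr rfl fun b _ => by rw [Matrix.kronecker_apply]; ring
  rw [h]
  simp only [dotProduct, Fintype.sum_prod_type, Finset.sum_mul_sum]
  exact Finset.sum_congr rfl fun a _ => Finset.sum_congr rfl fun b _ => by ring

end Kronecker

section CharTwo

variable {F : Type*} [Field F] [Finite F] {κ : Type} [Fintype κ] [DecidableEq κ]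

/-- The values of a symmetric matrix in characteristic two are squares of a linear functional. -/
lemma exists_sqrt_diag (h2 : (2 : F) = 0) (C : Matrix κ κ F) (hC : Cᵀ = C) :
    ∃ l : (κ → F) →ₗ[F] F, (∀ x, x ⬝ᵥ (C *ᵥ x) = l x * l x) ∧ ∀ i, C i i = l (Pi.single i 1) * l (Pi.single i 1) := by
  classical
  choose s hs using fun i => isSquare_of_two_eq_zero h2 (C i i)
  let l : (κ → F) →ₗ[F] F :=
    { toFun := fun x => ∑ i, s i * x i
      map_add' := fun x y => by simp [mul_add, Finset.sum_add_distrib]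
      map_smul' := fun c x => by simp [Finset.mul_sum, mul_left_comm] }
  have hl : ∀ i, C i i = l (Pi.single i 1) * l (Pi.single i 1) := fun i => by
    simp [l, Pi.single_apply, hs i]
  refine ⟨l, fun x => ?_, hl⟩
  let C' := C - Matrix.diagonal fun i => C i i
  obtain ⟨q, hq, hpol, -⟩ := exists_triangular_quad C' (by
    simp [C', Matrix.transpose_sub, hC, Matrix.diagonal_transpose]) (fun k => by simp [C'])
  have h0 : x ⬝ᵥ (C' *ᵥ x) = 0 := by
    rw [← hpol, QuadraticMap.polar, ← two_smul F x, hq, h2]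
    linear_combination (-q x) * h2
  rw [show C = C' + Matrix.diagonal (fun i => C i i) by simp [C'], Matrix.add_mulVec, dotProduct_add, h0,
    zero_add]
  haveI : CharP F 2 := CharTwo.of_one_ne_zero_of_two_eq_zero one_ne_zero h2
  show _ = (∑ i, s i * x i) * ∑ i, s i * x i
  rw [CharTwo.sum_mul_self]
  simp only [dotProduct, Matrix.mulVec_diagonal]
  refine Finset.sum_congr rfl fun i _ => ?_
  rw [hs i]; ring

lemma dot_self_eq_zero (h2 : (2 : F) = 0) {C : Matrix κ κ F} (hC : Cᵀ = C) (hd : ∀ i, C i i = 0)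
    (x : κ → F) : x ⬝ᵥ (C *ᵥ x) = 0 := by
  obtain ⟨l, hl, hll⟩ := exists_sqrt_diag h2 C hC
  have : l = 0 := by
    apply (Pi.basisFun F κ).ext
    intro i
    have h := hll i
    rw [hd] at h
    simpa using mul_self_eq_zero.1 h.symm
  rw [hl, this]; simp

end CharTwo

variable {F : Type*} [Field F] [Fintype F] {m : ℕ} {H : Subgroup (GL (Fin m ⊕ Fin m) F)}

local notation "V" => (Fin m ⊕ Fin m → F)
local notation "M2" => Matrix (Fin m ⊕ Fin m) (Fin m ⊕ Fin m) F
local notation "ω" => Cfsg.sympForm m F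

/-- A group normalising up to sign a skew-adjoint square root of a scalar. -/
theorem symp_skew_square (hodd : Odd (Fintype.card F)) (hH : H ≤ Cfsg.spGL m F) (hm : 0 < m)
    {M : M2} {d : F} (hd : d ≠ 0) (hM : M * M = d • (1 : M2))
    (hskew : ∀ u v, ω (M *ᵥ u) v = -ω u (M *ᵥ v))
    (hconj : ∀ g ∈ H, ∃ ε : F, ε * ε = 1 ∧ (g : M2) * M = ε • (M * (g : M2))) : InSympCase H := by
  classical
  have hf := isSymplecticForm_sympForm (m := m) (F := F)
  have h2 := two_ne_zero_of_odd_card hodd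
  have hMM : ∀ v : V, M *ᵥ (M *ᵥ v) = d • v := fun v => by
    rw [Matrix.mulVec_mulVec, hM, Matrix.smul_mulVec, Matrix.one_mulVec]
  by_cases hsq : IsSquare d
  · obtain ⟨s, rfl⟩ := hsq
    have hs : s ≠ 0 := left_ne_zero_of_mul hd
    let D : Fin 2 → Submodule F V :=
      ![LinearMap.ker (Matrix.toLin' M - s • LinearMap.id), LinearMap.ker (Matrix.toLin' M + s • LinearMap.id)]
    have h0 : ∀ v, v ∈ D 0 ↔ M *ᵥ v = s • v := fun v => by
      show v ∈ LinearMap.ker (Matrix.toLin' M - s • LinearMap.id) ↔ _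
      rw [LinearMap.mem_ker, LinearMap.sub_apply, Matrix.toLin'_apply, sub_eq_zero]
      rfl
    have h1 : ∀ v, v ∈ D 1 ↔ M *ᵥ v = -(s • v) := fun v => by
      show v ∈ LinearMap.ker (Matrix.toLin' M + s • LinearMap.id) ↔ _
      rw [LinearMap.mem_ker, LinearMap.add_apply, Matrix.toLin'_apply, ← eq_neg_iff_add_eq_zero]
      rfl
    have hts : ∀ i, IsTotallySingularFor ω (D i) := by
      intro i u hu v hv
      have h := hskew u v
      fin_cases i
      · rw [(h0 u).1 hu, (h0 v).1 hv, hf.bilinear.smul_left, hf.bilinear.smul_right] at h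
        have : (2 : F) * s * ω u v = 0 := by linear_combination h
        exact (mul_eq_zero.1 this).resolve_left (mul_ne_zero h2 hs)
      · rw [(h1 u).1 hu, (h1 v).1 hv, ← neg_smul, ← neg_smul, hf.bilinear.smul_left,
          hf.bilinear.smul_right] at h
        have : (2 : F) * s * ω u v = 0 := by linear_combination -h
        exact (mul_eq_zero.1 this).resolve_left (mul_ne_zero h2 hs)
    have hcompl : IsCompl (D 0) (D 1) := by
      refine ⟨?_, codisjoint_iff.2 (eq_top_iff.2 fun v _ => ?_)⟩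
      · rw [Submodule.disjoint_def]
        intro v hv hv'
        have h := ((h0 v).1 hv).symm.trans ((h1 v).1 hv')
        rw [eq_neg_iff_add_eq_zero, ← two_smul F (s • v), smul_smul] at h
        exact (smul_eq_zero.1 h).resolve_left (mul_ne_zero h2 hs)
      · rw [Submodule.mem_sup]
        refine ⟨(2 : F)⁻¹ • (v + s⁻¹ • (M *ᵥ v)), (h0 _).2 ?_,
          (2 : F)⁻¹ • (v - s⁻¹ • (M *ᵥ v)), (h1 _).2 ?_, ?_⟩
        · rw [Matrix.mulVec_smul, Matrix.mulVec_add, Matrix.mulVec_smul, hMM]
          match_scalars <;> field_simp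
        · rw [Matrix.mulVec_smul, Matrix.mulVec_sub, Matrix.mulVec_smul, hMM]
          match_scalars <;> field_simp
        · rw [← smul_add, add_add_sub_cancel, ← two_smul F v, smul_smul, inv_mul_cancel₀ h2, one_smul]
    have hdim : ∀ i, Module.finrank F (D i) = m := by
      have hpair : ∀ i j, D i ⊔ D j = ⊤ → Module.finrank F (D i) ≤ Module.finrank F (D j) := by
        intro i j hij
        let Φ : D i →ₗ[F] Module.Dual F (D j) := LinearMap.mk₂ F (fun u v => ω (u : V) (v : V))
          (fun u u' v => hf.bilinear.add_left _ _ _) (fun c u v => hf.bilinear.smul_left _ _ _)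
          (fun u v v' => hf.bilinear.add_right _ _ _) (fun c u v => hf.bilinear.smul_right _ _ _)
        have hinj : Function.Injective Φ := by
          rw [injective_iff_map_eq_zero]
          intro u hu
          by_contra h
          obtain ⟨y, hy⟩ := (hf.nondegenerate (u : V) (fun h' => h (Subtype.ext h'))).2
          obtain ⟨a, ha, b, hb, rfl⟩ := Submodule.mem_sup.1 (hij.ge (Submodule.mem_top (x := y)))
          refine hy ?_
          rw [hf.bilinear.add_right, hts i u u.2 a ha, zero_add]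
          exact congrArg (fun φ : Module.Dual F (D j) => φ ⟨b, hb⟩) hu
        exact (LinearMap.finrank_le_finrank_of_injective hinj).trans_eq Subspace.dual_finrank_eq
      have h := Submodule.finrank_add_eq_of_isCompl hcompl
      rw [Module.finrank_fintype_fun_eq_card, card_idx] at h
      have h3 := hpair 0 1 hcompl.sup_eq_top
      have h4 := hpair 1 0 (by rw [sup_comm]; exact hcompl.sup_eq_top)
      intro i
      fin_cases i
      · show Module.finrank F ↥(D 0) = m
        omega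
      · show Module.finrank F ↥(D 1) = m
        omega
    have hD : IsMDecomposition m D := by
      refine ⟨le_rfl, hm, hdim, ?_, ?_⟩
      · rw [iSupIndep_pair (by decide : (0 : Fin 2) ≠ 1) (by decide)]
        exact hcompl.disjoint
      · rw [eq_top_iff, ← hcompl.sup_eq_top]
        exact sup_le (le_iSup D 0) (le_iSup D 1)
    refine ⟨_, Or.inl (Or.inr (Or.inr (Or.inr (Or.inl ⟨D, hodd, hD, hts, rfl⟩)))), le_inf (fun g hg => ?_) hH⟩
    obtain ⟨ε, hε, hgε⟩ := hconj g hg
    have key : ∀ v, M *ᵥ act g v = ε • act g (M *ᵥ v) := fun v => by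
      have h5 := congrArg (fun X : M2 => X *ᵥ v) hgε
      simp only [← Matrix.mulVec_mulVec, Matrix.smul_mulVec] at h5
      show M *ᵥ ((g : M2) *ᵥ v) = ε • ((g : M2) *ᵥ (M *ᵥ v))
      rw [h5, smul_smul, hε, one_smul]
    rcases mul_self_eq_one_iff.1 hε with rfl | rfl
    · refine ⟨1, fun i => map_toLin'_eq_of_mem (fun v hv => ?_) rfl⟩
      fin_cases i
      · refine (h0 _).2 ?_
        rw [key, (h0 v).1 hv, one_smul]; exact Matrix.mulVec_smul _ _ _
      · refine (h1 _).2 ?_
        rw [key, (h1 v).1 hv, one_smul, ← neg_smul, ← neg_smul]; exact Matrix.mulVec_smul _ _ _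
    · refine ⟨Equiv.swap 0 1, fun i => map_toLin'_eq_of_mem (fun v hv => ?_) (by rw [hdim, hdim])⟩
      fin_cases i
      · refine (h1 _).2 ?_
        rw [key, (h0 v).1 hv, neg_one_smul, show act g (s • v) = s • act g v from Matrix.mulVec_smul _ _ _]
      · refine (h0 _).2 ?_
        rw [key, (h1 v).1 hv, neg_one_smul, ← neg_smul,
          show act g ((-s) • v) = (-s) • act g v from Matrix.mulVec_smul _ _ _, neg_smul, neg_neg]
  · -- the field generated by `M`
    let K : Subalgebra F M2 :=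
      { carrier := {X | ∃ a b : F, X = a • (1 : M2) + b • M}
        mul_mem' := by
          rintro _ _ ⟨a, b, rfl⟩ ⟨a', b', rfl⟩
          refine ⟨a * a' + b * b' * d, a * b' + b * a', ?_⟩
          simp only [add_mul, mul_add, Matrix.smul_mul, Matrix.mul_smul, one_mul, mul_one, hM, smul_smul]
          module
        add_mem' := by
          rintro _ _ ⟨a, b, rfl⟩ ⟨a', b', rfl⟩
          exact ⟨a + a', b + b', by module⟩
        algebraMap_mem' := fun a => ⟨a, 0, by simp [Algebra.algebraMap_eq_smul_one]⟩ }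
    have hKmem : ∀ X, X ∈ K ↔ ∃ a b : F, X = a • (1 : M2) + b • M := fun X => Iff.rfl
    have hnd : ∀ a b : F, a * a - b * b * d = 0 → a = 0 ∧ b = 0 := by
      intro a b h
      by_cases hb : b = 0
      · subst hb; exact ⟨mul_self_eq_zero.1 (by linear_combination h), rfl⟩
      · exact absurd ⟨a / b, by field_simp; linear_combination -h⟩ hsq
    have hprod : ∀ a b : F, (a • (1 : M2) + b • M) * (a • (1 : M2) + (-b) • M) =
        (a * a - b * b * d) • (1 : M2) := by
      intro a b
      simp only [add_mul, mul_add, Matrix.smul_mul, Matrix.mul_smul, one_mul, mul_one, hM, smul_smul]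
      module
    have : Nonempty (Fin m ⊕ Fin m) := ⟨Sum.inl ⟨0, hm⟩⟩
    have hli : LinearIndependent F ![(1 : M2), M] := by
      rw [LinearIndependent.pair_iff]
      intro a b h
      have h3 := hprod a b
      rw [h, zero_mul, eq_comm, smul_eq_zero] at h3
      exact hnd a b (h3.resolve_right one_ne_zero)
    have hK : IsFieldSubalgebra 2 K := by
      refine ⟨?_, ?_, ?_⟩
      · rintro _ ⟨a, b, rfl⟩ _ ⟨a', b', rfl⟩
        simp only [add_mul, mul_add, Matrix.smul_mul, Matrix.mul_smul, one_mul, mul_one, smul_smul]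
        module
      · rintro _ ⟨a, b, rfl⟩ h
        have hN : a * a - b * b * d ≠ 0 := fun h0 => h (by obtain ⟨rfl, rfl⟩ := hnd a b h0; simp)
        refine ⟨(a * a - b * b * d)⁻¹ • (a • (1 : M2) + (-b) • M), K.smul_mem ⟨a, -b, rfl⟩ _, ?_⟩
        rw [Matrix.mul_smul, hprod, smul_smul, inv_mul_cancel₀ hN, one_smul]
      · have hspan : Subalgebra.toSubmodule K = Submodule.span F (Set.range ![(1 : M2), M]) := by
          ext X
          rw [Matrix.range_cons, Matrix.range_cons, Matrix.range_empty, Set.union_empty,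
            Set.singleton_union, Submodule.mem_span_pair, Subalgebra.mem_toSubmodule, hKmem]
          exact ⟨fun ⟨a, b, h⟩ => ⟨a, b, h.symm⟩, fun ⟨a, b, h⟩ => ⟨a, b, h.symm⟩⟩
        rw [show Module.finrank F ↥K = Module.finrank F ↥(Subalgebra.toSubmodule K) from rfl, hspan,
          finrank_span_eq_card hli, Fintype.card_fin]
    refine ⟨_, Or.inr (Or.inr (Or.inl ⟨K, hodd, hK, ?_, ?_, rfl⟩)), le_inf (fun g hg => ?_) hH⟩
    · rintro _ ⟨a, b, rfl⟩
      refine ⟨a • (1 : M2) + (-b) • M, ⟨a, -b, rfl⟩, fun u v => ?_⟩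
      simp only [Matrix.add_mulVec, Matrix.smul_mulVec, Matrix.one_mulVec, hf.bilinear.add_left,
        hf.bilinear.add_right, hf.bilinear.smul_left, hf.bilinear.smul_right, hskew]
      ring
    · intro hsa
      have hM0 : M = 0 := by
        refine Matrix.ext_of_mulVec_single fun i => sesqui_sympForm.eq_of_apply_right hf.nondegenerate fun u => ?_
        have h3 := hskew u (Pi.single i 1)
        rw [hsa M ⟨0, 1, by module⟩] at h3
        have h4 : (2 : F) * ω u (M *ᵥ Pi.single i 1) = 0 := by linear_combination h3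
        rw [(mul_eq_zero.1 h4).resolve_left h2, Matrix.zero_mulVec]
        exact (sesqui_sympForm.zero_right u).symm
      rw [hM0, mul_zero, eq_comm, smul_eq_zero] at hM
      exact hd (hM.resolve_right one_ne_zero)
    · have hmove : ∀ g ∈ H, ∀ X ∈ K, (g : M2) * X * ((g⁻¹ : GL (Fin m ⊕ Fin m) F) : M2) ∈ K := by
        rintro g hg _ ⟨a, b, rfl⟩
        obtain ⟨ε, -, hgε⟩ := hconj g hg
        refine ⟨a, b * ε, ?_⟩
        simp only [mul_add, add_mul, Matrix.mul_smul, Matrix.smul_mul, mul_one, Units.mul_inv, hgε,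
          mul_assoc, smul_smul]
      intro X
      refine ⟨hmove g hg X, fun hX => ?_⟩
      have h := hmove g⁻¹ (H.inv_mem hg) _ hX
      simpa [mul_assoc] using h

variable {n₁ n₂ : ℕ} {e : (Fin m ⊕ Fin m) ≃ Fin n₁ × Fin n₂} {P : GL (Fin m ⊕ Fin m) F}
  {C : Matrix (Fin n₁) (Fin n₁) F} {G₀ : Matrix (Fin n₂) (Fin n₂) F}

/-- The factors of an element of a tensor product group are similitudes of the forms of the factors. -/
lemma tensor_element (hH : H ≤ Cfsg.spGL m F) (hle : H ≤ tensorProductSubgroup n₁ n₂ e P)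
    (hC : C ≠ 0) (hG₀ : G₀ ≠ 0) (hG : coordGram ω e P = C ⊗ₖ G₀) {g : GL (Fin m ⊕ Fin m) F} (hg : g ∈ H) :
    ∃ (z : GL (Fin n₁ × Fin n₂) F) (a : GL (Fin n₁) F) (b : GL (Fin n₂) F) (μ : F),
      g = P * glReindex e.symm z * P⁻¹ ∧
      (z : Matrix (Fin n₁ × Fin n₂) (Fin n₁ × Fin n₂) F) =
        (a : Matrix (Fin n₁) (Fin n₁) F) ⊗ₖ (b : Matrix (Fin n₂) (Fin n₂) F) ∧
      μ ≠ 0 ∧ (a : Matrix (Fin n₁) (Fin n₁) F)ᵀ * C * (a : Matrix (Fin n₁) (Fin n₁) F) = μ • C ∧
      (b : Matrix (Fin n₂) (Fin n₂) F)ᵀ * G₀ * (b : Matrix (Fin n₂) (Fin n₂) F) = μ⁻¹ • G₀ := by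
  obtain ⟨_, ⟨z, ⟨a, b, hz⟩, rfl⟩, hgz⟩ := hle hg
  have hgz' : g = P * glReindex e.symm z * P⁻¹ := hgz.symm
  have hB : (g : M2) * (P : M2) = (P : M2) * Matrix.reindex e.symm e.symm (z : Matrix _ _ F) := by
    rw [hgz', ← Units.val_mul, inv_mul_cancel_right, Units.val_mul]
    rfl
  have h := coordGram_fixed isSymplecticForm_sympForm.bilinear e P
    (fun u v => mem_spGL.1 (hH hg) u v) hB
  rw [hG, hz, ← Matrix.kroneckerMap_transpose, ← Matrix.mul_kronecker_mul, ← Matrix.mul_kronecker_mul] at h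
  obtain ⟨μ, hμ, h1, h2⟩ := kronecker_cancel hC hG₀ h
  exact ⟨z, a, b, μ, hgz', hz, hμ, h1, h2⟩

omit [Fintype F] in
/-- The skew-adjoint square root of the discriminant of a binary symmetric form. -/
lemma exists_binary_sqrt {G : Matrix (Fin 2) (Fin 2) F} (hG : Gᵀ = G) (hdet : G.det ≠ 0) :
    ∃ J : Matrix (Fin 2) (Fin 2) F, ∃ d : F, d ≠ 0 ∧ J * J = d • (1 : Matrix (Fin 2) (Fin 2) F) ∧
      Jᵀ * G = -(G * J) ∧
      ∀ (B : Matrix (Fin 2) (Fin 2) F) (μ : F), μ ≠ 0 → Bᵀ * G * B = μ • G →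
        ∃ ε : F, ε * ε = 1 ∧ B * J = ε • (J * B) := by
  let K : Matrix (Fin 2) (Fin 2) F := !![0, 1; -1, 0]
  have hsym : G 1 0 = G 0 1 := congrFun (congrFun hG 0) 1
  have hK : ∀ B : Matrix (Fin 2) (Fin 2) F, Bᵀ * K * B = B.det • K := fun B => by
    ext i j
    fin_cases i <;> fin_cases j <;>
      simp [K, Matrix.mul_apply, Fin.sum_univ_two, Matrix.det_fin_two] <;> ring
  have hGJ : G * (G.adjugate * K) = G.det • K := by
    rw [← mul_assoc, Matrix.mul_adjugate, Matrix.smul_mul, one_mul]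
  refine ⟨G.adjugate * K, -G.det, neg_ne_zero.2 hdet, ?_, ?_, fun B μ hμ hB => ?_⟩
  · ext i j
    fin_cases i <;> fin_cases j <;>
      simp [K, Matrix.mul_apply, Fin.sum_univ_two, Matrix.adjugate_fin_two, Matrix.det_fin_two, hsym] <;>
      ring
  · have h : (G.adjugate * K)ᵀ * G = (G * (G.adjugate * K))ᵀ := by rw [Matrix.transpose_mul G, hG]
    rw [h, hGJ, ← neg_smul, Matrix.transpose_smul, show Kᵀ = -K from Matrix.ext fun i j => by
      fin_cases i <;> fin_cases j <;> simp [K], smul_neg, neg_smul]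
  · have hd2 : B.det * B.det = μ * μ := by
      have h := congrArg Matrix.det hB
      rw [Matrix.det_mul, Matrix.det_mul, Matrix.det_transpose, Matrix.det_smul, Fintype.card_fin] at h
      exact mul_left_cancel₀ hdet (by linear_combination h)
    have hBd : B.det ≠ 0 := fun h0 => by
      rw [h0, mul_zero] at hd2
      exact mul_ne_zero hμ hμ hd2.symm
    have key : B.det • (B * (G.adjugate * K)) = μ • (G.adjugate * K * B) := by
      have hu : IsUnit (Bᵀ * G) := by
        rw [Matrix.isUnit_iff_isUnit_det, Matrix.det_mul, Matrix.det_transpose]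
        exact (mul_ne_zero hBd hdet).isUnit
      apply hu.mul_right_injective
      show Bᵀ * G * _ = Bᵀ * G * _
      rw [Matrix.mul_smul, ← mul_assoc (Bᵀ * G) B, hB, Matrix.smul_mul, hGJ, Matrix.mul_smul,
        ← mul_assoc (Bᵀ * G) (G.adjugate * K) B, mul_assoc Bᵀ G (G.adjugate * K), hGJ, Matrix.mul_smul,
        Matrix.smul_mul, hK, smul_smul, smul_smul, smul_smul, smul_smul]
      congr 1
      ring
    refine ⟨μ / B.det, ?_, ?_⟩
    · rw [div_mul_div_comm, ← hd2, div_self (mul_ne_zero hBd hBd)]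
    · rw [div_eq_inv_mul, ← smul_smul, ← key, smul_smul, inv_mul_cancel₀ hBd, one_smul]

/-- A tensor decomposition into a skew factor and a binary symmetric factor, odd characteristic. -/
lemma symp_tensor_two {e : (Fin m ⊕ Fin m) ≃ Fin n₁ × Fin 2} {G₀ : Matrix (Fin 2) (Fin 2) F}
    (hodd : Odd (Fintype.card F)) (hH : H ≤ Cfsg.spGL m F) (hm : 0 < m)
    (hle : H ≤ tensorProductSubgroup n₁ 2 e P) (hC : C ≠ 0) (hG₀ : G₀.det ≠ 0)
    (hG : coordGram ω e P = C ⊗ₖ G₀) (hG₀t : G₀ᵀ = G₀) : InSympCase H := by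
  classical
  have hf := isSymplecticForm_sympForm (m := m) (F := F)
  obtain ⟨J, d, hd, hJJ, hJG, hJB⟩ := exists_binary_sqrt hG₀t hG₀
  have hG₀0 : G₀ ≠ 0 := fun h0 => hG₀ (by rw [h0]; exact Matrix.det_zero)
  let T : Matrix (Fin n₁ × Fin 2) (Fin n₁ × Fin 2) F := (1 : Matrix (Fin n₁) (Fin n₁) F) ⊗ₖ J
  let E := Matrix.reindexAlgEquiv F F e.symm
  let M : M2 := (P : M2) * E T * ((P⁻¹ : GL (Fin m ⊕ Fin m) F) : M2)
  have hMP : ∀ (x : Fin n₁ × Fin 2 → F),
      M *ᵥ ((P : M2) *ᵥ (x ∘ e)) = (P : M2) *ᵥ ((T *ᵥ x) ∘ e) := by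
    intro x
    simp only [M, Matrix.mulVec_mulVec, mul_assoc, Units.inv_mul, mul_one]
    rw [← Matrix.mulVec_mulVec]
    congr 1
    funext i
    simp only [E, Matrix.mulVec, dotProduct, Function.comp_apply]
    rw [← Equiv.sum_comp e.symm]
    simp
  refine symp_skew_square hodd hH hm hd (M := M) ?_ (fun u v => ?_) (fun g hg => ?_)
  · calc M * M = (P : M2) * (E T * E T) * ((P⁻¹ : GL (Fin m ⊕ Fin m) F) : M2) := by
          simp only [M, mul_assoc, Units.inv_mul_cancel_left]
      _ = _ := by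
          rw [← map_mul, ← Matrix.mul_kronecker_mul, Matrix.one_mul, hJJ, Matrix.kronecker_smul,
            Matrix.one_kronecker_one, map_smul, map_one, Matrix.mul_smul, Matrix.smul_mul, mul_one,
            Units.mul_inv]
  · rw [← point_coordMap e P u, ← point_coordMap e P v, hMP, hMP, apply_coord hf.bilinear,
      apply_coord hf.bilinear, hG]
    have hT : Tᵀ * (C ⊗ₖ G₀) = -((C ⊗ₖ G₀) * T) := by
      rw [show Tᵀ = (1 : Matrix (Fin n₁) (Fin n₁) F)ᵀ ⊗ₖ Jᵀ from (Matrix.kroneckerMap_transpose ..).symm,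
        ← Matrix.mul_kronecker_mul, ← Matrix.mul_kronecker_mul, Matrix.transpose_one, Matrix.one_mul,
        Matrix.mul_one, hJG]
      ext p q
      simp
    rw [Matrix.mulVec_mulVec, Matrix.dotProduct_mulVec, Matrix.dotProduct_mulVec, ← Matrix.vecMul_transpose,
      Matrix.vecMul_vecMul, hT, Matrix.vecMul_neg, neg_dotProduct]
  · obtain ⟨z, a', b', μ, hgz, hz, hμ, -, hb'⟩ := tensor_element hH hle hC hG₀0 hG hg
    obtain ⟨ε, hε, hBJ⟩ := hJB _ μ⁻¹ (inv_ne_zero hμ) hb'
    refine ⟨ε, hε, ?_⟩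
    rw [hgz]
    have hcomm : (z : Matrix _ _ F) * T = ε • (T * (z : Matrix _ _ F)) := by
      rw [hz, ← Matrix.mul_kronecker_mul, ← Matrix.mul_kronecker_mul, Matrix.one_mul, Matrix.mul_one,
        hBJ, Matrix.kronecker_smul]
    have hE : (glReindex e.symm z : M2) = E (z : Matrix _ _ F) := rfl
    simp only [Units.val_mul, hE, M, mul_assoc, Units.inv_mul_cancel_left]
    rw [← mul_assoc (E _) (E T), ← map_mul, hcomm, map_smul, map_mul, Matrix.smul_mul, Matrix.mul_smul,
      mul_assoc]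

/-- A tensor decomposition into a skew and a symmetric factor, odd characteristic. -/
theorem symp_tensor_odd (hodd : Odd (Fintype.card F)) (hH : H ≤ Cfsg.spGL m F)
    (hn₁ : 2 ≤ n₁) (hn₂ : 2 ≤ n₂) (hle : H ≤ tensorProductSubgroup n₁ n₂ e P)
    (hC : IsUnit C.det) (hG₀ : IsUnit G₀.det) (hG : coordGram ω e P = C ⊗ₖ G₀)
    (hCt : Cᵀ = -C) (hG₀t : G₀ᵀ = G₀) : InSympCase H := by
  classical
  have hf := isSymplecticForm_sympForm (m := m) (F := F)
  have h2 := two_ne_zero_of_odd_card hodd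
  have : Nonempty (Fin n₁) := ⟨⟨0, by omega⟩⟩
  rcases Nat.lt_or_ge n₂ 3 with hlt | h3
  swap
  · have hts : IsTensorFormStructure id ω (gramForm (RingEquiv.refl F) C) (gramForm (RingEquiv.refl F) G₀)
        e P := by
      refine ⟨1, one_ne_zero, fun x y => ?_⟩
      have h₁ : gramMatrix (gramForm (⇑(RingEquiv.refl F)) C) = C :=
        gramMatrix_gramForm ((RingEquiv.refl F : F ≃+* F) : F →+* F) C
      have h₂ : gramMatrix (gramForm (⇑(RingEquiv.refl F)) G₀) = G₀ :=
        gramMatrix_gramForm ((RingEquiv.refl F : F ≃+* F) : F →+* F) G₀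
      rw [h₁, h₂, apply_coord hf.bilinear, hG, one_mul]
      simp only [formOfGram, dotProduct, Matrix.mulVec, Finset.mul_sum, mul_assoc, id_eq]
    refine ⟨tensorProductSubgroup n₁ n₂ e P ⊓ Cfsg.spGL m F, ?_, le_inf hle hH⟩
    exact Or.inr (Or.inr (Or.inr (Or.inl ⟨n₁, n₂, e, P, _, _, hodd, h3, gramForm_isSymplecticForm h2 hCt hC,
      gramForm_isSymmetricForm hG₀t hG₀, hts, rfl⟩)))
  obtain rfl : n₂ = 2 := by omega
  have hm : 0 < m := by
    have := Fintype.card_congr e
    rw [card_idx, Fintype.card_prod, Fintype.card_fin, Fintype.card_fin] at this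
    omega
  exact symp_tensor_two hodd hH hm hle (ne_zero_of_isUnit_det hC) hG₀.ne_zero hG hG₀t

lemma coordGram_swap {ι : Type} [Fintype ι] [DecidableEq ι] {f : (ι → F) → (ι → F) → F} {n₁ n₂ : ℕ}
    {e : ι ≃ Fin n₁ × Fin n₂} {P : GL ι F} {C : Matrix (Fin n₁) (Fin n₁) F}
    {G₀ : Matrix (Fin n₂) (Fin n₂) F} (hG : coordGram f e P = C ⊗ₖ G₀) :
    coordGram f (e.trans (Equiv.prodComm _ _)) P = G₀ ⊗ₖ C := by
  ext p q
  have h := congrFun (congrFun hG (p.2, p.1)) (q.2, q.1)
  rw [Matrix.kronecker_apply] at h ⊢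
  rw [mul_comm, ← h]
  simp [coordGram]; rfl

/-- In characteristic two the first factor of an irreducible tensor decomposition is alternating. -/
lemma tensor_factor_alternating (h2 : (2 : F) = 0) (hH : H ≤ Cfsg.spGL m F)
    (hirr : ActsIrreducibly (matrixSet H)) (hn₁ : 2 ≤ n₁) (hn₂ : 2 ≤ n₂)
    (hle : H ≤ tensorProductSubgroup n₁ n₂ e P) (hC : IsUnit C.det) (hG₀ : IsUnit G₀.det)
    (hG : coordGram ω e P = C ⊗ₖ G₀) (hCt : Cᵀ = C) : ∀ i, C i i = 0 := by
  classical
  have : Nonempty (Fin n₁) := ⟨⟨0, by omega⟩⟩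
  have : Nonempty (Fin n₂) := ⟨⟨0, by omega⟩⟩
  obtain ⟨l, hl, hli⟩ := exists_sqrt_diag h2 C hCt
  let L : V →ₗ[F] Fin n₂ → F :=
    LinearMap.pi fun k => l.comp ((LinearMap.funLeft F F fun i => (i, k)).comp (coordMap e P))
  have hL : ∀ v k, L v k = l fun i => coordMap e P v (i, k) := fun v k => rfl
  have hinv : ∀ g ∈ H, ∀ v ∈ LinearMap.ker L, act g v ∈ LinearMap.ker L := by
    intro g hg v hv
    obtain ⟨z, a, b, μ, hgz, hz, hμ, ha, -⟩ :=
      tensor_element hH hle (ne_zero_of_isUnit_det hC) (ne_zero_of_isUnit_det hG₀) hG hg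
    have hv' : ∀ k, l (fun i => coordMap e P v (i, k)) = 0 := fun k => congrFun hv k
    have hkill : ∀ x, l x = 0 → l ((a : Matrix (Fin n₁) (Fin n₁) F) *ᵥ x) = 0 := by
      intro x hx
      apply mul_self_eq_zero.1
      rw [← hl, Matrix.mulVec_mulVec, Matrix.dotProduct_mulVec, ← Matrix.vecMul_transpose,
        Matrix.vecMul_vecMul, ← Matrix.mul_assoc, ha, ← Matrix.dotProduct_mulVec, Matrix.smul_mulVec,
        dotProduct_smul, hl, hx]
      simp
    rw [LinearMap.mem_ker]
    funext k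
    rw [hL, hgz]
    conv_lhs => rw [← point_coordMap e P v, act_conj_reindex, coordMap_point]
    have : (fun i => ((z : Matrix _ _ F) *ᵥ coordMap e P v) (i, k)) =
        (a : Matrix (Fin n₁) (Fin n₁) F) *ᵥ
          ∑ j, (b : Matrix (Fin n₂) (Fin n₂) F) k j • fun i => coordMap e P v (i, j) := by
      funext i
      simp only [hz, Matrix.mulVec, dotProduct, Fintype.sum_prod_type, Matrix.kronecker_apply,
        Finset.sum_apply, Pi.smul_apply, smul_eq_mul, Finset.mul_sum]
      exact Finset.sum_congr rfl fun p _ => Finset.sum_congr rfl fun q _ => by ring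
    rw [this]
    refine hkill _ ?_
    simp [map_sum, map_smul, hv']
  intro i
  by_contra hi
  have hl0 : l (Pi.single i 1) ≠ 0 := fun h => hi (by rw [hli, h, mul_zero])
  let k₀ : Fin n₂ := ⟨0, by omega⟩
  have hpt : ∀ x : Fin n₁ → F, L ((P : M2) *ᵥ ((fun p => x p.1 * if p.2 = k₀ then 1 else 0) ∘ e)) =
      fun k => l x * if k = k₀ then 1 else 0 := by
    intro x
    funext k
    rw [hL, coordMap_point]
    rw [show (fun i => x i * if k = k₀ then (1 : F) else 0) = (if k = k₀ then (1 : F) else 0) • x from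
      funext fun i => mul_comm _ _, map_smul, smul_eq_mul, mul_comm]
  rcases actsIrreducibly_iff.1 hirr (LinearMap.ker L) hinv with h | h
  · obtain ⟨x, hx, hx0⟩ : ∃ x, l x = 0 ∧ x ≠ 0 := by
      have hker : LinearMap.ker l ≠ ⊥ := by
        intro hk
        have := LinearMap.finrank_le_finrank_of_injective (LinearMap.ker_eq_bot.1 hk)
        rw [Module.finrank_fin_fun, Module.finrank_self] at this
        omega
      obtain ⟨x, hx, hx0⟩ := (Submodule.ne_bot_iff _).1 hker
      exact ⟨x, hx, hx0⟩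
    obtain ⟨j, hj⟩ := Function.ne_iff.1 hx0
    have hmem := hpt x
    rw [hx] at hmem
    have h0 := (Submodule.eq_bot_iff _).1 h _ (hmem.trans (funext fun k => zero_mul _))
    have h1 := congrArg (coordMap e P) h0
    rw [coordMap_point, map_zero] at h1
    exact hj (by simpa using congrFun h1 (j, k₀))
  · have hmem : (P : M2) *ᵥ ((fun p => (Pi.single i 1 : Fin n₁ → F) p.1 * if p.2 = k₀ then 1 else 0) ∘ e) ∈
        LinearMap.ker L := h ▸ Submodule.mem_top
    rw [LinearMap.mem_ker, hpt] at hmem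
    exact hl0 (by simpa using congrFun hmem k₀)

/-- A tensor decomposition in characteristic two. -/
theorem symp_tensor_even (hev : ¬ Odd (Fintype.card F)) (hH : H ≤ Cfsg.spGL m F)
    (hirr : ActsIrreducibly (matrixSet H)) (hn₁ : 2 ≤ n₁) (hn₂ : 2 ≤ n₂)
    (hle : H ≤ tensorProductSubgroup n₁ n₂ e P) (hC : IsUnit C.det) (hG₀ : IsUnit G₀.det)
    (hG : coordGram ω e P = C ⊗ₖ G₀) (hCt : Cᵀ = C) (hG₀t : G₀ᵀ = G₀) : InSympCase H := by
  classical
  have hf := isSymplecticForm_sympForm (m := m) (F := F)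
  have h2 := two_eq_zero_of_not_odd hev
  have hCd := tensor_factor_alternating h2 hH hirr hn₁ hn₂ hle hC hG₀ hG hCt
  have hGd := tensor_factor_alternating h2 hH hirr hn₂ hn₁
    (hle.trans (tensorProductSubgroup_swap n₁ n₂ e P)) hG₀ hC (coordGram_swap hG) hG₀t
  obtain ⟨q, hq, hpol, hq0⟩ := exists_triangular_quad (coordGram ω e P)
    (by rw [hG, ← Matrix.kroneckerMap_transpose, hCt, hG₀t]) (coordGram_diag hf.bilinear hf.alternating e P)
  have hpure : ∀ (x : Fin n₁ → F) (y : Fin n₂ → F), q (fun p => x p.1 * y p.2) = 0 := by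
    have hstep : ∀ (x : Fin n₁ → F) k, q (fun p => x p.1 * (Pi.single k 1 : Fin n₂ → F) p.2) = 0 := by
      intro x k
      refine eq_zero_of_additive_sq (d := fun x : Fin n₁ → F =>
        q (fun p => x p.1 * (Pi.single k 1 : Fin n₂ → F) p.2)) (fun u v => ?_) (fun c u => ?_)
        (T := Set.range fun i => (Pi.single i 1 : Fin n₁ → F)) ?_ ?_
      · have h := hpol (fun p => u p.1 * (Pi.single k 1 : Fin n₂ → F) p.2)
          (fun p => v p.1 * (Pi.single k 1 : Fin n₂ → F) p.2)
        rw [hG, dot_kronecker, dot_self_eq_zero h2 hG₀t hGd, mul_zero, QuadraticMap.polar] at h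
        rw [show (fun p : Fin n₁ × Fin n₂ => (u + v) p.1 * (Pi.single k 1 : Fin n₂ → F) p.2) =
          (fun p => u p.1 * (Pi.single k 1 : Fin n₂ → F) p.2) +
            fun p => v p.1 * (Pi.single k 1 : Fin n₂ → F) p.2 from funext fun p => add_mul _ _ _]
        linear_combination h
      · rw [← hq]; exact congrArg q (funext fun p => mul_assoc _ _ _)
      · rintro _ ⟨i, rfl⟩
        rw [← hq0 (i, k)]
        refine congrArg q (funext fun ⟨p₁, p₂⟩ => ?_)
        by_cases h₁ : p₁ = i <;> by_cases h₂ : p₂ = k <;> simp [Pi.single_apply, h₁, h₂]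
      · rw [show (Set.range fun i => (Pi.single i 1 : Fin n₁ → F)) = Set.range (Pi.basisFun F (Fin n₁)) from
          congrArg Set.range (funext fun i => (Pi.basisFun_apply F (Fin n₁) i).symm), Module.Basis.span_eq]
        trivial
    intro x y
    refine eq_zero_of_additive_sq (d := fun y : Fin n₂ → F => q (fun p => x p.1 * y p.2))
      (fun u v => ?_) (fun c u => ?_) (T := Set.range fun i => (Pi.single i 1 : Fin n₂ → F)) ?_ ?_
    · have h := hpol (fun p => x p.1 * u p.2) (fun p => x p.1 * v p.2)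
      rw [hG, dot_kronecker, dot_self_eq_zero h2 hCt hCd, zero_mul, QuadraticMap.polar] at h
      rw [show (fun p : Fin n₁ × Fin n₂ => x p.1 * (u + v) p.2) =
        (fun p => x p.1 * u p.2) + fun p => x p.1 * v p.2 from funext fun p => mul_add _ _ _]
      linear_combination h
    · rw [← hq]; exact congrArg q (funext fun p => mul_left_comm _ _ _)
    · rintro _ ⟨k, rfl⟩; exact hstep x k
    · rw [show (Set.range fun i => (Pi.single i 1 : Fin n₂ → F)) = Set.range (Pi.basisFun F (Fin n₂)) from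
        congrArg Set.range (funext fun i => (Pi.basisFun_apply F (Fin n₂) i).symm), Module.Basis.span_eq]
      trivial
  refine inSympCase_quad_of_span hev hH (Q := fun v => q (coordMap e P v))
    (fun c v => by rw [map_smul, hq]) (fun u v => ?_)
    (T := {v | ∃ (x : Fin n₁ → F) (y : Fin n₂ → F), coordMap e P v = fun p => x p.1 * y p.2}) ?_ ?_ ?_
  · have h := hpol (coordMap e P u) (coordMap e P v)
    rw [← apply_coord hf.bilinear, point_coordMap, point_coordMap] at h
    simp only [QuadraticMap.polar, map_add] at h ⊢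
    exact h
  · rintro v ⟨x, y, hv⟩
    show q (coordMap e P v) = 0
    rw [hv, hpure]
  · rw [eq_top_iff]
    intro v _
    rw [← point_coordMap e P v, pi_eq_sum_univ' (coordMap e P v)]
    have hlin : ∀ (w : Fin n₁ × Fin n₂ → F), (P : M2) *ᵥ (w ∘ e) =
        (Matrix.toLin' (P : M2)).comp (LinearMap.funLeft F F e) w := fun w => by
      simp [Matrix.toLin'_apply, LinearMap.funLeft]
    rw [hlin, map_sum]
    refine Submodule.sum_mem _ fun p _ => ?_
    rw [map_smul, ← hlin]
    refine Submodule.smul_mem _ _ (Submodule.subset_span ⟨Pi.single p.1 1, Pi.single p.2 1, ?_⟩)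
    rw [coordMap_point]
    funext r
    simp [Pi.single_apply, Prod.ext_iff, ← ite_and, eq_comm, and_comm]
  · rintro g hg v ⟨x, y, hv⟩
    obtain ⟨_, ⟨z, ⟨a, b, hz⟩, rfl⟩, rfl⟩ := hle hg
    show q (coordMap e P (act (P * glReindex e.symm z * P⁻¹) v)) = 0
    rw [← point_coordMap e P v, act_conj_reindex, coordMap_point, hv, hz]
    have : ((a : Matrix (Fin n₁) (Fin n₁) F) ⊗ₖ (b : Matrix (Fin n₂) (Fin n₂) F)) *ᵥ
        (fun p => x p.1 * y p.2) =
        fun p => ((a : Matrix _ _ F) *ᵥ x) p.1 * ((b : Matrix _ _ F) *ᵥ y) p.2 := by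
      funext p
      simp only [Matrix.mulVec, dotProduct, Fintype.sum_prod_type, Finset.sum_mul_sum]
      exact Finset.sum_congr rfl fun r _ => Finset.sum_congr rfl fun s _ => by
        rw [Matrix.kronecker_apply]; ring
    rw [this, hpure]

/-- The tensor case of Clifford theory for symplectic groups. -/
theorem symp_tensor (hH : H ≤ Cfsg.spGL m F) (hirr : ActsIrreducibly (matrixSet H))
    {N : Subgroup (GL (Fin m ⊕ Fin m) F)} (hN : N ≤ H) (hT : TensorCase H N n₁ n₂ e P) : InSympCase H := by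
  classical
  have hf := isSymplecticForm_sympForm (m := m) (F := F)
  have h₁ : Nonempty (Fin n₁) := ⟨⟨0, by have := hT.two_le_left; omega⟩⟩
  have h₂' : Nonempty (Fin n₂) := ⟨⟨0, by have := hT.two_le_right; omega⟩⟩
  let S : Set (Matrix (Fin n₂) (Fin n₂) F) := {b | ∃ x ∈ N, (x : M2) * (P : M2) =
    (P : M2) * Matrix.reindex e.symm e.symm ((1 : Matrix (Fin n₁) (Fin n₁) F) ⊗ₖ b)}
  have hS : ∀ D : Matrix (Fin n₂) (Fin n₂) F, (∀ b ∈ S, D * b = b * D) → ∃ c : F, D = c • 1 := by
    intro D hD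
    let R := Matrix.reindexAlgEquiv F F e.symm
    set RD := R ((1 : Matrix (Fin n₁) (Fin n₁) F) ⊗ₖ D)
    set M : M2 := (P : M2) * RD * ((P⁻¹ : GL (Fin m ⊕ Fin m) F) : M2)
    have hMP : M * (P : M2) = (P : M2) * RD := by simp [M, mul_assoc]
    have hmem : M ∈ Subalgebra.centralizer F (matrixSet N) := by
      rw [Subalgebra.mem_centralizer_iff]
      rintro _ ⟨x, hx, rfl⟩
      obtain ⟨b, hb⟩ := hT.inner x hx
      have hDb := hD b ⟨x, hx, hb⟩
      have hxP : (x : M2) * (P : M2) = (P : M2) * R ((1 : Matrix (Fin n₁) (Fin n₁) F) ⊗ₖ b) := hb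
      apply P.isUnit.mul_left_injective
      show (x : M2) * M * (P : M2) = M * (x : M2) * (P : M2)
      rw [mul_assoc, hMP, ← mul_assoc, hxP, mul_assoc, mul_assoc, hxP, ← mul_assoc M, hMP,
        mul_assoc]
      congr 1
      rw [← map_mul, ← map_mul, ← Matrix.mul_kronecker_mul, ← Matrix.mul_kronecker_mul, hDb]
    obtain ⟨C', hC'⟩ := hT.commutant M hmem
    rw [hMP] at hC'
    have h4 : (1 : Matrix (Fin n₁) (Fin n₁) F) ⊗ₖ D = C' ⊗ₖ (1 : Matrix (Fin n₂) (Fin n₂) F) :=
      (Matrix.reindex e.symm e.symm).injective (P.isUnit.mul_right_injective hC')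
    obtain ⟨i⟩ := h₁
    refine ⟨C' i i, Matrix.ext fun k l => ?_⟩
    have := congrFun (congrFun h4 (i, k)) (i, l)
    simpa [Matrix.one_apply] using this
  have hmapid : ∀ {κ : Type} (X : Matrix κ κ F), X.map (RingHom.id F) = X := fun X => Matrix.ext fun _ _ => rfl
  obtain ⟨C, G₀, hC, hG₀, hinv₀, hG⟩ := exists_kronecker_of_invariant (σ := RingHom.id F) hS
    (isUnit_det_coordGram hf.bilinear hf.nondegenerate e P) fun b hb => by
      obtain ⟨x, hx, hxb⟩ := hb
      rw [hmapid]
      exact coordGram_fixed hf.bilinear e P (fun u v => mem_spGL.1 (hH (hN hx)) u v) hxb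
  obtain ⟨lam, hlam⟩ := hinv₀.exists_smul (X := G₀ᵀ) hS hG₀ (fun b hb => by
    have := congrArg Matrix.transpose (hinv₀ b hb)
    rw [hmapid] at this ⊢
    simpa [Matrix.transpose_mul, mul_assoc] using this)
  obtain ⟨p, r, hpr⟩ := exists_entry_ne_zero (ne_zero_of_isUnit_det hG₀)
  have hlam2 : lam * lam = 1 := by
    have h := congrFun (congrFun hlam p) r
    have h' := congrFun (congrFun hlam r) p
    simp only [Matrix.transpose_apply, Matrix.smul_apply, smul_eq_mul] at h h'
    exact mul_right_cancel₀ hpr (by linear_combination -lam * h - h')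
  have hGt := coordGram_transpose hf.bilinear hf.skew e P
  have hCt : Cᵀ = (-lam) • C := by
    ext i j
    have h := congrFun (congrFun hGt (i, r)) (j, p)
    rw [hG, Matrix.neg_apply, Matrix.transpose_apply, Matrix.kronecker_apply, Matrix.kronecker_apply] at h
    have h' := congrFun (congrFun hlam r) p
    rw [Matrix.transpose_apply, Matrix.smul_apply, smul_eq_mul] at h'
    rw [Matrix.transpose_apply, Matrix.smul_apply, smul_eq_mul]
    apply mul_right_cancel₀ hpr
    linear_combination h + (lam * C i j) * h' + (C i j * G₀ r p) * hlam2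
  by_cases hodd : Odd (Fintype.card F)
  · rcases mul_self_eq_one_iff.1 hlam2 with rfl | rfl
    · rw [neg_one_smul] at hCt
      rw [one_smul] at hlam
      exact symp_tensor_odd hodd hH hT.two_le_left hT.two_le_right hT.le hC hG₀ hG hCt hlam
    · rw [neg_neg, one_smul] at hCt
      rw [neg_one_smul] at hlam
      exact symp_tensor_odd hodd hH hT.two_le_right hT.two_le_left
        (hT.le.trans (tensorProductSubgroup_swap n₁ n₂ e P)) hG₀ hC (coordGram_swap hG) hlam hCt
  · have h2 := two_eq_zero_of_not_odd hodd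
    have hl1 : lam = 1 := by
      rcases mul_self_eq_one_iff.1 hlam2 with h | h
      · exact h
      · rw [h]; linear_combination -h2
    rw [hl1, one_smul] at hlam
    rw [hl1, show (-1 : F) = 1 by linear_combination -h2, one_smul] at hCt
    exact symp_tensor_even hodd hH hirr hT.two_le_left hT.two_le_right hT.le hC hG₀ hG hCt hlam

end CfsgLib.SmallDim
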