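import Cfsg.Agent.Lib.SmallDim.Descent
import Cfsg.Agent.Lib.SmallDim.Clifford
import Cfsg.Agent.Lib.SmallDim.Forms

/-!
# Minimal normal subgroups with scalar commutators, any dimension

Such a group is an `r`-group of symplectic type; its order follows from trace orthogonality.
-/

set_option autoImplicit false
set_option linter.style.haveILetI false

namespace CfsgLib.SmallDim

open scoped MatrixGroups Matrix commutatorElement
open Cfsg.Geo

section Class2

variable {G : Type*} [Group G] {x y c : G}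

lemma mul_pow_swap (hc : ∀ g, c * g = g * c) (h : y * x = x * y * c) :
    ∀ k : ℕ, y ^ k * x = x * y ^ k * c ^ k
  | 0 => by simp
  | k + 1 => by
    have hck : Commute (c ^ k) y := (show Commute c y from hc y).pow_left k
    calc y ^ (k + 1) * x = y * (y ^ k * x) := by rw [pow_succ', mul_assoc]
      _ = (y * x) * y ^ k * c ^ k := by rw [mul_pow_swap hc h k]; simp only [mul_assoc]
      _ = x * y * (c * y ^ k) * c ^ k := by rw [h]; simp only [mul_assoc]
      _ = x * y ^ (k + 1) * c ^ (k + 1) := by rw [hc, pow_succ' y, pow_succ' c]; simp only [mul_assoc]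

lemma pow_mul_swap (hc : ∀ g, c * g = g * c) (h : y * x = x * y * c) :
    ∀ k : ℕ, y * x ^ k = x ^ k * y * c ^ k
  | 0 => by simp
  | k + 1 => by
    calc y * x ^ (k + 1) = (y * x ^ k) * x := by rw [pow_succ, mul_assoc]
      _ = x ^ k * (y * (c ^ k * x)) := by rw [pow_mul_swap hc h k]; simp only [mul_assoc]
      _ = x ^ k * ((y * x) * c ^ k) := by
          rw [((show Commute c x from hc x).pow_left k).eq]; simp only [mul_assoc]
      _ = x ^ (k + 1) * y * c ^ (k + 1) := by rw [h, pow_succ, pow_succ' c]; simp only [mul_assoc]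

lemma mul_pow_eq (hc : ∀ g, c * g = g * c) (h : y * x = x * y * c) :
    ∀ k : ℕ, (x * y) ^ k = x ^ k * y ^ k * c ^ k.choose 2
  | 0 => by simp
  | k + 1 => by
    have hC : Commute (c ^ k.choose 2) (x * y) := (show Commute c (x * y) from hc _).pow_left _
    calc (x * y) ^ (k + 1) = x ^ k * y ^ k * c ^ k.choose 2 * (x * y) := by
          rw [pow_succ, mul_pow_eq hc h k]
      _ = x ^ k * (y ^ k * x) * (y * c ^ k.choose 2) := by
          rw [mul_assoc _ (c ^ k.choose 2), hC.eq]; simp only [mul_assoc]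
      _ = x ^ k * x * (y ^ k * (c ^ k * y)) * c ^ k.choose 2 := by
          rw [mul_pow_swap hc h k]; simp only [mul_assoc]
      _ = x ^ (k + 1) * y ^ (k + 1) * c ^ (k + 1).choose 2 := by
          rw [((show Commute c y from hc y).pow_left k).eq,
            show (k + 1).choose 2 = k + k.choose 2 by rw [Nat.choose_succ_succ' k 1, Nat.choose_one_right],
            pow_add c, pow_succ x, pow_succ y]
          simp only [mul_assoc]

end Class2

variable {ι : Type} [Fintype ι] [DecidableEq ι] {F : Type*} [Field F]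

/-- A normal subgroup of symplectic type in any dimension. -/
structure SymplGen (H R : Subgroup (GL ι F)) (r m : ℕ) : Prop where
  normal : NormalIn R H
  absIrred : ActsAbsolutelyIrreducibly (matrixSet R)
  sympType : IsSymplecticTypeGroup r R
  dim : Fintype.card ι = r ^ m
  card_eq : Nat.card R = Nat.card (Subgroup.center R) * r ^ (2 * m)
  center_cases : (Odd r ∧ Nat.card (Subgroup.center R) = r) ∨
    (r = 2 ∧ (Nat.card (Subgroup.center R) = 2 ∨ Nat.card (Subgroup.center R) = 4))
  scalar_pow : ∀ x ∈ R, x ∈ scalars ι F →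
    ∃ s : F, (x : Matrix ι ι F) = s • 1 ∧ s ^ Nat.card (Subgroup.center R) = 1
  trace_eq_zero : ∀ x ∈ R, x ∉ scalars ι F → Matrix.trace (x : Matrix ι ι F) = 0
  card_ne_zero : (Fintype.card ι : F) ≠ 0
  hasRoot : ∃ s : F, IsPrimitiveRoot s (Nat.card (Subgroup.center R))
  comm_scalar : ∀ a ∈ R, ∀ b ∈ R, ⁅a, b⁆ ∈ scalars ι F

set_option maxHeartbeats 800000 in
/-- A minimal non-scalar normal subgroup with scalar commutators is of symplectic type. -/
theorem exists_symplGen [Finite F] (hn : 1 < Fintype.card ι) {H N : Subgroup (GL ι F)}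
    (hN : NormalIn N H) (habs : ActsAbsolutelyIrreducibly (matrixSet N))
    (hcomm : ∀ a ∈ N, ∀ b ∈ N, ⁅a, b⁆ ∈ scalars ι F)
    (hmin : ∀ M, NormalIn M H → M ≤ N → M ≤ scalars ι F ∨ M = N)
    (hnoab : ∀ M, NormalIn M H → (∀ a ∈ M, ∀ b ∈ M, a * b = b * a) → M ≤ scalars ι F) :
    ∃ r m : ℕ, SymplGen H N r m := by
  classical
  haveI : Nonempty ι := Fintype.card_pos_iff.mp (by omega)
  have hnab := not_commutative_of_absIrred hn habs
  have hNs : ¬ N ≤ scalars ι F := fun h => hnab fun a ha b _ => scalars_commute (h ha) b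
  have hwhole : ∀ S : Subgroup (GL ι F), S ≤ N → (∀ h ∈ H, ∀ x ∈ S, h * x * h⁻¹ ∈ S) →
      (∃ x ∈ S, x ∉ scalars ι F) → S = N := fun S hle hconj ⟨x, hx, hxs⟩ =>
    (hmin S ⟨hle.trans hN.le, hconj⟩ hle).resolve_left fun h => hxs (h hx)
  let π : GL ι F →* GL ι F ⧸ scalars ι F := QuotientGroup.mk' _
  have hπ : ∀ a, π a = 1 ↔ a ∈ scalars ι F := fun a => QuotientGroup.eq_one_iff a
  have hc : ∀ x ∈ N, ∀ y ∈ N, ∃ c ∈ scalars ι F, c ∈ N ∧ y * x = x * y * c := by
    intro x hx y hy
    refine ⟨⁅y⁻¹, x⁻¹⁆, hcomm _ (N.inv_mem hy) _ (N.inv_mem hx), ?_, by rw [commutatorElement_def]; group⟩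
    exact N.mul_mem (N.mul_mem (N.mul_mem (N.inv_mem hy) (N.inv_mem hx))
      (by simpa using hy)) (by simpa using hx)
  have hπc : ∀ x ∈ N, ∀ y ∈ N, Commute (π x) (π y) := by
    intro x hx y hy
    obtain ⟨c, hcs, -, h⟩ := hc x hx y hy
    show π x * π y = π y * π x
    rw [← map_mul, ← map_mul, h, map_mul π (x * y), (hπ c).2 hcs, mul_one]
  -- the prime
  obtain ⟨x₀, hx₀, hx₀s⟩ : ∃ x ∈ N, x ∉ scalars ι F := by
    by_contra h
    push Not at h
    exact hNs h
  have ho : 1 < orderOf (π x₀) := by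
    have h1 : 0 < orderOf (π x₀) := orderOf_pos _
    have h2 : orderOf (π x₀) ≠ 1 := fun h => hx₀s ((hπ _).1 (orderOf_eq_one_iff.1 h))
    omega
  obtain ⟨r, hr, hrd⟩ := Nat.exists_prime_and_dvd ho.ne'
  haveI := Fact.mk hr
  set y₀ := x₀ ^ (orderOf (π x₀) / r)
  have hy₀ : y₀ ∈ N := N.pow_mem hx₀ _
  have hy₀o : orderOf (π y₀) = r := by
    rw [map_pow, orderOf_pow_orderOf_div (by omega) hrd]
  have hy₀s : y₀ ∉ scalars ι F := fun h => by
    rw [(hπ _).2 h, orderOf_one] at hy₀o
    exact hr.ne_one hy₀o.symm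
  -- exponent `r` modulo scalars
  have hrmod : ∀ x ∈ N, x ^ r ∈ scalars ι F := by
    let S : Subgroup (GL ι F) :=
      { carrier := {x | x ∈ N ∧ π x ^ r = 1}
        one_mem' := ⟨N.one_mem, by rw [map_one, one_pow]⟩
        mul_mem' := fun {a b} ha hb => ⟨N.mul_mem ha.1 hb.1, by
          rw [map_mul, (hπc a ha.1 b hb.1).mul_pow, ha.2, hb.2, one_mul]⟩
        inv_mem' := fun {a} ha => ⟨N.inv_mem ha.1, by rw [map_inv, inv_pow, ha.2, inv_one]⟩ }
    have hS := hwhole S (fun x hx => hx.1) (fun h hh x hx => ⟨hN.conj h hh x hx.1, by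
      rw [map_mul, map_mul, map_inv, conj_pow, hx.2, mul_one, mul_inv_cancel]⟩)
      ⟨y₀, ⟨hy₀, hy₀o ▸ pow_orderOf_eq_one _⟩, hy₀s⟩
    intro x hx
    rw [← hπ, map_pow]
    exact (hS.ge hx).2
  have hcr : ∀ x ∈ N, ∀ y ∈ N, ∀ c ∈ scalars ι F, y * x = x * y * c → c ^ r = 1 := by
    intro x hx y hy c hcs h
    have h1 := pow_mul_swap (scalars_commute hcs) h r
    rw [← scalars_commute (hrmod x hx) y] at h1
    exact left_eq_mul.1 h1
  -- `N` is an `r`-group
  have hpg : ∀ x ∈ N, ∃ j, x ^ r ^ j = 1 := by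
    let S : Subgroup (GL ι F) :=
      { carrier := {x | x ∈ N ∧ ∃ j, x ^ r ^ j = 1}
        one_mem' := ⟨N.one_mem, 0, by simp⟩
        mul_mem' := fun {a b} ha hb => by
          obtain ⟨i, hi⟩ := ha.2
          obtain ⟨j, hj⟩ := hb.2
          obtain ⟨c, hcs, -, h⟩ := hc a ha.1 b hb.1
          refine ⟨N.mul_mem ha.1 hb.1, i + j + 1, ?_⟩
          rw [pow_succ, pow_mul, mul_pow_eq (scalars_commute hcs) h, pow_add, pow_mul, hi, one_pow,
            one_mul, mul_comm (r ^ i), pow_mul, hj, one_pow, one_mul, ← pow_mul, mul_comm, pow_mul,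
            hcr a ha.1 b hb.1 c hcs h, one_pow]
        inv_mem' := fun {a} ha => ⟨N.inv_mem ha.1, ha.2.imp fun j hj => by rw [inv_pow, hj, inv_one]⟩ }
    have hS : S = N := by
      refine hwhole S (fun x hx => hx.1) (fun h hh x hx => ⟨hN.conj h hh x hx.1,
        hx.2.imp fun j hj => by rw [conj_pow, hj, mul_one, mul_inv_cancel]⟩) ?_
      obtain ⟨a, b, hb, hab⟩ := Nat.exists_eq_pow_mul_and_not_dvd (orderOf_pos y₀).ne' r hr.ne_one
      refine ⟨y₀ ^ b, ⟨N.pow_mem hy₀ b, a, ?_⟩, fun h => hy₀s ?_⟩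
      · rw [← pow_mul, mul_comm, ← hab, pow_orderOf_eq_one]
      · rw [← hπ] at h ⊢
        rw [map_pow] at h
        have := pow_gcd_eq_one.2 ⟨h, (hy₀o ▸ pow_orderOf_eq_one _ : π y₀ ^ r = 1)⟩
        rwa [Nat.Coprime.gcd_eq_one ((Nat.Coprime.symm) ((hr.coprime_iff_not_dvd).2 hb)), pow_one] at this
    intro x hx
    exact (hS.ge hx).2
  -- scalar values
  obtain ⟨i₀⟩ := ‹Nonempty ι›
  let val : GL ι F → F := fun x => (x : Matrix ι ι F) i₀ i₀
  have hval : ∀ x ∈ scalars ι F, (x : Matrix ι ι F) = val x • 1 := by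
    intro x hx
    obtain ⟨c, hc'⟩ := (mem_scalars_iff x).1 hx
    simp [val, hc']
  have hval_mul : ∀ a ∈ scalars ι F, ∀ b, val (a * b) = val a * val b := by
    intro a ha b
    simp only [val, Units.val_mul]
    rw [hval a ha, Matrix.smul_mul, one_mul]
    simp [val]
  have hval_pow : ∀ a ∈ scalars ι F, ∀ k : ℕ, val (a ^ k) = val a ^ k := by
    intro a ha k
    induction k with
    | zero => simp [val]
    | succ k ih => rw [pow_succ', hval_mul a ha, ih, pow_succ']
  have hval_inj : ∀ a ∈ scalars ι F, ∀ b ∈ scalars ι F, val a = val b → a = b := fun a ha b hb h =>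
    Units.ext (by rw [hval a ha, hval b hb, h])
  -- exponent
  set E := r * Nat.gcd 2 r with hE
  have hEC : r ∣ E.choose 2 := by
    rcases hr.eq_two_or_odd' with h2 | hodd
    · rw [hE, h2]; decide
    · rw [hE, (Nat.coprime_two_left.2 hodd).gcd_eq_one, mul_one, Nat.choose_two_right,
        Nat.mul_div_assoc _ (by obtain ⟨k, hk⟩ := hodd; exact ⟨k, by omega⟩)]
      exact dvd_mul_right _ _
  have hexp : ∀ x ∈ N, x ^ E = 1 := by
    let S : Subgroup (GL ι F) :=
      { carrier := {x | x ∈ N ∧ x ^ E = 1}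
        one_mem' := ⟨N.one_mem, one_pow _⟩
        mul_mem' := fun {a b} ha hb => by
          obtain ⟨c, hcs, -, h⟩ := hc a ha.1 b hb.1
          refine ⟨N.mul_mem ha.1 hb.1, ?_⟩
          obtain ⟨k, hk⟩ := hEC
          rw [mul_pow_eq (scalars_commute hcs) h, ha.2, hb.2, hk, pow_mul, hcr a ha.1 b hb.1 c hcs h,
            one_pow, one_mul, one_mul]
        inv_mem' := fun {a} ha => ⟨N.inv_mem ha.1, by rw [inv_pow, ha.2, inv_one]⟩ }
    have hS : S = N := by
      refine hwhole S (fun x hx => hx.1) (fun h hh x hx => ⟨hN.conj h hh x hx.1, by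
        rw [conj_pow, hx.2, mul_one, mul_inv_cancel]⟩) ?_
      by_contra hall
      push Not at hall
      apply hnab
      -- if `x ^ r` generates `y ^ r`, then `y` and `x` commute
      have key : ∀ x ∈ N, ∀ y ∈ N, orderOf (val (y ^ r)) ∣ orderOf (val (x ^ r)) → x * y = y * x := by
        intro x hx y hy hdvd
        have hpos : 0 < orderOf (val (x ^ r)) := by
          obtain ⟨j, hj⟩ := hpg x hx
          refine IsOfFinOrder.orderOf_pos ?_
          refine isOfFinOrder_iff_pow_eq_one.2 ⟨r ^ j, pow_pos hr.pos j, ?_⟩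
          rw [← hval_pow _ (hrmod x hx), ← pow_mul, mul_comm, pow_mul, hj, one_pow]
          simp [val]
        haveI : NeZero (orderOf (val (x ^ r))) := ⟨hpos.ne'⟩
        obtain ⟨i, -, hi⟩ := (IsPrimitiveRoot.orderOf (val (x ^ r))).eq_pow_of_pow_eq_one
          (orderOf_dvd_iff_pow_eq_one.1 hdvd)
        have hw : x ^ i ∈ N := N.pow_mem hx i
        have hrel : (x ^ i) ^ r = y ^ r := by
          rw [← pow_mul, mul_comm, pow_mul]
          exact hval_inj _ ((scalars ι F).pow_mem (hrmod x hx) i) _ (hrmod y hy)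
            ((hval_pow _ (hrmod x hx) i).trans hi)
        obtain ⟨c, hcs, -, h⟩ := hc y hy (x ^ i)⁻¹ (N.inv_mem hw)
        have h1 := mul_pow_eq (scalars_commute hcs) h r
        rw [inv_pow, hrel, mul_inv_cancel, one_mul] at h1
        have h2 : ((y * (x ^ i)⁻¹) ^ r) ^ Nat.gcd 2 r = 1 := by
          rw [h1, ← pow_mul]
          obtain ⟨k, hk⟩ : r ∣ r.choose 2 * Nat.gcd 2 r := by
            rcases hr.eq_two_or_odd' with h2 | hodd
            · rw [h2]; decide
            · rw [Nat.choose_two_right, Nat.mul_div_assoc _ (by obtain ⟨k, hk⟩ := hodd; exact ⟨k, by omega⟩)]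
              exact dvd_mul_of_dvd_left (dvd_mul_right _ _) _
          rw [hk, pow_mul, hcr y hy _ (N.inv_mem hw) c hcs h, one_pow]
        rw [← pow_mul] at h2
        have hys : y * (x ^ i)⁻¹ ∈ scalars ι F := hall _ ⟨N.mul_mem hy (N.inv_mem hw), h2⟩
        have hcom := scalars_commute hys x
        have hy' : y = y * (x ^ i)⁻¹ * x ^ i := by group
        rw [hy']
        calc x * (y * (x ^ i)⁻¹ * x ^ i) = (x * (y * (x ^ i)⁻¹)) * x ^ i := (mul_assoc _ _ _).symm
          _ = _ := by rw [← hcom, mul_assoc, ← pow_succ', pow_succ, ← mul_assoc]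
      intro a ha b hb
      have hord : ∀ x ∈ N, ∃ j, orderOf (val (x ^ r)) = r ^ j := by
        intro x hx
        obtain ⟨j, hj⟩ := hpg x hx
        have : orderOf (val (x ^ r)) ∣ r ^ j := orderOf_dvd_iff_pow_eq_one.2 (by
          rw [← hval_pow _ (hrmod x hx), ← pow_mul, mul_comm, pow_mul, hj, one_pow]; simp [val])
        obtain ⟨i, -, hi⟩ := (Nat.dvd_prime_pow hr).1 this
        exact ⟨i, hi⟩
      obtain ⟨i, hi⟩ := hord a ha
      obtain ⟨j, hj⟩ := hord b hb
      rcases le_total j i with hji | hji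
      · exact key a ha b hb (by rw [hi, hj]; exact pow_dvd_pow r hji)
      · exact (key b hb a ha (by rw [hi, hj]; exact pow_dvd_pow r hji)).symm
    intro x hx
    exact (hS.ge hx).2
  -- the centre
  have hscalar : ∀ b, (∀ a ∈ N, b * a = a * b) → b ∈ scalars ι F := by
    intro b hb
    obtain ⟨c, hc'⟩ := habs.2 _ (by
      rintro _ ⟨a, ha, rfl⟩
      exact congrArg Units.val (hb a ha))
    exact mem_scalars_of_act c fun v => act_scalar hc' v
  have hcenter : Subgroup.center N = (scalars ι F).subgroupOf N := by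
    ext ⟨x, hx⟩
    rw [Subgroup.mem_center_iff, Subgroup.mem_subgroupOf]
    exact ⟨fun h => hscalar x fun a ha => (congrArg Subtype.val (h ⟨a, ha⟩)).symm,
      fun h a => Subtype.ext (scalars_commute h a).symm⟩
  have hzs : ∀ w : Subgroup.center N, ((w : N) : GL ι F) ∈ scalars ι F := fun w =>
    Subgroup.mem_subgroupOf.1 (hcenter.le w.2)
  let θ : Subgroup.center N →* F :=
    { toFun := fun w => val ((w : N) : GL ι F)
      map_one' := by simp [val]
      map_mul' := fun a b => hval_mul _ (hzs a) _ }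
  have hθ : Function.Injective θ := fun a b h => Subtype.ext (Subtype.ext (hval_inj _ (hzs a) _ (hzs b) h))
  haveI : IsCyclic (Subgroup.center N) := isCyclic_of_injective_ringHom θ hθ
  set z := Nat.card (Subgroup.center N)
  have hzE : z ∣ E := by
    show Nat.card (Subgroup.center N) ∣ E
    rw [← IsCyclic.exponent_eq_card (α := Subgroup.center N)]
    exact Monoid.exponent_dvd_of_forall_pow_eq_one fun w => Subtype.ext (Subtype.ext (hexp _ (w : N).2))
  obtain ⟨a₁, ha₁, b₁, hb₁, hab⟩ : ∃ a ∈ N, ∃ b ∈ N, a * b ≠ b * a := by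
    by_contra h
    push Not at h
    exact hnab h
  have hrz : r ∣ z := by
    obtain ⟨c, hcs, hcN, h⟩ := hc a₁ ha₁ b₁ hb₁
    let w : Subgroup.center N := ⟨⟨c, hcN⟩, hcenter.ge (Subgroup.mem_subgroupOf.2 hcs)⟩
    have hw : orderOf w = r := orderOf_eq_prime (Subtype.ext (Subtype.ext (hcr a₁ ha₁ b₁ hb₁ c hcs h)))
      (fun h1 => hab (by
        have hc1 : c = 1 := congrArg (fun w : Subgroup.center N => ((w : N) : GL ι F)) h1
        rw [h, hc1, mul_one]))
    exact hw ▸ orderOf_dvd_natCard w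
  have hzcases : (Odd r ∧ z = r) ∨ (r = 2 ∧ (z = 2 ∨ z = 4)) := by
    rcases hr.eq_two_or_odd' with rfl | hodd
    · right
      refine ⟨rfl, ?_⟩
      have : z ∈ Nat.divisors 4 := Nat.mem_divisors.2 ⟨by simpa [E] using hzE, by norm_num⟩
      have h4 : Nat.divisors 4 = {1, 2, 4} := by decide
      rw [h4] at this
      simp only [Finset.mem_insert, Finset.mem_singleton] at this
      rcases this with h | h | h
      · rw [h] at hrz; norm_num at hrz
      · exact Or.inl h
      · exact Or.inr h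
    · refine Or.inl ⟨hodd, Nat.dvd_antisymm ?_ hrz⟩
      rwa [hE, (Nat.coprime_two_left.2 hodd).gcd_eq_one, mul_one] at hzE
  -- traces
  have htr : ∀ x ∈ N, x ∉ scalars ι F → Matrix.trace (x : Matrix ι ι F) = 0 := by
    intro x hx hxs
    obtain ⟨y, hy, hne⟩ : ∃ y ∈ N, x * y ≠ y * x := by
      by_contra h
      push Not at h
      exact hxs (hscalar x h)
    obtain ⟨c, hcs, -, h⟩ := hc x hx y hy
    have hconj : y * x * y⁻¹ = c * x := by
      rw [h, mul_assoc x, ← scalars_commute hcs y, ← mul_assoc, mul_inv_cancel_right, scalars_commute hcs x]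
    have := congrArg (fun g : GL ι F => Matrix.trace (g : Matrix ι ι F)) hconj
    simp only [Units.val_mul, Matrix.trace_units_conj] at this
    rw [hval c hcs, Matrix.smul_mul, one_mul, Matrix.trace_smul, smul_eq_mul] at this
    have hv1 : val c ≠ 1 := fun h1 => hne (by
      rw [h, hval_inj c hcs 1 (one_mem _) (by rw [h1]; simp [val]), mul_one])
    by_contra h0
    exact hv1 (mul_right_cancel₀ h0 ((one_mul _).trans this)).symm
  have hn0 : (Fintype.card ι : F) ≠ 0 := by
    intro h0
    have h1 : (1 : Matrix ι ι F) = 0 := eq_zero_of_trace_mul (span_eq_top_of_absIrred habs) (by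
      rintro _ ⟨g, hg, rfl⟩
      rw [one_mul]
      show Matrix.trace (g : Matrix ι ι F) = 0
      by_cases hgs : g ∈ scalars ι F
      · rw [hval g hgs, Matrix.trace_smul, Matrix.trace_one, h0, smul_zero]
      · exact htr g hg hgs)
    exact one_ne_zero h1
  -- order
  let Z : Subgroup N := (scalars ι F).subgroupOf N
  let rep : N ⧸ Z → Matrix ι ι F := fun q => ((q.out : N) : GL ι F)
  haveI : Fintype (N ⧸ Z) := Fintype.ofFinite _
  have hli : LinearIndependent F rep := by
    rw [Fintype.linearIndependent_iff]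
    intro a ha q
    have h1 := congrArg (fun M => Matrix.trace (M * (((q.out : N) : GL ι F)⁻¹ : GL ι F).val)) ha
    simp only [Finset.sum_mul, Matrix.trace_sum, Matrix.smul_mul, Matrix.trace_smul, zero_mul,
      Matrix.trace_zero] at h1
    rw [Finset.sum_eq_single q] at h1
    · simp only [rep, ← Units.val_mul, mul_inv_cancel, Units.val_one, Matrix.trace_one, smul_eq_mul] at h1
      exact (mul_eq_zero.1 h1).resolve_right hn0
    · intro q' _ hq'
      simp only [rep, ← Units.val_mul]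
      rw [htr _ (N.mul_mem (SetLike.coe_mem _) (N.inv_mem (SetLike.coe_mem _))) ?_, smul_zero]
      intro hs
      apply hq'
      rw [← QuotientGroup.out_eq' q, ← QuotientGroup.out_eq' q', QuotientGroup.eq, Subgroup.mem_subgroupOf]
      have := (scalars_normal (ι := ι) (F := F)).conj_mem _ ((scalars ι F).inv_mem hs) ((q'.out : N) : GL ι F)⁻¹
      simpa [mul_assoc] using this
    · exact fun h => absurd (Finset.mem_univ q) h
  have hspan : ⊤ ≤ Submodule.span F (Set.range rep) := by
    rw [← span_eq_top_of_absIrred habs, Submodule.span_le]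
    rintro _ ⟨g, hg, rfl⟩
    let q : N ⧸ Z := QuotientGroup.mk ⟨g, hg⟩
    obtain ⟨w, hw⟩ := QuotientGroup.mk_out_eq_mul Z ⟨g, hg⟩
    have hg' : g = ((q.out : N) : GL ι F) * ((w : N) : GL ι F)⁻¹ := by
      rw [show q.out = ⟨g, hg⟩ * (w : N) from hw]; simp
    show (g : Matrix ι ι F) ∈ _
    rw [hg', Units.val_mul, hval _ ((scalars ι F).inv_mem (Subgroup.mem_subgroupOf.1 w.2)), Matrix.mul_smul,
      mul_one]
    exact Submodule.smul_mem _ _ (Submodule.subset_span ⟨q, rfl⟩)
  have hindex : Z.index = Fintype.card ι * Fintype.card ι := by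
    rw [Subgroup.index_eq_card, Nat.card_eq_fintype_card,
      ← Module.finrank_eq_card_basis (Module.Basis.mk hli hspan), Module.finrank_matrix,
      Module.finrank_self, mul_one]
  have hcardN : Nat.card N = z * (Fintype.card ι * Fintype.card ι) := by
    rw [← hindex, show z = Nat.card Z from congrArg (fun K : Subgroup N => Nat.card K) hcenter,
      Subgroup.card_mul_index]
  have hP : IsPGroup r N := fun x => (hpg x x.2).imp fun j hj => Subtype.ext hj
  obtain ⟨a, ha⟩ := IsPGroup.iff_card.1 hP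
  obtain ⟨m, -, hm⟩ := (Nat.dvd_prime_pow hr).1 (show Fintype.card ι ∣ r ^ a from
    ha ▸ hcardN ▸ dvd_mul_of_dvd_right (dvd_mul_right _ _) _)
  refine ⟨r, m, ⟨hN, habs, ⟨hr, hP, fun A hA hAc => ?_, ?_⟩, hm, ?_, hzcases, fun x hx hxs => ?_, htr, hn0, ?_, hcomm⟩⟩
  · -- characteristic abelian subgroups are scalar
    have hM : NormalIn (A.map N.subtype) H := by
      refine ⟨(Subgroup.map_subtype_le A).trans hN.le, ?_⟩
      rintro g hg _ ⟨w, hw, rfl⟩
      let ψ : N ≃* N :=
        { toFun := fun y => ⟨g * y * g⁻¹, hN.conj g hg y y.2⟩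
          invFun := fun y => ⟨g⁻¹ * y * g, hN.conj' hg y.2⟩
          left_inv := fun y => Subtype.ext (by simp [mul_assoc])
          right_inv := fun y => Subtype.ext (by simp [mul_assoc])
          map_mul' := fun y y' => Subtype.ext (by simp [mul_assoc]) }
      exact ⟨ψ w, (Subgroup.characteristic_iff_map_eq.1 hA ψ).le ⟨w, hw, rfl⟩, rfl⟩
    have hMs := hnoab _ hM (by
      rintro _ ⟨u, hu, rfl⟩ _ ⟨v, hv, rfl⟩
      exact congrArg (fun w : A => ((w : N) : GL ι F)) (hAc.is_comm.comm ⟨u, hu⟩ ⟨v, hv⟩))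
    let θA : A →* F :=
      { toFun := fun w => val ((w : N) : GL ι F)
        map_one' := by simp [val]
        map_mul' := fun u v => hval_mul _ (hMs ⟨_, u.2, rfl⟩) _ }
    exact isCyclic_of_injective_ringHom θA fun u v h =>
      Subtype.ext (Subtype.ext (hval_inj _ (hMs ⟨_, u.2, rfl⟩) _ (hMs ⟨_, v.2, rfl⟩) h))
  · -- exact exponent
    refine Nat.dvd_antisymm (Monoid.exponent_dvd_of_forall_pow_eq_one fun x => Subtype.ext (hexp x x.2)) ?_
    show E ∣ Monoid.exponent N
    rcases hr.eq_two_or_odd' with rfl | hodd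
    · have h4 : E = 2 ^ 2 := by simp [E]
      obtain ⟨k, hk, hk'⟩ := (Nat.dvd_prime_pow Nat.prime_two).1
        (h4 ▸ Monoid.exponent_dvd_of_forall_pow_eq_one fun x : N => Subtype.ext (hexp x x.2))
      interval_cases k
      · exfalso
        have : Subsingleton N := Monoid.exp_eq_one_iff.1 (by simpa using hk')
        exact hab (congrArg Subtype.val (Subsingleton.elim (⟨a₁ * b₁, N.mul_mem ha₁ hb₁⟩ : N) ⟨b₁ * a₁, N.mul_mem hb₁ ha₁⟩))
      · exfalso
        apply hab
        exact congrArg Subtype.val (mul_comm_of_exponent_two (G := N) (by simpa using hk') ⟨a₁, ha₁⟩ ⟨b₁, hb₁⟩)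
      · rw [hk', h4]
    · rw [hE, (Nat.coprime_two_left.2 hodd).gcd_eq_one, mul_one]
      exact hrz.trans ((IsCyclic.exponent_eq_card (α := Subgroup.center N)).symm.dvd.trans
        (Monoid.exponent_dvd_of_monoidHom (Subgroup.center N).subtype Subtype.val_injective))
  · rw [hcardN, hm, two_mul, pow_add]
  · refine ⟨val x, hval x hxs, ?_⟩
    let w : Subgroup.center N := ⟨⟨x, hx⟩, hcenter.ge (Subgroup.mem_subgroupOf.2 hxs)⟩
    have h := congrArg θ (pow_card_eq_one' (x := w))
    rw [map_pow, map_one] at h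
    exact h
  · obtain ⟨g, hg⟩ := IsCyclic.exists_generator (α := Subgroup.center N)
    refine ⟨θ g, ?_⟩
    show IsPrimitiveRoot (θ g) (Nat.card (Subgroup.center N))
    rw [← orderOf_eq_card_of_forall_mem_zpowers hg, ← orderOf_injective θ hθ g]
    exact IsPrimitiveRoot.orderOf _

end CfsgLib.SmallDim
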