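import Cfsg.Agent.Lib.SmallDim.Clifford
import Cfsg.Agent.Lib.SmallDim.Subfield

/-!
A minimal non-scalar normal subgroup with scalar commutators, in prime dimension: it is extraspecial of order
`n ^ 3` and exponent `n`, and monomial in a suitable basis.
-/

set_option autoImplicit false
set_option linter.style.haveILetI false

namespace CfsgLib.SmallDim

open scoped MatrixGroups Matrix
open Cfsg.Geo Polynomial

variable {ι : Type} [Fintype ι] [DecidableEq ι] {F : Type*} [Field F]

lemma act_smul (g : GL ι F) (c : F) (v : ι → F) : act g (c • v) = c • act g v := Matrix.mulVec_smul _ _ _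

lemma act_sub (g : GL ι F) (v w : ι → F) : act g (v - w) = act g v - act g w := Matrix.mulVec_sub _ _ _

/-- `g` is monomial with all entries roots of unity of order dividing `n`. -/
def IsRootMonomial (n : ℕ) (g : GL ι F) : Prop :=
  ∃ (π : Equiv.Perm ι) (c : ι → F), (∀ j, c j ^ n = 1) ∧ ∀ j, act g (Pi.single j 1) = c j • Pi.single (π j) 1

lemma IsRootMonomial.mul {n : ℕ} {g h : GL ι F} (hg : IsRootMonomial n g) (hh : IsRootMonomial n h) :
    IsRootMonomial n (g * h) := by
  obtain ⟨π, c, hc, hgc⟩ := hg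
  obtain ⟨ρ, d, hd, hhd⟩ := hh
  refine ⟨ρ.trans π, fun j => d j * c (ρ j), fun j => by rw [mul_pow, hd, hc, mul_one], fun j => ?_⟩
  rw [act_mul, hhd]
  have : act g (d j • Pi.single (ρ j) 1) = d j • act g (Pi.single (ρ j) 1) := Matrix.mulVec_smul _ _ _
  rw [this, hgc, smul_smul]
  rfl

lemma IsRootMonomial.one (n : ℕ) : IsRootMonomial n (1 : GL ι F) :=
  ⟨1, fun _ => 1, fun _ => one_pow n, fun j => by rw [act_one, one_smul]; rfl⟩

lemma IsRootMonomial.pow {n : ℕ} {g : GL ι F} (hg : IsRootMonomial n g) : ∀ k : ℕ, IsRootMonomial n (g ^ k)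
  | 0 => by simpa using IsRootMonomial.one n
  | k + 1 => by rw [pow_succ]; exact (IsRootMonomial.pow hg k).mul hg

lemma IsRootMonomial.entry {n : ℕ} {g : GL ι F} (hg : IsRootMonomial n g) (i j : ι) :
    (g : Matrix ι ι F) i j = 0 ∨ (g : Matrix ι ι F) i j ^ n = 1 := by
  obtain ⟨π, c, hc, hgc⟩ := hg
  have := congrFun (hgc j) i
  simp only [act, Matrix.mulVec_single_one, Matrix.col_apply] at this
  rw [this]
  by_cases h : i = π j <;> simp [h, hc]

/-- The structure found in the symplectic-type case. -/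
structure SymplData (H R : Subgroup (GL ι F)) : Prop where
  normal : NormalIn R H
  absIrred : ActsAbsolutelyIrreducibly (matrixSet R)
  sympType : IsSymplecticTypeGroup (Fintype.card ι) R
  card_eq : Nat.card R = Fintype.card ι ^ 3
  card_center : Nat.card (Subgroup.center R) = Fintype.card ι
  hasRoot : ∃ ν : F, IsPrimitiveRoot ν (Fintype.card ι)
  monomial : ∃ B : GL ι F, (∀ x ∈ R, IsRootMonomial (Fintype.card ι) (B * x * B⁻¹)) ∧
    ∃ x ∈ R, ∃ d : ι → F, (∀ j, act (B * x * B⁻¹) (Pi.single j 1) = d j • Pi.single j 1) ∧ Function.Injective d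

lemma not_sl_le_subgroupNormalizer {H R : Subgroup (GL ι F)} (h : SymplData H R) :
    ¬ specialLinear ι F ≤ subgroupNormalizer R := by
  intro hle
  obtain ⟨B, hB, x, hx, d, hd, hdinj⟩ := h.monomial
  obtain ⟨a, b, hab'⟩ := Fintype.exists_pair_of_one_lt_card h.sympType.prime.one_lt
  have hab : d a ≠ d b := fun e => hab' (hdinj e)
  have hne : a ≠ b := fun e => hab (by rw [e])
  have hdot : (Pi.single b 1 : ι → F) ⬝ᵥ (Pi.single a 1) = 0 := by simp [hne]
  set t := transvec (Pi.single b 1) (Pi.single a 1) hdot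
  have ht : B⁻¹ * t * B ∈ specialLinear ι F := by
    have := (MonoidHom.normal_ker (Matrix.GeneralLinearGroup.det : GL ι F →* Fˣ)).conj_mem t
      (transvec_mem_specialLinear _ _ hdot) B⁻¹
    rwa [inv_inv] at this
  have hy := (Subgroup.mem_normalizer_iff.mp (hle ht) x).mp hx
  obtain ⟨π, c, -, hc⟩ := hB _ hy
  have hy' : B * (B⁻¹ * t * B * x * (B⁻¹ * t * B)⁻¹) * B⁻¹ = t * (B * x * B⁻¹) * t⁻¹ := by group
  rw [hy'] at hc
  -- the `b`-th column of `t (B x B⁻¹) t⁻¹` has two non-zero entries
  have htb : act t⁻¹ (Pi.single b 1) = Pi.single b 1 - Pi.single a 1 := by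
    apply act_injective t
    rw [act_act_inv, act_sub, act_transvec, act_transvec]
    simp [hne.symm]
  have hcol : act (t * (B * x * B⁻¹) * t⁻¹) (Pi.single b 1)
      = d b • Pi.single b 1 + (d b - d a) • Pi.single a 1 := by
    rw [act_mul, htb, act_mul t, act_sub (B * x * B⁻¹), hd, hd, act_sub, act_smul, act_smul, act_transvec, act_transvec]
    simp [hne.symm, sub_smul, smul_add]
    abel
  have he := (hc b).symm.trans hcol
  have h1 := congrFun he a
  have h2 := congrFun he b
  simp [hne, hne.symm] at h1 h2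
  have hdb : d b ≠ 0 := by
    intro h0
    have := act_ne_zero (B * x * B⁻¹) (v := (Pi.single b 1 : ι → F)) (by simp)
    exact this (by rw [hd, h0, zero_smul])
  by_cases hπ : π b = b
  · simp [hπ, hne] at h1
    exact hab (sub_eq_zero.mp h1.symm).symm
  · simp [Ne.symm hπ] at h2
    exact hdb h2.symm

/-- Two matrices commuting up to a root of unity. -/
lemma twist_pow {x y : GL ι F} {ν : F} (h : ((y * x : GL ι F) : Matrix ι ι F) = ν • ((x * y : GL ι F) : Matrix ι ι F))
    (k : ℕ) : ((y * x ^ k : GL ι F) : Matrix ι ι F) = ν ^ k • ((x ^ k * y : GL ι F) : Matrix ι ι F) := by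
  induction k with
  | zero => simp
  | succ k ih =>
    rw [pow_succ, ← mul_assoc, Units.val_mul, ih, Matrix.smul_mul, ← Units.val_mul, mul_assoc, Units.val_mul, h,
      Matrix.mul_smul, ← Units.val_mul, ← mul_assoc, smul_smul, ← pow_succ, ← pow_succ]

lemma smul_coe_left_cancel (g : GL ι F) [Nonempty ι] {a b : F}
    (h : a • (g : Matrix ι ι F) = b • (g : Matrix ι ι F)) : a = b :=
  smul_left_injective F (Units.ne_zero g) h

/-- The analysis of an element `x` twisted by `y`: it has order dividing `n` and an eigenvector. -/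
lemma twisted_element (hn : (Fintype.card ι).Prime) (hodd : Odd (Fintype.card ι)) {x y : GL ι F} {ν : F}
    (hν : IsPrimitiveRoot ν (Fintype.card ι))
    (h : ((y * x : GL ι F) : Matrix ι ι F) = ν • ((x * y : GL ι F) : Matrix ι ι F))
    (hx : x ^ Fintype.card ι ∈ scalars ι F) (hdet : x ∈ specialLinear ι F) :
    x ^ Fintype.card ι = 1 ∧
      ∃ (v : ι → F) (μ : F), v ≠ 0 ∧ μ ^ Fintype.card ι = 1 ∧ act x v = μ • v := by
  classical
  set n := Fintype.card ι with hnd
  haveI : Nonempty ι := Fintype.card_pos_iff.mp hn.pos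
  obtain ⟨⟨c, hc0⟩, hc⟩ : ∃ c : {c : F // c ≠ 0}, ((x ^ n : GL ι F) : Matrix ι ι F) = (c : F) • 1 := by
    obtain ⟨c, hc⟩ := (mem_scalars_iff _).mp hx
    exact ⟨⟨c, c.ne_zero⟩, hc⟩
  simp only at hc
  rw [Units.val_pow_eq_pow_val] at hc
  set M : Matrix ι ι F := (x : Matrix ι ι F)
  have hdetM : M.det = 1 := by
    have := congrArg Units.val (MonoidHom.mem_ker.mp hdet)
    simpa [M] using this
  have haeval : aeval M (X ^ n - C c) = 0 := by
    rw [map_sub, map_pow, aeval_X, aeval_C, hc, Algebra.algebraMap_eq_smul_one, sub_self]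
  -- `c` is an `n`-th power
  obtain ⟨a, ha⟩ : ∃ a : F, a ^ n = c := by
    by_contra hno
    push Not at hno
    have hirr := X_pow_sub_C_irreducible_of_prime hn hno
    have hmin := minpoly.eq_of_irreducible_of_monic hirr haeval (monic_X_pow_sub_C c hn.ne_zero)
    have hchar : M.charpoly = X ^ n - C c := by
      have hdvd : X ^ n - C c ∣ M.charpoly := hmin ▸ minpoly.dvd F M M.aeval_self_charpoly
      have := eq_leadingCoeff_mul_of_monic_of_dvd_of_natDegree_le (monic_X_pow_sub_C c hn.ne_zero) hdvd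
        (by rw [Matrix.charpoly_natDegree_eq_dim, natDegree_X_pow_sub_C])
      rwa [M.charpoly_monic.leadingCoeff, C_1, one_mul] at this
    have := M.det_eq_sign_charpoly_coeff
    rw [hdetM, hchar, coeff_sub, coeff_X_pow, coeff_C_zero, ← hnd, hodd.neg_one_pow, if_neg hn.pos.ne] at this
    exact hno 1 (by rw [one_pow, this]; ring)
  have ha0 : a ≠ 0 := fun h0 => hc0 (by rw [← ha, h0, zero_pow hn.ne_zero])
  -- an eigenvector
  obtain ⟨i, hi⟩ : ∃ i ∈ Finset.range n, (M - (ν ^ i * a) • 1).det = 0 := by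
    by_contra hall
    push Not at hall
    have hprod : ∀ t ⊆ Finset.range n, IsUnit (aeval M (∏ i ∈ t, (X - C (ν ^ i * a)))).det := by
      intro t ht
      induction t using Finset.induction_on with
      | empty => simp
      | @insert k t hk ih =>
        rw [Finset.prod_insert hk, map_mul, Matrix.det_mul]
        refine IsUnit.mul ?_ (ih ((Finset.subset_insert k t).trans ht))
        rw [map_sub, aeval_X, aeval_C, Algebra.algebraMap_eq_smul_one, isUnit_iff_ne_zero]
        exact hall k (ht (Finset.mem_insert_self k t))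
    exact (hprod _ (subset_refl _)).ne_zero (by
      rw [← X_pow_sub_C_eq_prod hν hn.pos ha, haeval, Matrix.det_zero])
  obtain ⟨v, hv0, hv⟩ := Matrix.exists_mulVec_eq_zero_iff.mpr hi.2
  rw [Matrix.sub_mulVec, Matrix.smul_mulVec, Matrix.one_mulVec, sub_eq_zero] at hv
  set μ := ν ^ i * a
  have hμc : μ ^ n = c := by rw [mul_pow, ← pow_mul, mul_comm i, pow_mul, hν.pow_eq_one, one_pow, one_mul, ha]
  have hμ0 : μ ≠ 0 := mul_ne_zero (pow_ne_zero _ (hν.ne_zero hn.ne_zero)) ha0
  -- the translates of the eigenvector under `y` form a basis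
  have hν0 : ν ≠ 0 := hν.ne_zero hn.ne_zero
  have heig : ∀ k : ℕ, act x (act (y ^ k) v) = (μ * ν⁻¹ ^ k) • act (y ^ k) v := by
    intro k
    induction k with
    | zero => simpa [act_one] using hv
    | succ k ih =>
      have hxy : ∀ w, act x (act y w) = ν⁻¹ • act y (act x w) := fun w => by
        rw [← act_mul, ← act_mul, act, act, h, Matrix.smul_mulVec, smul_smul, inv_mul_cancel₀ hν0, one_smul]
      rw [pow_succ', act_mul, hxy, ih, act, Matrix.mulVec_smul, ← act, smul_smul]
      congr 1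
      rw [pow_succ]
      ring
  let w : Fin n → (ι → F) := fun k => act (y ^ (k : ℕ)) v
  have hinj : Function.Injective fun k : Fin n => μ * ν⁻¹ ^ (k : ℕ) := fun k l hkl =>
    Fin.ext (hν.inv.pow_inj k.2 l.2 (mul_left_cancel₀ hμ0 hkl))
  have hli : LinearIndependent F w :=
    Module.End.eigenvectors_linearIndependent' (Matrix.toLin' M) (fun k : Fin n => μ * ν⁻¹ ^ (k : ℕ)) hinj w
      (fun k => ⟨Module.End.mem_eigenspace_iff.mpr (by rw [Matrix.toLin'_apply]; exact heig k),
        act_ne_zero _ hv0⟩)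
  let b : Module.Basis (Fin n) F (ι → F) := Module.Basis.mk hli
    (hli.span_eq_top_of_card_eq_finrank' (by rw [Fintype.card_fin, Module.finrank_fintype_fun_eq_card])).ge
  have hb : ∀ k, b k = w k := fun k => by simp [b]
  -- the determinant
  have hdetprod : M.det = ∏ k : Fin n, μ * ν⁻¹ ^ (k : ℕ) := by
    rw [← LinearMap.det_toLin', ← LinearMap.det_toMatrix b]
    have : LinearMap.toMatrix b b (Matrix.toLin' M) = Matrix.diagonal fun k : Fin n => μ * ν⁻¹ ^ (k : ℕ) := by
      ext i j
      rw [LinearMap.toMatrix_apply, hb, Matrix.toLin'_apply]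
      show b.repr (act x (w j)) i = _
      rw [heig j, map_smul, show act (y ^ (j : ℕ)) v = b j from (hb j).symm, Module.Basis.repr_self,
        Finsupp.smul_single, smul_eq_mul, mul_one]
      rcases eq_or_ne i j with rfl | hij
      · simp
      · simp [Matrix.diagonal_apply_ne _ hij, Ne.symm hij]
    rw [this, Matrix.det_diagonal]
  have hμn : μ ^ n = 1 := by
    rw [hdetM, Finset.prod_mul_distrib, Finset.prod_const, Finset.card_univ, Fintype.card_fin,
      Finset.prod_pow_eq_pow_sum] at hdetprod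
    have hsum : n ∣ ∑ k : Fin n, (k : ℕ) := by
      rw [Fin.sum_univ_eq_sum_range (fun k => k)]
      have h2 := Finset.sum_range_id_mul_two n
      exact (Nat.Coprime.dvd_mul_right (Nat.coprime_two_right.mpr hodd)).mp ⟨n - 1, h2⟩
    obtain ⟨m, hm⟩ := hsum
    rw [hm, pow_mul, hν.inv.pow_eq_one, one_pow, mul_one] at hdetprod
    exact hdetprod.symm
  refine ⟨Units.ext ?_, v, μ, hv0, hμn, hv⟩
  rw [Units.val_pow_eq_pow_val, Units.val_one, hc, ← hμc, hμn, one_smul]

/-- The symplectic-type structure. -/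
theorem exists_symplData [Finite F] (hn : (Fintype.card ι).Prime) (hodd : Odd (Fintype.card ι))
    {H N : Subgroup (GL ι F)} (hsl : H ≤ specialLinear ι F) (hN : NormalIn N H)
    (habs : ActsAbsolutelyIrreducibly (matrixSet N))
    (hcomm : ∀ a ∈ N, ∀ b ∈ N, a * b * a⁻¹ * b⁻¹ ∈ scalars ι F)
    (hmin : ∀ M, NormalIn M H → M ≤ N → M ≤ scalars ι F ∨ M = N)
    (habel : ∀ M, NormalIn M H → (∀ a ∈ M, ∀ b ∈ M, a * b = b * a) → M ≤ scalars ι F) :
    SymplData H N := by
  classical
  set n := Fintype.card ι with hnd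
  haveI : Nonempty ι := Fintype.card_pos_iff.mp hn.pos
  set q := QuotientGroup.mk' (scalars ι F)
  have hq1 : ∀ g, q g = 1 ↔ g ∈ scalars ι F := fun g => QuotientGroup.eq_one_iff g
  have hqc : ∀ a ∈ N, ∀ b ∈ N, Commute (q a) (q b) := by
    intro a ha b hb
    have := (hq1 _).mpr (hcomm a ha b hb)
    rw [map_mul, map_mul, map_mul, map_inv, map_inv] at this
    exact mul_inv_eq_one.mp (by rw [mul_inv_rev, ← mul_assoc]; exact this)
  have hcent : ∀ z ∈ N, (∀ b ∈ N, z * b = b * z) → z ∈ scalars ι F := by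
    intro z hz hzc
    obtain ⟨c, hc⟩ := habs.2 _ (by
      rintro _ ⟨b, hb, rfl⟩
      exact congrArg Units.val (hzc b hb))
    exact mem_scalars_of_act c fun v => act_scalar hc v
  obtain ⟨x₀, hx₀, hx₀s⟩ : ∃ x ∈ N, x ∉ scalars ι F := by
    by_contra hall
    push Not at hall
    refine not_commutative_of_absIrred hn.one_lt habs fun a ha b hb => ?_
    exact scalars_commute (hall a ha) b
  -- an element of prime order modulo scalars
  have ho : orderOf (q x₀) ≠ 1 := fun h1 => hx₀s ((hq1 _).mp (orderOf_eq_one_iff.mp h1))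
  obtain ⟨r, hr, m, hm⟩ := Nat.exists_prime_and_dvd ho
  set x := x₀ ^ m with hxdef
  have hxN : x ∈ N := N.pow_mem hx₀ m
  have hox : q x ^ r = 1 := by rw [hxdef, map_pow, ← pow_mul, mul_comm, ← hm, pow_orderOf_eq_one]
  have hxs : x ∉ scalars ι F := fun hs => by
    have h1 := (hq1 x).mpr hs
    rw [hxdef, map_pow] at h1
    have hmpos : 0 < m := Nat.pos_of_ne_zero fun h0 => (orderOf_pos (q x₀)).ne' (by rw [hm, h0, mul_zero])
    have h2 := Nat.le_of_dvd hmpos (orderOf_dvd_of_pow_eq_one h1)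
    have h3 : 2 * m ≤ r * m := Nat.mul_le_mul_right m hr.two_le
    omega
  -- all of `N` has exponent `r` modulo scalars
  let M : Subgroup (GL ι F) :=
    { carrier := {z | z ∈ N ∧ q z ^ r = 1}
      mul_mem' := fun {a b} ha hb => ⟨N.mul_mem ha.1 hb.1, by
        rw [map_mul, (hqc a ha.1 b hb.1).mul_pow, ha.2, hb.2, one_mul]⟩
      one_mem' := ⟨N.one_mem, by simp⟩
      inv_mem' := fun {a} ha => ⟨N.inv_mem ha.1, by rw [map_inv, inv_pow, ha.2, inv_one]⟩ }
  have hMn : NormalIn M H := ⟨fun z hz => hN.le hz.1, fun g hg z hz => ⟨hN.conj g hg z hz.1, by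
    rw [map_mul, map_mul, map_inv, conj_pow, hz.2, mul_one, mul_inv_cancel]⟩⟩
  have hMN : M = N := ((hmin M hMn fun z hz => hz.1).resolve_left fun hs => hxs (hs ⟨hxN, hox⟩))
  -- twisting: elements of `N` commute up to `r`-th roots of unity
  have htwist : ∀ a ∈ N, ∀ b ∈ N, ∃ ν : F, ν ^ r = 1 ∧ ν ^ n = 1 ∧
      ((b * a : GL ι F) : Matrix ι ι F) = ν • ((a * b : GL ι F) : Matrix ι ι F) := by
    intro a ha b hb
    obtain ⟨c, hc⟩ := (mem_scalars_iff _).mp (hcomm b hb a ha)
    have he : ((b * a : GL ι F) : Matrix ι ι F) = (c : F) • ((a * b : GL ι F) : Matrix ι ι F) := by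
      rw [show b * a = (b * a * b⁻¹ * a⁻¹) * (a * b) by group, Units.val_mul, hc, Matrix.smul_mul, Matrix.one_mul]
    refine ⟨c, ?_, ?_, he⟩
    · have hr' := twist_pow he r
      have hsc : a ^ r ∈ scalars ι F := (hq1 _).mp (by rw [map_pow]; exact (hMN.symm ▸ ha : a ∈ M).2)
      rw [← scalars_commute hsc b] at hr'
      nth_rewrite 1 [← one_smul F ((a ^ r * b : GL ι F) : Matrix ι ι F)] at hr'
      exact (smul_coe_left_cancel _ hr').symm
    · have := congrArg Matrix.det he
      rw [Matrix.det_smul, Units.val_mul, Units.val_mul, Matrix.det_mul, Matrix.det_mul, mul_comm] at this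
      have hne : (a : Matrix ι ι F).det * (b : Matrix ι ι F).det ≠ 0 :=
        mul_ne_zero (Matrix.isUnit_iff_isUnit_det _ |>.mp a.isUnit).ne_zero
          (Matrix.isUnit_iff_isUnit_det _ |>.mp b.isUnit).ne_zero
      exact mul_right_cancel₀ hne (by rw [one_mul]; exact this.symm)
  obtain ⟨y, hyN, hxy⟩ : ∃ y ∈ N, x * y ≠ y * x := by
    by_contra hall
    push Not at hall
    exact hxs (hcent x hxN hall)
  obtain ⟨ν, hνr, hνn, hν⟩ := htwist x hxN y hyN
  have hν1 : ν ≠ 1 := fun h1 => hxy (Units.ext (by rw [hν, h1, one_smul]))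
  have hord : orderOf ν = n := (orderOf_eq_iff hn.pos).mpr ⟨hνn, fun m hm hm0 h1 => hν1 (by
    have h2 : orderOf ν ∣ m := orderOf_dvd_of_pow_eq_one h1
    rcases (Nat.dvd_prime hn).mp (orderOf_dvd_of_pow_eq_one hνn) with h3 | h3
    · exact orderOf_eq_one_iff.mp h3
    · rw [h3] at h2; exact absurd (Nat.le_of_dvd hm0 h2) (by omega))⟩
  have hrn : r = n := by
    rcases (Nat.dvd_prime hr).mp (hord ▸ orderOf_dvd_of_pow_eq_one hνr) with h | h
    · exact absurd h hn.ne_one
    · exact h.symm
  have hprim : IsPrimitiveRoot ν n := hord ▸ IsPrimitiveRoot.orderOf ν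
  have hpow : ∀ z ∈ N, z ^ n ∈ scalars ι F := fun z hz => (hq1 _).mp (by
    rw [map_pow, ← hrn]; exact (hMN.symm ▸ hz : z ∈ M).2)
  -- exponent `n`
  have hexp' : ∀ z ∈ N, z ∉ scalars ι F → z ^ n = 1 := by
    intro z hz hzs
    obtain ⟨b, hb, hne⟩ : ∃ b ∈ N, z * b ≠ b * z := by
      by_contra hall
      push Not at hall
      exact hzs (hcent z hz hall)
    obtain ⟨ν', -, hν'n, hν'⟩ := htwist z hz b hb
    have hν'1 : ν' ≠ 1 := fun h1 => hne (Units.ext (by rw [hν', h1, one_smul]))
    have hord' : orderOf ν' = n := ((Nat.dvd_prime hn).mp (orderOf_dvd_of_pow_eq_one hν'n)).resolve_left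
      fun h => hν'1 (orderOf_eq_one_iff.mp h)
    exact (twisted_element hn hodd (show IsPrimitiveRoot ν' (Fintype.card ι) by
      rw [show Fintype.card ι = orderOf ν' from hord'.symm]; exact IsPrimitiveRoot.orderOf ν') hν' (hpow z hz) (hsl (hN.le hz))).1
  have hexp : ∀ z ∈ N, z ^ n = 1 := by
    intro z hz
    by_cases hzs : z ∈ scalars ι F
    · have hzx : z * x ∉ scalars ι F := fun h => hxs (by simpa using (scalars ι F).mul_mem ((scalars ι F).inv_mem hzs) h)
      have h1 := hexp' _ (N.mul_mem hz hxN) hzx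
      rwa [Commute.mul_pow (scalars_commute hzs x), hexp' x hxN hxs, mul_one] at h1
    · exact hexp' z hz hzs
  -- the basis
  obtain ⟨-, v, μ, hv0, hμn, hv⟩ := twisted_element hn hodd hprim hν (hpow x hxN) (hsl (hN.le hxN))
  have hν0 : ν ≠ 0 := hprim.ne_zero hn.ne_zero
  have heig : ∀ k : ℕ, act x (act (y ^ k) v) = (μ * ν⁻¹ ^ k) • act (y ^ k) v := by
    intro k
    induction k with
    | zero => simpa [act_one] using hv
    | succ k ih =>
      have hxy' : ∀ w, act x (act y w) = ν⁻¹ • act y (act x w) := fun w => by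
        rw [← act_mul, ← act_mul, act, act, hν, Matrix.smul_mulVec, smul_smul, inv_mul_cancel₀ hν0, one_smul]
      rw [pow_succ', act_mul, hxy', ih, act, Matrix.mulVec_smul, ← act, smul_smul]
      congr 1
      rw [pow_succ]
      ring
  let e : ι ≃ Fin n := Fintype.equivFin ι
  let d : ι → F := fun i => μ * ν⁻¹ ^ (e i : ℕ)
  let P : Matrix ι ι F := Matrix.of fun i j => act (y ^ (e j : ℕ)) v i
  have hPcol : ∀ j, P *ᵥ Pi.single j 1 = act (y ^ (e j : ℕ)) v := fun j => by
    rw [Matrix.mulVec_single_one]; rfl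
  have hμ0 : μ ≠ 0 := fun h0 => by rw [h0, zero_pow hn.ne_zero] at hμn; exact zero_ne_one hμn
  have hdinj : Function.Injective d := fun i j hij =>
    e.injective (Fin.ext (hprim.inv.pow_inj (e i).2 (e j).2 (mul_left_cancel₀ hμ0 hij)))
  have hli : LinearIndependent F P.col :=
    Module.End.eigenvectors_linearIndependent' (Matrix.toLin' (x : Matrix ι ι F)) d hdinj P.col
      (fun j => ⟨Module.End.mem_eigenspace_iff.mpr (by rw [Matrix.toLin'_apply]; exact heig (e j)),
        act_ne_zero _ hv0⟩)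
  obtain ⟨Pu, hPu⟩ := Matrix.mulVec_injective_iff_isUnit.mp (Matrix.mulVec_injective_iff.mpr hli)
  set B : GL ι F := Pu⁻¹
  have hBcol : ∀ j, act B⁻¹ (Pi.single j 1) = act (y ^ (e j : ℕ)) v := fun j => by
    simp only [B, inv_inv, act, hPu]; exact hPcol j
  have hxd : ∀ j, act (B * x * B⁻¹) (Pi.single j 1) = d j • Pi.single j 1 := fun j => by
    rw [act_mul, act_mul, hBcol, heig, act, Matrix.mulVec_smul, ← hBcol, ← act, act_act_inv]
  have hxmono : IsRootMonomial n (B * x * B⁻¹) :=
    ⟨1, d, fun j => by rw [mul_pow, hμn, one_mul, ← pow_mul, mul_comm (e j : ℕ), pow_mul, hprim.inv.pow_eq_one, one_pow],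
      fun j => by simpa using hxd j⟩
  have hymono : IsRootMonomial n (B * y * B⁻¹) := by
    haveI : NeZero n := ⟨hn.ne_zero⟩
    refine ⟨e.trans ((Equiv.addRight (1 : Fin n)).trans e.symm), fun _ => 1, fun _ => one_pow _, fun j => ?_⟩
    rw [one_smul, act_mul, act_mul, hBcol]
    apply act_injective B⁻¹
    rw [act_inv_act, hBcol, ← act_mul, ← pow_succ']
    refine congrArg (fun g => act g v) ?_
    simp only [Equiv.trans_apply, Equiv.coe_addRight, Equiv.apply_symm_apply]
    have h2 : 1 < n := hn.one_lt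
    rw [Fin.val_add, Fin.val_one', Nat.mod_eq_of_lt h2]
    exact (pow_eq_pow_mod _ (hexp y hyN)).trans rfl
  -- the scalar of order `n`
  set s : GL ι F := y * x * y⁻¹ * x⁻¹
  have hsN : s ∈ N := N.mul_mem (N.mul_mem (N.mul_mem hyN hxN) (N.inv_mem hyN)) (N.inv_mem hxN)
  have hsval : (s : Matrix ι ι F) = ν • 1 := by
    rw [show s = (y * x) * (x * y)⁻¹ by simp only [s]; group, Units.val_mul, hν, Matrix.smul_mul,
      ← Units.val_mul, mul_inv_cancel, Units.val_one]
  have hspow : ∀ k : ℕ, ((s ^ k : GL ι F) : Matrix ι ι F) = ν ^ k • (1 : Matrix ι ι F) := fun k => by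
    rw [Units.val_pow_eq_pow_val, hsval, _root_.smul_pow, one_pow]
  have hssc : ∀ k : ℕ, s ^ k ∈ scalars ι F := fun k =>
    (scalars ι F).pow_mem ((mem_scalars_iff _).mpr ⟨Units.mk0 ν hν0, hsval⟩) k
  -- twisting of products
  have htw_x : ∀ k a b : ℕ, (((s ^ k * y ^ a * x ^ b) * x : GL ι F) : Matrix ι ι F)
      = ν ^ a • ((x * (s ^ k * y ^ a * x ^ b) : GL ι F) : Matrix ι ι F) := by
    intro k a b
    have h0 : ((x * y : GL ι F) : Matrix ι ι F) = ν⁻¹ • ((y * x : GL ι F) : Matrix ι ι F) := by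
      rw [hν, smul_smul, inv_mul_cancel₀ hν0, one_smul]
    have h2 := twist_pow h0 a
    rw [show s ^ k * y ^ a * x ^ b * x = s ^ k * (y ^ a * x) * x ^ b by group,
      show x * (s ^ k * y ^ a * x ^ b) = s ^ k * (x * y ^ a) * x ^ b by
        rw [← mul_assoc, ← mul_assoc, ← scalars_commute (hssc k) x]; group]
    simp only [Units.val_mul] at h2 ⊢
    rw [h2]
    simp only [Matrix.mul_smul, Matrix.smul_mul, smul_smul]
    rw [← mul_pow, mul_inv_cancel₀ hν0, one_pow, one_smul]
  have htw_y : ∀ k a b : ℕ, ((y * (s ^ k * y ^ a * x ^ b) : GL ι F) : Matrix ι ι F)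
      = ν ^ b • (((s ^ k * y ^ a * x ^ b) * y : GL ι F) : Matrix ι ι F) := by
    intro k a b
    rw [show y * (s ^ k * y ^ a * x ^ b) = s ^ k * y ^ a * (y * x ^ b) by
        rw [← mul_assoc, ← mul_assoc, ← scalars_commute (hssc k) y, mul_assoc (s ^ k), ← pow_succ', pow_succ]; group,
      Units.val_mul, twist_pow hν b, Matrix.mul_smul, ← Units.val_mul, ← mul_assoc]
  -- every element has the normal form
  have hform : ∀ z ∈ N, ∃ k a b : ℕ, k < n ∧ a < n ∧ b < n ∧ z = s ^ k * y ^ a * x ^ b := by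
    intro z hz
    haveI : NeZero n := ⟨hn.ne_zero⟩
    obtain ⟨ζ, -, hζn, hζ⟩ := htwist x hxN z hz
    obtain ⟨ξ, -, hξn, hξ⟩ := htwist z hz y hyN
    obtain ⟨a, han, rfl⟩ := hprim.eq_pow_of_pow_eq_one hζn
    obtain ⟨b, hbn, rfl⟩ := hprim.eq_pow_of_pow_eq_one hξn
    set w := s ^ 0 * y ^ a * x ^ b
    have hwN : w ∈ N := N.mul_mem (N.mul_mem (N.pow_mem hsN _) (N.pow_mem hyN _)) (N.pow_mem hxN _)
    set u := w⁻¹ * z
    have hux : u * x = x * u := by
      have : ((w * (u * x) : GL ι F) : Matrix ι ι F) = ((w * (x * u) : GL ι F) : Matrix ι ι F) := by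
        rw [show w * (u * x) = z * x by simp only [u]; group, hζ,
          show w * (x * u) = (w * x) * (w⁻¹ * z) by simp only [u]; group, Units.val_mul (w * x),
          htw_x, Matrix.smul_mul, ← Units.val_mul, show x * w * (w⁻¹ * z) = x * z by group]
      exact mul_left_cancel (Units.ext this)
    have huy : u * y = y * u := by
      have : ((w * (u * y) : GL ι F) : Matrix ι ι F) = ((w * (y * u) : GL ι F) : Matrix ι ι F) := by
        apply smul_right_injective (Matrix ι ι F) (pow_ne_zero b hν0)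
        show ν ^ b • _ = ν ^ b • _
        rw [show w * (u * y) = z * y by simp only [u]; group, ← hξ,
          show w * (y * u) = (w * y) * (w⁻¹ * z) by simp only [u]; group, Units.val_mul (w * y),
          ← Matrix.smul_mul, ← htw_y, ← Units.val_mul, show y * w * (w⁻¹ * z) = y * z by group]
      exact mul_left_cancel (Units.ext this)
    -- `u` is scalar
    have huN : u ∈ N := N.mul_mem (N.inv_mem hwN) hz
    have husc : ∃ c : F, (u : Matrix ι ι F) = c • 1 := by
      let U := B * u * B⁻¹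
      have hUd : ∀ i j, i ≠ j → (U : Matrix ι ι F) i j = 0 := by
        intro i j hij
        have h1 : U * (B * x * B⁻¹) = (B * x * B⁻¹) * U := by
          rw [show U * (B * x * B⁻¹) = B * (u * x) * B⁻¹ by simp only [U]; group, hux]; simp only [U]; group
        have h2 := congrArg (fun g : GL ι F => act g (Pi.single j 1) i) h1
        rw [act_mul U (B * x * B⁻¹), act_mul (B * x * B⁻¹) U, hxd, act_smul] at h2
        have h3 : ∀ (w : ι → F), act (B * x * B⁻¹) w i = d i * w i := by
          intro w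
          have hrow : ∀ k, ((B * x * B⁻¹ : GL ι F) : Matrix ι ι F) i k = if i = k then d i else 0 := fun k => by
            have := congrFun (hxd k) i
            simp only [act, Matrix.mulVec_single_one, Matrix.col_apply] at this
            rw [this]
            by_cases h : i = k
            · subst h; simp
            · simp [h]
          simp [act, Matrix.mulVec, dotProduct, hrow]
        rw [h3] at h2
        simp only [act, Matrix.mulVec_single_one, Matrix.col_apply, Pi.smul_apply, smul_eq_mul] at h2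
        by_contra h0
        exact hij (hdinj (mul_right_cancel₀ h0 h2).symm)
      obtain ⟨j₀⟩ := ‹Nonempty ι›
      refine ⟨(U : Matrix ι ι F) j₀ j₀, ?_⟩
      have hUe : ∀ j, act u (act (y ^ (e j : ℕ)) v) = (U : Matrix ι ι F) j j • act (y ^ (e j : ℕ)) v := by
        intro j
        rw [← hBcol j]
        apply act_injective B
        rw [← act_mul, ← act_mul, act_smul, act_act_inv]
        funext i
        simp only [act, Matrix.mulVec_single_one, Matrix.col_apply, Pi.smul_apply, smul_eq_mul]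
        show (U : Matrix ι ι F) i j = (U : Matrix ι ι F) j j * (Pi.single j (1 : F) : ι → F) i
        by_cases h : i = j
        · subst h; rw [Pi.single_eq_same, mul_one]
        · rw [Pi.single_eq_of_ne h, mul_zero]; exact hUd i j h
      have huyk : ∀ k : ℕ, u * y ^ k = y ^ k * u := fun k => (Commute.pow_right huy k).eq
      have hconst : ∀ j, (U : Matrix ι ι F) j j = (U : Matrix ι ι F) j₀ j₀ := by
        have key : ∀ j, act u v = (U : Matrix ι ι F) j j • v := fun j => by
          apply act_injective (y ^ (e j : ℕ))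
          rw [← act_mul, ← huyk, act_mul, hUe, act, act, Matrix.mulVec_smul]
        intro j
        exact smul_left_injective F hv0 ((key j).symm.trans (key j₀))
      calc (u : Matrix ι ι F) = ((B⁻¹ : GL ι F) : Matrix ι ι F) * (U : Matrix ι ι F) * (B : Matrix ι ι F) := by
            rw [← Units.val_mul, ← Units.val_mul]
            congr 1
            simp only [U]
            group
        _ = ((B⁻¹ : GL ι F) : Matrix ι ι F) * ((U : Matrix ι ι F) j₀ j₀ • (1 : Matrix ι ι F)) * (B : Matrix ι ι F) := by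
            congr 2
            ext i j
            by_cases h : i = j
            · subst h; simp [hconst i]
            · simp [Matrix.one_apply_ne h, hUd i j h]
        _ = _ := by
            rw [Matrix.mul_smul, Matrix.mul_one, Matrix.smul_mul, ← Units.val_mul, inv_mul_cancel, Units.val_one]
    obtain ⟨c, hc⟩ := husc
    have hcn : c ^ n = 1 := by
      have h1 := congrArg Units.val (hexp u huN)
      rw [Units.val_pow_eq_pow_val, hc, _root_.smul_pow, one_pow, Units.val_one] at h1
      obtain ⟨j⟩ := ‹Nonempty ι›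
      simpa using congrFun (congrFun h1 j) j
    obtain ⟨k, hkn, rfl⟩ := hprim.eq_pow_of_pow_eq_one hcn
    refine ⟨k, a, b, hkn, han, hbn, ?_⟩
    have hu : u = s ^ k := Units.ext (by rw [hc, hspow])
    rw [show z = w * u by simp only [u]; group, hu, ← scalars_commute (hssc k) w]
    simp [w, mul_assoc]
  -- conclusion
  have hmono : ∀ z ∈ N, IsRootMonomial n (B * z * B⁻¹) := by
    intro z hz
    obtain ⟨k, a, b, -, -, -, rfl⟩ := hform z hz
    rw [show B * (s ^ k * y ^ a * x ^ b) * B⁻¹ = (B * s ^ k * B⁻¹) * (B * y ^ a * B⁻¹) * (B * x ^ b * B⁻¹) by group]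
    rw [← conj_pow (a := B) (b := y), ← conj_pow (a := B) (b := x)]
    refine ((IsRootMonomial.mul ?_ (hymono.pow a)).mul (hxmono.pow b))
    refine ⟨1, fun _ => ν ^ k, fun _ => by rw [← pow_mul, mul_comm, pow_mul, hprim.pow_eq_one, one_pow], fun j => ?_⟩
    rw [← scalars_commute (hssc k) B, mul_inv_cancel_right, act_scalar (hspow k)]
    simp
  haveI : Finite N := Subtype.finite
  have hcenter : ∀ z : N, z ∈ Subgroup.center N ↔ (z : GL ι F) ∈ scalars ι F := fun z =>
    ⟨fun hz => hcent z z.2 fun b hb => congrArg Subtype.val ((Subgroup.mem_center_iff.mp hz) ⟨b, hb⟩).symm,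
      fun hz => Subgroup.mem_center_iff.mpr fun b => Subtype.ext (scalars_commute hz b).symm⟩
  have hcardN : Nat.card N = n ^ 3 := by
    let f : Fin n × Fin n × Fin n → N := fun t => ⟨s ^ (t.1 : ℕ) * y ^ (t.2.1 : ℕ) * x ^ (t.2.2 : ℕ),
      N.mul_mem (N.mul_mem (N.pow_mem hsN _) (N.pow_mem hyN _)) (N.pow_mem hxN _)⟩
    have hf : Function.Bijective f := by
      refine ⟨fun t t' htt => ?_, fun z => ?_⟩
      · have he : s ^ (t.1 : ℕ) * y ^ (t.2.1 : ℕ) * x ^ (t.2.2 : ℕ)
            = s ^ (t'.1 : ℕ) * y ^ (t'.2.1 : ℕ) * x ^ (t'.2.2 : ℕ) := congrArg Subtype.val htt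
        have ha : t.2.1 = t'.2.1 := by
          have h1 := htw_x t.1 t.2.1 t.2.2
          rw [he, htw_x t'.1] at h1
          exact Fin.ext (hprim.pow_inj t.2.1.2 t'.2.1.2 (smul_coe_left_cancel _ h1).symm)
        have hb : t.2.2 = t'.2.2 := by
          have h1 := htw_y t.1 t.2.1 t.2.2
          rw [he, htw_y t'.1] at h1
          exact Fin.ext (hprim.pow_inj t.2.2.2 t'.2.2.2 (smul_coe_left_cancel _ h1).symm)
        have hk : t.1 = t'.1 := by
          rw [ha, hb] at he
          have h1 := congrArg Units.val (mul_right_cancel (mul_right_cancel he))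
          rw [hspow, hspow] at h1
          refine Fin.ext (hprim.pow_inj t.1.2 t'.1.2 ?_)
          obtain ⟨j⟩ := ‹Nonempty ι›
          simpa using congrFun (congrFun h1 j) j
        exact Prod.ext hk (Prod.ext ha hb)
      · obtain ⟨k, a, b, hk, ha, hb, hz⟩ := hform z z.2
        exact ⟨(⟨k, hk⟩, ⟨a, ha⟩, ⟨b, hb⟩), Subtype.ext hz.symm⟩
    rw [← Nat.card_eq_of_bijective f hf]
    simp [pow_succ, mul_assoc]
  have hcardZ : Nat.card (Subgroup.center N) = n := by
    let f : Fin n → Subgroup.center N := fun k => ⟨⟨s ^ (k : ℕ), N.pow_mem hsN _⟩, (hcenter _).mpr (hssc k)⟩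
    have hf : Function.Bijective f := by
      refine ⟨fun k k' hkk => ?_, fun z => ?_⟩
      · have h1 : ((s ^ (k : ℕ) : GL ι F) : Matrix ι ι F) = ((s ^ (k' : ℕ) : GL ι F) : Matrix ι ι F) :=
          congrArg (fun g : Subgroup.center N => (((g : N) : GL ι F) : Matrix ι ι F)) hkk
        rw [hspow, hspow] at h1
        refine Fin.ext (hprim.pow_inj k.2 k'.2 ?_)
        obtain ⟨j⟩ := ‹Nonempty ι›
        simpa using congrFun (congrFun h1 j) j
      · obtain ⟨k, a, b, hk, ha, hb, hz⟩ := hform (z : N) (z : N).2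
        have hzs := (hcenter _).mp z.2
        have h1 := htw_x k a b
        have h2 := htw_y k a b
        rw [← hz, scalars_commute hzs x] at h1
        rw [← hz, ← scalars_commute hzs y] at h2
        nth_rewrite 1 [← one_smul F ((x * (z : N) : GL ι F) : Matrix ι ι F)] at h1
        nth_rewrite 1 [← one_smul F (((z : N) * y : GL ι F) : Matrix ι ι F)] at h2
        have ha0 := hprim.pow_inj hn.pos ha (by rw [pow_zero]; exact smul_coe_left_cancel _ h1)
        have hb0 := hprim.pow_inj hn.pos hb (by rw [pow_zero]; exact smul_coe_left_cancel _ h2)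
        refine ⟨⟨k, hk⟩, Subtype.ext (Subtype.ext ?_)⟩
        show s ^ k = _
        rw [hz, ← ha0, ← hb0, pow_zero, pow_zero, mul_one, mul_one]
    rw [← Nat.card_eq_of_bijective f hf, Nat.card_fin]
  refine ⟨hN, habs, ⟨hn, IsPGroup.of_card hcardN, ?_, ?_⟩, hcardN, hcardZ, ⟨ν, hprim⟩,
    B, hmono, x, hxN, d, ?_⟩
  · intro A hA hAc
    have hA' : A.map N.subtype ≤ scalars ι F := by
      refine habel _ ⟨(Subgroup.map_subtype_le A).trans hN.le, ?_⟩ ?_
      · rintro g hg _ ⟨a, ha, rfl⟩
        let φ : MulAut N :=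
          { toFun := fun b => ⟨g * b * g⁻¹, hN.conj g hg b b.2⟩
            invFun := fun b => ⟨g⁻¹ * b * g, hN.conj' hg b.2⟩
            left_inv := fun b => Subtype.ext (by group)
            right_inv := fun b => Subtype.ext (by group)
            map_mul' := fun b c => Subtype.ext (by simp) }
        exact ⟨φ a, Subgroup.mem_comap.mp ((hA.fixed φ).symm ▸ ha : a ∈ A.comap φ.toMonoidHom), rfl⟩
      · rintro _ ⟨a, ha, rfl⟩ _ ⟨b, hb, rfl⟩
        exact congrArg Subtype.val (congrArg Subtype.val (hAc.is_comm.comm ⟨a, ha⟩ ⟨b, hb⟩) : a * b = b * a)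
    obtain ⟨j⟩ := ‹Nonempty ι›
    let f : A →* F :=
      { toFun := fun a => (((a : N) : GL ι F) : Matrix ι ι F) j j
        map_one' := by simp
        map_mul' := fun a b => by
          obtain ⟨c, hc⟩ := (mem_scalars_iff _).mp (hA' ⟨a, a.2, rfl⟩)
          obtain ⟨c', hc'⟩ := (mem_scalars_iff _).mp (hA' ⟨b, b.2, rfl⟩)
          simp only [Subgroup.coe_subtype] at hc hc'
          show ((((a : N) : GL ι F) : Matrix ι ι F) * (((b : N) : GL ι F) : Matrix ι ι F)) j j = _
          rw [hc, hc']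
          simp [mul_comm (c : F)] }
    refine isCyclic_of_injective_ringHom f fun a b hab => Subtype.ext (Subtype.ext (Units.ext ?_))
    obtain ⟨c, hc⟩ := (mem_scalars_iff _).mp (hA' ⟨a, a.2, rfl⟩)
    obtain ⟨c', hc'⟩ := (mem_scalars_iff _).mp (hA' ⟨b, b.2, rfl⟩)
    simp only [Subgroup.coe_subtype] at hc hc'
    simp [f, hc, hc'] at hab
    rw [hc, hc', hab]
  · have hg : Nat.gcd 2 n = 1 := Nat.coprime_two_left.mpr hodd
    rw [hg, mul_one]
    haveI : Nontrivial N := ⟨⟨⟨x, hxN⟩, 1, fun h => hxs (by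
      rw [show x = 1 from congrArg Subtype.val h]; exact one_mem _)⟩⟩
    rw [Monoid.exponent_eq_prime_iff hn]
    intro g hg1
    haveI := Fact.mk hn
    exact orderOf_eq_prime (Subtype.ext (by simpa using hexp g g.2)) hg1
  · exact ⟨hxd, hdinj⟩

end CfsgLib.SmallDim
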