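import Cfsg.Agent.Lib.SmallDim.Subfield
import Cfsg.Agent.Lib.SmallDim.Forms
import Cfsg.Agent.Lib.Geometric.Unitary

/-!
The standard unitary group in coordinates: norms, trace-zero elements, transvections, orthogonal complements.
-/

set_option autoImplicit false
set_option linter.style.haveILetI false

namespace CfsgLib.SmallDim

open scoped MatrixGroups Matrix
open Cfsg.Geo

variable {F : Type*} [Field F] [Fintype F]

/-- The data of the standard unitary group: `F` has `q ^ 2` elements and `σ x = x ^ q`. -/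
structure UnitarySetup (n q : ℕ) (σ : F ≃+* F) : Prop where
  card : Fintype.card F = q ^ 2
  pow : ∀ x, σ x = x ^ q
  isUnitary : IsUnitaryForm σ (Cfsg.hermForm n F q)

lemma exists_unitarySetup (n : ℕ) {q : ℕ} (hF : Fintype.card F = q ^ 2) :
    ∃ σ : F ≃+* F, UnitarySetup n q σ := by
  obtain ⟨σ, h1, h2⟩ := CfsgLib.Geometric.isUnitaryForm_hermForm n q hF
  exact ⟨σ, hF, h1, h2⟩

namespace UnitarySetup

variable {n q : ℕ} {σ : F ≃+* F}

lemma two_le (hu : UnitarySetup n q σ) : 2 ≤ q := by
  have := Fintype.one_lt_card (α := F)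
  rw [hu.card] at this
  by_contra h
  interval_cases q <;> simp at this

lemma invol (hu : UnitarySetup n q σ) (a : F) : σ (σ a) = a := hu.isUnitary.involutive a

lemma herm_eq (hu : UnitarySetup n q σ) (u v : Fin n → F) : Cfsg.hermForm n F q u v = u ⬝ᵥ (σ ∘ v) := by
  simp [Cfsg.hermForm, dotProduct, hu.pow]

lemma sesqui (hu : UnitarySetup n q σ) : IsSesqui (σ : F →+* F) (Cfsg.hermForm n F q) :=
  IsSesqui.of_unitary hu.isUnitary

lemma herm (hu : UnitarySetup n q σ) (u v : Fin n → F) :
    Cfsg.hermForm n F q u v = σ (Cfsg.hermForm n F q v u) := hu.isUnitary.herm u v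

lemma eq_zero_comm (hu : UnitarySetup n q σ) {u v : Fin n → F} :
    Cfsg.hermForm n F q u v = 0 ↔ Cfsg.hermForm n F q v u = 0 := by
  rw [hu.herm u v]; simp

lemma gram_eq_one (hu : UnitarySetup n q σ) : gramMatrix (Cfsg.hermForm n F q) = 1 := by
  ext a b
  rw [gramMatrix, hu.herm_eq]
  rcases eq_or_ne a b with rfl | h
  · simp
  · simp [Matrix.one_apply_ne h, h]

end UnitarySetup

omit [Fintype F] in
lemma mem_GU {n q : ℕ} {g : GL (Fin n) F} : g ∈ Cfsg.GU n F q ↔
    ∀ u v, Cfsg.hermForm n F q (act g u) (act g v) = Cfsg.hermForm n F q u v := Iff.rfl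

omit [Fintype F] in
lemma GU_le_similarityGroup (n q : ℕ) : Cfsg.GU n F q ≤ similarityGroup (Cfsg.hermForm n F q) :=
  fun g hg => ⟨1, fun u v => by rw [Units.val_one, one_mul]; exact hg u v⟩

namespace UnitarySetup

variable {n q : ℕ} {σ : F ≃+* F}

lemma transpose_mul (hu : UnitarySetup n q σ) {g : GL (Fin n) F} (hg : g ∈ Cfsg.GU n F q) :
    (g : Matrix (Fin n) (Fin n) F)ᵀ * (g : Matrix (Fin n) (Fin n) F).map σ = 1 := by
  have h := hu.sesqui.gram_transform (g : Matrix (Fin n) (Fin n) F)
  rw [show (fun u v => Cfsg.hermForm n F q ((g : Matrix (Fin n) (Fin n) F) *ᵥ u)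
    ((g : Matrix (Fin n) (Fin n) F) *ᵥ v)) = Cfsg.hermForm n F q from funext₂ (mem_GU.mp hg),
    hu.gram_eq_one, Matrix.mul_one] at h
  exact h.symm

lemma map_transpose_mul (hu : UnitarySetup n q σ) {g : GL (Fin n) F} (hg : g ∈ Cfsg.GU n F q) :
    ((g : Matrix (Fin n) (Fin n) F).map σ)ᵀ * (g : Matrix (Fin n) (Fin n) F) = 1 := by
  have := congrArg Matrix.transpose (hu.transpose_mul hg)
  rwa [Matrix.transpose_mul, Matrix.transpose_transpose, Matrix.transpose_one] at this

/-- The fixed field of `σ` has `q` elements. -/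
lemma exists_fixed (hu : UnitarySetup n q σ) :
    ∃ K : Subfield F, (∀ x, x ∈ K ↔ σ x = x) ∧ Nat.card K = q := by
  obtain ⟨p, hchar⟩ := CharP.exists F
  obtain ⟨e, hp, hq⟩ := FiniteField.card F p
  haveI := Fact.mk hp
  obtain ⟨k, -, rfl⟩ := (Nat.dvd_prime_pow hp).mp (show q ∣ p ^ (e : ℕ) from ⟨q, by rw [← hq, hu.card, sq]⟩)
  have h2k : (e : ℕ) = k * 2 :=
    Nat.pow_right_injective hp.two_le (show p ^ (e : ℕ) = p ^ (k * 2) by rw [← hq, hu.card, ← pow_mul])
  refine ⟨fixedField p k, fun x => by rw [mem_fixedField, hu.pow], card_fixedField hq ?_ ⟨2, h2k⟩⟩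
  have := hu.two_le
  by_contra h
  simp [show k = 0 by omega] at this

/-- A non-zero trace-zero element outside a small set. -/
lemma exists_skew_avoid (hu : UnitarySetup n q σ) (s : Finset F) (hs : s.card + 1 < q) :
    ∃ c, c ≠ 0 ∧ σ c = -c ∧ c ∉ s := by
  classical
  obtain ⟨d, hd⟩ : ∃ d, σ d ≠ d := by
    by_contra h
    push Not at h
    exact hu.isUnitary.ne_refl (RingEquiv.ext h)
  set ζ := d - σ d
  have hζ0 : ζ ≠ 0 := sub_ne_zero.mpr (Ne.symm hd)
  have hζ : σ ζ = -ζ := by simp only [ζ, map_sub, hu.invol]; ring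
  obtain ⟨K, hK, hcard⟩ := hu.exists_fixed
  let t : Finset F := (Finset.univ.filter fun x : F => x ∈ K).image (fun x => ζ * x)
  have ht : t.card = q := by
    rw [Finset.card_image_of_injective _ (mul_right_injective₀ hζ0), ← hcard, Nat.card_eq_fintype_card]
    exact (Fintype.card_subtype _).symm
  obtain ⟨c, hc, hcs⟩ := Finset.exists_mem_notMem_of_card_lt_card (s := insert 0 s) (t := t)
    (lt_of_le_of_lt (Finset.card_insert_le _ _) (ht ▸ hs))
  rw [Finset.mem_insert, not_or] at hcs
  obtain ⟨x, hx, rfl⟩ := Finset.mem_image.mp hc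
  refine ⟨_, hcs.1, ?_, hcs.2⟩
  rw [map_mul, hζ, (hK x).mp (Finset.mem_filter.mp hx).2]
  ring

/-- An element of given norm outside a set of at most `q` elements. -/
lemma exists_norm_avoid (hu : UnitarySetup n q σ) {b : F} (hb : σ b = b) (hb0 : b ≠ 0) (s : Finset F)
    (hs : s.card ≤ q) : ∃ a, a * σ a = b ∧ a ∉ s := by
  classical
  obtain ⟨a₀, ha₀⟩ := CfsgLib.Forms.exists_norm_eq (σ : F →+* F)
    (fun h => hu.isUnitary.ne_refl (RingEquiv.ext fun x => RingHom.congr_fun h x)) hu.invol b hb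
  rw [RingEquiv.coe_toRingHom] at ha₀
  have ha0 : a₀ ≠ 0 := fun h => hb0 (by rw [← ha₀, h, mul_zero])
  have hker : Nat.card (powMonoidHom (q + 1) : Fˣ →* Fˣ).ker = q + 1 := by
    rw [IsCyclic.card_powMonoidHom_ker, Nat.card_units, Nat.card_eq_fintype_card, hu.card]
    exact Nat.gcd_eq_right ⟨q - 1, by simpa using Nat.sq_sub_sq q 1⟩
  let t : Finset F := (Finset.univ.filter fun u : Fˣ => u ^ (q + 1) = 1).image (fun u : Fˣ => a₀ * (u : F))
  have ht : t.card = q + 1 := by
    have h1 : Fintype.card {u : Fˣ // u ^ (q + 1) = 1} = q + 1 :=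
      (Nat.card_eq_fintype_card).symm.trans
        ((Nat.card_congr (Equiv.subtypeEquivRight fun u => by rw [MonoidHom.mem_ker]; rfl)).trans hker)
    rw [Finset.card_image_of_injective _ (fun u v huv => Units.ext (mul_left_cancel₀ ha0 huv)),
      ← Fintype.card_subtype, h1]
  obtain ⟨a, ha, has⟩ := Finset.exists_mem_notMem_of_card_lt_card (s := s) (t := t) (by omega)
  obtain ⟨u, hu', rfl⟩ := Finset.mem_image.mp ha
  refine ⟨_, ?_, has⟩
  have h1 : (u : F) ^ (q + 1) = 1 := by
    rw [← Units.val_pow_eq_pow_val, (Finset.mem_filter.mp hu').2, Units.val_one]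
  rw [map_mul, hu.pow (u : F), pow_succ] at *
  linear_combination ((u : F) * (u : F) ^ q) * ha₀ + b * h1

lemma exists_norm_neg_one (hu : UnitarySetup n q σ) (s : Finset F) (hs : s.card ≤ q) :
    ∃ a, a * σ a = -1 ∧ a ∉ s :=
  hu.exists_norm_avoid (by rw [map_neg, map_one]) (neg_ne_zero.mpr one_ne_zero) s hs

lemma dot_self_zero (hu : UnitarySetup n q σ) {v : Fin n → F} (hv : Cfsg.hermForm n F q v v = 0) (c : F) :
    (c • (σ ∘ v)) ⬝ᵥ v = 0 := by
  rw [smul_dotProduct, dotProduct_comm, ← hu.herm_eq, hv, smul_zero]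

/-- The unitary transvection at an isotropic vector. -/
def utrans (hu : UnitarySetup n q σ) {v : Fin n → F} (hv : Cfsg.hermForm n F q v v = 0) (c : F) : GL (Fin n) F :=
  transvec (c • (σ ∘ v)) v (hu.dot_self_zero hv c)

lemma act_utrans (hu : UnitarySetup n q σ) {v : Fin n → F} (hv : Cfsg.hermForm n F q v v = 0) (c : F)
    (x : Fin n → F) : act (hu.utrans hv c) x = x + (c * Cfsg.hermForm n F q x v) • v := by
  rw [utrans, act_transvec, smul_dotProduct, dotProduct_comm, ← hu.herm_eq, smul_eq_mul]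

lemma utrans_mem (hu : UnitarySetup n q σ) {v : Fin n → F} (hv : Cfsg.hermForm n F q v v = 0) {c : F}
    (hc : σ c = -c) : hu.utrans hv c ∈ Cfsg.GU n F q ⊓ specialLinear (Fin n) F := by
  refine ⟨mem_GU.mpr fun x y => ?_, transvec_mem_specialLinear _ _ _⟩
  have hS := hu.sesqui
  rw [hu.act_utrans hv, hu.act_utrans hv, hS.add_left, hS.add_right, hS.add_right, hS.smul_left, hS.smul_right,
    hS.smul_left, hS.smul_right, RingEquiv.coe_toRingHom, map_mul, hc, ← hu.herm, hv]
  ring

lemma herm_single (hu : UnitarySetup n q σ) (x : Fin n → F) (i : Fin n) (a : F) :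
    Cfsg.hermForm n F q x (Pi.single i a) = x i * σ a := by
  rw [hu.herm_eq, show σ ∘ (Pi.single i a : Fin n → F) = Pi.single i (σ a) by
    funext k; rcases eq_or_ne k i with rfl | h <;> simp [*], dotProduct_single]

lemma single_herm (hu : UnitarySetup n q σ) (x : Fin n → F) (i : Fin n) (a : F) :
    Cfsg.hermForm n F q (Pi.single i a) x = a * σ (x i) := by
  rw [hu.herm_eq, single_dotProduct]; rfl

lemma isotropic_pair (hu : UnitarySetup n q σ) {i j : Fin n} (hij : i ≠ j) {a : F} (ha : a * σ a = -1) :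
    Cfsg.hermForm n F q (Pi.single i 1 + Pi.single j a) (Pi.single i 1 + Pi.single j a) = 0 := by
  rw [hu.sesqui.add_left, hu.sesqui.add_right, hu.sesqui.add_right, hu.herm_single, hu.herm_single,
    hu.herm_single, hu.herm_single]
  simp [hij, hij.symm, ha]

/-- The orthogonal complement. -/
def perpSub (hu : UnitarySetup n q σ) (W : Submodule F (Fin n → F)) : Submodule F (Fin n → F) where
  carrier := {x | ∀ w ∈ W, Cfsg.hermForm n F q x w = 0}
  zero_mem' w _ := by rw [hu.herm_eq, zero_dotProduct]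
  add_mem' {x y} hx hy w hw := by rw [hu.sesqui.add_left, hx w hw, hy w hw, add_zero]
  smul_mem' c x hx w hw := by rw [hu.sesqui.smul_left, hx w hw, mul_zero]

lemma mem_perpSub (hu : UnitarySetup n q σ) {W : Submodule F (Fin n → F)} {x : Fin n → F} :
    x ∈ hu.perpSub W ↔ ∀ w ∈ W, Cfsg.hermForm n F q x w = 0 := Iff.rfl

lemma le_finrank_perpSub (hu : UnitarySetup n q σ) (W : Submodule F (Fin n → F)) :
    n ≤ Module.finrank F W + Module.finrank F (hu.perpSub W) := by
  classical
  let b := Module.finBasis F W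
  let L : (Fin n → F) →ₗ[F] (Fin (Module.finrank F W) → F) :=
    { toFun := fun x i => Cfsg.hermForm n F q x (b i : Fin n → F)
      map_add' := fun x y => funext fun i => hu.sesqui.add_left _ _ _
      map_smul' := fun c x => funext fun i => hu.sesqui.smul_left _ _ _ }
  have hker : LinearMap.ker L ≤ hu.perpSub W := by
    intro x hx
    let U : Submodule F (Fin n → F) :=
      { carrier := {w | Cfsg.hermForm n F q x w = 0}
        zero_mem' := by simp [hu.herm_eq]
        add_mem' := fun {a c} ha hc => by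
          show Cfsg.hermForm n F q x (a + c) = 0
          rw [hu.sesqui.add_right, ha, hc, add_zero]
        smul_mem' := fun c a ha => by
          show Cfsg.hermForm n F q x (c • a) = 0
          rw [hu.sesqui.smul_right, ha, mul_zero] }
    intro w hw
    suffices h : W ≤ U from h hw
    have h1 : (⊤ : Submodule F W).map W.subtype ≤ U := by
      rw [← b.span_eq, Submodule.map_span_le]
      rintro _ ⟨i, rfl⟩
      exact congrFun hx i
    rwa [Submodule.map_top, Submodule.range_subtype] at h1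
  have h1 := LinearMap.finrank_range_add_finrank_ker L
  have h2 := Submodule.finrank_le (LinearMap.range L)
  have h3 := Submodule.finrank_mono hker
  rw [Module.finrank_fin_fun] at h1 h2
  omega

end UnitarySetup

end CfsgLib.SmallDim
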