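import Cfsg.Agent.Lib.SmallDim.UnitaryCases
import Cfsg.Agent.Lib.SmallDim.LinearPrime

/-!
Maximal subgroups of the special unitary groups in odd prime dimension.
-/

set_option autoImplicit false
set_option linter.style.haveILetI false

namespace CfsgLib.SmallDim

open scoped MatrixGroups Matrix
open Cfsg.Geo

variable {F : Type*} [Field F] [Fintype F]

/-- Maximal subgroups of `SU` in odd prime dimension. -/
theorem unitary_prime {n q : ℕ} (hn : n.Prime) (hodd : Odd n) (hF : Fintype.card F = q ^ 2)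
    (hq3 : 3 ≤ q ∨ 4 ≤ n) {H : Subgroup (GL (Fin n) F)}
    (hH : IsMaximalIn (Cfsg.GU n F q ⊓ specialLinear (Fin n) F) H) :
    (∃ W : Submodule F (Fin n → F), W ≠ ⊥ ∧ IsTotallySingularFor (Cfsg.hermForm n F q) W ∧
      H = subspaceStabilizer W ⊓ (Cfsg.GU n F q ⊓ specialLinear (Fin n) F)) ∨
    (∃ W : Submodule F (Fin n → F), W ≠ ⊥ ∧ IsNondegenerateOn (Cfsg.hermForm n F q) W ∧
      2 * Module.finrank F W < n ∧ H = subspaceStabilizer W ⊓ (Cfsg.GU n F q ⊓ specialLinear (Fin n) F)) ∨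
    (∃ D : Fin n → Submodule F (Fin n → F), IsNondegenerateMDecomposition (Cfsg.hermForm n F q) 1 D ∧
      H = decompositionStabilizer D ⊓ (Cfsg.GU n F q ⊓ specialLinear (Fin n) F)) ∨
    (∃ K : Subalgebra F (Matrix (Fin n) (Fin n) F), IsFieldSubalgebra n K ∧
      IsAdjointClosedFor (Cfsg.hermForm n F q) K ∧
      H = subalgebraNormalizer K ⊓ (Cfsg.GU n F q ⊓ specialLinear (Fin n) F)) ∨
    (∃ (F₀ : Subfield F) (r : ℕ) (P : GL (Fin n) F), r.Prime ∧ Odd r ∧ Fintype.card F = Nat.card F₀ ^ r ∧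
      IsFormRationalStructure (Cfsg.hermForm n F q) F₀ 1 P ∧
      H = subfieldSubgroup F₀ P ⊓ (Cfsg.GU n F q ⊓ specialLinear (Fin n) F)) ∨
    (Odd q ∧ ∃ (F₀ : Subfield F) (P : GL (Fin n) F), Fintype.card F = Nat.card F₀ ^ 2 ∧
      IsFormRationalStructure (Cfsg.hermForm n F q) F₀ 1 P ∧
      H = subfieldSubgroup F₀ P ⊓ (Cfsg.GU n F q ⊓ specialLinear (Fin n) F)) ∨
    (∃ (p k : ℕ) (R : Subgroup (GL (Fin n) F)), p.Prime ∧ CharP F p ∧ 0 < k ∧ q = p ^ k ∧
      n ∣ p ^ (k * 2) - 1 ∧ n ∣ p ^ k + 1 ∧ (∀ d, 0 < d → d < k * 2 → ¬ n ∣ p ^ d - 1) ∧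
      IsSymplecticTypeGroup n R ∧ ActsAbsolutelyIrreducibly (matrixSet R) ∧ R ≤ Cfsg.GU n F q ∧
      Nat.card R = n ^ 3 ∧ Nat.card (Subgroup.center R) = n ∧
      H = subgroupNormalizer R ⊓ (Cfsg.GU n F q ⊓ specialLinear (Fin n) F)) ∨
    InUnitaryResidualClass H := by
  classical
  obtain ⟨σ, hu⟩ := exists_unitarySetup n hF
  have hn3 : 3 ≤ n := by
    obtain ⟨k, hk⟩ := hodd
    have := hn.two_le
    omega
  haveI : Nonempty (Fin n) := ⟨⟨0, by omega⟩⟩
  have hcard : Fintype.card (Fin n) = n := Fintype.card_fin n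
  have hn' : (Fintype.card (Fin n)).Prime := by rwa [hcard]
  have hodd' : Odd (Fintype.card (Fin n)) := by rwa [hcard]
  have hG : H ≤ Cfsg.GU n F q := hH.1.le.trans inf_le_left
  have hsl : H ≤ specialLinear (Fin n) F := hH.1.le.trans inf_le_right
  -- reducible
  by_cases hirr : ActsIrreducibly (matrixSet H)
  swap
  · obtain ⟨W, h0, h1, hle, hW | ⟨hW, hdim⟩⟩ := hu.reducible_case hodd hG hirr
    · exact Or.inl ⟨W, h0, hW, IsMaximalIn.eq_inf hH hle (hu.not_le_subspaceStabilizer (by omega) h0 h1)⟩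
    · exact Or.inr (Or.inl ⟨W, h0, hW, hdim,
        IsMaximalIn.eq_inf hH hle (hu.not_le_subspaceStabilizer (by omega) h0 h1)⟩)
  right; right
  -- a normal subgroup that is not absolutely irreducible
  by_cases habs : ∀ N, NormalIn N H → ¬ N ≤ scalars (Fin n) F → ActsAbsolutelyIrreducibly (matrixSet N)
  swap
  · push Not at habs
    obtain ⟨N, hN, hNs, hNa⟩ := habs
    rcases normal_cases hn' hirr hN hNs with h | ⟨D, χ, hD⟩ | ⟨K, hK⟩
    · exact absurd h hNa
    · left
      have key : ∀ (t : ℕ) (D : Fin t → Submodule F (Fin n → F)), t = n →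
          IsNondegenerateMDecomposition (Cfsg.hermForm n F q) 1 D → H ≤ decompositionStabilizer D →
          ∃ D : Fin n → Submodule F (Fin n → F), IsNondegenerateMDecomposition (Cfsg.hermForm n F q) 1 D ∧
            H = decompositionStabilizer D ⊓ (Cfsg.GU n F q ⊓ specialLinear (Fin n) F) := by
        rintro t D rfl hD hle
        exact ⟨D, hD, IsMaximalIn.eq_inf hH hle (hu.not_le_decompositionStabilizer hn3 hq3 hD)⟩
      exact key _ D hcard (hu.nondegenerate_of_eigenLines hodd hN hG hirr hD) hD.le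
    · refine Or.inr (Or.inl ⟨K, ?_, hu.adjointClosed_of_fullField (hN.le.trans hG) hK,
        IsMaximalIn.eq_inf hH hK.le (hu.not_le_subalgebraNormalizer hn3 (by omega : 2 ≤ n) ?_)⟩)
      · have := hK.isField; rwa [hcard] at this
      · have := hK.isField; rwa [hcard] at this
  right; right
  -- realised over a subfield
  by_cases hsub : ∀ N, NormalIn N H → ¬ N ≤ scalars (Fin n) F →
      ∀ K : Subfield F, K ≠ ⊤ → ¬ RealisableOver K (matrixSet N)
  swap
  · push Not at hsub
    obtain ⟨N, hN, hNs, K, hK, hreal⟩ := hsub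
    obtain ⟨F₀, r, P, hr, hF₀, hcardF, hform, hle, hcase | ⟨rfl, hq⟩⟩ :=
      hu.subfield_case hodd (by omega) hN hG (habs N hN hNs) hK hreal
    · exact Or.inl ⟨F₀, r, P, hr, hcase, hcardF, hform,
        IsMaximalIn.eq_inf hH hle (hu.not_le_subfieldSubgroup hn3 hF₀ P)⟩
    · exact Or.inr (Or.inl ⟨hq, F₀, P, hcardF, hform,
        IsMaximalIn.eq_inf hH hle (hu.not_le_subfieldSubgroup hn3 hF₀ P)⟩)
  right; right
  have hHs : ¬ H ≤ scalars (Fin n) F := not_le_scalars_of_irreducible (by omega) hirr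
  rcases sympl_or_residual hn' hodd' hsl hHs habs hsub with ⟨R, hR⟩ | ⟨P, hP, hcore⟩
  · left
    have hRs : ¬ R ≤ scalars (Fin n) F := not_le_scalars_of_irreducible (by omega) hR.absIrred.1
    obtain ⟨⟨p, e, hp, hchar, hcardF, hdvd, hmin⟩, hplus, d, x, μ, hdd, hmono, hx, hμ, hinj⟩ :=
      hu.symplectic_case hn hG hR (hsub R hR.normal hRs)
    obtain ⟨k, -, hk⟩ := (Nat.dvd_prime_pow hp).mp (show q ∣ p ^ e from ⟨q, by rw [← hcardF, hF, sq]⟩)
    have he : e = k * 2 :=
      Nat.pow_right_injective hp.two_le (show p ^ e = p ^ (k * 2) by rw [← hcardF, hF, hk, ← pow_mul])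
    subst he
    have hk0 : 0 < k := by
      rcases Nat.eq_zero_or_pos k with h | h
      · have := hu.two_le; rw [hk, h, pow_zero] at this; omega
      · exact h
    have hq4 : 4 ≤ q := by
      have h1 := Nat.le_of_dvd (by omega) hplus
      by_contra h
      have hq3' : q = 2 ∨ q = 3 := by have := hu.two_le; omega
      rcases hq3' with rfl | rfl
      · have : n = 3 := by omega
        subst this; omega
      · have h4 : n = 3 ∨ n = 4 := by omega
        rcases h4 with rfl | rfl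
        · omega
        · exact absurd hn (by decide)
    refine ⟨p, k, R, hp, hchar, hk0, hk, hdvd, by rwa [← hk], hmin, ?_, hR.absIrred, hR.normal.le.trans hG,
      ?_, ?_, IsMaximalIn.eq_inf hH ?_ (hu.not_le_subgroupNormalizer hn3 hq4 hdd hmono hx hμ hinj)⟩
    · have := hR.sympType; rwa [hcard] at this
    · rw [hR.card_eq, hcard]
    · rw [hR.card_center, hcard]
    · intro g hg
      refine Subgroup.mem_normalizer_iff.mpr fun y => ⟨fun hy => hR.normal.conj g hg y hy, fun hy => ?_⟩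
      simpa [mul_assoc] using hR.normal.conj' hg hy
  · right
    have hPs : ¬ P ≤ scalars (Fin n) F := not_le_scalars_of_irreducible (by omega) hcore.absIrred.1
    refine ⟨P, hcore, ?_, fun ⟨f, hf, _⟩ =>
      no_alternating_odd hodd' hf.bilinear hf.alternating hf.nondegenerate⟩
    rintro ⟨Q, hQ, hfix⟩
    obtain ⟨K, hK, hreal⟩ := hu.realisable_of_bilinear hodd (hP.le.trans hG) hcore.absIrred
      hQ.polar_bilinear hQ.nondegenerate (fixesForm_polar hfix)
    exact hsub P hP hPs K hK hreal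

end CfsgLib.SmallDim
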