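import Cfsg.Agent.Lib.SmallDim.UnitaryBasics
import Cfsg.Agent.Lib.SmallDim.SymplecticType

/-!
The special unitary group is contained in none of the geometric overgroups.
-/

set_option autoImplicit false
set_option linter.style.haveILetI false

namespace CfsgLib.SmallDim

open scoped MatrixGroups Matrix
open Cfsg.Geo

variable {F : Type*} [Field F] [Fintype F] {n q : ℕ} {σ : F ≃+* F}

namespace UnitarySetup

/-- A vector with non-zero `i`-th coordinate forces everything. -/
theorem not_le_subspaceStabilizer (hu : UnitarySetup n q σ) (hn : 2 ≤ n) {W : Submodule F (Fin n → F)}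
    (h0 : W ≠ ⊥) (h1 : W ≠ ⊤) : ¬ Cfsg.GU n F q ⊓ specialLinear (Fin n) F ≤ subspaceStabilizer W := by
  classical
  intro hle
  obtain ⟨c, hc0, hc, -⟩ := hu.exists_skew_avoid ∅ (by have := hu.two_le; simp; omega)
  have key : ∀ v, Cfsg.hermForm n F q v v = 0 → ∀ w ∈ W, Cfsg.hermForm n F q w v ≠ 0 → v ∈ W := by
    intro v hv w hw hwv
    have := (mem_subspaceStabilizer.mp (hle (hu.utrans_mem hv hc)) w).mp hw
    rw [hu.act_utrans] at this
    have h2 : (c * Cfsg.hermForm n F q w v) • v ∈ W := by simpa using W.sub_mem this hw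
    have h3 := W.smul_mem (c * Cfsg.hermForm n F q w v)⁻¹ h2
    rwa [smul_smul, inv_mul_cancel₀ (mul_ne_zero hc0 hwv), one_smul] at h3
  obtain ⟨w, hw, hw0⟩ := W.ne_bot_iff.mp h0
  obtain ⟨i, hi⟩ : ∃ i, w i ≠ 0 := Function.ne_iff.mp hw0
  have hpair : ∀ j, i ≠ j → Pi.single i 1 ∈ W ∧ Pi.single j 1 ∈ W := by
    intro j hij
    -- the bad value of the parameter
    set bad : F := if w j = 0 then 0 else σ (-(w i) / w j)
    have hgood : ∀ a, a * σ a = -1 → a ≠ bad →
        Pi.single i 1 + Pi.single j a ∈ W := by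
      intro a ha hab
      refine key _ (hu.isotropic_pair hij ha) w hw ?_
      rw [hu.sesqui.add_right, hu.herm_single, hu.herm_single, map_one, mul_one]
      intro h
      by_cases hj : w j = 0
      · rw [hj, zero_mul, add_zero] at h; exact hi h
      · apply hab
        simp only [bad, hj, if_false]
        rw [show -(w i) / w j = σ a by field_simp; linear_combination -h, hu.invol]
    obtain ⟨a, ha, hab⟩ := hu.exists_norm_neg_one {bad} (by have := hu.two_le; simp; omega)
    obtain ⟨a', ha', hab'⟩ := hu.exists_norm_neg_one {bad, a}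
      ((Finset.card_le_two).trans hu.two_le)
    simp only [Finset.mem_singleton] at hab
    simp only [Finset.mem_insert, Finset.mem_singleton, not_or] at hab'
    have h2 := W.sub_mem (hgood a ha hab) (hgood a' ha' hab'.1)
    rw [add_sub_add_left_eq_sub, ← Pi.single_sub] at h2
    have hj : Pi.single j 1 ∈ W := by
      have := W.smul_mem (a - a')⁻¹ h2
      rwa [← Pi.single_smul, smul_eq_mul, inv_mul_cancel₀ (sub_ne_zero.mpr (Ne.symm hab'.2))] at this
    refine ⟨?_, hj⟩
    have := W.sub_mem (hgood a ha hab) (W.smul_mem a hj)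
    rwa [← Pi.single_smul, smul_eq_mul, mul_one, add_sub_cancel_right] at this
  apply h1
  rw [Submodule.eq_top_iff']
  intro x
  rw [pi_eq_sum_univ' x]
  refine W.sum_mem fun j _ => W.smul_mem _ ?_
  rcases eq_or_ne i j with rfl | hij
  · haveI : Nontrivial (Fin n) := Fin.nontrivial_iff_two_le.mpr hn
    obtain ⟨k, hk⟩ := exists_ne i
    exact (hpair k hk.symm).1
  · exact (hpair j hij).2

/-- An orthonormal vector of each member of a non-degenerate decomposition into lines. -/
lemma exists_orthonormal (hu : UnitarySetup n q σ) {t : ℕ} {D : Fin t → Submodule F (Fin n → F)}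
    (hD : IsNondegenerateMDecomposition (Cfsg.hermForm n F q) 1 D) :
    ∃ d : Fin t → (Fin n → F), (∀ i, d i ∈ D i) ∧
      ∀ i j, Cfsg.hermForm n F q (d i) (d j) = if i = j then 1 else 0 := by
  have hex : ∀ i, ∃ d ∈ D i, Cfsg.hermForm n F q d d = 1 := by
    intro i
    obtain ⟨w, hw0, hw⟩ := finrank_eq_one_iff'.mp (hD.decomp.finrank_eq i)
    have hw0' : (w : Fin n → F) ≠ 0 := fun h => hw0 (Subtype.ext h)
    obtain ⟨x, hx, hxw⟩ := (hD.nondegenerate i w w.2 hw0').1
    obtain ⟨a, ha⟩ := hw ⟨x, hx⟩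
    have ha' : a • (w : Fin n → F) = x := congrArg Subtype.val ha
    rw [← ha', hu.sesqui.smul_left] at hxw
    have hne := right_ne_zero_of_mul hxw
    obtain ⟨b, hb, -⟩ := hu.exists_norm_avoid (b := (Cfsg.hermForm n F q w w)⁻¹)
      (by rw [map_inv₀, ← hu.herm]) (inv_ne_zero hne) ∅ (by simp)
    refine ⟨b • (w : Fin n → F), (D i).smul_mem b w.2, ?_⟩
    rw [hu.sesqui.smul_left, hu.sesqui.smul_right, ← mul_assoc]
    show b * σ b * _ = 1
    rw [hb, inv_mul_cancel₀ hne]
  choose d hd hd1 using hex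
  refine ⟨d, hd, fun i j => ?_⟩
  split_ifs with h
  · subst h; exact hd1 i
  · exact hD.orthogonal i j h _ (hd i) _ (hd j)

theorem not_le_decompositionStabilizer (hu : UnitarySetup n q σ) (hn : 3 ≤ n) (hq : 3 ≤ q ∨ 4 ≤ n)
    {D : Fin n → Submodule F (Fin n → F)} (hD : IsNondegenerateMDecomposition (Cfsg.hermForm n F q) 1 D) :
    ¬ Cfsg.GU n F q ⊓ specialLinear (Fin n) F ≤ decompositionStabilizer D := by
  classical
  intro hle
  obtain ⟨d, hd, hdd⟩ := hu.exists_orthonormal hD
  have hd0 : ∀ i, d i ≠ 0 := fun i h => by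
    have := hdd i i
    rw [h, if_pos rfl, hu.herm_eq, zero_dotProduct] at this
    exact zero_ne_one this
  -- the image of a basis vector is orthogonal to all but one
  have key : ∀ g ∈ Cfsg.GU n F q ⊓ specialLinear (Fin n) F, ∀ i, ∃ k, ∀ j, j ≠ k →
      Cfsg.hermForm n F q (act g (d i)) (d j) = 0 := by
    intro g hg i
    obtain ⟨π, hπ⟩ := hle hg
    refine ⟨π i, fun j hj => hD.orthogonal (π i) j hj.symm _ ?_ _ (hd j)⟩
    rw [← hπ i]
    exact ⟨d i, hd i, Matrix.toLin'_apply _ _⟩
  let i : Fin n := ⟨0, by omega⟩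
  let j : Fin n := ⟨1, by omega⟩
  have hij : i ≠ j := by simp [i, j]
  by_cases h3 : 3 ≤ q
  · obtain ⟨c, hc0, hc, hcs⟩ := hu.exists_skew_avoid {-1} (by simp; omega)
    rw [Finset.mem_singleton] at hcs
    obtain ⟨a, ha, -⟩ := hu.exists_norm_neg_one ∅ (by simp)
    have hiso : Cfsg.hermForm n F q (d i + a • d j) (d i + a • d j) = 0 := by
      rw [hu.sesqui.add_left, hu.sesqui.add_right, hu.sesqui.add_right, hu.sesqui.smul_left, hu.sesqui.smul_left,
        hu.sesqui.smul_right, hu.sesqui.smul_right, hdd, hdd, hdd, hdd, if_neg hij, if_neg hij.symm, if_pos rfl,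
        if_pos rfl, RingEquiv.coe_toRingHom]
      linear_combination ha
    obtain ⟨k, hk⟩ := key _ (hu.utrans_mem hiso hc) i
    have hval : ∀ l, Cfsg.hermForm n F q (act (hu.utrans hiso c) (d i)) (d l)
        = (if i = l then 1 else 0) + c * ((if i = l then 1 else 0) + a * (if j = l then 1 else 0)) := by
      intro l
      rw [hu.act_utrans, hu.sesqui.add_left, hu.sesqui.smul_left, hu.sesqui.add_left, hu.sesqui.smul_left,
        hu.sesqui.add_right, hu.sesqui.smul_right, hdd, hdd, hdd, hdd, if_neg hij, if_pos rfl]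
      ring
    rcases eq_or_ne k i with rfl | hki
    · have := hk j hij.symm
      rw [hval, if_neg hij, if_pos rfl] at this
      have ha0 : a ≠ 0 := fun h => by simp [h] at ha
      simp [hc0, ha0] at this
    · have := hk i hki.symm
      rw [hval, if_pos rfl, if_neg hij.symm] at this
      exact hcs (by linear_combination this)
  · have hn4 : 4 ≤ n := hq.resolve_left h3
    have hq2 : q = 2 := by have := hu.two_le; omega
    have h2 : (2 : F) = 0 := by
      have h4 : ((Fintype.card F : ℕ) : F) = 0 := Nat.cast_card_eq_zero F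
      rw [hu.card, hq2] at h4
      have h5 : (2 : F) * 2 = 0 := by norm_num at h4 ⊢; exact h4
      exact mul_self_eq_zero.mp h5
    let k : Fin n := ⟨2, by omega⟩
    let l : Fin n := ⟨3, by omega⟩
    have hik : i ≠ k := by simp [i, k]
    have hil : i ≠ l := by simp [i, l]
    have hjk : j ≠ k := by simp [j, k]
    have hjl : j ≠ l := by simp [j, l]
    have hkl : k ≠ l := by simp [k, l]
    obtain ⟨c, hc0, hc, -⟩ := hu.exists_skew_avoid ∅ (by simp [hq2])
    set v := d i + d j + d k + d l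
    have hv : ∀ m, Cfsg.hermForm n F q v (d m) = if m = i ∨ m = j ∨ m = k ∨ m = l then 1 else 0 := by
      intro m
      simp only [v, hu.sesqui.add_left, hdd]
      rcases eq_or_ne m i with rfl | h1
      · simp [hij.symm, hik.symm, hil.symm]
      rcases eq_or_ne m j with rfl | h2
      · simp [hij, hjk.symm, hjl.symm]
      rcases eq_or_ne m k with rfl | h3
      · simp [hik, hjk, hkl.symm]
      rcases eq_or_ne m l with rfl | h4
      · simp [hil, hjl, hkl]
      simp [h1, h2, h3, h4, Ne.symm h1, Ne.symm h2, Ne.symm h3, Ne.symm h4]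
    have hiso : Cfsg.hermForm n F q v v = 0 := by
      have e : ∀ m, Cfsg.hermForm n F q v (d m) = if m = i ∨ m = j ∨ m = k ∨ m = l then 1 else 0 := hv
      show Cfsg.hermForm n F q v (d i + d j + d k + d l) = 0
      rw [hu.sesqui.add_right, hu.sesqui.add_right, hu.sesqui.add_right, e, e, e, e]
      simp
      linear_combination (2 : F) * h2
    obtain ⟨m, hm⟩ := key _ (hu.utrans_mem hiso hc) i
    have hdi : Cfsg.hermForm n F q (d i) v = 1 := by rw [hu.herm, hv]; simp
    have hval : ∀ r, i ≠ r → (r = j ∨ r = k ∨ r = l) →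
        Cfsg.hermForm n F q (act (hu.utrans hiso c) (d i)) (d r) = c := by
      intro r hr hr'
      rw [hu.act_utrans, hu.sesqui.add_left, hu.sesqui.smul_left, hdd, if_neg hr, hdi, hv, if_pos (Or.inr hr')]
      ring
    rcases eq_or_ne m j with rfl | hmj
    · exact hc0 ((hval k hik (Or.inr (Or.inl rfl))).symm.trans (hm k hjk.symm))
    · exact hc0 ((hval j hij (Or.inl rfl)).symm.trans (hm j hmj.symm))

theorem not_le_subalgebraNormalizer (hu : UnitarySetup n q σ) (hn : 3 ≤ n) {r : ℕ} (hr : 2 ≤ r)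
    {K : Subalgebra F (Matrix (Fin n) (Fin n) F)} (hK : IsFieldSubalgebra r K) :
    ¬ Cfsg.GU n F q ⊓ specialLinear (Fin n) F ≤ subalgebraNormalizer K := by
  classical
  intro hle
  have hinj : ∀ k ∈ K, ∀ u : Fin n → F, u ≠ 0 → k *ᵥ u = 0 → k = 0 := by
    intro k hk u hu0 h
    by_contra h0
    obtain ⟨y, hy, hky⟩ := hK.inv k hk h0
    apply hu0
    rw [← Matrix.one_mulVec u, ← hky, hK.comm k hk y hy, ← Matrix.mulVec_mulVec, h, Matrix.mulVec_zero]
  obtain ⟨c, hc0, hc, -⟩ := hu.exists_skew_avoid ∅ (by have := hu.two_le; simp; omega)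
  obtain ⟨a, ha, -⟩ := hu.exists_norm_neg_one ∅ (by simp)
  let i : Fin n := ⟨0, by omega⟩
  let j : Fin n := ⟨1, by omega⟩
  have hij : i ≠ j := by simp [i, j]
  set v : Fin n → F := Pi.single i 1 + Pi.single j a
  have hv : Cfsg.hermForm n F q v v = 0 := hu.isotropic_pair hij ha
  have hvi : v i = 1 := by simp [v, hij]
  have hv0 : v ≠ 0 := fun h => by simp [h] at hvi
  set g := hu.utrans hv c
  have hg := hle (hu.utrans_mem hv hc)
  -- every element of `K` maps `v` to a multiple of `v`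
  have hline : ∀ k ∈ K, ∃ b : F, k *ᵥ v = b • v := by
    intro k hk
    have hk' := (hg k).mp hk
    set k' := (g : Matrix (Fin n) (Fin n) F) * k * ((g⁻¹ : GL (Fin n) F) : Matrix (Fin n) (Fin n) F)
    have hact : ∀ x, k' *ᵥ act g x = act g (k *ᵥ x) := by
      intro x
      show ((g : Matrix (Fin n) (Fin n) F) * k * ((g⁻¹ : GL (Fin n) F) : Matrix _ _ F)) *ᵥ _ = _
      rw [Matrix.mulVec_mulVec, Units.inv_mul_cancel_right, ← Matrix.mulVec_mulVec]
    -- a common zero of `x ↦ f x v` and `x ↦ f (k x) v`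
    obtain ⟨u, hu0, hu1, hu2⟩ : ∃ u : Fin n → F, u ≠ 0 ∧ Cfsg.hermForm n F q u v = 0 ∧
        Cfsg.hermForm n F q (k *ᵥ u) v = 0 := by
      let L : (Fin n → F) →ₗ[F] F × F :=
        { toFun := fun x => (Cfsg.hermForm n F q x v, Cfsg.hermForm n F q (k *ᵥ x) v)
          map_add' := fun x y => by simp [Matrix.mulVec_add, hu.sesqui.add_left]
          map_smul' := fun b x => by simp [Matrix.mulVec_smul, hu.sesqui.smul_left] }
      have hker : 0 < Module.finrank F (LinearMap.ker L) := by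
        have h1 := LinearMap.finrank_range_add_finrank_ker L
        have h2 := Submodule.finrank_le (LinearMap.range L)
        rw [Module.finrank_fin_fun] at h1
        rw [Module.finrank_prod, Module.finrank_self] at h2
        omega
      obtain ⟨u, hu'⟩ := Module.finrank_pos_iff_exists_ne_zero.mp hker
      have := LinearMap.mem_ker.mp u.2
      exact ⟨u, fun h => hu' (Subtype.ext h), congrArg Prod.fst this, congrArg Prod.snd this⟩
    have hkk : k' = k := by
      refine sub_eq_zero.mp (hinj _ (K.sub_mem hk' hk) u hu0 ?_)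
      have := hact u
      rw [hu.act_utrans, hu.act_utrans, hu1, hu2, mul_zero, zero_smul, add_zero, add_zero] at this
      rw [Matrix.sub_mulVec, this, sub_self]
    have h1 := hact (Pi.single i 1)
    rw [hkk, hu.act_utrans, hu.act_utrans, hu.single_herm, Matrix.mulVec_add, Matrix.mulVec_smul, hvi,
      map_one, one_mul, mul_one, add_right_inj] at h1
    refine ⟨Cfsg.hermForm n F q (k *ᵥ Pi.single i 1) v, ?_⟩
    apply smul_right_injective (Fin n → F) hc0
    show c • _ = c • _
    rw [h1, smul_smul]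
  let L : F →ₗ[F] K :=
    { toFun := fun b => ⟨b • 1, K.smul_mem K.one_mem b⟩
      map_add' := fun x y => Subtype.ext (add_smul x y 1)
      map_smul' := fun x y => Subtype.ext (by simp [smul_smul]) }
  have hsurj : Function.Surjective L := by
    rintro ⟨k, hk⟩
    obtain ⟨b, hb⟩ := hline k hk
    refine ⟨b, Subtype.ext (sub_eq_zero.mp (hinj (b • 1 - k) (K.sub_mem (K.smul_mem K.one_mem b) hk) v hv0 ?_))⟩
    rw [Matrix.sub_mulVec, hb, Matrix.smul_mulVec, Matrix.one_mulVec, sub_self]
  have h1 := LinearMap.finrank_range_le L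
  rw [LinearMap.range_eq_top.mpr hsurj, finrank_top, hK.finrank_eq, Module.finrank_self] at h1
  omega

end UnitarySetup

omit [Fintype F] in
/-- A transvection which is a scalar times a matrix over a subfield comes from that subfield. -/
lemma entries_of_transvec [Finite F] {ι : Type} [Fintype ι] [DecidableEq ι] {K : Subfield F}
    {φ w : ι → F} (hφ : φ ≠ 0) (hw : w ≠ 0) (h : φ ⬝ᵥ w = 0) {A z : GL ι F}
    (hA : ∀ i j, (A : Matrix ι ι F) i j ∈ K) (hz : z ∈ scalars ι F) (he : transvec φ w h = A * z) :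
    ∀ i j, w i * φ j ∈ K := by
  classical
  obtain ⟨c, hc⟩ := (mem_scalars_iff z).mp hz
  have hA' : ∀ i j, (A : Matrix ι ι F) i j = (c : F)⁻¹ * ((1 : Matrix ι ι F) i j + w i * φ j) := by
    intro i j
    have h1 : (1 + Matrix.vecMulVec w φ : Matrix ι ι F) = (A : Matrix ι ι F) * (z : Matrix ι ι F) :=
      congrArg Units.val he
    rw [hc, Matrix.mul_smul, Matrix.mul_one] at h1
    have h2 := congrFun (congrFun h1 i) j
    rw [Matrix.add_apply, Matrix.vecMulVec_apply, Matrix.smul_apply, smul_eq_mul] at h2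
    rw [h2, ← mul_assoc, inv_mul_cancel₀ c.ne_zero, one_mul]
  set y := (c : F)⁻¹
  obtain ⟨a, b, hab, hne⟩ : ∃ a b, a ≠ b ∧ w a * φ b ≠ 0 := by
    obtain ⟨a, ha⟩ : ∃ a, w a ≠ 0 := Function.ne_iff.mp hw
    by_contra hall
    push Not at hall
    have hz : ∀ b, b ≠ a → φ b = 0 := fun b hb => (mul_eq_zero.mp (hall a b hb.symm)).resolve_left ha
    obtain ⟨b, hb⟩ : ∃ b, φ b ≠ 0 := Function.ne_iff.mp hφ
    rcases eq_or_ne b a with rfl | hba
    · rw [dotProduct, Finset.sum_eq_single b (fun d _ hd => by rw [hz d hd, zero_mul]) (by simp)] at h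
      exact mul_ne_zero hb ha h
    · exact hb (hz b hba)
  have hsq : ∀ i j, ((A : Matrix ι ι F) * (A : Matrix ι ι F)) i j
      = y ^ 2 * ((1 : Matrix ι ι F) i j + 2 * (w i * φ j)) := by
    intro i j
    have h1 : (A : Matrix ι ι F) = y • ((1 : Matrix ι ι F) + Matrix.vecMulVec w φ) := Matrix.ext fun k l => by
      simp [hA' k l, Matrix.vecMulVec_apply]
    have h0 : Matrix.vecMulVec w φ * Matrix.vecMulVec w φ = 0 := by
      rw [Matrix.vecMulVec_mul_vecMulVec, h, zero_smul, Matrix.vecMulVec_zero]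
    have h2 : (A : Matrix ι ι F) * (A : Matrix ι ι F) = y ^ 2 • ((1 : Matrix ι ι F) + 2 • Matrix.vecMulVec w φ) := by
      rw [h1, Matrix.smul_mul, Matrix.mul_smul, smul_smul, ← pow_two y]
      congr 1
      rw [Matrix.add_mul, Matrix.mul_add, Matrix.mul_add, Matrix.one_mul, Matrix.one_mul, Matrix.mul_one, h0,
        add_zero, two_nsmul, add_assoc]
    rw [h2, Matrix.smul_apply, Matrix.add_apply, Matrix.smul_apply, Matrix.vecMulVec_apply, smul_eq_mul, nsmul_eq_mul]
    norm_num
  have hsqK : ∀ i j, ((A : Matrix ι ι F) * (A : Matrix ι ι F)) i j ∈ K := fun i j => by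
    rw [Matrix.mul_apply]; exact K.sum_mem fun k _ => K.mul_mem (hA i k) (hA k j)
  have hAab : (A : Matrix ι ι F) a b = y * (w a * φ b) := by simp [hA', Matrix.one_apply_ne hab]
  have hy0 : y ≠ 0 := inv_ne_zero c.ne_zero
  have hyK : y ∈ K := by
    by_cases h2 : (2 : F) = 0
    · have h3 : y ^ 2 ∈ K := by
        have := hsqK a a
        rwa [hsq, h2, zero_mul, add_zero, Matrix.one_apply_eq, mul_one] at this
      have hinj : Function.Injective fun x : K => x ^ 2 := by
        intro x x' hxx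
        have hxx' : (x : F) ^ 2 = (x' : F) ^ 2 := congrArg Subtype.val hxx
        have h4 : ((x : F) - x') ^ 2 = 0 := by linear_combination hxx' + ((x' : F) ^ 2 - (x : F) * x') * h2
        exact Subtype.ext (sub_eq_zero.mp (sq_eq_zero_iff.mp h4))
      obtain ⟨k, hk⟩ := Finite.injective_iff_surjective.mp hinj ⟨y ^ 2, h3⟩
      have hk' : (k : F) ^ 2 = y ^ 2 := congrArg Subtype.val hk
      have h4 : ((k : F) - y) ^ 2 = 0 := by linear_combination hk' + (y ^ 2 - (k : F) * y) * h2
      exact (sub_eq_zero.mp (sq_eq_zero_iff.mp h4)) ▸ k.2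
    · have h3 : 2 * y ∈ K := by
        have h4 := K.mul_mem (hsqK a b) (K.inv_mem (hA a b))
        rwa [hsq, hAab, Matrix.one_apply_ne hab, zero_add,
          show y ^ 2 * (2 * (w a * φ b)) * (y * (w a * φ b))⁻¹ = 2 * y by
            rw [mul_inv, show y ^ 2 * (2 * (w a * φ b)) * (y⁻¹ * (w a * φ b)⁻¹)
              = 2 * y * (y * y⁻¹) * ((w a * φ b) * (w a * φ b)⁻¹) by ring, mul_inv_cancel₀ hy0,
              mul_inv_cancel₀ hne, mul_one, mul_one]] at h4
      have h4 := K.mul_mem h3 (K.inv_mem (natCast_mem K 2))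
      rwa [show ((2 : ℕ) : F) = 2 from Nat.cast_ofNat, show 2 * y * (2 : F)⁻¹ = y by field_simp] at h4
  intro i j
  have := K.sub_mem (K.mul_mem (hA i j) (K.inv_mem hyK))
    (show (1 : Matrix ι ι F) i j ∈ K by
      rcases eq_or_ne i j with rfl | h
      · simp [K.one_mem]
      · simp [Matrix.one_apply_ne h, K.zero_mem])
  rwa [hA', show y * ((1 : Matrix ι ι F) i j + w i * φ j) * y⁻¹ - (1 : Matrix ι ι F) i j = w i * φ j by
    field_simp; ring] at this

namespace UnitarySetup

theorem not_le_subfieldSubgroup (hu : UnitarySetup n q σ) (hn : 3 ≤ n) {K : Subfield F} (hK : K ≠ ⊤)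
    (P : GL (Fin n) F) : ¬ Cfsg.GU n F q ⊓ specialLinear (Fin n) F ≤ subfieldSubgroup K P := by
  classical
  intro hle
  set f := Cfsg.hermForm n F q
  -- coordinates of the transvections
  have hM : ∀ v, f v v = 0 → v ≠ 0 → ∀ c, c ≠ 0 → σ c = -c →
      ∀ a b, act P⁻¹ v a * ((c • (σ ∘ v)) ᵥ* (P : Matrix (Fin n) (Fin n) F)) b ∈ K := by
    intro v hv hv0 c hc0 hc
    obtain ⟨A, z, hA, hz, he⟩ := mem_subfieldSubgroup.mp (hle (hu.utrans_mem hv hc))
    have hdot : ((c • (σ ∘ v)) ᵥ* (P : Matrix (Fin n) (Fin n) F)) ⬝ᵥ act P⁻¹ v = 0 := by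
      rw [← Matrix.dotProduct_mulVec]
      show _ ⬝ᵥ act P (act P⁻¹ v) = 0
      rw [act_act_inv]
      exact hu.dot_self_zero hv c
    have he' : transvec ((c • (σ ∘ v)) ᵥ* (P : Matrix (Fin n) (Fin n) F)) (act P⁻¹ v) hdot = A * z := by
      rw [show A * z = P⁻¹ * hu.utrans hv c * P by rw [he]; group]
      refine Units.ext (Matrix.ext_of_mulVec_single fun i => ?_)
      show act _ _ = act _ _
      rw [act_mul, act_mul, utrans, act_transvec, act_transvec, ← Matrix.dotProduct_mulVec]
      simp only [act, Matrix.mulVec_add, Matrix.mulVec_smul, ← Units.val_mul, Matrix.mulVec_mulVec,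
        inv_mul_cancel, Units.val_one, Matrix.one_mulVec]
    refine entries_of_transvec (fun h0 => ?_) (act_ne_zero _ hv0) hdot hA hz he'
    apply hv0
    have h1 : c • (σ ∘ v) = 0 := by
      have := congrArg (fun x => x ᵥ* ((P⁻¹ : GL (Fin n) F) : Matrix (Fin n) (Fin n) F)) h0
      simpa [Matrix.vecMul_vecMul, ← Units.val_mul] using this
    funext i
    have := congrFun h1 i
    simpa [hc0] using this
  -- two products
  have hpair : ∀ (v w : Fin n → F) (c : F) (u : Fin n → F) (c' : F),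
      c * f w v = (c • (σ ∘ v)) ⬝ᵥ w := by
    intro v w c u c'
    rw [smul_dotProduct, dotProduct_comm, ← hu.herm_eq, smul_eq_mul]
  have hdd : ∀ (v w : Fin n → F) (c : F),
      c * f w v = ((c • (σ ∘ v)) ᵥ* (P : Matrix (Fin n) (Fin n) F)) ⬝ᵥ act P⁻¹ w := by
    intro v w c
    rw [hpair v w c v c, ← Matrix.dotProduct_mulVec]
    show _ = _ ⬝ᵥ act P (act P⁻¹ w)
    rw [act_act_inv]
  have h2 : ∀ v w, f v v = 0 → v ≠ 0 → f w w = 0 → w ≠ 0 → ∀ c d, c ≠ 0 → σ c = -c → d ≠ 0 → σ d = -d →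
      (c * f w v) * (d * f v w) ∈ K := by
    intro v w hv hv0 hw hw0 c d hc0 hc hd0 hd
    rw [hdd v w c, hdd w v d, dotProduct, dotProduct, Finset.sum_mul_sum]
    refine K.sum_mem fun a _ => K.sum_mem fun b _ => ?_
    rw [show ∀ A B C D : F, A * B * (C * D) = (D * A) * (B * C) from fun A B C D => by ring]
    exact K.mul_mem (hM v hv hv0 c hc0 hc b a) (hM w hw hw0 d hd0 hd a b)
  have h3 : ∀ v₁ v₂ v₃, f v₁ v₁ = 0 → v₁ ≠ 0 → f v₂ v₂ = 0 → v₂ ≠ 0 → f v₃ v₃ = 0 → v₃ ≠ 0 →
      ∀ c, c ≠ 0 → σ c = -c → (c * f v₂ v₁) * (c * f v₃ v₂) * (c * f v₁ v₃) ∈ K := by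
    intro v₁ v₂ v₃ h1 h10 h2' h20 h3' h30 c hc0 hc
    rw [hdd v₁ v₂ c, hdd v₂ v₃ c, hdd v₃ v₁ c, dotProduct, dotProduct, dotProduct, Finset.sum_mul_sum,
      Finset.sum_mul]
    refine K.sum_mem fun a _ => ?_
    rw [Finset.sum_mul]
    refine K.sum_mem fun b _ => ?_
    rw [Finset.mul_sum]
    refine K.sum_mem fun d _ => ?_
    rw [show ∀ A B C D E G : F, A * B * (C * D) * (E * G) = (G * A) * (B * C) * (D * E) from
      fun A B C D E G => by ring]
    exact K.mul_mem (K.mul_mem (hM v₁ h1 h10 c hc0 hc d a) (hM v₂ h2' h20 c hc0 hc a b))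
      (hM v₃ h3' h30 c hc0 hc b d)
  -- the vectors
  obtain ⟨ζ, hζ0, hζ, -⟩ := hu.exists_skew_avoid ∅ (by have := hu.two_le; simp; omega)
  obtain ⟨a, ha, -⟩ := hu.exists_norm_neg_one ∅ (by simp)
  obtain ⟨b, hb, hbs⟩ := hu.exists_norm_neg_one {a ^ 2, -(a ^ 2)} ((Finset.card_le_two).trans hu.two_le)
  simp only [Finset.mem_insert, Finset.mem_singleton, not_or] at hbs
  let i : Fin n := ⟨0, by omega⟩
  let j : Fin n := ⟨1, by omega⟩
  let k : Fin n := ⟨2, by omega⟩
  have hij : i ≠ j := by simp [i, j]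
  have hik : i ≠ k := by simp [i, k]
  have hjk : j ≠ k := by simp [j, k]
  set v₁ : Fin n → F := Pi.single i 1 + Pi.single j a
  set v₂ : Fin n → F := Pi.single j 1 + Pi.single k a
  set v₃ : Fin n → F := Pi.single i 1 + Pi.single k b
  have h1 : f v₁ v₁ = 0 := hu.isotropic_pair hij ha
  have h1' : f v₂ v₂ = 0 := hu.isotropic_pair hjk ha
  have h1'' : f v₃ v₃ = 0 := hu.isotropic_pair hik hb
  have e10 : v₁ ≠ 0 := fun h => by simpa [v₁, hij] using congrFun h i
  have e20 : v₂ ≠ 0 := fun h => by simpa [v₂, hjk] using congrFun h j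
  have e30 : v₃ ≠ 0 := fun h => by simpa [v₃, hik] using congrFun h i
  have g21 : f v₂ v₁ = σ a := by
    simp only [f, v₁, hu.sesqui.add_right, hu.herm_single]
    simp [v₂, hij, hjk, hik]
  have g32 : f v₃ v₂ = b * σ a := by
    simp only [f, v₂, hu.sesqui.add_right, hu.herm_single]
    simp [v₃, hij.symm, hjk, hik.symm]
  have g13 : f v₁ v₃ = 1 := by
    simp only [f, v₃, hu.sesqui.add_right, hu.herm_single]
    simp [v₁, hij, hik.symm, hjk.symm]
  have g12 : f v₁ v₂ = a := by
    show Cfsg.hermForm n F q v₁ v₂ = a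
    rw [hu.herm, show Cfsg.hermForm n F q v₂ v₁ = σ a from g21, hu.invol]
  have ha0 : a ≠ 0 := fun h => by simp [h] at ha
  -- the fixed field lies in `K`
  have hfix : ∀ x, σ x = x → x ∈ K := by
    intro x hx
    rcases eq_or_ne x 0 with rfl | hx0
    · exact K.zero_mem
    have hp1 := h2 v₁ v₂ h1 e10 h1' e20 (ζ * x) ζ (mul_ne_zero hζ0 hx0)
      (by rw [map_mul, hζ, hx, neg_mul]) hζ0 hζ
    have hp2 := h2 v₁ v₂ h1 e10 h1' e20 ζ ζ hζ0 hζ hζ0 hζ
    have := K.mul_mem hp1 (K.inv_mem hp2)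
    rwa [g21, g12, show ζ * x * σ a * (ζ * a) * (ζ * σ a * (ζ * a))⁻¹ = x by
      have : σ a ≠ 0 := (map_ne_zero σ).mpr ha0
      field_simp] at this
  -- and conversely
  have hKfix : ∀ y ∈ K, σ y = y := by
    by_contra hall
    push Not at hall
    obtain ⟨y, hy, hyσ⟩ := hall
    refine hK (eq_top_iff.mpr fun x _ => ?_)
    set β := (x - σ x) / (y - σ y)
    have hyσ' : y - σ y ≠ 0 := sub_ne_zero.mpr (Ne.symm hyσ)
    have hβ : σ β = β := by
      simp only [β, map_div₀, map_sub, hu.invol]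
      rw [← neg_sub x, ← neg_sub y, neg_div_neg_eq]
    have hα : σ (x - β * y) = x - β * y := by
      rw [map_sub, map_mul, hβ]
      simp only [β]
      field_simp
      ring
    have := K.add_mem (hfix _ hα) (K.mul_mem (hfix _ hβ) hy)
    rwa [sub_add_cancel] at this
  have hp3 := hKfix _ (h3 v₁ v₂ v₃ h1 e10 h1' e20 h1'' e30 ζ hζ0 hζ)
  rw [g21, g32, g13] at hp3
  simp only [map_mul, map_one, hζ, hu.invol] at hp3
  have hmain : b * σ a ^ 2 + σ b * a ^ 2 = 0 := by
    have hz3 : ζ ^ 3 ≠ 0 := pow_ne_zero _ hζ0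
    refine mul_left_cancel₀ hz3 ?_
    rw [mul_zero]
    linear_combination -hp3
  have hb0 : b ≠ 0 := fun h => by simp [h] at hb
  have hbb : (b - a ^ 2) * (b + a ^ 2) = 0 := by
    linear_combination (a ^ 2 * b) * hmain - (b ^ 2 * (a * σ a - 1)) * ha - (a ^ 4) * hb
  rcases mul_eq_zero.mp hbb with h | h
  · exact hbs.1 (sub_eq_zero.mp h)
  · exact hbs.2 (eq_neg_of_add_eq_zero_left h)

theorem not_le_subgroupNormalizer (hu : UnitarySetup n q σ) (hn : 3 ≤ n) (hq : 4 ≤ q)
    {R : Subgroup (GL (Fin n) F)} {d : Fin n → (Fin n → F)}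
    (hdd : ∀ i j, Cfsg.hermForm n F q (d i) (d j) = if i = j then 1 else 0)
    (hmono : ∀ y ∈ R, ∀ i, ∃ (k : Fin n) (a : F), act y (d i) = a • d k)
    {x : GL (Fin n) F} (hx : x ∈ R) {μ : Fin n → F} (hμ : ∀ i, act x (d i) = μ i • d i)
    (hinj : Function.Injective μ) :
    ¬ Cfsg.GU n F q ⊓ specialLinear (Fin n) F ≤ subgroupNormalizer R := by
  classical
  intro hle
  let i : Fin n := ⟨0, by omega⟩
  let j : Fin n := ⟨1, by omega⟩
  have hij : i ≠ j := by simp [i, j]
  have hne : μ i - μ j ≠ 0 := sub_ne_zero.mpr fun h => hij (hinj h)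
  obtain ⟨c, hc0, hc, hc1, hc2⟩ : ∃ c, c ≠ 0 ∧ σ c = -c ∧ c ≠ 1 ∧ c ^ 2 * (μ i - μ j) ≠ μ i := by
    by_cases hroot : ∃ r, r ^ 2 * (μ i - μ j) = μ i
    · obtain ⟨r, hr⟩ := hroot
      have hs : ({1, r, -r} : Finset F).card + 1 < q := by
        by_cases h5 : 5 ≤ q
        · have := Finset.card_le_three (a := (1 : F)) (b := r) (c := -r); omega
        · have h4 : ((Fintype.card F : ℕ) : F) = 0 := Nat.cast_card_eq_zero F
          rw [hu.card, show q = 4 by omega] at h4
          have h2 : (2 : F) ^ 4 = 0 := by norm_num at h4 ⊢; exact h4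
          have hr' : -r = r := by linear_combination (-r) * eq_zero_of_pow_eq_zero h2
          rw [hr', Finset.pair_eq_singleton]
          have := Finset.card_le_two (a := (1 : F)) (b := r)
          omega
      obtain ⟨c, h1, h2, h3⟩ := hu.exists_skew_avoid _ hs
      simp only [Finset.mem_insert, Finset.mem_singleton, not_or] at h3
      refine ⟨c, h1, h2, h3.1, fun h => ?_⟩
      have h' : (c - r) * (c + r) = 0 := by
        refine mul_right_cancel₀ hne ?_
        linear_combination h - hr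
      rcases mul_eq_zero.mp h' with h'' | h''
      · exact h3.2.1 (sub_eq_zero.mp h'')
      · exact h3.2.2 (eq_neg_of_add_eq_zero_left h'')
    · push Not at hroot
      obtain ⟨c, h1, h2, h3⟩ := hu.exists_skew_avoid {1} (by simp; omega)
      exact ⟨c, h1, h2, by simpa using h3, hroot c⟩
  obtain ⟨a, ha, -⟩ := hu.exists_norm_neg_one ∅ (by simp)
  have hiso : Cfsg.hermForm n F q (d i + a • d j) (d i + a • d j) = 0 := by
    rw [hu.sesqui.add_left, hu.sesqui.add_right, hu.sesqui.add_right, hu.sesqui.smul_left, hu.sesqui.smul_left,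
      hu.sesqui.smul_right, hu.sesqui.smul_right, hdd, hdd, hdd, hdd, if_neg hij, if_neg hij.symm, if_pos rfl,
      if_pos rfl, RingEquiv.coe_toRingHom]
    linear_combination ha
  set t := hu.utrans hiso c
  obtain ⟨k, e, he⟩ := hmono _ ((Subgroup.mem_normalizer_iff.mp (hle (hu.utrans_mem hiso hc)) x).mp hx) i
  -- `t x t⁻¹` moves `d i` to a vector with two non-zero coordinates
  set v := d i + a • d j
  have hdv : Cfsg.hermForm n F q (d i) v = 1 := by
    rw [hu.sesqui.add_right, hu.sesqui.smul_right, hdd, hdd, if_pos rfl, if_neg hij, mul_zero, add_zero]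
  have htinv : act t⁻¹ (d i) = d i + (-c) • v := by
    apply act_injective t
    rw [act_act_inv, hu.act_utrans, hu.sesqui.add_left, hu.sesqui.smul_left, hdv, hiso]
    simp only [mul_zero, add_zero, mul_one, neg_smul]
    abel
  have hxd : act x (d i + (-c) • v) = ((1 - c) * μ i) • d i + (-(c * a * μ j)) • d j := by
    simp only [v, act, Matrix.mulVec_add, Matrix.mulVec_smul]
    show act x (d i) + (-c) • (act x (d i) + a • act x (d j)) = _
    rw [hμ, hμ]
    simp only [smul_add, smul_smul, ← add_assoc, ← add_smul]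
    congr 2 <;> ring
  have hfv : Cfsg.hermForm n F q (((1 - c) * μ i) • d i + (-(c * a * μ j)) • d j) v
      = (1 - c) * μ i + c * μ j := by
    rw [hu.sesqui.add_left, hu.sesqui.smul_left, hu.sesqui.smul_left, hdv, hu.sesqui.add_right,
      hu.sesqui.smul_right, hdd, hdd, if_neg hij.symm, if_pos rfl, RingEquiv.coe_toRingHom]
    linear_combination (-(c * μ j)) * ha
  set A := (1 - c ^ 2) * μ i + c ^ 2 * μ j
  set B := a * c * (1 - c) * (μ i - μ j)
  have hy : act (t * x * t⁻¹) (d i) = A • d i + B • d j := by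
    rw [act_mul, act_mul, htinv, hxd, hu.act_utrans, hfv]
    simp only [v, A, B, smul_add, smul_smul]
    rw [add_add_add_comm, ← add_smul, ← add_smul]
    congr 2 <;> ring
  rw [he] at hy
  have hA : A ≠ 0 := fun h => hc2 (by simp only [A] at h; linear_combination -h)
  have hB : B ≠ 0 := mul_ne_zero (mul_ne_zero (mul_ne_zero (fun h => by simp [h] at ha) hc0)
    (sub_ne_zero.mpr (Ne.symm hc1))) hne
  have hcoef : ∀ l, e * (if k = l then 1 else 0) = A * (if i = l then 1 else 0) + B * (if j = l then 1 else 0) := by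
    intro l
    have := congrArg (fun w => Cfsg.hermForm n F q w (d l)) hy
    simpa only [hu.sesqui.smul_left, hu.sesqui.add_left, hdd] using this
  have hci := hcoef i
  have hcj := hcoef j
  rw [if_pos rfl, if_neg hij.symm, mul_one, mul_zero, add_zero] at hci
  rw [if_pos rfl, if_neg hij, mul_one, mul_zero, zero_add] at hcj
  rcases eq_or_ne k i with rfl | hki
  · rw [if_neg hij, mul_zero] at hcj
    exact hB hcj.symm
  · rw [if_neg hki, mul_zero] at hci
    exact hA hci.symm

end UnitarySetup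

end CfsgLib.SmallDim
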