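import Cfsg.Agent.Lib.SmallDim.UnitaryBasics
import Cfsg.Agent.Lib.SmallDim.FormClifford

/-!
Subgroups of the unitary group which are reducible, permute paired totally singular subspaces, or normalise an
adjoint-closed extension field.
-/

set_option autoImplicit false
set_option linter.style.haveILetI false

namespace CfsgLib.SmallDim

open scoped MatrixGroups Matrix
open Cfsg.Geo

variable {F : Type*} [Field F] [Fintype F] {n q : ℕ} {σ : F ≃+* F}

namespace UnitarySetup

lemma reflexive (hu : UnitarySetup n q σ) : IsReflexive (Cfsg.hermForm n F q) :=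
  isReflexive_of_unitary hu.isUnitary

lemma fixes_of_le (hu : UnitarySetup n q σ) {H : Subgroup (GL (Fin n) F)} (hG : H ≤ Cfsg.GU n F q) :
    FixesForm (matrixSet H) (Cfsg.hermForm n F q) := by
  rintro _ ⟨g, hg, rfl⟩
  exact mem_GU.1 (hG hg)

/-- A reducible group of isometries fixes a totally singular or small non-degenerate subspace, or a pair of
orthogonal non-degenerate halves. -/
theorem reducible_split (hu : UnitarySetup n q σ) {H : Subgroup (GL (Fin n) F)}
    (hG : H ≤ Cfsg.GU n F q) (hirr : ¬ ActsIrreducibly (matrixSet H)) :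
    (∃ W : Submodule F (Fin n → F), W ≠ ⊥ ∧ W ≠ ⊤ ∧ H ≤ subspaceStabilizer W ∧
      (IsTotallySingularFor (Cfsg.hermForm n F q) W ∨
        (IsNondegenerateOn (Cfsg.hermForm n F q) W ∧ 2 * Module.finrank F W < n))) ∨
    ∃ (m : ℕ) (D : Fin 2 → Submodule F (Fin n → F)), 2 * m = n ∧
      IsNondegenerateMDecomposition (Cfsg.hermForm n F q) m D ∧ H ≤ decompositionStabilizer D := by
  classical
  obtain ⟨W, h0, h1, hle, hW | ⟨hW, hd⟩⟩ := exists_ts_or_nondegenerate hu.sesqui hu.reflexive
    hu.isUnitary.nondegenerate (hu.fixes_of_le hG) hirr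
  · exact Or.inl ⟨W, h0, h1, hle, Or.inl hW⟩
  rw [Fintype.card_fin] at hd
  rcases hd.lt_or_eq with hlt | heq
  · exact Or.inl ⟨W, h0, h1, hle, Or.inr ⟨hW, hlt⟩⟩
  right
  set U := hu.sesqui.orth W
  obtain ⟨htop, hsum⟩ := hu.sesqui.sup_orth_eq_top hW
  rw [Fintype.card_fin] at hsum
  refine ⟨Module.finrank F W, ![W, U], heq, ⟨⟨le_rfl, ?_, ?_, ?_, ?_⟩, ?_, ?_⟩, ?_⟩
  · exact Nat.pos_of_ne_zero fun h => h0 (Submodule.finrank_eq_zero.1 h)
  · intro i
    fin_cases i
    · rfl
    · show Module.finrank F (hu.sesqui.orth W) = _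
      omega
  · rw [iSupIndep_pair (by decide : (0 : Fin 2) ≠ 1) (by decide)]
    exact disjoint_iff.2 (hu.sesqui.inf_orth_eq_bot hW)
  · rw [eq_top_iff, ← htop]
    exact sup_le (le_iSup ![W, U] 0) (le_iSup ![W, U] 1)
  · intro i
    fin_cases i
    · exact hW
    · exact hu.sesqui.orth_nondegenerate hu.reflexive hu.isUnitary.nondegenerate hW
  · intro i j hij u hu' v hv
    fin_cases i <;> fin_cases j <;> simp_all only [ne_eq, not_true_eq_false]
    · exact hu.eq_zero_comm.1 (hv u hu')
    · exact hu' v hv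
  · intro g hg
    refine ⟨1, fun i => ?_⟩
    have hmap : ∀ S : Submodule F (Fin n → F), (∀ h ∈ H, ∀ v ∈ S, act h v ∈ S) →
        S.map (Matrix.toLin' (g : Matrix (Fin n) (Fin n) F)) = S := by
      intro S hS
      refine le_antisymm ?_ fun v hv => ⟨act g⁻¹ v, hS _ (H.inv_mem hg) v hv, ?_⟩
      · rintro _ ⟨v, hv, rfl⟩
        rw [Matrix.toLin'_apply]
        exact hS g hg v hv
      · rw [Matrix.toLin'_apply]; exact act_act_inv g v
    have hWinv : ∀ h ∈ H, ∀ v ∈ W, act h v ∈ W := fun h hh v hv =>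
      ((mem_subspaceStabilizer.1 (hle hh)) v).1 hv
    fin_cases i
    · exact hmap W hWinv
    · exact hmap U fun h hh v hv => hu.sesqui.orth_invariant (hu.fixes_of_le hG) hWinv h hh v hv

/-- Paired totally singular members are two totally singular halves, or coarsen to a non-degenerate
decomposition. -/
theorem paired_split (hu : UnitarySetup n q σ) {H : Subgroup (GL (Fin n) F)} (hG : H ≤ Cfsg.GU n F q)
    {t m : ℕ} {D : Fin t → Submodule F (Fin n → F)} {τ : Equiv.Perm (Fin t)} (hD : IsMDecomposition m D)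
    (hle : H ≤ decompositionStabilizer D) (hτ : ∀ i, τ i ≠ i) (hττ : ∀ i, τ (τ i) = i)
    (hts : ∀ i, IsTotallySingularFor (Cfsg.hermForm n F q) (D i))
    (horth : ∀ i j, j ≠ τ i → AreOrthogonalFor (Cfsg.hermForm n F q) (D i) (D j)) :
    (∃ D' : Fin 2 → Submodule F (Fin n → F), 2 * m = n ∧ IsMDecomposition m D' ∧
      (∀ i, IsTotallySingularFor (Cfsg.hermForm n F q) (D' i)) ∧ H ≤ decompositionStabilizer D') ∨
    ∃ (s : ℕ) (E : Fin s → Submodule F (Fin n → F)),
      IsNondegenerateMDecomposition (Cfsg.hermForm n F q) (2 * m) E ∧ H ≤ decompositionStabilizer E := by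
  classical
  let f := Cfsg.hermForm n F q
  by_cases ht2 : t = 2
  · subst ht2
    refine Or.inl ⟨D, ?_, hD, hts, hle⟩
    have h := Submodule.finrank_sup_add_finrank_inf_eq (D 0) (D 1)
    have htop : D 0 ⊔ D 1 = ⊤ := by
      rw [eq_top_iff, ← hD.iSup_eq_top]
      refine iSup_le fun i => ?_
      fin_cases i
      · exact le_sup_left
      · exact le_sup_right
    rw [htop, disjoint_iff.1 (hD.indep.pairwiseDisjoint (show (0 : Fin 2) ≠ 1 by decide)), finrank_bot,
      finrank_top, Module.finrank_fin_fun, hD.finrank_eq, hD.finrank_eq] at h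
    omega
  right
  -- a non-orthogonal pair of members is a pair for `τ`
  have hnorth : ∀ i, ¬ AreOrthogonalFor f (D i) (D (τ i)) := by
    intro i ho
    obtain ⟨v, hv, hv0⟩ := (Submodule.ne_bot_iff _).1 fun e : D i = ⊥ => by
      have h1 := hD.finrank_eq i
      rw [e, finrank_bot] at h1
      have := hD.pos; omega
    obtain ⟨y, hy⟩ := (hu.isUnitary.nondegenerate v hv0).2
    apply hy
    have hle' : iSup D ≤ LinearMap.ker (hu.sesqui.lf v) := iSup_le fun j x hx => by
      rw [LinearMap.mem_ker, IsSesqui.lf_apply, hu.eq_zero_comm]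
      rcases eq_or_ne j (τ i) with rfl | hj
      · exact ho v hv x hx
      · exact horth i j hj v hv x hx
    exact hu.eq_zero_comm.1 (hle' (hD.iSup_eq_top ▸ Submodule.mem_top))
  let reps : Finset (Fin t) := Finset.univ.filter fun i => i < τ i
  let s := reps.card
  let r : Fin s → Fin t := fun a => (reps.equivFin.symm a : Fin t)
  have hrlt : ∀ a, r a < τ (r a) := fun a => (Finset.mem_filter.1 (reps.equivFin.symm a).2).2
  have hrinj : Function.Injective r := Subtype.val_injective.comp reps.equivFin.symm.injective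
  have hrsurj : ∀ i, ∃ a, r a = i ∨ r a = τ i := by
    intro i
    rcases lt_or_gt_of_ne (hτ i) with h | h
    · exact ⟨reps.equivFin ⟨τ i, Finset.mem_filter.2 ⟨Finset.mem_univ _, by rwa [hττ]⟩⟩, Or.inr (by simp [r])⟩
    · exact ⟨reps.equivFin ⟨i, Finset.mem_filter.2 ⟨Finset.mem_univ _, h⟩⟩, Or.inl (by simp [r])⟩
  have hsep : ∀ a b, a ≠ b → r b ≠ τ (r a) := by
    intro a b hab h
    have h1 := hrlt b
    rw [h, hττ] at h1
    exact lt_asymm h1 (hrlt a)
  let E : Fin s → Submodule F (Fin n → F) := fun a => D (r a) ⊔ D (τ (r a))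
  have hdisj : ∀ a, Disjoint (D (r a)) (D (τ (r a))) := fun a =>
    hD.indep.pairwiseDisjoint (Ne.symm (hτ _))
  have hfin : ∀ a, Module.finrank F (E a) = 2 * m := by
    intro a
    have h := Submodule.finrank_sup_add_finrank_inf_eq (D (r a)) (D (τ (r a)))
    rw [disjoint_iff.1 (hdisj a), finrank_bot, add_zero, hD.finrank_eq, hD.finrank_eq] at h
    show Module.finrank F ↥(D (r a) ⊔ D (τ (r a))) = _
    omega
  have horthE : ∀ a b, a ≠ b → AreOrthogonalFor f (E a) (E b) := by
    intro a b hab
    have key : ∀ i, (i = r a ∨ i = τ (r a)) → ∀ j, (j = r b ∨ j = τ (r b)) → j ≠ τ i := by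
      rintro i (rfl | rfl) j (rfl | rfl) <;> intro h
      · exact hsep a b hab h
      · exact hab (hrinj (τ.injective h)).symm
      · rw [hττ] at h; exact hab (hrinj h).symm
      · rw [hττ] at h; exact hsep b a hab.symm h.symm
    intro u hu' v hv
    obtain ⟨u₁, hu₁, u₂, hu₂, rfl⟩ := Submodule.mem_sup.1 hu'
    obtain ⟨v₁, hv₁, v₂, hv₂, rfl⟩ := Submodule.mem_sup.1 hv
    show Cfsg.hermForm n F q _ _ = 0
    rw [hu.sesqui.add_left, hu.sesqui.add_right, hu.sesqui.add_right,
      horth _ _ (key _ (Or.inl rfl) _ (Or.inl rfl)) u₁ hu₁ v₁ hv₁,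
      horth _ _ (key _ (Or.inl rfl) _ (Or.inr rfl)) u₁ hu₁ v₂ hv₂,
      horth _ _ (key _ (Or.inr rfl) _ (Or.inl rfl)) u₂ hu₂ v₁ hv₁,
      horth _ _ (key _ (Or.inr rfl) _ (Or.inr rfl)) u₂ hu₂ v₂ hv₂]
    simp
  have htopE : iSup E = ⊤ := by
    rw [eq_top_iff, ← hD.iSup_eq_top]
    refine iSup_le fun i => ?_
    obtain ⟨a, ha | ha⟩ := hrsurj i
    · exact le_iSup_of_le a (ha ▸ le_sup_left)
    · refine le_iSup_of_le a ?_
      have : τ (r a) = i := by rw [ha, hττ]
      exact this ▸ le_sup_right
  have hndE : ∀ a, IsNondegenerateOn f (E a) := by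
    intro a w hw hw0
    have hne : ∃ x ∈ E a, f w x ≠ 0 := by
      by_contra hall
      push Not at hall
      obtain ⟨y, hy⟩ := (hu.isUnitary.nondegenerate w hw0).2
      apply hy
      have hle' : iSup E ≤ LinearMap.ker (hu.sesqui.lf w) := iSup_le fun b x hx => by
        rw [LinearMap.mem_ker, IsSesqui.lf_apply, hu.eq_zero_comm]
        rcases eq_or_ne b a with rfl | hb
        · exact hall x hx
        · exact horthE a b hb.symm w hw x hx
      exact hu.eq_zero_comm.1 (hle' (htopE ▸ Submodule.mem_top))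
    obtain ⟨x, hx, hwx⟩ := hne
    exact ⟨⟨x, hx, fun h => hwx (hu.eq_zero_comm.1 h)⟩, ⟨x, hx, hwx⟩⟩
  have ht := hD.two_le
  refine ⟨s, E, ⟨⟨?_, by have := hD.pos; omega, hfin, fun a => ?_, htopE⟩, hndE, horthE⟩, fun g hg => ?_⟩
  · -- at least two pairs
    by_contra hs
    have hsub : ∀ a b : Fin s, a = b := fun a b => Fin.ext (by have := a.2; have := b.2; omega)
    obtain ⟨a₀, -⟩ := hrsurj ⟨0, by omega⟩
    have hsub2 : (Finset.univ : Finset (Fin t)) ⊆ {r a₀, τ (r a₀)} := by
      intro i _
      obtain ⟨a, ha | ha⟩ := hrsurj i <;> rw [hsub a a₀] at ha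
      · simp [ha]
      · simp [ha, hττ]
    have h3 := Finset.card_le_card hsub2
    have h4 := (Finset.card_insert_le (r a₀) {τ (r a₀)}).trans_eq (by rw [Finset.card_singleton])
    rw [Finset.card_univ, Fintype.card_fin] at h3
    omega
  · -- independence
    rw [Submodule.disjoint_def]
    intro v hv hv'
    by_contra hv0
    obtain ⟨x, hx, hvx⟩ := (hndE a v hv hv0).2
    apply hvx
    have hle' : (⨆ (b) (_ : b ≠ a), E b) ≤ LinearMap.ker (hu.sesqui.lf x) :=
      iSup₂_le fun b hb y hy => LinearMap.mem_ker.2 (horthE b a hb y hy x hx)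
    exact hle' hv'
  · obtain ⟨π, hπ⟩ := hle hg
    have hmv : ∀ i, ∀ x ∈ D i, act g x ∈ D (π i) := fun i x hx => by
      rw [← hπ i]; exact ⟨x, hx, Matrix.toLin'_apply _ _⟩
    have hπτ : ∀ i, π (τ i) = τ (π i) := by
      intro i
      by_contra hne
      refine hnorth i fun u hu' v hv => ?_
      show Cfsg.hermForm n F q u v = 0
      rw [← mem_GU.1 (hG hg) u v]
      exact horth _ _ hne _ (hmv _ u hu') _ (hmv _ v hv)
    have hex : ∀ a, ∃ b, (D (π (r a)) ⊔ D (π (τ (r a)))) = E b := by
      intro a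
      rw [hπτ]
      obtain ⟨b, hb | hb⟩ := hrsurj (π (r a))
      · exact ⟨b, by show _ = D (r b) ⊔ D (τ (r b)); rw [hb]⟩
      · exact ⟨b, by show _ = D (r b) ⊔ D (τ (r b)); rw [hb, hττ, sup_comm]⟩
    choose φ hφ using hex
    have hmapE : ∀ a, (E a).map (Matrix.toLin' (g : Matrix (Fin n) (Fin n) F)) = E (φ a) := fun a => by
      show (D _ ⊔ D _).map _ = _
      rw [Submodule.map_sup, hπ, hπ, hφ]
    have hφinj : Function.Injective φ := by
      intro a b hab
      by_contra hne
      have hEE : E a = E b := Submodule.map_injective_of_injective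
        (f := Matrix.toLin' (g : Matrix (Fin n) (Fin n) F))
        (fun x y h => act_injective g (by simpa [Matrix.toLin'_apply] using h))
        ((hmapE a).trans ((congrArg E hab).trans (hmapE b).symm))
      obtain ⟨v, hv, hv0⟩ := (Submodule.ne_bot_iff _).1 fun e : E a = ⊥ => by
        have h1 := hfin a
        rw [e, finrank_bot] at h1
        have := hD.pos; omega
      obtain ⟨x, hx, hvx⟩ := (hndE a v hv hv0).2
      exact hvx (horthE a b hne v hv x (hEE ▸ hx))
    exact ⟨Equiv.ofBijective φ (Finite.injective_iff_bijective.1 hφinj), hmapE⟩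

/-- A quadratic extension of a field with `q ^ 2` elements has no involution extending `x ↦ x ^ q`. -/
lemma quadratic_no_involution (hu : UnitarySetup n q σ) {K : Type*} [Field K] [Algebra F K] [Finite K]
    (hdim : Module.finrank F K = 2) (α : K → K) (hadd : ∀ a b, α (a + b) = α a + α b)
    (hmul : ∀ a b, α (a * b) = α a * α b) (hαα : ∀ a, α (α a) = a)
    (hαc : ∀ c : F, α (algebraMap F K c) = algebraMap F K (σ c)) : False := by
  have hα1 : α 1 = 1 := by
    have h := hαc 1
    rwa [map_one, map_one, map_one] at h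
  obtain ⟨p, hchar⟩ := CharP.exists F
  obtain ⟨e, hp, hq⟩ := FiniteField.card F p
  haveI := Fact.mk hp
  obtain ⟨k, -, hk⟩ := (Nat.dvd_prime_pow hp).mp (show q ∣ p ^ (e : ℕ) from ⟨q, by rw [← hq, hu.card, sq]⟩)
  haveI : CharP K p := charP_of_injective_algebraMap (algebraMap F K).injective p
  haveI : ExpChar K p := ExpChar.prime hp
  have hαpow : ∀ (a : K) (m : ℕ), α (a ^ m) = α a ^ m := fun a m => by
    induction m with
    | zero => simpa using hα1
    | succ m ih => rw [pow_succ, hmul, ih, pow_succ]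
  have hsubq : ∀ a b : K, (a - b) ^ q = a ^ q - b ^ q := fun a b => by
    rw [hk]; exact sub_pow_expChar_pow a b k
  have haddq : ∀ a b : K, (a + b) ^ q = a ^ q + b ^ q := fun a b => by
    rw [hk]; exact add_pow_expChar_pow a b p k
  obtain ⟨x, hx⟩ : ∃ x : K, ∀ c : F, algebraMap F K c ≠ x := by
    by_contra hall
    push Not at hall
    let L := Algebra.linearMap F K
    have h1 := LinearMap.finrank_range_le L
    rw [LinearMap.range_eq_top.mpr (show Function.Surjective L from hall), finrank_top, Module.finrank_self] at h1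
    have h2 : Module.finrank F K = 2 := hdim
    omega
  obtain ⟨s, d, hsd⟩ : ∃ s d : F, x * x = algebraMap F K s * x + algebraMap F K d := by
    have hli : LinearIndependent F ![x, 1] := by
      rw [linearIndependent_fin2]
      refine ⟨by simp, fun c hc => hx c ?_⟩
      rw [Algebra.algebraMap_eq_smul_one]
      simpa using hc
    have hspan := hli.span_eq_top_of_card_eq_finrank
      (by rw [Fintype.card_fin]; exact hdim.symm)
    have hmem : x * x ∈ Submodule.span F (Set.range ![x, 1]) := hspan ▸ Submodule.mem_top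
    rw [Matrix.range_cons, Matrix.range_cons, Matrix.range_empty, Set.union_empty, Set.singleton_union,
      Submodule.mem_span_pair] at hmem
    obtain ⟨s, d, h⟩ := hmem
    exact ⟨s, d, by rw [← h, ← Algebra.smul_def, Algebra.algebraMap_eq_smul_one]⟩
  -- the adjoint of `x` and `x ^ q` are roots of one quadratic
  have h1 : α x * α x = algebraMap F K (σ s) * α x + algebraMap F K (σ d) := by
    rw [← hmul, hsd, hadd, hmul, hαc, hαc]
  have h2 : x ^ q * x ^ q = algebraMap F K (σ s) * x ^ q + algebraMap F K (σ d) := by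
    rw [← mul_pow, hsd, haddq, mul_pow, hu.pow, hu.pow, map_pow, map_pow]
  have hfac : (α x - x ^ q) * (α x + x ^ q - algebraMap F K (σ s)) = 0 := by linear_combination h1 - h2
  have hQ : x ^ (q * q) = x := by
    rcases mul_eq_zero.1 hfac with h | h
    · have h3 := congrArg α (sub_eq_zero.1 h)
      rw [hαα, hαpow, sub_eq_zero.1 h, ← pow_mul] at h3
      exact h3.symm
    · have h3 : α x = algebraMap F K (σ s) - x ^ q := by linear_combination h
      have h4 := congrArg α (show α x + x ^ q = algebraMap F K (σ s) by linear_combination h)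
      rw [hadd, hαα, hαpow, hαc, hu.invol, h3, hsubq, ← pow_mul, ← map_pow, ← hu.pow, hu.invol] at h4
      linear_combination -h4
  classical
  have hne : (Polynomial.X ^ (q * q) - Polynomial.X : Polynomial K) ≠ 0 :=
    FiniteField.X_pow_card_sub_X_ne_zero K (by have := hu.two_le; nlinarith)
  have hroot : ∀ c, c ∈ insert x (Finset.univ.image (algebraMap F K)) →
      (Polynomial.X ^ (q * q) - Polynomial.X : Polynomial K).IsRoot c := by
    intro c hc
    simp only [Polynomial.IsRoot, Polynomial.eval_sub, Polynomial.eval_pow, Polynomial.eval_X, sub_eq_zero]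
    rcases Finset.mem_insert.1 hc with rfl | hc
    · exact hQ
    · obtain ⟨c, -, rfl⟩ := Finset.mem_image.1 hc
      rw [← map_pow, ← sq, ← hu.card, FiniteField.pow_card]
  have hle := Polynomial.card_le_degree_of_subset_roots (fun c hc =>
    (Polynomial.mem_roots hne).2 (hroot c (Finset.mem_def.2 hc)))
  rw [FiniteField.X_pow_card_sub_X_natDegree_eq K (by have := hu.two_le; nlinarith),
    Finset.card_insert_of_notMem (by simp; exact hx), Finset.card_image_of_injective _ (algebraMap F K).injective,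
    Finset.card_univ, hu.card, sq] at hle
  omega

set_option synthInstance.maxHeartbeats 200000 in
set_option maxHeartbeats 800000 in
/-- An adjoint-closed field of matrices of prime degree has odd degree dividing the dimension. -/
theorem field_degree (hu : UnitarySetup n q σ) (hn : 0 < n) {r : ℕ} (hr : r.Prime)
    {K : Subalgebra F (Matrix (Fin n) (Fin n) F)} (hK : IsFieldSubalgebra r K)
    (hadj : IsAdjointClosedFor (Cfsg.hermForm n F q) K) : Odd r ∧ r ∣ n := by
  classical
  have : Nonempty (Fin n) := ⟨⟨0, hn⟩⟩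
  have hfield : IsField K :=
    { exists_pair_ne := ⟨0, 1, zero_ne_one⟩
      mul_comm := fun x y => Subtype.ext (hK.comm x x.2 y y.2)
      mul_inv_cancel := fun {x} hx => by
        obtain ⟨y, hy, hxy⟩ := hK.inv x x.2 (fun h => hx (Subtype.ext h))
        exact ⟨⟨y, hy⟩, Subtype.ext hxy⟩ }
  choose! A hA hA' using hadj
  let α : K → K := fun k => ⟨A k, hA k k.2⟩
  have hAadd : ∀ a ∈ K, ∀ b ∈ K, A (a + b) = A a + A b := fun a ha b hb =>
    eq_of_adjoint hu.sesqui hu.isUnitary.nondegenerate fun u v => by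
      rw [← hA' _ (K.add_mem ha hb), Matrix.add_mulVec, hu.sesqui.add_left, Matrix.add_mulVec,
        hu.sesqui.add_right, ← hA' _ ha, ← hA' _ hb]
  have hAmul : ∀ a ∈ K, ∀ b ∈ K, A (a * b) = A a * A b := fun a ha b hb =>
    eq_of_adjoint hu.sesqui hu.isUnitary.nondegenerate fun u v => by
      rw [← hA' _ (K.mul_mem ha hb), hK.comm _ (hA _ ha) _ (hA _ hb), ← Matrix.mulVec_mulVec,
        ← Matrix.mulVec_mulVec, ← hA' _ hb, ← hA' _ ha]
  have hAA : ∀ a ∈ K, A (A a) = a := fun a ha =>
    eq_of_adjoint hu.sesqui hu.isUnitary.nondegenerate fun u v => by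
      rw [← hA' _ (hA _ ha), hu.herm, ← hA' _ ha, ← hu.herm]
  have hAc : ∀ c : F, A (algebraMap F (Matrix (Fin n) (Fin n) F) c) = algebraMap F _ (σ c) := fun c =>
    eq_of_adjoint hu.sesqui hu.isUnitary.nondegenerate fun u v => by
      rw [← hA' _ (K.algebraMap_mem c)]
      simp [Algebra.algebraMap_eq_smul_one, Matrix.smul_mulVec, hu.sesqui.smul_left, hu.sesqui.smul_right,
        hu.invol]
  have hadd : ∀ a b : K, α (a + b) = α a + α b := fun a b => Subtype.ext (hAadd a.1 a.2 b.1 b.2)
  have hmul : ∀ a b : K, α (a * b) = α a * α b := fun a b => Subtype.ext (hAmul a.1 a.2 b.1 b.2)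
  have hαα : ∀ a : K, α (α a) = a := fun a => Subtype.ext (hAA a.1 a.2)
  have hαc : ∀ c : F, α (algebraMap F K c) = algebraMap F K (σ c) := fun c => Subtype.ext (hAc c)
  letI : Module K (Fin n → F) :=
    Module.compHom (Fin n → F) ((Matrix.toLinAlgEquiv' (R := F) (n := Fin n)).toAlgHom.comp K.val).toRingHom
  have hT : IsScalarTower F K (Fin n → F) := ⟨fun c x v => by
    show Matrix.toLinAlgEquiv' ((c • x : K) : Matrix (Fin n) (Fin n) F) v = c • Matrix.toLinAlgEquiv' (x : Matrix (Fin n) (Fin n) F) v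
    simp [map_smul]⟩
  letI : Field K := hfield.toField
  have : Finite K := Subtype.finite
  refine ⟨hr.odd_of_ne_two fun hr2 => ?_, ?_⟩
  · subst hr2
    exact quadratic_no_involution hu hK.finrank_eq α hadd hmul hαα hαc
  · haveI : Module.Free K (Fin n → F) := Module.Free.of_divisionRing K (Fin n → F)
    have h := @Module.finrank_mul_finrank F K (Fin n → F) _ _ _ _ _ _ hT
    rw [Module.finrank_fin_fun, show Module.finrank F K = r from hK.finrank_eq] at h
    exact ⟨_, h.symm⟩

end UnitarySetup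

end CfsgLib.SmallDim
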