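import Cfsg.Agent.Lib.SmallDim.UnitaryPrime
import Cfsg.Agent.Lib.SmallDim.UnitaryTensor
import Cfsg.Agent.Lib.SmallDim.UnitarySubfield

/-!
Coded three by three matrices over the field with `p ^ 2` elements (`p` is 3 or 5, generated by a square root
of two), and subgroups given by a finite set of lines they permute.
-/

set_option autoImplicit false
set_option linter.style.haveILetI false
set_option linter.unusedSectionVars false

namespace CfsgLib.SmallDim.UThree

open scoped MatrixGroups Matrix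
open Cfsg.Geo

variable {p : ℕ}

/-- Elements of the coded field: `x.1 + x.2 * √2`. -/
abbrev Q2 (p : ℕ) : Type := ZMod p × ZMod p

/-- Product. -/
def qm (x y : Q2 p) : Q2 p := (x.1 * y.1 + 2 * (x.2 * y.2), x.1 * y.2 + x.2 * y.1)
/-- Conjugation. -/
def qc (x : Q2 p) : Q2 p := (x.1, -x.2)
/-- Zero. -/
def q0 : Q2 p := (0, 0)
/-- One. -/
def q1 : Q2 p := (1, 0)

/-- Coded vectors. -/
abbrev V3 (p : ℕ) : Type := Fin 3 → Q2 p
/-- Coded matrices. -/
abbrev M3 (p : ℕ) : Type := Fin 3 → Fin 3 → Q2 p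

/-- Matrix times vector. -/
def mv (X : M3 p) (v : V3 p) : V3 p := fun i => qm (X i 0) (v 0) + qm (X i 1) (v 1) + qm (X i 2) (v 2)
/-- Scalar multiple. -/
def sv (c : Q2 p) (v : V3 p) : V3 p := fun i => qm c (v i)
/-- Gram matrix of the columns. -/
def gram (X : M3 p) : M3 p := fun i j => qm (X 0 i) (qc (X 0 j)) + qm (X 1 i) (qc (X 1 j)) + qm (X 2 i) (qc (X 2 j))
/-- The identity. -/
def idm : M3 p := fun i j => if i = j then q1 else q0
/-- The unit vectors. -/
def unit3 (i : Fin 3) : V3 p := fun j => if j = i then q1 else q0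
/-- The determinant. -/
def det3 (X : M3 p) : Q2 p :=
  qm (X 0 0) (qm (X 1 1) (X 2 2)) - qm (X 0 0) (qm (X 1 2) (X 2 1)) - qm (X 0 1) (qm (X 1 0) (X 2 2))
    + qm (X 0 1) (qm (X 1 2) (X 2 0)) + qm (X 0 2) (qm (X 1 0) (X 2 1)) - qm (X 0 2) (qm (X 1 1) (X 2 0))

variable [Fact p.Prime] {F : Type*} [Field F] [Fintype F] [CharP F p]

/-- Decoding of elements. -/
def decQ (s : F) (x : Q2 p) : F := ZMod.castHom (dvd_refl p) F x.1 + ZMod.castHom (dvd_refl p) F x.2 * s

/-- Decoding of vectors. -/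
def decV (s : F) (v : V3 p) : Fin 3 → F := fun i => decQ s (v i)

/-- Decoding of matrices. -/
def decM (s : F) (X : M3 p) : Matrix (Fin 3) (Fin 3) F := Matrix.of fun i j => decQ s (X i j)

variable {s : F}

lemma decQ_zero : decQ s (q0 : Q2 p) = 0 := by simp [decQ, q0]
lemma decQ_one : decQ s (q1 : Q2 p) = 1 := by simp [decQ, q1]
lemma decQ_add (x y : Q2 p) : decQ s (x + y) = decQ s x + decQ s y := by simp [decQ]; ring
lemma decQ_sub (x y : Q2 p) : decQ s (x - y) = decQ s x - decQ s y := by simp [decQ]; ring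

lemma decQ_mul (hs : s ^ 2 = 2) (x y : Q2 p) : decQ s (qm x y) = decQ s x * decQ s y := by
  simp only [decQ, qm, map_add, map_mul, map_ofNat]
  linear_combination -((ZMod.castHom (dvd_refl p) F x.2) * (ZMod.castHom (dvd_refl p) F y.2)) * hs

lemma decV_unit (i : Fin 3) : decV s (unit3 i : V3 p) = Pi.single i 1 := by
  funext j
  simp only [decV, unit3]
  by_cases h : j = i
  · subst h; simp [decQ_one]
  · simp [h, decQ_zero]

lemma decM_mulVec (hs : s ^ 2 = 2) (X : M3 p) (v : V3 p) : decM s X *ᵥ decV s v = decV s (mv X v) := by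
  funext i
  simp [Matrix.mulVec, dotProduct, Fin.sum_univ_three, decV, decM, mv, decQ_add, decQ_mul hs]

lemma decV_sv (hs : s ^ 2 = 2) (c : Q2 p) (v : V3 p) : decV s (sv c v) = decQ s c • decV s v := by
  funext i; simp [decV, sv, decQ_mul hs]

lemma decM_det (hs : s ^ 2 = 2) (X : M3 p) : (decM s X).det = decQ s (det3 X) := by
  rw [Matrix.det_fin_three]
  simp only [det3, decQ_add, decQ_sub, decQ_mul hs, decM, Matrix.of_apply]
  ring

lemma decQ_injective (hs : s ^ 2 = 2) (h2 : ∀ a : ZMod p, a ^ 2 ≠ 2) : Function.Injective (decQ (p := p) s) := by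
  intro x y h
  set c := ZMod.castHom (dvd_refl p) F
  have hc : Function.Injective c := RingHom.injective _
  have h' : c (x.1 - y.1) = c (y.2 - x.2) * s := by
    simp only [decQ] at h
    rw [map_sub, map_sub]; linear_combination h
  by_cases hb : y.2 - x.2 = 0
  · rw [hb, map_zero, zero_mul, ← map_zero c] at h'
    exact Prod.ext (sub_eq_zero.mp (hc h')) (sub_eq_zero.mp hb).symm
  · exfalso
    refine h2 ((x.1 - y.1) / (y.2 - x.2)) (hc ?_)
    have hb' : c (y.2 - x.2) ≠ 0 := fun e => hb (hc (by rw [e, map_zero]))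
    rw [map_pow, map_div₀, h', mul_div_cancel_left₀ _ hb', hs, map_ofNat]

lemma exists_sqrt_two (hF : Fintype.card F = p ^ 2) (hp : p ≠ 2) (h2 : (2 : ZMod p) ^ ((p ^ 2 - 1) / 2) = 1) :
    ∃ s : F, s ^ 2 = 2 := by
  have hne : (2 : F) ≠ 0 := fun h => by
    have h' : ((2 : ℕ) : F) = 0 := by simpa using h
    rw [CharP.cast_eq_zero_iff F p] at h'
    exact hp ((Nat.prime_dvd_prime_iff_eq (Fact.out : p.Prime) Nat.prime_two).mp h')
  have hodd : Fintype.card F / 2 = (p ^ 2 - 1) / 2 := by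
    rw [hF]
    obtain ⟨k, hk⟩ := ((Fact.out : p.Prime).odd_of_ne_two hp).pow (n := 2)
    omega
  have hF2 : ringChar F ≠ 2 := by rw [ringChar.eq F p]; exact hp
  obtain ⟨s, hs⟩ := (FiniteField.isSquare_iff hF2 hne).mpr (by
    have h := congrArg (ZMod.castHom (dvd_refl p) F) h2
    rwa [map_pow, map_ofNat, map_one, ← hodd] at h)
  exact ⟨s, by rw [pow_two, ← hs]⟩

lemma decQ_conj (hs : s ^ 2 = 2) {σ : F ≃+* F} (hu : UnitarySetup 3 p σ) (hp : p ≠ 2)
    (h2 : (2 : ZMod p) ^ ((p - 1) / 2) = -1) (x : Q2 p) : σ (decQ s x) = decQ s (qc x) := by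
  set c := ZMod.castHom (dvd_refl p) F
  have hfix : ∀ a : ZMod p, σ (c a) = c a := fun a => by rw [hu.pow, ← map_pow, ZMod.pow_card]
  have hσs : σ s = -s := by
    obtain ⟨k, hk⟩ := (Fact.out : p.Prime).odd_of_ne_two hp
    rw [hu.pow, show p = 2 * ((p - 1) / 2) + 1 by omega, pow_succ, pow_mul, hs,
      show (2 : F) = c 2 from (map_ofNat c 2).symm, ← map_pow, h2, map_neg, map_one, neg_one_mul]
  show σ (c x.1 + c x.2 * s) = c x.1 + c (-x.2) * s
  rw [map_add, map_mul, hfix, hfix, hσs, map_neg]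
  ring

/-- The subgroup permuting the lines through a family of vectors. -/
def lineStab {N : ℕ} (v : Fin N → Fin 3 → F) : Subgroup (GL (Fin 3) F) where
  carrier := {g | (∀ k, ∃ l, ∃ c : F, act g (v k) = c • v l) ∧ ∀ k, ∃ l, ∃ c : F, act g⁻¹ (v k) = c • v l}
  mul_mem' {a b} ha hb := by
    refine ⟨fun k => ?_, fun k => ?_⟩
    · obtain ⟨l, c, hl⟩ := hb.1 k
      obtain ⟨l', c', hl'⟩ := ha.1 l
      exact ⟨l', c * c', by rw [act_mul, hl, act_smul, hl', smul_smul]⟩
    · obtain ⟨l, c, hl⟩ := ha.2 k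
      obtain ⟨l', c', hl'⟩ := hb.2 l
      exact ⟨l', c * c', by rw [mul_inv_rev, act_mul, hl, act_smul, hl', smul_smul]⟩
  one_mem' := ⟨fun k => ⟨k, 1, by simp [act_one]⟩, fun k => ⟨k, 1, by simp [act_one]⟩⟩
  inv_mem' {a} ha := ⟨ha.2, by rw [inv_inv]; exact ha.1⟩

lemma scalar_mem_lineStab {N : ℕ} (v : Fin N → Fin 3 → F) {g : GL (Fin 3) F} {c : F}
    (hg : (g : Matrix (Fin 3) (Fin 3) F) = c • 1) : g ∈ lineStab v := by
  have hact : ∀ w : Fin 3 → F, act g w = c • w := fun w => act_scalar hg w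
  refine ⟨fun k => ⟨k, c, hact _⟩, fun k => ⟨k, c⁻¹, ?_⟩⟩
  have hc : c ≠ 0 := fun h => by
    have := congrArg Matrix.det hg
    rw [h, zero_smul, Matrix.det_zero] at this
    exact ((Matrix.isUnit_iff_isUnit_det _).mp g.isUnit).ne_zero this
  apply act_injective g
  rw [act_act_inv, act_smul, hact, smul_smul, inv_mul_cancel₀ hc, one_smul]

/-- The certificate for a coded generator: unitary, of finite order, permuting the lines. -/
structure Cert {N : ℕ} (S : Fin N → V3 p) (X : M3 p) (n : ℕ) : Prop where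
  unitary : ∀ i j, gram X i j = idm i j
  order : ∀ i j, ((mv X)^[n + 1] (unit3 i)) j = unit3 i j
  perm : ∃ (t : Fin N → Fin N) (c : Fin N → Q2 p), ∀ k j, mv X (S k) j = sv (c k) (S (t k)) j

theorem exists_unitary_gl {X : M3 p} (hX : ∀ i j, gram X i j = idm i j) (hs : s ^ 2 = 2)
    {σ : F ≃+* F} (hu : UnitarySetup 3 p σ) (hp : p ≠ 2) (h2 : (2 : ZMod p) ^ ((p - 1) / 2) = -1) :
    ∃ g : GL (Fin 3) F, (g : Matrix (Fin 3) (Fin 3) F) = decM s X ∧ g ∈ Cfsg.GU 3 F p ∧
      (det3 X = q1 → g ∈ specialLinear (Fin 3) F) := by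
  have hgram : (decM s X)ᵀ * (decM s X).map σ = 1 := by
    ext i j
    rw [Matrix.mul_apply, Fin.sum_univ_three]
    simp only [Matrix.transpose_apply, Matrix.map_apply, decM, Matrix.of_apply, decQ_conj hs hu hp h2,
      ← decQ_mul hs, ← decQ_add]
    rw [show qm (X 0 i) (qc (X 0 j)) + qm (X 1 i) (qc (X 1 j)) + qm (X 2 i) (qc (X 2 j)) = idm i j from
      hX i j, Matrix.one_apply]
    simp only [idm]
    split_ifs <;> simp [decQ_one, decQ_zero]
  refine ⟨Matrix.GeneralLinearGroup.mkOfDetNeZero (decM s X) (fun e => by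
    have := congrArg Matrix.det hgram
    rw [Matrix.det_mul, Matrix.det_transpose, e, zero_mul, Matrix.det_one] at this
    exact zero_ne_one this), rfl, hu.mem_GU_iff.2 hgram, fun hd => ?_⟩
  refine Units.ext ?_
  rw [Matrix.GeneralLinearGroup.val_det_apply, Units.val_one,
    show (Matrix.GeneralLinearGroup.mkOfDetNeZero (decM s X) _ : Matrix (Fin 3) (Fin 3) F) = decM s X from rfl,
    decM_det hs, hd, decQ_one]

/-- A matrix moving one of the lines out of the family is outside the stabiliser. -/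
theorem not_mem_lineStab (hs : s ^ 2 = 2) (h2 : ∀ a : ZMod p, a ^ 2 ≠ 2) (hF : Fintype.card F = p ^ 2) {N : ℕ}
    {S : Fin N → V3 p} {g : GL (Fin 3) F} {X : M3 p} (hg : (g : Matrix (Fin 3) (Fin 3) F) = decM s X) {k₀ : Fin N}
    (hbad : ∀ k : Fin N, ∀ a b : ZMod p, mv X (S k₀) ≠ sv (a, b) (S k)) :
    g ∉ lineStab (fun k => decV s (S k)) := by
  intro hmem
  obtain ⟨l, c, hl⟩ := hmem.1 k₀
  obtain ⟨⟨a, b⟩, rfl⟩ : ∃ x : Q2 p, decQ s x = c :=
    ((Fintype.bijective_iff_injective_and_card _).mpr ⟨decQ_injective hs h2, by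
      rw [Fintype.card_prod, ZMod.card, hF, pow_two]⟩).2 c
  rw [act, hg, decM_mulVec hs, ← decV_sv hs] at hl
  exact hbad l a b (funext fun i => decQ_injective hs h2 (congrFun hl i))

theorem Cert.exists_gl {N : ℕ} {S : Fin N → V3 p} {X : M3 p} {n : ℕ} (h : Cert S X n) (hs : s ^ 2 = 2)
    {σ : F ≃+* F} (hu : UnitarySetup 3 p σ) (hp : p ≠ 2) (h2 : (2 : ZMod p) ^ ((p - 1) / 2) = -1) :
    ∃ g : GL (Fin 3) F, (g : Matrix (Fin 3) (Fin 3) F) = decM s X ∧ g ∈ Cfsg.GU 3 F p ∧
      g ∈ lineStab (fun k => decV s (S k)) ∧ g ^ (n + 1) = 1 ∧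
      (det3 X = q1 → g ∈ specialLinear (Fin 3) F) := by
  obtain ⟨g, hval, hgU, hdet⟩ := exists_unitary_gl h.unitary hs hu hp h2
  have hact : ∀ v, act g (decV s v) = decV s (mv X v) := fun v => by rw [act, hval, decM_mulVec hs]
  have hpow : ∀ (m : ℕ) v, act (g ^ m) (decV s v) = decV s ((mv X)^[m] v) := by
    intro m
    induction m with
    | zero => intro v; simp [act_one]
    | succ m ih => intro v; rw [pow_succ', act_mul, ih, hact, Function.iterate_succ_apply']
  have hn : g ^ (n + 1) = 1 := by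
    refine Units.ext (Matrix.ext_of_mulVec_single fun i => ?_)
    show act (g ^ (n + 1)) (Pi.single i 1) = act 1 (Pi.single i 1)
    rw [← decV_unit (p := p), hpow, act_one]
    exact congrArg _ (funext (h.order i))
  obtain ⟨t, c, hperm⟩ := h.perm
  have hfwd : ∀ m k, ∃ l, ∃ d : F, act (g ^ m) (decV s (S k)) = d • decV s (S l) := by
    intro m
    induction m with
    | zero => exact fun k => ⟨k, 1, by simp [act_one]⟩
    | succ m ih =>
      intro k
      obtain ⟨l, d, hl⟩ := ih k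
      exact ⟨t l, d * decQ s (c l), by
        rw [pow_succ', act_mul, hl, act_smul, hact, show mv X (S l) = _ from funext (hperm l), decV_sv hs, smul_smul]⟩
  refine ⟨g, hval, hgU, ⟨?_, fun k => ?_⟩, hn, hdet⟩
  · simpa using hfwd 1
  · rw [show g⁻¹ = g ^ n from inv_eq_of_mul_eq_one_right (by rw [← pow_succ']; exact hn)]
    exact hfwd n k

/-- A maximal subgroup is not properly contained in a proper subgroup. -/
theorem false_of_overgroup {q : ℕ} {H M : Subgroup (GL (Fin 3) F)}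
    (hH : IsMaximalIn (Cfsg.GU 3 F q ⊓ specialLinear (Fin 3) F) H) {c g d : GL (Fin 3) F}
    (hc : c ∈ Cfsg.GU 3 F q) (hle : ∀ h ∈ H, c * h * c⁻¹ ∈ M)
    (hgM : g ∈ M) (hg : g ∈ Cfsg.GU 3 F q ⊓ specialLinear (Fin 3) F) (hgH : c⁻¹ * g * c ∉ H)
    (hd : d ∈ Cfsg.GU 3 F q ⊓ specialLinear (Fin 3) F) (hdM : d ∉ M) : False := by
  set G := Cfsg.GU 3 F q ⊓ specialLinear (Fin 3) F
  have hGc : ∀ h ∈ G, c⁻¹ * h * c ∈ G := fun h hh => by
    refine ⟨Subgroup.mul_mem _ (Subgroup.mul_mem _ (Subgroup.inv_mem _ hc) hh.1) hc, ?_⟩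
    show Matrix.GeneralLinearGroup.det _ = 1
    rw [map_mul, map_mul, map_inv, show Matrix.GeneralLinearGroup.det h = 1 from hh.2]
    simp
  rcases hH.2 (M.comap (MulAut.conj c).toMonoidHom ⊓ G) (fun h hh => ⟨hle h hh, hH.1.le hh⟩) inf_le_right
    with hM | hM
  · exact hgH (hM ▸ ⟨show c * (c⁻¹ * g * c) * c⁻¹ ∈ M by simpa [mul_assoc] using hgM, hGc g hg⟩)
  · have h := (hM.ge (hGc d hd)).1
    exact hdM (by simpa [mul_assoc] using h)

end CfsgLib.SmallDim.UThree
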