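import Cfsg.Agent.Lib.SmallDim.UnitaryThreeCode
import Cfsg.Agent.Lib.SmallDim.FormClifford
import Cfsg.Agent.Lib.ClassicalForms.Unitary.Card

/-!
For `q ∈ {3, 5}` the normaliser of a cubic field in `SU(3,q)` lies in a larger proper subgroup, as soon as
one model of such an overgroup is given.
-/

set_option autoImplicit false
set_option linter.style.haveILetI false
set_option linter.unusedSectionVars false

namespace CfsgLib.SmallDim.UThree

open scoped MatrixGroups Matrix
open Cfsg.Geo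

variable {F : Type*} [Field F] [Fintype F] {q : ℕ}

/-- A model of an overgroup: an element `a` of order seven with an element `b` acting as multiplication by four. -/
structure SevenModel (q : ℕ) (M : Subgroup (GL (Fin 3) F)) (a b : GL (Fin 3) F) : Prop where
  mem_a : a ∈ Cfsg.GU 3 F q ⊓ specialLinear (Fin 3) F
  mem_b : b ∈ Cfsg.GU 3 F q ⊓ specialLinear (Fin 3) F
  a_M : a ∈ M
  b_M : b ∈ M
  order : orderOf a = 7
  semi : b * a = a ^ 4 * b
  trace : ∀ m : Fin 7, Matrix.trace ((a ^ (m : ℕ) : GL (Fin 3) F) : Matrix (Fin 3) (Fin 3) F) =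
    Matrix.trace (a : Matrix (Fin 3) (Fin 3) F) → ∃ j, (m : ℕ) = 4 ^ j % 7
  scalar : ∀ (g : GL (Fin 3) F) (c : F), (g : Matrix (Fin 3) (Fin 3) F) = c • 1 → g ∈ M

/-- A subfield of a field with `q ^ 6` elements containing an element of order seven is everything. -/
lemma subfield_eq_top_of_seven (hq : q = 3 ∨ q = 5) {K : Type*} [Field K] [Finite K] (hK : Nat.card K = q ^ 6)
    (L : Subfield K) {x : K} (hx : x ∈ L) (h7 : orderOf x = 7) : L = ⊤ := by
  haveI : Fintype L := Fintype.ofFinite L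
  have hp : q.Prime := by rcases hq with rfl | rfl <;> norm_num
  have hdvd : Nat.card L ∣ q ^ 6 := hK ▸ AddSubgroup.card_addSubgroup_dvd_card L.toAddSubgroup
  obtain ⟨k, hk, hcard⟩ := (Nat.dvd_prime_pow hp).mp hdvd
  have hx0 : (⟨x, hx⟩ : L) ≠ 0 := fun h => by
    rw [show x = 0 from congrArg Subtype.val h] at h7
    simp at h7
  have h1 := FiniteField.pow_card_sub_one_eq_one (⟨x, hx⟩ : L) hx0
  rw [← Nat.card_eq_fintype_card, hcard] at h1
  have hd : 7 ∣ q ^ k - 1 := h7 ▸ orderOf_dvd_of_pow_eq_one (congrArg Subtype.val h1)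
  have hk6 : k = 6 := by
    have h0 : k ≠ 0 := fun h => by
      have : Nat.card L = 1 := by rw [hcard, h]; rfl
      exact absurd (Finite.one_lt_card (α := L)) (by omega)
    rcases hq with rfl | rfl <;> interval_cases k <;> first | rfl | exact absurd rfl h0 | norm_num at hd
  subst hk6
  exact SetLike.coe_injective ((Set.eq_of_subset_of_ncard_le (Set.subset_univ _) (by
    rw [Set.ncard_univ, hK, ← hcard, ← Nat.card_coe_set_eq]
    rfl)).trans Subfield.coe_top.symm)

/-- Elements of order seven of `GU(3,q)` generate conjugate subgroups. -/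
theorem exists_conj_seven (hq : q = 3 ∨ q = 5) (hF : Fintype.card F = q ^ 2) {x a : GL (Fin 3) F}
    (hx : x ∈ Cfsg.GU 3 F q) (ha : a ∈ Cfsg.GU 3 F q) (hxo : orderOf x = 7) (hao : orderOf a = 7) :
    ∃ c ∈ Cfsg.GU 3 F q, ∃ m : ℕ, c * x ^ m * c⁻¹ = a := by
  haveI : Fact (Nat.Prime 7) := ⟨by norm_num⟩
  have hfac : (Nat.card (Cfsg.GU 3 F q)).factorization 7 = 1 := by
    rw [CfsgLib.ClassicalForms.card_gu (q := q) (by rw [Nat.card_eq_fintype_card, hF]) 3]
    obtain ⟨N, hN, hN7⟩ : ∃ N, q ^ (3 * (3 - 1) / 2) *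
        ∏ i ∈ Finset.range 3, (if Even i then q ^ (i + 1) + 1 else q ^ (i + 1) - 1) = N * 7 ∧ ¬ 7 ∣ N := by
      rcases hq with rfl | rfl
      · exact ⟨3456, by simp [Finset.prod_range_succ, Nat.even_iff], by norm_num⟩
      · exact ⟨324000, by simp [Finset.prod_range_succ, Nat.even_iff], by norm_num⟩
    rw [hN, Nat.factorization_mul (by omega) (by norm_num), Finsupp.add_apply,
      Nat.factorization_eq_zero_of_not_dvd hN7, zero_add, (show Nat.Prime 7 by norm_num).factorization_self]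
  have hsyl : ∀ y : Cfsg.GU 3 F q, orderOf y = 7 →
      ∃ P : Sylow 7 (Cfsg.GU 3 F q), (P : Subgroup _) = Subgroup.zpowers y := by
    intro y hy
    have hp : IsPGroup 7 (Subgroup.zpowers y) := IsPGroup.of_card (n := 1) (by rw [Nat.card_zpowers, hy, pow_one])
    obtain ⟨P, hP⟩ := hp.exists_le_sylow
    refine ⟨P, (Subgroup.eq_of_le_of_card_ge hP ?_).symm⟩
    rw [Nat.card_zpowers, hy, P.card_eq_multiplicity, hfac, pow_one]
  obtain ⟨P, hP⟩ := hsyl ⟨x, hx⟩ (by rwa [Subgroup.orderOf_mk])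
  obtain ⟨R, hR⟩ := hsyl ⟨a, ha⟩ (by rwa [Subgroup.orderOf_mk])
  obtain ⟨c, hc⟩ := MulAction.exists_smul_eq (Cfsg.GU 3 F q) P R
  have hmem : (⟨a, ha⟩ : Cfsg.GU 3 F q) ∈ ((c • P : Sylow 7 _) : Subgroup (Cfsg.GU 3 F q)) := by
    rw [hc, hR]; exact Subgroup.mem_zpowers _
  rw [Sylow.coe_subgroup_smul, hP, Subgroup.mem_pointwise_smul_iff_inv_smul_mem] at hmem
  obtain ⟨m, hm⟩ := mem_powers_iff_mem_zpowers.mpr hmem
  refine ⟨c, c.2, m, ?_⟩
  have h := congrArg (fun y : Cfsg.GU 3 F q => (y : GL (Fin 3) F)) hm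
  simp [MulAut.smul_def, mul_assoc] at h
  rw [h]
  group

set_option maxHeartbeats 2000000 in
set_option synthInstance.maxHeartbeats 200000 in
/-- Given a model, the normaliser of a cubic field is not maximal. -/
theorem no_field_three {σ : F ≃+* F} (hu : UnitarySetup 3 q σ) (hq : q = 3 ∨ q = 5) {M : Subgroup (GL (Fin 3) F)}
    {a b g d : GL (Fin 3) F} (hM : SevenModel q M a b) (hgM : g ∈ M)
    (hg : g ∈ Cfsg.GU 3 F q ⊓ specialLinear (Fin 3) F) (hne : g * a * g⁻¹ * a ≠ a * (g * a * g⁻¹))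
    (hd : d ∈ Cfsg.GU 3 F q ⊓ specialLinear (Fin 3) F) (hdM : d ∉ M)
    {H : Subgroup (GL (Fin 3) F)} (hH : IsMaximalIn (Cfsg.GU 3 F q ⊓ specialLinear (Fin 3) F) H)
    {K : Subalgebra F (Matrix (Fin 3) (Fin 3) F)} (hK : IsFieldSubalgebra 3 K)
    (hadj : IsAdjointClosedFor (Cfsg.hermForm 3 F q) K)
    (hHK : H = subalgebraNormalizer K ⊓ (Cfsg.GU 3 F q ⊓ specialLinear (Fin 3) F)) : False := by
  classical
  set G := Cfsg.GU 3 F q ⊓ specialLinear (Fin 3) F
  have hp : q.Prime := by rcases hq with rfl | rfl <;> norm_num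
  haveI := Fact.mk hp
  haveI : CharP F q := by
    obtain ⟨p, hchar⟩ := CharP.exists F
    obtain ⟨e, hpp, he⟩ := FiniteField.card F p
    rw [hu.card] at he
    obtain rfl : q = p := (Nat.prime_dvd_prime_iff_eq hp hpp).mp
      (hp.dvd_of_dvd_pow (he ▸ dvd_pow_self q two_ne_zero))
    exact hchar
  have hfield : IsField K :=
    { exists_pair_ne := ⟨0, 1, fun h => zero_ne_one (α := Matrix (Fin 3) (Fin 3) F) (congrArg Subtype.val h)⟩
      mul_comm := fun x y => Subtype.ext (hK.comm x x.2 y y.2)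
      mul_inv_cancel := fun {a} ha => by
        obtain ⟨y, hy, hay⟩ := hK.inv a a.2 (fun h => ha (Subtype.ext h))
        exact ⟨⟨y, hy⟩, Subtype.ext hay⟩ }
  letI : Field K := hfield.toField
  haveI : Fintype K := Fintype.ofFinite K
  haveI : CharP K q := charP_of_injective_algebraMap (algebraMap F K).injective q
  have hcardK : Nat.card K = q ^ 6 := by
    rw [Module.natCard_eq_pow_finrank (K := F) (V := K), hK.finrank_eq, Nat.card_eq_fintype_card, hu.card, ← pow_mul]
  have hs := hu.sesqui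
  have hnd := hu.isUnitary.nondegenerate
  have hσne : ∃ c : F, σ c ≠ c := by
    by_contra hall
    push Not at hall
    exact hu.isUnitary.ne_refl (RingEquiv.ext hall)
  -- the adjoint
  choose τ hτK hτ using fun k : K => hadj k k.2
  have hτeq : ∀ (k : K) (X : Matrix (Fin 3) (Fin 3) F), (∀ u v, Cfsg.hermForm 3 F q ((k : Matrix (Fin 3) (Fin 3) F) *ᵥ u) v =
      Cfsg.hermForm 3 F q u (X *ᵥ v)) → τ k = X := fun k X hX =>
    eq_of_adjoint hs hnd fun u v => (hτ k u v).symm.trans (hX u v)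
  let T : K →+* K :=
    { toFun := fun k => ⟨τ k, hτK k⟩
      map_one' := Subtype.ext (hτeq 1 1 fun u v => by simp)
      map_zero' := Subtype.ext (hτeq 0 0 fun u v => by simp [hs.zero_left, hs.zero_right])
      map_add' := fun x y => Subtype.ext (hτeq (x + y) (τ x + τ y) fun u v => by
        show Cfsg.hermForm 3 F q ((((x : Matrix (Fin 3) (Fin 3) F) + (y : Matrix (Fin 3) (Fin 3) F))) *ᵥ u) v = _
        rw [Matrix.add_mulVec, hs.add_left, hτ x, hτ y, Matrix.add_mulVec, hs.add_right])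
      map_mul' := fun x y => Subtype.ext (hτeq (x * y) (τ x * τ y) fun u v => by
        show Cfsg.hermForm 3 F q (((x : Matrix (Fin 3) (Fin 3) F) * (y : Matrix (Fin 3) (Fin 3) F)) *ᵥ u) v = _
        rw [← Matrix.mulVec_mulVec, hτ x, hτ y, Matrix.mulVec_mulVec]
        congr 2
        exact hK.comm _ (hτK y) _ (hτK x)) }
  have hTT : ∀ k : K, T (T k) = k := fun k => Subtype.ext (hτeq (T k) (k : Matrix (Fin 3) (Fin 3) F) fun u v => by
    show Cfsg.hermForm 3 F q (τ k *ᵥ u) v = _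
    rw [hu.herm, ← hτ k, ← hu.herm])
  have hTalg : ∀ c : F, T (algebraMap F K c) = algebraMap F K (σ c) := fun c => Subtype.ext (hτeq _ _ fun u v => by
    show Cfsg.hermForm 3 F q ((algebraMap F (Matrix (Fin 3) (Fin 3) F) c) *ᵥ u) v =
      Cfsg.hermForm 3 F q u ((algebraMap F (Matrix (Fin 3) (Fin 3) F) (σ c)) *ᵥ v)
    rw [Algebra.algebraMap_eq_smul_one, Algebra.algebraMap_eq_smul_one, Matrix.smul_mulVec, Matrix.one_mulVec,
      Matrix.smul_mulVec, Matrix.one_mulVec, hs.smul_left, hs.smul_right]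
    exact congrArg (· * _) (hu.invol c).symm)
  -- an element of order seven
  haveI : Fact (Nat.Prime 7) := ⟨by norm_num⟩
  have h7dvd : 7 ∣ Nat.card Kˣ := by
    rw [Nat.card_units, hcardK]
    rcases hq with rfl | rfl <;> norm_num
  obtain ⟨u₀, hu₀⟩ := exists_prime_orderOf_dvd_card' (G := Kˣ) 7 h7dvd
  have hx₀ : orderOf (u₀ : K) = 7 := by rw [orderOf_units, hu₀]
  have hT7 : ∀ x : K, orderOf x = 7 → T x = x ^ 6 := by
    intro x hx
    have hprim : IsPrimitiveRoot x 7 := hx ▸ IsPrimitiveRoot.orderOf x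
    obtain ⟨e, he, hTe⟩ := hprim.eq_pow_of_pow_eq_one (ξ := T x) (by rw [← map_pow, hprim.pow_eq_one, map_one])
    have h1 := hTT x
    rw [← hTe, map_pow, ← hTe, ← pow_mul] at h1
    have hmod : e * e % 7 = 1 := by
      have hu' : (IsUnit.unit (hprim.isUnit (by norm_num))) ^ (e * e) = (IsUnit.unit (hprim.isUnit (by norm_num))) ^ 1 :=
        Units.ext (by rw [Units.val_pow_eq_pow_val, Units.val_pow_eq_pow_val, IsUnit.unit_spec, pow_one]; exact h1)
      have h3 := pow_inj_mod.1 hu'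
      rw [← orderOf_units, IsUnit.unit_spec, hx] at h3
      exact h3
    have he' : e = 1 ∨ e = 6 := by interval_cases e <;> omega
    rcases he' with rfl | rfl
    · exfalso
      have htop := subfield_eq_top_of_seven hq hcardK (T.eqLocusField (RingHom.id K)) (x := x)
        (by rw [pow_one] at hTe; exact hTe.symm) hx
      obtain ⟨c, hc⟩ := hσne
      refine hc ((algebraMap F K).injective ?_)
      rw [← hTalg]
      exact (htop ▸ Subfield.mem_top (algebraMap F K c) : algebraMap F K c ∈ T.eqLocusField (RingHom.id K))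
    · exact hTe.symm
  have hTq : ∀ k : K, T k = k ^ q ^ 3 := by
    intro k
    have hfr : ∀ y : K, iterateFrobenius K q 3 y = y ^ q ^ 3 := fun y => iterateFrobenius_def q 3 y
    have htop := subfield_eq_top_of_seven hq hcardK (T.eqLocusField (iterateFrobenius K q 3)) (x := (u₀ : K)) (by
      show T _ = _
      rw [hT7 _ hx₀, hfr, ← pow_mod_orderOf (u₀ : K) (q ^ 3), hx₀]
      rcases hq with rfl | rfl <;> norm_num) hx₀
    have : k ∈ T.eqLocusField (iterateFrobenius K q 3) := htop ▸ Subfield.mem_top k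
    exact (this : T k = _).trans (hfr k)
  -- the matching element of the group
  let ρ : Kˣ →* GL (Fin 3) F := Units.map K.val.toRingHom.toMonoidHom
  have hρval : ∀ w : Kˣ, ((ρ w : GL (Fin 3) F) : Matrix (Fin 3) (Fin 3) F) = ((w : K) : Matrix (Fin 3) (Fin 3) F) :=
    fun _ => rfl
  have hρinj : Function.Injective ρ := fun v w h => Units.ext (Subtype.ext (congrArg Units.val h))
  have hρGU : ρ u₀ ∈ Cfsg.GU 3 F q := by
    refine mem_GU.2 fun u v => ?_
    show Cfsg.hermForm 3 F q (((u₀ : K) : Matrix (Fin 3) (Fin 3) F) *ᵥ u) (act (ρ u₀) v) = _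
    rw [hτ, show τ (u₀ : K) = (((u₀ : K) ^ 6 : K) : Matrix (Fin 3) (Fin 3) F) from congrArg Subtype.val (hT7 _ hx₀)]
    show Cfsg.hermForm 3 F q u (_ *ᵥ (((u₀ : K) : Matrix (Fin 3) (Fin 3) F) *ᵥ v)) = _
    rw [Matrix.mulVec_mulVec, ← Subalgebra.coe_mul, ← pow_succ,
      show (u₀ : K) ^ (6 + 1) = 1 by rw [show 6 + 1 = orderOf (u₀ : K) by rw [hx₀], pow_orderOf_eq_one],
      Subalgebra.coe_one, Matrix.one_mulVec]
  obtain ⟨c, hc, m, hcm⟩ := exists_conj_seven hq hu.card hρGU hM.mem_a.1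
    (by rw [orderOf_injective ρ hρinj, hu₀]) hM.order
  set ux : Kˣ := u₀ ^ m
  set x := ρ ux
  have hcx : c * x * c⁻¹ = a := by rw [← hcm, show x = ρ u₀ ^ m from map_pow ρ u₀ m]
  have hxo : orderOf x = 7 := by
    rw [← hM.order, ← hcx]
    exact (orderOf_injective (MulAut.conj c).toMonoidHom (MulAut.conj c).injective x).symm
  have hxK : orderOf (ux : K) = 7 := by rw [orderOf_units, ← orderOf_injective ρ hρinj]; exact hxo
  have hGc : ∀ h ∈ G, c * h * c⁻¹ ∈ G ∧ c⁻¹ * h * c ∈ G := fun h hh => by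
    refine ⟨⟨Subgroup.mul_mem _ (Subgroup.mul_mem _ hc hh.1) (Subgroup.inv_mem _ hc), ?_⟩,
      ⟨Subgroup.mul_mem _ (Subgroup.mul_mem _ (Subgroup.inv_mem _ hc) hh.1) hc, ?_⟩⟩ <;>
      show Matrix.GeneralLinearGroup.det _ = 1 <;>
      · rw [map_mul, map_mul, map_inv, show Matrix.GeneralLinearGroup.det h = 1 from hh.2]
        simp
  -- conjugates of `x` in the field
  have hconj : ∀ h ∈ H, ∃ i < 7, h * x * h⁻¹ = x ^ i := by
    intro h hh
    rw [hHK] at hh
    have hy : (h : Matrix (Fin 3) (Fin 3) F) * (x : Matrix (Fin 3) (Fin 3) F) * ((h⁻¹ : GL (Fin 3) F) : Matrix (Fin 3) (Fin 3) F) ∈ K :=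
      (hh.1 _).1 (ux : K).2
    have hy7 : (⟨_, hy⟩ : K) ^ 7 = 1 := Subtype.ext (by
      show ((h * x * h⁻¹ : GL (Fin 3) F) : Matrix (Fin 3) (Fin 3) F) ^ 7 = 1
      rw [← Units.val_pow_eq_pow_val, conj_pow, ← hxo, pow_orderOf_eq_one]
      simp)
    have hprim : IsPrimitiveRoot (ux : K) 7 := hxK ▸ IsPrimitiveRoot.orderOf _
    obtain ⟨i, hi, he⟩ := hprim.eq_pow_of_pow_eq_one hy7
    exact ⟨i, hi, Units.ext (by
      rw [Units.val_pow_eq_pow_val, hρval]
      exact (congrArg Subtype.val he).symm)⟩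
  -- the centraliser of `x`
  have hcent : ∀ z ∈ G, z * x = x * z → ∃ (j : ℕ) (r : F),
      (z : Matrix (Fin 3) (Fin 3) F) = r • ((x ^ j : GL (Fin 3) F) : Matrix (Fin 3) (Fin 3) F) := by
    intro z hz hzx
    let L : Subfield K :=
      { carrier := {k : K | (z : Matrix (Fin 3) (Fin 3) F) * (k : Matrix (Fin 3) (Fin 3) F) = (k : Matrix (Fin 3) (Fin 3) F) * (z : Matrix (Fin 3) (Fin 3) F)}
        mul_mem' := fun {p r} hp hr => by
          show (z : Matrix (Fin 3) (Fin 3) F) * _ = _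
          rw [Subalgebra.coe_mul, ← mul_assoc, hp, mul_assoc, hr, mul_assoc]
        one_mem' := by simp
        add_mem' := fun {p r} hp hr => by
          show (z : Matrix (Fin 3) (Fin 3) F) * _ = _
          rw [Subalgebra.coe_add, mul_add, add_mul, hp, hr]
        zero_mem' := by simp
        neg_mem' := fun {p} hp => by
          show (z : Matrix (Fin 3) (Fin 3) F) * _ = _
          rw [Subalgebra.coe_neg, mul_neg, neg_mul, hp]
        inv_mem' := fun p hp => by
          by_cases hp0 : p = 0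
          · subst hp0; simp
          show Commute (z : Matrix (Fin 3) (Fin 3) F) ((p⁻¹ : K) : Matrix (Fin 3) (Fin 3) F)
          let up : Kˣ := Units.mk0 p hp0
          have : Commute (z : Matrix (Fin 3) (Fin 3) F) (ρ up : Matrix (Fin 3) (Fin 3) F) := hp
          have h' := this.units_inv_right
          rwa [← map_inv] at h' }
    have hL : L = ⊤ := subfield_eq_top_of_seven hq hcardK L (x := (ux : K)) (congrArg Units.val hzx) hxK
    have hcomm : ∀ k : K, (z : Matrix (Fin 3) (Fin 3) F) * (k : Matrix (Fin 3) (Fin 3) F) =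
        (k : Matrix (Fin 3) (Fin 3) F) * (z : Matrix (Fin 3) (Fin 3) F) := fun k =>
      (hL ▸ Subfield.mem_top k : k ∈ L)
    set v : Fin 3 → F := Pi.single 0 1
    let ev : K →ₗ[F] (Fin 3 → F) :=
      { toFun := fun k => (k : Matrix (Fin 3) (Fin 3) F) *ᵥ v
        map_add' := fun p r => Matrix.add_mulVec _ _ _
        map_smul' := fun s p => Matrix.smul_mulVec _ _ _ }
    have hev : Function.Injective ev := by
      intro p r hpr
      by_contra hne
      obtain ⟨y, hy, hyk⟩ := hK.inv _ (p - r).2 (fun h => hne (sub_eq_zero.mp (Subtype.ext h)))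
      have h0 : ((p - r : K) : Matrix (Fin 3) (Fin 3) F) *ᵥ v = 0 := by
        rw [Subalgebra.coe_sub, Matrix.sub_mulVec, sub_eq_zero]; exact hpr
      rw [hK.comm _ (p - r).2 _ hy] at hyk
      have h1 := congrArg (y *ᵥ ·) h0
      simp only [Matrix.mulVec_mulVec, hyk, Matrix.one_mulVec, Matrix.mulVec_zero] at h1
      exact one_ne_zero (Pi.single_eq_zero_iff.mp h1)
    let E : K ≃ₗ[F] (Fin 3 → F) :=
      LinearEquiv.ofBijective ev ⟨hev, (LinearMap.injective_iff_surjective_of_finrank_eq_finrank (by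
        rw [hK.finrank_eq, Module.finrank_fin_fun])).mp hev⟩
    set k := E.symm ((z : Matrix (Fin 3) (Fin 3) F) *ᵥ v)
    have hk : (k : Matrix (Fin 3) (Fin 3) F) *ᵥ v = (z : Matrix (Fin 3) (Fin 3) F) *ᵥ v := E.apply_symm_apply _
    have hzk : (z : Matrix (Fin 3) (Fin 3) F) = (k : Matrix (Fin 3) (Fin 3) F) := by
      apply Matrix.ext_of_mulVec_single
      intro i
      rw [← E.apply_symm_apply (Pi.single i 1)]
      set k' := E.symm (Pi.single i 1)
      show (z : Matrix (Fin 3) (Fin 3) F) *ᵥ ((k' : Matrix (Fin 3) (Fin 3) F) *ᵥ v) = _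
      rw [Matrix.mulVec_mulVec, hcomm, ← Matrix.mulVec_mulVec, ← hk, Matrix.mulVec_mulVec,
        hK.comm _ k'.2 _ k.2, ← Matrix.mulVec_mulVec]
      rfl
    have hnorm : k ^ (q ^ 3 + 1) = 1 := by
      rw [pow_succ, ← hTq]
      refine Subtype.ext (eq_of_adjoint hs hnd fun u v => ?_)
      have h := mem_GU.1 hz.1 u v
      change Cfsg.hermForm 3 F q ((z : Matrix (Fin 3) (Fin 3) F) *ᵥ u) ((z : Matrix (Fin 3) (Fin 3) F) *ᵥ v) = _ at h
      rw [hzk, hτ] at h
      show Cfsg.hermForm 3 F q u ((τ k * (k : Matrix (Fin 3) (Fin 3) F)) *ᵥ v) = _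
      rw [← Matrix.mulVec_mulVec, h, Subalgebra.coe_one, Matrix.one_mulVec]
    have hdet : k ^ (1 + q ^ 2 + q ^ 4) = 1 := by
      have hN : Algebra.norm F k = 1 := by
        rw [Algebra.norm_apply, ← LinearMap.det_conj (Algebra.lmul F K k) E,
          show ((E : K →ₗ[F] (Fin 3 → F)) ∘ₗ Algebra.lmul F K k ∘ₗ (E.symm : (Fin 3 → F) →ₗ[F] K)) =
            Matrix.toLin' (k : Matrix (Fin 3) (Fin 3) F) from LinearMap.ext fun w => by
              show E (k * E.symm w) = Matrix.toLin' (k : Matrix (Fin 3) (Fin 3) F) w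
              conv_rhs => rw [← E.apply_symm_apply w]
              show ((k * E.symm w : K) : Matrix (Fin 3) (Fin 3) F) *ᵥ v = _
              rw [Matrix.toLin'_apply, Subalgebra.coe_mul, ← Matrix.mulVec_mulVec]
              rfl,
          LinearMap.det_toLin', ← hzk, ← Matrix.GeneralLinearGroup.val_det_apply,
          show Matrix.GeneralLinearGroup.det z = 1 from hz.2, Units.val_one]
      have h := FiniteField.algebraMap_norm_eq_pow_sum (K := F) (L := K) k
      rw [hN, map_one, hK.finrank_eq, Nat.card_eq_fintype_card, hu.card] at h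
      rw [h]
      congr 1
      simp [Finset.sum_range_succ, ← pow_mul]
    have h21 : k ^ 21 = 1 := by
      rcases hq with rfl | rfl
      · have := pow_gcd_eq_one.mpr ⟨hnorm, hdet⟩
        norm_num at this
        rw [show 21 = 7 * 3 from rfl, pow_mul, this, one_pow]
      · have := pow_gcd_eq_one.mpr ⟨hnorm, hdet⟩
        norm_num at this
        exact this
    obtain ⟨r, hr⟩ : ∃ r : F, algebraMap F K r = k ^ 7 := by
      have h3 : (k ^ 7) ^ 3 = 1 := by rw [← pow_mul]; exact h21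
      rcases hq with rfl | rfl
      · refine ⟨1, ?_⟩
        have h' : (k ^ 7 - 1) ^ 3 = 0 := by rw [sub_pow_char, h3, one_pow, sub_self]
        rw [map_one]
        exact (sub_eq_zero.mp (pow_eq_zero_iff three_ne_zero |>.mp h')).symm
      · obtain ⟨w, hw⟩ := exists_prime_orderOf_dvd_card' (G := Fˣ) 3 (by
          rw [Nat.card_units, Nat.card_eq_fintype_card, hu.card]; norm_num)
        have hwo : orderOf (w : F) = 3 := by rw [orderOf_units, hw]
        have hprim : IsPrimitiveRoot (algebraMap F K w) 3 :=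
          (hwo ▸ IsPrimitiveRoot.orderOf (w : F)).map_of_injective (algebraMap F K).injective
        obtain ⟨i, -, hi⟩ := hprim.eq_pow_of_pow_eq_one h3
        exact ⟨(w : F) ^ i, by rw [map_pow, hi]⟩
    obtain ⟨j, -, hj⟩ := (hxK ▸ IsPrimitiveRoot.orderOf (ux : K) : IsPrimitiveRoot (ux : K) 7).eq_pow_of_pow_eq_one
      (ξ := (k ^ 3) ^ 5) (by rw [← pow_mul, ← pow_mul, show 3 * 5 * 7 = 21 * 5 by norm_num, pow_mul, h21, one_pow])
    have hkk : k = algebraMap F K r * (ux : K) ^ j := by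
      rw [hj, hr, ← pow_mul, ← pow_add, show 7 + 3 * 5 = 21 + 1 from rfl, pow_succ, h21, one_mul]
    refine ⟨j, r, ?_⟩
    rw [hzk, hkk, Subalgebra.coe_mul, show x ^ j = ρ (ux ^ j) from (map_pow ρ ux j).symm, hρval,
      Units.val_pow_eq_pow_val]
    exact (Algebra.smul_def _ _).symm
  -- the conjugate of `H` lies in `M`
  have hle : ∀ h ∈ H, c * h * c⁻¹ ∈ M := by
    intro h hh
    obtain ⟨i, hi, hhx⟩ := hconj h hh
    set h' := c * h * c⁻¹
    have ha' : h' * a * h'⁻¹ = a ^ i := by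
      rw [← hcx, conj_pow, ← hhx]; simp only [h']; group
    obtain ⟨j, hj⟩ := hM.trace ⟨i, hi⟩ (by
      show Matrix.trace ((a ^ i : GL (Fin 3) F) : Matrix (Fin 3) (Fin 3) F) = _
      rw [← ha', Units.val_mul, Units.val_mul, Matrix.trace_mul_cycle, ← Units.val_mul, inv_mul_cancel,
        Units.val_one, one_mul])
    have hbj : ∀ j, b ^ j * a = a ^ (4 ^ j) * b ^ j := by
      intro j
      induction j with
      | zero => simp
      | succ j ih =>
        rw [pow_succ b j, mul_assoc, hM.semi, ← mul_assoc, ← mul_assoc]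
        have : b ^ j * a ^ 4 = a ^ (4 ^ (j + 1)) * b ^ j := by
          have := (show SemiconjBy (b ^ j) a (a ^ (4 ^ j)) from ih).pow_right 4
          rw [← pow_mul, ← pow_succ] at this
          exact this
        rw [this]
    have hai : a ^ i = a ^ (4 ^ j) := by
      rw [show i = 4 ^ j % 7 from hj, ← hM.order, pow_mod_orderOf]
    have hz : (b ^ j)⁻¹ * h' * a = a * ((b ^ j)⁻¹ * h') := by
      have h1 : h' * a = a ^ (4 ^ j) * h' := by rw [← hai, ← ha']; group
      calc (b ^ j)⁻¹ * h' * a = ((b ^ j)⁻¹ * a ^ (4 ^ j) * b ^ j) * ((b ^ j)⁻¹ * h') := by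
            rw [mul_assoc, h1]; group
        _ = a * ((b ^ j)⁻¹ * h') := by rw [mul_assoc (b ^ j)⁻¹, ← hbj, inv_mul_cancel_left]
    have hbG : (b ^ j)⁻¹ * h' ∈ G :=
      Subgroup.mul_mem _ (Subgroup.inv_mem _ (Subgroup.pow_mem _ hM.mem_b j)) (hGc h (hH.1.le hh)).1
    obtain ⟨k, r, hk⟩ := hcent (c⁻¹ * ((b ^ j)⁻¹ * h') * c) (hGc _ hbG).2 (by
      have e1 := congrArg (fun y => c⁻¹ * y * c) hz
      simp only [← hcx] at e1
      simpa only [mul_assoc, inv_mul_cancel, mul_one, inv_mul_cancel_left, mul_inv_cancel_left] using e1)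
    have hsc : (((b ^ j)⁻¹ * h') * (a ^ k)⁻¹ : GL (Fin 3) F) ∈ M := by
      refine hM.scalar _ r ?_
      rw [← hcx, conj_pow]
      have h2 := congrArg (fun X => (c : Matrix (Fin 3) (Fin 3) F) * X *
        (((x ^ k)⁻¹ * c⁻¹ : GL (Fin 3) F) : Matrix (Fin 3) (Fin 3) F)) hk
      simp only [Matrix.mul_smul, Matrix.smul_mul, ← Units.val_mul] at h2
      convert h2 using 1
      · congr 1; group
      · congr 1
        rw [← Units.val_one]; congr 1; group
    have : h' = b ^ j * ((((b ^ j)⁻¹ * h') * (a ^ k)⁻¹) * a ^ k) := by group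
    rw [this]
    exact Subgroup.mul_mem _ (Subgroup.pow_mem _ hM.b_M j) (Subgroup.mul_mem _ hsc (Subgroup.pow_mem _ hM.a_M k))
  refine false_of_overgroup hH hc hle hgM hg (fun hgH => ?_) hd hdM
  obtain ⟨i, -, hgx⟩ := hconj _ hgH
  have hga : g * a * g⁻¹ = a ^ i := by
    have h := congrArg (fun y => c * y * c⁻¹) hgx
    simp only [← conj_pow, hcx] at h
    rw [← h, ← hcx]; group
  apply hne
  rw [hga, ← pow_succ, pow_succ']

end CfsgLib.SmallDim.UThree
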